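import Mathlib

/-! Element orders in the alternating group of degree six. -/

set_option autoImplicit false
set_option maxRecDepth 100000

namespace H46.A6Facts

theorem spec6 : ∀ g : Equiv.Perm (Fin 6), (∀ i, g (g (g i)) = i) ∨ (∀ i, g (g (g (g i))) = i) ∨ (∀ i, g (g (g (g (g i)))) = i) ∨
    Equiv.Perm.sign g = -1 := by decide +kernel

theorem card2 : (Finset.univ.filter (fun g : Equiv.Perm (Fin 6) => (∀ i, g (g i) = i) ∧ Equiv.Perm.sign g = 1)).card = 46 := by decide +kernel

theorem card3 : (Finset.univ.filter (fun g : Equiv.Perm (Fin 6) => ∀ i, g (g (g i)) = i)).card = 81 := by decide +kernel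

/-- element orders of `A₆` -/
theorem spectrum (g : alternatingGroup (Fin 6)) : g ^ 3 = 1 ∨ g ^ 4 = 1 ∨ g ^ 5 = 1 := by
  rcases spec6 g with h | h | h | h
  · left
    apply Subtype.ext
    ext1 i
    exact h i
  · right; left
    apply Subtype.ext
    ext1 i
    exact h i
  · right; right
    apply Subtype.ext
    ext1 i
    exact h i
  · exfalso
    have := g.2
    rw [Equiv.Perm.mem_alternatingGroup, h] at this
    exact absurd this (by decide)

/-- number of solutions of `g ^ 2 = 1` -/
theorem natCard_two : Nat.card {g : alternatingGroup (Fin 6) // g ^ 2 = 1} = 46 := by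
  rw [← card2, ← Fintype.card_subtype, ← Nat.card_eq_fintype_card]
  refine Nat.card_congr ⟨fun g => ⟨g.1.1, fun i => ?_, Equiv.Perm.mem_alternatingGroup.mp g.1.2⟩, fun g => ⟨⟨g.1, Equiv.Perm.mem_alternatingGroup.mpr g.2.2⟩, ?_⟩, fun g => rfl, fun g => rfl⟩
  · have h := congrArg (fun x : alternatingGroup (Fin 6) => (x : Equiv.Perm (Fin 6)) i) g.2
    exact h
  · apply Subtype.ext
    ext1 i
    exact g.2.1 i

/-- number of solutions of `g ^ 3 = 1` -/
theorem natCard_three : Nat.card {g : alternatingGroup (Fin 6) // g ^ 3 = 1} = 81 := by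
  rw [← card3, ← Fintype.card_subtype, ← Nat.card_eq_fintype_card]
  refine Nat.card_congr ⟨fun g => ⟨g.1.1, fun i => ?_⟩, fun g => ⟨⟨g.1, Equiv.Perm.mem_alternatingGroup.mpr ?_⟩, ?_⟩, fun g => rfl, fun g => rfl⟩
  · have h := congrArg (fun x : alternatingGroup (Fin 6) => (x : Equiv.Perm (Fin 6)) i) g.2
    exact h
  · have h3 : g.1 ^ 3 = 1 := by ext1 i; exact g.2 i
    have h := congrArg Equiv.Perm.sign h3
    rw [map_pow, map_one] at h
    rcases Int.units_eq_one_or (Equiv.Perm.sign g.1) with h1 | h1
    · exact h1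
    · rw [h1] at h
      exact absurd h (by decide)
  · apply Subtype.ext
    ext1 i
    exact g.2 i

theorem natCard : Nat.card (alternatingGroup (Fin 6)) = 360 := by
  rw [nat_card_alternatingGroup]
  simp [Nat.factorial]

end H46.A6Facts
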