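import Mathlib
import Cfsg.Agent.Lib.H46.SpDich

/-! Commuting semisimple and unipotent isometries of symmetric bilinear spaces: numerical block data. -/

set_option autoImplicit false

namespace H46.Tri

open Module Polynomial H46.SForm H46.SForm.SForm H46.ProjOrder H46.ProdUnit H46.OrthDec H46.FieldInv H46.ExtElt H46.SpDich

/-- numerical data of a decomposition into blocks: dimension, exponent of the semisimple part, exponent of the unipotent part -/
inductive Bl (q p : ℕ) : ℕ → ℕ → ℕ → Prop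
  | S (n j : ℕ) (hn : 0 < n) (h : ∀ i < j, p ^ i < (if Even n then n - 1 else n)) : Bl q p n 2 j
  | I (e k j : ℕ) (he : 0 < e) (hk : 0 < k) (h : ∀ i < j, p ^ i < k) : Bl q p (2 * e * k) (q ^ e + 1) j
  | P (d k j : ℕ) (hd : 0 < d) (hk : 0 < k) (h : ∀ i < j, p ^ i < k) : Bl q p (2 * d * k) (q ^ d - 1) j
  | D (n₁ m₁ j₁ n₂ m₂ j₂ : ℕ) (h₁ : Bl q p n₁ m₁ j₁) (h₂ : Bl q p n₂ m₂ j₂) : Bl q p (n₁ + n₂) (Nat.lcm m₁ m₂) (max j₁ j₂)

section nilp
variable {F : Type*} [Field F] {V : Type*} [AddCommGroup V] [Module F V] [FiniteDimensional F V]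

/-- ranks of powers of a nilpotent endomorphism -/
theorem finrank_range_pow {N : Module.End F V} (hN : IsNilpotent N) (i : ℕ) : finrank F (LinearMap.range (N ^ i)) ≤ finrank F V - i := by
  induction i with
  | zero => exact Submodule.finrank_le _
  | succ i ih =>
    have hle : LinearMap.range (N ^ (i + 1)) ≤ LinearMap.range (N ^ i) := by
      rintro _ ⟨v, rfl⟩
      refine ⟨N v, ?_⟩
      rw [pow_succ]; rfl
    rcases eq_or_lt_of_le hle with h | h
    · -- the image vanishes
      have h1 : ∀ k, LinearMap.range (N ^ (i + k)) = LinearMap.range (N ^ i) := by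
        intro k
        induction k with
        | zero => rfl
        | succ k ihk =>
          have h2 : LinearMap.range (N ^ (i + (k + 1))) = (LinearMap.range (N ^ (i + k))).map N := by
            rw [← LinearMap.range_comp]
            congr 1
            rw [show i + (k + 1) = (i + k) + 1 by ring, pow_succ']
            rfl
          have h3 : LinearMap.range (N ^ (i + 1)) = (LinearMap.range (N ^ i)).map N := by
            rw [← LinearMap.range_comp]
            congr 1
            rw [pow_succ']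
            rfl
          rw [h2, ihk, ← h3, h]
      obtain ⟨m, hm⟩ := hN
      have h2 := h1 m
      rw [pow_add, hm, mul_zero, LinearMap.range_zero] at h2
      rw [h, ← h2, finrank_bot]
      exact Nat.zero_le _
    · have := Submodule.finrank_lt_finrank_of_lt h
      omega

theorem nilp_pow_finrank {N : Module.End F V} (hN : IsNilpotent N) : N ^ finrank F V = 0 := by
  have h := finrank_range_pow hN (finrank F V)
  rw [Nat.sub_self, Nat.le_zero, Submodule.finrank_eq_zero, LinearMap.range_eq_bot] at h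
  exact h

/-- no single Jordan block of even size -/
theorem even_block (h2 : (2 : F) ≠ 0) {f : SForm F V (RingHom.id F)} (hs : f.Sym 1) (hn : f.ND) {t : (Module.End F V)ˣ} (ht : f.Isom t)
    (hN : IsNilpotent ((t : Module.End F V) - 1)) (he : Even (finrank F V)) (h0 : 0 < finrank F V) :
    ((t : Module.End F V) - 1) ^ (finrank F V - 1) = 0 := by
  obtain ⟨n, hnn⟩ : ∃ n, n = finrank F V := ⟨_, rfl⟩
  rw [← hnn] at he h0 ⊢
  set N := (t : Module.End F V) - 1 with hNd
  have hNn : N ^ n = 0 := hnn ▸ nilp_pow_finrank hN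
  -- adjoint
  set t' : Module.End F V := ((t⁻¹ : (Module.End F V)ˣ) : Module.End F V) with ht'
  have htt : t' * (t : Module.End F V) = 1 := by rw [ht', ← Units.val_mul, inv_mul_cancel]; rfl
  have hadj : f.Adj N (-(t' * N)) := by
    have h1 := (ht.adj).sub Adj.one
    have h3 : t' - 1 = -(t' * N) := by
      rw [hNd, mul_sub, htt, mul_one, neg_sub]
    rw [← h3]
    exact h1
  have hcomm : Commute t' N := by
    have h1 : Commute t' (t : Module.End F V) := by
      show t' * (t : Module.End F V) = (t : Module.End F V) * t'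
      rw [htt, ht', ← Units.val_mul, mul_inv_cancel]; rfl
    exact h1.sub_right (Commute.one_right _)
  have hadjk : ∀ k, f.Adj (N ^ k) ((-(t' * N)) ^ k) := by
    intro k
    induction k with
    | zero => rw [pow_zero, pow_zero]; exact Adj.one
    | succ k ih =>
      rw [pow_succ' (-(t' * N)), pow_succ]
      exact ih.mul hadj
  -- t' acts trivially on the image of N^(n-1)
  have hfix : ∀ k, t' ^ k * N ^ (n - 1) = N ^ (n - 1) := by
    intro k
    induction k with
    | zero => rw [pow_zero, one_mul]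
    | succ k ih =>
      have h1 : t' * N ^ (n - 1) = N ^ (n - 1) := by
        have h3 : N * N ^ (n - 1) = 0 := by rw [← pow_succ', Nat.sub_add_cancel h0, hNn]
        have h4 : (t : Module.End F V) * N ^ (n - 1) = N ^ (n - 1) := by
          have : (t : Module.End F V) = N + 1 := by rw [hNd, sub_add_cancel]
          rw [this, add_mul, h3, zero_add, one_mul]
        conv_lhs => rw [← h4]
        rw [← mul_assoc, htt, one_mul]
      rw [pow_succ, mul_assoc, h1, ih]
  have hodd : Odd (n - 1) := Nat.Even.sub_odd h0 he odd_one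
  have hskew : ∀ u v, f.B (N ^ (n - 1) * 1 |> fun a => a u) v = - f.B u ((N ^ (n - 1)) v) := by
    intro u v
    show f.B ((N ^ (n - 1) * 1) u) v = _
    rw [mul_one, hadjk (n - 1) u v, neg_pow, hodd.neg_one_pow, hcomm.mul_pow, hfix, neg_one_mul, LinearMap.neg_apply, f.neg_right]
  have hskew' : ∀ u v, f.B ((N ^ (n - 1)) u) v = - f.B u ((N ^ (n - 1)) v) := by
    intro u v
    have := hskew u v
    simpa using this
  have hsym : ∀ u v, f.B u v = f.B v u := fun u v => by
    have h := hs v u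
    rw [RingHom.id_apply, one_mul] at h
    exact h
  by_contra hne
  obtain ⟨v₀, hv₀⟩ : ∃ v, (N ^ (n - 1)) v ≠ 0 := by
    by_contra hcon
    push Not at hcon
    exact hne (LinearMap.ext hcon)
  have hr := finrank_range_pow hN (n - 1)
  rw [← hnn] at hr
  have hr1 : finrank F (LinearMap.range (N ^ (n - 1))) ≤ 1 := by omega
  have hw : ∀ v, ∃ c : F, (N ^ (n - 1)) v = c • (N ^ (n - 1)) v₀ := by
    intro v
    obtain ⟨c, hc⟩ := (finrank_le_one_iff (K := F)).mp hr1
    obtain ⟨a, ha⟩ := hc ⟨(N ^ (n - 1)) v₀, ⟨v₀, rfl⟩⟩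
    obtain ⟨b, hb⟩ := hc ⟨(N ^ (n - 1)) v, ⟨v, rfl⟩⟩
    have ha' : a • (c : V) = (N ^ (n - 1)) v₀ := congrArg Subtype.val ha
    have hb' : b • (c : V) = (N ^ (n - 1)) v := congrArg Subtype.val hb
    have ha0 : a ≠ 0 := by
      rintro rfl
      rw [zero_smul] at ha'
      exact hv₀ ha'.symm
    refine ⟨b * a⁻¹, ?_⟩
    rw [← hb', ← ha', smul_smul, inv_mul_cancel_right₀ ha0]
  have h00 : f.B v₀ ((N ^ (n - 1)) v₀) = 0 := by
    have h1 := hskew' v₀ v₀
    rw [hsym] at h1
    have h3 : (2 : F) * f.B v₀ ((N ^ (n - 1)) v₀) = 0 := by linear_combination h1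
    exact (mul_eq_zero.mp h3).resolve_left h2
  apply hv₀
  apply hn
  intro u
  rw [hsym]
  have h1 := hskew' u v₀
  obtain ⟨c, hc⟩ := hw u
  rw [hc, f.smul_left, hsym, h00, mul_zero] at h1
  exact neg_eq_zero.mp h1.symm

/-- a polynomial in an operator with irreducible minimal polynomial is injective or zero -/
theorem aeval_eq_zero {s : Module.End F V} (hi : Irreducible (minpoly F s)) (P : F[X]) {v : V} (hv : v ≠ 0) (h : aeval s P v = 0) : aeval s P = 0 := by
  rcases (EuclideanDomain.dvd_or_coprime (minpoly F s) P hi).symm with h1 | h1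
  · exfalso
    obtain ⟨a, b, hab⟩ := h1
    apply hv
    have h3 : aeval s (a * minpoly F s + b * P) v = v := by rw [hab, map_one]; rfl
    rw [← h3, map_add, map_mul, minpoly.aeval, mul_zero, zero_add, map_mul]
    show (aeval s b) ((aeval s P) v) = 0
    rw [h, map_zero]
  · obtain ⟨c, hc⟩ := h1
    rw [hc, map_mul, minpoly.aeval, zero_mul]

end nilp

section tri
variable {F : Type*} [Field F] [Finite F] (p : ℕ) [Fact p.Prime] [CharP F p]

/-- the trichotomy -/
theorem tri (h2 : (2 : F) ≠ 0) {V : Type*} [AddCommGroup V] [Module F V] [FiniteDimensional F V] [Nontrivial V] {f : SForm F V (RingHom.id F)} (hs : f.Sym 1) (hn : f.ND)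
    {s t : (Module.End F V)ˣ} (hsi : f.Isom s) (hti : f.Isom t) (hc : Commute t s) {m j : ℕ} (hm : (m : F) ≠ 0) (hsm : s ^ m = 1) (htj : t ^ p ^ j = 1) :
    (∃ W₁ W₂ : Submodule F V, IsCompl W₁ W₂ ∧ W₁ ≠ ⊥ ∧ W₂ ≠ ⊥ ∧ (∀ v ∈ W₁, ∀ w ∈ W₂, f.B v w = 0) ∧
      (∀ g : Module.End F V, Commute g (s : Module.End F V) → (∀ v ∈ W₁, g v ∈ W₁) ∧ (∀ v ∈ W₂, g v ∈ W₂))) ∨
    ((∃ N j', Bl (Nat.card F) p (finrank F V) N j' ∧ s ^ N = 1 ∧ t ^ p ^ j' = 1) ∧
      ∀ v, f.B v v ≠ 0 → ∀ k : ℕ, ((s ^ k : (Module.End F V)ˣ) : Module.End F V) v = v → s ^ k = 1) := by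
  classical
  have hp : p.Prime := Fact.out
  have hndr : f.NDR := hs.ndr hn
  have h0 : 0 < finrank F V := Module.finrank_pos
  have hcomm : Commute (t : Module.End F V) (s : Module.End F V) := by
    have := congrArg Units.val hc.eq
    exact this
  -- minimal exponent
  have hex : ∃ j', t ^ p ^ j' = 1 := ⟨j, htj⟩
  obtain ⟨j', hj', hjm⟩ : ∃ j', t ^ p ^ j' = 1 ∧ ∀ i < j', t ^ p ^ i ≠ 1 :=
    ⟨Nat.find hex, Nat.find_spec hex, fun i hi => Nat.find_min hex hi⟩
  have hnil : IsNilpotent ((t : Module.End F V) - 1) := isNilpotent_sub_one p _ j' (by rw [← Units.val_pow_eq_pow_val, hj']; rfl)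
  have hbd : ∀ k, ((t : Module.End F V) - 1) ^ k = 0 → ∀ i < j', p ^ i < k := by
    intro k hk i hi
    have := unip_bound p (t : Module.End F V) k (i + 1) hk (by
      rw [Nat.add_sub_cancel]
      intro h
      exact hjm i hi (Units.ext (by rw [Units.val_pow_eq_pow_val, h]; rfl)))
    rwa [Nat.add_sub_cancel] at this
  have hst : aeval (s : Module.End F V) (X ^ m - C 1 : F[X]) = 0 := by
    have h1 : (s : Module.End F V) ^ m = 1 := by rw [← Units.val_pow_eq_pow_val, hsm]; rfl
    simp [h1]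
  have hP : Squarefree (X ^ m - C 1 : F[X]) := (separable_X_pow_sub_C 1 hm one_ne_zero).squarefree
  have hq1 : 1 < Nat.card F := Finite.one_lt_card
  rcases structure_isom (fun _ => rfl) (ε := (1 : F)) ⟨rfl, by ring⟩ hs hn s hsi _ hP hst with h | h | h
  · left; exact h
  · right
    have hsr : ∀ v, f.B v v ≠ 0 → ∀ k : ℕ, ((s ^ k : (Module.End F V)ˣ) : Module.End F V) v = v → s ^ k = 1 := by
      intro v hv k hk
      have hv0 : v ≠ 0 := by rintro rfl; exact hv (f.zero_left 0)
      have h1 : aeval (s : Module.End F V) (X ^ k - 1 : F[X]) = (s : Module.End F V) ^ k - 1 := by simp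
      have h3 := aeval_eq_zero h (X ^ k - 1) hv0 (by
        rw [h1, LinearMap.sub_apply, ← Units.val_pow_eq_pow_val, hk, Module.End.one_apply, sub_self])
      rw [h1, sub_eq_zero] at h3
      exact Units.ext (by rw [Units.val_pow_eq_pow_val, h3]; rfl)
    by_cases hs2 : s ^ 2 = 1
    · refine ⟨⟨2, j', Bl.S _ _ h0 ?_, hs2, hj'⟩, hsr⟩
      intro i hi
      split_ifs with he
      · exact hbd _ (even_block h2 hs hn hti hnil he h0) i hi
      · exact hbd _ (nilp_pow_finrank hnil) i hi
    · obtain ⟨r, hr, hsr', -, hcr⟩ := irred_data (fun _ => rfl) hndr s hsi _ rfl h (Or.inr hs2)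
      obtain ⟨k, hk0, hkdim, hkcard, -, hunip⟩ := field_data (s : Module.End F V) _ rfl h
      have hfact : Fact (Irreducible (minpoly F (s : Module.End F V))) := ⟨h⟩
      haveI hfin0 : Module.Finite F (AdjoinRoot (minpoly F (s : Module.End F V))) := (AdjoinRoot.powerBasis h.ne_zero).finite
      obtain ⟨e, he⟩ := exists_pow_eq (F := F) p r _ (by rw [hr, Module.natCard_eq_pow_finrank (K := F)]) (fun c => hcr c)
      have hdim : finrank F V = 2 * e * k := by
        have h1 := hr
        rw [he, Module.natCard_eq_pow_finrank (K := F) (V := AdjoinRoot (minpoly F (s : Module.End F V))), ← pow_mul] at h1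
        have h3 := Nat.pow_right_injective hq1 h1
        rw [← hkdim, ← h3, mul_comm e 2]
      have he0 : 0 < e := by
        rcases Nat.eq_zero_or_pos e with h1 | h1
        · rw [h1, mul_zero, zero_mul] at hdim; omega
        · exact h1
      refine ⟨⟨Nat.card F ^ e + 1, j', ?_, by rw [← he]; exact hsr', hj'⟩, hsr⟩
      rw [hdim]
      exact Bl.I e k j' he0 hk0 (hbd k (hunip _ hcomm hnil))
  · right
    obtain ⟨W₁, W₂, h, hW, hW₁, hW₂, hiso₁, hiso₂, hinv, hirr, hker⟩ := h
    have hpair : Pair f W₁ W₂ := ⟨hW, hiso₁, hiso₂⟩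
    have hnt₁ : Nontrivial W₁ := Submodule.nontrivial_iff_ne_bot.mpr hW₁
    obtain ⟨hs₁, hs₂⟩ := hinv _ (Commute.refl (s : Module.End F V))
    obtain ⟨hg₁, hg₂⟩ := hinv _ hcomm
    obtain ⟨s₁, -, hs₁v⟩ := exists_res s W₁ hs₁
    obtain ⟨g₁, -, hg₁v⟩ := exists_res t W₁ hg₁
    have hirr₁ : Irreducible (minpoly F (s₁ : Module.End F W₁)) := by
      apply irreducible_minpoly_restrict _ h hirr
      intro w
      apply Subtype.ext
      rw [res_aeval hs₁v, hker w w.2]; rfl
    obtain ⟨k, hk0, hkdim, hkcard, -, hunip⟩ := field_data (s₁ : Module.End F W₁) _ rfl hirr₁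
    have hfact : Fact (Irreducible (minpoly F (s₁ : Module.End F W₁))) := ⟨hirr₁⟩
    haveI hfin0 : Module.Finite F (AdjoinRoot (minpoly F (s₁ : Module.End F W₁))) := (AdjoinRoot.powerBasis hirr₁.ne_zero).finite
    have hdim₁ : finrank F V = 2 * finrank F W₁ := by
      have h1 := hpair.finrank_eq hndr
      have h2 := Submodule.finrank_add_eq_of_isCompl hW
      omega
    have hpowW : ∀ (w : (Module.End F V)ˣ) (W : Submodule F V), (∀ v ∈ W, (w : Module.End F V) v ∈ W) → ∀ j : ℕ, ∀ v ∈ W, ((w ^ j : (Module.End F V)ˣ) : Module.End F V) v ∈ W := by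
      intro w W hw j
      induction j with
      | zero => intro v hv; exact hv
      | succ j ih =>
        intro v hv
        rw [pow_succ, Units.val_mul]
        exact ih _ (hw v hv)
    have htriv : ∀ (w : (Module.End F V)ˣ) (w₁ : (Module.End F W₁)ˣ), f.Isom w → (∀ v ∈ W₂, (w : Module.End F V) v ∈ W₂) →
        (∀ x : W₁, (((w₁ : Module.End F W₁) x : W₁) : V) = (w : Module.End F V) x) → ∀ m : ℕ, w₁ ^ m = 1 → w ^ m = 1 := by
      intro w w₁ hw hw₂ hww m hm
      apply hpair.eq_one hndr hn (hw.pow m)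
      · intro v hv
        exact hpowW w W₂ hw₂ m v hv
      · intro v hv
        have h3 := res_pow hww m ⟨v, hv⟩
        rw [Units.val_pow_eq_pow_val, ← h3, ← Units.val_pow_eq_pow_val, hm]
        rfl
    have hsr : ∀ v, f.B v v ≠ 0 → ∀ k : ℕ, ((s ^ k : (Module.End F V)ˣ) : Module.End F V) v = v → s ^ k = 1 := by
      intro v hv k hk
      obtain ⟨a, ha, b, hb, rfl⟩ := mem_sup_of_compl hW v
      have ha0 : a ≠ 0 := by
        rintro rfl
        rw [zero_add] at hv
        exact hv (hiso₂ b hb b hb)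
      have hka : ((s ^ k : (Module.End F V)ˣ) : Module.End F V) a = a := by
        rw [map_add] at hk
        have h1 := hpowW s W₁ hs₁ k a ha
        have h3 := hpowW s W₂ hs₂ k b hb
        have h4 : ((s ^ k : (Module.End F V)ˣ) : Module.End F V) a - a = b - ((s ^ k : (Module.End F V)ˣ) : Module.End F V) b := by
          rw [sub_eq_sub_iff_add_eq_add, hk, add_comm]
        have h5 : ((s ^ k : (Module.End F V)ˣ) : Module.End F V) a - a ∈ W₁ ⊓ W₂ := ⟨W₁.sub_mem h1 ha, by rw [h4]; exact W₂.sub_mem hb h3⟩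
        rw [hW.inf_eq_bot, Submodule.mem_bot, sub_eq_zero] at h5
        exact h5
      apply htriv s s₁ hsi hs₂ hs₁v k
      have h1 : aeval (s₁ : Module.End F W₁) (X ^ k - 1 : F[X]) = (s₁ : Module.End F W₁) ^ k - 1 := by simp
      have h3 := aeval_eq_zero hirr₁ (X ^ k - 1) (v := (⟨a, ha⟩ : W₁)) (fun h => ha0 (congrArg Subtype.val h)) (by
        rw [h1, LinearMap.sub_apply, Module.End.one_apply, sub_eq_zero]
        apply Subtype.ext
        rw [res_pow hs₁v, ← Units.val_pow_eq_pow_val]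
        exact hka)
      rw [h1, sub_eq_zero] at h3
      exact Units.ext (by rw [Units.val_pow_eq_pow_val, h3]; rfl)
    have hc₁ : Commute (g₁ : Module.End F W₁) (s₁ : Module.End F W₁) := by
      ext1 x
      apply Subtype.ext
      show (((g₁ : Module.End F W₁) ((s₁ : Module.End F W₁) x) : W₁) : V) = (((s₁ : Module.End F W₁) ((g₁ : Module.End F W₁) x) : W₁) : V)
      rw [hg₁v, hs₁v, hs₁v, hg₁v]
      exact congrArg (fun φ : Module.End F V => φ x) hcomm.eq
    have hgp : g₁ ^ p ^ j' = 1 := by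
      apply Units.ext
      ext1 x
      apply Subtype.ext
      rw [Units.val_pow_eq_pow_val, res_pow hg₁v, ← Units.val_pow_eq_pow_val, hj']
      rfl
    have hnil₁ : IsNilpotent ((g₁ : Module.End F W₁) - 1) := isNilpotent_sub_one p _ j' (by rw [← Units.val_pow_eq_pow_val, hgp]; rfl)
    have hd0 : 0 < finrank F (AdjoinRoot (minpoly F (s₁ : Module.End F W₁))) := by
      rcases Nat.eq_zero_or_pos (finrank F (AdjoinRoot (minpoly F (s₁ : Module.End F W₁)))) with h1 | h1
      · rw [h1, zero_mul] at hkdim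
        have := Module.finrank_pos (R := F) (M := W₁)
        omega
      · exact h1
    refine ⟨⟨Nat.card F ^ finrank F (AdjoinRoot (minpoly F (s₁ : Module.End F W₁))) - 1, j', ?_, ?_, hj'⟩, hsr⟩
    · have hdim : finrank F V = 2 * finrank F (AdjoinRoot (minpoly F (s₁ : Module.End F W₁))) * k := by
        rw [hdim₁, ← hkdim, mul_assoc]
      rw [hdim]
      refine Bl.P _ k j' hd0 hk0 ?_
      intro i hi
      have := unip_bound p (g₁ : Module.End F W₁) k (i + 1) (hunip _ hc₁ hnil₁) (by
        rw [Nat.add_sub_cancel]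
        intro h
        apply hjm i hi
        exact htriv t g₁ hti hg₂ hg₁v _ (Units.ext (by rw [Units.val_pow_eq_pow_val, h]; rfl)))
      rwa [Nat.add_sub_cancel] at this
    · rw [← Module.natCard_eq_pow_finrank (K := F)]
      exact htriv s s₁ hsi hs₂ hs₁v _ (pow_card_sub_one s₁ _ rfl hirr₁)

/-- existence of block data -/
theorem exists_bl (h2 : (2 : F) ≠ 0) (n : ℕ) : ∀ {V : Type*} [AddCommGroup V] [Module F V] [FiniteDimensional F V] {f : SForm F V (RingHom.id F)} (_ : f.Sym 1) (_ : f.ND)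
    {s t : (Module.End F V)ˣ} (_ : f.Isom s) (_ : f.Isom t) (_ : Commute t s) {m j : ℕ} (_ : (m : F) ≠ 0) (_ : s ^ m = 1) (_ : t ^ p ^ j = 1)
    (_ : finrank F V = n) (_ : 0 < n), ∃ N j', Bl (Nat.card F) p n N j' ∧ s ^ N = 1 ∧ t ^ p ^ j' = 1 := by
  induction n using Nat.strong_induction_on with
  | _ n ih =>
    intro V _ _ _ f hs hn s t hsi hti hc m j hm hsm htj hdim h0
    haveI : Nontrivial V := Module.nontrivial_of_finrank_pos (R := F) (by omega)
    rcases tri p h2 hs hn hsi hti hc hm hsm htj with ⟨W₁, W₂, hW, hW₁, hW₂, horth, hinv⟩ | ⟨h, -⟩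
    · have hcomm : Commute (t : Module.End F V) (s : Module.End F V) := congrArg Units.val hc.eq
      obtain ⟨hs₁, hs₂⟩ := hinv _ (Commute.refl (s : Module.End F V))
      obtain ⟨ht₁, ht₂⟩ := hinv _ hcomm
      obtain ⟨s₁, -, hs₁v⟩ := exists_res s W₁ hs₁
      obtain ⟨s₂, -, hs₂v⟩ := exists_res s W₂ hs₂
      obtain ⟨t₁, -, ht₁v⟩ := exists_res t W₁ ht₁
      obtain ⟨t₂, -, ht₂v⟩ := exists_res t W₂ ht₂
      have horth' : ∀ v ∈ W₂, ∀ w ∈ W₁, f.B v w = 0 := by
        intro v hv w hw
        rw [hs w v, horth w hw v hv, map_zero, mul_zero]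
      have n1 : (f.pull W₁.subtype).ND := by
        intro v hv
        apply Subtype.ext
        apply hn
        intro w
        obtain ⟨a, ha, b, hb, rfl⟩ := mem_sup_of_compl hW w
        rw [f.add_right, horth v v.2 b hb, add_zero]
        exact hv ⟨a, ha⟩
      have n2 : (f.pull W₂.subtype).ND := by
        intro v hv
        apply Subtype.ext
        apply hn
        intro w
        obtain ⟨a, ha, b, hb, rfl⟩ := mem_sup_of_compl hW w
        rw [f.add_right, horth' v v.2 a ha, zero_add]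
        exact hv ⟨b, hb⟩
      have iso : ∀ (W : Submodule F V) (u : (Module.End F V)ˣ) (w : (Module.End F W)ˣ), f.Isom u → (∀ x : W, (((w : Module.End F W) x : W) : V) = (u : Module.End F V) x) →
          (f.pull W.subtype).Isom w := by
        intro W u w hu h v z
        show f.B _ _ = f.B _ _
        rw [Submodule.subtype_apply, Submodule.subtype_apply, h, h, hu]; rfl
      have pw : ∀ (W : Submodule F V) (u : (Module.End F V)ˣ) (w : (Module.End F W)ˣ), (∀ x : W, (((w : Module.End F W) x : W) : V) = (u : Module.End F V) x) → ∀ k : ℕ, u ^ k = 1 → w ^ k = 1 := by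
        intro W u w h k hk
        apply Units.ext
        ext1 x
        apply Subtype.ext
        rw [Units.val_pow_eq_pow_val, res_pow h, ← Units.val_pow_eq_pow_val, hk]
        rfl
      have cm : ∀ (W : Submodule F V) (a b : (Module.End F W)ˣ), (∀ x : W, (((a : Module.End F W) x : W) : V) = (t : Module.End F V) x) → (∀ x : W, (((b : Module.End F W) x : W) : V) = (s : Module.End F V) x) → Commute a b := by
        intro W a b ha hb
        apply Units.ext
        ext1 x
        apply Subtype.ext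
        show (((a : Module.End F W) ((b : Module.End F W) x) : W) : V) = (((b : Module.End F W) ((a : Module.End F W) x) : W) : V)
        rw [ha, hb, hb, ha]
        exact congrArg (fun φ : Module.End F V => φ x) hcomm.eq
      have hfs := Submodule.finrank_add_eq_of_isCompl hW
      have hp1 : 0 < finrank F W₁ := by
        rw [Nat.pos_iff_ne_zero, Ne, Submodule.finrank_eq_zero]; exact hW₁
      have hp2 : 0 < finrank F W₂ := by
        rw [Nat.pos_iff_ne_zero, Ne, Submodule.finrank_eq_zero]; exact hW₂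
      obtain ⟨N₁, j₁, b₁, c₁, d₁⟩ := ih (finrank F W₁) (by omega) (f := f.pull W₁.subtype) (fun v w => hs _ _) n1 (iso W₁ s s₁ hsi hs₁v) (iso W₁ t t₁ hti ht₁v) (cm W₁ t₁ s₁ ht₁v hs₁v) hm
        (pw W₁ s s₁ hs₁v m hsm) (pw W₁ t t₁ ht₁v _ htj) rfl hp1
      obtain ⟨N₂, j₂, b₂, c₂, d₂⟩ := ih (finrank F W₂) (by omega) (f := f.pull W₂.subtype) (fun v w => hs _ _) n2 (iso W₂ s s₂ hsi hs₂v) (iso W₂ t t₂ hti ht₂v) (cm W₂ t₂ s₂ ht₂v hs₂v) hm
        (pw W₂ s s₂ hs₂v m hsm) (pw W₂ t t₂ ht₂v _ htj) rfl hp2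
      have glue : ∀ (u : (Module.End F V)ˣ) (u₁ : (Module.End F W₁)ˣ) (u₂ : (Module.End F W₂)ˣ), (∀ x : W₁, (((u₁ : Module.End F W₁) x : W₁) : V) = (u : Module.End F V) x) →
          (∀ x : W₂, (((u₂ : Module.End F W₂) x : W₂) : V) = (u : Module.End F V) x) → ∀ k : ℕ, u₁ ^ k = 1 → u₂ ^ k = 1 → u ^ k = 1 := by
        intro u u₁ u₂ h₁ h₂ k hk₁ hk₂
        apply Units.ext
        ext1 v
        obtain ⟨a, ha, b, hb, rfl⟩ := mem_sup_of_compl hW v
        rw [map_add, Units.val_pow_eq_pow_val]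
        have e1 := res_pow h₁ k ⟨a, ha⟩
        have e2 := res_pow h₂ k ⟨b, hb⟩
        rw [← Units.val_pow_eq_pow_val, hk₁] at e1
        rw [← Units.val_pow_eq_pow_val, hk₂] at e2
        rw [← e1, ← e2]
        rfl
      refine ⟨Nat.lcm N₁ N₂, max j₁ j₂, ?_, ?_, ?_⟩
      · have := Bl.D _ _ _ _ _ _ b₁ b₂
        rwa [hfs, hdim] at this
      · exact glue s s₁ s₂ hs₁v hs₂v _ (orderOf_dvd_iff_pow_eq_one.mp ((orderOf_dvd_of_pow_eq_one c₁).trans (Nat.dvd_lcm_left _ _)))
          (orderOf_dvd_iff_pow_eq_one.mp ((orderOf_dvd_of_pow_eq_one c₂).trans (Nat.dvd_lcm_right _ _)))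
      · exact glue t t₁ t₂ ht₁v ht₂v _ (orderOf_dvd_iff_pow_eq_one.mp ((orderOf_dvd_of_pow_eq_one d₁).trans (pow_dvd_pow _ (le_max_left _ _))))
          (orderOf_dvd_iff_pow_eq_one.mp ((orderOf_dvd_of_pow_eq_one d₂).trans (pow_dvd_pow _ (le_max_right _ _))))
    · rw [hdim] at h
      exact h

end tri

end H46.Tri
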