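import Mathlib
import Cfsg.Agent.Lib.H46.Tri

/-! Numerical consequences of block data in small dimension. -/

set_option autoImplicit false

namespace H46.BlNum

open H46.Tri

variable {q p : ℕ}

theorem Bl_pos {n m j : ℕ} (h : Bl q p n m j) : 0 < n := by
  induction h with
  | S n j hn h => exact hn
  | I e k j he hk h => exact Nat.mul_pos (Nat.mul_pos two_pos he) hk
  | P d k j hd hk h => exact Nat.mul_pos (Nat.mul_pos two_pos hd) hk
  | D n₁ m₁ j₁ n₂ m₂ j₂ h₁ h₂ ih₁ ih₂ => omega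

/-- arithmetic facts on an odd prime power -/
structure Ar (q : ℕ) : Prop where
  odd : Odd q
  three : 3 ≤ q

variable (hq : Ar q)
include hq

theorem two_dvd_pow_sub (k : ℕ) : 2 ∣ q ^ k - 1 := by
  have h := hq.odd.pow (n := k)
  exact (Nat.Odd.sub_odd h odd_one).two_dvd

theorem two_dvd_pow_add (k : ℕ) : 2 ∣ q ^ k + 1 := (hq.odd.pow.add_odd odd_one).two_dvd

theorem pow_sub_factor (k : ℕ) : q ^ (2 * k) - 1 = (q ^ k + 1) * (q ^ k - 1) := by
  rw [mul_comm 2 k, pow_mul, ← Nat.sq_sub_sq, one_pow]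

theorem d1 : q - 1 ∣ q ^ 2 - 1 := by
  have := pow_sub_factor hq 1
  rw [mul_one, pow_one] at this
  exact ⟨q + 1, by rw [this, mul_comm]⟩

theorem d2 : q + 1 ∣ q ^ 2 - 1 := by
  have := pow_sub_factor hq 1
  rw [mul_one, pow_one] at this
  exact ⟨q - 1, this⟩

theorem m0 : (q ^ 4 - 1) / 2 = (q ^ 2 + 1) * ((q ^ 2 - 1) / 2) := by
  rw [pow_sub_factor hq 2]
  exact Nat.mul_div_assoc _ (two_dvd_pow_sub hq 2)

theorem m0' : (q ^ 4 - 1) / 2 = ((q ^ 2 + 1) / 2) * (q ^ 2 - 1) := by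
  rw [pow_sub_factor hq 2]
  exact Nat.mul_div_right_comm (two_dvd_pow_add hq 2) _

theorem d3 : q ^ 2 + 1 ∣ (q ^ 4 - 1) / 2 := ⟨_, m0 hq⟩

theorem d4 : q ^ 2 - 1 ∣ (q ^ 4 - 1) / 2 := ⟨(q ^ 2 + 1) / 2, by rw [m0' hq, mul_comm]⟩

theorem d5 : 2 ∣ (q ^ 4 - 1) / 2 := (two_dvd_pow_add hq 2).trans (d3 hq)

theorem d6 : q - 1 ∣ q ^ 3 - 1 := by
  have h := Nat.sub_dvd_pow_sub_pow q 1 3
  rwa [one_pow] at h

theorem d7 : q + 1 ∣ q ^ 3 + 1 := by
  have h : Odd 3 := by decide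
  have := h.nat_add_dvd_pow_add_pow q 1
  rwa [one_pow] at this

theorem t1 : 2 ∣ q - 1 := by have := two_dvd_pow_sub hq 1; rwa [pow_one] at this

theorem t2 : 2 ∣ q + 1 := by have := two_dvd_pow_add hq 1; rwa [pow_one] at this

theorem good {n m j : ℕ} (h : Bl q p n m j) : (n ≤ 1 → m ∣ 2) ∧ (n ≤ 3 → m ∣ q - 1 ∨ m ∣ q + 1) ∧ (n ≤ 5 → m ∣ q ^ 2 - 1 ∨ m ∣ q ^ 2 + 1) ∧
    (n ≤ 7 → m ∣ (q ^ 4 - 1) / 2 ∨ m ∣ q ^ 3 - 1 ∨ m ∣ q ^ 3 + 1) := by
  induction h with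
  | S n j hn h =>
    exact ⟨fun _ => dvd_rfl, fun _ => Or.inl (t1 hq), fun _ => Or.inl (two_dvd_pow_sub hq 2), fun _ => Or.inl (d5 hq)⟩
  | I e k j he hk h =>
    have h1 : 2 * e ≤ 2 * e * k := Nat.le_mul_of_pos_right _ hk
    have e1 : ∀ N, e ≤ N → (e = 1 → 1 ≤ N) := fun N _ h => by omega
    refine ⟨fun _ => by omega, fun _ => ?_, fun _ => ?_, fun _ => ?_⟩
    · have : e = 1 := by omega
      subst this
      right; rw [pow_one]
    · have : e = 1 ∨ e = 2 := by omega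
      rcases this with rfl | rfl
      · left; rw [pow_one]; exact d2 hq
      · right; exact dvd_rfl
    · have : e = 1 ∨ e = 2 ∨ e = 3 := by omega
      rcases this with rfl | rfl | rfl
      · left; rw [pow_one]; exact (d2 hq).trans (d4 hq)
      · left; exact d3 hq
      · right; right; exact dvd_rfl
  | P e k j he hk h =>
    have h1 : 2 * e ≤ 2 * e * k := Nat.le_mul_of_pos_right _ hk
    refine ⟨fun _ => by omega, fun _ => ?_, fun _ => ?_, fun _ => ?_⟩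
    · have : e = 1 := by omega
      subst this
      left; rw [pow_one]
    · have : e = 1 ∨ e = 2 := by omega
      rcases this with rfl | rfl
      · left; rw [pow_one]; exact d1 hq
      · left; exact dvd_rfl
    · have : e = 1 ∨ e = 2 ∨ e = 3 := by omega
      rcases this with rfl | rfl | rfl
      · left; rw [pow_one]; exact (d1 hq).trans (d4 hq)
      · left; exact d4 hq
      · right; left; exact dvd_rfl
  | D n₁ m₁ j₁ n₂ m₂ j₂ h₁ h₂ ih₁ ih₂ =>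
    have p1 := Bl_pos h₁
    have p2 := Bl_pos h₂
    obtain ⟨a1, a3, a5, a7⟩ := ih₁
    obtain ⟨b1, b3, b5, b7⟩ := ih₂
    have three : ∀ {n m : ℕ}, (m ∣ q - 1 ∨ m ∣ q + 1) → m ∣ q ^ 2 - 1 := by
      rintro n m (h | h)
      · exact h.trans (d1 hq)
      · exact h.trans (d2 hq)
    have five : ∀ {m : ℕ}, (m ∣ q ^ 2 - 1 ∨ m ∣ q ^ 2 + 1) → m ∣ (q ^ 4 - 1) / 2 := by
      rintro m (h | h)
      · exact h.trans (d4 hq)
      · exact h.trans (d3 hq)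
    refine ⟨fun _ => by omega, fun hn => ?_, fun hn => ?_, fun hn => ?_⟩
    · rcases le_or_gt n₁ 1 with h | h
      · rcases b3 (by omega) with h' | h'
        · left; exact Nat.lcm_dvd ((a1 h).trans (t1 hq)) h'
        · right; exact Nat.lcm_dvd ((a1 h).trans (t2 hq)) h'
      · rcases a3 (by omega) with h' | h'
        · left; exact Nat.lcm_dvd h' ((b1 (by omega)).trans (t1 hq))
        · right; exact Nat.lcm_dvd h' ((b1 (by omega)).trans (t2 hq))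
    · rcases le_or_gt n₁ 1 with h | h
      · rcases b5 (by omega) with h' | h'
        · left; exact Nat.lcm_dvd ((a1 h).trans (two_dvd_pow_sub hq 2)) h'
        · right; exact Nat.lcm_dvd ((a1 h).trans (two_dvd_pow_add hq 2)) h'
      · rcases le_or_gt n₁ 3 with h3 | h3
        · left
          exact Nat.lcm_dvd (three (n := 0) (a3 h3)) (three (n := 0) (b3 (by omega)))
        · rcases a5 (by omega) with h' | h'
          · left; exact Nat.lcm_dvd h' ((b1 (by omega)).trans (two_dvd_pow_sub hq 2))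
          · right; exact Nat.lcm_dvd h' ((b1 (by omega)).trans (two_dvd_pow_add hq 2))
    · rcases le_or_gt n₁ 1 with h | h
      · rcases b7 (by omega) with h' | h' | h'
        · left; exact Nat.lcm_dvd ((a1 h).trans (d5 hq)) h'
        · right; left; exact Nat.lcm_dvd ((a1 h).trans (two_dvd_pow_sub hq 3)) h'
        · right; right; exact Nat.lcm_dvd ((a1 h).trans (two_dvd_pow_add hq 3)) h'
      · rcases le_or_gt n₂ 1 with h2 | h2
        · rcases a7 (by omega) with h' | h' | h'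
          · left; exact Nat.lcm_dvd h' ((b1 h2).trans (d5 hq))
          · right; left; exact Nat.lcm_dvd h' ((b1 h2).trans (two_dvd_pow_sub hq 3))
          · right; right; exact Nat.lcm_dvd h' ((b1 h2).trans (two_dvd_pow_add hq 3))
        · left
          exact Nat.lcm_dvd (five (a5 (by omega))) (five (b5 (by omega)))

/-- two blocks of total dimension eight -/
theorem eight {n₁ m₁ j₁ n₂ m₂ j₂ : ℕ} (h₁ : Bl q p n₁ m₁ j₁) (h₂ : Bl q p n₂ m₂ j₂) (hn : n₁ + n₂ = 8) :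
    Nat.lcm m₁ m₂ ∣ (q ^ 4 - 1) / 2 ∨ Nat.lcm m₁ m₂ ∣ Nat.lcm (q ^ 3 - 1) (q + 1) ∨ Nat.lcm m₁ m₂ ∣ Nat.lcm (q ^ 3 + 1) (q - 1) := by
  have p1 := Bl_pos h₁
  have p2 := Bl_pos h₂
  obtain ⟨a1, a3, a5, a7⟩ := good hq h₁
  obtain ⟨b1, b3, b5, b7⟩ := good hq h₂
  have three : ∀ {m : ℕ}, (m ∣ q - 1 ∨ m ∣ q + 1) → m ∣ (q ^ 4 - 1) / 2 := by
    rintro m (h | h)
    · exact (h.trans (d1 hq)).trans (d4 hq)
    · exact (h.trans (d2 hq)).trans (d4 hq)
  have five : ∀ {m : ℕ}, (m ∣ q ^ 2 - 1 ∨ m ∣ q ^ 2 + 1) → m ∣ (q ^ 4 - 1) / 2 := by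
    rintro m (h | h)
    · exact h.trans (d4 hq)
    · exact h.trans (d3 hq)
  have key : ∀ {m m' : ℕ}, (m ∣ q - 1 ∨ m ∣ q + 1) → (m' ∣ (q ^ 4 - 1) / 2 ∨ m' ∣ q ^ 3 - 1 ∨ m' ∣ q ^ 3 + 1) →
      (m ∣ (q ^ 4 - 1) / 2 ∧ m' ∣ (q ^ 4 - 1) / 2) ∨ (m ∣ Nat.lcm (q ^ 3 - 1) (q + 1) ∧ m' ∣ Nat.lcm (q ^ 3 - 1) (q + 1)) ∨
        (m ∣ Nat.lcm (q ^ 3 + 1) (q - 1) ∧ m' ∣ Nat.lcm (q ^ 3 + 1) (q - 1)) := by
    intro m m' h h'
    rcases h' with h' | h' | h'
    · left; exact ⟨three h, h'⟩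
    · right; left
      refine ⟨?_, h'.trans (Nat.dvd_lcm_left _ _)⟩
      rcases h with h | h
      · exact (h.trans (d6 hq)).trans (Nat.dvd_lcm_left _ _)
      · exact h.trans (Nat.dvd_lcm_right _ _)
    · right; right
      refine ⟨?_, h'.trans (Nat.dvd_lcm_left _ _)⟩
      rcases h with h | h
      · exact h.trans (Nat.dvd_lcm_right _ _)
      · exact (h.trans (d7 hq)).trans (Nat.dvd_lcm_left _ _)
  rcases le_or_gt n₁ 2 with h | h
  · rcases le_or_gt n₂ 7 with h' | h'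
    · rcases key (a3 (by omega)) (b7 h') with ⟨x, y⟩ | ⟨x, y⟩ | ⟨x, y⟩
      · left; exact Nat.lcm_dvd x y
      · right; left; exact Nat.lcm_dvd x y
      · right; right; exact Nat.lcm_dvd x y
    · omega
  · rcases le_or_gt n₂ 2 with h' | h'
    · rcases key (b3 (by omega)) (a7 (by omega)) with ⟨x, y⟩ | ⟨x, y⟩ | ⟨x, y⟩
      · left; exact Nat.lcm_dvd y x
      · right; left; exact Nat.lcm_dvd y x
      · right; right; exact Nat.lcm_dvd y x
    · left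
      exact Nat.lcm_dvd (five (a5 (by omega))) (five (b5 (by omega)))

omit hq in
theorem lcm_swap {m₁ m₂ N : ℕ} (h : Nat.lcm m₂ m₁ ∣ N) : Nat.lcm m₁ m₂ ∣ N := by rwa [Nat.lcm_comm]

/-- nontrivial unipotent part -/
theorem claimA {n m j : ℕ} (h : Bl q p n m j) (hj : 1 ≤ j) : (3 ≤ n) ∧ (n ≤ 3 → m ∣ 2) ∧ (n ≤ 5 → m ∣ q - 1 ∨ m ∣ q + 1) ∧ (n ≤ 6 → m ∣ q ^ 2 - 1) ∧
    (n ≤ 7 → m ∣ q ^ 2 - 1 ∨ m ∣ q ^ 2 + 1) ∧ (n ≤ 8 → m ∣ q ^ 2 - 1 ∨ m ∣ Nat.lcm (q ^ 2 + 1) (q - 1) ∨ m ∣ Nat.lcm (q ^ 2 + 1) (q + 1)) := by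
  induction h with
  | S n j hn h =>
    have h1 := h 0 (by omega)
    rw [pow_zero] at h1
    refine ⟨?_, fun _ => dvd_rfl, fun _ => Or.inl (t1 hq), fun _ => two_dvd_pow_sub hq 2, fun _ => Or.inl (two_dvd_pow_sub hq 2), fun _ => Or.inl (two_dvd_pow_sub hq 2)⟩
    split_ifs at h1 with he
    · omega
    · rcases Nat.lt_or_ge 2 n with h2 | h2
      · exact h2
      · have : n = 2 := by omega
        rw [this] at he
        exact absurd even_two he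
  | I e k j he hk h =>
    have h1 := h 0 (by omega)
    rw [pow_zero] at h1
    have h3 : 2 * e * 2 ≤ 2 * e * k := Nat.mul_le_mul_left _ h1
    refine ⟨by omega, fun _ => by omega, fun _ => ?_, fun _ => ?_, fun _ => ?_, fun _ => ?_⟩
    · have : e = 1 := by omega
      subst this; right; rw [pow_one]
    · have : e = 1 := by omega
      subst this; rw [pow_one]; exact d2 hq
    · have : e = 1 := by omega
      subst this; left; rw [pow_one]; exact d2 hq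
    · have : e = 1 ∨ e = 2 := by omega
      rcases this with rfl | rfl
      · left; rw [pow_one]; exact d2 hq
      · right; left; exact Nat.dvd_lcm_left _ _
  | P e k j he hk h =>
    have h1 := h 0 (by omega)
    rw [pow_zero] at h1
    have h3 : 2 * e * 2 ≤ 2 * e * k := Nat.mul_le_mul_left _ h1
    refine ⟨by omega, fun _ => by omega, fun _ => ?_, fun _ => ?_, fun _ => ?_, fun _ => ?_⟩
    · have : e = 1 := by omega
      subst this; left; rw [pow_one]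
    · have : e = 1 := by omega
      subst this; rw [pow_one]; exact d1 hq
    · have : e = 1 := by omega
      subst this; left; rw [pow_one]; exact d1 hq
    · have : e = 1 ∨ e = 2 := by omega
      rcases this with rfl | rfl
      · left; rw [pow_one]; exact d1 hq
      · left; exact dvd_rfl
  | D n₁ m₁ j₁ n₂ m₂ j₂ h₁ h₂ ih₁ ih₂ =>
    have p1 := Bl_pos h₁
    have p2 := Bl_pos h₂
    -- by symmetry
    have key : ∀ {n₁ m₁ n₂ m₂ : ℕ}, 0 < n₂ → ((3 ≤ n₁) ∧ (n₁ ≤ 3 → m₁ ∣ 2) ∧ (n₁ ≤ 5 → m₁ ∣ q - 1 ∨ m₁ ∣ q + 1) ∧ (n₁ ≤ 6 → m₁ ∣ q ^ 2 - 1) ∧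
          (n₁ ≤ 7 → m₁ ∣ q ^ 2 - 1 ∨ m₁ ∣ q ^ 2 + 1) ∧ (n₁ ≤ 8 → m₁ ∣ q ^ 2 - 1 ∨ m₁ ∣ Nat.lcm (q ^ 2 + 1) (q - 1) ∨ m₁ ∣ Nat.lcm (q ^ 2 + 1) (q + 1))) →
        ((n₂ ≤ 1 → m₂ ∣ 2) ∧ (n₂ ≤ 3 → m₂ ∣ q - 1 ∨ m₂ ∣ q + 1) ∧ (n₂ ≤ 5 → m₂ ∣ q ^ 2 - 1 ∨ m₂ ∣ q ^ 2 + 1) ∧
          (n₂ ≤ 7 → m₂ ∣ (q ^ 4 - 1) / 2 ∨ m₂ ∣ q ^ 3 - 1 ∨ m₂ ∣ q ^ 3 + 1)) →
        ((3 ≤ n₁ + n₂) ∧ (n₁ + n₂ ≤ 3 → Nat.lcm m₁ m₂ ∣ 2) ∧ (n₁ + n₂ ≤ 5 → Nat.lcm m₁ m₂ ∣ q - 1 ∨ Nat.lcm m₁ m₂ ∣ q + 1) ∧ (n₁ + n₂ ≤ 6 → Nat.lcm m₁ m₂ ∣ q ^ 2 - 1) ∧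
          (n₁ + n₂ ≤ 7 → Nat.lcm m₁ m₂ ∣ q ^ 2 - 1 ∨ Nat.lcm m₁ m₂ ∣ q ^ 2 + 1) ∧
          (n₁ + n₂ ≤ 8 → Nat.lcm m₁ m₂ ∣ q ^ 2 - 1 ∨ Nat.lcm m₁ m₂ ∣ Nat.lcm (q ^ 2 + 1) (q - 1) ∨ Nat.lcm m₁ m₂ ∣ Nat.lcm (q ^ 2 + 1) (q + 1))) := by
      rintro n₁ m₁ n₂ m₂ p2 ⟨a0, a3, a5, a6, a7, a8⟩ ⟨b1, b3, b5, b7⟩
      have three : ∀ {m : ℕ}, (m ∣ q - 1 ∨ m ∣ q + 1) → m ∣ q ^ 2 - 1 := by
        rintro m (h | h)
        · exact h.trans (d1 hq)
        · exact h.trans (d2 hq)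
      have h7 : n₁ + n₂ ≤ 7 → Nat.lcm m₁ m₂ ∣ q ^ 2 - 1 ∨ Nat.lcm m₁ m₂ ∣ q ^ 2 + 1 := by
        intro hn
        rcases le_or_gt n₁ 3 with h | h
        · rcases b5 (by omega) with h' | h'
          · left; exact Nat.lcm_dvd ((a3 h).trans (two_dvd_pow_sub hq 2)) h'
          · right; exact Nat.lcm_dvd ((a3 h).trans (two_dvd_pow_add hq 2)) h'
        · left
          exact Nat.lcm_dvd (a6 (by omega)) (three (b3 (by omega)))
      have h6 : n₁ + n₂ ≤ 6 → Nat.lcm m₁ m₂ ∣ q ^ 2 - 1 := by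
        intro hn
        exact Nat.lcm_dvd (a6 (by omega)) (three (b3 (by omega)))
      refine ⟨by omega, fun _ => by omega, fun hn => ?_, h6, h7, fun hn => ?_⟩
      · rcases le_or_gt n₁ 3 with h | h
        · rcases b3 (by omega) with h' | h'
          · left; exact Nat.lcm_dvd ((a3 h).trans (t1 hq)) h'
          · right; exact Nat.lcm_dvd ((a3 h).trans (t2 hq)) h'
        · rcases a5 (by omega) with h' | h'
          · left; exact Nat.lcm_dvd h' ((b1 (by omega)).trans (t1 hq))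
          · right; exact Nat.lcm_dvd h' ((b1 (by omega)).trans (t2 hq))
      · rcases le_or_gt n₁ 3 with h | h
        · rcases b5 (by omega) with h' | h'
          · left; exact Nat.lcm_dvd ((a3 h).trans (two_dvd_pow_sub hq 2)) h'
          · right; left; exact (Nat.lcm_dvd ((a3 h).trans (two_dvd_pow_add hq 2)) h').trans (Nat.dvd_lcm_left _ _)
        · rcases le_or_gt n₁ 5 with h5 | h5
          · rcases b5 (by omega) with h' | h'
            · left; exact Nat.lcm_dvd (three (a5 h5)) h'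
            · right
              rcases a5 h5 with ha | ha
              · left; exact Nat.lcm_dvd (ha.trans (Nat.dvd_lcm_right _ _)) (h'.trans (Nat.dvd_lcm_left _ _))
              · right; exact Nat.lcm_dvd (ha.trans (Nat.dvd_lcm_right _ _)) (h'.trans (Nat.dvd_lcm_left _ _))
          · rcases le_or_gt n₁ 6 with h6' | h6'
            · left; exact Nat.lcm_dvd (a6 h6') (three (b3 (by omega)))
            · have hb := b1 (by omega)
              rcases a7 (by omega) with h' | h'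
              · left; exact Nat.lcm_dvd h' (hb.trans (two_dvd_pow_sub hq 2))
              · right; left; exact Nat.lcm_dvd (h'.trans (Nat.dvd_lcm_left _ _)) ((hb.trans (two_dvd_pow_add hq 2)).trans (Nat.dvd_lcm_left _ _))
    rcases le_or_gt 1 j₁ with h | h
    · exact key p2 (ih₁ h) (good hq h₂)
    · have h2 : 1 ≤ j₂ := by
        rcases le_max_iff.mp hj with h' | h'
        · omega
        · exact h'
      have := key p1 (ih₂ h2) (good hq h₁)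
      rwa [Nat.lcm_comm m₂ m₁, add_comm n₂ n₁] at this

/-- unipotent part of order larger than `p` -/
theorem claimC (hp : p.Prime) (hp2 : p ≠ 2) {n m j : ℕ} (h : Bl q p n m j) (hj : 2 ≤ j) : (5 ≤ n) ∧ (n ≤ 6 → p = 3 ∧ m ∣ 2) ∧
    (n ≤ 8 → (p = 3 ∧ (m ∣ q - 1 ∨ m ∣ q + 1)) ∨ (p = 5 ∧ m ∣ 2)) := by
  have hp3 : 3 ≤ p := by have := hp.two_le; omega
  have hpo : p ≠ 4 ∧ p ≠ 6 := by
    constructor
    · rintro rfl; exact absurd hp (by decide)
    · rintro rfl; exact absurd hp (by decide)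
  induction h with
  | S n j hn h =>
    have h1 := h 1 (by omega)
    rw [pow_one] at h1
    have h5 : 5 ≤ n := by
      split_ifs at h1 with he
      · omega
      · rcases Nat.lt_or_ge n 5 with h2 | h2
        · have : n = 4 := by omega
          rw [this] at he
          exact absurd (by decide) he
        · exact h2
    refine ⟨h5, fun hn6 => ⟨?_, dvd_rfl⟩, fun hn8 => ?_⟩
    · split_ifs at h1 with he
      · omega
      · have : n ≠ 6 := by rintro rfl; exact he (by decide)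
        omega
    · have hlt : p < 7 := by
        split_ifs at h1 with he
        · omega
        · have : n ≠ 8 := by rintro rfl; exact he (by decide)
          omega
      have : p = 3 ∨ p = 5 := by omega
      rcases this with h3 | h3
      · left; exact ⟨h3, Or.inl (t1 hq)⟩
      · right; exact ⟨h3, dvd_rfl⟩
  | I e k j he hk h =>
    have h1 := h 1 (by omega)
    rw [pow_one] at h1
    have h3 : 2 * 1 * k ≤ 2 * e * k := Nat.mul_le_mul_right _ (Nat.mul_le_mul_left _ he)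
    refine ⟨by omega, fun _ => by omega, fun hn => ?_⟩
    left
    have hk4 : k = 4 := by omega
    subst hk4
    have he1 : e = 1 := by omega
    subst he1
    refine ⟨by omega, Or.inr ?_⟩
    rw [pow_one]
  | P e k j he hk h =>
    have h1 := h 1 (by omega)
    rw [pow_one] at h1
    have h3 : 2 * 1 * k ≤ 2 * e * k := Nat.mul_le_mul_right _ (Nat.mul_le_mul_left _ he)
    refine ⟨by omega, fun _ => by omega, fun hn => ?_⟩
    left
    have hk4 : k = 4 := by omega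
    subst hk4
    have he1 : e = 1 := by omega
    subst he1
    refine ⟨by omega, Or.inl ?_⟩
    rw [pow_one]
  | D n₁ m₁ j₁ n₂ m₂ j₂ h₁ h₂ ih₁ ih₂ =>
    have p1 := Bl_pos h₁
    have p2 := Bl_pos h₂
    have key : ∀ {n₁ m₁ n₂ m₂ : ℕ}, 0 < n₂ → ((5 ≤ n₁) ∧ (n₁ ≤ 6 → p = 3 ∧ m₁ ∣ 2) ∧ (n₁ ≤ 8 → (p = 3 ∧ (m₁ ∣ q - 1 ∨ m₁ ∣ q + 1)) ∨ (p = 5 ∧ m₁ ∣ 2))) →
        ((n₂ ≤ 1 → m₂ ∣ 2) ∧ (n₂ ≤ 3 → m₂ ∣ q - 1 ∨ m₂ ∣ q + 1) ∧ (n₂ ≤ 5 → m₂ ∣ q ^ 2 - 1 ∨ m₂ ∣ q ^ 2 + 1) ∧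
          (n₂ ≤ 7 → m₂ ∣ (q ^ 4 - 1) / 2 ∨ m₂ ∣ q ^ 3 - 1 ∨ m₂ ∣ q ^ 3 + 1)) →
        ((5 ≤ n₁ + n₂) ∧ (n₁ + n₂ ≤ 6 → p = 3 ∧ Nat.lcm m₁ m₂ ∣ 2) ∧
          (n₁ + n₂ ≤ 8 → (p = 3 ∧ (Nat.lcm m₁ m₂ ∣ q - 1 ∨ Nat.lcm m₁ m₂ ∣ q + 1)) ∨ (p = 5 ∧ Nat.lcm m₁ m₂ ∣ 2))) := by
      rintro n₁ m₁ n₂ m₂ p2 ⟨a0, a6, a8⟩ ⟨b1, b3, b5, b7⟩
      refine ⟨by omega, fun hn => ?_, fun hn => ?_⟩
      · obtain ⟨x, y⟩ := a6 (by omega)
        exact ⟨x, Nat.lcm_dvd y (b1 (by omega))⟩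
      · rcases le_or_gt n₁ 6 with h | h
        · obtain ⟨x, y⟩ := a6 h
          left
          refine ⟨x, ?_⟩
          rcases b3 (by omega) with h' | h'
          · left; exact Nat.lcm_dvd (y.trans (t1 hq)) h'
          · right; exact Nat.lcm_dvd (y.trans (t2 hq)) h'
        · have hb := b1 (by omega)
          rcases a8 (by omega) with ⟨x, y | y⟩ | ⟨x, y⟩
          · left; exact ⟨x, Or.inl (Nat.lcm_dvd y (hb.trans (t1 hq)))⟩
          · left; exact ⟨x, Or.inr (Nat.lcm_dvd y (hb.trans (t2 hq)))⟩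
          · right; exact ⟨x, Nat.lcm_dvd y hb⟩
    rcases le_or_gt 2 j₁ with h | h
    · exact key p2 (ih₁ h) (good hq h₂)
    · have h2 : 2 ≤ j₂ := by
        rcases le_max_iff.mp hj with h' | h'
        · omega
        · exact h'
      have := key p1 (ih₂ h2) (good hq h₁)
      rwa [Nat.lcm_comm m₂ m₁, add_comm n₂ n₁] at this

omit hq in
/-- unipotent part of order larger than `p ^ 2` -/
theorem claimE (hp3 : 3 ≤ p) {n m j : ℕ} (h : Bl q p n m j) (hj : 3 ≤ j) : 10 ≤ n := by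
  have hpp : 9 ≤ p ^ 2 := by nlinarith
  induction h with
  | S n j hn h =>
    have h1 := h 2 (by omega)
    split_ifs at h1 <;> omega
  | I e k j he hk h =>
    have h1 := h 2 (by omega)
    have h3 : 2 * 1 * k ≤ 2 * e * k := Nat.mul_le_mul_right _ (Nat.mul_le_mul_left _ he)
    omega
  | P e k j he hk h =>
    have h1 := h 2 (by omega)
    have h3 : 2 * 1 * k ≤ 2 * e * k := Nat.mul_le_mul_right _ (Nat.mul_le_mul_left _ he)
    omega
  | D n₁ m₁ j₁ n₂ m₂ j₂ h₁ h₂ ih₁ ih₂ =>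
    rcases le_max_iff.mp hj with h' | h'
    · have := ih₁ h'; omega
    · have := ih₂ h'; omega

end H46.BlNum
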