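import Mathlib
import Cfsg.Agent.Lib.H46.TyReal

/-! Self-dual factors of types; determinants of polynomials in a matrix. -/

set_option autoImplicit false

namespace H46.TySd

open Polynomial H48.SimStruct H46.TyAlg H46.TyCount H46.TyGL H46.StPoly H46.StTy H46.TyReal Matrix

universe u v w

variable {F : Type u} [Field F]

theorem dm_congr {p u u' : F[X]} (h : p ∣ u - u') : dm p u = dm p u' := by
  rw [dm_eq_norm, dm_eq_norm]
  congr 1
  exact AdjoinRoot.mk_eq_mk.mpr h

theorem dm_prod {ι : Type*} (s : Finset ι) (p : ι → F[X]) (hp : ∀ i ∈ s, (p i).Monic) (u : F[X]) : dm (∏ i ∈ s, p i) u = ∏ i ∈ s, dm (p i) u := by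
  classical
  induction s using Finset.induction_on with
  | empty => rw [Finset.prod_empty, Finset.prod_empty, dm_one]
  | insert i s hi ih =>
    rw [Finset.prod_insert hi, Finset.prod_insert hi, dm_mul (hp i (Finset.mem_insert_self _ _))
      (monic_prod _ _ (fun j hj => hp j (Finset.mem_insert_of_mem hj))), ih (fun j hj => hp j (Finset.mem_insert_of_mem hj))]

theorem exists_dm_two [Finite F] {p q : F[X]} (hp : p.Monic) (hpi : Irreducible p) (hq : q.Monic) (hqi : Irreducible q) (hne : p ≠ q) (b : F) :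
    ∃ u : F[X], dm (p * q) u = b := by
  obtain ⟨u₁, hu₁⟩ := exists_dm hp hpi b
  obtain ⟨a, c, hac⟩ := isCoprime_of_ne hp hq hpi hqi hne
  refine ⟨u₁ * (c * q) + a * p, ?_⟩
  have h1 : dm p (u₁ * (c * q) + a * p) = dm p u₁ := by
    apply dm_congr
    refine ⟨a - u₁ * a, ?_⟩
    have : c * q = 1 - a * p := by rw [← hac]; ring
    rw [this]; ring
  have h2 : dm q (u₁ * (c * q) + a * p) = dm q 1 := by
    apply dm_congr
    refine ⟨u₁ * c - c, ?_⟩
    have : a * p = 1 - c * q := by rw [← hac]; ring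
    rw [this]; ring
  rw [dm_mul hp hq, h1, h2, hu₁, dm_unit_one, mul_one]

/-- self-dual factors -/
theorem exists_sd_factor [Finite F] {φ : F →+* F} (hφ : ∀ x, φ (φ x) = x) {f : F[X]} (hf : Good f) (hst : st φ f = f) (h1 : f ≠ 1) :
    ∃ h k : F[X], f = h * k ∧ Good h ∧ Good k ∧ st φ h = h ∧ st φ k = k ∧ h ≠ 1 ∧ (∀ b : F, ∃ u, dm h u = b) := by
  have hnu : ¬ IsUnit f := fun h => h1 (hf.1.eq_one_of_isUnit h)
  obtain ⟨p, hpm, hpi, k, hk⟩ := Polynomial.exists_monic_irreducible_factor f hnu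
  obtain ⟨hpg, hkg⟩ := good_of_mul (hk ▸ hf) hpm
  have hp1 : p ≠ 1 := hpi.ne_one
  by_cases hsp : st φ p = p
  · refine ⟨p, k, hk, hpg, hkg, hsp, ?_, hp1, exists_dm hpm hpi⟩
    have h2 : p * st φ k = p * k := by
      rw [← hk]
      conv_rhs => rw [← hst, hk, st_mul, hsp]
    exact mul_left_cancel₀ hpm.ne_zero h2
  · have hsg := good_st (φ := φ) hpg
    have hsi := irreducible_st hφ hpg hpi
    have hcop := isCoprime_of_ne hpm hsg.1 hpi hsi (fun h => hsp h.symm)
    have hd : st φ p ∣ f := by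
      rw [← hst, hk, st_mul]
      exact dvd_mul_right _ _
    obtain ⟨k', hk'⟩ := hcop.mul_dvd ⟨k, hk⟩ hd
    have hgpp : Good (p * st φ p) := hpg.mul hsg
    have hk'g := (good_of_mul (hk' ▸ hf) hgpp.1).2
    have hst2 : st φ (p * st φ p) = p * st φ p := by rw [st_mul, st_st hφ hpg, mul_comm]
    refine ⟨p * st φ p, k', hk', hgpp, hk'g, hst2, ?_, ?_, exists_dm_two hpm hpi hsg.1 hsi (fun h => hsp h.symm)⟩
    · have h2 : p * st φ p * st φ k' = p * st φ p * k' := by
        rw [← hk']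
        conv_rhs => rw [← hst, hk', st_mul, hst2]
      exact mul_left_cancel₀ hgpp.1.ne_zero h2
    · intro h
      exact hpi.not_isUnit (IsUnit.of_mul_eq_one _ h)

/-- transport of polynomials in `T` -/
theorem tr_aeval {V : Type v} [AddCommGroup V] [Module F V] {T : V →ₗ[F] V} {ι : Type*} [Fintype ι] {g : ι → F[X] × ℕ}
    (E : Module.AEval' T ≃ₗ[F[X]] (∀ i, Cyc (g i))) (u : F[X]) (v : V) : tr E (aeval T u v) = mm g (fun _ => u) (tr E v) := by
  have h1 : tr E (aeval T u v) = u • tr E v := by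
    show E (Module.AEval'.of T (aeval T u v)) = u • E (Module.AEval'.of T v)
    rw [← map_smul]
    congr 1
  rw [h1]
  rfl

theorem det_aeval {V : Type v} [AddCommGroup V] [Module F V] {T : V →ₗ[F] V} {ι : Type*} [Fintype ι] {g : ι → F[X] × ℕ}
    (hg : ∀ i, Adm (g i)) (E : Module.AEval' T ≃ₗ[F[X]] (∀ i, Cyc (g i))) (u : F[X]) :
    LinearMap.det (aeval T u) = ∏ i, dm (g i).1 u ^ (g i).2 := by
  have h1 : aeval T u = ((tr E).symm : _ →ₗ[F] V) ∘ₗ mm g (fun _ => u) ∘ₗ ((tr E) : V →ₗ[F] _) := by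
    apply LinearMap.ext
    intro v
    show aeval T u v = (tr E).symm (mm g (fun _ => u) (tr E v))
    rw [← tr_aeval, LinearEquiv.symm_apply_apply]
  have h2 : LinearMap.det (aeval T u) = LinearMap.det (mm g (fun _ => u)) := by
    conv_lhs => rw [h1]
    exact LinearMap.det_conj _ (tr E).symm
  rw [h2, det_mm hg]

theorem det_aeval_sg {n : ℕ} {A : Matrix (Fin n) (Fin n) F} {e : ℕ} {h : F[X]} (hA : ty A = sg e h) (u : F[X]) :
    (aeval A u).det = dm h u ^ e := by
  obtain ⟨ι, _, g, hg, ⟨E⟩, h1⟩ := isTy_ty A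
  have h2 : ∀ i, (g i).2 = e := by
    intro i
    by_contra hne
    have h3 : tyf g (g i).2 = 1 := by rw [← h1, hA]; exact if_neg hne
    have h4 : (g i).1 ∣ tyf g (g i).2 := by
      unfold tyf
      have := Finset.dvd_prod_of_mem (fun j => if (g j).2 = (g i).2 then (g j).1 else 1) (Finset.mem_univ i)
      simpa using this
    rw [h3] at h4
    exact (hg i).2.1.not_isUnit (isUnit_of_dvd_one h4)
  have h3 : ∏ i, (g i).1 = h := by
    have h4 : tyf g e = h := by rw [← h1, hA]; exact if_pos rfl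
    rw [← h4]
    unfold tyf
    refine Finset.prod_congr rfl fun i _ => ?_
    rw [if_pos (h2 i)]
  have h5 := det_aeval hg E u
  have h6 : aeval (lin A) u = Matrix.toLin' (aeval A u) := by
    have := Polynomial.aeval_algHom_apply (Matrix.toLinAlgEquiv' : Matrix (Fin n) (Fin n) F ≃ₐ[F] _).toAlgHom A u
    exact this
  rw [h6, LinearMap.det_toLin'] at h5
  rw [h5, ← h3, dm_prod _ _ (fun i _ => (hg i).1), ← Finset.prod_pow]
  refine Finset.prod_congr rfl fun i _ => ?_
  rw [h2 i]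

end H46.TySd
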