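import Mathlib

/-! Bounding weighted numbers of sequences by products. -/

set_option autoImplicit false

namespace H46.ProdBound

open Finset

theorem prod_bound {P : Type*} [DecidableEq P] (one : P) (deg : P → ℕ) {N : ℕ} (hN : 1 ≤ N) (𝒯 : Finset (ℕ → P)) (A : ℕ → Finset P)
    (w : ℕ → P → ℝ) (hw : ∀ e p, 0 ≤ w e p) {s C : ℝ} (hs : 0 < s)
    (h1 : ∀ f ∈ 𝒯, ∀ e ∈ Icc 1 N, f e ∈ A e) (h2 : ∀ f ∈ 𝒯, ∀ e, e ∉ Icc 1 N → f e = one)
    (h3 : ∀ f ∈ 𝒯, ∑ e ∈ Icc 1 N, e * deg (f e) = N)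
    (hC : 0 ≤ C) (h4 : ∀ m, ∑ g ∈ (A 1).filter (fun g => deg g = m), w 1 g * s ^ m ≤ C) :
    (∑ f ∈ 𝒯, ∏ e ∈ Icc 1 N, w e (f e)) * s ^ N ≤ C * ∏ e ∈ Icc 2 N, ∑ g ∈ A e, w e g * s ^ (e * deg g) := by
  classical
  have hsplit : Icc 1 N = insert 1 (Icc 2 N) := by
    ext e; simp only [mem_Icc, mem_insert]; omega
  have hnot : (1 : ℕ) ∉ Icc 2 N := by simp
  have hterm : ∀ f ∈ 𝒯, (∏ e ∈ Icc 1 N, w e (f e)) * s ^ N = w 1 (f 1) * s ^ (deg (f 1)) * ∏ x ∈ (Icc 2 N).attach, (w x.1 (f x.1) * s ^ (x.1 * deg (f x.1))) := by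
    intro f hf
    have e1 : ∏ x ∈ (Icc 2 N).attach, (w x.1 (f x.1) * s ^ (x.1 * deg (f x.1))) = ∏ e ∈ Icc 2 N, (w e (f e) * s ^ (e * deg (f e))) :=
      Finset.prod_attach (Icc 2 N) (fun e => w e (f e) * s ^ (e * deg (f e)))
    have e2 : (∏ e ∈ Icc 1 N, w e (f e)) * s ^ N = ∏ e ∈ Icc 1 N, (w e (f e) * s ^ (e * deg (f e))) := by
      rw [Finset.prod_mul_distrib, Finset.prod_pow_eq_pow_sum, h3 f hf]
    rw [e1, e2, hsplit, Finset.prod_insert hnot, one_mul]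
  rw [Finset.sum_mul, Finset.sum_congr rfl hterm]
  let Z : Finset (P × ((e : ℕ) → e ∈ Icc 2 N → P)) := ((A 1) ×ˢ ((Icc 2 N).pi A)).filter
    (fun z => deg z.1 + ∑ x ∈ (Icc 2 N).attach, x.1 * deg (z.2 x.1 x.2) = N)
  let φ : (ℕ → P) → P × ((e : ℕ) → e ∈ Icc 2 N → P) := fun f => (f 1, fun e _ => f e)
  have hφ : Set.InjOn φ 𝒯 := by
    intro f hf g hg h
    funext e
    by_cases he : e ∈ Icc 1 N
    · rw [hsplit, mem_insert] at he
      rcases he with rfl | he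
      · exact congrArg Prod.fst h
      · exact congrFun (congrFun (congrArg Prod.snd h) e) he
    · rw [h2 f hf e he, h2 g hg e he]
  have hmem : ∀ f ∈ 𝒯, φ f ∈ Z := by
    intro f hf
    rw [mem_filter, mem_product, Finset.mem_pi]
    refine ⟨⟨h1 f hf 1 (by rw [hsplit]; exact mem_insert_self _ _), fun e he => h1 f hf e (by rw [hsplit]; exact mem_insert_of_mem he)⟩, ?_⟩
    have e1 : ∑ x ∈ (Icc 2 N).attach, x.1 * deg ((φ f).2 x.1 x.2) = ∑ e ∈ Icc 2 N, e * deg (f e) :=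
      Finset.sum_attach (Icc 2 N) (fun e => e * deg (f e))
    rw [e1]
    have := h3 f hf
    rw [hsplit, Finset.sum_insert hnot, one_mul] at this
    exact this
  let Ψ : P × ((e : ℕ) → e ∈ Icc 2 N → P) → ℝ := fun z => w 1 z.1 * s ^ (deg z.1) * ∏ x ∈ (Icc 2 N).attach, (w x.1 (z.2 x.1 x.2) * s ^ (x.1 * deg (z.2 x.1 x.2)))
  have hΨ : ∀ z, 0 ≤ Ψ z := by
    intro z
    apply mul_nonneg (mul_nonneg (hw _ _) (pow_nonneg hs.le _))
    apply Finset.prod_nonneg
    intro x _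
    exact mul_nonneg (hw _ _) (pow_nonneg hs.le _)
  calc ∑ f ∈ 𝒯, w 1 (f 1) * s ^ (deg (f 1)) * ∏ x ∈ (Icc 2 N).attach, (w x.1 (f x.1) * s ^ (x.1 * deg (f x.1)))
      = ∑ z ∈ 𝒯.image φ, Ψ z := by
        rw [Finset.sum_image hφ]
    _ ≤ ∑ z ∈ Z, Ψ z := by
        apply Finset.sum_le_sum_of_subset_of_nonneg
        · intro z hz
          rw [mem_image] at hz
          obtain ⟨f, hf, rfl⟩ := hz
          exact hmem f hf
        · intro z _ _
          exact hΨ z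
    _ = ∑ p ∈ (Icc 2 N).pi A, (∏ x ∈ (Icc 2 N).attach, (w x.1 (p x.1 x.2) * s ^ (x.1 * deg (p x.1 x.2)))) *
          ∑ g ∈ (A 1).filter (fun g => deg g + ∑ x ∈ (Icc 2 N).attach, x.1 * deg (p x.1 x.2) = N), w 1 g * s ^ deg g := by
        rw [Finset.sum_filter, Finset.sum_product_right]
        refine Finset.sum_congr rfl fun p _ => ?_
        rw [Finset.mul_sum, Finset.sum_filter]
        refine Finset.sum_congr rfl fun g _ => ?_
        split_ifs
        · exact mul_comm _ _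
        · rfl
    _ ≤ ∑ p ∈ (Icc 2 N).pi A, (∏ x ∈ (Icc 2 N).attach, (w x.1 (p x.1 x.2) * s ^ (x.1 * deg (p x.1 x.2)))) * C := by
        refine Finset.sum_le_sum fun p _ => ?_
        apply mul_le_mul_of_nonneg_left
        · by_cases hle : ∑ x ∈ (Icc 2 N).attach, x.1 * deg (p x.1 x.2) ≤ N
          · obtain ⟨m, hm⟩ := Nat.exists_eq_add_of_le hle
            refine le_trans (le_of_eq ?_) (h4 m)
            have e1 : (A 1).filter (fun g => deg g + ∑ x ∈ (Icc 2 N).attach, x.1 * deg (p x.1 x.2) = N) = (A 1).filter (fun g => deg g = m) := by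
              ext g; simp only [mem_filter]
              constructor
              · rintro ⟨a, b⟩; exact ⟨a, by omega⟩
              · rintro ⟨a, b⟩; exact ⟨a, by omega⟩
            rw [e1]
            refine Finset.sum_congr rfl fun g hg => ?_
            rw [(mem_filter.mp hg).2]
          · rw [Finset.sum_eq_zero]
            · exact hC
            · intro g hg
              exfalso
              have := (mem_filter.mp hg).2
              omega
        · apply Finset.prod_nonneg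
          intro x _
          exact mul_nonneg (hw _ _) (pow_nonneg hs.le _)
    _ = C * ∏ e ∈ Icc 2 N, ∑ g ∈ A e, w e g * s ^ (e * deg g) := by
        rw [← Finset.sum_mul, mul_comm, Finset.prod_sum]

/-- sums over finite sets by degree -/
theorem sum_by_deg {P : Type*} (deg : P → ℕ) (A : Finset P) (w : P → ℝ) (B : ℕ → ℝ) (v X : ℝ) (hv : 0 ≤ v)
    (hB : ∀ m, ∑ g ∈ A.filter (fun g => deg g = m), w g ≤ B m) (hX : ∀ M, ∑ m ∈ range M, B m * v ^ m ≤ X) :
    ∑ g ∈ A, w g * v ^ deg g ≤ X := by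
  classical
  let M := A.sup deg + 1
  have h1 : ∀ g ∈ A, deg g ∈ range M := fun g hg => mem_range.mpr (Nat.lt_succ_of_le (Finset.le_sup (f := deg) hg))
  rw [← Finset.sum_fiberwise_of_maps_to h1]
  refine le_trans (Finset.sum_le_sum fun m _ => ?_) (hX M)
  calc ∑ g ∈ A.filter (fun g => deg g = m), w g * v ^ deg g = (∑ g ∈ A.filter (fun g => deg g = m), w g) * v ^ m := by
        rw [Finset.sum_mul]
        refine Finset.sum_congr rfl fun g hg => ?_
        rw [(mem_filter.mp hg).2]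
    _ ≤ B m * v ^ m := mul_le_mul_of_nonneg_right (hB m) (pow_nonneg hv _)

/-- geometric-type recursion -/
theorem sum_rec_le {B c : ℕ → ℝ} {q v X : ℝ} (hq : 0 ≤ q) (hv : 0 ≤ v) (hqv : q * v ^ 2 < 1) (hB : ∀ m, 0 ≤ B m)
    (hrec : ∀ m, B (m + 2) ≤ q * B m + c (m + 2)) (h0 : B 0 ≤ c 0) (h1 : B 1 ≤ c 1) (hX : ∀ M, ∑ m ∈ range M, c m * v ^ m ≤ X) (M : ℕ) :
    ∑ m ∈ range M, B m * v ^ m ≤ X / (1 - q * v ^ 2) := by
  rw [le_div_iff₀ (by linarith)]
  have hmono : ∑ m ∈ range M, B m * v ^ m ≤ ∑ m ∈ range (M + 2), B m * v ^ m :=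
    Finset.sum_le_sum_of_subset_of_nonneg (Finset.range_subset_range.mpr (by omega)) (fun m _ _ => mul_nonneg (hB m) (pow_nonneg hv _))
  have h2 : ∑ m ∈ range (M + 2), B m * v ^ m ≤ ∑ m ∈ range (M + 2), c m * v ^ m + q * v ^ 2 * ∑ m ∈ range M, B m * v ^ m := by
    rw [Finset.sum_range_succ', Finset.sum_range_succ', Finset.sum_range_succ' (fun m => c m * v ^ m), Finset.sum_range_succ' (fun m => c (m + 1) * v ^ (m + 1)), Finset.mul_sum]
    have h3 : ∑ m ∈ range M, B (m + 1 + 1) * v ^ (m + 1 + 1) ≤ ∑ m ∈ range M, c (m + 1 + 1) * v ^ (m + 1 + 1) + ∑ m ∈ range M, q * v ^ 2 * (B m * v ^ m) := by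
      rw [← Finset.sum_add_distrib]
      refine Finset.sum_le_sum fun m _ => ?_
      have := mul_le_mul_of_nonneg_right (hrec m) (pow_nonneg hv (m + 2))
      calc B (m + 1 + 1) * v ^ (m + 1 + 1) ≤ (q * B m + c (m + 2)) * v ^ (m + 2) := this
        _ = _ := by ring
    have h4 := mul_le_mul_of_nonneg_right h0 (pow_nonneg hv 0)
    have h5 := mul_le_mul_of_nonneg_right h1 (pow_nonneg hv (0 + 1))
    simp only [zero_add] at h5 ⊢
    linarith
  have h3 := hX (M + 2)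
  linarith

end H46.ProdBound
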