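import Mathlib
import Cfsg.Agent.Lib.H46.TyCount
import Cfsg.Agent.Lib.H46.StPoly
import Cfsg.Agent.Lib.H46.ProdBound
import Cfsg.Agent.Lib.H48.SimStruct

/-! Counting self-reciprocal polynomials. -/

set_option autoImplicit false

namespace H46.SdCount

open Finset Polynomial H46.TyCount H46.StPoly

variable {F : Type*} [Field F]

/-- self-reciprocal polynomials of given degree and constant coefficient -/
def SP (F : Type*) [Field F] (m : ℕ) (c : F) : Set F[X] := {f | Good f ∧ f.natDegree = m ∧ st (RingHom.id F) f = f ∧ f.coeff 0 = c}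

theorem coeff_symm {f : F[X]} (h : st (RingHom.id F) f = f) {i : ℕ} (hi : i ≤ f.natDegree) :
    f.coeff i = (f.coeff 0)⁻¹ * f.coeff (f.natDegree - i) := by
  conv_lhs => rw [← h]
  rw [st_coeff, revAt_le hi]
  rfl

theorem coeff0_sq {f : F[X]} (hf : Good f) (h : st (RingHom.id F) f = f) : f.coeff 0 = 1 ∨ f.coeff 0 = -1 := by
  have h1 := coeff_symm h (Nat.zero_le _)
  rw [Nat.sub_zero] at h1
  have h2 : f.coeff f.natDegree = 1 := hf.1
  rw [h2, mul_one] at h1
  apply mul_self_eq_one_iff.mp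
  nth_rw 1 [h1]
  exact inv_mul_cancel₀ hf.2

theorem eq_of_coeff {m : ℕ} {c : F} {f g : F[X]} (hf : f ∈ SP F m c) (hg : g ∈ SP F m c) (k : ℕ) (hk : m ≤ 2 * k + 1)
    (h : ∀ i, 1 ≤ i → i ≤ k → f.coeff i = g.coeff i) : f = g := by
  obtain ⟨hf1, hf2, hf3, hf4⟩ := hf
  obtain ⟨hg1, hg2, hg3, hg4⟩ := hg
  ext i
  rcases Nat.eq_zero_or_pos i with rfl | hi
  · rw [hf4, hg4]
  · rcases le_or_gt i k with h1 | h1
    · exact h i hi h1
    · rcases lt_trichotomy i m with h2 | h2 | h2
      · rw [coeff_symm hf3 (hf2 ▸ h2.le), coeff_symm hg3 (hg2 ▸ h2.le), hf4, hg4, hf2, hg2, h (m - i) (by omega) (by omega)]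
      · have e1 : f.coeff m = 1 := by rw [← hf2]; exact hf1.1
        have e2 : g.coeff m = 1 := by rw [← hg2]; exact hg1.1
        rw [h2, e1, e2]
      · rw [coeff_eq_zero_of_natDegree_lt (by omega), coeff_eq_zero_of_natDegree_lt (by omega)]

theorem finite_SP [Finite F] (m : ℕ) (c : F) : (SP F m c).Finite := by
  have h1 : Finite (MP F m) := finite_MP m
  apply Set.Finite.subset (Set.toFinite (MP F m))
  intro f hf
  exact ⟨hf.1.1, hf.1.2, hf.2.1⟩

theorem card_SP_le [Finite F] (m : ℕ) (c : F) (k : ℕ) (hk : m ≤ 2 * k + 1) : Nat.card (SP F m c) ≤ Nat.card F ^ k := by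
  have h1 : Nat.card (Fin k → F) = Nat.card F ^ k := by rw [Nat.card_fun, Nat.card_fin]
  rw [← h1]
  apply Nat.card_le_card_of_injective (fun f : SP F m c => fun i : Fin k => f.1.coeff ((i : ℕ) + 1))
  intro f g h
  apply Subtype.ext
  apply eq_of_coeff f.2 g.2 k hk
  intro i hi1 hi2
  have := congrFun h ⟨i - 1, by omega⟩
  simp only at this
  rwa [Nat.sub_add_cancel hi1] at this

theorem card_SP_neg_le [Finite F] (h2 : (2 : F) ≠ 0) (k : ℕ) : Nat.card (SP F (2 * (k + 1)) (-1)) ≤ Nat.card F ^ k := by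
  have h1 : Nat.card (Fin k → F) = Nat.card F ^ k := by rw [Nat.card_fun, Nat.card_fin]
  rw [← h1]
  apply Nat.card_le_card_of_injective (fun f : SP F (2 * (k + 1)) (-1) => fun i : Fin k => f.1.coeff ((i : ℕ) + 1))
  intro f g h
  apply Subtype.ext
  apply eq_of_coeff f.2 g.2 (k + 1) (by omega)
  intro i hi1 hi2
  have hmid : ∀ f : SP F (2 * (k + 1)) (-1), f.1.coeff (k + 1) = 0 := by
    intro f
    have h3 := coeff_symm f.2.2.2.1 (i := k + 1) (by rw [f.2.2.1]; omega)
    rw [f.2.2.1, f.2.2.2.2] at h3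
    have h4 : 2 * (k + 1) - (k + 1) = k + 1 := by omega
    rw [h4, inv_neg, inv_one, neg_one_mul] at h3
    have h5 : 2 * f.1.coeff (k + 1) = 0 := by rw [two_mul]; nth_rw 1 [h3]; ring
    exact (mul_eq_zero.mp h5).resolve_left h2
  rcases Nat.lt_or_ge i (k + 1) with h3 | h3
  · have := congrFun h ⟨i - 1, by omega⟩
    simp only at this
    rwa [Nat.sub_add_cancel hi1] at this
  · have : i = k + 1 := by omega
    rw [this, hmid f, hmid g]

/-- all self-reciprocal polynomials -/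
def SA (F : Type*) [Field F] (m : ℕ) : Set F[X] := {f | Good f ∧ f.natDegree = m ∧ st (RingHom.id F) f = f}

theorem SA_eq (m : ℕ) : SA F m = SP F m 1 ∪ SP F m (-1) := by
  ext f
  constructor
  · rintro ⟨h1, h2, h3⟩
    rcases coeff0_sq h1 h3 with h | h
    · exact Or.inl ⟨h1, h2, h3, h⟩
    · exact Or.inr ⟨h1, h2, h3, h⟩
  · rintro (⟨h1, h2, h3, _⟩ | ⟨h1, h2, h3, _⟩) <;> exact ⟨h1, h2, h3⟩

theorem finite_SA [Finite F] (m : ℕ) : (SA F m).Finite := by
  rw [SA_eq]
  exact (finite_SP m 1).union (finite_SP m (-1))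

/-- the number of self-reciprocal polynomials -/
def sdn (q m : ℕ) : ℕ := if m = 0 then 1 else if Even m then q ^ (m / 2) + q ^ (m / 2 - 1) else 2 * q ^ (m / 2)

theorem card_SA_le [Finite F] (h2 : (2 : F) ≠ 0) (m : ℕ) : Nat.card (SA F m) ≤ sdn (Nat.card F) m := by
  have h1 : Nat.card (SA F m) ≤ Nat.card (SP F m 1) + Nat.card (SP F m (-1)) := by
    rw [SA_eq, Nat.card_coe_set_eq, Nat.card_coe_set_eq, Nat.card_coe_set_eq]
    exact Set.ncard_union_le _ _
  unfold sdn
  split_ifs with h0 he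
  · subst h0
    have : SA F 0 ⊆ {1} := by
      rintro f ⟨h1, h2, h3⟩
      exact (natDegree_eq_zero_iff h1.1).mp h2
    calc Nat.card (SA F 0) ≤ Nat.card ({1} : Set F[X]) := Nat.card_mono (Set.finite_singleton _) this
      _ = 1 := by simp
  · obtain ⟨k, hk⟩ := he
    obtain ⟨k, rfl⟩ : ∃ j, k = j + 1 := ⟨k - 1, by omega⟩
    have e1 : m = 2 * (k + 1) := by omega
    subst e1
    have h3 := card_SP_neg_le (F := F) h2 k
    have h4 := card_SP_le (F := F) (2 * (k + 1)) 1 (k + 1) (by omega)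
    have e2 : 2 * (k + 1) / 2 = k + 1 := by omega
    rw [e2, Nat.add_sub_cancel]
    omega
  · rw [Nat.not_even_iff_odd] at he
    obtain ⟨k, rfl⟩ := he
    have h3 := card_SP_le (F := F) (2 * k + 1) 1 k (by omega)
    have h4 := card_SP_le (F := F) (2 * k + 1) (-1) k (by omega)
    have e2 : (2 * k + 1) / 2 = k := by omega
    rw [e2]
    omega

/-- existence with prescribed coefficients -/
theorem exists_SP (k : ℕ) (a : Fin k → F) : ∃ f ∈ SP F (2 * k) 1, ∀ i : Fin k, f.coeff ((i : ℕ) + 1) = a i := by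
  classical
  let b : ℕ → F := fun j => if h : 1 ≤ j ∧ j ≤ k then a ⟨j - 1, by omega⟩ else 1
  obtain ⟨p, hp⟩ := (monicEquiv (F := F) (2 * k)).surjective (fun j => b (min j (2 * k - j)))
  have hco : ∀ j, j < 2 * k → p.1.coeff j = b (min j (2 * k - j)) := by
    intro j hj
    have := monicEquiv_apply p ⟨j, hj⟩
    rw [hp] at this
    exact this.symm
  have hco' : ∀ j, j ≤ 2 * k → p.1.coeff j = b (min j (2 * k - j)) := by
    intro j hj
    rcases Nat.lt_or_ge j (2 * k) with h | h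
    · exact hco j h
    · have e : j = 2 * k := by omega
      subst e
      have h1 : p.1.coeff (2 * k) = 1 := by
        have := p.2.1
        rw [Monic, leadingCoeff, p.2.2] at this
        exact this
      rw [h1, Nat.sub_self, Nat.min_zero]
      have : b 0 = 1 := dif_neg (by omega)
      rw [this]
  have h0 : p.1.coeff 0 = 1 := by
    rw [hco' 0 (Nat.zero_le _), Nat.zero_min]
    exact dif_neg (by omega)
  refine ⟨p.1, ⟨⟨p.2.1, by rw [h0]; exact one_ne_zero⟩, p.2.2, ?_, h0⟩, ?_⟩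
  · ext j
    rw [st_coeff, h0, p.2.2]
    show (1 : F)⁻¹ * p.1.coeff _ = _
    rw [inv_one, one_mul]
    rcases le_or_gt j (2 * k) with h | h
    · rw [revAt_le h, hco' _ (Nat.sub_le _ _), hco' j h]
      congr 1
      omega
    · rw [revAt_eq_self_of_lt h]
  · intro i
    have hi := i.2
    rw [hco' _ (by omega)]
    have e : min ((i : ℕ) + 1) (2 * k - ((i : ℕ) + 1)) = (i : ℕ) + 1 := by omega
    rw [e]
    show dite _ _ _ = _
    rw [dif_pos ⟨by omega, by omega⟩]
    rfl

theorem card_SP_even [Finite F] (k : ℕ) : Nat.card (SP F (2 * k) 1) = Nat.card F ^ k := by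
  apply le_antisymm (card_SP_le _ _ k (by omega))
  have h1 : Nat.card (Fin k → F) = Nat.card F ^ k := by rw [Nat.card_fun, Nat.card_fin]
  rw [← h1]
  haveI : Finite (SP F (2 * k) 1) := finite_SP _ _
  apply Nat.card_le_card_of_surjective (fun f : SP F (2 * k) 1 => fun i : Fin k => f.1.coeff ((i : ℕ) + 1))
  intro a
  obtain ⟨f, hf, h⟩ := exists_SP k a
  exact ⟨⟨f, hf⟩, funext h⟩

end H46.SdCount
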