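import Mathlib
import Cfsg.Agent.Lib.H46.SdCount

/-! Weighted counting of self-reciprocal polynomials. -/

set_option autoImplicit false

namespace H46.SdWeight

open Finset Polynomial H46.TyCount H46.StPoly H46.SdCount H46.ProdBound

open scoped Classical

variable {F : Type*} [Field F]

theorem good_lin {c : F} (hc : c * c = 1) : Good (X - C c : F[X]) := by
  refine ⟨monic_X_sub_C c, ?_⟩
  have hc0 : c ≠ 0 := by rintro rfl; simp at hc
  simp [hc0]

theorem st_lin {c : F} (hc : c * c = 1) : st (RingHom.id F) (X - C c) = X - C c := by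
  have hc0 : c ≠ 0 := by rintro rfl; simp at hc
  have hci : c⁻¹ = c := inv_eq_of_mul_eq_one_right hc
  ext i
  rw [st_coeff, natDegree_X_sub_C]
  rcases i with _ | _ | i
  · rw [revAt_le (Nat.zero_le _)]
    simp [inv_neg, hci]
  · rw [revAt_le (by omega)]
    simp [coeff_X, coeff_C, hci, hc]
  · rw [revAt_eq_self_of_lt (by omega)]
    have : (X - C c : F[X]).coeff (i + 1 + 1) = 0 := coeff_eq_zero_of_natDegree_lt (by rw [natDegree_X_sub_C]; omega)
    rw [this]; simp

theorem card_dvd_le [Finite F] {p : F[X]} (hp : Good p) (hs : st (RingHom.id F) p = p) (m : ℕ) :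
    Nat.card {f : SA F m // p ∣ f.1} ≤ if p.natDegree ≤ m then Nat.card (SA F (m - p.natDegree)) else 0 := by
  have key : ∀ f : SA F m, p ∣ f.1 → p.natDegree ≤ m ∧ ∃ g ∈ SA F (m - p.natDegree), f.1 = p * g := by
    rintro ⟨f, hf1, hf2, hf3⟩ ⟨g, hg⟩
    simp only at hg
    have hgood := good_of_mul (hg ▸ hf1) hp.1
    have hdeg : f.natDegree = p.natDegree + g.natDegree := by rw [hg, hp.1.natDegree_mul hgood.2.1]
    refine ⟨by omega, g, ⟨hgood.2, by omega, ?_⟩, hg⟩
    have h1 : p * st (RingHom.id F) g = p * g := by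
      rw [← hg, ← hf3, hg, st_mul, hs]
    exact mul_left_cancel₀ hp.ne_zero h1
  haveI : Finite (SA F (m - p.natDegree)) := finite_SA _
  split_ifs with h
  · choose g hg1 hg2 using fun f : {f : SA F m // p ∣ f.1} => (key f.1 f.2).2
    apply Nat.card_le_card_of_injective (fun f => (⟨g f, hg1 f⟩ : SA F (m - p.natDegree)))
    intro f f' hff
    apply Subtype.ext
    apply Subtype.ext
    rw [hg2 f, hg2 f']
    exact congrArg (fun x => p * x) (congrArg Subtype.val hff)
  · haveI : IsEmpty {f : SA F m // p ∣ f.1} := ⟨fun f => h (key f.1 f.2).1⟩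
    simp

/-- the weight of a polynomial -/
noncomputable def wt (f : F[X]) : ℕ := (if (X - C 1) ∣ f then 2 else 1) * (if (X - C (-1)) ∣ f then 2 else 1)

/-- the weighted number -/
def Wq (q m : ℕ) : ℕ := sdn q m + 2 * (if 1 ≤ m then sdn q (m - 1) else 0) + (if 2 ≤ m then sdn q (m - 2) else 0)

theorem sum_wt_le [Finite F] (h2 : (2 : F) ≠ 0) (A : Finset F[X]) (m : ℕ) (hA : ∀ f ∈ A, Good f ∧ st (RingHom.id F) f = f) :
    ∑ f ∈ A.filter (fun f => f.natDegree = m), wt f ≤ Wq (Nat.card F) m := by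
  have hsub : ∀ f ∈ A.filter (fun f => f.natDegree = m), f ∈ SA F m := by
    intro f hf
    rw [mem_filter] at hf
    exact ⟨(hA f hf.1).1, hf.2, (hA f hf.1).2⟩
  have hfin : (SA F m).Finite := finite_SA m
  let B := hfin.toFinset
  have h1 : ∑ f ∈ A.filter (fun f => f.natDegree = m), wt f ≤ ∑ f ∈ B, wt f :=
    Finset.sum_le_sum_of_subset (fun f hf => by rw [Set.Finite.mem_toFinset]; exact hsub f hf)
  refine h1.trans ?_
  have h3 : ∀ f : F[X], wt f = 1 + (if (X - C 1) ∣ f then 1 else 0) + (if (X - C (-1)) ∣ f then 1 else 0) + (if (X - C 1) * (X - C (-1)) ∣ f then 1 else 0) := by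
    intro f
    have hne : (X - C (1 : F)) ≠ X - C (-1) := by
      intro h
      have h3 := congrArg (fun p => coeff p 0) h
      simp at h3
      apply h2
      have h5 : (2 : F) = 1 + 1 := by norm_num
      rw [h5]
      nth_rw 1 [← neg_neg (1 : F)]
      rw [h3]; ring
    have hco : IsCoprime (X - C (1 : F)) (X - C (-1)) := H48.SimStruct.isCoprime_of_ne (monic_X_sub_C _) (monic_X_sub_C _) (irreducible_X_sub_C _) (irreducible_X_sub_C _) hne
    have hiff : (X - C 1) * (X - C (-1)) ∣ f ↔ (X - C 1) ∣ f ∧ (X - C (-1)) ∣ f :=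
      ⟨fun h => ⟨(Dvd.intro _ rfl).trans h, (Dvd.intro_left _ rfl).trans h⟩, fun h => hco.mul_dvd h.1 h.2⟩
    unfold wt
    by_cases ha : (X - C 1) ∣ f <;> by_cases hb : (X - C (-1)) ∣ f <;> simp only [hiff, ha, hb, if_true, if_false, and_true, true_and, and_false, false_and] <;> norm_num
  have hcard : ∀ p : F[X], ∑ f ∈ B, (if p ∣ f then 1 else 0) = Nat.card {f : SA F m // p ∣ f.1} := by
    intro p
    rw [← Finset.card_filter]
    have e1 : {f : SA F m // p ∣ f.1} ≃ (B.filter (fun f => p ∣ f) : Finset F[X]) :=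
      { toFun := fun f => ⟨f.1.1, by rw [mem_filter, Set.Finite.mem_toFinset]; exact ⟨f.1.2, f.2⟩⟩
        invFun := fun f => ⟨⟨f.1, by have := f.2; rw [mem_filter, Set.Finite.mem_toFinset] at this; exact this.1⟩, by have := f.2; rw [mem_filter] at this; exact this.2⟩
        left_inv := fun f => rfl
        right_inv := fun f => rfl }
    rw [Nat.card_congr e1, Nat.card_eq_fintype_card, Fintype.card_coe]
  have hB : B.card = Nat.card (SA F m) := by
    rw [Nat.card_coe_set_eq, Set.ncard_eq_toFinset_card _ hfin]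
  rw [Finset.sum_congr rfl (fun f _ => h3 f), Finset.sum_add_distrib, Finset.sum_add_distrib, Finset.sum_add_distrib, Finset.sum_const, smul_eq_mul, mul_one, hB, hcard, hcard, hcard]
  have k0 := card_SA_le (F := F) h2 m
  have k1 := card_dvd_le (F := F) (good_lin (c := 1) (by ring)) (st_lin (by ring)) m
  have k2 := card_dvd_le (F := F) (good_lin (c := -1) (by ring)) (st_lin (by ring)) m
  have k3 := card_dvd_le (F := F) ((good_lin (c := (1 : F)) (by ring)).mul (good_lin (c := -1) (by ring))) (by rw [st_mul, st_lin (by ring), st_lin (by ring)]) m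
  have hd : ((X - C (1 : F)) * (X - C (-1))).natDegree = 2 := by
    rw [(monic_X_sub_C _).natDegree_mul (monic_X_sub_C _), natDegree_X_sub_C, natDegree_X_sub_C]
  rw [natDegree_X_sub_C] at k1 k2
  rw [hd] at k3
  have j1 : (if 1 ≤ m then Nat.card (SA F (m - 1)) else 0) ≤ (if 1 ≤ m then sdn (Nat.card F) (m - 1) else 0) := by
    split_ifs
    · exact card_SA_le h2 _
    · exact le_rfl
  have j3 : (if 2 ≤ m then Nat.card (SA F (m - 2)) else 0) ≤ (if 2 ≤ m then sdn (Nat.card F) (m - 2) else 0) := by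
    split_ifs
    · exact card_SA_le h2 _
    · exact le_rfl
  unfold Wq
  omega

theorem sdn_succ (q m : ℕ) : sdn q (m + 2) = q * sdn q m + if m = 0 then 1 else 0 := by
  unfold sdn
  rcases Nat.eq_zero_or_pos m with rfl | hm
  · norm_num
  · rw [if_neg (by omega), if_neg (by omega : m ≠ 0), if_neg (by omega : m ≠ 0)]
    have e1 : (m + 2) / 2 = m / 2 + 1 := by omega
    by_cases he : Even m
    · rw [if_pos (by rw [Nat.even_add]; simp [he]), if_pos he, e1]
      obtain ⟨k, hk⟩ := he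
      obtain ⟨j, hj⟩ : ∃ j, m / 2 = j + 1 := ⟨m / 2 - 1, by omega⟩
      rw [hj, Nat.add_sub_cancel, Nat.add_sub_cancel]
      ring
    · rw [if_neg (by rw [Nat.even_add]; simp [he]), if_neg he, e1]
      ring

/-- coefficients of `(1 + v) ^ 4` -/
def c4 (m : ℕ) : ℕ := Nat.choose 4 m

theorem Wq_rec (q m : ℕ) : Wq q (m + 2) = q * Wq q m + c4 (m + 2) := by
  unfold Wq
  rcases m with _ | _ | _ | m
  · simp [sdn, c4, Nat.choose]
  · have e1 := sdn_succ q 1
    have e2 := sdn_succ q 0
    simp only [Nat.reduceAdd] at *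
    norm_num at *
    rw [e1, e2]
    simp [sdn, c4, Nat.choose]; ring
  · have e1 := sdn_succ q 2
    have e2 := sdn_succ q 1
    have e3 := sdn_succ q 0
    norm_num at *
    rw [e1, e2, e3]
    simp [sdn, c4, Nat.choose]; ring
  · have e1 := sdn_succ q (m + 3)
    have e2 := sdn_succ q (m + 2)
    have e3 := sdn_succ q (m + 1)
    rw [if_neg (by omega)] at e1 e2 e3
    rw [if_pos (by omega), if_pos (by omega), if_pos (by omega), if_pos (by omega)]
    have a1 : m + 1 + 1 + 1 + 2 = m + 3 + 2 := by omega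
    have a2 : m + 1 + 1 + 1 + 2 - 1 = m + 2 + 2 := by omega
    have a3 : m + 1 + 1 + 1 + 2 - 2 = m + 1 + 2 := by omega
    have a4 : m + 1 + 1 + 1 = m + 3 := by omega
    have a5 : m + 1 + 1 + 1 - 1 = m + 2 := by omega
    have a6 : m + 1 + 1 + 1 - 2 = m + 1 := by omega
    rw [a1] at *
    rw [show m + 3 + 2 - 1 = m + 2 + 2 by omega, show m + 3 + 2 - 2 = m + 1 + 2 by omega, e1, e2, e3, a5, a6, a4]
    have : c4 (m + 3 + 2) = 0 := Nat.choose_eq_zero_of_lt (by omega)
    rw [this]
    ring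

theorem sum_c4_le (v : ℝ) (hv : 0 ≤ v) (M : ℕ) : ∑ m ∈ range M, (c4 m : ℝ) * v ^ m ≤ (1 + v) ^ 4 := by
  have h1 : ∑ m ∈ range M, (c4 m : ℝ) * v ^ m ≤ ∑ m ∈ range (M + 5), (c4 m : ℝ) * v ^ m :=
    Finset.sum_le_sum_of_subset_of_nonneg (Finset.range_subset_range.mpr (by omega)) (fun m _ _ => by positivity)
  refine h1.trans (le_of_eq ?_)
  have h2 : ∑ m ∈ range (M + 5), (c4 m : ℝ) * v ^ m = ∑ m ∈ range 5, (c4 m : ℝ) * v ^ m := by
    symm
    apply Finset.sum_subset (Finset.range_subset_range.mpr (by omega))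
    intro m _ hm
    rw [mem_range] at hm
    have : c4 m = 0 := Nat.choose_eq_zero_of_lt (by omega)
    rw [this]; simp
  rw [h2]
  simp [Finset.sum_range_succ, c4, Nat.choose]
  ring

theorem sum_Wq_le {q : ℕ} {v : ℝ} (hv : 0 ≤ v) (hqv : (q : ℝ) * v ^ 2 < 1) (M : ℕ) :
    ∑ m ∈ range M, (Wq q m : ℝ) * v ^ m ≤ (1 + v) ^ 4 / (1 - q * v ^ 2) := by
  apply sum_rec_le (c := fun m => (c4 m : ℝ)) (Nat.cast_nonneg q) hv hqv (fun m => Nat.cast_nonneg _)
  · intro m
    have := Wq_rec q m
    exact_mod_cast this.le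
  · simp [Wq, sdn, c4]
  · simp [Wq, sdn, c4]
  · exact fun M => sum_c4_le v hv M

/-- number of self-reciprocal polynomials with constant coefficient `1` and even degree -/
def Eq' (q m : ℕ) : ℕ := if Even m then q ^ (m / 2) else 0

theorem sum_Eq_le {q : ℕ} {v : ℝ} (hv : 0 ≤ v) (hqv : (q : ℝ) * v ^ 2 < 1) (M : ℕ) :
    ∑ m ∈ range M, (Eq' q m : ℝ) * v ^ m ≤ 1 / (1 - q * v ^ 2) := by
  apply sum_rec_le (c := fun m => if m = 0 then (1 : ℝ) else 0) (Nat.cast_nonneg q) hv hqv (fun m => Nat.cast_nonneg _)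
  · intro m
    rw [if_neg (by omega), add_zero]
    unfold Eq'
    by_cases he : Even m
    · rw [if_pos (by rw [Nat.even_add]; simp [he]), if_pos he]
      have e1 : (m + 2) / 2 = m / 2 + 1 := by omega
      rw [e1, pow_succ]
      push_cast
      linarith
    · rw [if_neg (by rw [Nat.even_add]; simp [he]), if_neg he]
      simp
  · simp [Eq']
  · simp [Eq']
  · intro M
    rw [Finset.sum_congr rfl (fun m _ => show (if m = 0 then (1 : ℝ) else 0) * v ^ m = if m = 0 then 1 else 0 by split_ifs with h <;> simp [h])]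
    rw [Finset.sum_ite_eq']
    split_ifs <;> norm_num

theorem card_even_le [Finite F] (A : Finset F[X]) (m : ℕ) (hA : ∀ f ∈ A, Good f ∧ st (RingHom.id F) f = f ∧ f.coeff 0 = 1 ∧ Even f.natDegree) :
    (A.filter (fun f => f.natDegree = m)).card ≤ Eq' (Nat.card F) m := by
  unfold Eq'
  split_ifs with he
  · obtain ⟨k, hk⟩ := he
    have h1 : m = 2 * k := by omega
    subst h1
    have e2 : 2 * k / 2 = k := by omega
    rw [e2, ← card_SP_even (F := F) k, Nat.card_coe_set_eq, ← Set.ncard_coe_finset]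
    apply Set.ncard_le_ncard _ (finite_SP _ _)
    intro f hf
    rw [Finset.mem_coe, mem_filter] at hf
    obtain ⟨a, b, c, d⟩ := hA f hf.1
    exact ⟨a, hf.2, b, c⟩
  · rw [Nat.le_zero, Finset.card_eq_zero, Finset.filter_eq_empty_iff]
    intro f hf h
    apply he
    rw [← h]
    exact (hA f hf).2.2.2

end H46.SdWeight
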