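import Mathlib
import Cfsg.Agent.Lib.H46.IsoCount
import Cfsg.Agent.Lib.H46.StTy
import Cfsg.Agent.Lib.H46.SdWeight

/-! Types of isometries. -/

set_option autoImplicit false

namespace H46.TySelf

open Polynomial Module H49.FormConj2 H49.FormConj3 H46.FormSplit H46.SigU H46.SigModel H46.IsoCount
open H46.TyAlg H46.TyCount H46.TyReal H46.TyGL H46.StPoly H46.StTy H46.SdCount H46.SdWeight

universe u v w

variable {F : Type u} [Field F] {V : Type v} [AddCommGroup V] [Module F V] [FiniteDimensional F V]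

/-- the type of an isometry is self-dual -/
theorem st_of_IF {T : V →ₗ[F] V} {ε : F} (hε : ε ≠ 0) {f : LinearMap.BilinForm F V} (hf : IF T ε f) {τ : ℕ → F[X]} (hτ : IsTy T τ) (e : ℕ) :
    st (RingHom.id F) (τ e) = τ e := by
  let b := Module.finBasis F V
  let E : V ≃ₗ[F] (Fin (finrank F V) → F) := b.equivFun
  let S : (Fin (finrank F V) → F) →ₗ[F] (Fin (finrank F V) → F) := (E : V →ₗ[F] _) ∘ₗ T ∘ₗ (E.symm : _ →ₗ[F] V)
  have hES : ∀ v, E (T v) = S (E v) := by
    intro v
    show E (T v) = E (T (E.symm (E v)))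
    rw [E.symm_apply_apply]
  have hg := tp_IF hf E hES
  obtain ⟨A, hA⟩ : ∃ A, A = LinearMap.toMatrix' S := ⟨_, rfl⟩
  obtain ⟨J, hJ⟩ : ∃ J, J = LinearMap.BilinForm.toMatrix' (tp f E) := ⟨_, rfl⟩
  have hAJ : A.transpose * J * A = J := by
    have h1 : (tp f E).comp S S = tp f E := by
      apply LinearMap.ext
      intro u
      apply LinearMap.ext
      intro v
      exact hg.inv u v
    have h2 := congrArg LinearMap.BilinForm.toMatrix' h1
    rw [LinearMap.BilinForm.toMatrix'_comp] at h2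
    rw [hA, hJ]
    exact h2
  have hJd : J.det ≠ 0 := by
    have h1 := (LinearMap.BilinForm.nondegenerate_iff_det_ne_zero (B := tp f E) (Pi.basisFun F (Fin (finrank F V)))).mp ?_
    · rw [hJ]; exact h1
    · refine ⟨fun x hx => hg.nd x hx, fun x hx => hg.nd x fun y => ?_⟩
      rw [hg.symm, hx y, mul_zero]
  have hJu : IsUnit J.det := IsUnit.mk0 _ hJd
  have hlin : IsTy (lin A) τ := by
    have h1 : lin A = S := by
      rw [hA]
      exact Matrix.toLin'_toMatrix' S
    rw [h1]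
    exact isTy_of_conj hτ E hES
  have h1 : ty A = τ := isTy_lin.mp hlin
  have h2 : ty (J * A * J⁻¹) = ty A := by
    rw [ty_eq_iff]
    refine ⟨Matrix.GeneralLinearGroup.mk'' J⁻¹ (by rw [Matrix.det_nonsing_inv]; exact hJu.ringInverse), ?_⟩
    show J⁻¹ * (J * A * J⁻¹) = A * J⁻¹
    rw [← mul_assoc, ← mul_assoc, Matrix.nonsing_inv_mul _ hJu, one_mul]
  have h3 : cT (RingHom.id F) A * (J * A * J⁻¹) = 1 := by
    have h4 : cT (RingHom.id F) A = A.transpose := by
      ext i j; rfl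
    rw [h4, ← mul_assoc, ← mul_assoc, hAJ, Matrix.mul_nonsing_inv _ hJu]
  have h5 := ty_dual (φ := RingHom.id F) (fun _ => rfl) h3
  rw [h2, h1] at h5
  exact (congrFun h5 e).symm

theorem eval_one_of_st {g : F[X]} (hs : st (RingHom.id F) g = g) (h1 : ¬ (X - C 1) ∣ g) : g.coeff 0 = 1 := by
  rw [dvd_iff_isRoot, IsRoot.def] at h1
  have h2 := congrArg (eval 1) hs
  unfold st at h2
  rw [Polynomial.map_id, eval_mul, eval_C] at h2
  have h3 : eval 1 g.reverse = eval 1 g := by
    have h5 := @eval₂_reverse_mul_pow _ _ _ _ (RingHom.id F) (1 : F) ⟨1, by ring, by ring⟩ g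
    have h6 : eval 1 g.reverse * 1 ^ g.natDegree = eval 1 g := h5
    rw [one_pow, mul_one] at h6
    exact h6
  rw [h3] at h2
  have h4 := mul_right_cancel₀ h1 (h2.trans (one_mul _).symm)
  have h5 : (g.coeff 0)⁻¹ = 1 := h4
  exact inv_eq_one.mp h5

theorem even_of_st (h2 : (2 : F) ≠ 0) {g : F[X]} (hs : st (RingHom.id F) g = g) (hc : g.coeff 0 = 1) (h1 : ¬ (X - C (-1)) ∣ g) : Even g.natDegree := by
  rw [dvd_iff_isRoot, IsRoot.def] at h1
  have h3 := congrArg (eval (-1)) hs
  unfold st at h3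
  rw [Polynomial.map_id, eval_mul, eval_C, hc] at h3
  have h4 : eval (-1) g.reverse * (-1) ^ g.natDegree = eval (-1) g := by
    exact @eval₂_reverse_mul_pow _ _ _ _ (RingHom.id F) (-1 : F) ⟨-1, by ring, by ring⟩ g
  by_contra hodd
  rw [Nat.not_even_iff_odd] at hodd
  rw [hodd.neg_one_pow] at h4
  have h5 : eval (-1) g.reverse = eval (-1) g := by
    have h6 : (RingHom.id F (1 : F))⁻¹ = 1 := by simp
    rw [h6, one_mul] at h3
    exact h3
  rw [h5] at h4
  have h7 : 2 * eval (-1) g = 0 := by rw [two_mul]; nth_rw 1 [← h4]; ring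
  exact h1 ((mul_eq_zero.mp h7).resolve_left h2)

theorem coeff0_lin_pow {c : F} (hc : c * c = 1) {a : ℕ} (ha : Even a) : ((X - C c) ^ a : F[X]).coeff 0 = 1 := by
  obtain ⟨k, rfl⟩ := ha
  rw [coeff_zero_eq_eval_zero, eval_pow, eval_sub, eval_X, eval_C, zero_sub, pow_add, ← mul_pow, neg_mul_neg, hc, one_pow]

/-- parity consequences -/
theorem parity (h2 : (2 : F) ≠ 0) {f : F[X]} (hf : Good f) (hs : st (RingHom.id F) f = f) (ha : Even (rootMultiplicity 1 f)) (hb : Even (rootMultiplicity (-1) f)) :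
    f.coeff 0 = 1 ∧ Even f.natDegree := by
  obtain ⟨g, hg1, hg2, hg3, hg4⟩ := strip hf.1 h2
  have m1 : ((X - C (1 : F)) ^ rootMultiplicity 1 f).Monic := (monic_X_sub_C 1).pow _
  have m2 : ((X - C (-1 : F)) ^ rootMultiplicity (-1) f).Monic := (monic_X_sub_C (-1)).pow _
  have hsg : st (RingHom.id F) g = g := by
    have h3 := hs
    rw [hg1, st_mul, st_mul, st_pow, st_pow, st_lin (by ring), st_lin (by ring)] at h3
    rw [← hg1] at h3
    exact mul_left_cancel₀ m2.ne_zero (mul_left_cancel₀ m1.ne_zero (h3.trans hg1))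
  have hc := eval_one_of_st hsg hg3
  have he := even_of_st h2 hsg hc hg4
  constructor
  · rw [hg1, mul_coeff_zero, mul_coeff_zero, hc, coeff0_lin_pow (by ring) ha, coeff0_lin_pow (by ring) hb]; ring
  · rw [hg1, m1.natDegree_mul (m2.mul hg2), m2.natDegree_mul hg2, natDegree_pow, natDegree_pow, natDegree_X_sub_C, natDegree_X_sub_C, mul_one, mul_one]
    exact ha.add (hb.add he)

end H46.TySelf
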