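import Mathlib
import Cfsg.Agent.Lib.H46.TySelf

/-! Product bounds for class numbers of isometry groups. -/

set_option autoImplicit false

namespace H46.IsoBound

open Finset Polynomial Module H49.FormConj2 H49.FormConj3 H46.FormSplit H46.SigU H46.SigModel H46.IsoCount
open H46.TyAlg H46.TyCount H46.TyReal H46.TyGL H46.StPoly H46.StTy H46.SdCount H46.SdWeight H46.TySelf H46.ProdBound

universe u v w

open scoped Classical

variable {F : Type u} [Field F] {V : Type v} [AddCommGroup V] [Module F V] [FiniteDimensional F V] {G : Type w} [Group G]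
variable {f : LinearMap.BilinForm F V} (P : IsoG G f)

/-- the set of possible types -/
noncomputable def TyS [Finite F] (ε : F) (n : ℕ) : Finset (ℕ → F[X]) :=
  (show (TT F 1 n).Finite from Set.toFinite _).toFinset.filter (fun τ => (∀ e, st (RingHom.id F) (τ e) = τ e) ∧
    ∀ i, ε * (-1) ^ (i - 1) = -1 → (τ i).coeff 0 = 1 ∧ Even (τ i).natDegree)

theorem mem_TyS [Finite F] {ε : F} {n : ℕ} {τ : ℕ → F[X]} : τ ∈ TyS ε n ↔ τ ∈ TT F 1 n ∧ (∀ e, st (RingHom.id F) (τ e) = τ e) ∧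
    ∀ i, ε * (-1) ^ (i - 1) = -1 → (τ i).coeff 0 = 1 ∧ Even (τ i).natDegree := by
  unfold TyS
  rw [mem_filter, Set.Finite.mem_toFinset]

/-- the weight of an entry -/
noncomputable def ww (ε : F) (e : ℕ) (g : F[X]) : ℕ := if ε * (-1) ^ (e - 1) = 1 then wt g else 1

theorem two_pow_card (s : Finset ℕ) (p : ℕ → Prop) [DecidablePred p] : 2 ^ (s.filter p).card = ∏ i ∈ s, if p i then 2 else 1 := by
  rw [Finset.prod_ite, Finset.prod_const_one, mul_one, Finset.prod_const]

theorem E1_prod {ε c : F} {n : ℕ} {τ : ℕ → F[X]} (h0 : τ 0 = 1) : 2 ^ (E1 ε c n τ).card = ∏ i ∈ Icc 1 n, if ε * (-1) ^ (i - 1) = 1 ∧ (X - C c) ∣ τ i then 2 else 1 := by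
  refine Eq.trans ?_ (two_pow_card (Icc 1 n) (fun i => ε * (-1) ^ (i - 1) = 1 ∧ (X - C c) ∣ τ i))
  congr 2
  unfold E1
  ext i
  rw [mem_filter, mem_filter, mem_range, mem_Icc]
  constructor
  · rintro ⟨a, b, c'⟩
    refine ⟨⟨?_, by omega⟩, b, c'⟩
    by_contra hi
    have : i = 0 := by omega
    subst this
    rw [h0] at c'
    exact (irreducible_X_sub_C c).not_isUnit (isUnit_of_dvd_one c')
  · rintro ⟨a, b⟩
    exact ⟨by omega, b⟩

variable (hf : NDB f) {ε : F} (hs : ∀ u v, f u v = ε * f v u)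

include hf hs in
theorem tyG_mem_TyS [Finite F] (h2 : (2 : F) ≠ 0) (hε : ε * ε = 1) (x : G) : tyG P x ∈ TyS ε (finrank F V) := by
  have hε0 : ε ≠ 0 := by rintro rfl; simp at hε
  have hst : ∀ e, st (RingHom.id F) (tyG P x e) = tyG P x e := fun e => st_of_IF hε0 (if_rho P hf hs x) (isTy_tyG P x) e
  rw [mem_TyS]
  refine ⟨tyG_mem P x, hst, ?_⟩
  intro i hi
  obtain ⟨ha, hb⟩ := even_tyG P hf hs h2 hε x i hi
  exact parity h2 ((tyG_mem P x).1 i) (hst i) ha hb

include P hf hs in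
theorem card_le_prod_sum [Finite F] [Finite G] (hodd : Odd (Nat.card F)) (h2 : (2 : F) ≠ 0) (hε : ε * ε = 1) {n : ℕ} (hn : finrank F V = n) :
    Nat.card (ConjClasses G) ≤ ∑ τ ∈ TyS ε n, ∏ e ∈ Icc 1 n, ww ε e (τ e) := by
  subst hn
  refine (card_le_sum P hf hs hodd h2 hε (TyS ε (finrank F V)) (tyG_mem_TyS P hf hs h2 hε)).trans (le_of_eq ?_)
  refine Finset.sum_congr rfl fun τ hτ => ?_
  rw [mem_TyS] at hτ
  have h0 : τ 0 = 1 := hτ.1.2.1 0 (Or.inl (by omega))
  rw [pow_add, E1_prod h0, E1_prod h0, ← Finset.prod_mul_distrib]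
  refine Finset.prod_congr rfl fun e _ => ?_
  unfold ww wt
  by_cases h : ε * (-1) ^ (e - 1) = 1
  · simp only [h, true_and, if_true]
  · simp only [h, false_and, if_false, mul_one]

/-- the factor bound -/
noncomputable def GB (ε : F) (s : ℝ) (e : ℕ) : ℝ := if ε * (-1) ^ (e - 1) = 1 then (1 + s ^ e) ^ 4 / (1 - s ^ (2 * e - 2)) else 1 / (1 - s ^ (2 * e - 2))

theorem eps_cases {ε : F} (hε : ε * ε = 1) (i : ℕ) : ε * (-1) ^ (i - 1) = 1 ∨ ε * (-1) ^ (i - 1) = -1 := by
  apply mul_self_eq_one_iff.mp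
  rw [mul_mul_mul_comm, hε, ← mul_pow]
  simp

/-- the sum over types -/
theorem sum_TyS_le [Finite F] (h2 : (2 : F) ≠ 0) {ε : F} (hε : ε * ε = 1) {n : ℕ} (hn : 1 ≤ n) {s Cc : ℝ} (hs0 : 0 < s) (hs1 : s < 1) (hsq : (Nat.card F : ℝ) * s ^ 2 = 1)
    (hC : ∀ m, ((if ε = 1 then Wq (Nat.card F) m else Eq' (Nat.card F) m : ℕ) : ℝ) * s ^ m ≤ Cc) (hC0 : 0 ≤ Cc) :
    ((∑ τ ∈ TyS ε n, ∏ e ∈ Icc 1 n, ww ε e (τ e) : ℕ) : ℝ) * s ^ n ≤ Cc * ∏ e ∈ Icc 2 n, GB ε s e := by
  have hne1 : (1 : F) ≠ -1 := by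
    intro h
    apply h2
    have h5 : (2 : F) = 1 + 1 := by norm_num
    rw [h5]; nth_rw 1 [h]; ring
  let A : ℕ → Finset F[X] := fun e => (TyS ε n).image (fun τ => τ e)
  have hA : ∀ e, ∀ g ∈ A e, (Good g ∧ st (RingHom.id F) g = g) ∧ (ε * (-1) ^ (e - 1) = -1 → g.coeff 0 = 1 ∧ Even g.natDegree) := by
    intro e g hg
    rw [mem_image] at hg
    obtain ⟨τ, hτ, rfl⟩ := hg
    rw [mem_TyS] at hτ
    exact ⟨⟨hτ.1.1 e, hτ.2.1 e⟩, hτ.2.2 e⟩
  have hcount : ∀ e m, ∑ g ∈ (A e).filter (fun g => g.natDegree = m), (ww ε e g : ℝ) ≤ ((if ε * (-1) ^ (e - 1) = 1 then Wq (Nat.card F) m else Eq' (Nat.card F) m : ℕ) : ℝ) := by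
    intro e m
    rw [← Nat.cast_sum]
    apply Nat.cast_le.mpr
    unfold ww
    by_cases h : ε * (-1) ^ (e - 1) = 1
    · simp only [h, if_true]
      exact sum_wt_le h2 (A e) m (fun g hg => (hA e g hg).1)
    · simp only [h, if_false]
      rw [Finset.sum_const, smul_eq_mul, mul_one]
      refine card_even_le (A e) m (fun g hg => ?_)
      have h3 := (hA e g hg).2 ((eps_cases hε e).resolve_left h)
      exact ⟨(hA e g hg).1.1, (hA e g hg).1.2, h3.1, h3.2⟩
  have hmain := prod_bound (1 : F[X]) (fun g => g.natDegree) hn (TyS ε n) A (fun e g => (ww ε e g : ℝ)) (fun e g => Nat.cast_nonneg _) (s := s) (C := Cc) hs0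
    (fun f hf e _ => mem_image_of_mem _ hf)
    (fun f hf e he => by
      rw [mem_TyS] at hf
      apply hf.1.2.1
      rw [mem_Icc] at he
      omega)
    (fun f hf => by
      rw [mem_TyS] at hf
      have h3 := hf.1.2.2
      rw [Finset.sum_range_succ'] at h3
      rw [zero_mul, add_zero] at h3
      conv_rhs => rw [← h3]
      rw [Finset.sum_bij (fun (e : ℕ) (_ : e ∈ Icc 1 n) => e - 1) (t := range n) (g := fun k => (k + 1) * (f (k + 1)).natDegree)]
      · intro e he; rw [mem_Icc] at he; rw [mem_range]; omega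
      · intro e he e' he' h; rw [mem_Icc] at he he'; omega
      · intro k hk; rw [mem_range] at hk; exact ⟨k + 1, by rw [mem_Icc]; omega, by omega⟩
      · intro e he
        rw [mem_Icc] at he
        have : e - 1 + 1 = e := by omega
        rw [this])
    hC0 (fun m => by
      rw [← Finset.sum_mul]
      refine le_trans (mul_le_mul_of_nonneg_right (hcount 1 m) (pow_nonneg hs0.le _)) ?_
      have := hC m
      simp only [Nat.sub_self, pow_zero, mul_one]
      exact this)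
  push_cast
  refine hmain.trans (mul_le_mul_of_nonneg_left ?_ hC0)
  apply Finset.prod_le_prod
  · intro e _
    apply Finset.sum_nonneg
    intro g _
    positivity
  · intro e he
    rw [mem_Icc] at he
    have hv0 : 0 ≤ s ^ e := pow_nonneg hs0.le _
    have hqv : (Nat.card F : ℝ) * (s ^ e) ^ 2 = s ^ (2 * e - 2) := by
      have h4 : (s ^ e) ^ 2 = s ^ 2 * s ^ (2 * e - 2) := by
        rw [← pow_mul, ← pow_add]; congr 1; omega
      rw [h4, ← mul_assoc, hsq, one_mul]
    have hlt : (Nat.card F : ℝ) * (s ^ e) ^ 2 < 1 := by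
      rw [hqv]
      exact pow_lt_one₀ hs0.le hs1 (by omega)
    have h5 : ∑ g ∈ A e, (ww ε e g : ℝ) * s ^ (e * g.natDegree) = ∑ g ∈ A e, (ww ε e g : ℝ) * (s ^ e) ^ g.natDegree :=
      Finset.sum_congr rfl fun g _ => by rw [pow_mul]
    rw [h5]
    unfold GB
    rw [← hqv]
    split_ifs with h
    · apply sum_by_deg (fun g : F[X] => g.natDegree) (A e) (fun g => (ww ε e g : ℝ)) (fun m => (Wq (Nat.card F) m : ℝ)) _ _ hv0
      · intro m
        have := hcount e m
        rw [if_pos h] at this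
        exact this
      · exact fun M => sum_Wq_le hv0 hlt M
    · apply sum_by_deg (fun g : F[X] => g.natDegree) (A e) (fun g => (ww ε e g : ℝ)) (fun m => (Eq' (Nat.card F) m : ℝ)) _ _ hv0
      · intro m
        have := hcount e m
        rw [if_neg h] at this
        exact this
      · exact fun M => sum_Eq_le hv0 hlt M

end H46.IsoBound
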