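import Mathlib
import Cfsg.Agent.Lib.H46.UnipExist
import Cfsg.Agent.Lib.H46.IsoBound
import Cfsg.Agent.Lib.H49.InvForm

/-! Realisation of self-dual types by isometries. -/

set_option autoImplicit false

namespace H46.TypeReal

open Polynomial Module H49.FormConj2 H49.FormConj3 H46.FormSplit H46.SigU H46.SigModel H46.IsoCount H46.UnipExist
open H46.TyAlg H46.TyCount H46.TyReal H46.TyGL H46.StPoly H46.StTy H46.SdCount H46.SdWeight H46.TySelf H46.IsoBound H46.JordTy H49.GUUnip

universe u v w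

section sum
variable {F : Type u} [Field F] {V : Type v} [AddCommGroup V] [Module F V] {W : Type w} [AddCommGroup W] [Module F W]

/-- orthogonal sum of forms -/
def fsum (f₁ : LinearMap.BilinForm F V) (f₂ : LinearMap.BilinForm F W) : LinearMap.BilinForm F (V × W) :=
  f₁.comp (LinearMap.fst F V W) (LinearMap.fst F V W) + f₂.comp (LinearMap.snd F V W) (LinearMap.snd F V W)

theorem fsum_apply (f₁ : LinearMap.BilinForm F V) (f₂ : LinearMap.BilinForm F W) (x y : V × W) : fsum f₁ f₂ x y = f₁ x.1 y.1 + f₂ x.2 y.2 := rfl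

theorem r1_fsum (f₁ : LinearMap.BilinForm F V) (f₂ : LinearMap.BilinForm F W) : r1 (fsum f₁ f₂) = f₁ := by
  apply LinearMap.ext
  intro u
  apply LinearMap.ext
  intro v
  rw [r1_apply, fsum_apply]
  simp

theorem r2_fsum (f₁ : LinearMap.BilinForm F V) (f₂ : LinearMap.BilinForm F W) : r2 (fsum f₁ f₂) = f₂ := by
  apply LinearMap.ext
  intro u
  apply LinearMap.ext
  intro v
  rw [r2_apply, fsum_apply]
  simp

theorem IF_fsum {A : V →ₗ[F] V} {B : W →ₗ[F] W} {ε : F} {f₁ : LinearMap.BilinForm F V} {f₂ : LinearMap.BilinForm F W}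
    (h1 : IF A ε f₁) (h2 : IF B ε f₂) : IF (A.prodMap B) ε (fsum f₁ f₂) where
  nd := by
    rintro ⟨a, b⟩ h
    have ha : a = 0 := by
      apply h1.nd
      intro y
      have := h (y, 0)
      rw [fsum_apply] at this
      simpa using this
    have hb : b = 0 := by
      apply h2.nd
      intro y
      have := h (0, y)
      rw [fsum_apply] at this
      simpa using this
    rw [ha, hb]; rfl
  symm u v := by rw [fsum_apply, fsum_apply, h1.symm, h2.symm]; ring
  inv u v := by rw [fsum_apply, fsum_apply]; exact congrArg₂ (· + ·) (h1.inv _ _) (h2.inv _ _)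

end sum

section field
variable {F : Type u} [Field F]

/-- converse of the parity lemma -/
theorem parity_conv (h2 : (2 : F) ≠ 0) {f : F[X]} (hf : Good f) (hs : st (RingHom.id F) f = f) (hc : f.coeff 0 = 1) (he : Even f.natDegree) :
    Even (rootMultiplicity 1 f) ∧ Even (rootMultiplicity (-1) f) := by
  obtain ⟨g, hg1, hg2, hg3, hg4⟩ := strip hf.1 h2
  have m1 : ((X - C (1 : F)) ^ rootMultiplicity 1 f).Monic := (monic_X_sub_C 1).pow _
  have m2 : ((X - C (-1 : F)) ^ rootMultiplicity (-1) f).Monic := (monic_X_sub_C (-1)).pow _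
  have hsg : st (RingHom.id F) g = g := by
    have h3 := hs
    rw [hg1, st_mul, st_mul, st_pow, st_pow, st_lin (by ring), st_lin (by ring)] at h3
    rw [← hg1] at h3
    exact mul_left_cancel₀ m2.ne_zero (mul_left_cancel₀ m1.ne_zero (h3.trans hg1))
  have hcg := eval_one_of_st hsg hg3
  have heg := even_of_st h2 hsg hcg hg4
  have h3 : ((-1 : F)) ^ rootMultiplicity 1 f = 1 := by
    have h4 := hc
    rw [hg1, mul_coeff_zero, mul_coeff_zero, hcg, mul_one] at h4
    have e1 : ((X - C (1 : F)) ^ rootMultiplicity 1 f).coeff 0 = (-1) ^ rootMultiplicity 1 f := by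
      rw [coeff_zero_eq_eval_zero, eval_pow, eval_sub, eval_X, eval_C, zero_sub]
    have e2 : ((X - C (-1 : F)) ^ rootMultiplicity (-1) f).coeff 0 = 1 := by
      rw [coeff_zero_eq_eval_zero, eval_pow, eval_sub, eval_X, eval_C, zero_sub, neg_neg, one_pow]
    rw [e1, e2, mul_one] at h4
    exact h4
  have ha : Even (rootMultiplicity 1 f) := by
    by_contra hodd
    rw [Nat.not_even_iff_odd] at hodd
    rw [hodd.neg_one_pow] at h3
    apply h2
    have h5 : (2 : F) = 1 + 1 := by norm_num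
    rw [h5]; nth_rw 1 [← h3]; ring
  refine ⟨ha, ?_⟩
  rw [hg1, m1.natDegree_mul (m2.mul hg2), m2.natDegree_mul hg2, natDegree_pow, natDegree_pow, natDegree_X_sub_C, natDegree_X_sub_C, mul_one, mul_one] at he
  rw [Nat.even_add, Nat.even_add] at he
  simpa [ha, heg] using he

theorem self_dual_A {τ : ℕ → F[X]} (hst : ∀ e, st (RingHom.id F) (τ e) = τ e) (M : Model τ) (e : ℕ) : st (RingHom.id F) (ty M.A e) = ty M.A e := by
  have h1 := M.hτ e
  have m1 : ((X - C (1 : F)) ^ mu M.d1 e).Monic := (monic_X_sub_C 1).pow _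
  have m2 : ((X - C (-1 : F)) ^ mu M.d2 e).Monic := (monic_X_sub_C (-1)).pow _
  have h3 := hst e
  rw [h1, st_mul, st_mul, st_pow, st_pow, st_lin (by ring), st_lin (by ring)] at h3
  exact mul_left_cancel₀ m2.ne_zero (mul_left_cancel₀ m1.ne_zero h3)

theorem det_ne_of_inj {n : ℕ} {A : Matrix (Fin n) (Fin n) F} (h : Function.Injective (lin A)) : A.det ≠ 0 := by
  intro h0
  obtain ⟨v, hv, hAv⟩ := Matrix.exists_mulVec_eq_zero_iff.mpr h0
  apply hv
  apply h
  rw [map_zero]
  exact hAv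

theorem exists_form_A [Finite F] {τ : ℕ → F[X]} (hst : ∀ e, st (RingHom.id F) (τ e) = τ e) (M : Model τ) {ε : F} (hε : ε * ε = 1) :
    ∃ f : LinearMap.BilinForm F (Fin M.m → F), IF (lin M.A) ε f := by
  have hAd : M.A.det ≠ 0 := by
    -- constant coefficients of the type are nonzero
    intro h0
    obtain ⟨ι, _, g, hg, ⟨E⟩, h1⟩ := isTy_ty M.A
    have h2 := det_isTy hg E
    have h3 : LinearMap.det (lin M.A) = 0 := by
      have : LinearMap.det (lin M.A) = M.A.det := LinearMap.det_toLin' M.A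
      rw [this, h0]
    rw [h3] at h2
    have h4 := h2.symm
    rw [Finset.prod_eq_zero_iff] at h4
    obtain ⟨i, _, hi⟩ := h4
    have h5 : sc (g i).1 = 0 := pow_eq_zero_iff (by have := (hg i).2.2; omega) |>.mp hi
    have h6 : (g i).1.coeff 0 = 0 := by
      unfold sc at h5
      exact (mul_eq_zero.mp h5).resolve_left (pow_ne_zero _ (neg_ne_zero.mpr one_ne_zero))
    have h7 := (M.hg.1 (g i).2).2
    apply h7
    rw [h1]
    have h8 : (g i).1 ∣ tyf g (g i).2 := by
      unfold tyf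
      have h5 := Finset.dvd_prod_of_mem (fun j => if (g j).2 = (g i).2 then (g j).1 else 1) (Finset.mem_univ i)
      simp only [if_true] at h5
      exact h5
    obtain ⟨r, hr⟩ := h8
    rw [hr, mul_coeff_zero, h6, zero_mul]
  have hu : IsUnit M.A.det := IsUnit.mk0 _ hAd
  have hc : IsConj M.A M.A⁻¹ := by
    have h3 : cT (RingHom.id F) M.A * (M.A⁻¹).transpose = 1 := by
      have h4 : cT (RingHom.id F) M.A = M.A.transpose := by
        ext i j; rfl
      rw [h4, ← Matrix.transpose_mul, Matrix.nonsing_inv_mul _ hu, Matrix.transpose_one]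
    have h5 := ty_dual (φ := RingHom.id F) (fun _ => rfl) h3
    have h6 : ty M.A = ty (M.A⁻¹).transpose := by
      rw [h5]
      funext e
      exact (self_dual_A hst M e).symm
    obtain ⟨h, hh⟩ := ty_eq_iff.mp h6
    have h7 : IsConj M.A (M.A⁻¹).transpose := ⟨h, hh⟩
    exact h7.trans (H48.SimMatrix.isConj_transpose M.A⁻¹).symm
  have hAA : IsUnit (M.A * M.A - 1) := by
    rw [Matrix.isUnit_iff_isUnit_det, isUnit_iff_ne_zero]
    apply det_ne_of_inj
    rw [← LinearMap.ker_eq_bot, LinearMap.ker_eq_bot']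
    intro v hv
    apply no_sq (isTy_ty M.A) M.hc M.hc'
    have h1 : (M.A * M.A - 1).mulVec v = 0 := hv
    rw [Matrix.sub_mulVec, Matrix.one_mulVec, sub_eq_zero, ← Matrix.mulVec_mulVec] at h1
    exact h1
  obtain ⟨J, hJu, hJt, hJA⟩ := H49.InvForm.exists_form M.A M.A⁻¹ (Matrix.mul_nonsing_inv _ hu) hc ε (mul_self_eq_one_iff.mp hε) hAA
  refine ⟨Matrix.toBilin' J, ⟨?_, ?_, ?_⟩⟩
  · intro x hx
    have hJd : J.det ≠ 0 := ((Matrix.isUnit_iff_isUnit_det _).mp hJu).ne_zero
    exact (H46.BlockCongr.nondeg_of_det hJd).1 x hx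
  · intro u v
    rw [H46.BlockCongr.swap_form, hJt, map_smul, LinearMap.smul_apply, LinearMap.smul_apply, smul_eq_mul]
  · intro u v
    have h1 : (Matrix.toBilin' J).comp (lin M.A) (lin M.A) = Matrix.toBilin' J := by
      apply LinearMap.BilinForm.toMatrix'.injective
      rw [LinearMap.BilinForm.toMatrix'_comp, LinearMap.BilinForm.toMatrix'_toBilin']
      have : LinearMap.toMatrix' (lin M.A) = M.A := LinearMap.toMatrix'_toLin' M.A
      rw [this]
      exact hJA
    conv_rhs => rw [← h1]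
    rfl

/-- forms on the model with prescribed signs -/
theorem exists_form_model [Finite F] (h2 : (2 : F) ≠ 0) {ε : F} (hε : ε * ε = 1) {n : ℕ} {τ : ℕ → F[X]} (hτ : τ ∈ TyS ε n) (M : Model τ) (σ₁ σ₂ : ℕ → Prop) :
    ∃ f : LinearMap.BilinForm F M.E, IF M.T ε f ∧ (∀ i, ε * (-1) ^ (i - 1) = 1 → (X - C 1) ∣ τ i → (M.s1 i f ↔ σ₁ i)) ∧
      (∀ i, ε * (-1) ^ (i - 1) = 1 → (X - C (-1)) ∣ τ i → (M.s2 i f ↔ σ₂ i)) := by
  rw [mem_TyS] at hτ
  have hpar : ∀ i, ε * (-1) ^ (i - 1) = -1 → Even (rootMultiplicity 1 (τ i)) ∧ Even (rootMultiplicity (-1) (τ i)) := by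
    intro i hi
    obtain ⟨a, b⟩ := hτ.2.2 i hi
    exact parity_conv h2 (hτ.1.1 i) (hτ.2.1 i) a b
  obtain ⟨f₁, hf₁, hs₁⟩ := exists_form_unip M.hd1 (c := (1 : F)) h2 (by ring) hε (fun i hi => by
    have := (hpar i hi).1
    rw [← M.mu1] at this
    exact this) σ₁
  obtain ⟨f₂, hf₂, hs₂⟩ := exists_form_unip M.hd2 (c := (-1 : F)) h2 (by ring) hε (fun i hi => by
    have := (hpar i hi).2
    rw [← M.mu2] at this
    exact this) σ₂
  obtain ⟨f₃, hf₃⟩ := exists_form_A hτ.2.1 M hε
  refine ⟨fsum f₁ (fsum f₂ f₃), IF_fsum hf₁ (IF_fsum hf₂ hf₃), ?_, ?_⟩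
  · intro i hi hd
    unfold Model.s1
    rw [r1_fsum]
    apply hs₁ i hi
    rw [mu_pos_iff, M.mu1, rootMultiplicity_pos (hτ.1.1 i).1.ne_zero]
    exact dvd_iff_isRoot.mp hd
  · intro i hi hd
    unfold Model.s2
    rw [r2_fsum, r1_fsum]
    apply hs₂ i hi
    rw [mu_pos_iff, M.mu2, rootMultiplicity_pos (hτ.1.1 i).1.ne_zero]
    exact dvd_iff_isRoot.mp hd

end field

section elt
variable {F : Type u} [Field F] {V : Type v} [AddCommGroup V] [Module F V] [FiniteDimensional F V] {G : Type w} [Group G]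
variable {f : LinearMap.BilinForm F V} (P : IsoG G f)

/-- realisation of a type in the isometry group -/
theorem exists_elt {E : Type*} [AddCommGroup E] [Module F E] [FiniteDimensional F E] {T : E →ₗ[F] E} {ε : F} {f' : LinearMap.BilinForm F E} (h' : IF T ε f')
    (e : E ≃ₗ[F] V) (he : ∀ u v, f (e u) (e v) = f' u v) : ∃ g : G, ∀ v, e.symm (P.ρ g v) = T (e.symm v) := by
  have hinj : Function.Injective T := by
    rw [← LinearMap.ker_eq_bot, LinearMap.ker_eq_bot']
    intro v hv
    apply h'.nd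
    intro y
    rw [← h'.inv, hv, map_zero, LinearMap.zero_apply]
  obtain ⟨g, hg⟩ := P.surj (e.symm.trans ((LinearEquiv.ofInjectiveEndo T hinj).trans e)) (by
    intro u v
    show f (e (T (e.symm u))) (e (T (e.symm v))) = f u v
    rw [he, h'.inv, ← he, e.apply_symm_apply, e.apply_symm_apply])
  refine ⟨g, fun v => ?_⟩
  rw [hg]
  show e.symm (e (T (e.symm v))) = T (e.symm v)
  rw [e.symm_apply_apply]

theorem tyG_of_conj {E : Type*} [AddCommGroup E] [Module F E] [FiniteDimensional F E] {T : E →ₗ[F] E} {τ : ℕ → F[X]} (hT : IsTy T τ) {g : G} (e : V ≃ₗ[F] E)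
    (he : ∀ v, e (P.ρ g v) = T (e v)) : tyG P g = τ :=
  isTy_unique (isTy_tyG P g) hT e he

/-- the dimension of a space carrying a given type -/
theorem finrank_of_isTy {E : Type*} [AddCommGroup E] [Module F E] [FiniteDimensional F E] {T : E →ₗ[F] E} {τ : ℕ → F[X]} (hT : IsTy T τ)
    (hdet : Function.Injective T) {n : ℕ} (hτ : τ ∈ TT F 1 n) : finrank F E = n := by
  have h1 := isTy_mem hT (by
    have := LinearEquiv.isUnit_det' (LinearEquiv.ofInjectiveEndo T hdet)
    exact this.ne_zero) rfl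
  have a := h1.1.2.2
  have b := hτ.2.2
  have hz : ∀ (m : ℕ), τ ∈ TT F 1 m → ∀ N, m ≤ N → ∑ e ∈ Finset.range (N + 1), e * (τ e).natDegree = m := by
    intro m hm N hN
    rw [sum_range_of_le (fun e he => hm.2.1 e (Or.inr he)) hN]
    exact hm.2.2
  have c1 := hz _ h1.1 (max (finrank F E) n) (le_max_left _ _)
  have c2 := hz _ hτ (max (finrank F E) n) (le_max_right _ _)
  exact c1.symm.trans c2

end elt

end H46.TypeReal
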