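import Mathlib
import Cfsg.Agent.Lib.H46.TySd
import Cfsg.Agent.Lib.H46.SqForm
import Cfsg.Agent.Lib.H46.TypeReal

/-! Determinants of `T - c` and the discriminant of forms without eigenvalues `1`, `-1`. -/

set_option autoImplicit false

namespace H46.DmEval

open Polynomial Module Matrix H49.FormConj2 H46.FormSplit H46.BlockCongr H46.TyAlg H46.TyCount H46.TyReal H46.TyGL H46.TySd H46.SqForm H46.StPoly H46.SdCount H46.IsoCount

universe u v

variable {F : Type u} [Field F]

theorem dm_mul_right {p : F[X]} (a b : F[X]) : dm p (a * b) = dm p a * dm p b := by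
  rw [dm_eq_norm, dm_eq_norm, dm_eq_norm]
  have : AdjoinRoot.mk p (a * b) = AdjoinRoot.mk p a * AdjoinRoot.mk p b := map_mul _ _ _
  rw [this]
  exact map_mul _ _ _

theorem dm_X_sub_C {p : F[X]} (hp : p.Monic) (c : F) : dm p (X - C c) = (-1) ^ p.natDegree * p.eval c := by
  rw [dm_eq_norm]
  let pb := AdjoinRoot.powerBasis' hp
  have h2 : minpoly F (AdjoinRoot.root p) = p := by
    have h3 := AdjoinRoot.minpoly_root hp.ne_zero
    rwa [hp.leadingCoeff, inv_one, C_1, mul_one] at h3
  have hgen : pb.gen = AdjoinRoot.root p := AdjoinRoot.powerBasis'_gen hp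
  have h3 : (Algebra.leftMulMatrix pb.basis pb.gen).charpoly = p := by
    rw [charpoly_leftMulMatrix, hgen, h2]
  have h4 : AdjoinRoot.mk p (X - C c) = pb.gen - algebraMap F (AdjoinRoot p) c := by
    rw [map_sub, AdjoinRoot.mk_X, AdjoinRoot.mk_C, hgen]
    rfl
  rw [h4, Algebra.norm_eq_matrix_det pb.basis, map_sub]
  have h5 := Matrix.eval_charpoly (Algebra.leftMulMatrix pb.basis pb.gen) c
  rw [h3] at h5
  have h6 : Algebra.leftMulMatrix pb.basis (algebraMap F (AdjoinRoot p) c) = Matrix.scalar (Fin pb.dim) c := by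
    rw [AlgHom.commutes]
    rfl
  rw [h6, h5]
  have h7 : Algebra.leftMulMatrix pb.basis pb.gen - Matrix.scalar (Fin pb.dim) c = -(Matrix.scalar (Fin pb.dim) c - Algebra.leftMulMatrix pb.basis pb.gen) := by
    rw [neg_sub]
  have h8 : Fintype.card (Fin pb.dim) = p.natDegree := by
    rw [Fintype.card_fin]
    exact AdjoinRoot.powerBasis'_dim hp
  rw [h7, Matrix.det_neg, h8]

/-- the determinant of an alternating matrix is a square -/
theorem isSquare_det_alt (h2 : (2 : F) ≠ 0) {n : ℕ} {K : Matrix (Fin (2 * n)) (Fin (2 * n)) F} (hK : K.transpose = -K) (hd : K.det ≠ 0) : IsSquare K.det := by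
  let S : Matrix (Fin 2 × Fin n) (Fin 2 × Fin n) F := Matrix.blockDiagonal (fun _ : Fin n => !![0, 1; -1, 0])
  have hS : S.transpose = -S := by
    ext ⟨i, k⟩ ⟨j, l⟩
    simp only [S, Matrix.transpose_apply, Matrix.neg_apply, Matrix.blockDiagonal_apply]
    by_cases h : k = l
    · subst h
      simp only [if_true]
      fin_cases i <;> fin_cases j <;> simp
    · rw [if_neg (fun h' => h h'.symm), if_neg h, neg_zero]
  have hSd : S.det = 1 := by
    simp only [S]
    rw [Matrix.det_blockDiagonal]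
    simp [Matrix.det_fin_two_of]
  let e : Fin (2 * n) ≃ Fin 2 × Fin n := finProdFinEquiv.symm
  obtain ⟨P, hP, hPK⟩ := congr_alt h2 (B := K) (B' := S.submatrix e e) hK (by
    rw [Matrix.transpose_submatrix, hS]; rfl) hd (by rw [Matrix.det_submatrix_equiv_self, hSd]; exact one_ne_zero)
  have h1 := congrArg Matrix.det hPK
  rw [Matrix.det_mul, Matrix.det_mul, Matrix.det_transpose, Matrix.det_submatrix_equiv_self, hSd] at h1
  refine ⟨P.det⁻¹, ?_⟩
  field_simp
  rw [pow_two]
  linear_combination h1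

/-- the discriminant of a form invariant under an endomorphism without eigenvalues `1`, `-1` -/
theorem sq_iff_eval [Finite F] (h2 : (2 : F) ≠ 0) {V : Type v} [AddCommGroup V] [Module F V] [FiniteDimensional F V] {T : V →ₗ[F] V} {f : LinearMap.BilinForm F V}
    (hf : IF T 1 f) {n : ℕ} (hn : finrank F V = 2 * n) {p : F[X]} (hp : p ∈ SP F (2 * n) 1) (hT : IsTy T (sg 1 p))
    (h1 : p.eval 1 ≠ 0) (h1' : p.eval (-1) ≠ 0) : Sq f ↔ IsSquare (p.eval 1 * p.eval (-1)) := by
  let b := Module.finBasisOfFinrankEq F V hn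
  let E : V ≃ₗ[F] (Fin (2 * n) → F) := b.equivFun
  let S : (Fin (2 * n) → F) →ₗ[F] (Fin (2 * n) → F) := (E : V →ₗ[F] _) ∘ₗ T ∘ₗ (E.symm : _ →ₗ[F] V)
  have hES : ∀ v, E (T v) = S (E v) := by
    intro v
    show E (T v) = E (T (E.symm (E v)))
    rw [E.symm_apply_apply]
  have hg := tp_IF hf E hES
  have hSq : Sq (tp f E) ↔ Sq f := (sq_congr E.symm (fun _ _ => rfl)).symm
  rw [← hSq]
  obtain ⟨A, hA⟩ : ∃ A, A = LinearMap.toMatrix' S := ⟨_, rfl⟩
  obtain ⟨J, hJ⟩ : ∃ J, J = LinearMap.BilinForm.toMatrix' (tp f E) := ⟨_, rfl⟩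
  have hAJ : A.transpose * J * A = J := by
    have h1 : (tp f E).comp S S = tp f E := by
      apply LinearMap.ext
      intro u
      apply LinearMap.ext
      intro v
      exact hg.inv u v
    have h2 := congrArg LinearMap.BilinForm.toMatrix' h1
    rw [LinearMap.BilinForm.toMatrix'_comp] at h2
    rw [hA, hJ]
    exact h2
  have hsy : ∀ u v, tp f E u v = tp f E v u := fun u v => by rw [hg.symm, one_mul]
  have hJt : J.transpose = J := by
    rw [hJ]
    ext i j
    rw [Matrix.transpose_apply, LinearMap.BilinForm.toMatrix'_apply, LinearMap.BilinForm.toMatrix'_apply]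
    exact hsy _ _
  have hJd : J.det ≠ 0 := by
    rw [hJ]
    exact det_ne_of_ndb (Pi.basisFun F (Fin (2 * n))) hsy hg.nd
  have hlin : IsTy (lin A) (sg 1 p) := by
    have h1 : lin A = S := by
      rw [hA]
      exact Matrix.toLin'_toMatrix' S
    rw [h1]
    exact isTy_of_conj hT E hES
  have hty : ty A = sg 1 p := isTy_lin.mp hlin
  have hdA : A.det = 1 := by
    have h3 := det_aeval_sg hty X
    rw [aeval_X, pow_one, dm_X hp.1.1, hp.2.1, hp.2.2.2, pow_mul] at h3
    rw [h3]; simp
  have hdA2 : (A * A - 1).det = p.eval 1 * p.eval (-1) := by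
    have h3 := det_aeval_sg hty ((X - C 1) * (X - C (-1)))
    rw [pow_one, dm_mul_right, dm_X_sub_C hp.1.1, dm_X_sub_C hp.1.1, hp.2.1, pow_mul] at h3
    have h4 : aeval A (((X : F[X]) - C 1) * (X - C (-1))) = A * A - 1 := by
      have : ((X : F[X]) - C 1) * (X - C (-1)) = X * X - 1 := by
        rw [C_neg, C_1]; ring
      rw [this, map_sub, map_mul, aeval_X, map_one]
    rw [h4] at h3
    rw [h3]; simp
  -- the alternating matrix
  obtain ⟨K, hK⟩ : ∃ K, K = J * A - A.transpose * J := ⟨_, rfl⟩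
  have hKt : K.transpose = -K := by
    rw [hK, Matrix.transpose_sub, Matrix.transpose_mul, Matrix.transpose_mul, Matrix.transpose_transpose, hJt, neg_sub]
  have hKA : K * A = J * (A * A - 1) := by
    rw [hK, Matrix.sub_mul, hAJ, Matrix.mul_sub, Matrix.mul_one, Matrix.mul_assoc]
  have hdet : K.det = J.det * (p.eval 1 * p.eval (-1)) := by
    have h3 := congrArg Matrix.det hKA
    rw [Matrix.det_mul, Matrix.det_mul, hdA, mul_one, hdA2] at h3
    exact h3
  have hne : p.eval 1 * p.eval (-1) ≠ 0 := mul_ne_zero h1 h1'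
  have hKd : K.det ≠ 0 := by rw [hdet]; exact mul_ne_zero hJd hne
  have hsqK := isSquare_det_alt h2 hKt hKd
  rw [hdet, isSquare_mul_iff hJd hne] at hsqK
  rw [← hsqK]
  have h5 := sq_iff h2 (Pi.basisFun F (Fin (2 * n))) hsy hg.nd
  rw [h5, hJ]
  rfl

end H46.DmEval
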