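import Mathlib
import Cfsg.Agent.Lib.H46.DmEval
import Cfsg.Agent.Lib.H46.IsoCount

/-! The Wall form and the spinor norm. -/

set_option autoImplicit false

namespace H46.Wall

open Module Matrix H49.FormConj2 H46.IsoCount H46.SqForm H46.DmEval

universe u v w

variable {F : Type u} [Field F] {V : Type v} [AddCommGroup V] [Module F V] {G : Type w} [Group G]
variable {f : LinearMap.BilinForm F V}

theorem reflect_isom (hs : ∀ u v, f u v = f v u) {w : V} (hw : f w w ≠ 0) (u v : V) :
    f (u - (2 * f u w / f w w) • w) (v - (2 * f v w / f w w) • w) = f u v := by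
  simp only [map_sub, LinearMap.sub_apply, map_smul, LinearMap.smul_apply, smul_eq_mul]
  rw [hs w v]
  field_simp
  ring

/-- the reflection -/
noncomputable def refl (f : LinearMap.BilinForm F V) (w : V) (hw : f w w ≠ 0) : V ≃ₗ[F] V :=
  LinearEquiv.ofInvolutive
    { toFun := fun v => v - (2 * f v w / f w w) • w
      map_add' := fun u v => by
        rw [map_add, LinearMap.add_apply, mul_add, add_div, add_smul]; abel
      map_smul' := fun c v => by
        rw [map_smul, LinearMap.smul_apply, smul_eq_mul, RingHom.id_apply, smul_sub, smul_smul]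
        congr 2
        ring }
    (fun v => by
      show (v - (2 * f v w / f w w) • w) - (2 * f (v - (2 * f v w / f w w) • w) w / f w w) • w = v
      rw [map_sub, LinearMap.sub_apply, map_smul, LinearMap.smul_apply, smul_eq_mul]
      have h1 : 2 * (f v w - 2 * f v w / f w w * f w w) / f w w = - (2 * f v w / f w w) := by
        field_simp
        ring
      rw [h1, neg_smul]
      abel)

theorem refl_apply (w : V) (hw : f w w ≠ 0) (v : V) : refl f w hw v = v - (2 * f v w / f w w) • w := rfl

variable (P : IsoG G f)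

/-- a character with the spinor norm values on reflections -/
def Spin (θ : G →* ℤˣ) : Prop :=
  ∀ (w : V), f w w ≠ 0 → ∀ g : G, (∀ v, P.ρ g v = v - (2 * f v w / f w w) • w) → (θ g = 1 ↔ IsSquare (2 * f w w))

/-- the Wall matrix -/
def wm {r : ℕ} (f : LinearMap.BilinForm F V) (g : V → V) (b : Fin r → V) : Matrix (Fin r) (Fin r) F := Matrix.of fun i j => f (b i) (b j - g (b j))

theorem wm_apply {r : ℕ} (g : V → V) (b : Fin r → V) (i j : Fin r) : wm f g b i j = f (b i) (b j - g (b j)) := rfl

/-- the family spans modulo the fixed vectors -/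
def Spans {r : ℕ} (g : V ≃ₗ[F] V) (b : Fin r → V) : Prop := ∀ v, ∃ a : Fin r → F, g (v - ∑ i, a i • b i) = v - ∑ i, a i • b i

theorem wm_change {r : ℕ} (g : V ≃ₗ[F] V) (b : Fin r → V) (T : Matrix (Fin r) (Fin r) F) :
    wm f g (fun i => ∑ j, T i j • b j) = T * wm f g b * Tᵀ := by
  ext i j
  rw [wm_apply]
  have h1 : (∑ k, T j k • b k) - g (∑ k, T j k • b k) = ∑ k, T j k • (b k - g (b k)) := by
    rw [map_sum, ← Finset.sum_sub_distrib]
    refine Finset.sum_congr rfl fun k _ => ?_
    rw [map_smul, smul_sub]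
  rw [h1, Matrix.mul_apply]
  simp only [map_sum, LinearMap.sum_apply, map_smul, LinearMap.smul_apply, smul_eq_mul, Matrix.mul_apply, Matrix.transpose_apply, wm_apply, Finset.sum_mul, Finset.mul_sum]
  refine Finset.sum_congr rfl fun k _ => Finset.sum_congr rfl fun l _ => ?_
  ring

theorem spans_change {r : ℕ} {g : V ≃ₗ[F] V} {b : Fin r → V} {T : Matrix (Fin r) (Fin r) F} (hT : IsUnit T.det) (h : Spans g b) :
    Spans g (fun i => ∑ j, T i j • b j) := by
  intro v
  obtain ⟨a, ha⟩ := h v
  refine ⟨Matrix.vecMul a T⁻¹, ?_⟩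
  have h1 : ∑ i, (Matrix.vecMul a T⁻¹) i • ∑ j, T i j • b j = ∑ j, a j • b j := by
    have h2 : ∑ i, (Matrix.vecMul a T⁻¹) i • ∑ j, T i j • b j = ∑ j, (Matrix.vecMul (Matrix.vecMul a T⁻¹) T) j • b j := by
      simp only [Finset.smul_sum, smul_smul]
      rw [Finset.sum_comm]
      refine Finset.sum_congr rfl fun j _ => ?_
      rw [← Finset.sum_smul]
      rfl
    rw [h2, Matrix.vecMul_vecMul, Matrix.nonsing_inv_mul _ hT, Matrix.vecMul_one]
  rw [h1, ha]

/-- the Schur complement -/
theorem det_pivot {r : ℕ} (M : Matrix (Fin (r + 1)) (Fin (r + 1)) F) (i : Fin (r + 1)) (hi : M i i ≠ 0) :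
    M.det = M i i * (Matrix.of fun j k : Fin r => M (i.succAbove j) (i.succAbove k) - M (i.succAbove j) i * M i (i.succAbove k) / M i i).det := by
  classical
  let c : Fin (r + 1) → F := fun j => if j = i then 0 else M j i / M i i
  let B : Matrix (Fin (r + 1)) (Fin (r + 1)) F := Matrix.of fun j k => M j k - c j * M i k
  have hc : c i = 0 := if_pos rfl
  have h1 : M.det = B.det := by
    apply Matrix.det_eq_of_forall_row_eq_smul_add_const c i hc
    intro j k
    show M j k = (M j k - c j * M i k) + c j * (M i k - c i * M i k)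
    rw [hc]; ring
  have hB : ∀ j, j ≠ i → B j i = 0 := by
    intro j hj
    show M j i - c j * M i i = 0
    have : c j = M j i / M i i := if_neg hj
    rw [this]
    field_simp
    ring
  rw [h1, Matrix.det_succ_column B i, Finset.sum_eq_single i]
  · have h2 : B i i = M i i := by
      show M i i - c i * M i i = M i i
      rw [hc]; ring
    rw [h2, ← two_mul, pow_mul]
    have h3 : ((-1 : F) ^ 2) ^ (i : ℕ) = 1 := by simp
    rw [h3, one_mul]
    congr 2
    ext j k
    show M (i.succAbove j) (i.succAbove k) - c (i.succAbove j) * M i (i.succAbove k) = _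
    have : c (i.succAbove j) = M (i.succAbove j) i / M i i := if_neg (Fin.succAbove_ne i j)
    rw [this, Matrix.of_apply]
    ring
  · intro j _ hj
    rw [hB j hj]; ring
  · intro h
    exact absurd (Finset.mem_univ i) h

theorem units_iff {a b : ℤˣ} {p q : Prop} (ha : a = 1 ↔ p) (hb : a * b = 1 ↔ q) : b = 1 ↔ (p ↔ q) := by
  rcases Int.units_eq_one_or a with h | h <;> rcases Int.units_eq_one_or b with h' | h' <;> subst h h' <;> simp at ha hb ⊢ <;> tauto

/-- the alternating case -/
theorem theta_of_isotropic [Finite F] (hodd : Odd (Nat.card F)) (h2 : (2 : F) ≠ 0) (hf : NDB f) (hs : ∀ u v, f u v = f v u) (θ : G →* ℤˣ) (g : G)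
    (h : ∀ v, f (v - P.ρ g v) (v - P.ρ g v) = 0) : θ g = 1 := by
  have h1 : ∀ v v', f (v - P.ρ g v) (v' - P.ρ g v') = 0 := by
    intro v v'
    have e1 := h (v + v')
    have e2 := h v
    have e3 := h v'
    have e4 : v + v' - P.ρ g (v + v') = (v - P.ρ g v) + (v' - P.ρ g v') := by rw [map_add]; abel
    rw [e4, LinearMap.map_add₂, map_add, map_add, e2, e3, hs (v' - P.ρ g v') (v - P.ρ g v)] at e1
    have e5 : 2 * f (v - P.ρ g v) (v' - P.ρ g v') = 0 := by linear_combination e1
    exact (mul_eq_zero.mp e5).resolve_left h2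
  have h3 : ∀ v, P.ρ g (v - P.ρ g v) = v - P.ρ g v := by
    intro v
    have e1 : P.ρ g (v - P.ρ g v) - (v - P.ρ g v) = 0 := by
      apply hf
      intro y
      obtain ⟨z, rfl⟩ := (P.ρ g).surjective y
      have e2 := h1 v z
      rw [map_sub, LinearMap.sub_apply, P.pres]
      rw [map_sub] at e2
      linear_combination e2
    exact sub_eq_zero.mp e1
  have h4 : ∀ k : ℕ, ∀ v, P.ρ (g ^ k) v = v + (k : F) • (P.ρ g v - v) := by
    intro k
    induction k with
    | zero => intro v; rw [pow_zero, map_one, Nat.cast_zero, zero_smul, add_zero]; rfl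
    | succ k ih =>
      intro v
      rw [pow_succ', map_mul]
      show P.ρ g (P.ρ (g ^ k) v) = _
      rw [ih, map_add, map_smul]
      have e1 : P.ρ g (P.ρ g v - v) = P.ρ g v - v := by
        have := h3 v
        have e2 : P.ρ g v - v = -(v - P.ρ g v) := by abel
        rw [e2, map_neg, this]
      rw [e1, Nat.cast_succ, add_smul, one_smul]
      abel
  have h5 : g ^ (Nat.card F) = 1 := by
    apply P.inj
    apply LinearEquiv.ext
    intro v
    rw [h4, map_one]
    haveI := Fintype.ofFinite F
    have : ((Nat.card F : ℕ) : F) = 0 := by rw [Nat.card_eq_fintype_card]; exact FiniteField.cast_card_eq_zero F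
    rw [this, zero_smul, add_zero]; rfl
  have h6 := congrArg θ h5
  rw [map_pow, map_one] at h6
  rcases Int.units_eq_one_or (θ g) with h7 | h7
  · exact h7
  · rw [h7, hodd.neg_one_pow] at h6
    exact absurd h6 (by decide)

section main
variable [Finite F] (hodd : Odd (Nat.card F)) (h2 : (2 : F) ≠ 0) (hf : NDB f) (hs : ∀ u v, f u v = f v u) {θ : G →* ℤˣ} (hθ : Spin P θ)

include h2 hs hθ in
/-- the inductive step -/
theorem wall_step {r : ℕ} (ih : ∀ (b : Fin r → V) (g : G), Spans (P.ρ g) b → (wm f (P.ρ g) b).det ≠ 0 → (θ g = 1 ↔ IsSquare (wm f (P.ρ g) b).det))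
    (b : Fin (r + 1) → V) (g : G) (hb : Spans (P.ρ g) b) (hd : (wm f (P.ρ g) b).det ≠ 0) (i : Fin (r + 1)) (hi : wm f (P.ρ g) b i i ≠ 0) :
    θ g = 1 ↔ IsSquare (wm f (P.ρ g) b).det := by
  obtain ⟨w, hw⟩ : ∃ w, w = b i - P.ρ g (b i) := ⟨_, rfl⟩
  have hww : f w w = 2 * wm f (P.ρ g) b i i := by
    rw [wm_apply, ← hw]
    nth_rewrite 1 [hw]
    rw [map_sub, LinearMap.sub_apply]
    have : f (P.ρ g (b i)) w = - f (b i) w := by
      rw [hw, map_sub, map_sub, P.pres, hs (P.ρ g (b i)) (b i)]
      ring
    rw [this]; ring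
  have hw0 : f w w ≠ 0 := by rw [hww]; exact mul_ne_zero h2 hi
  obtain ⟨r₀, hr₀⟩ := P.surj (refl f w hw0) (reflect_isom hs hw0)
  have hr₁ : ∀ v, P.ρ r₀ v = v - (2 * f v w / f w w) • w := by intro v; rw [hr₀]; rfl
  have hθr := hθ w hw0 r₀ hr₁
  have hgw : ∀ z, f (P.ρ g z) w = - f (b i) (z - P.ρ g z) := by
    intro z
    rw [hw, map_sub, map_sub, P.pres, hs (P.ρ g z) (b i), hs z (b i)]
    ring
  have hρ : ∀ v, P.ρ (r₀ * g) v = P.ρ g v + (f (b i) (v - P.ρ g v) / wm f (P.ρ g) b i i) • w := by
    intro v
    rw [map_mul]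
    show P.ρ r₀ (P.ρ g v) = _
    rw [hr₁, hgw, hww]
    have : 2 * -(f (b i)) (v - P.ρ g v) / (2 * wm f (P.ρ g) b i i) = - (f (b i) (v - P.ρ g v) / wm f (P.ρ g) b i i) := by
      field_simp
    rw [this, neg_smul, sub_neg_eq_add]
  -- the new family
  have hm : wm f (P.ρ (r₀ * g)) (fun j => b (i.succAbove j)) = Matrix.of fun j k : Fin r => wm f (P.ρ g) b (i.succAbove j) (i.succAbove k) -
      wm f (P.ρ g) b (i.succAbove j) i * wm f (P.ρ g) b i (i.succAbove k) / wm f (P.ρ g) b i i := by
    ext j k
    rw [wm_apply, hρ, Matrix.of_apply]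
    have e1 : b (i.succAbove k) - (P.ρ g (b (i.succAbove k)) + (f (b i) (b (i.succAbove k) - P.ρ g (b (i.succAbove k))) / wm f (P.ρ g) b i i) • w) =
        (b (i.succAbove k) - P.ρ g (b (i.succAbove k))) - (f (b i) (b (i.succAbove k) - P.ρ g (b (i.succAbove k))) / wm f (P.ρ g) b i i) • w := by abel
    rw [e1, map_sub, map_smul, smul_eq_mul]
    rw [wm_apply _ _ (i.succAbove j) (i.succAbove k), wm_apply _ _ (i.succAbove j) i, wm_apply _ _ i (i.succAbove k), ← hw]
    ring
  have hdet := det_pivot (wm f (P.ρ g) b) i hi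
  rw [← hm] at hdet
  have hd' : (wm f (P.ρ (r₀ * g)) (fun j => b (i.succAbove j))).det ≠ 0 := by
    rw [hdet] at hd
    exact right_ne_zero_of_mul hd
  have hsp : Spans (P.ρ (r₀ * g)) (fun j => b (i.succAbove j)) := by
    intro v
    obtain ⟨a, ha⟩ := hb v
    refine ⟨fun j => a (i.succAbove j), ?_⟩
    rw [Fin.sum_univ_succAbove _ i] at ha
    obtain ⟨z, hz⟩ : ∃ z, z = v - (a i • b i + ∑ j, a (i.succAbove j) • b (i.succAbove j)) := ⟨_, rfl⟩
    rw [← hz] at ha
    have e1 : v - ∑ j, a (i.succAbove j) • b (i.succAbove j) = z + a i • b i := by rw [hz]; abel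
    rw [e1, map_add, map_smul]
    have e2 : P.ρ (r₀ * g) z = z := by
      rw [hρ, ha, sub_self, map_zero, zero_div, zero_smul, add_zero]
    have e3 : P.ρ (r₀ * g) (b i) = b i := by
      rw [hρ, ← wm_apply, div_self hi, one_smul, hw]
      abel
    rw [e2, e3]
  have key := ih _ _ hsp hd'
  have hθr' : θ r₀ = 1 ↔ IsSquare (wm f (P.ρ g) b i i) := by
    rw [hθr, hww]
    have : 2 * (2 * wm f (P.ρ g) b i i) = (2 * 2) * wm f (P.ρ g) b i i := by ring
    rw [this, isSquare_mul_iff (mul_ne_zero h2 h2) hi]
    exact ⟨fun h => h.mp ⟨2, rfl⟩, fun h => ⟨fun _ => h, fun _ => ⟨2, rfl⟩⟩⟩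
  rw [map_mul] at key
  rw [hdet, isSquare_mul_iff hi hd']
  exact units_iff hθr' key

include hodd h2 hf hs hθ in
/-- the spinor norm is the discriminant of the Wall form -/
theorem wall (r : ℕ) : ∀ (b : Fin r → V) (g : G), Spans (P.ρ g) b → (wm f (P.ρ g) b).det ≠ 0 → (θ g = 1 ↔ IsSquare (wm f (P.ρ g) b).det) := by
  induction r with
  | zero =>
    intro b g hb _
    have h1 : g = 1 := by
      apply P.inj
      apply LinearEquiv.ext
      intro v
      obtain ⟨a, ha⟩ := hb v
      rw [Finset.univ_eq_empty, Finset.sum_empty, sub_zero] at ha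
      rw [ha, map_one]; rfl
    rw [h1, map_one, Matrix.det_isEmpty]
    exact ⟨fun _ => IsSquare.one, fun _ => rfl⟩
  | succ r ih =>
    intro b g hb hd
    by_cases hA : ∃ i, wm f (P.ρ g) b i i ≠ 0
    · obtain ⟨i, hi⟩ := hA
      exact wall_step P h2 hs hθ ih b g hb hd i hi
    push Not at hA
    by_cases hB : ∃ i j, wm f (P.ρ g) b i j + wm f (P.ρ g) b j i ≠ 0
    · obtain ⟨i, j, hij⟩ := hB
      have hne : i ≠ j := by
        rintro rfl
        rw [hA i, add_zero] at hij
        exact hij rfl
      have hT : (Matrix.transvection i j (1 : F)).det = 1 := Matrix.det_transvection_of_ne i j hne 1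
      have hch := wm_change (f := f) (P.ρ g) b (Matrix.transvection i j (1 : F))
      have hb' := spans_change (T := Matrix.transvection i j (1 : F)) (by rw [hT]; exact isUnit_one) hb
      have hdet : (wm f (P.ρ g) (fun i' => ∑ j', Matrix.transvection i j (1 : F) i' j' • b j')).det = (wm f (P.ρ g) b).det := by
        rw [hch, Matrix.det_mul, Matrix.det_mul, Matrix.det_transpose, hT, one_mul, mul_one]
      rw [← hdet] at hd ⊢
      apply wall_step P h2 hs hθ ih _ g hb' hd i
      rw [hch]
      have h3 : (Matrix.transvection i j (1 : F) * wm f (P.ρ g) b * (Matrix.transvection i j (1 : F))ᵀ) i i = wm f (P.ρ g) b i j + wm f (P.ρ g) b j i := by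
        have e1 : (Matrix.transvection i j (1 : F))ᵀ = Matrix.transvection j i (1 : F) := by
          ext a c
          rw [Matrix.transpose_apply, Matrix.transvection, Matrix.transvection, Matrix.add_apply, Matrix.add_apply, Matrix.one_apply, Matrix.one_apply, Matrix.single_apply, Matrix.single_apply]
          congr 1
          · simp only [eq_comm]
          · simp only [and_comm]
        rw [e1, Matrix.mul_transvection_apply_same, Matrix.transvection_mul_apply_same, Matrix.transvection_mul_apply_same, hA i, hA j]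
        ring
      rw [h3]
      exact hij
    · push Not at hB
      -- the alternating case
      obtain ⟨M, hM⟩ : ∃ M, M = wm f (P.ρ g) b := ⟨_, rfl⟩
      rw [← hM] at hd ⊢
      have hMt : Mᵀ = -M := by
        ext i j
        rw [Matrix.transpose_apply, Matrix.neg_apply, hM]
        have := hB i j
        linear_combination this
      have hev : Even (r + 1) := by
        by_contra hodd'
        rw [Nat.not_even_iff_odd] at hodd'
        have h3 := congrArg Matrix.det hMt
        rw [Matrix.det_transpose, Matrix.det_neg, Fintype.card_fin, hodd'.neg_one_pow] at h3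
        have h4 : 2 * M.det = 0 := by linear_combination h3
        exact hd ((mul_eq_zero.mp h4).resolve_left h2)
      have hsq : IsSquare M.det := by
        obtain ⟨k, hk⟩ := hev
        have hk' : r + 1 = 2 * k := by omega
        clear hM hA hB hb
        revert M
        rw [hk']
        intro M hd hMt
        exact isSquare_det_alt h2 hMt hd
      refine iff_of_true ?_ hsq
      apply theta_of_isotropic P hodd h2 hf hs θ g
      intro v
      obtain ⟨a, ha⟩ := hb v
      obtain ⟨z, hz⟩ : ∃ z, z = v - ∑ i, a i • b i := ⟨_, rfl⟩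
      rw [← hz] at ha
      have hv : v = z + ∑ i, a i • b i := by rw [hz]; abel
      have hd1 : v - P.ρ g v = ∑ i, a i • (b i - P.ρ g (b i)) := by
        rw [hv, map_add, ha, map_sum]
        have : ∑ i, P.ρ g (a i • b i) = ∑ i, a i • P.ρ g (b i) := Finset.sum_congr rfl fun i _ => map_smul _ _ _
        rw [this]
        simp only [smul_sub, Finset.sum_sub_distrib]
        abel
      have hfix : ∀ y, f z (y - P.ρ g y) = 0 := by
        intro y
        have : f z (P.ρ g y) = f z y := by
          conv_lhs => rw [← ha]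
          rw [P.pres]
        rw [map_sub, this, sub_self]
      have hself : f (v - P.ρ g v) (v - P.ρ g v) = 2 * f v (v - P.ρ g v) := by
        have e1 : f (P.ρ g v) (v - P.ρ g v) = - f v (v - P.ρ g v) := by
          rw [map_sub, map_sub, P.pres, hs (P.ρ g v) v]; ring
        rw [LinearMap.map_sub₂, e1]; ring
      have hval : f v (v - P.ρ g v) = 0 := by
        have e1 : f v (v - P.ρ g v) = ∑ i, ∑ j, a i * (a j * M i j) := by
          rw [hd1]
          conv_lhs => rw [hv]
          rw [LinearMap.map_add₂]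
          have e2 : f z (∑ i, a i • (b i - P.ρ g (b i))) = 0 := by
            rw [map_sum]
            apply Finset.sum_eq_zero
            intro i _
            rw [map_smul, hfix, smul_zero]
          rw [e2, zero_add, LinearMap.map_sum₂]
          refine Finset.sum_congr rfl fun i _ => ?_
          rw [LinearMap.map_smul₂, map_sum, Finset.smul_sum]
          refine Finset.sum_congr rfl fun j _ => ?_
          rw [map_smul, hM, wm_apply, smul_eq_mul, smul_eq_mul]
        have e3 : f v (v - P.ρ g v) = - f v (v - P.ρ g v) := by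
          have e4 : ∑ i, ∑ j, a i * (a j * M i j) = - ∑ i, ∑ j, a i * (a j * M i j) := by
            conv_rhs => rw [Finset.sum_comm]
            rw [← Finset.sum_neg_distrib]
            refine Finset.sum_congr rfl fun i _ => ?_
            rw [← Finset.sum_neg_distrib]
            refine Finset.sum_congr rfl fun j _ => ?_
            have : M j i = - M i j := by
              have := congrFun (congrFun hMt i) j
              rw [Matrix.transpose_apply, Matrix.neg_apply] at this
              exact this
            rw [this]; ring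
          rw [e1]; exact e4
        have e5 : 2 * f v (v - P.ρ g v) = 0 := by linear_combination e3
        exact (mul_eq_zero.mp e5).resolve_left h2
      rw [hself, hval, mul_zero]

end main

end H46.Wall
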