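import Mathlib
import Cfsg.Agent.Lib.H46.Wall

/-! Extending isometries of subspaces; spinor norms of elements of the centraliser. -/

set_option autoImplicit false

namespace H46.Embed

open Module Matrix H49.FormConj2 H46.IsoCount H46.SqForm H46.Wall

universe u v w

variable {F : Type u} [Field F] {V : Type v} [AddCommGroup V] [Module F V] {G : Type w} [Group G]
variable {f : LinearMap.BilinForm F V}

section adj
variable {U : Type*} [AddCommGroup U] [Module F U] [FiniteDimensional F U]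

theorem exists_adj (hs : ∀ u v, f u v = f v u) (ι : U →ₗ[F] V) (hU : NDB (f.comp ι ι)) :
    ∃ p : V →ₗ[F] U, ∀ u v, f (ι u) (ι (p v)) = f (ι u) v := by
  have hnd : (f.comp ι ι).Nondegenerate := by
    refine ⟨fun x hx => hU x hx, fun x hx => hU x fun y => ?_⟩
    have := hx y
    show f (ι x) (ι y) = 0
    rw [hs]; exact this
  refine ⟨((f.comp ι ι).toDual hnd).symm ∘ₗ (ι.dualMap ∘ₗ f.flip), fun u v => ?_⟩
  have h1 : (f.comp ι ι).toDual hnd (((f.comp ι ι).toDual hnd).symm ((ι.dualMap ∘ₗ f.flip) v)) u = (ι.dualMap ∘ₗ f.flip) v u := by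
    rw [LinearEquiv.apply_symm_apply]
  rw [LinearMap.BilinForm.toDual_def] at h1
  rw [hs (ι u)]
  exact h1

theorem adj_self {ι : U →ₗ[F] V} (hU : NDB (f.comp ι ι)) {p : V →ₗ[F] U} (hp : ∀ u v, f (ι u) (ι (p v)) = f (ι u) v) (hs : ∀ u v, f u v = f v u) (u : U) :
    p (ι u) = u := by
  have h1 : p (ι u) - u = 0 := by
    apply hU
    intro y
    show f (ι (p (ι u) - u)) (ι y) = 0
    rw [map_sub, LinearMap.map_sub₂, hs _ (ι y), hp y, hs (ι u), sub_self]
  exact sub_eq_zero.mp h1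

variable (P : IsoG G f)

/-- extension of an isometry of a subspace -/
theorem exists_embed [FiniteDimensional F V] (hf : NDB f) (hs : ∀ u v, f u v = f v u) (ι : U →ₗ[F] V) (hU : NDB (f.comp ι ι)) (A : U →ₗ[F] U)
    (hA : ∀ k l, f (ι (A k)) (ι (A l)) = f (ι k) (ι l)) {p : V →ₗ[F] U} (hp : ∀ u v, f (ι u) (ι (p v)) = f (ι u) v) :
    ∃ g : G, ∀ v, P.ρ g v = v - ι (p v - A (p v)) := by
  let T : V →ₗ[F] V := LinearMap.id - ι ∘ₗ (p - A ∘ₗ p)
  have hT : ∀ v, T v = v - ι (p v - A (p v)) := fun v => rfl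
  have key : ∀ v w, f (ι (p v - A (p v))) w = f (ι (p v - A (p v))) (ι (p w)) := fun v w => (hp _ w).symm
  have hiso : ∀ v w, f (T v) (T w) = f v w := by
    intro v w
    have gen : ∀ a b c d : V, f (a - b) (c - d) = f a c - f d a - f b c + f b d := by
      intro a b c d
      rw [LinearMap.map_sub₂, map_sub, map_sub, hs a d]
      ring
    rw [hT, hT, gen, key v w, key w v]
    simp only [map_sub, LinearMap.sub_apply]
    rw [hA, hs (ι (p w)) (ι (p v)), hs (ι (A (p w))) (ι (p v))]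
    ring
  have hinj : Function.Injective T := by
    rw [← LinearMap.ker_eq_bot, LinearMap.ker_eq_bot']
    intro x hx
    apply hf
    intro y
    rw [← hiso, hx, map_zero, LinearMap.zero_apply]
  obtain ⟨g, hg⟩ := P.surj (LinearEquiv.ofInjectiveEndo T hinj) hiso
  exact ⟨g, fun v => by rw [hg]; rfl⟩

variable {P}

/-- the extension centralises -/
theorem commute_embed [FiniteDimensional F V] (hs : ∀ u v, f u v = f v u) (ι : U →ₗ[F] V) (hU : NDB (f.comp ι ι)) (A : U →ₗ[F] U)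
    {p : V →ₗ[F] U} (hp : ∀ u v, f (ι u) (ι (p v)) = f (ι u) v) {g x : G} (hg : ∀ v, P.ρ g v = v - ι (p v - A (p v)))
    (hx : ∀ k, ∃ k', P.ρ x (ι k) = ι k' ∧ P.ρ x (ι (A k)) = ι (A k')) : Commute x g := by
  have hpi := adj_self hU hp hs
  let T : U →ₗ[F] U := p ∘ₗ (P.ρ x : V →ₗ[F] V) ∘ₗ ι
  have hT : ∀ k, T k = p (P.ρ x (ι k)) := fun k => rfl
  have hT1 : ∀ k, ι (T k) = P.ρ x (ι k) := by
    intro k
    obtain ⟨k', h1, -⟩ := hx k
    rw [hT, h1, hpi]
  have hinj : Function.Injective T := by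
    rw [← LinearMap.ker_eq_bot, LinearMap.ker_eq_bot']
    intro k hk
    have h1 := hT1 k
    rw [hk, map_zero] at h1
    have h2 : ι k = 0 := (P.ρ x).injective (h1.symm.trans (map_zero _).symm)
    rw [← hpi k, h2, map_zero]
  have hsurj : Function.Surjective T := LinearMap.surjective_of_injective hinj
  have hcom : ∀ v, p (P.ρ x v) = T (p v) := by
    intro v
    have h1 : p (P.ρ x v) - T (p v) = 0 := by
      apply hU
      intro y
      show f (ι (p (P.ρ x v) - T (p v))) (ι y) = 0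
      obtain ⟨z, rfl⟩ := hsurj y
      rw [map_sub, LinearMap.map_sub₂, hs _ (ι (T z)), hp, hs _ (ι (T z)), hT1, hT1, P.pres, P.pres, hp, sub_self]
    exact sub_eq_zero.mp h1
  apply P.inj
  apply LinearEquiv.ext
  intro v
  rw [map_mul, map_mul]
  show P.ρ x (P.ρ g v) = P.ρ g (P.ρ x v)
  rw [hg, hg, hcom, map_sub]
  congr 1
  obtain ⟨k', h1, h2⟩ := hx (p v)
  have h3 : T (p v) = k' := by rw [hT, h1, hpi]
  rw [h3, map_sub, map_sub, map_sub, h1, h2]

variable (P)

/-- the spinor norm of the extension -/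
theorem embed [FiniteDimensional F V] [Finite F] (hodd : Odd (Nat.card F)) (h2 : (2 : F) ≠ 0) (hf : NDB f) (hs : ∀ u v, f u v = f v u) {θ : G →* ℤˣ} (hθ : Spin P θ)
    (ι : U →ₗ[F] V) (hU : NDB (f.comp ι ι)) (A : U →ₗ[F] U) (hA : ∀ k l, f (ι (A k)) (ι (A l)) = f (ι k) (ι l)) {x : G}
    (hx : ∀ k, ∃ k', P.ρ x (ι k) = ι k' ∧ P.ρ x (ι (A k)) = ι (A k')) {r : ℕ} (b : Basis (Fin r) F U)
    (hd : (Matrix.of fun i j => f (ι (b i)) (ι (b j - A (b j)))).det ≠ 0) :
    ∃ g : G, Commute x g ∧ (θ g = 1 ↔ IsSquare (Matrix.of fun i j => f (ι (b i)) (ι (b j - A (b j)))).det) := by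
  obtain ⟨p, hp⟩ := exists_adj hs ι hU
  obtain ⟨g, hg⟩ := exists_embed P hf hs ι hU A hA hp
  have hpi := adj_self hU hp hs
  refine ⟨g, commute_embed hs ι hU A hp hg hx, ?_⟩
  have hwm : wm f (P.ρ g) (fun i => ι (b i)) = Matrix.of fun i j => f (ι (b i)) (ι (b j - A (b j))) := by
    ext i j
    rw [wm_apply, Matrix.of_apply, hg, hpi]
    congr 1
    abel
  have hsp : Spans (P.ρ g) (fun i => ι (b i)) := by
    intro v
    refine ⟨fun i => b.repr (p v) i, ?_⟩
    have h1 : ∑ i, b.repr (p v) i • ι (b i) = ι (p v) := by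
      conv_rhs => rw [← b.sum_repr (p v)]
      rw [map_sum]
      exact Finset.sum_congr rfl fun i _ => (map_smul _ _ _).symm
    rw [h1, hg]
    have h2 : p (v - ι (p v)) = 0 := by rw [map_sub, hpi, sub_self]
    rw [h2, map_zero, sub_zero, map_zero, sub_zero]
  have h1 := wall P hodd h2 hf hs hθ r (fun i => ι (b i)) g hsp (by rw [hwm]; exact hd)
  rw [hwm] at h1
  exact h1

end adj

section caseC
variable (P : IsoG G f) (x : G) (c : F)

/-- the nilpotent part -/
noncomputable def nl : V →ₗ[F] V := (P.ρ x : V →ₗ[F] V) - c • LinearMap.id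

theorem nl_apply (v : V) : nl P x c v = P.ρ x v - c • v := rfl

variable {P x c}

theorem nl_adj (hc : c * c = 1) (u w : V) : f u (nl P x c w) = - f (nl P x c u) w - c * f (nl P x c u) (nl P x c w) := by
  have h1 := P.pres x u w
  have e1 : P.ρ x u = c • u + nl P x c u := by rw [nl_apply]; abel
  have e2 : P.ρ x w = c • w + nl P x c w := by rw [nl_apply]; abel
  rw [e1, e2] at h1
  simp only [map_add, LinearMap.add_apply, map_smul, LinearMap.smul_apply, smul_eq_mul] at h1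
  obtain ⟨α, hα⟩ : ∃ α, α = f u w := ⟨_, rfl⟩
  obtain ⟨β, hβ⟩ : ∃ β, β = f u (nl P x c w) := ⟨_, rfl⟩
  obtain ⟨γ, hγ⟩ : ∃ γ, γ = f (nl P x c u) w := ⟨_, rfl⟩
  obtain ⟨δ, hδ⟩ : ∃ δ, δ = f (nl P x c u) (nl P x c w) := ⟨_, rfl⟩
  rw [← hα, ← hβ, ← hγ, ← hδ] at h1
  rw [← hβ, ← hγ, ← hδ]
  linear_combination c * h1 - (α * c + β + γ) * hc

theorem phi_zero (hc : c * c = 1) {v : V} {i : ℕ} (hv : (nl P x c ^ i) v = 0) (b : ℕ) : ∀ a, i ≤ a + b → f ((nl P x c ^ a) v) ((nl P x c ^ b) v) = 0 := by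
  have hz : ∀ a, i ≤ a → (nl P x c ^ a) v = 0 := by
    intro a ha
    obtain ⟨k, rfl⟩ := Nat.exists_eq_add_of_le ha
    rw [add_comm, pow_add]
    show (nl P x c ^ k) ((nl P x c ^ i) v) = 0
    rw [hv, map_zero]
  induction b with
  | zero =>
    intro a ha
    rw [hz a (by omega), map_zero, LinearMap.zero_apply]
  | succ b ih =>
    have key : ∀ m a, i ≤ a + (b + 1) → i ≤ a + m → f ((nl P x c ^ a) v) ((nl P x c ^ (b + 1)) v) = 0 := by
      intro m
      induction m with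
      | zero =>
        intro a _ ha
        rw [hz a (by omega), map_zero, LinearMap.zero_apply]
      | succ m ihm =>
        intro a ha hm
        have e1 : (nl P x c ^ (b + 1)) v = nl P x c ((nl P x c ^ b) v) := by rw [pow_succ']; rfl
        have e2 : nl P x c ((nl P x c ^ a) v) = (nl P x c ^ (a + 1)) v := by rw [pow_succ']; rfl
        rw [e1, nl_adj hc, e2, ← e1, ih (a + 1) (by omega), ihm (a + 1) (by omega) (by omega)]
        ring
    intro a ha
    exact key i a ha (by omega)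

theorem phi_anti (hc : c * c = 1) {v : V} {i : ℕ} (hv : (nl P x c ^ i) v = 0) (b : ℕ) : ∀ a, a + b + 1 = i →
    f ((nl P x c ^ a) v) ((nl P x c ^ b) v) = (-1) ^ b * f ((nl P x c ^ (i - 1)) v) v := by
  induction b with
  | zero =>
    intro a ha
    have : a = i - 1 := by omega
    rw [this, pow_zero, pow_zero, one_mul]
    rfl
  | succ b ih =>
    intro a ha
    have e1 : (nl P x c ^ (b + 1)) v = nl P x c ((nl P x c ^ b) v) := by rw [pow_succ']; rfl
    have e2 : nl P x c ((nl P x c ^ a) v) = (nl P x c ^ (a + 1)) v := by rw [pow_succ']; rfl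
    rw [e1, nl_adj hc, e2, ← e1, phi_zero hc hv (b + 1) (a + 1) (by omega), ih (a + 1) (by omega), pow_succ]
    ring

/-- the constant in the discriminant -/
noncomputable def kap (F : Type u) [Field F] (i : ℕ) : F := ((Equiv.Perm.sign (Fin.revPerm : Equiv.Perm (Fin i)) : ℤˣ) : ℤ) * ∏ j : Fin i, (-1) ^ (i - 1 - (j : ℕ))

theorem kap_ne (i : ℕ) : kap F i ≠ 0 := by
  unfold kap
  apply mul_ne_zero
  · rcases Int.units_eq_one_or (Equiv.Perm.sign (Fin.revPerm : Equiv.Perm (Fin i))) with h | h <;> rw [h] <;> simp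
  · rw [Finset.prod_ne_zero_iff]
    intro j _
    exact pow_ne_zero _ (neg_ne_zero.mpr one_ne_zero)

theorem det_gram (hc : c * c = 1) {v : V} {i : ℕ} (hv : (nl P x c ^ i) v = 0) :
    (Matrix.of fun a b : Fin i => f ((nl P x c ^ (a : ℕ)) v) ((nl P x c ^ (b : ℕ)) v)).det = kap F i * f ((nl P x c ^ (i - 1)) v) v ^ i := by
  obtain ⟨M, hM⟩ : ∃ M : Matrix (Fin i) (Fin i) F, M = Matrix.of fun a b : Fin i => f ((nl P x c ^ (a : ℕ)) v) ((nl P x c ^ (b : ℕ)) v) := ⟨_, rfl⟩
  rw [← hM]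
  have h1 := Matrix.det_permute' (Fin.revPerm : Equiv.Perm (Fin i)) M
  have h2 : (M.submatrix id (Fin.revPerm : Equiv.Perm (Fin i))).det = ∏ j : Fin i, ((-1) ^ (i - 1 - (j : ℕ)) * f ((nl P x c ^ (i - 1)) v) v) := by
    rw [Matrix.det_of_upperTriangular]
    · refine Finset.prod_congr rfl fun j _ => ?_
      rw [Matrix.submatrix_apply, hM, Matrix.of_apply, id, Fin.revPerm_apply]
      have hj := j.2
      have e1 : ((Fin.rev j : Fin i) : ℕ) = i - 1 - (j : ℕ) := by rw [Fin.val_rev]; omega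
      rw [e1]
      exact phi_anti hc hv _ _ (by omega)
    · intro a b hab
      have ha := a.2
      have hb := b.2
      have hab' : (b : ℕ) < (a : ℕ) := hab
      rw [Matrix.submatrix_apply, hM, Matrix.of_apply, id, Fin.revPerm_apply]
      have e1 : ((Fin.rev b : Fin i) : ℕ) = i - 1 - (b : ℕ) := by rw [Fin.val_rev]; omega
      rw [e1]
      exact phi_zero hc hv _ _ (by omega)
  rw [h2, Finset.prod_mul_distrib, Finset.prod_const, Finset.card_univ, Fintype.card_fin] at h1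
  unfold kap
  rw [mul_assoc, h1, ← mul_assoc]
  rcases Int.units_eq_one_or (Equiv.Perm.sign (Fin.revPerm : Equiv.Perm (Fin i))) with h | h <;> rw [h] <;> simp

/-- the involution attached to an odd Jordan block -/
theorem caseC [FiniteDimensional F V] [Finite F] (P : IsoG G f) (hodd : Odd (Nat.card F)) (h2 : (2 : F) ≠ 0) (hf : NDB f) (hs : ∀ u v, f u v = f v u) {θ : G →* ℤˣ} (hθ : Spin P θ)
    {x : G} {c : F} (hc : c * c = 1) {i : ℕ} (hi : Odd i) {v : V} (hv : (nl P x c ^ i) v = 0) (hβ : f ((nl P x c ^ (i - 1)) v) v ≠ 0) :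
    ∃ g : G, Commute x g ∧ (θ g = 1 ↔ (IsSquare (2 ^ i * kap F i) ↔ IsSquare (f ((nl P x c ^ (i - 1)) v) v))) := by
  obtain ⟨β, hβ'⟩ : ∃ β, β = f ((nl P x c ^ (i - 1)) v) v := ⟨_, rfl⟩
  have hdet := det_gram (f := f) (P := P) hc hv
  rw [← hβ'] at hdet hβ ⊢
  let ι : (Fin i → F) →ₗ[F] V := Fintype.linearCombination F (fun j : Fin i => (nl P x c ^ (j : ℕ)) v)
  have hι : ∀ a : Fin i → F, ι a = ∑ j, a j • (nl P x c ^ (j : ℕ)) v := fun a => Fintype.linearCombination_apply F _ a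
  have hιb : ∀ j : Fin i, ι (Pi.basisFun F (Fin i) j) = (nl P x c ^ (j : ℕ)) v := by
    intro j
    rw [hι, Finset.sum_eq_single j]
    · simp
    · intro k _ hk
      simp [hk]
    · intro h
      exact absurd (Finset.mem_univ j) h
  have hU : NDB (f.comp ι ι) := by
    have h3 : (LinearMap.BilinForm.toMatrix (Pi.basisFun F (Fin i)) (f.comp ι ι)).det ≠ 0 := by
      have h4 : LinearMap.BilinForm.toMatrix (Pi.basisFun F (Fin i)) (f.comp ι ι) = Matrix.of fun a b : Fin i => f ((nl P x c ^ (a : ℕ)) v) ((nl P x c ^ (b : ℕ)) v) := by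
        ext a b
        rw [LinearMap.BilinForm.toMatrix_apply, Matrix.of_apply, ← hιb, ← hιb]
        rfl
      rw [h4, hdet]
      exact mul_ne_zero (kap_ne i) (pow_ne_zero _ hβ)
    have h5 := (LinearMap.BilinForm.nondegenerate_iff_det_ne_zero (Pi.basisFun F (Fin i))).mpr h3
    intro y hy
    exact h5.1 y hy
  have hmat : (Matrix.of fun a b : Fin i => f (ι (Pi.basisFun F (Fin i) a)) (ι (Pi.basisFun F (Fin i) b - (-LinearMap.id : (Fin i → F) →ₗ[F] (Fin i → F)) (Pi.basisFun F (Fin i) b)))) =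
      (2 : F) • Matrix.of fun a b : Fin i => f ((nl P x c ^ (a : ℕ)) v) ((nl P x c ^ (b : ℕ)) v) := by
    ext a b
    rw [Matrix.of_apply, Matrix.smul_apply, Matrix.of_apply, LinearMap.neg_apply, LinearMap.id_apply, sub_neg_eq_add, map_add, hιb, hιb, map_add, smul_eq_mul]
    ring
  have hne : (2 : F) ^ i * (kap F i * β ^ i) ≠ 0 := mul_ne_zero (pow_ne_zero _ h2) (mul_ne_zero (kap_ne i) (pow_ne_zero _ hβ))
  obtain ⟨g, hg1, hg2⟩ := embed P hodd h2 hf hs hθ ι hU (-LinearMap.id) (by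
    intro k l
    rw [LinearMap.neg_apply, LinearMap.neg_apply, LinearMap.id_apply, LinearMap.id_apply, map_neg, map_neg, map_neg, LinearMap.neg_apply, map_neg, neg_neg]) (x := x) (by
    intro k
    have hxs : ∃ k', P.ρ x (ι k) = ι k' := by
      have h3 : P.ρ x (ι k) = c • ι k + ∑ j : Fin i, k j • (nl P x c ^ ((j : ℕ) + 1)) v := by
        have h4 : P.ρ x (ι k) = c • ι k + nl P x c (ι k) := by rw [nl_apply]; abel
        rw [h4]
        congr 1
        rw [hι, map_sum]
        refine Finset.sum_congr rfl fun j _ => ?_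
        rw [map_smul, pow_succ']
        rfl
      have h5 : ∀ j : Fin i, ∃ k' : Fin i → F, (nl P x c ^ ((j : ℕ) + 1)) v = ι k' := by
        intro j
        by_cases hj : (j : ℕ) + 1 < i
        · exact ⟨Pi.basisFun F (Fin i) ⟨(j : ℕ) + 1, hj⟩, (hιb ⟨(j : ℕ) + 1, hj⟩).symm⟩
        · have hj2 := j.2
          have : (j : ℕ) + 1 = i := by omega
          exact ⟨0, by rw [this, hv, map_zero]⟩
      choose k' hk' using h5
      refine ⟨c • k + ∑ j, k j • k' j, ?_⟩
      rw [h3, map_add, map_smul, map_sum]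
      congr 1
      refine Finset.sum_congr rfl fun j _ => ?_
      rw [map_smul, hk']
    obtain ⟨k', hk'⟩ := hxs
    refine ⟨k', hk', ?_⟩
    rw [LinearMap.neg_apply, LinearMap.neg_apply, LinearMap.id_apply, LinearMap.id_apply, map_neg, map_neg, map_neg, hk'])
    (Pi.basisFun F (Fin i)) (by
      rw [hmat, Matrix.det_smul, Fintype.card_fin, hdet]
      exact hne)
  refine ⟨g, hg1, ?_⟩
  rw [hg2, hmat, Matrix.det_smul, Fintype.card_fin, hdet, ← mul_assoc, isSquare_mul_iff (mul_ne_zero (pow_ne_zero _ h2) (kap_ne i)) (pow_ne_zero _ hβ)]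
  have h6 : IsSquare (β ^ i) ↔ IsSquare β := by
    obtain ⟨m, hm⟩ := hi
    rw [hm, pow_succ, isSquare_mul_iff (pow_ne_zero _ hβ) hβ]
    have : IsSquare (β ^ (2 * m)) := ⟨β ^ m, by rw [← pow_add]; congr 1; omega⟩
    exact ⟨fun h => h.mp this, fun h => ⟨fun _ => h, fun _ => this⟩⟩
  rw [h6]

end caseC

end H46.Embed
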