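import Mathlib
import Cfsg.Agent.Lib.H46.Embed
import Cfsg.Agent.Lib.H46.TySelf

/-! Elements of the centraliser with non-trivial spinor norm: the semisimple part. -/

set_option autoImplicit false

namespace H46.CaseD

open Polynomial Module Matrix H49.FormConj2 H46.IsoCount H46.SqForm H46.Wall H46.Embed H46.StPoly H46.TyAlg H46.DmEval H46.SdWeight

universe u v w

variable {F : Type u} [Field F]

theorem isSquare_det_skew (h2 : (2 : F) ≠ 0) {r : ℕ} {M : Matrix (Fin r) (Fin r) F} (hM : Mᵀ = -M) (hd : M.det ≠ 0) : IsSquare M.det := by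
  have hev : Even r := by
    by_contra hodd'
    rw [Nat.not_even_iff_odd] at hodd'
    have h3 := congrArg Matrix.det hM
    rw [Matrix.det_transpose, Matrix.det_neg, Fintype.card_fin, hodd'.neg_one_pow] at h3
    have h4 : 2 * M.det = 0 := by linear_combination h3
    exact hd ((mul_eq_zero.mp h4).resolve_left h2)
  obtain ⟨k, hk⟩ := hev
  have hk' : r = 2 * k := by omega
  subst hk'
  exact isSquare_det_alt h2 hM hd

theorem det_form_mul {U : Type*} [AddCommGroup U] [Module F U] {r : ℕ} (b : Basis (Fin r) F U) (g : LinearMap.BilinForm F U) (φ : U →ₗ[F] U) :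
    (Matrix.of fun i j => g (b i) (φ (b j))).det = (LinearMap.BilinForm.toMatrix b g).det * LinearMap.det φ := by
  rw [← LinearMap.det_toMatrix b φ, ← Matrix.det_mul]
  congr 1
  ext i j
  rw [Matrix.of_apply, Matrix.mul_apply]
  conv_lhs => rw [← b.sum_repr (φ (b j))]
  rw [map_sum]
  refine Finset.sum_congr rfl fun k _ => ?_
  rw [map_smul, smul_eq_mul, LinearMap.BilinForm.toMatrix_apply, LinearMap.toMatrix_apply, mul_comm]

theorem isSquare_of_skew_forms (h2 : (2 : F) ≠ 0) {U : Type*} [AddCommGroup U] [Module F U] {r : ℕ} (b : Basis (Fin r) F U) (g : LinearMap.BilinForm F U) (φ : U →ₗ[F] U)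
    (hφ : ∀ y z, g y (φ z) = - g z (φ y)) (hd : (LinearMap.BilinForm.toMatrix b g).det * LinearMap.det φ ≠ 0) :
    IsSquare ((LinearMap.BilinForm.toMatrix b g).det * LinearMap.det φ) := by
  rw [← det_form_mul] at hd ⊢
  apply isSquare_det_skew h2 _ hd
  ext i j
  rw [Matrix.transpose_apply, Matrix.neg_apply, Matrix.of_apply, Matrix.of_apply]
  exact hφ _ _

theorem st_id (k : F[X]) : st (RingHom.id F) k = C (k.coeff 0)⁻¹ * k.reverse := by
  unfold st
  rw [Polynomial.map_id]
  rfl

/-- ideals closed under reversal -/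
theorem kp {p q : F[X]} (I : Ideal F[X]) (hp : Good p) (hpi : Irreducible p) (hq : q = p ∧ st (RingHom.id F) p = p ∨ q = p * st (RingHom.id F) p ∧ st (RingHom.id F) p ≠ p)
    (hqI : q ∈ I) (hrev : ∀ k ∈ I, k.reverse ∈ I) : (1 : F[X]) ∈ I ∨ ∀ k ∈ I, q ∣ k := by
  have hst : ∀ k ∈ I, st (RingHom.id F) k ∈ I := fun k hk => by
    rw [st_id]; exact I.mul_mem_left _ (hrev k hk)
  have hss : st (RingHom.id F) (st (RingHom.id F) p) = p := st_st (fun _ => rfl) hp
  rcases hq with ⟨hq, hsp⟩ | ⟨hq, hsp⟩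
  · by_cases h : ∀ k ∈ I, q ∣ k
    · exact Or.inr h
    · left
      push Not at h
      obtain ⟨k, hk, hqk⟩ := h
      rw [hq] at hqk hqI
      obtain ⟨a, b, hab⟩ := (hpi.coprime_iff_not_dvd).mpr hqk
      rw [← hab]
      exact I.add_mem (I.mul_mem_left _ hqI) (I.mul_mem_left _ hk)
  · have hpi' := irreducible_st (φ := RingHom.id F) (fun _ => rfl) hp hpi
    have hco : IsCoprime p (st (RingHom.id F) p) := H48.SimStruct.isCoprime_of_ne hp.1 (good_st hp).1 hpi hpi' (fun h => hsp h.symm)
    have hone : p ∈ I → (1 : F[X]) ∈ I := by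
      intro h
      have h' := hst p h
      obtain ⟨a, b, hab⟩ := hco
      rw [← hab]
      exact I.add_mem (I.mul_mem_left _ h) (I.mul_mem_left _ h')
    have hone' : st (RingHom.id F) p ∈ I → (1 : F[X]) ∈ I := by
      intro h
      apply hone
      have := hst _ h
      rwa [hss] at this
    by_cases h : ∀ k ∈ I, q ∣ k
    · exact Or.inr h
    · left
      push Not at h
      obtain ⟨k, hk, hqk⟩ := h
      rw [hq] at hqk hqI
      by_cases h1 : p ∣ k
      · by_cases h3 : st (RingHom.id F) p ∣ k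
        · exact absurd (hco.mul_dvd h1 h3) hqk
        · apply hone
          obtain ⟨a, b, hab⟩ := (hpi'.coprime_iff_not_dvd).mpr h3
          have : p = a * (p * st (RingHom.id F) p) + b * p * k := by
            linear_combination -(p * hab)
          rw [this]
          exact I.add_mem (I.mul_mem_left _ hqI) (I.mul_mem_left _ hk)
      · apply hone'
        obtain ⟨a, b, hab⟩ := (hpi.coprime_iff_not_dvd).mpr h1
        have : st (RingHom.id F) p = a * (p * st (RingHom.id F) p) + b * st (RingHom.id F) p * k := by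
          linear_combination -(st (RingHom.id F) p * hab)
        rw [this]
        exact I.add_mem (I.mul_mem_left _ hqI) (I.mul_mem_left _ hk)

theorem dm_congr {p h h' : F[X]} (hd : p ∣ h - h') : dm p h = dm p h' := by
  have e : AdjoinRoot.mk p h = AdjoinRoot.mk p h' := AdjoinRoot.mk_eq_mk.mpr hd
  rw [dm_eq_norm, dm_eq_norm, e]

/-- an element with non-square norm -/
theorem exists_h [Finite F] (h2 : (2 : F) ≠ 0) {p q : F[X]} (hp : Good p) (hpi : Irreducible p)
    (hq : q = p ∧ st (RingHom.id F) p = p ∨ q = p * st (RingHom.id F) p ∧ st (RingHom.id F) p ≠ p) : ∃ h : F[X], dm q h ≠ 0 ∧ ¬ IsSquare (dm q h) := by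
  obtain ⟨α, hα⟩ := H48.FinFieldSq.exists_not_isSquare h2
  have hα0 : α ≠ 0 := by rintro rfl; exact hα IsSquare.zero
  obtain ⟨u, hu⟩ := exists_dm hp.1 hpi α
  rcases hq with ⟨hq, hsp⟩ | ⟨hq, hsp⟩
  · exact ⟨u, by rw [hq, hu]; exact hα0, by rw [hq, hu]; exact hα⟩
  · have hpi' := irreducible_st (φ := RingHom.id F) (fun _ => rfl) hp hpi
    have hco : IsCoprime p (st (RingHom.id F) p) := H48.SimStruct.isCoprime_of_ne hp.1 (good_st hp).1 hpi hpi' (fun h => hsp h.symm)
    obtain ⟨a, b, hab⟩ := hco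
    refine ⟨u * (b * st (RingHom.id F) p) + a * p, ?_, ?_⟩
    all_goals
      rw [hq, dm_mul hp.1 (good_st hp).1]
      have e1 : dm p (u * (b * st (RingHom.id F) p) + a * p) = α := by
        rw [dm_congr (h' := u), hu]
        exact ⟨a - u * a, by linear_combination u * hab⟩
      have e2 : dm (st (RingHom.id F) p) (u * (b * st (RingHom.id F) p) + a * p) = 1 := by
        rw [dm_congr (h' := 1), dm_unit_one]
        exact ⟨u * b - b, by linear_combination hab⟩
      rw [e1, e2, mul_one]
    · exact hα0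
    · exact hα

variable {V : Type v} [AddCommGroup V] [Module F V] {G : Type w} [Group G]
variable {f : LinearMap.BilinForm F V} (P : IsoG G f) (x : G)

/-- the endomorphism -/
abbrev TX : V →ₗ[F] V := (P.ρ x : V →ₗ[F] V)

theorem pow_pres (i : ℕ) (u v : V) : f ((TX P x ^ i) u) ((TX P x ^ i) v) = f u v := by
  induction i with
  | zero => rfl
  | succ i ih =>
    have : ∀ z, (TX P x ^ (i + 1)) z = P.ρ x ((TX P x ^ i) z) := fun z => by rw [pow_succ']; rfl
    rw [this, this, P.pres, ih]

theorem rev (k : F[X]) (y z : V) : f y (aeval (TX P x) k.reverse z) = f (aeval (TX P x) k y) ((TX P x ^ k.natDegree) z) := by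
  have h1 : k.reverse.natDegree < k.natDegree + 1 := Nat.lt_succ_of_le (reverse_natDegree_le k)
  rw [aeval_eq_sum_range' h1, aeval_eq_sum_range, LinearMap.sum_apply, LinearMap.sum_apply, map_sum, LinearMap.map_sum₂]
  rw [← Finset.sum_range_reflect]
  refine Finset.sum_congr rfl fun i hi => ?_
  rw [Finset.mem_range] at hi
  have e1 : k.natDegree + 1 - 1 - i = k.natDegree - i := by omega
  rw [e1, LinearMap.smul_apply, LinearMap.smul_apply, map_smul, LinearMap.map_smul₂, coeff_reverse, revAt_le (by omega)]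
  have e2 : k.natDegree - (k.natDegree - i) = i := by omega
  rw [e2]
  congr 1
  have e3 : (TX P x ^ k.natDegree) z = (TX P x ^ i) ((TX P x ^ (k.natDegree - i)) z) := by
    have : k.natDegree = i + (k.natDegree - i) := by omega
    conv_lhs => rw [this, pow_add]
    rfl
  rw [e3, pow_pres]

theorem aeval_mul_apply (a b : F[X]) (v : V) : aeval (TX P x) (a * b) v = aeval (TX P x) a (aeval (TX P x) b v) := by
  rw [map_mul]; rfl

theorem aeval_of_dvd {q a : F[X]} {u : V} (hu : aeval (TX P x) q u = 0) (h : q ∣ a) : aeval (TX P x) a u = 0 := by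
  obtain ⟨c, rfl⟩ := h
  rw [mul_comm, aeval_mul_apply, hu, map_zero]

theorem aeval_congr {q a b : F[X]} {u : V} (hu : aeval (TX P x) q u = 0) (h : q ∣ a - b) : aeval (TX P x) a u = aeval (TX P x) b u := by
  have h1 := aeval_of_dvd P x hu h
  rw [map_sub, LinearMap.sub_apply] at h1
  exact sub_eq_zero.mp h1

/-- adjoint of multiplication -/
theorem adjX {q r : F[X]} (hr : q ∣ X * r - 1) {u : V} (hu : aeval (TX P x) q u = 0) (a b : F[X]) :
    f (aeval (TX P x) (X * a) u) (aeval (TX P x) b u) = f (aeval (TX P x) a u) (aeval (TX P x) (r * b) u) := by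
  have h1 : aeval (TX P x) b u = aeval (TX P x) (X * (r * b)) u := by
    symm
    apply aeval_congr P x hu
    have : X * (r * b) - b = (X * r - 1) * b := by ring
    rw [this]
    exact hr.mul_right b
  have h3 : ∀ c : F[X], aeval (TX P x) (X * c) u = P.ρ x (aeval (TX P x) c u) := by
    intro c
    rw [aeval_mul_apply, aeval_X]; rfl
  rw [h1, h3, h3, P.pres]

theorem adj {q r : F[X]} (hr : q ∣ X * r - 1) {u : V} (hu : aeval (TX P x) q u = 0) (h : F[X]) : ∀ a b : F[X],
    f (aeval (TX P x) (h * a) u) (aeval (TX P x) b u) = f (aeval (TX P x) a u) (aeval (TX P x) (h.comp r * b) u) := by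
  refine Polynomial.induction_on h ?_ ?_ ?_
  · intro c a b
    rw [C_comp, aeval_mul_apply, aeval_mul_apply, aeval_C]
    simp only [Module.algebraMap_end_apply, map_smul, LinearMap.smul_apply]
  · intro p1 p2 h1 h3 a b
    rw [add_comp, add_mul, add_mul, map_add, map_add, LinearMap.add_apply, LinearMap.add_apply, LinearMap.map_add₂, map_add, h1, h3]
  · intro n c ih a b
    have e1 : C c * X ^ (n + 1) * a = C c * X ^ n * (X * a) := by ring
    have e2 : (C c * X ^ (n + 1)).comp r * b = r * ((C c * X ^ n).comp r * b) := by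
      simp only [mul_comp, C_comp, X_pow_comp]
      ring
    rw [e1, e2, ih, adjX P x hr hu]

/-- a non-isotropic vector in the kernel -/
theorem exists_u [FiniteDimensional F V] (h2 : (2 : F) ≠ 0) (hf : NDB f) (hs : ∀ u v, f u v = f v u) {p q : F[X]} (hpq : p ∣ q) (hpq' : st (RingHom.id F) p ∣ q)
    {w : V} (hw : aeval (TX P x) p w = 0) (hw' : w ∉ LinearMap.range (aeval (TX P x) p)) : ∃ u, aeval (TX P x) q u = 0 ∧ f u u ≠ 0 := by
  by_contra hcon
  push Not at hcon
  have h1 : ∀ u u', aeval (TX P x) q u = 0 → aeval (TX P x) q u' = 0 → f u u' = 0 := by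
    intro u u' hu hu'
    have e1 := hcon (u + u') (by rw [map_add, hu, hu', add_zero])
    rw [LinearMap.map_add₂, map_add, map_add, hcon u hu, hcon u' hu', hs u' u] at e1
    have e2 : 2 * f u u' = 0 := by linear_combination e1
    exact (mul_eq_zero.mp e2).resolve_left h2
  obtain ⟨φ, hφ, hφ'⟩ := Submodule.exists_le_ker_of_notMem hw'
  have hnd : f.Nondegenerate := ⟨fun x hx => hf x hx, fun x hx => hf x fun y => by rw [hs, hx y]⟩
  obtain ⟨z, hz⟩ := (f.toDual hnd).surjective φ
  have hz' : ∀ v, f z v = φ v := fun v => by rw [← hz]; rfl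
  obtain ⟨z', hz''⟩ : ∃ z', (TX P x ^ p.natDegree) z' = z := by
    refine ⟨P.ρ ((x ^ p.natDegree)⁻¹) z, ?_⟩
    have h3 : ∀ (i : ℕ) (v : V), (TX P x ^ i) v = P.ρ (x ^ i) v := by
      intro i
      induction i with
      | zero => intro v; rw [pow_zero, pow_zero, map_one]; rfl
      | succ i ih =>
        intro v
        rw [pow_succ', pow_succ', map_mul]
        show P.ρ x ((TX P x ^ i) v) = P.ρ x (P.ρ (x ^ i) v)
        rw [ih]
    rw [h3]
    have h4 : P.ρ (x ^ p.natDegree) (P.ρ ((x ^ p.natDegree)⁻¹) z) = P.ρ (x ^ p.natDegree * (x ^ p.natDegree)⁻¹) z := by rw [map_mul]; rfl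
    rw [h4, mul_inv_cancel, map_one]; rfl
  have h5 : aeval (TX P x) p.reverse z' = 0 := by
    apply hf
    intro y
    rw [hs, rev, hz'', hs, hz']
    exact hφ' ⟨y, rfl⟩
  have h6 : aeval (TX P x) (st (RingHom.id F) p) z = 0 := by
    rw [← hz'', st_id]
    have : (TX P x ^ p.natDegree) z' = aeval (TX P x) ((X : F[X]) ^ p.natDegree) z' := by rw [map_pow, aeval_X]
    rw [this, ← aeval_mul_apply]
    have e1 : C (p.coeff 0)⁻¹ * p.reverse * X ^ p.natDegree = (C (p.coeff 0)⁻¹ * X ^ p.natDegree) * p.reverse := by ring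
    rw [e1, aeval_mul_apply, h5, map_zero]
  have h7 := h1 z w (aeval_of_dvd P x h6 hpq') (aeval_of_dvd P x hw hpq)
  rw [hz'] at h7
  exact hφ h7

section quot
variable {q : F[X]} {u : V}

/-- evaluation at a vector -/
noncomputable def ev (hu : aeval (TX P x) q u = 0) : (F[X] ⧸ Ideal.span {q}) →ₗ[F] V :=
  (((Ideal.span {q}).restrictScalars F).liftQ ((LinearMap.applyₗ u) ∘ₗ (aeval (TX P x)).toLinearMap) (by
    intro a ha
    rw [LinearMap.mem_ker]
    exact aeval_of_dvd P x hu (Ideal.mem_span_singleton.mp ha))) ∘ₗ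
    ((Submodule.Quotient.restrictScalarsEquiv F (Ideal.span {q})).symm : (F[X] ⧸ Ideal.span {q}) →ₗ[F] _)

theorem ev_mk (hu : aeval (TX P x) q u = 0) (k : F[X]) : ev P x hu (Submodule.Quotient.mk k) = aeval (TX P x) k u := rfl

/-- multiplication -/
noncomputable def lm (q h : F[X]) : (F[X] ⧸ Ideal.span {q}) →ₗ[F] (F[X] ⧸ Ideal.span {q}) := (LinearMap.lsmul F[X] (F[X] ⧸ Ideal.span {q}) h).restrictScalars F

theorem lm_mk (h k : F[X]) : lm q h (Submodule.Quotient.mk k) = Submodule.Quotient.mk (h * k) := rfl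

theorem det_lm (h : F[X]) : LinearMap.det (lm q h) = dm q h := rfl

theorem lm_mul (h h' : F[X]) (y : F[X] ⧸ Ideal.span {q}) : lm q h (lm q h' y) = lm q (h * h') y := by
  obtain ⟨k, rfl⟩ := Submodule.Quotient.mk_surjective _ y
  rw [lm_mk, lm_mk, lm_mk, mul_assoc]

theorem lm_comm (h h' : F[X]) (y : F[X] ⧸ Ideal.span {q}) : lm q h (lm q h' y) = lm q h' (lm q h y) := by
  rw [lm_mul, lm_mul, mul_comm]

theorem mk_zero (k : F[X]) : (Submodule.Quotient.mk k : F[X] ⧸ Ideal.span {q}) = 0 ↔ q ∣ k := by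
  rw [Submodule.Quotient.mk_eq_zero, Ideal.mem_span_singleton]

theorem det_lm_ne [Module.Finite F (F[X] ⧸ Ideal.span {q})] {h : F[X]} (hinj : ∀ k, q ∣ h * k → q ∣ k) : LinearMap.det (lm q h) ≠ 0 := by
  have h1 : Function.Injective (lm q h) := by
    rw [← LinearMap.ker_eq_bot, LinearMap.ker_eq_bot']
    intro y hy
    obtain ⟨k, rfl⟩ := Submodule.Quotient.mk_surjective _ y
    rw [lm_mk, mk_zero] at hy
    exact (mk_zero k).mpr (hinj k hy)
  exact (LinearEquiv.isUnit_det' (LinearEquiv.ofInjectiveEndo (lm q h) h1)).ne_zero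

/-- skew elements -/
theorem skew {r : F[X]} (hr : q ∣ X * r - 1) (hu : aeval (TX P x) q u = 0) (hs : ∀ u v, f u v = f v u) (h a b : F[X]) :
    f (aeval (TX P x) a u) (aeval (TX P x) ((h - h.comp r) * b) u) = - f (aeval (TX P x) ((h - h.comp r) * a) u) (aeval (TX P x) b u) := by
  have e1 := adj P x hr hu h a b
  have e2 := adj P x hr hu h b a
  rw [sub_mul, sub_mul, map_sub, map_sub, LinearMap.sub_apply, LinearMap.sub_apply, map_sub, LinearMap.map_sub₂, e1, hs (aeval (TX P x) a u) (aeval (TX P x) (h * b) u), e2,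
    hs (aeval (TX P x) b u)]
  ring

/-- multiplication is invertible on the cyclic module or has square norm -/
theorem skew_inj [FiniteDimensional F V] [Finite F] (h2 : (2 : F) ≠ 0) (hs : ∀ u v, f u v = f v u) {p r : F[X]} (hr : q ∣ X * r - 1) (hu : aeval (TX P x) q u = 0)
    (hnd : ∀ k : F[X], (∀ l : F[X], f (aeval (TX P x) k u) (aeval (TX P x) l u) = 0) → q ∣ k) (hqm : q.Monic)
    (hp : Good p) (hpi : Irreducible p) (hq : q = p ∧ st (RingHom.id F) p = p ∨ q = p * st (RingHom.id F) p ∧ st (RingHom.id F) p ≠ p)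
    (hco : IsCoprime q (X ^ 2 - 1)) {h : F[X]} (hh0 : dm q h ≠ 0) (hh : ¬ IsSquare (dm q h)) (k : F[X]) (hk : q ∣ (h - h.comp r) * k) : q ∣ k := by
  haveI : Module.Finite F (F[X] ⧸ Ideal.span {q}) := hqm.finite_quotient
  let IA : Ideal F[X] :=
    { carrier := {k | q ∣ (h - h.comp r) * k}
      add_mem' := fun {a b} ha hb => by
        show q ∣ (h - h.comp r) * (a + b)
        rw [mul_add]; exact dvd_add ha hb
      zero_mem' := by
        show q ∣ (h - h.comp r) * 0
        rw [mul_zero]; exact dvd_zero _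
      smul_mem' := fun c a ha => by
        show q ∣ (h - h.comp r) * (c * a)
        have : (h - h.comp r) * (c * a) = c * ((h - h.comp r) * a) := by ring
        rw [this]; exact Dvd.dvd.mul_left ha c }
  have hrev : ∀ k ∈ IA, k.reverse ∈ IA := by
    intro k hk
    show q ∣ (h - h.comp r) * k.reverse
    apply hnd
    intro y
    have e1 : (h - h.comp r) * k.reverse = k.reverse * (h - h.comp r) := mul_comm _ _
    rw [hs, e1, aeval_mul_apply, rev]
    have e2 : aeval (TX P x) k (aeval (TX P x) y u) = aeval (TX P x) (k * y) u := (aeval_mul_apply P x k y u).symm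
    have e3 : (TX P x ^ k.natDegree) (aeval (TX P x) (h - h.comp r) u) = aeval (TX P x) ((h - h.comp r) * (X : F[X]) ^ k.natDegree) u := by
      rw [mul_comm (h - h.comp r), aeval_mul_apply, map_pow, aeval_X]
    rw [e2, e3, skew P x hr hu hs]
    have e4 : aeval (TX P x) ((h - h.comp r) * (k * y)) u = 0 := by
      apply aeval_of_dvd P x hu
      have : (h - h.comp r) * (k * y) = (h - h.comp r) * k * y := by ring
      rw [this]
      exact Dvd.dvd.mul_right hk y
    rw [e4, map_zero, LinearMap.zero_apply, neg_zero]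
  rcases kp IA hp hpi hq (Dvd.intro_left _ rfl) hrev with h1 | h1
  · -- `h` is self-adjoint: square norm
    exfalso
    have h3 : q ∣ h - h.comp r := by
      have : q ∣ (h - h.comp r) * 1 := h1
      rwa [mul_one] at this
    have hsa : ∀ a b : F[X], f (aeval (TX P x) (h * a) u) (aeval (TX P x) b u) = f (aeval (TX P x) a u) (aeval (TX P x) (h * b) u) := by
      intro a b
      rw [adj P x hr hu]
      congr 1
      apply aeval_congr P x hu
      have : h.comp r * b - h * b = -((h - h.comp r) * b) := by ring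
      rw [this]
      exact (Dvd.dvd.mul_right h3 b).neg_right
    have hXr : (X : F[X]).comp r = r := X_comp
    let b := Module.finBasis F (F[X] ⧸ Ideal.span {q})
    let g := f.comp (ev P x hu) (ev P x hu)
    have hJ : (LinearMap.BilinForm.toMatrix b g).det ≠ 0 := by
      apply (LinearMap.BilinForm.nondegenerate_iff_det_ne_zero b).mp
      have hl : ∀ y, (∀ z, g y z = 0) → y = 0 := by
        intro y hy
        obtain ⟨k, rfl⟩ := Submodule.Quotient.mk_surjective _ y
        rw [mk_zero]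
        apply hnd
        intro l
        exact hy (Submodule.Quotient.mk l)
      refine ⟨fun y hy => hl y hy, fun y hy => hl y fun z => ?_⟩
      have := hy z
      show f _ _ = 0
      rw [hs]; exact this
    have hD : LinearMap.det (lm q (X - r)) ≠ 0 := by
      apply det_lm_ne
      intro k hk
      have h5 : q ∣ (X ^ 2 - 1) * k := by
        have : ((X : F[X]) ^ 2 - 1) * k = X * ((X - r) * k) + (X * r - 1) * k := by ring
        rw [this]
        exact dvd_add (Dvd.dvd.mul_left hk _) (Dvd.dvd.mul_right hr _)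
      exact hco.dvd_of_dvd_mul_left h5
    have s1 := isSquare_of_skew_forms h2 b g (lm q (X - r)) (by
      intro y z
      obtain ⟨y, rfl⟩ := Submodule.Quotient.mk_surjective _ y
      obtain ⟨z, rfl⟩ := Submodule.Quotient.mk_surjective _ z
      show f (aeval (TX P x) y u) (aeval (TX P x) ((X - r) * z) u) = - f (aeval (TX P x) z u) (aeval (TX P x) ((X - r) * y) u)
      have := skew P x hr hu hs X y z
      rw [hXr] at this
      rw [this, hs (aeval (TX P x) z u)]) (mul_ne_zero hJ hD)
    have hDH : LinearMap.det (lm q (X - r)) * LinearMap.det (lm q h) = LinearMap.det (lm q (X - r) ∘ₗ lm q h) := (LinearMap.det_comp _ _).symm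
    have s2 := isSquare_of_skew_forms h2 b g (lm q (X - r) ∘ₗ lm q h) (by
      intro y z
      obtain ⟨y, rfl⟩ := Submodule.Quotient.mk_surjective _ y
      obtain ⟨z, rfl⟩ := Submodule.Quotient.mk_surjective _ z
      show f (aeval (TX P x) y u) (aeval (TX P x) ((X - r) * (h * z)) u) = - f (aeval (TX P x) z u) (aeval (TX P x) ((X - r) * (h * y)) u)
      have e1 := skew P x hr hu hs X y (h * z)
      rw [hXr] at e1
      rw [e1, ← hsa ((X - r) * y) z, hs, show h * ((X - r) * y) = (X - r) * (h * y) by ring]) (by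
      rw [← hDH]
      exact mul_ne_zero hJ (mul_ne_zero hD hh0))
    rw [← hDH, ← mul_assoc, H46.SqForm.isSquare_mul_iff (mul_ne_zero hJ hD) (show LinearMap.det (lm q h) ≠ 0 from hh0)] at s2
    exact hh (s2.mp s1)
  · exact h1 k hk

end quot

/-- an element of the centraliser with non-trivial spinor norm -/
theorem caseD [FiniteDimensional F V] [Finite F] (hodd : Odd (Nat.card F)) (h2 : (2 : F) ≠ 0) (hf : NDB f) (hs : ∀ u v, f u v = f v u) {θ : G →* ℤˣ} (hθ : Spin P θ)
    {p : F[X]} (hpm : p.Monic) (hpi : Irreducible p) (hp1 : p ≠ X - C 1) (hp1' : p ≠ X - C (-1)) {w : V} (hw : aeval (TX P x) p w = 0)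
    (hw' : w ∉ LinearMap.range (aeval (TX P x) p)) : ∃ g : G, Commute x g ∧ θ g ≠ 1 := by
  have hpX : p ≠ X := by
    rintro rfl
    rw [aeval_X] at hw
    have h1 : w = 0 := (P.ρ x).injective ((show P.ρ x w = 0 from hw).trans (map_zero _).symm)
    apply hw'
    rw [h1]
    exact Submodule.zero_mem _
  have hp := good_of_irreducible hpm hpi hpX
  have hp' := good_st (φ := RingHom.id F) hp
  have hpi' := irreducible_st (φ := RingHom.id F) (fun _ => rfl) hp hpi
  have hss : st (RingHom.id F) (st (RingHom.id F) p) = p := st_st (fun _ => rfl) hp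
  obtain ⟨q, hq⟩ : ∃ q, (q = p ∧ st (RingHom.id F) p = p ∨ q = p * st (RingHom.id F) p ∧ st (RingHom.id F) p ≠ p) := by
    by_cases h : st (RingHom.id F) p = p
    · exact ⟨p, Or.inl ⟨rfl, h⟩⟩
    · exact ⟨p * st (RingHom.id F) p, Or.inr ⟨rfl, h⟩⟩
  have hpq : p ∣ q := by
    rcases hq with ⟨h, -⟩ | ⟨h, -⟩
    · rw [h]
    · rw [h]; exact dvd_mul_right _ _
  have hpq' : st (RingHom.id F) p ∣ q := by
    rcases hq with ⟨h, h'⟩ | ⟨h, -⟩
    · rw [h, h']
    · rw [h]; exact dvd_mul_left _ _
  have hqg : Good q := by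
    rcases hq with ⟨h, -⟩ | ⟨h, -⟩
    · rw [h]; exact hp
    · rw [h]; exact hp.mul hp'
  have hX1 : st (RingHom.id F) (X - C (1 : F)) = X - C 1 := st_lin (by ring)
  have hX1' : st (RingHom.id F) (X - C (-1 : F)) = X - C (-1) := st_lin (by ring)
  have hco : IsCoprime q (X ^ 2 - 1) := by
    have e1 : (X : F[X]) ^ 2 - 1 = (X - C 1) * (X - C (-1)) := by
      rw [C_neg, C_1]; ring
    have hc : ∀ p' : F[X], p'.Monic → Irreducible p' → p' ≠ X - C 1 → p' ≠ X - C (-1) → IsCoprime p' (X ^ 2 - 1) := by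
      intro p' hm hi h1 h3
      rw [e1]
      exact (H48.SimStruct.isCoprime_of_ne hm (monic_X_sub_C _) hi (irreducible_X_sub_C _) h1).mul_right
        (H48.SimStruct.isCoprime_of_ne hm (monic_X_sub_C _) hi (irreducible_X_sub_C _) h3)
    rcases hq with ⟨h, -⟩ | ⟨h, -⟩
    · rw [h]; exact hc p hpm hpi hp1 hp1'
    · rw [h]
      apply (hc p hpm hpi hp1 hp1').mul_left
      apply hc _ hp'.1 hpi'
      · intro h3
        apply hp1
        rw [← hss, h3, hX1]
      · intro h3
        apply hp1'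
        rw [← hss, h3, hX1']
  obtain ⟨r, hr⟩ : ∃ r, q ∣ X * r - 1 := by
    have h1 : ¬ X ∣ q := by rw [X_dvd_iff]; exact hqg.2
    obtain ⟨a, b, hab⟩ := (irreducible_X.coprime_iff_not_dvd).mpr h1
    exact ⟨a, -b, by linear_combination hab⟩
  obtain ⟨u, hu, huu⟩ := exists_u P x h2 hf hs hpq hpq' hw hw'
  obtain ⟨h, hh0, hh⟩ := exists_h h2 hp hpi hq
  -- non-degeneracy
  have hnd : ∀ k : F[X], (∀ l : F[X], f (aeval (TX P x) k u) (aeval (TX P x) l u) = 0) → q ∣ k := by
    let IR : Ideal F[X] :=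
      { carrier := {k | ∀ l : F[X], f (aeval (TX P x) k u) (aeval (TX P x) l u) = 0}
        add_mem' := fun {a b} ha hb l => by
          rw [map_add, LinearMap.add_apply, LinearMap.map_add₂, ha l, hb l, add_zero]
        zero_mem' := fun l => by rw [map_zero, LinearMap.zero_apply, map_zero, LinearMap.zero_apply]
        smul_mem' := fun c a ha l => by
          rw [smul_eq_mul, adj P x hr hu]
          exact ha _ }
    have hrev : ∀ k ∈ IR, k.reverse ∈ IR := by
      intro k hk l
      rw [hs, rev, ← aeval_mul_apply]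
      have h1 := IR.mul_mem_left l hk (X ^ k.natDegree)
      rw [mul_comm k l]
      have h3 : aeval (TX P x) ((X : F[X]) ^ k.natDegree) u = (TX P x ^ k.natDegree) u := by rw [map_pow, aeval_X]
      rw [h3] at h1
      exact h1
    have hqI : q ∈ IR := by
      intro l
      rw [hu, map_zero, LinearMap.zero_apply]
    rcases kp IR hp hpi hq hqI hrev with h1 | h1
    · exfalso
      have h3 := h1 1
      rw [map_one] at h3
      exact huu h3
    · exact fun k hk => h1 k hk
  haveI : Module.Finite F (F[X] ⧸ Ideal.span {q}) := hqg.1.finite_quotient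
  let b := Module.finBasis F (F[X] ⧸ Ideal.span {q})
  let ι := ev P x hu
  have hU : NDB (f.comp ι ι) := by
    intro y hy
    obtain ⟨k, rfl⟩ := Submodule.Quotient.mk_surjective _ y
    rw [mk_zero]
    exact hnd k fun l => hy (Submodule.Quotient.mk l)
  have hJ : (LinearMap.BilinForm.toMatrix b (f.comp ι ι)).det ≠ 0 := by
    apply (LinearMap.BilinForm.nondegenerate_iff_det_ne_zero b).mp
    refine ⟨fun y hy => hU y hy, fun y hy => hU y fun z => ?_⟩
    have := hy z
    show f _ _ = 0
    rw [hs]; exact this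
  have hHdet : LinearMap.det (lm q h) ≠ 0 := hh0
  let He : (F[X] ⧸ Ideal.span {q}) ≃ₗ[F] (F[X] ⧸ Ideal.span {q}) := LinearMap.equivOfDetNeZero (lm q h) hHdet
  have hHe : ∀ y, He y = lm q h y := fun y => rfl
  let A : (F[X] ⧸ Ideal.span {q}) →ₗ[F] (F[X] ⧸ Ideal.span {q}) := lm q (h.comp r) ∘ₗ (He.symm : _ →ₗ[F] (F[X] ⧸ Ideal.span {q}))
  have hAe : ∀ y, A (He y) = lm q (h.comp r) y := by
    intro y
    show lm q (h.comp r) (He.symm (He y)) = _
    rw [He.symm_apply_apply]
  have hA : ∀ k l, f (ι (A k)) (ι (A l)) = f (ι k) (ι l) := by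
    intro k l
    obtain ⟨k, rfl⟩ := He.surjective k
    obtain ⟨l, rfl⟩ := He.surjective l
    rw [hAe, hAe, hHe, hHe]
    obtain ⟨a, rfl⟩ := Submodule.Quotient.mk_surjective _ k
    obtain ⟨c, rfl⟩ := Submodule.Quotient.mk_surjective _ l
    show f (aeval (TX P x) (h.comp r * a) u) (aeval (TX P x) (h.comp r * c) u) = f (aeval (TX P x) (h * a) u) (aeval (TX P x) (h * c) u)
    rw [← adj P x hr hu h (h.comp r * a) c, hs (aeval (TX P x) (h * a) u), adj P x hr hu h c (h * a), hs]
    have : h * (h.comp r * a) = h.comp r * (h * a) := by ring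
    rw [this]
  have hx : ∀ k, ∃ k', P.ρ x (ι k) = ι k' ∧ P.ρ x (ι (A k)) = ι (A k') := by
    intro k
    have hX : ∀ y, P.ρ x (ι y) = ι (lm q X y) := by
      intro y
      obtain ⟨y, rfl⟩ := Submodule.Quotient.mk_surjective _ y
      show P.ρ x (aeval (TX P x) y u) = aeval (TX P x) (X * y) u
      rw [aeval_mul_apply, aeval_X]; rfl
    refine ⟨lm q X k, hX k, ?_⟩
    rw [hX]
    congr 1
    obtain ⟨k, rfl⟩ := He.surjective k
    have e1 : lm q X (He k) = He (lm q X k) := by rw [hHe, hHe, lm_comm]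
    rw [hAe, e1, hAe, lm_comm]
  have hL : LinearMap.det (lm q (h - h.comp r)) ≠ 0 := det_lm_ne fun k hk => skew_inj P x h2 hs hr hu hnd hqg.1 hp hpi hq hco hh0 hh k hk
  have hsq := isSquare_of_skew_forms h2 b (f.comp ι ι) (lm q (h - h.comp r)) (by
    intro y z
    obtain ⟨y, rfl⟩ := Submodule.Quotient.mk_surjective _ y
    obtain ⟨z, rfl⟩ := Submodule.Quotient.mk_surjective _ z
    show f (aeval (TX P x) y u) (aeval (TX P x) ((h - h.comp r) * z) u) = - f (aeval (TX P x) z u) (aeval (TX P x) ((h - h.comp r) * y) u)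
    rw [skew P x hr hu hs, hs (aeval (TX P x) z u)]) (mul_ne_zero hJ hL)
  have hM : (Matrix.of fun i j => f (ι (b i)) (ι (b j - A (b j)))).det = (LinearMap.BilinForm.toMatrix b (f.comp ι ι)).det * LinearMap.det (LinearMap.id - A) := by
    rw [← det_form_mul b (f.comp ι ι) (LinearMap.id - A)]
    rfl
  have hprod : LinearMap.det (LinearMap.id - A) * LinearMap.det (lm q h) = LinearMap.det (lm q (h - h.comp r)) := by
    rw [← LinearMap.det_comp]
    congr 1
    apply LinearMap.ext
    intro y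
    show He y - A (He y) = _
    rw [hAe, hHe]
    obtain ⟨y, rfl⟩ := Submodule.Quotient.mk_surjective _ y
    rw [lm_mk, lm_mk, lm_mk, ← Submodule.Quotient.mk_sub, sub_mul]
  have hdA : LinearMap.det (LinearMap.id - A) ≠ 0 := by
    intro h0
    rw [h0, zero_mul] at hprod
    exact hL hprod.symm
  have hM0 : (Matrix.of fun i j => f (ι (b i)) (ι (b j - A (b j)))).det ≠ 0 := by
    rw [hM]; exact mul_ne_zero hJ hdA
  obtain ⟨g, hg1, hg2⟩ := embed P hodd h2 hf hs hθ ι hU A hA hx b hM0
  refine ⟨g, hg1, ?_⟩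
  intro h3
  rw [h3] at hg2
  have h4 := hg2.mp rfl
  rw [hM] at h4
  rw [← hprod, ← mul_assoc, H46.SqForm.isSquare_mul_iff (mul_ne_zero hJ hdA) hHdet] at hsq
  exact hh (hsq.mp h4)

end H46.CaseD
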