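import Mathlib

/-! Conjugacy classes of a group and of its central quotient. -/

set_option autoImplicit false

namespace H46.ClassQuot

variable {G : Type*} [Group G]

theorem conj_central {z : G} (hz : z ∈ Subgroup.center G) {x y : G} (h : IsConj x y) : IsConj (z * x) (z * y) := by
  obtain ⟨c, hc⟩ := isConj_iff.mp h
  rw [isConj_iff]
  refine ⟨c, ?_⟩
  have h1 : c * z = z * c := (Subgroup.mem_center_iff.mp hz c)
  rw [← hc, ← mul_assoc, h1]
  group

/-- multiplication of a class by a central element -/
def cm (z : Subgroup.center G) : ConjClasses G → ConjClasses G :=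
  Quotient.map (fun x => (z : G) * x) (fun _ _ h => conj_central z.2 h)

theorem cm_mk (z : Subgroup.center G) (x : G) : cm z (ConjClasses.mk x) = ConjClasses.mk ((z : G) * x) := rfl

/-- the action of the centre on the classes -/
@[reducible] def act (G : Type*) [Group G] : MulAction (Subgroup.center G) (ConjClasses G) where
  smul := cm
  one_smul C := by
    obtain ⟨x, rfl⟩ := ConjClasses.exists_rep C
    show cm 1 (ConjClasses.mk x) = ConjClasses.mk x
    rw [cm_mk, Subgroup.coe_one, one_mul]
  mul_smul z w C := by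
    obtain ⟨x, rfl⟩ := ConjClasses.exists_rep C
    show cm (z * w) (ConjClasses.mk x) = cm z (cm w (ConjClasses.mk x))
    rw [cm_mk, cm_mk, cm_mk, Subgroup.coe_mul, mul_assoc]

theorem burnside_le [Finite G] [Fintype (Subgroup.center G)] :
    Nat.card (Subgroup.center G) * Nat.card (ConjClasses (G ⧸ Subgroup.center G)) ≤
      ∑ z : Subgroup.center G, Nat.card {C : ConjClasses G // cm z C = C} := by
  classical
  letI := act G
  haveI : Fintype (ConjClasses G) := Fintype.ofFinite _
  haveI : ∀ z : Subgroup.center G, Fintype (MulAction.fixedBy (ConjClasses G) z) := fun z => Fintype.ofFinite _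
  haveI : Fintype (MulAction.orbitRel.Quotient (Subgroup.center G) (ConjClasses G)) := Fintype.ofFinite _
  have h1 := MulAction.sum_card_fixedBy_eq_card_orbits_mul_card_group (Subgroup.center G) (ConjClasses G)
  have h2 : ∑ z : Subgroup.center G, Nat.card {C : ConjClasses G // cm z C = C} = ∑ z : Subgroup.center G, Fintype.card (MulAction.fixedBy (ConjClasses G) z) := by
    refine Finset.sum_congr rfl fun z _ => ?_
    rw [← Nat.card_eq_fintype_card]
    rfl
  rw [h2, h1, mul_comm, ← Nat.card_eq_fintype_card, ← Nat.card_eq_fintype_card]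
  apply Nat.mul_le_mul_right
  -- surjection from orbits
  let φ : MulAction.orbitRel.Quotient (Subgroup.center G) (ConjClasses G) → ConjClasses (G ⧸ Subgroup.center G) :=
    Quotient.lift (fun C => ConjClasses.map (QuotientGroup.mk' (Subgroup.center G)) C) (by
      intro C D hCD
      obtain ⟨z, hz⟩ : ∃ z : Subgroup.center G, cm z D = C := by
        have := (MulAction.orbitRel_apply (G := Subgroup.center G)).mp hCD
        obtain ⟨z, hz⟩ := this
        exact ⟨z, hz⟩
      obtain ⟨x, rfl⟩ := ConjClasses.exists_rep D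
      rw [← hz, cm_mk]
      show ConjClasses.mk (QuotientGroup.mk' (Subgroup.center G) ((z : G) * x)) = ConjClasses.mk (QuotientGroup.mk' (Subgroup.center G) x)
      congr 1
      have h5 : QuotientGroup.mk' (Subgroup.center G) (z : G) = 1 := (QuotientGroup.eq_one_iff (z : G)).mpr z.2
      rw [map_mul, h5, one_mul])
  apply Nat.card_le_card_of_surjective φ
  intro D
  obtain ⟨x, rfl⟩ := ConjClasses.exists_rep D
  obtain ⟨y, rfl⟩ := QuotientGroup.mk_surjective x
  exact ⟨Quotient.mk _ (ConjClasses.mk y), rfl⟩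

/-- each class of the quotient lifts to at most `|Z|` classes -/
theorem card_le [Finite G] : Nat.card (ConjClasses G) ≤ Nat.card (Subgroup.center G) * Nat.card (ConjClasses (G ⧸ Subgroup.center G)) := by
  have hex : ∀ C : ConjClasses G, ∃ (p : Subgroup.center G × ConjClasses (G ⧸ Subgroup.center G)),
      C = cm p.1 (ConjClasses.mk (p.2.exists_rep.choose.out)) := by
    intro C
    obtain ⟨x, rfl⟩ := ConjClasses.exists_rep C
    set D : ConjClasses (G ⧸ Subgroup.center G) := ConjClasses.mk (x : G ⧸ Subgroup.center G) with hD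
    have h1 : ConjClasses.mk (D.exists_rep.choose) = D := D.exists_rep.choose_spec
    set y : G := D.exists_rep.choose.out with hy
    have h2 : (y : G ⧸ Subgroup.center G) = D.exists_rep.choose := Quotient.out_eq _
    rw [← h2, hD, ConjClasses.mk_eq_mk_iff_isConj, isConj_iff] at h1
    obtain ⟨c, hc⟩ := h1
    obtain ⟨c, rfl⟩ := QuotientGroup.mk_surjective c
    rw [← QuotientGroup.mk_inv, ← QuotientGroup.mk_mul, ← QuotientGroup.mk_mul, QuotientGroup.eq] at hc
    have h3 : (c * y * c⁻¹)⁻¹ * x ∈ Subgroup.center G := hc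
    refine ⟨(⟨_, h3⟩, D), ?_⟩
    rw [cm_mk, ConjClasses.mk_eq_mk_iff_isConj]
    show IsConj x ((c * y * c⁻¹)⁻¹ * x * y)
    rw [isConj_iff]
    refine ⟨c⁻¹, ?_⟩
    have h4 : x = (c * y * c⁻¹) * ((c * y * c⁻¹)⁻¹ * x) := by group
    have h5 := Subgroup.mem_center_iff.mp h3
    calc c⁻¹ * x * c⁻¹⁻¹ = c⁻¹ * ((c * y * c⁻¹) * ((c * y * c⁻¹)⁻¹ * x)) * c := by rw [← h4, inv_inv]
      _ = y * (c⁻¹ * ((c * y * c⁻¹)⁻¹ * x)) * c := by group
      _ = y * (((c * y * c⁻¹)⁻¹ * x) * c⁻¹) * c := by rw [h5 c⁻¹]
      _ = y * ((c * y * c⁻¹)⁻¹ * x) := by group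
      _ = _ := h5 y
  choose p hp using hex
  rw [← Nat.card_prod]
  apply Nat.card_le_card_of_injective p
  intro C C' h
  rw [hp C, hp C', h]

end H46.ClassQuot
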