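import Cfsg.Agent.Lib.H19.AltMult1

/-!
The double cover of the alternating group: lifts of double transpositions and the commutator criterion.
-/

set_option autoImplicit false

namespace H46.DcA
open Cfsg Equiv Equiv.Perm H19.Carm H19.AltMult

/-- four distinct points -/
def D4 {α : Type*} (a b c d : α) : Prop := a ≠ b ∧ a ≠ c ∧ a ≠ d ∧ b ≠ c ∧ b ≠ d ∧ c ≠ d

section
variable {α : Type*} [Fintype α] [DecidableEq α]

theorem D4.nodup {a b c d : α} (h : D4 a b c d) : [a, b, c, d].Nodup := by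
  obtain ⟨h1, h2, h3, h4, h5, h6⟩ := h
  simp [h1, h2, h3, h4, h5, h6]

/-- conjugacy under the alternating group when an odd permutation commutes -/
theorem conj_even {σ τ s : Perm α} (h : cycleType σ = cycleType τ) (hs : s * σ = σ * s) (hsg : sign s = -1) :
    ∃ f : Perm α, sign f = 1 ∧ f * σ * f⁻¹ = τ := by
  obtain ⟨f, hf⟩ := isConj_iff.1 (isConj_iff_cycleType_eq.2 h)
  rcases Int.units_eq_one_or (sign f) with h1 | h1
  · exact ⟨f, h1, hf⟩
  · refine ⟨f * s, by rw [map_mul, h1, hsg]; rfl, ?_⟩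
    rw [← hf]
    calc f * s * σ * (f * s)⁻¹ = f * (s * σ) * s⁻¹ * f⁻¹ := by group
      _ = f * σ * f⁻¹ := by rw [hs]; group

theorem swap_comm_of_fix {a b : α} {σ : Perm α} (ha : σ a = b) (hb : σ b = a) : swap a b * σ = σ * swap a b := by
  have h := Equiv.swap_apply_apply σ a b
  rw [ha, hb, swap_comm] at h
  calc swap a b * σ = (σ * swap a b * σ⁻¹) * σ := by rw [← h]
    _ = σ * swap a b := by group

theorem dt_mul {a b c d : α} (h : D4 a b c d) :
    (swap a b * swap c d) * (swap a c * swap b d) = swap a d * swap b c := by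
  obtain ⟨h1, h2, h3, h4, h5, h6⟩ := h
  ext x
  by_cases xa : x = a
  · subst xa
    simp [swap_apply_def, h1, h2, h3, h4, h5, h6, h1.symm, h2.symm, h3.symm, h4.symm, h5.symm, h6.symm]
  by_cases xb : x = b
  · subst xb
    simp [swap_apply_def, h1, h2, h3, h4, h5, h6, h1.symm, h2.symm, h3.symm, h4.symm, h5.symm, h6.symm]
  by_cases xc : x = c
  · subst xc
    simp [swap_apply_def, h1, h2, h3, h4, h5, h6, h1.symm, h2.symm, h3.symm, h4.symm, h5.symm, h6.symm]
  by_cases xd : x = d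
  · subst xd
    simp [swap_apply_def, h1, h2, h3, h4, h5, h6, h1.symm, h2.symm, h3.symm, h4.symm, h5.symm, h6.symm]
  simp [swap_apply_def, xa, xb, xc, xd]

/-- the double cover of the alternating group in terms of permutations -/
structure Cov {G : Type*} [Group G] (p : G →* Perm α) (z : G) : Prop where
  ne : z ≠ 1
  sq : z * z = 1
  cen : ∀ g, g * z = z * g
  ker : ∀ g, p g = 1 → g = 1 ∨ g = z
  sg : ∀ g, sign (p g) = 1
  surj : ∀ σ : Perm α, sign σ = 1 → ∃ g, p g = σ
  dt : ∀ a b c d, D4 a b c d → ∀ x, p x = swap a b * swap c d → x * x = z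

variable {G : Type*} [Group G] {p : G →* Perm α} {z : G}

theorem Cov.inv_z (h : Cov p z) : z⁻¹ = z := inv_eq_of_mul_eq_one_left h.sq

theorem Cov.anti (h : Cov p z) {a b c d : α} (hd : D4 a b c d) {x y : G} (hx : p x = swap a b * swap c d)
    (hy : p y = swap a c * swap b d) : x * y * x⁻¹ * y⁻¹ = z := by
  obtain ⟨h1, h2, h3, h4, h5, h6⟩ := id hd
  have e1 := h.dt a b c d hd x hx
  have e2 := h.dt a c b d ⟨h2, h1, h3, h4.symm, h6, h5⟩ y hy
  have e3 := h.dt a d b c ⟨h3, h1, h2, h5.symm, h6.symm, h4⟩ (x * y) (by rw [map_mul, hx, hy, dt_mul hd])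
  have f1 : x⁻¹ = x * z := by
    rw [inv_eq_iff_mul_eq_one]
    calc x * (x * z) = (x * x) * z := by group
      _ = 1 := by rw [e1, h.sq]
  have f2 : y⁻¹ = y * z := by
    rw [inv_eq_iff_mul_eq_one]
    calc y * (y * z) = (y * y) * z := by group
      _ = 1 := by rw [e2, h.sq]
  calc x * y * x⁻¹ * y⁻¹ = x * y * (x * z) * (y * z) := by rw [f1, f2]
    _ = x * y * x * (z * y) * z := by group
    _ = x * y * x * (y * z) * z := by rw [h.cen y]
    _ = (x * y) * (x * y) * (z * z) := by group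
    _ = z := by rw [e3, h.sq, mul_one]

theorem Cov.comm3 (h : Cov p z) {y r : G} (h3 : p r ^ 3 = 1) (hc : p r * p y = p y * p r) : r * y = y * r := by
  have h1 : p (r * y * r⁻¹ * y⁻¹) = 1 := by
    simp only [map_mul, map_inv]
    rw [hc]; group
  rcases h.ker _ h1 with h2 | h2
  · have : r * y = (r * y * r⁻¹ * y⁻¹) * (y * r) := by group
    rw [this, h2, one_mul]
  · exfalso
    have e1 : r * y * r⁻¹ = z * y := by
      rw [← h2]; group
    have e2 : r ^ 3 * y * (r ^ 3)⁻¹ = z * y := by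
      have : r ^ 3 * y * (r ^ 3)⁻¹ = r * (r * (r * y * r⁻¹) * r⁻¹) * r⁻¹ := by
        rw [pow_three]; group
      rw [this, e1]
      have e3 : r * (z * y) * r⁻¹ = y := by
        calc r * (z * y) * r⁻¹ = (r * z) * (y * r⁻¹) := by group
          _ = z * (r * y * r⁻¹) := by rw [h.cen]; group
          _ = (z * z) * y := by rw [e1, mul_assoc]
          _ = y := by rw [h.sq, one_mul]
      rw [e3, e1]
    have e4 : r ^ 3 * y * (r ^ 3)⁻¹ = y := by
      rcases h.ker (r ^ 3) (by rw [map_pow, h3]) with h4 | h4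
      · rw [h4]; group
      · rw [h4, ← h.cen]; group
    rw [e4] at e2
    exact h.ne (right_eq_mul.1 e2)

theorem Cov.comm (h : Cov p z) {a b c d : α} {y : G} (hy : p y = swap a c * swap b d) {r : G}
    (ha : p r a = a) (hb : p r b = b) (hc : p r c = c) (hd : p r d = d) : r * y = y * r := by
  classical
  let P : α → Prop := fun x => ¬ (x = a ∨ x = b ∨ x = c ∨ x = d)
  let K : Subgroup (Perm (Subtype P)) := ((Subgroup.centralizer {y}).map p).comap (ofSubtype : Perm (Subtype P) →* Perm α)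
  have hfix : ∀ ρ : Perm (Subtype P), ∀ x, ¬ P x → ofSubtype ρ x = x := fun ρ x hx => ofSubtype_apply_of_not_mem ρ hx
  have hK : alternatingGroup (Subtype P) ≤ K := by
    rw [← closure_three_cycles_eq_alternating, Subgroup.closure_le]
    intro ρ hρ
    have hρ' : IsThreeCycle ρ := hρ
    obtain ⟨g, hg⟩ := h.surj (ofSubtype ρ) (by rw [sign_ofSubtype, hρ'.sign])
    refine ⟨g, ?_, hg⟩
    have h3 : p g ^ 3 = 1 := by
      rw [hg, ← map_pow]
      have : ρ ^ 3 = 1 := by rw [← hρ'.orderOf]; exact pow_orderOf_eq_one ρ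
      rw [this, map_one]
    have hcm : p g * p y = p y * p g := by
      rw [hg, hy]
      have s1 : ∀ x y : α, ¬ P x → ¬ P y → ofSubtype ρ * swap x y = swap x y * ofSubtype ρ := by
        intro x y hx hy
        have := Equiv.swap_apply_apply (ofSubtype ρ) x y
        rw [hfix ρ x hx, hfix ρ y hy] at this
        calc ofSubtype ρ * swap x y = (ofSubtype ρ * swap x y * (ofSubtype ρ)⁻¹) * ofSubtype ρ := by group
          _ = _ := by rw [← this]
      rw [← mul_assoc, s1 a c (by simp [P]) (by simp [P]), mul_assoc, s1 b d (by simp [P]) (by simp [P]), mul_assoc]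
    have := h.comm3 h3 hcm
    rw [SetLike.mem_coe, Subgroup.mem_centralizer_iff]
    rintro _ rfl
    exact this.symm
  have hPr : ∀ x, P (p r x) ↔ P x := by
    intro x
    have key : ∀ w, p r w = w → (p r x = w ↔ x = w) := by
      intro w hw
      constructor
      · intro h1; exact (p r).injective (h1.trans hw.symm)
      · intro h1; rw [h1, hw]
    simp only [P, key a ha, key b hb, key c hc, key d hd]
  have hr : ofSubtype ((p r).subtypePerm hPr) = p r := by
    apply ofSubtype_subtypePerm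
    intro x hx
    simp only [P]
    rintro (rfl | rfl | rfl | rfl)
    · exact hx ha
    · exact hx hb
    · exact hx hc
    · exact hx hd
  have hs : (p r).subtypePerm hPr ∈ alternatingGroup (Subtype P) := by
    rw [mem_alternatingGroup, ← sign_ofSubtype, hr, h.sg]
  obtain ⟨r', hr', hrr⟩ := hK hs
  rw [hr] at hrr
  have hc' : r' * y = y * r' := by
    rw [SetLike.mem_coe, Subgroup.mem_centralizer_iff] at hr'
    exact (hr' y rfl).symm
  rcases h.ker (r'⁻¹ * r) (by rw [map_mul, map_inv, hrr, inv_mul_cancel]) with h5 | h5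
  · rw [inv_mul_eq_one.1 h5] at hc'; exact hc'
  · rw [inv_mul_eq_iff_eq_mul] at h5
    rw [h5, mul_assoc, ← h.cen, ← mul_assoc, hc', mul_assoc]

theorem Cov.comm_z (h : Cov p z) {a t : G} {u u' v v' : α} (hD : D4 u u' v v') (h1 : p a u = u') (h2 : p a u' = u)
    (h3 : p a v = v') (h4 : p a v' = v) (ht : p t = swap u v * swap u' v') : a * t * a⁻¹ * t⁻¹ = z := by
  obtain ⟨n1, n2, n3, n4, n5, n6⟩ := id hD
  obtain ⟨d, hd⟩ := h.surj (swap u u' * swap v v') (by rw [map_mul, sign_swap n1, sign_swap n6]; rfl)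
  have hinv : p (d⁻¹ * a) = (swap u u' * swap v v') * p a := by
    rw [map_mul, map_inv, hd, mul_inv_rev, swap_inv, swap_inv]
    congr 1
    have := disjoint_swap_swap hD.nodup
    exact this.commute.eq.symm
  have e1 : p (d⁻¹ * a) u = u := by
    rw [hinv, mul_apply, h1, mul_apply, swap_apply_of_ne_of_ne n4 n5, swap_apply_right]
  have e2 : p (d⁻¹ * a) u' = u' := by
    rw [hinv, mul_apply, h2, mul_apply, swap_apply_of_ne_of_ne n2 n3, swap_apply_left]
  have e3 : p (d⁻¹ * a) v = v := by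
    rw [hinv, mul_apply, h3, mul_apply, swap_apply_right, swap_apply_of_ne_of_ne n2.symm n4.symm]
  have e4 : p (d⁻¹ * a) v' = v' := by
    rw [hinv, mul_apply, h4, mul_apply, swap_apply_left, swap_apply_of_ne_of_ne n3.symm n5.symm]
  have hc := h.comm ht e1 e2 e3 e4
  have ha := h.anti hD hd ht
  calc a * t * a⁻¹ * t⁻¹ = d * ((d⁻¹ * a) * t) * (d⁻¹ * a)⁻¹ * d⁻¹ * t⁻¹ := by group
    _ = d * (t * (d⁻¹ * a)) * (d⁻¹ * a)⁻¹ * d⁻¹ * t⁻¹ := by rw [hc]
    _ = d * t * d⁻¹ * t⁻¹ := by group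
    _ = z := ha

theorem Cov.final (h : Cov p z) {g : G} {A C : Perm α} (hA : sign A = 1) (hg : p g = A * C)
    (hct : cycleType A = cycleType C) {u u' v v' : α} (hD : D4 u u' v v') (h1 : A u = u') (h2 : A u' = u)
    (h3 : A v = v') (h4 : A v' = v) : ∃ x y : G, x * y * x⁻¹ * y⁻¹ = g := by
  obtain ⟨n1, n2, n3, n4, n5, n6⟩ := id hD
  obtain ⟨f, hf, hfA⟩ := conj_even (σ := A⁻¹) (τ := C) (s := swap u u') (by rw [cycleType_inv, hct]) (by
    have := swap_comm_of_fix h1 h2
    calc swap u u' * A⁻¹ = A⁻¹ * (A * swap u u') * A⁻¹ := by group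
      _ = A⁻¹ * (swap u u' * A) * A⁻¹ := by rw [this]
      _ = A⁻¹ * swap u u' := by group) (sign_swap n1)
  obtain ⟨a, ha⟩ := h.surj A hA
  obtain ⟨b, hb⟩ := h.surj f hf
  obtain ⟨t, ht⟩ := h.surj (swap u v * swap u' v') (by rw [map_mul, sign_swap n2, sign_swap n5]; rfl)
  have hz := h.comm_z hD (a := a) (t := t) (by rw [ha, h1]) (by rw [ha, h2]) (by rw [ha, h3]) (by rw [ha, h4]) ht
  have hp : p ((a * b * a⁻¹ * b⁻¹)⁻¹ * g) = 1 := by
    simp only [map_mul, map_inv, ha, hb, hg]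
    rw [← hfA]; group
  rcases h.ker _ hp with h5 | h5
  · exact ⟨a, b, inv_mul_eq_one.1 h5⟩
  · refine ⟨a, b * t, ?_⟩
    rw [inv_mul_eq_iff_eq_mul] at h5
    have e1 : t * a⁻¹ * t⁻¹ = z * a⁻¹ := by
      calc t * a⁻¹ * t⁻¹ = a⁻¹ * (a * t * a⁻¹ * t⁻¹) := by group
        _ = a⁻¹ * z := by rw [hz]
        _ = z * a⁻¹ := h.cen _
    calc a * (b * t) * a⁻¹ * (b * t)⁻¹ = a * b * (t * a⁻¹ * t⁻¹) * b⁻¹ := by group
      _ = a * b * (z * a⁻¹) * b⁻¹ := by rw [e1]
      _ = a * b * (z * (a⁻¹ * b⁻¹)) := by group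
      _ = a * b * ((a⁻¹ * b⁻¹) * z) := by rw [h.cen]
      _ = a * b * a⁻¹ * b⁻¹ * z := by group
      _ = g := h5.symm
end

end H46.DcA
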