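import Cfsg.Agent.Lib.H46.DcA

/-!
Even permutations as products of two involutions with the same number of fixed points, and as products of two conjugate
even permutations with two 2-cycles.
-/

set_option autoImplicit false

namespace H46.DcB
open Equiv Equiv.Perm H46.DcA

section cyc
variable {Z : Type*} [CommGroup Z] [Fintype Z] [DecidableEq Z]

/-- the reflection `g ↦ s g⁻¹` -/
def refl (s : Z) : Perm Z where
  toFun g := s * g⁻¹
  invFun g := s * g⁻¹
  left_inv g := by simp
  right_inv g := by simp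

theorem refl_apply (s g : Z) : refl s g = s * g⁻¹ := rfl

theorem refl_sq (s : Z) : refl s * refl s = 1 := by
  ext g; simp [refl_apply, mul_apply]

theorem refl_fix (s g : Z) : refl s g = g ↔ g * g = s := by
  rw [refl_apply, mul_inv_eq_iff_eq_mul]
  exact eq_comm

theorem card_fix (s : Z) : (refl s).support.card + (Finset.univ.filter (fun g : Z => g * g = s)).card = Fintype.card Z := by
  have : (refl s).support = Finset.univ.filter (fun g : Z => ¬ g * g = s) := by
    ext g
    simp [refl_fix]
  rw [this, add_comm, Finset.card_filter_add_card_filter_not, Finset.card_univ]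

theorem two_dvd (s : Z) : 2 ∣ (refl s).support.card := two_dvd_card_support (by rw [sq, refl_sq])

theorem card_cyc (s : Z) (hs : ∀ g : Z, g ∈ Subgroup.zpowers s) :
    (refl s).support.card = (refl (1 : Z)).support.card + (if Odd (Fintype.card Z) then 0 else 2) := by
  haveI : IsCyclic Z := ⟨s, hs⟩
  have h1 := card_fix s
  have h2 := card_fix (1 : Z)
  obtain ⟨a, ha⟩ := two_dvd s
  obtain ⟨b, hb⟩ := two_dvd (1 : Z)
  have h3 : (Finset.univ.filter (fun g : Z => g * g = 1)).card ≤ 2 := by
    have := IsCyclic.card_pow_eq_one_le (α := Z) (n := 2) (by norm_num)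
    simpa [sq] using this
  have h4 : 0 < (Finset.univ.filter (fun g : Z => g * g = 1)).card :=
    Finset.card_pos.2 ⟨1, by simp⟩
  split_ifs with ho
  · obtain ⟨k, hk⟩ := ho
    have h5 : (Finset.univ.filter (fun g : Z => g * g = 1)).card = 1 := by omega
    have h6 : (Finset.univ.filter (fun g : Z => g * g = s)).card ≤ 1 := by
      rw [Finset.card_le_one]
      intro x hx y hy
      simp only [Finset.mem_filter, Finset.mem_univ, true_and] at hx hy
      obtain ⟨w, hw⟩ := Finset.card_eq_one.1 h5
      have e1 : (1 : Z) ∈ (Finset.univ.filter (fun g : Z => g * g = 1)) := by simp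
      have e2 : x * y⁻¹ ∈ (Finset.univ.filter (fun g : Z => g * g = 1)) := by
        simp only [Finset.mem_filter, Finset.mem_univ, true_and]
        calc x * y⁻¹ * (x * y⁻¹) = (x * x) * (y * y)⁻¹ := by
              rw [mul_inv]; exact mul_mul_mul_comm x y⁻¹ x y⁻¹
          _ = 1 := by rw [hx, hy, mul_inv_cancel]
      rw [hw, Finset.mem_singleton] at e1 e2
      rw [← e1] at e2
      exact mul_inv_eq_one.1 e2
    omega
  · have hev : Even (Fintype.card Z) := Nat.not_odd_iff_even.1 ho
    obtain ⟨k, hk⟩ := hev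
    have h5 : (Finset.univ.filter (fun g : Z => g * g = s)).card = 0 := by
      rw [Finset.card_eq_zero, Finset.filter_eq_empty_iff]
      intro g _ hg
      obtain ⟨n, hn⟩ := Subgroup.mem_zpowers_iff.1 (hs g)
      have e1 : s ^ (2 * n - 1) = 1 := by
        rw [zpow_sub, zpow_one, two_mul, zpow_add, hn, hg, mul_inv_cancel]
      have e2 : orderOf s = Fintype.card Z := orderOf_eq_card_of_forall_mem_zpowers hs |>.trans (Nat.card_eq_fintype_card)
      have e3 := orderOf_dvd_iff_zpow_eq_one.2 e1
      rw [e2, hk] at e3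
      obtain ⟨c, hc⟩ := e3
      push_cast at hc
      have : (2 : ℤ) ∣ 1 := ⟨n - k * c, by linarith⟩
      norm_num at this
    omega
end cyc

variable {α : Type*} [Fintype α] [DecidableEq α]

/-- a factorization in two involutions -/
structure Fac (σ r r' : Perm α) (k : ℤ) : Prop where
  sq : r * r = 1
  sq' : r' * r' = 1
  eq : σ = r * r'
  sub : r.support ⊆ σ.support
  sub' : r'.support ⊆ σ.support
  card : (r.support.card : ℤ) = r'.support.card + k

open scoped IsMulCommutative in
theorem cyc {σ : Perm α} (hσ : IsCycle σ) :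
    ∃ r r', Fac σ r r' (if sign σ = 1 then 0 else 2) ∧ ∃ x, r' x = x ∧ r x ≠ x := by
  let e : Subgroup.zpowers σ ≃ {x // x ∈ σ.support} := hσ.zpowersEquivSupport
  let x0 := Classical.choose hσ
  have hx0 : σ x0 ≠ x0 := (Classical.choose_spec hσ).1
  have he : ∀ g : Subgroup.zpowers σ, (e g : α) = (g : Perm α) x0 := fun g => rfl
  let s : Subgroup.zpowers σ := ⟨σ, Subgroup.mem_zpowers σ⟩
  let R : Subgroup.zpowers σ → Perm α := fun t => ofSubtype (e.permCongr (refl t))
  have hR : ∀ (t g : Subgroup.zpowers σ), R t (e g) = (e (t * g⁻¹) : α) := by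
    intro t g
    simp only [R]
    rw [ofSubtype_apply_coe, Equiv.permCongr_apply, Equiv.symm_apply_apply, refl_apply]
  have hR' : ∀ t x, x ∉ σ.support → R t x = x := fun t x hx => ofSubtype_apply_of_not_mem _ hx
  have hsq : ∀ t, R t * R t = 1 := by
    intro t
    ext x
    by_cases hx : x ∈ σ.support
    · obtain ⟨g, hg⟩ := e.surjective ⟨x, hx⟩
      have hgx : x = (e g : α) := by rw [hg]
      rw [mul_apply, hgx, hR, hR]
      simp
    · rw [mul_apply, hR' t x hx, hR' t x hx]; rfl
  have hsub : ∀ t, (R t).support ⊆ σ.support := by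
    intro t x hx
    by_contra h
    exact (mem_support.1 hx) (hR' t x h)
  have hcard : ∀ t, (R t).support.card = (refl t).support.card := by
    intro t
    symm
    apply Finset.card_bij (fun g _ => (e g : α))
    · intro g hg
      rw [mem_support] at hg ⊢
      intro h
      apply hg
      rw [hR] at h
      exact e.injective (Subtype.ext h)
    · intro a _ b _ h
      exact e.injective (Subtype.ext h)
    · intro x hx
      obtain ⟨g, hg⟩ := e.surjective ⟨x, hsub t hx⟩
      have hgx : x = (e g : α) := by rw [hg]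
      refine ⟨g, ?_, hgx.symm⟩
      rw [mem_support] at hx ⊢
      intro h
      apply hx
      rw [hgx, hR, ← refl_apply, h]
  have hgen : ∀ g : Subgroup.zpowers σ, g ∈ Subgroup.zpowers s := by
    rintro ⟨g, n, rfl⟩
    exact ⟨n, by ext; simp [s]⟩
  refine ⟨R s, R 1, ⟨hsq _, hsq _, ?_, hsub _, hsub _, ?_⟩, x0, ?_, ?_⟩
  · ext x
    by_cases hx : x ∈ σ.support
    · obtain ⟨g, hg⟩ := e.surjective ⟨x, hx⟩
      have hgx : x = (e g : α) := by rw [hg]
      rw [mul_apply, hgx, hR, hR, he, he]
      simp [s]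
    · rw [mul_apply, hR' 1 x hx, hR' s x hx]
      exact notMem_support.1 hx
  · rw [hcard, hcard, card_cyc s hgen, Fintype.card_zpowers, hσ.orderOf, hσ.sign]
    push_cast
    congr 1
    by_cases ho : Odd σ.support.card
    · rw [if_pos ho, if_pos (by rw [ho.neg_one_pow, neg_neg])]
    · rw [if_neg ho, if_neg (by rw [(Nat.not_odd_iff_even.1 ho).neg_one_pow]; decide)]
  · have h1 := hR 1 1
    rw [he, he] at h1
    simpa using h1
  · have h1 := hR s 1
    rw [he, he] at h1
    simp only [inv_one, mul_one, OneMemClass.coe_one, coe_one, id] at h1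
    rw [h1]
    exact hx0

theorem Fac.flip {τ t t' : Perm α} {l : ℤ} (h : Fac τ t t' l) : Fac τ (t * t' * t) t (-l) := by
  have ht : t⁻¹ = t := inv_eq_of_mul_eq_one_left h.sq
  have hsup : (t * t' * t).support.card = t'.support.card := by
    have := card_support_conj (σ := t) (τ := t')
    rwa [ht] at this
  refine ⟨?_, h.sq, ?_, ?_, h.sub, ?_⟩
  · calc t * t' * t * (t * t' * t) = t * t' * (t * t) * t' * t := by group
      _ = t * (t' * t') * t := by rw [h.sq]; group
      _ = 1 := by rw [h.sq', mul_one, h.sq]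
  · rw [h.eq]
    calc t * t' = t * t' * (t * t) := by rw [h.sq, mul_one]
      _ = t * t' * t * t := by group
  · intro x hx
    by_contra hx'
    have h1 : t x = x := notMem_support.1 (fun h' => hx' (h.sub h'))
    have h2 : t' x = x := notMem_support.1 (fun h' => hx' (h.sub' h'))
    exact (mem_support.1 hx) (by rw [mul_apply, mul_apply, h1, h2, h1])
  · rw [hsup]
    have := h.card
    omega

theorem Fac.mul {σ τ r r' t t' : Perm α} {k l : ℤ} (hd : Disjoint σ τ) (h : Fac σ r r' k) (h' : Fac τ t t' l) :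
    Fac (σ * τ) (r * t) (r' * t') (k + l) := by
  have d1 : Disjoint r t := hd.mono h.sub h'.sub
  have d2 : Disjoint r' t' := hd.mono h.sub' h'.sub'
  have d3 : Disjoint r' t := hd.mono h.sub' h'.sub
  refine ⟨?_, ?_, ?_, ?_, ?_, ?_⟩
  · calc r * t * (r * t) = r * (t * r) * t := by group
      _ = r * (r * t) * t := by rw [d1.commute.eq]
      _ = (r * r) * (t * t) := by group
      _ = 1 := by rw [h.sq, h'.sq, mul_one]
  · calc r' * t' * (r' * t') = r' * (t' * r') * t' := by group
      _ = r' * (r' * t') * t' := by rw [d2.commute.eq]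
      _ = (r' * r') * (t' * t') := by group
      _ = 1 := by rw [h.sq', h'.sq', mul_one]
  · rw [h.eq, h'.eq]
    calc r * r' * (t * t') = r * (r' * t) * t' := by group
      _ = r * (t * r') * t' := by rw [d3.commute.eq]
      _ = r * t * (r' * t') := by group
  · rw [d1.support_mul, hd.support_mul]
    exact Finset.union_subset_union h.sub h'.sub
  · rw [d2.support_mul, hd.support_mul]
    exact Finset.union_subset_union h.sub' h'.sub'
  · rw [d1.card_support_mul, d2.card_support_mul]
    have := h.card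
    have := h'.card
    push_cast
    omega

theorem exists_fac (σ : Perm α) :
    ∃ r r', Fac σ r r' (if sign σ = 1 then 0 else 2) ∧ (σ ≠ 1 → ∃ x, r' x = x ∧ r x ≠ x) := by
  induction σ using cycle_induction_on with
  | base_one => exact ⟨1, 1, ⟨by simp, by simp, by simp, by simp, by simp, by simp⟩, fun h => absurd rfl h⟩
  | base_cycles σ hσ =>
    obtain ⟨r, r', h, hw⟩ := cyc hσ
    exact ⟨r, r', h, fun _ => hw⟩
  | induction_disjoint σ τ hd hσ _ ih =>
    obtain ⟨r, r', h, x, hx1, hx2⟩ := cyc hσ
    obtain ⟨t, t', h', -⟩ := ih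
    have hxσ : x ∈ σ.support := h.sub (mem_support.2 hx2)
    have hxτ : x ∉ τ.support := by
      intro hx3
      exact (Finset.disjoint_left.1 (disjoint_iff_disjoint_support.1 hd)) hxσ hx3
    have key : ∀ {s s' : Perm α} {l : ℤ}, Fac τ s s' l → ∃ x, (r' * s') x = x ∧ (r * s) x ≠ x := by
      intro s s' l hs
      refine ⟨x, ?_, ?_⟩
      · rw [mul_apply, notMem_support.1 (fun h4 => hxτ (hs.sub' h4)), hx1]
      · rw [mul_apply, notMem_support.1 (fun h4 => hxτ (hs.sub h4))]
        exact hx2
    rw [map_mul]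
    rcases Int.units_eq_one_or (sign σ) with h1 | h1 <;> rcases Int.units_eq_one_or (sign τ) with h2 | h2
    · rw [h1] at h; rw [h2] at h'
      rw [if_pos rfl] at h h'
      have := h.mul hd h'
      exact ⟨_, _, by rw [h1, h2]; simpa using this, fun _ => key h'⟩
    · rw [h1] at h; rw [h2] at h'
      rw [if_pos rfl] at h
      rw [if_neg (by decide)] at h'
      have := h.mul hd h'
      exact ⟨_, _, by rw [h1, h2, if_neg (by decide)]; simpa using this, fun _ => key h'⟩
    · rw [h1] at h; rw [h2] at h'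
      rw [if_pos rfl] at h'
      rw [if_neg (by decide)] at h
      have := h.mul hd h'
      exact ⟨_, _, by rw [h1, h2, if_neg (by decide)]; simpa using this, fun _ => key h'⟩
    · rw [h1] at h; rw [h2] at h'
      rw [if_neg (by decide)] at h h'
      have := h.mul hd h'.flip
      exact ⟨_, _, by rw [h1, h2, if_pos (by decide)]; simpa using this, fun _ => key h'.flip⟩

/-- involutions with the same number of fixed points have the same cycle type -/
theorem ct_eq {r r' : Perm α} (h : r * r = 1) (h' : r' * r' = 1) (hc : r.support.card = r'.support.card) :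
    cycleType r = cycleType r' := by
  have e := cycleType_of_pow_prime_eq_one (p := 2) (σ := r) (by rw [sq, h])
  have e' := cycleType_of_pow_prime_eq_one (p := 2) (σ := r') (by rw [sq, h'])
  have s := sum_cycleType r
  have s' := sum_cycleType r'
  rw [e, Multiset.sum_replicate] at s
  rw [e', Multiset.sum_replicate] at s'
  rw [e, e']
  congr 1
  simp only [smul_eq_mul] at s s'
  omega

theorem two_cycles {r : Perm α} (h : r * r = 1) (h1 : r ≠ 1) (hs : sign r = 1) :
    ∃ u u' v v', D4 u u' v v' ∧ r u = u' ∧ r u' = u ∧ r v = v' ∧ r v' = v := by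
  have hr : ∀ x, r (r x) = x := fun x => by rw [← mul_apply, h]; rfl
  obtain ⟨u, hu⟩ : ∃ u, r u ≠ u := by
    by_contra hc
    push Not at hc
    exact h1 (Equiv.ext hc)
  obtain ⟨v, hv1, hv2, hv3⟩ : ∃ v, v ≠ u ∧ v ≠ r u ∧ r v ≠ v := by
    by_contra hc
    push Not at hc
    have : r = swap u (r u) := by
      ext x
      by_cases hx1 : x = u
      · rw [hx1, swap_apply_left]
      by_cases hx2 : x = r u
      · rw [hx2, swap_apply_right, hr]
      rw [swap_apply_of_ne_of_ne hx1 hx2, hc x hx1 hx2]
    rw [this, sign_swap (Ne.symm hu)] at hs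
    exact absurd hs (by decide)
  refine ⟨u, r u, v, r v, ⟨Ne.symm hu, hv1.symm, ?_, hv2.symm, ?_, Ne.symm hv3⟩, rfl, hr u, rfl, hr v⟩
  · intro h2
    exact hv2 (by rw [h2, hr])
  · intro h2
    exact hv1 (r.injective h2).symm

theorem ct3 {r : Perm α} (h : r * r = 1) {x y : α} (hx : r x ≠ x) (hy : r y = y) :
    (r * swap x (r x)) * (r * swap x (r x)) = 1 ∧ (r * swap x (r x)).support.card + 2 = r.support.card ∧
    cycleType (r * swap x y) = 3 ::ₘ cycleType (r * swap x (r x)) := by
  have hr : ∀ x, r (r x) = x := fun x => by rw [← mul_apply, h]; rfl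
  have hc := swap_comm_of_fix (a := x) (b := r x) (σ := r) rfl (hr x)
  have hyx : y ≠ x := by rintro rfl; exact hx hy
  have hyx' : y ≠ r x := by
    intro h1
    exact hx (by rw [← h1, ← hy, h1, hr])
  set r1 := r * swap x (r x) with hr1
  have e1 : r1 x = x := by rw [hr1, mul_apply, swap_apply_left, hr]
  have e2 : r1 (r x) = r x := by rw [hr1, mul_apply, swap_apply_right]
  have e3 : r1 y = y := by rw [hr1, mul_apply, swap_apply_of_ne_of_ne hyx hyx', hy]
  have e4 : r = r1 * swap x (r x) := by rw [hr1, mul_assoc, swap_mul_self, mul_one]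
  have hsq : r1 * r1 = 1 := by
    calc r1 * r1 = r * (swap x (r x) * r) * swap x (r x) := by rw [hr1]; group
      _ = r * (r * swap x (r x)) * swap x (r x) := by rw [hc]
      _ = (r * r) * (swap x (r x) * swap x (r x)) := by group
      _ = 1 := by rw [h, swap_mul_self, mul_one]
  refine ⟨hsq, ?_, ?_⟩
  · have hd : Disjoint r1 (swap x (r x)) := by
      intro w
      by_cases h1 : w = x
      · left; rw [h1, e1]
      by_cases h2 : w = r x
      · left; rw [h2, e2]
      right; exact swap_apply_of_ne_of_ne h1 h2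
    conv_rhs => rw [e4]
    rw [hd.card_support_mul, card_support_swap (Ne.symm hx)]
  · have h3 : IsThreeCycle (swap x (r x) * swap x y) := isThreeCycle_swap_mul_swap_same (Ne.symm hx) hyx.symm hyx'.symm
    have hd : Disjoint r1 (swap x (r x) * swap x y) := by
      intro w
      by_cases h1 : w = x
      · left; rw [h1, e1]
      by_cases h2 : w = r x
      · left; rw [h2, e2]
      by_cases h4 : w = y
      · left; rw [h4, e3]
      right
      rw [mul_apply, swap_apply_of_ne_of_ne h1 h4, swap_apply_of_ne_of_ne h1 h2]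
    have e5 : r * swap x y = r1 * (swap x (r x) * swap x y) := by rw [← mul_assoc, ← e4]
    rw [e5, hd.cycleType_mul, h3.cycleType]
    rw [add_comm]; rfl

theorem exists_two_outside (hα : 5 ≤ Fintype.card α) (a b c : α) :
    ∃ w1 w2 : α, w1 ≠ w2 ∧ (w1 ≠ a ∧ w1 ≠ b ∧ w1 ≠ c) ∧ (w2 ≠ a ∧ w2 ≠ b ∧ w2 ≠ c) := by
  have h1 : 1 < (({a, b, c} : Finset α)ᶜ).card := by
    rw [Finset.card_compl]
    have := Finset.card_le_three (a := a) (b := b) (c := c)
    omega
  obtain ⟨w1, h1, w2, h2, h3⟩ := Finset.one_lt_card.1 h1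
  simp only [Finset.mem_compl, Finset.mem_insert, Finset.mem_singleton, not_or] at h1 h2
  exact ⟨w1, w2, h3, h1, h2⟩

theorem dt_spec {u u' v v' : α} (h : D4 u u' v v') :
    (swap u u' * swap v v') u = u' ∧ (swap u u' * swap v v') u' = u ∧ (swap u u' * swap v v') v = v' ∧
      (swap u u' * swap v v') v' = v := by
  obtain ⟨h1, h2, h3, h4, h5, h6⟩ := h
  refine ⟨?_, ?_, ?_, ?_⟩
  · rw [mul_apply, swap_apply_of_ne_of_ne h2 h3, swap_apply_left]
  · rw [mul_apply, swap_apply_of_ne_of_ne h4 h5, swap_apply_right]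
  · rw [mul_apply, swap_apply_left, swap_apply_of_ne_of_ne h3.symm h5.symm]
  · rw [mul_apply, swap_apply_right, swap_apply_of_ne_of_ne h2.symm h4.symm]

theorem main (hα : 5 ≤ Fintype.card α) (σ : Perm α) (hσ : sign σ = 1) :
    ∃ A C : Perm α, sign A = 1 ∧ σ = A * C ∧ cycleType A = cycleType C ∧ ∃ u u' v v', D4 u u' v v' ∧
      A u = u' ∧ A u' = u ∧ A v = v' ∧ A v' = v := by
  by_cases h1 : σ = 1
  · obtain ⟨f⟩ : Nonempty (Fin 5 ↪ α) := Function.Embedding.nonempty_of_card_le (by simpa using hα)
    have hD : D4 (f 0) (f 1) (f 2) (f 3) := by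
      refine ⟨?_, ?_, ?_, ?_, ?_, ?_⟩ <;> exact fun h => absurd (f.injective h) (by decide)
    refine ⟨swap (f 0) (f 1) * swap (f 2) (f 3), swap (f 0) (f 1) * swap (f 2) (f 3), ?_, ?_, rfl, _, _, _, _, hD, dt_spec hD⟩
    · rw [map_mul, sign_swap hD.1, sign_swap hD.2.2.2.2.2]; rfl
    · rw [h1]
      have := (disjoint_swap_swap hD.nodup).commute.eq
      symm
      calc (swap (f 0) (f 1) * swap (f 2) (f 3)) * (swap (f 0) (f 1) * swap (f 2) (f 3))
          = (swap (f 0) (f 1) * swap (f 2) (f 3)) * (swap (f 2) (f 3) * swap (f 0) (f 1)) := by rw [← this]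
        _ = swap (f 0) (f 1) * (swap (f 2) (f 3) * swap (f 2) (f 3)) * swap (f 0) (f 1) := by group
        _ = 1 := by rw [swap_mul_self, mul_one, swap_mul_self]
  obtain ⟨r, r', hF, hw⟩ := exists_fac σ
  rw [if_pos hσ] at hF
  obtain ⟨x, hx', hx⟩ := hw h1
  have hcard : r.support.card = r'.support.card := by have := hF.card; omega
  have hr : ∀ x, r (r x) = x := fun x => by rw [← mul_apply, hF.sq]; rfl
  have hr' : ∀ x, r' (r' x) = x := fun x => by rw [← mul_apply, hF.sq']; rfl
  rcases Int.units_eq_one_or (sign r) with hs | hs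
  · obtain ⟨u, u', v, v', hD⟩ := two_cycles hF.sq (fun h => hx (by rw [h]; rfl)) hs
    exact ⟨r, r', hs, hF.eq, ct_eq hF.sq hF.sq' hcard, u, u', v, v', hD⟩
  obtain ⟨y, hy', hy⟩ : ∃ y, r' y ≠ y ∧ r y = y := by
    by_contra hc
    push Not at hc
    have hsub : r'.support ⊆ r.support := fun w hw => mem_support.2 (hc w (mem_support.1 hw))
    have := Finset.eq_of_subset_of_card_le hsub hcard.le
    exact (mem_support.1 (this ▸ mem_support.2 hx : x ∈ r'.support)) hx'
  obtain ⟨a1, a2, a3⟩ := ct3 hF.sq hx hy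
  obtain ⟨b1, b2, b3⟩ := ct3 hF.sq' hy' hx'
  have hyx : y ≠ x := by rintro rfl; exact hx hy
  have hyx' : y ≠ r x := by
    intro h1
    exact hx (by rw [← h1, ← hy, h1, hr])
  by_cases hc : r * swap x (r x) = 1
  · -- both are transpositions
    have hrs : r = swap x (r x) := by
      rw [mul_eq_one_iff_eq_inv, swap_inv] at hc
      exact hc
    have hc' : r' * swap y (r' y) = 1 := by
      rw [← support_eq_empty_iff, ← Finset.card_eq_zero]
      rw [hc, support_one, Finset.card_empty] at a2
      omega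
    have hrs' : r' = swap y (r' y) := by
      rw [mul_eq_one_iff_eq_inv, swap_inv] at hc'
      exact hc'
    have hxy' : r' y ≠ x := by
      intro h2
      apply hyx
      rw [← hr' y, h2, hx']
    obtain ⟨x', hx1⟩ : ∃ x', x' = r x := ⟨_, rfl⟩
    obtain ⟨y', hy1⟩ : ∃ y', y' = r' y := ⟨_, rfl⟩
    rw [← hx1] at hrs hyx' hx
    rw [← hy1] at hrs' hxy' hy'
    by_cases hxy : y' = x'
    · obtain ⟨w1, w2, hw, ⟨p1, p2, p3⟩, q1, q2, q3⟩ := exists_two_outside hα x x' y
      have hD : D4 x x' w1 w2 := ⟨Ne.symm hx, p1.symm, q1.symm, p2.symm, q2.symm, hw⟩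
      have hD' : D4 w1 w2 y y' := ⟨hw, p3, by rw [hxy]; exact p2, q3, by rw [hxy]; exact q2, Ne.symm hy'⟩
      refine ⟨swap x x' * swap w1 w2, swap w1 w2 * swap y y', ?_, ?_, ?_, _, _, _, _, hD, dt_spec hD⟩
      · rw [map_mul, sign_swap hD.1, sign_swap hw]; rfl
      · rw [hF.eq, hrs, hrs']
        calc swap x x' * swap y y' = swap x x' * (swap w1 w2 * swap w1 w2) * swap y y' := by rw [swap_mul_self, mul_one]
          _ = _ := by group
      · rw [cycleType_swap_mul_swap_of_nodup hD.nodup, cycleType_swap_mul_swap_of_nodup hD'.nodup]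
    · have hD : D4 x y y' x' := ⟨hyx.symm, hxy'.symm, Ne.symm hx, Ne.symm hy', hyx', hxy⟩
      have hD' : D4 x y' y x' := ⟨hxy'.symm, hyx.symm, Ne.symm hx, hy', hxy, hyx'⟩
      refine ⟨swap x y * swap y' x', swap x y' * swap y x', ?_, ?_, ?_, _, _, _, _, hD, dt_spec hD⟩
      · rw [map_mul, sign_swap hD.1, sign_swap hxy]; rfl
      · rw [hF.eq, hrs, hrs', dt_mul hD]
      · rw [cycleType_swap_mul_swap_of_nodup hD.nodup, cycleType_swap_mul_swap_of_nodup hD'.nodup]
  · have hs1 : sign (r * swap x (r x)) = 1 := by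
      rw [map_mul, hs, sign_swap (Ne.symm hx)]; rfl
    obtain ⟨u, u', v, v', hD, k1, k2, k3, k4⟩ := two_cycles a1 hc hs1
    have key : ∀ w w', (r * swap x (r x)) w = w' → w' ≠ w → (r * swap x y) w = w' := by
      intro w w' h2 h3
      have hwx : w ≠ x := by
        rintro rfl
        rw [mul_apply, swap_apply_left, hr] at h2
        exact h3 h2.symm
      have hwx' : w ≠ r x := by
        intro h4
        rw [h4, mul_apply, swap_apply_right, ← h4] at h2
        exact h3 h2.symm
      have hwy : w ≠ y := by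
        rintro rfl
        rw [mul_apply, swap_apply_of_ne_of_ne hwx hwx', hy] at h2
        exact h3 h2.symm
      rw [mul_apply, swap_apply_of_ne_of_ne hwx hwx'] at h2
      rw [mul_apply, swap_apply_of_ne_of_ne hwx hwy, h2]
    obtain ⟨n1, n2, n3, n4, n5, n6⟩ := id hD
    refine ⟨r * swap x y, swap x y * r', ?_, ?_, ?_, u, u', v, v', hD, key _ _ k1 n1.symm, key _ _ k2 n1,
      key _ _ k3 n6.symm, key _ _ k4 n6⟩
    · rw [map_mul, hs, sign_swap hyx.symm]; rfl
    · rw [hF.eq]
      calc r * r' = r * (swap x y * swap x y) * r' := by rw [swap_mul_self, mul_one]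
        _ = _ := by group
    · have e1 : swap x y * r' = (r' * swap y x)⁻¹ := by
        rw [mul_inv_rev, swap_inv, swap_comm, inv_eq_of_mul_eq_one_left hF.sq']
      rw [e1, cycleType_inv, a3, b3, ct_eq a1 b1 (by omega)]

end H46.DcB
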