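import Cfsg.Agent.Lib.H46.DcA

/-!
The double cover of the alternating group: the hypotheses of `Cov` from the frozen hypotheses.
-/

set_option autoImplicit false

namespace H46.DcC
open Cfsg Equiv Equiv.Perm H19.Carm H19.AltMult H46.DcA

theorem ep_mul {m i j : ℕ} (hi : i < m) (hj : j < m) :
    ep m i * ep m j = swap 0 ⟨i + 2, by omega⟩ * swap 1 ⟨j + 2, by omega⟩ := by
  rw [ep_eq hi, ep_eq hj]
  have h := Equiv.swap_apply_apply (swap (0 : Fin (m + 2)) 1) 1 ⟨i + 2, by omega⟩
  rw [swap_apply_right, swap_apply_of_ne_of_ne (ne_zero' hi).symm (ne_one' hi).symm, swap_inv] at h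
  rw [h]; group

theorem mkCov {G : Type*} [Group G] {m : ℕ} (hm : 3 ≤ m) (π : G →* alternatingGroup (Fin (m + 2)))
    (hπ : IsStemExtension π) (hk : Nat.card π.ker = 2) :
    ∃ z : G, Cov ((alternatingGroup (Fin (m + 2))).subtype.comp π) z := by
  obtain ⟨⟨z, hzk⟩, hz1, hzu⟩ := (Nat.card_eq_two_iff' (1 : π.ker)).1 hk
  have hz1 : z ≠ 1 := fun h => hz1 (Subtype.ext h)
  have hker : ∀ g, π g = 1 → g = 1 ∨ g = z := by
    intro g hg
    by_cases h1 : g = 1
    · exact Or.inl h1
    · right
      have := hzu ⟨g, hg⟩ (fun h => h1 (congrArg Subtype.val h))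
      exact congrArg Subtype.val this
  have hpz : π z = 1 := hzk
  have hcen : ∀ g, g * z = z * g := fun g => (mul_comm_of_ker hπ hpz g).symm
  have hsq : z * z = 1 := by
    rcases hker (z * z) (by rw [map_mul, hpz, one_mul]) with h | h
    · exact h
    · exact absurd (mul_eq_left.1 h) hz1
  have hcoe : ∀ g, ((alternatingGroup (Fin (m + 2))).subtype.comp π) g = (π g : Perm (Fin (m + 2))) := fun g => rfl
  refine ⟨z, hz1, hsq, hcen, ?_, ?_, ?_, ?_⟩
  · intro g hg
    apply hker
    rw [hcoe] at hg
    exact Subtype.ext hg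
  · intro g
    rw [hcoe]
    exact mem_alternatingGroup.1 (π g).2
  · intro σ hσ
    obtain ⟨g, hg⟩ := hπ.1 ⟨σ, mem_alternatingGroup.2 hσ⟩
    exact ⟨g, by rw [hcoe, hg]⟩
  · intro a b c d hD x hx
    rw [hcoe] at hx
    have hsw : ∀ {a b c d : Fin (m + 2)}, D4 a b c d → (swap a b * swap c d) * (swap a b * swap c d) = 1 := by
      intro a b c d hD
      have := (disjoint_swap_swap hD.nodup).commute.eq
      calc (swap a b * swap c d) * (swap a b * swap c d) = (swap a b * swap c d) * (swap c d * swap a b) := by rw [← this]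
        _ = swap a b * (swap c d * swap c d) * swap a b := by group
        _ = 1 := by rw [swap_mul_self, mul_one, swap_mul_self]
    rcases hker (x * x) (by
      apply Subtype.ext
      rw [map_mul, Subgroup.coe_mul, hx, hsw hD]; rfl) with h | h
    · exfalso
      -- all lifts of double transpositions are involutions
      have hall : ∀ {a' b' c' d' : Fin (m + 2)}, D4 a' b' c' d' → ∀ y, (π y : Perm (Fin (m + 2))) = swap a' b' * swap c' d' → y * y = 1 := by
        intro a' b' c' d' hD' y hy
        obtain ⟨f, hf, hfe⟩ := conj_even (σ := swap a b * swap c d) (τ := swap a' b' * swap c' d') (s := swap a b)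
          (by rw [cycleType_swap_mul_swap_of_nodup hD.nodup, cycleType_swap_mul_swap_of_nodup hD'.nodup])
          (by rw [mul_assoc, (disjoint_swap_swap hD.nodup).commute.eq]) (sign_swap hD.1)
        obtain ⟨k, hk⟩ := hπ.1 ⟨f, mem_alternatingGroup.2 hf⟩
        have h1 : π ((k * x * k⁻¹)⁻¹ * y) = 1 := by
          apply Subtype.ext
          simp only [map_mul, map_inv, Subgroup.coe_mul, Subgroup.coe_inv, hk, hx, hy]
          rw [← hfe]
          show (f * (swap a b * swap c d) * f⁻¹)⁻¹ * (f * (swap a b * swap c d) * f⁻¹) = 1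
          exact inv_mul_cancel _
        rcases hker _ h1 with h2 | h2
        · rw [← inv_mul_eq_one.1 h2]
          calc (k * x * k⁻¹) * (k * x * k⁻¹) = k * (x * x) * k⁻¹ := by group
            _ = 1 := by rw [h]; group
        · rw [inv_mul_eq_iff_eq_mul] at h2
          rw [h2]
          calc k * x * k⁻¹ * z * (k * x * k⁻¹ * z) = k * x * k⁻¹ * (z * (k * x * k⁻¹)) * z := by group
            _ = k * x * k⁻¹ * ((k * x * k⁻¹) * z) * z := by rw [hcen (k * x * k⁻¹)]
            _ = k * (x * x) * k⁻¹ * (z * z) := by group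
            _ = 1 := by rw [h, hsq]; group
      have hl : ∀ i, ∃ y : G, π y = ea m i ∧ y ^ 3 = 1 := by
        intro i
        obtain ⟨y, hy⟩ := hπ.1 (ea m i)
        have h3 : π (y ^ 3) = 1 := by
          rw [map_pow, hy]
          apply Subtype.ext
          exact ep_cube m i
        rcases hker _ h3 with h4 | h4
        · exact ⟨y, hy, h4⟩
        · refine ⟨y * z, by rw [map_mul, hpz, mul_one, hy], ?_⟩
          have hc : Commute y z := hcen y
          rw [hc.mul_pow, h4, pow_three, hsq, mul_one, hsq]
      choose y hy hy3 using hl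
      have hb : π.ker ≤ ⊥ := by
        refine ker_le_of_lifts hπ ⊥ bot_le y (fun i _ => hy i) (fun i _ => ?_) (fun i hi j hj hij => ?_)
        · rw [hy3 i]; exact Subgroup.one_mem _
        · rw [Subgroup.mem_bot, sq]
          refine hall (a' := 0) (b' := ⟨i + 2, by omega⟩) (c' := 1) (d' := ⟨j + 2, by omega⟩) ?_ _ ?_
          · refine ⟨ne_zero' hi, zero_ne_one' m, ne_zero' hj, (ne_one' hi).symm, ?_, ne_one' hj⟩
            intro h5
            apply hij
            have := congrArg Fin.val h5
            simp at this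
            exact this
          · rw [map_mul, hy, hy, Subgroup.coe_mul]
            exact ep_mul hi hj
      exact hz1 (by simpa using hb hzk)
    · exact h

end H46.DcC
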