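import Mathlib
import Cfsg.Agent.Lib.H17.SpecMain
import Cfsg.Agent.Lib.H17.SpecCount

/-! The spinor characters on isometries of symmetric bilinear spaces. -/

set_option autoImplicit false

namespace H46.ThetaSp

open Module QuadraticMap H17.OrthAbs H17.OrthTheta H17.OrthOmega H46.SForm H46.SForm.SForm H46.ProdUnit H17.SpecPO

section Basic
variable {F : Type*} [Field F] {V : Type*} [AddCommGroup V] [Module F V] [Finite V]

open Classical in
/-- the sign of an isometry on the vectors of norm `c` -/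
noncomputable def th (f : SForm F V (RingHom.id F)) (c : F) (u : (Module.End F V)ˣ) : ℤˣ :=
  if h : f.Isom u then theta (Qof f) c (toO f u h) else 1

theorem th_of {f : SForm F V (RingHom.id F)} (c : F) {u : (Module.End F V)ˣ} (h : f.Isom u) : th f c u = theta (Qof f) c (toO f u h) := dif_pos h

theorem toO_mul {f : SForm F V (RingHom.id F)} {u w : (Module.End F V)ˣ} (hu : f.Isom u) (hw : f.Isom w) : toO f (u * w) (hu.mul hw) = toO f u hu * toO f w hw := by
  apply ev_injective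
  rw [ev_toO, map_mul, ev_toO, ev_toO]

theorem th_mul {f : SForm F V (RingHom.id F)} (c : F) {u w : (Module.End F V)ˣ} (hu : f.Isom u) (hw : f.Isom w) : th f c (u * w) = th f c u * th f c w := by
  rw [th_of c hu, th_of c hw, th_of c (hu.mul hw), toO_mul hu hw, map_mul]

theorem th_one {f : SForm F V (RingHom.id F)} (c : F) : th f c 1 = 1 := by
  have h := th_mul (f := f) c (u := 1) (w := 1) Isom.one Isom.one
  rw [mul_one] at h
  exact (mul_eq_left.mp h.symm)

theorem th_pow {f : SForm F V (RingHom.id F)} (c : F) {u : (Module.End F V)ˣ} (hu : f.Isom u) (k : ℕ) : th f c (u ^ k) = th f c u ^ k := by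
  induction k with
  | zero => rw [pow_zero, pow_zero, th_one]
  | succ k ih => rw [pow_succ, th_mul c (hu.pow k) hu, ih, pow_succ]

theorem th_odd {f : SForm F V (RingHom.id F)} (c : F) {u : (Module.End F V)ˣ} (hu : f.Isom u) {N : ℕ} (hN : Odd N) (huN : u ^ N = 1) : th f c u = 1 := by
  have h := th_pow c hu N
  rw [huN, th_one] at h
  rcases Int.units_eq_one_or (th f c u) with h1 | h1
  · exact h1
  · rw [h1, hN.neg_one_pow] at h
    exact absurd h (by decide)

theorem th_sq {f : SForm F V (RingHom.id F)} (c : F) {u : (Module.End F V)ˣ} (hu : f.Isom u) : th f c (u ^ 2) = 1 := by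
  rw [th_pow c hu, pow_two, Int.units_mul_self]

theorem mem_iff [Finite F] [FiniteDimensional F V] (h2 : (2 : F) ≠ 0) {f : SForm F V (RingHom.id F)} (hs : f.Sym 1) (hnd : f.ND)
    (hd : 2 ≤ finrank F V) {u : (Module.End F V)ˣ} (hu : f.Isom u) : u ∈ Om f ↔ ∀ c : F, c ≠ 0 → th f c u = 1 := by
  constructor
  · intro h c _
    rw [th_of c hu]
    exact theta_eq_one h2 hs h c
  · intro h
    have hQ := H7.OmegaIso.ND.nondegenerate (nd_Qof h2 hs hnd)
    rw [mem_Om_iff hu]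
    obtain ⟨R, -⟩ := H17.OrthOmega.exists_reps (F := F) h2 1 one_ne_zero
    rw [H17.OrthOmega.mem_commutator_iff h2 _ R hQ hd, ← th_of _ hu, ← th_of _ hu]
    exact ⟨h _ R.h₁, h _ R.h₂⟩

/-- transport -/
theorem th_tr {V' : Type*} [AddCommGroup V'] [Module F V'] [Finite V'] {f : SForm F V (RingHom.id F)} {f' : SForm F V' (RingHom.id F)} (e : V ≃ₗ[F] V')
    (he : ∀ v w, f'.B (e v) (e w) = f.B v w) {u : (Module.End F V)ˣ} {u' : (Module.End F V')ˣ} (hu : f.Isom u)
    (h : ∀ v, (u' : Module.End F V') (e v) = e ((u : Module.End F V) v)) (c : F) : f'.Isom u' ∧ th f' c u' = th f c u := by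
  classical
  have hu' : f'.Isom u' := by
    intro v w
    obtain ⟨v, rfl⟩ := e.surjective v
    obtain ⟨w, rfl⟩ := e.surjective w
    rw [h, h, he, he, hu]
  refine ⟨hu', ?_⟩
  rw [th_of c hu, th_of c hu']
  letI := Fintype.ofFinite {x : V // Qof f x = c}
  letI := Fintype.ofFinite {x : V' // Qof f' x = c}
  have h1 : theta (Qof f) c (toO f u hu) = Equiv.Perm.sign (permX (Qof f) c (toO f u hu)) := by
    unfold theta
    rfl
  have h2 : theta (Qof f') c (toO f' u' hu') = Equiv.Perm.sign (permX (Qof f') c (toO f' u' hu')) := by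
    unfold theta
    rfl
  rw [h1, h2]
  symm
  refine Equiv.Perm.sign_eq_sign_of_equiv _ _ (e.toEquiv.subtypeEquiv fun v => ?_) ?_
  · show f.B v v = c ↔ f'.B (e v) (e v) = c
    rw [he]
  · rintro ⟨x, hx⟩
    apply Subtype.ext
    show e ((u : Module.End F V) x) = (u' : Module.End F V') (e x)
    rw [h]

end Basic

section Prod
variable {F : Type*} [Field F] [Finite F] {V₁ V₂ : Type*} [AddCommGroup V₁] [Module F V₁] [AddCommGroup V₂] [Module F V₂]
  [FiniteDimensional F V₁] [FiniteDimensional F V₂] [Finite V₁] [Finite V₂]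

theorem th_left (h2 : (2 : F) ≠ 0) {f₁ : SForm F V₁ (RingHom.id F)} {f₂ : SForm F V₂ (RingHom.id F)} (hs₁ : f₁.Sym 1) (hs₂ : f₂.Sym 1) (hn₁ : f₁.ND) (hn₂ : f₂.ND)
    {c : F} (hc : c ≠ 0) {u : (Module.End F V₁)ˣ} (hu : f₁.Isom u) : th (f₁.prod f₂) c (prodUnit u 1) = th f₁ c u := by
  classical
  letI := Fintype.ofFinite F
  have hQ := H7.OmegaIso.ND.nondegenerate (nd_Qof h2 hs₁ hn₁)
  have hsp := sym_prod hs₁ hs₂
  have hcl := closure_rf (V := V₁) (Or.inl (fun h => by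
    have : (2 : F) = 0 := by
      have h3 := FiniteField.cast_card_eq_zero F
      rw [h] at h3
      exact_mod_cast h3
    exact h2 this)) (Qof f₁) hQ
  have key : ∀ g : ↥(O (Qof f₁)), theta (Qof (f₁.prod f₂)) c (extO f₁ f₂ g) = theta (Qof f₁) c g := by
    intro g
    have hg : g ∈ Subgroup.closure {g : ↥(O (Qof f₁)) | ∃ (v : V₁) (hv : Qof f₁ v ≠ 0), g = rf (Qof f₁) v hv} := by rw [hcl]; trivial
    induction hg using Subgroup.closure_induction with
    | mem x hx =>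
      obtain ⟨v, hv, rfl⟩ := hx
      have hv' : Qof (f₁.prod f₂) (v, 0) ≠ 0 := by
        rw [Qof_apply]
        change f₁.B v v + f₂.B 0 0 ≠ 0
        rw [f₂.zero_left, add_zero]
        exact hv
      have hval : Qof (f₁.prod f₂) (v, 0) = Qof f₁ v := by
        rw [Qof_apply]
        change f₁.B v v + f₂.B 0 0 = _
        rw [f₂.zero_left, add_zero, Qof_apply]
      have h1 : extO f₁ f₂ (rf (Qof f₁) v hv) = rf (Qof (f₁.prod f₂)) (v, 0) hv' := by
        apply Subtype.ext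
        apply LinearEquiv.ext
        rintro ⟨x, y⟩
        change (refl (Qof f₁) v hv x, y) = refl (Qof (f₁.prod f₂)) (v, 0) hv' (x, y)
        rw [refl_apply, refl_apply, polar_Qof hs₁, polar_Qof hsp, hval]
        have h3 : (f₁.prod f₂).B (v, 0) (x, y) = f₁.B v x := by
          change f₁.B v x + f₂.B 0 y = _
          rw [f₂.zero_left, add_zero]
        rw [h3]
        ext
        · rfl
        · change y = y - _ • (0 : V₂)
          rw [smul_zero, sub_zero]
      rw [h1]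
      by_cases h : ∃ t : F, t ≠ 0 ∧ Qof f₁ v = c * t ^ 2
      · rw [theta_of_class h2 _ _ hv' c hc (by rw [hval]; exact h), theta_of_class h2 _ _ hv c hc h]
      · rw [theta_of_not_class h2 _ _ hv' c hc (by rw [hval]; exact h), theta_of_not_class h2 _ _ hv c hc h]
    | one => rw [map_one, map_one, map_one]
    | mul x y _ _ hx hy => rw [map_mul, map_mul, map_mul, hx, hy]
    | inv x _ hx => rw [map_inv, map_inv, map_inv, hx]
  have hu' : (f₁.prod f₂).Isom (prodUnit u 1) := hu.prod Isom.one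
  rw [th_of c hu', th_of c hu, ← key]
  congr 1

theorem swap_isom {f₁ : SForm F V₁ (RingHom.id F)} {f₂ : SForm F V₂ (RingHom.id F)} (v w : V₁ × V₂) :
    (f₂.prod f₁).B ((LinearEquiv.prodComm F V₁ V₂) v) ((LinearEquiv.prodComm F V₁ V₂) w) = (f₁.prod f₂).B v w := by
  change f₂.B v.2 w.2 + f₁.B v.1 w.1 = f₁.B v.1 w.1 + f₂.B v.2 w.2
  rw [add_comm]

theorem th_right (h2 : (2 : F) ≠ 0) {f₁ : SForm F V₁ (RingHom.id F)} {f₂ : SForm F V₂ (RingHom.id F)} (hs₁ : f₁.Sym 1) (hs₂ : f₂.Sym 1) (hn₁ : f₁.ND) (hn₂ : f₂.ND)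
    {c : F} (hc : c ≠ 0) {u : (Module.End F V₂)ˣ} (hu : f₂.Isom u) : th (f₁.prod f₂) c (prodUnit 1 u) = th f₂ c u := by
  rw [← th_left h2 hs₂ hs₁ hn₂ hn₁ hc hu]
  refine (th_tr (LinearEquiv.prodComm F V₂ V₁) (swap_isom (f₁ := f₂) (f₂ := f₁)) (hu.prod Isom.one) ?_ c).2
  intro v
  rfl

theorem th_prod (h2 : (2 : F) ≠ 0) {f₁ : SForm F V₁ (RingHom.id F)} {f₂ : SForm F V₂ (RingHom.id F)} (hs₁ : f₁.Sym 1) (hs₂ : f₂.Sym 1) (hn₁ : f₁.ND) (hn₂ : f₂.ND)
    {c : F} (hc : c ≠ 0) {u₁ : (Module.End F V₁)ˣ} {u₂ : (Module.End F V₂)ˣ} (hu₁ : f₁.Isom u₁) (hu₂ : f₂.Isom u₂) :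
    th (f₁.prod f₂) c (prodUnit u₁ u₂) = th f₁ c u₁ * th f₂ c u₂ := by
  have h : prodUnit u₁ u₂ = prodUnit u₁ 1 * prodUnit 1 u₂ := by rw [prodUnit_mul, mul_one, one_mul]
  rw [h, th_mul c (hu₁.prod Isom.one) (Isom.one.prod hu₂), th_left h2 hs₁ hs₂ hn₁ hn₂ hc hu₁, th_right h2 hs₁ hs₂ hn₁ hn₂ hc hu₂]

end Prod

section Split
variable {F : Type*} [Field F] [Finite F] {V : Type*} [AddCommGroup V] [Module F V] [FiniteDimensional F V] [Finite V]

/-- splitting an isometry along an orthogonal decomposition -/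
theorem split (h2 : (2 : F) ≠ 0) {f : SForm F V (RingHom.id F)} (hs : f.Sym 1) (hn : f.ND) {W₁ W₂ : Submodule F V} (hW : IsCompl W₁ W₂)
    (horth : ∀ v ∈ W₁, ∀ w ∈ W₂, f.B v w = 0) {u : (Module.End F V)ˣ} (hu : f.Isom u)
    {u₁ : (Module.End F W₁)ˣ} {u₂ : (Module.End F W₂)ˣ} (h₁ : ∀ w : W₁, (((u₁ : Module.End F W₁) w : W₁) : V) = (u : Module.End F V) w)
    (h₂ : ∀ w : W₂, (((u₂ : Module.End F W₂) w : W₂) : V) = (u : Module.End F V) w) :
    (f.pull W₁.subtype).Sym 1 ∧ (f.pull W₂.subtype).Sym 1 ∧ (f.pull W₁.subtype).ND ∧ (f.pull W₂.subtype).ND ∧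
    (f.pull W₁.subtype).Isom u₁ ∧ (f.pull W₂.subtype).Isom u₂ ∧ orderOf u = Nat.lcm (orderOf u₁) (orderOf u₂) ∧
    ∀ c : F, c ≠ 0 → th f c u = th (f.pull W₁.subtype) c u₁ * th (f.pull W₂.subtype) c u₂ := by
  have horth' : ∀ v ∈ W₂, ∀ w ∈ W₁, f.B v w = 0 := by
    intro v hv w hw
    rw [hs w v, horth w hw v hv, map_zero, mul_zero]
  have s1 : (f.pull W₁.subtype).Sym 1 := fun v w => hs _ _
  have s2 : (f.pull W₂.subtype).Sym 1 := fun v w => hs _ _
  have n1 : (f.pull W₁.subtype).ND := by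
    intro v hv
    apply Subtype.ext
    apply hn
    intro w
    obtain ⟨a, ha, b, hb, rfl⟩ := mem_sup_of_compl hW w
    rw [f.add_right, horth v v.2 b hb, add_zero]
    exact hv ⟨a, ha⟩
  have n2 : (f.pull W₂.subtype).ND := by
    intro v hv
    apply Subtype.ext
    apply hn
    intro w
    obtain ⟨a, ha, b, hb, rfl⟩ := mem_sup_of_compl hW w
    rw [f.add_right, horth' v v.2 a ha, zero_add]
    exact hv ⟨b, hb⟩
  have i1 : (f.pull W₁.subtype).Isom u₁ := by
    intro v w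
    show f.B _ _ = f.B _ _
    rw [Submodule.subtype_apply, Submodule.subtype_apply, h₁, h₁, hu]; rfl
  have i2 : (f.pull W₂.subtype).Isom u₂ := by
    intro v w
    show f.B _ _ = f.B _ _
    rw [Submodule.subtype_apply, Submodule.subtype_apply, h₂, h₂, hu]; rfl
  let e := Submodule.prodEquivOfIsCompl W₁ W₂ hW
  have he : ∀ v w : W₁ × W₂, f.B (e v) (e w) = ((f.pull W₁.subtype).prod (f.pull W₂.subtype)).B v w := by
    intro v w
    change f.B ((v.1 : V) + (v.2 : V)) ((w.1 : V) + (w.2 : V)) = f.B (v.1 : V) (w.1 : V) + f.B (v.2 : V) (w.2 : V)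
    rw [f.add_left, f.add_right, f.add_right, horth _ v.1.2 _ w.2.2, horth' _ v.2.2 _ w.1.2, add_zero, zero_add]
  have hc : ∀ v : W₁ × W₂, (u : Module.End F V) (e v) = e ((prodUnit u₁ u₂ : Module.End F (W₁ × W₂)) v) := by
    intro v
    change (u : Module.End F V) ((v.1 : V) + (v.2 : V)) = (((u₁ : Module.End F W₁) v.1 : W₁) : V) + (((u₂ : Module.End F W₂) v.2 : W₂) : V)
    rw [map_add, h₁, h₂]
  haveI : Finite W₁ := Subtype.finite
  haveI : Finite W₂ := Subtype.finite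
  refine ⟨s1, s2, n1, n2, i1, i2, ?_, ?_⟩
  · rw [← H46.Irr.orderOf_prodUnit]
    apply H46.OrthDec.orderOf_eq_of_conj e
    apply Units.ext
    apply LinearMap.ext
    intro v
    show (u : Module.End F V) v = e ((prodUnit u₁ u₂ : Module.End F (W₁ × W₂)) (e.symm v))
    rw [← hc, e.apply_symm_apply]
  · intro c hc0
    rw [← th_prod h2 s1 s2 n1 n2 hc0 i1 i2]
    exact (th_tr e he (i1.prod i2) hc c).2

/-- restrictions exist -/
theorem exists_split {W₁ W₂ : Submodule F V} {u : (Module.End F V)ˣ}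
    (h₁ : ∀ v ∈ W₁, (u : Module.End F V) v ∈ W₁) (h₂ : ∀ v ∈ W₂, (u : Module.End F V) v ∈ W₂) :
    ∃ (u₁ : (Module.End F W₁)ˣ) (u₂ : (Module.End F W₂)ˣ), (∀ w : W₁, (((u₁ : Module.End F W₁) w : W₁) : V) = (u : Module.End F V) w) ∧
      (∀ w : W₂, (((u₂ : Module.End F W₂) w : W₂) : V) = (u : Module.End F V) w) := by
  obtain ⟨u₁, -, h1⟩ := H46.OrthDec.exists_res u W₁ h₁
  obtain ⟨u₂, -, h2⟩ := H46.OrthDec.exists_res u W₂ h₂
  exact ⟨u₁, u₂, h1, h2⟩

end Split

end H46.ThetaSp
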