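import Mathlib
import Cfsg.Agent.Lib.H46.ThetaSp
import Cfsg.Agent.Lib.H46.SqForm
import Cfsg.Agent.Lib.H46.IsoCount
import Cfsg.Agent.Lib.H17.OrthNegOne

/-! Type of an even-dimensional quadratic space by its discriminant, and the number of vectors of given norm. -/

set_option autoImplicit false

namespace H46.TypeCnt

open Module QuadraticMap H46.SForm H46.SForm.SForm H46.ProdUnit H17.SpecPO H46.SqForm H46.FormSplit H46.BlockCongr H49.FormConj2 H48.QuadStd H7.HypStd H46.OrdPSp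

variable {F : Type*} [Field F]

theorem qof_polar (h2 : (2 : F) ≠ 0) {V : Type*} [AddCommGroup V] [Module F V] {f : SForm F V (RingHom.id F)} (hs : f.Sym 1) (v w : V) :
    f.B v w = (2 : F)⁻¹ * polar (⇑(Qof f)) v w := by
  rw [polar_Qof hs, inv_mul_cancel_left₀ h2]

/-- the hyperbolic form -/
noncomputable def hypF (d : ℕ) (F : Type*) [Field F] : SForm F (Fin d ⊕ Fin d → F) (RingHom.id F) where
  B v w := (2 : F)⁻¹ * polar (⇑(qPlus d F)) v w
  add_left u v w := by rw [QuadraticMap.polar_add_left, mul_add]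
  add_right u v w := by rw [QuadraticMap.polar_add_right, mul_add]
  smul_left c v w := by rw [QuadraticMap.polar_smul_left, smul_eq_mul]; ring
  smul_right c v w := by rw [QuadraticMap.polar_smul_right, smul_eq_mul, RingHom.id_apply]; ring

theorem hypF_sym (d : ℕ) : (hypF d F).Sym 1 := by
  intro v w
  rw [RingHom.id_apply, one_mul]
  exact congrArg (fun x => (2 : F)⁻¹ * x) (QuadraticMap.polar_comm _ _ _)

theorem hypF_nd (h2 : (2 : F) ≠ 0) (d : ℕ) : (hypF d F).ND := by
  intro v hv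
  apply nd_qPlus d v
  intro w
  have := hv w
  exact (mul_eq_zero.mp this).resolve_left (inv_ne_zero h2)

theorem Qof_hypF (h2 : (2 : F) ≠ 0) (d : ℕ) (v : Fin d ⊕ Fin d → F) : Qof (hypF d F) v = qPlus d F v := by
  rw [Qof_apply]
  change (2 : F)⁻¹ * polar (⇑(qPlus d F)) v v = _
  rw [QuadraticMap.polar_self, nsmul_eq_mul, Nat.cast_ofNat, inv_mul_cancel_left₀ h2]

theorem sym_toBilin {V : Type*} [AddCommGroup V] [Module F V] {f : SForm F V (RingHom.id F)} (hs : f.Sym 1) (u v : V) : toBilin f u v = toBilin f v u := by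
  have h := hs v u
  rw [RingHom.id_apply, one_mul] at h
  exact h

theorem ndb_toBilin {V : Type*} [AddCommGroup V] [Module F V] {f : SForm F V (RingHom.id F)} (hn : f.ND) : NDB (toBilin f) := fun x hx => hn x hx

theorem finrank_hyp (d : ℕ) : finrank F (Fin d ⊕ Fin d → F) = 2 * d := by
  rw [Module.finrank_fintype_fun_eq_card, Fintype.card_sum, Fintype.card_fin]; omega

theorem sq_hypF [Finite F] (h2 : (2 : F) ≠ 0) (d : ℕ) : Sq (toBilin (hypF d F)) ↔ IsSquare ((-1 : F) ^ d) := by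
  rw [sq_iff h2 (Pi.basisFun F (Fin d ⊕ Fin d)) (sym_toBilin (hypF_sym d)) (ndb_toBilin (hypF_nd h2 d))]
  have h1 : LinearMap.BilinForm.toMatrix (Pi.basisFun F (Fin d ⊕ Fin d)) (toBilin (hypF d F)) = Matrix.fromBlocks (0 : Matrix (Fin d) (Fin d) F) 1 1 (0 : Matrix (Fin d) (Fin d) F) * Matrix.fromBlocks ((2 : F)⁻¹ • 1) 0 0 ((2 : F)⁻¹ • 1) := by
    rw [Matrix.fromBlocks_multiply]
    ext i j
    rw [LinearMap.BilinForm.toMatrix_apply]
    change (2 : F)⁻¹ * polar (⇑(qPlus d F)) _ _ = _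
    rw [polar_qPlus]
    rcases i with i | i <;> rcases j with j | j
    · simp [Pi.single_apply]
    · simp [Pi.single_apply, Matrix.one_apply, eq_comm]
    · simp [Pi.single_apply, Matrix.one_apply, eq_comm]
    · simp [Pi.single_apply]
  have h3 : (Matrix.fromBlocks (0 : Matrix (Fin d) (Fin d) F) 1 1 (0 : Matrix (Fin d) (Fin d) F)).det = (-1) ^ d := by
    have h4 : Matrix.fromBlocks (1 : Matrix (Fin d) (Fin d) F) (1 : Matrix (Fin d) (Fin d) F) (0 : Matrix (Fin d) (Fin d) F) (1 : Matrix (Fin d) (Fin d) F) * Matrix.fromBlocks (0 : Matrix (Fin d) (Fin d) F) 1 1 (0 : Matrix (Fin d) (Fin d) F) = Matrix.fromBlocks 1 1 1 0 := by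
      rw [Matrix.fromBlocks_multiply]
      simp
    have h5 := congrArg Matrix.det h4
    rw [Matrix.det_mul, Matrix.det_fromBlocks_zero₂₁, Matrix.det_one, one_mul, one_mul, Matrix.det_fromBlocks_one₁₁, one_mul, zero_sub, Matrix.det_neg, Matrix.det_one, mul_one,
      Fintype.card_fin] at h5
    exact h5
  rw [h1, Matrix.det_mul, h3, Matrix.det_fromBlocks_zero₂₁, Matrix.det_smul, Matrix.det_one, mul_one, Fintype.card_fin]
  have ha : ((2 : F)⁻¹ ^ d * (2 : F)⁻¹ ^ d) ≠ 0 := mul_ne_zero (pow_ne_zero _ (inv_ne_zero h2)) (pow_ne_zero _ (inv_ne_zero h2))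
  rw [isSquare_mul_iff (pow_ne_zero _ (neg_ne_zero.mpr one_ne_zero)) ha]
  constructor
  · intro h
    exact h.mpr ⟨_, rfl⟩
  · intro h
    exact ⟨fun _ => ⟨_, rfl⟩, fun _ => h⟩

/-- plus type -/
def Pl {V : Type*} [AddCommGroup V] [Module F V] [FiniteDimensional F V] (f : SForm F V (RingHom.id F)) (d : ℕ) : Prop :=
  (Sq (toBilin f) ↔ IsSquare ((-1 : F) ^ d))

section cnt
variable [Finite F] {V : Type*} [AddCommGroup V] [Module F V] [FiniteDimensional F V] {f : SForm F V (RingHom.id F)}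

theorem pl_iff (h2 : (2 : F) ≠ 0) (hs : f.Sym 1) (hn : f.ND) {d : ℕ} (hd : finrank F V = 2 * d) : Pl f d ↔ (Qof f).Equivalent (qPlus d F) := by
  constructor
  · intro h
    let e₀ : (Fin d ⊕ Fin d → F) ≃ₗ[F] V := LinearEquiv.ofFinrankEq _ _ (by rw [finrank_hyp, hd])
    let g : LinearMap.BilinForm F V := H46.IsoCount.tp (toBilin (hypF d F)) e₀
    have hg : ∀ u v, toBilin (hypF d F) (e₀.symm u) (e₀.symm v) = g u v := fun u v => rfl
    have hgs : ∀ u v, g u v = g v u := fun u v => by rw [← hg, ← hg, sym_toBilin (hypF_sym d)]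
    have hgn : NDB g := by
      intro x hx
      have h1 : e₀.symm x = 0 := by
        apply ndb_toBilin (hypF_nd h2 d)
        intro y
        have := hx (e₀ y)
        rw [← hg, e₀.symm_apply_apply] at this
        exact this
      rw [← e₀.apply_symm_apply x, h1, map_zero]
    have hsq : Sq g ↔ Sq (toBilin f) := by
      rw [← sq_congr (f := toBilin (hypF d F)) (f' := g) e₀.symm hg, sq_hypF h2 d]
      exact Iff.symm h
    obtain ⟨y, hy⟩ := equiv_of_sq h2 hgs hgn (sym_toBilin hs) (ndb_toBilin hn) hsq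
    refine ⟨⟨y.trans e₀.symm, fun v => ?_⟩⟩
    change qPlus d F (e₀.symm (y v)) = Qof f v
    rw [← Qof_hypF h2, Qof_apply, Qof_apply]
    exact hy v v
  · rintro ⟨e⟩
    unfold Pl
    rw [← sq_hypF h2 d]
    symm
    apply sq_congr e.toLinearEquiv
    intro u v
    change (hypF d F).B (e.toLinearEquiv u) (e.toLinearEquiv v) = f.B u v
    rw [qof_polar h2 hs]
    change (2 : F)⁻¹ * polar (⇑(qPlus d F)) _ _ = _
    congr 1
    unfold polar
    rw [← map_add]
    change qPlus d F (e (u + v)) - qPlus d F (e u) - qPlus d F (e v) = _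
    rw [e.map_app, e.map_app, e.map_app]

theorem cnt_pl (h2 : (2 : F) ≠ 0) (hs : f.Sym 1) (hn : f.ND) {d : ℕ} (hd : finrank F V = 2 * (d + 1)) (h : Pl f (d + 1)) {c : F} (hc : c ≠ 0) :
    Nat.card {v : V // Qof f v = c} + Nat.card F ^ d = Nat.card F ^ (2 * d + 1) := by
  have h1 := (pl_iff h2 hs hn hd).mp h
  have h3 := cnt_congr h1 c
  rw [← H17.OrthNegOne.cnt_plus_ne d c hc, ← h3]
  rfl

theorem cnt_mi (h2 : (2 : F) ≠ 0) (hs : f.Sym 1) (hn : f.ND) {d : ℕ} (hd : finrank F V = 2 * (d + 1)) (h : ¬ Pl f (d + 1)) {c : F} (hc : c ≠ 0) :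
    Nat.card {v : V // Qof f v = c} = Nat.card F ^ (2 * d + 1) + Nat.card F ^ d := by
  rcases classify_even (d + 1) V (Qof f) (nd_Qof h2 hs hn) hd with h1 | ⟨-, z, hz, h1⟩
  · exact absurd ((pl_iff h2 hs hn hd).mpr h1) h
  · have h3 := cnt_congr h1 c
    have ha : H7.AnisoPlane.Aniso 1 z := by
      intro z₁ z₂ h0
      have hz2 : z₂ = 0 := by
        by_contra hne
        apply hz (z₁ / z₂)
        field_simp
        linear_combination h0
      subst hz2
      refine ⟨?_, rfl⟩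
      have : z₁ ^ 2 = 0 := by linear_combination h0
      exact pow_eq_zero_iff (two_ne_zero) |>.mp this
    rw [← H17.OrthNegOne.cnt_minus_ne d ha c hc]
    exact h3

end cnt

end H46.TypeCnt
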