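import Mathlib
import Cfsg.Agent.Lib.H46.TypeCnt
import Cfsg.Agent.Lib.H46.Tri

/-! Decomposition of an isometry along the fixed space of its semisimple part. -/

set_option autoImplicit false

namespace H46.DecSU

open Module QuadraticMap H17.OrthAbs H46.SForm H46.SForm.SForm H46.ProdUnit H17.SpecPO H46.TypeCnt H46.ThetaSp H17.SpecConv H46.OrdPSp

section det
variable {F : Type*} [Field F] {V : Type*} [AddCommGroup V] [Module F V] [FiniteDimensional F V]

theorem det_adj {f : SForm F V (RingHom.id F)} (hs : f.Sym 1) (hn : f.ND) {a a' : Module.End F V} (h : f.Adj a a') : LinearMap.det a = LinearMap.det a' := by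
  let b := Module.finBasis F V
  have h1 : (toBilin f).compLeft a = (toBilin f).compRight a' := by
    refine LinearMap.ext₂ fun x y => ?_
    exact h x y
  have h2 := congrArg (LinearMap.BilinForm.toMatrix b) h1
  rw [LinearMap.BilinForm.toMatrix_compLeft, LinearMap.BilinForm.toMatrix_compRight] at h2
  have h3 := congrArg Matrix.det h2
  rw [Matrix.det_mul, Matrix.det_mul, Matrix.det_transpose, mul_comm] at h3
  have h4 : (LinearMap.BilinForm.toMatrix b (toBilin f)).det ≠ 0 := H46.SqForm.det_ne_of_ndb b (sym_toBilin hs) (ndb_toBilin hn)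
  have h5 := mul_left_cancel₀ h4 h3
  rw [LinearMap.det_toMatrix, LinearMap.det_toMatrix] at h5
  exact h5

/-- determinant of a fixed point free isometry -/
theorem det_of_fpf {f : SForm F V (RingHom.id F)} (hs : f.Sym 1) (hn : f.ND) {g : (Module.End F V)ˣ} (hg : f.Isom g)
    (hfix : ∀ v, (g : Module.End F V) v = v → v = 0) : LinearMap.det (g : Module.End F V) = (-1) ^ finrank F V := by
  set g' : Module.End F V := ((g⁻¹ : (Module.End F V)ˣ) : Module.End F V) with hg'
  have hgg : g' * (g : Module.End F V) = 1 := by rw [hg', ← Units.val_mul, inv_mul_cancel]; rfl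
  have hadj : f.Adj ((g : Module.End F V) - 1) (g' - 1) := Adj.sub (f := f) (Isom.adj (f := f) hg) (Adj.one (f := f))
  have h1 : LinearMap.det ((g : Module.End F V) - 1) = LinearMap.det (g' - 1) := det_adj hs hn hadj
  have h3 : g' - 1 = (-1 : F) • (g' * ((g : Module.End F V) - 1)) := by
    rw [mul_sub, hgg, mul_one, neg_one_smul, neg_sub]
  have h0 : LinearMap.det ((g : Module.End F V) - 1) ≠ 0 := by
    intro h
    apply LinearMap.det_eq_zero_iff_ker_ne_bot.mp h
    rw [LinearMap.ker_eq_bot']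
    intro v hv
    apply hfix
    rw [LinearMap.sub_apply, Module.End.one_apply, sub_eq_zero] at hv
    exact hv
  rw [h3, LinearMap.det_smul, map_mul LinearMap.det] at h1
  have h4 : (1 : F) = (-1) ^ finrank F V * LinearMap.det g' := by
    apply mul_right_cancel₀ h0
    rw [one_mul, mul_assoc]
    exact h1
  have h5 : LinearMap.det g' * LinearMap.det (g : Module.End F V) = 1 := by
    rw [← map_mul LinearMap.det, hgg, map_one LinearMap.det]
  calc LinearMap.det (g : Module.End F V) = 1 * LinearMap.det (g : Module.End F V) := (one_mul _).symm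
    _ = (-1) ^ finrank F V * (LinearMap.det g' * LinearMap.det (g : Module.End F V)) := by rw [← mul_assoc, ← h4]
    _ = _ := by rw [h5, mul_one]

end det

/-- splitting an element of finite order -/
theorem exists_split_pow {G : Type*} [Group G] {u : G} {m P : ℕ} (hu : orderOf u = m * P) (hc : Nat.Coprime m P) :
    ∃ x y : ℕ, (u ^ x) ^ m = 1 ∧ (u ^ y) ^ P = 1 ∧ u ^ x * u ^ y = u := by
  obtain ⟨x, hx1, hx2⟩ := Nat.chineseRemainder hc 1 0
  obtain ⟨y, hy1, hy2⟩ := Nat.chineseRemainder hc 0 1
  refine ⟨x, y, ?_, ?_, ?_⟩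
  · rw [← pow_mul]
    apply orderOf_dvd_iff_pow_eq_one.mp
    rw [hu, mul_comm x m]
    exact Nat.mul_dvd_mul_left _ ((Nat.modEq_zero_iff_dvd).mp hx2)
  · rw [← pow_mul]
    apply orderOf_dvd_iff_pow_eq_one.mp
    rw [hu]
    exact Nat.mul_dvd_mul_right ((Nat.modEq_zero_iff_dvd).mp hy1) _
  · rw [← pow_add]
    nth_rewrite 2 [← pow_one u]
    rw [pow_eq_pow_iff_modEq, hu]
    apply (Nat.modEq_and_modEq_iff_modEq_mul hc).mp
    exact ⟨hx1.add hy1, hx2.add hy2⟩

section dec
variable {F : Type*} [Field F] [Finite F] (p : ℕ) [Fact p.Prime] [CharP F p] {V : Type*} [AddCommGroup V] [Module F V] [FiniteDimensional F V] [Finite V]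

/-- the data of the decomposition -/
structure Dec (f : SForm F V (RingHom.id F)) (u : (Module.End F V)ˣ) where
  m : ℕ
  k : ℕ
  i : ℕ
  j : ℕ
  W : Submodule F V
  U : Submodule F V
  uW : (Module.End F W)ˣ
  uU : (Module.End F U)ˣ
  hm : (m : F) ≠ 0
  hmp : Nat.Coprime m p
  hord : orderOf u = m * p ^ k
  hk : k = max i j
  hWU : IsCompl W U
  sW : (f.pull W.subtype).Sym 1
  sU : (f.pull U.subtype).Sym 1
  nW : (f.pull W.subtype).ND
  nU : (f.pull U.subtype).ND
  iW : (f.pull W.subtype).Isom uW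
  iU : (f.pull U.subtype).Isom uU
  oW : orderOf uW = m * p ^ i
  oU : orderOf uU = p ^ j
  hth : ∀ c : F, c ≠ 0 → th f c u = th (f.pull W.subtype) c uW * th (f.pull U.subtype) c uU
  aW : ∀ w : W, (((uW : Module.End F W) w : W) : V) = (u : Module.End F V) w
  aU : ∀ w : U, (((uU : Module.End F U) w : U) : V) = (u : Module.End F V) w
  fW : ∀ w : W, (uW : Module.End F W) w = w → w = 0
  ev : Even (finrank F W)

theorem exists_dec (h2 : (2 : F) ≠ 0) {f : SForm F V (RingHom.id F)} (hs : f.Sym 1) (hn : f.ND) {u : (Module.End F V)ˣ} (hu : f.Isom u)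
    (hdet : LinearMap.det (u : Module.End F V) = 1) : Nonempty (Dec p f u) := by
  have hp : p.Prime := Fact.out
  haveI : Finite (Module.End F V) := Finite.of_injective (fun g => (g : V → V)) DFunLike.coe_injective
  have hpos : 0 < orderOf u := orderOf_pos u
  obtain ⟨k, hk⟩ : ∃ k, k = (orderOf u).factorization p := ⟨_, rfl⟩
  obtain ⟨m, hmd⟩ : ∃ m, m = orderOf u / p ^ k := ⟨_, rfl⟩
  have hpe : p ^ k ∣ orderOf u := hk ▸ Nat.ordProj_dvd _ p
  have hN : orderOf u = m * p ^ k := by rw [hmd, Nat.div_mul_cancel hpe]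
  have htp : ¬ p ∣ m := by rw [hmd, hk]; exact Nat.not_dvd_ordCompl hp hpos.ne'
  have hmp : Nat.Coprime m p := ((Nat.Prime.coprime_iff_not_dvd hp).mpr htp).symm
  have hm0 : (m : F) ≠ 0 := by
    rw [Ne, CharP.cast_eq_zero_iff F p]
    exact htp
  have hmpos : 0 < m := Nat.pos_of_ne_zero (by rintro rfl; exact hm0 Nat.cast_zero)
  obtain ⟨x, y, hx, hy, hxy⟩ := exists_split_pow hN (Nat.Coprime.pow_right k hmp)
  set s := u ^ x with hsd
  set t := u ^ y with htd
  have hcs : Commute u s := Commute.self_pow u x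
  have hct : Commute t s := (Commute.refl u).pow_pow y x
  have hsi : f.Isom s := hu.pow x
  have hti : f.Isom t := hu.pow y
  have hWU := isCompl hm0 hx
  have horth := orth hs hsi
  obtain ⟨uW, uU, aW, aU⟩ := exists_split (com_inv hcs) (fix_inv hcs)
  obtain ⟨sW, sU, nW, nU, iW, iU, ho, hth⟩ := split h2 hs hn hWU horth hu aW aU
  -- `u` acts as `t` on the fixed space
  have hUt : ∀ w : fixS s, ∀ l : ℕ, ((((uU ^ l : (Module.End F (fixS s))ˣ) : Module.End F (fixS s)) w : fixS s) : V) = ((t ^ l : (Module.End F V)ˣ) : Module.End F V) w := by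
    intro w l
    induction l generalizing w with
    | zero => rfl
    | succ l ih =>
      rw [pow_succ, pow_succ, Units.val_mul, Units.val_mul, Module.End.mul_apply, Module.End.mul_apply, ih, aU]
      congr 1
      have h1 : (u : Module.End F V) w = (t : Module.End F V) ((s : Module.End F V) w) := by
        have h3 : u = t * s := by rw [hct.eq]; exact hxy.symm
        conv_lhs => rw [h3]
        rfl
      rw [h1, mem_fixS.mp w.2]
  have hUp : uU ^ p ^ k = 1 := by
    apply Units.ext
    apply LinearMap.ext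
    intro w
    apply Subtype.ext
    rw [hUt, hy]
    rfl
  obtain ⟨j, hjk, hj⟩ := (Nat.dvd_prime_pow hp).mp (orderOf_dvd_of_pow_eq_one hUp)
  rw [hN, hj] at ho
  have hmW : m ∣ orderOf uW := by
    have h1 : m ∣ Nat.lcm (orderOf uW) (p ^ j) := ho ▸ dvd_mul_right m _
    have h3 : m ∣ orderOf uW * p ^ j := h1.trans (Nat.lcm_dvd_mul _ _)
    exact (Nat.Coprime.pow_right j hmp).dvd_of_dvd_mul_right h3
  obtain ⟨a, ha⟩ := hmW
  have ha' : a ∣ p ^ k := by
    have h1 : orderOf uW ∣ m * p ^ k := ho ▸ Nat.dvd_lcm_left _ _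
    rw [ha] at h1
    exact Nat.dvd_of_mul_dvd_mul_left hmpos h1
  obtain ⟨i, hik, hi⟩ := (Nat.dvd_prime_pow hp).mp ha'
  rw [hi] at ha
  have hkij : k = max i j := by
    apply le_antisymm
    · by_contra hcon
      push Not at hcon
      have h1 : Nat.lcm (m * p ^ i) (p ^ j) ∣ m * p ^ (max i j) := Nat.lcm_dvd (Nat.mul_dvd_mul_left _ (pow_dvd_pow _ (le_max_left _ _)))
        ((pow_dvd_pow _ (le_max_right _ _)).trans (dvd_mul_left _ _))
      rw [← ha, ← ho] at h1
      have h3 := Nat.le_of_dvd (Nat.mul_pos hmpos (pow_pos hp.pos _)) h1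
      have h4 := Nat.le_of_mul_le_mul_left h3 hmpos
      have h5 := (Nat.pow_lt_pow_iff_right hp.one_lt).mpr hcon
      omega
    · exact max_le hik hjk
  have fW : ∀ w : comS s, (uW : Module.End F (comS s)) w = w → w = 0 := by
    intro w hw
    apply Subtype.ext
    apply fix_com hm0 hx _ w.2
    rw [mem_fixS]
    have h1 : (u : Module.End F V) w = w := by rw [← aW, hw]
    have h3 : ∀ l : ℕ, ((u ^ l : (Module.End F V)ˣ) : Module.End F V) w = w := by
      intro l
      induction l with
      | zero => rfl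
      | succ l ih => rw [pow_succ, Units.val_mul, Module.End.mul_apply, h1, ih]
    exact h3 x
  refine ⟨⟨m, k, i, j, comS s, fixS s, uW, uU, hm0, hmp, hN, hkij, hWU, sW, sU, nW, nU, iW, iU, ha, hj, hth, aW, aU, fW, ?_⟩⟩
  -- parity
  have hd1 : LinearMap.det (u : Module.End F V) = LinearMap.det (uW : Module.End F (comS s)) * LinearMap.det (uU : Module.End F (fixS s)) := by
    rw [← det_prodUnit]
    have hc : (u : Module.End F V) = (Submodule.prodEquivOfIsCompl _ _ hWU).conj (prodUnit uW uU : Module.End F (comS s × fixS s)) := by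
      apply LinearMap.ext
      intro v
      obtain ⟨v, rfl⟩ := (Submodule.prodEquivOfIsCompl _ _ hWU).surjective v
      rw [LinearEquiv.conj_apply_apply, LinearEquiv.symm_apply_apply]
      change (u : Module.End F V) ((v.1 : V) + (v.2 : V)) = (((uW : Module.End F (comS s)) v.1 : comS s) : V) + (((uU : Module.End F (fixS s)) v.2 : fixS s) : V)
      rw [map_add, aW, aU]
    rw [hc]
    exact LinearMap.det_conj (prodUnit uW uU : Module.End F (comS s × fixS s)) (Submodule.prodEquivOfIsCompl _ _ hWU)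
  have hdU : LinearMap.det (uU : Module.End F (fixS s)) = 1 := by
    have h1 : (LinearMap.det (uU : Module.End F (fixS s))) ^ p ^ k = 1 := by
      rw [← map_pow, ← Units.val_pow_eq_pow_val, hUp, Units.val_one, map_one]
    have h3 : (LinearMap.det (uU : Module.End F (fixS s)) - 1) ^ p ^ k = 0 := by
      rw [sub_pow_char_pow, h1, one_pow, sub_self]
    exact sub_eq_zero.mp (pow_eq_zero_iff (pow_pos hp.pos _).ne' |>.mp h3)
  rw [hdU, mul_one, hdet, det_of_fpf sW nW iW fW] at hd1
  by_contra hcon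
  rw [Nat.not_even_iff_odd] at hcon
  rw [hcon.neg_one_pow] at hd1
  apply h2
  have : (2 : F) = 1 + 1 := by norm_num
  rw [this]
  nth_rewrite 2 [hd1]
  ring

end dec

end H46.DecSU
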