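import Mathlib
import Cfsg.Agent.Lib.H46.Decomp
import Cfsg.Agent.Lib.H46.FieldInv
import Cfsg.Agent.Lib.H46.Irr
import Cfsg.Agent.Lib.H46.SmallDim

/-! Jordan parts, elements of `GL_2` and `GL_3` over finite fields. -/

set_option autoImplicit false

namespace H46.Dim3

open Module Polynomial H46.ProdUnit H46.ProjOrder H46.Decomp H46.OrthDec H46.SmallDim H46.FieldInv

/-- the `p'`-part and the `p`-part as powers -/
theorem exists_parts {G : Type*} [Group G] [Finite G] (p : ℕ) (hp : p.Prime) (u : G) :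
    ∃ a b t e : ℕ, ¬ p ∣ t ∧ 0 < t ∧ u ^ a * u ^ b = u ∧ (u ^ a) ^ t = 1 ∧ (u ^ b) ^ p ^ e = 1 := by
  have hN := orderOf_pos u
  set N := orderOf u with hNdef
  set e := N.factorization p with he
  set t := N / p ^ e with ht
  have hpe : p ^ e ∣ N := he ▸ Nat.ordProj_dvd N p
  have hNt : N = p ^ e * t := by rw [ht, Nat.mul_div_cancel' hpe]
  have htp : ¬ p ∣ t := by rw [ht, he]; exact Nat.not_dvd_ordCompl hp hN.ne'
  have htpos : 0 < t := Nat.pos_of_ne_zero (by intro h; rw [h] at htp; exact htp (dvd_zero p))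
  have hcop : Nat.Coprime (p ^ e) t := Nat.Coprime.pow_left e ((Nat.Prime.coprime_iff_not_dvd hp).mpr htp)
  obtain ⟨a, ha1, ha2⟩ := Nat.chineseRemainder hcop 0 1
  obtain ⟨b, hb1, hb2⟩ := Nat.chineseRemainder hcop 1 0
  refine ⟨a, b, t, e, htp, htpos, ?_, ?_, ?_⟩
  · rw [← pow_add]
    have h1 : a + b ≡ 1 [MOD N] := by
      rw [hNt]
      refine (Nat.modEq_and_modEq_iff_modEq_mul hcop).mp ⟨?_, ?_⟩
      · exact (ha1.add hb1).trans (by simp [Nat.ModEq])
      · exact (ha2.add hb2).trans (by simp [Nat.ModEq])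
    have h2 := (pow_eq_pow_iff_modEq (x := u)).mpr h1
    rw [h2, pow_one]
  · rw [← pow_mul]
    apply orderOf_dvd_iff_pow_eq_one.mp
    rw [← hNdef, hNt]
    exact Nat.mul_dvd_mul ((Nat.modEq_zero_iff_dvd).mp ha1) dvd_rfl
  · rw [← pow_mul]
    apply orderOf_dvd_iff_pow_eq_one.mp
    rw [← hNdef, hNt, mul_comm]
    exact Nat.mul_dvd_mul ((Nat.modEq_zero_iff_dvd).mp hb2) dvd_rfl |>.trans (by rw [mul_comm])

section

variable {F : Type*} [Field F] [Finite F]

theorem nilp_pow (p : ℕ) [Fact p.Prime] [CharP F p] {V : Type*} [AddCommGroup V] [Module F V] [Nontrivial V] {z : Module.End F V} {k e : ℕ}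
    (h : (z - 1) ^ k = 0) (hk : k ≤ p ^ e) : z ^ p ^ e = 1 := by
  haveI : CharP (Module.End F V) p := charP_of_injective_algebraMap (algebraMap F (Module.End F V)).injective p
  have h1 := pow_eq_zero_of_le hk h
  rw [sub_pow_char_pow_of_commute p e (Commute.one_right _), one_pow, sub_eq_zero] at h1
  exact h1

theorem scalar_of_deg_one {V : Type*} [AddCommGroup V] [Module F V] [Module.Finite F V] [Nontrivial V] {s : (Module.End F V)ˣ}
    (h : (minpoly F (s : Module.End F V)).natDegree = 1) : ∃ c : Fˣ, s = scalarUnit V c := by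
  have hm : (minpoly F (s : Module.End F V)).Monic := minpoly.monic (Algebra.IsIntegral.isIntegral _)
  have h5 := minpoly.aeval F (s : Module.End F V)
  rw [hm.eq_X_add_C h, map_add, aeval_X, aeval_C] at h5
  have h6 : (s : Module.End F V) = algebraMap F _ (-(minpoly F (s : Module.End F V)).coeff 0) := by
    rw [map_neg]; exact eq_neg_of_add_eq_zero_left h5
  have h7 : -(minpoly F (s : Module.End F V)).coeff 0 ≠ 0 := by
    intro h8
    rw [h8, map_zero] at h6
    exact s.ne_zero h6
  exact ⟨Units.mk0 _ h7, Units.ext h6⟩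

/-- main alternative -/
theorem alt (p : ℕ) [Fact p.Prime] [CharP F p] {V : Type*} [AddCommGroup V] [Module F V] [Module.Finite F V] [Nontrivial V]
    (hV : finrank F V = 1 ∨ (finrank F V).Prime) (u : (Module.End F V)ˣ) :
    (∃ V₁ V₂ : Submodule F V, IsCompl V₁ V₂ ∧ V₁ ≠ ⊥ ∧ V₂ ≠ ⊥ ∧ (∀ v ∈ V₁, (u : Module.End F V) v ∈ V₁) ∧ (∀ v ∈ V₂, (u : Module.End F V) v ∈ V₂)) ∨
    Irreducible (minpoly F (u : Module.End F V)) ∨
    ∃ (c : Fˣ) (z : (Module.End F V)ˣ), u = scalarUnit V c * z ∧ ((z : Module.End F V) - 1) ^ (finrank F V) = 0 := by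
  haveI : Finite V := Module.finite_of_finite F
  haveI : Finite (Module.End F V) := Finite.of_injective (fun f : Module.End F V => (f : V → V)) DFunLike.coe_injective
  haveI : CharP (Module.End F V) p := charP_of_injective_algebraMap (algebraMap F (Module.End F V)).injective p
  obtain ⟨a, b, t, e, htp, ht, hab, ha, hb⟩ := exists_parts p Fact.out u
  have htF : (t : F) ≠ 0 := by rw [Ne, CharP.cast_eq_zero_iff F p]; exact htp
  have hP : Squarefree (X ^ t - C 1 : F[X]) := (separable_X_pow_sub_C 1 htF one_ne_zero).squarefree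
  have hst : aeval ((u ^ a : (Module.End F V)ˣ) : Module.End F V) (X ^ t - C 1 : F[X]) = 0 := by
    have h1 : ((u ^ a : (Module.End F V)ˣ) : Module.End F V) ^ t = 1 := by
      rw [← Units.val_pow_eq_pow_val, ha]; rfl
    rw [map_sub, map_pow, aeval_X, aeval_C, map_one, h1, sub_self]
  rcases decomp_or_irreducible _ _ hP hst with h | h
  · left
    obtain ⟨V₁, V₂, h1, h2, h3, h4⟩ := h
    refine ⟨V₁, V₂, h1, h2, h3, ?_⟩
    apply h4
    rw [Units.val_pow_eq_pow_val]
    exact Commute.self_pow _ _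
  · right
    obtain ⟨k, hk0, hk, -, -, hnil⟩ := field_data _ _ rfl h
    have hdim : finrank F (AdjoinRoot (minpoly F ((u ^ a : (Module.End F V)ˣ) : Module.End F V))) = (minpoly F ((u ^ a : (Module.End F V)ˣ) : Module.End F V)).natDegree :=
      (AdjoinRoot.powerBasis h.ne_zero).finrank.trans (AdjoinRoot.powerBasis_dim h.ne_zero)
    rw [hdim] at hk
    have hz : (((u ^ b : (Module.End F V)ˣ) : Module.End F V) - 1) ^ k = 0 := by
      apply hnil
      · rw [Units.val_pow_eq_pow_val, Units.val_pow_eq_pow_val]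
        exact (Commute.refl _).pow_pow _ _
      · refine ⟨p ^ e, ?_⟩
        rw [sub_pow_char_pow_of_commute p e (Commute.one_right _), one_pow, ← Units.val_pow_eq_pow_val, hb, Units.val_one, sub_self]
    have hcases : k = 1 ∨ (minpoly F ((u ^ a : (Module.End F V)ˣ) : Module.End F V)).natDegree = 1 := by
      rcases hV with hV | hV
      · rw [hV] at hk
        exact Or.inl (Nat.eq_one_of_mul_eq_one_left hk)
      · rw [← hk] at hV
        rcases Nat.prime_mul_iff.mp hV with h5 | h5
        · exact Or.inl h5.2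
        · exact Or.inr h5.2
    rcases hcases with h5 | h5
    · left
      rw [h5, pow_one, sub_eq_zero] at hz
      have h6 : u = u ^ a := by
        conv_lhs => rw [← hab]
        rw [show u ^ b = 1 from Units.ext hz, mul_one]
      rw [h6]
      exact h
    · right
      obtain ⟨c, hc⟩ := scalar_of_deg_one h5
      refine ⟨c, u ^ b, by rw [← hc, hab], ?_⟩
      rw [h5, one_mul] at hk
      rw [← hk]
      exact hz

theorem scalar_of_finrank_one {V : Type*} [AddCommGroup V] [Module F V] [Module.Finite F V] (hV : finrank F V = 1) (u : (Module.End F V)ˣ) :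
    ∃ c : Fˣ, u = scalarUnit V c := by
  haveI : Nontrivial V := Module.nontrivial_of_finrank_pos (R := F) (by omega)
  obtain ⟨b, hb⟩ := (LinearMap.existsUnique_eq_smul_id_of_finrank_eq_one hV (u : Module.End F V)).exists
  have hb0 : b ≠ 0 := by
    rintro rfl
    rw [zero_smul] at hb
    exact u.ne_zero hb
  exact ⟨Units.mk0 b hb0, Units.ext hb⟩

/-- elements of `GL_2` -/
theorem two_cases (p : ℕ) [Fact p.Prime] [CharP F p] {V : Type*} [AddCommGroup V] [Module F V] [Module.Finite F V] (hV : finrank F V = 2)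
    (u : (Module.End F V)ˣ) :
    u ^ (Nat.card F - 1) = 1 ∨ Irreducible (minpoly F (u : Module.End F V)) ∨
    ∃ (c : Fˣ) (z : (Module.End F V)ˣ), u = scalarUnit V c * z ∧ z ^ p = 1 := by
  haveI : Nontrivial V := Module.nontrivial_of_finrank_pos (R := F) (by omega)
  rcases alt p (Or.inr (by rw [hV]; exact Nat.prime_two)) u with h | h | h
  · left
    obtain ⟨V₁, V₂, hW, hW₁, hW₂, hi₁, hi₂⟩ := h
    have h1 : 0 < finrank F V₁ := by rw [Nat.pos_iff_ne_zero, Ne, Submodule.finrank_eq_zero]; exact hW₁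
    have h2 : 0 < finrank F V₂ := by rw [Nat.pos_iff_ne_zero, Ne, Submodule.finrank_eq_zero]; exact hW₂
    have h3 := Submodule.finrank_add_eq_of_isCompl hW
    obtain ⟨u₁, u₂, hdet, hv₁, hv₂⟩ := exists_split u V₁ V₂ hW hi₁ hi₂
    obtain ⟨a, rfl⟩ := scalar_of_finrank_one (by omega) u₁
    obtain ⟨b, rfl⟩ := scalar_of_finrank_one (by omega) u₂
    have key : ∀ (W : Submodule F V) (c : Fˣ), (∀ w : W, (((scalarUnit W c : Module.End F W) w : W) : V) = (u : Module.End F V) w) →
        ∀ v ∈ W, ((u ^ (Nat.card F - 1) : (Module.End F V)ˣ) : Module.End F V) v = v := by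
      intro W c hc v hv
      rw [Units.val_pow_eq_pow_val, ← res_pow hc (Nat.card F - 1) ⟨v, hv⟩, ← Units.val_pow_eq_pow_val]
      have : (scalarUnit W c) ^ (Nat.card F - 1) = 1 := by
        unfold scalarUnit
        rw [← map_pow, ← Nat.card_units, pow_card_eq_one', map_one]
      rw [this]; rfl
    apply Units.ext
    exact eq_one_of_parts hW (key V₁ a hv₁) (key V₂ b hv₂)
  · exact Or.inr (Or.inl h)
  · right; right
    obtain ⟨c, z, hc, hz⟩ := h
    refine ⟨c, z, hc, ?_⟩
    rw [hV] at hz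
    have := nilp_pow p hz (e := 1) (by rw [pow_one]; exact (Fact.out : p.Prime).two_le)
    rw [pow_one] at this
    apply Units.ext
    rw [Units.val_pow_eq_pow_val, this]; rfl

end

end H46.Dim3
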