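import Mathlib

/-! Gauss decomposition with prescribed diagonal (Sourour's theorem): a nonscalar invertible matrix over any field is similar
to `L * diagonal a * U` with `L` lower and `U` upper unitriangular, for any nonzero `a` with `∏ a = det A`. -/

set_option autoImplicit false

namespace H46.Gauss

open Matrix Module

variable {F : Type*} [Field F]

/-- block matrix with a `1 × 1` upper left corner -/
def blk {n : ℕ} (a : F) (r c : Fin n → F) (D : Matrix (Fin n) (Fin n) F) : Matrix (Fin (n + 1)) (Fin (n + 1)) F :=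
  Matrix.of (Fin.cons (Fin.cons a r) (fun i => Fin.cons (c i) (D i)))

@[simp] theorem blk_00 {n : ℕ} (a : F) (r c : Fin n → F) (D : Matrix (Fin n) (Fin n) F) : blk a r c D 0 0 = a := rfl
@[simp] theorem blk_0s {n : ℕ} (a : F) (r c : Fin n → F) (D : Matrix (Fin n) (Fin n) F) (j : Fin n) :
    blk a r c D 0 j.succ = r j := rfl
@[simp] theorem blk_s0 {n : ℕ} (a : F) (r c : Fin n → F) (D : Matrix (Fin n) (Fin n) F) (i : Fin n) :
    blk a r c D i.succ 0 = c i := rfl
@[simp] theorem blk_ss {n : ℕ} (a : F) (r c : Fin n → F) (D : Matrix (Fin n) (Fin n) F) (i j : Fin n) :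
    blk a r c D i.succ j.succ = D i j := rfl

theorem blk_ext {n : ℕ} {M N : Matrix (Fin (n + 1)) (Fin (n + 1)) F} (h00 : M 0 0 = N 0 0)
    (h0s : ∀ j : Fin n, M 0 j.succ = N 0 j.succ) (hs0 : ∀ i : Fin n, M i.succ 0 = N i.succ 0)
    (hss : ∀ i j : Fin n, M i.succ j.succ = N i.succ j.succ) : M = N := by
  ext i j
  refine Fin.cases ?_ (fun i => ?_) i
  · refine Fin.cases h00 (fun j => h0s j) j
  · refine Fin.cases (hs0 i) (fun j => hss i j) j

theorem eq_blk {n : ℕ} (M : Matrix (Fin (n + 1)) (Fin (n + 1)) F) :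
    M = blk (M 0 0) (fun j => M 0 j.succ) (fun i => M i.succ 0) (Matrix.of fun i j => M i.succ j.succ) := by
  apply blk_ext <;> intros <;> simp

theorem blk_mul {n : ℕ} (a : F) (r c : Fin n → F) (D : Matrix (Fin n) (Fin n) F)
    (a' : F) (r' c' : Fin n → F) (D' : Matrix (Fin n) (Fin n) F) :
    blk a r c D * blk a' r' c' D' =
      blk (a * a' + r ⬝ᵥ c') (a • r' + r ᵥ* D') (a' • c + D *ᵥ c') (Matrix.vecMulVec c r' + D * D') := by
  apply blk_ext
  · rw [Matrix.mul_apply, Fin.sum_univ_succ]; simp [dotProduct]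
  · intro j
    rw [Matrix.mul_apply, Fin.sum_univ_succ]; simp [Matrix.vecMul, dotProduct]
  · intro i
    rw [Matrix.mul_apply, Fin.sum_univ_succ]; simp [Matrix.mulVec, dotProduct, mul_comm]
  · intro i j
    rw [Matrix.mul_apply, Fin.sum_univ_succ]; simp [Matrix.vecMulVec_apply, Matrix.mul_apply]

theorem blk_one {n : ℕ} : blk (1 : F) 0 0 (1 : Matrix (Fin n) (Fin n) F) = 1 := by
  apply blk_ext
  · simp
  · intro j; simp [(Fin.succ_ne_zero j).symm]
  · intro i; simp [Fin.succ_ne_zero i]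
  · intro i j; simp [Matrix.one_apply]

theorem blk_diagonal {n : ℕ} (a : F) (d : Fin n → F) : blk a 0 0 (Matrix.diagonal d) = Matrix.diagonal (Fin.cons a d) := by
  apply blk_ext
  · simp
  · intro j; simp [Matrix.diagonal_apply, (Fin.succ_ne_zero j).symm]
  · intro i; simp [Matrix.diagonal_apply, Fin.succ_ne_zero i]
  · intro i j; simp [Matrix.diagonal_apply]

theorem det_blk_lower {n : ℕ} (a : F) (c : Fin n → F) (D : Matrix (Fin n) (Fin n) F) :
    (blk a 0 c D).det = a * D.det := by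
  rw [Matrix.det_succ_row_zero, Fin.sum_univ_succ]
  simp only [blk_00, blk_0s, Pi.zero_apply, mul_zero, zero_mul, Finset.sum_const_zero, add_zero]
  simp only [Fin.val_zero, pow_zero, one_mul]
  congr 1

theorem det_blk_upper {n : ℕ} (a : F) (r : Fin n → F) (D : Matrix (Fin n) (Fin n) F) :
    (blk a r 0 D).det = a * D.det := by
  rw [Matrix.det_succ_column_zero, Fin.sum_univ_succ]
  simp only [blk_00, blk_s0, Pi.zero_apply, mul_zero, zero_mul, Finset.sum_const_zero, add_zero]
  simp only [Fin.val_zero, pow_zero, one_mul]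
  congr 1

/-- Schur complement factorisation -/
theorem blk_schur {n : ℕ} (a : F) (ha : a ≠ 0) (r c : Fin n → F) (D : Matrix (Fin n) (Fin n) F) :
    blk a r c D = blk 1 0 (a⁻¹ • c) 1 * blk a 0 0 (D - a⁻¹ • Matrix.vecMulVec c r) * blk 1 (a⁻¹ • r) 0 1 := by
  rw [blk_mul, blk_mul]
  apply blk_ext
  · simp
  · intro j
    simp [ha]
  · intro i
    simp [ha]
  · intro i j
    simp [Matrix.vecMulVec_apply]
    field_simp
    ring

theorem det_blk {n : ℕ} (a : F) (ha : a ≠ 0) (r c : Fin n → F) (D : Matrix (Fin n) (Fin n) F) :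
    (blk a r c D).det = a * (D - a⁻¹ • Matrix.vecMulVec c r).det := by
  rw [blk_schur a ha, Matrix.det_mul, Matrix.det_mul, det_blk_lower, det_blk_lower, det_blk_upper]
  simp

/-- lower unitriangular -/
def LowerUni {n : ℕ} (L : Matrix (Fin n) (Fin n) F) : Prop := (∀ i, L i i = 1) ∧ ∀ i j, i < j → L i j = 0

/-- upper unitriangular -/
def UpperUni {n : ℕ} (U : Matrix (Fin n) (Fin n) F) : Prop := (∀ i, U i i = 1) ∧ ∀ i j, j < i → U i j = 0

theorem lowerUni_blk {n : ℕ} (c : Fin n → F) (L : Matrix (Fin n) (Fin n) F) (hL : LowerUni L) : LowerUni (blk 1 0 c L) := by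
  constructor
  · intro i
    refine Fin.cases rfl (fun i => ?_) i
    simpa using hL.1 i
  · intro i j
    refine Fin.cases ?_ (fun i => ?_) i
    · refine Fin.cases (fun h => absurd h (lt_irrefl _)) (fun j _ => rfl) j
    · refine Fin.cases (fun h => absurd h (not_lt_of_gt (Fin.succ_pos i))) (fun j h => ?_) j
      exact hL.2 i j (Fin.succ_lt_succ_iff.mp h)

theorem upperUni_blk {n : ℕ} (r : Fin n → F) (U : Matrix (Fin n) (Fin n) F) (hU : UpperUni U) : UpperUni (blk 1 r 0 U) := by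
  constructor
  · intro i
    refine Fin.cases rfl (fun i => ?_) i
    simpa using hU.1 i
  · intro i j
    refine Fin.cases ?_ (fun i => ?_) i
    · intro h; exact absurd h (not_lt_of_ge (Fin.zero_le j))
    · refine Fin.cases (fun _ => rfl) (fun j h => ?_) j
      exact hU.2 i j (Fin.succ_lt_succ_iff.mp h)

/-- the key contradiction: two different functionals cannot both give scalar Schur complements -/
theorem no_two_scalar {V : Type*} [AddCommGroup V] [Module F V] (A : V →ₗ[F] V) (hinj : Function.Injective A)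
    (v : V) (hv : ∀ c : F, A v ≠ c • v) (a : F) (ha : a ≠ 0)
    (φ φ' : V →ₗ[F] F) (hne : φ ≠ φ') (h1 : φ v = 1) (h1' : φ' v = 1) (h2 : φ (A v) = a) (h2' : φ' (A v) = a)
    (z : V) (hz0 : z ≠ 0) (hz : φ z = 0) (hz' : φ' z = 0)
    (σ σ' : F) (hs : ∀ h, φ h = 0 → A h = σ • h + (a⁻¹ * φ (A h)) • A v)
    (hs' : ∀ h, φ' h = 0 → A h = σ' • h + (a⁻¹ * φ' (A h)) • A v) : False := by
  -- σ = σ'
  have e1 := hs z hz
  have e2 := hs' z hz'
  have e3 : φ (A z) = φ (A z) := rfl
  have hσ : σ = σ' := by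
    have e4 : σ • z + (a⁻¹ * φ (A z)) • A v = σ' • z + (a⁻¹ * φ' (A z)) • A v := e1.symm.trans e2
    have e5 := congrArg φ e4
    simp only [map_add, map_smul, hz, h2, smul_eq_mul, mul_zero, zero_add] at e5
    have e6 : φ (A z) = φ' (A z) := by
      have : a⁻¹ * a = 1 := inv_mul_cancel₀ ha
      calc φ (A z) = a⁻¹ * φ (A z) * a := by rw [mul_right_comm, this, one_mul]
        _ = a⁻¹ * φ' (A z) * a := e5
        _ = φ' (A z) := by rw [mul_right_comm, this, one_mul]
    rw [e6] at e4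
    have e7 := add_right_cancel e4
    exact smul_left_injective F hz0 e7
  subst hσ
  -- a vector with φ y = 0, φ' y = 1
  obtain ⟨x, hx⟩ : ∃ x, φ x ≠ φ' x := by
    by_contra hcon
    push Not at hcon
    exact hne (LinearMap.ext hcon)
  set y := x - φ x • v with hy
  have hφy : φ y = 0 := by simp [hy, h1]
  have hφ'y : φ' y ≠ 0 := by
    simp only [hy, map_sub, map_smul, h1', smul_eq_mul, mul_one]
    exact sub_ne_zero.mpr hx.symm
  set w := (φ' y)⁻¹ • y with hw
  have hφw : φ w = 0 := by simp [hw, hφy]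
  have hφ'w : φ' (v - w) = 0 := by
    simp [hw, h1', hφ'y]
  have e8 := hs w hφw
  have e9 := hs' (v - w) hφ'w
  have e10 : A v = σ • v + (a⁻¹ * φ (A w) + a⁻¹ * φ' (A (v - w))) • A v := by
    calc A v = A w + A (v - w) := by rw [← map_add]; congr 1; abel
      _ = (σ • w + (a⁻¹ * φ (A w)) • A v) + (σ • (v - w) + (a⁻¹ * φ' (A (v - w))) • A v) := by rw [← e8, ← e9]
      _ = _ := by rw [smul_sub, add_smul]; abel
  set μ := a⁻¹ * φ (A w) + a⁻¹ * φ' (A (v - w)) with hμ
  have hv0 : v ≠ 0 := by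
    rintro rfl
    simp at h1
  by_cases hμ1 : μ = 1
  · rw [hμ1, one_smul, right_eq_add] at e10
    have hσ0 : σ = 0 := by
      rcases smul_eq_zero.mp e10 with h | h
      · exact h
      · exact absurd h hv0
    have e11 := e1
    rw [hσ0, zero_smul, zero_add, ← map_smul] at e11
    have e12 := hinj e11
    have e13 := congrArg φ e12
    rw [map_smul, hz, h1, smul_eq_mul, mul_one] at e13
    rw [← e13, zero_smul] at e12
    exact hz0 e12
  · apply hv ((1 - μ)⁻¹ * σ)
    have hne' : (1 - μ) ≠ 0 := sub_ne_zero.mpr (Ne.symm hμ1)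
    rw [mul_smul, eq_inv_smul_iff₀ hne', sub_smul, one_smul, sub_eq_iff_eq_add]
    exact e10

/-- a functional with prescribed values on two independent vectors -/
theorem exists_functional {V : Type*} [AddCommGroup V] [Module F V] (v w : V) (h : LinearIndependent F ![v, w]) (α β : F) :
    ∃ φ : V →ₗ[F] F, φ v = α ∧ φ w = β := by
  rw [LinearIndependent.pair_iff] at h
  have hv : v ∉ Submodule.span F {w} := by
    intro hm
    obtain ⟨c, hc⟩ := Submodule.mem_span_singleton.mp hm
    have := h 1 (-c) (by rw [one_smul, neg_smul, hc, add_neg_cancel])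
    exact one_ne_zero this.1
  have hw : w ∉ Submodule.span F {v} := by
    intro hm
    obtain ⟨c, hc⟩ := Submodule.mem_span_singleton.mp hm
    have := h (-c) 1 (by rw [one_smul, neg_smul, hc, neg_add_cancel])
    exact one_ne_zero this.2
  obtain ⟨f, hf, hf'⟩ := Submodule.exists_le_ker_of_notMem hv
  obtain ⟨g, hg, hg'⟩ := Submodule.exists_le_ker_of_notMem hw
  have h1 : f w = 0 := hf' (Submodule.mem_span_singleton_self w)
  have h2 : g v = 0 := hg' (Submodule.mem_span_singleton_self v)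
  refine ⟨(α * (f v)⁻¹) • f + (β * (g w)⁻¹) • g, ?_, ?_⟩
  · simp [h2, hf]
  · simp [h1, hg]

/-- change of basis adapted to a vector and a functional -/
theorem exists_adapted {n : ℕ} (v : Fin (n + 1) → F) (φ : (Fin (n + 1) → F) →ₗ[F] F) (h : φ v = 1) :
    ∃ P : Matrix (Fin (n + 1)) (Fin (n + 1)) F, IsUnit P.det ∧ P *ᵥ (Pi.single 0 1) = v ∧
      ∀ x, φ (P *ᵥ x) = x 0 := by
  have hφ : Function.Surjective φ := by
    intro c
    exact ⟨c • v, by rw [map_smul, h, smul_eq_mul, mul_one]⟩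
  have hrank : finrank F (LinearMap.ker φ) = n := by
    have h1 := LinearMap.finrank_range_add_finrank_ker φ
    rw [LinearMap.range_eq_top.mpr hφ, finrank_top, finrank_self] at h1
    simp only [finrank_fintype_fun_eq_card, Fintype.card_fin] at h1
    omega
  let b := Module.finBasisOfFinrankEq F (LinearMap.ker φ) hrank
  let e : (Fin (n + 1) → F) →ₗ[F] (Fin (n + 1) → F) :=
    LinearMap.toSpanSingleton F _ v ∘ₗ LinearMap.proj 0 +
      (LinearMap.ker φ).subtype ∘ₗ (b.equivFun.symm : (Fin n → F) →ₗ[F] LinearMap.ker φ) ∘ₗ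
        LinearMap.funLeft F F Fin.succ
  have he : ∀ x, e x = x 0 • v + ((b.equivFun.symm (fun i => x i.succ) : LinearMap.ker φ) : Fin (n + 1) → F) := by
    intro x
    rfl
  have hφe : ∀ x, φ (e x) = x 0 := by
    intro x
    rw [he, map_add, map_smul, h, smul_eq_mul, mul_one]
    have : φ ((b.equivFun.symm (fun i => x i.succ) : LinearMap.ker φ) : Fin (n + 1) → F) = 0 :=
      (b.equivFun.symm (fun i => x i.succ)).2
    rw [this, add_zero]
  have hinj : Function.Injective e := by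
    rw [← LinearMap.ker_eq_bot, LinearMap.ker_eq_bot']
    intro x hx
    have h0 : x 0 = 0 := by rw [← hφe x, hx, map_zero]
    rw [he, h0, zero_smul, zero_add] at hx
    have h1 : b.equivFun.symm (fun i => x i.succ) = 0 := Subtype.ext hx
    have h2 := b.equivFun.symm.injective (h1.trans (map_zero _).symm)
    funext i
    refine Fin.cases h0 (fun i => ?_) i
    exact congrFun h2 i
  refine ⟨LinearMap.toMatrix' e, ?_, ?_, ?_⟩
  · rw [← Matrix.isUnit_iff_isUnit_det, ← Matrix.mulVec_injective_iff_isUnit]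
    intro x y hxy
    rw [LinearMap.toMatrix'_mulVec, LinearMap.toMatrix'_mulVec] at hxy
    exact hinj hxy
  · rw [LinearMap.toMatrix'_mulVec, he]
    have : (fun i : Fin n => (Pi.single (0 : Fin (n + 1)) (1 : F) : Fin (n + 1) → F) i.succ) = 0 := by
      funext i
      simp [Fin.succ_ne_zero]
    rw [this, map_zero]
    simp
  · intro x
    rw [LinearMap.toMatrix'_mulVec]
    exact hφe x

/-- the basic step: a nonscalar invertible matrix is similar to one with prescribed nonzero upper left entry and nonscalar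
Schur complement -/
theorem gauss_step (n : ℕ) (A : Matrix (Fin (n + 2)) (Fin (n + 2)) F) (hA : A.det ≠ 0)
    (hns' : ∀ c : F, A ≠ c • (1 : Matrix (Fin (n + 2)) (Fin (n + 2)) F)) (a₀ : F) (ha₀ : a₀ ≠ 0) :
    ∃ P : Matrix (Fin (n + 2)) (Fin (n + 2)) F, IsUnit P.det ∧ ∃ (r c : Fin (n + 1) → F)
      (D : Matrix (Fin (n + 1)) (Fin (n + 1)) F), A * P = P * blk a₀ r c D ∧
      a₀ * (D - a₀⁻¹ • Matrix.vecMulVec c r).det = A.det ∧
      (n = 0 ∨ ∀ σ : F, (D - a₀⁻¹ • Matrix.vecMulVec c r) ≠ σ • (1 : Matrix (Fin (n + 1)) (Fin (n + 1)) F)) := by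
  -- a vector v with A v not in F v
  obtain ⟨v, hv⟩ : ∃ v : Fin (n + 2) → F, LinearIndependent F ![v, A *ᵥ v] := by
    by_contra hcon
    push Not at hcon
    obtain ⟨c, hc⟩ := LinearMap.exists_eq_smul_id_of_forall_notLinearIndependent (f := Matrix.toLin' A)
      (fun v => by rw [Matrix.toLin'_apply]; exact hcon v)
    apply hns' c
    apply (Matrix.toLin' (R := F) (m := Fin (n+2)) (n := Fin (n+2))).injective
    rw [hc, map_smul, Matrix.toLin'_one]
    rfl
  have hv' : ∀ c : F, A *ᵥ v ≠ c • v := by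
    intro c hc
    rw [LinearIndependent.pair_iff] at hv
    have := hv c (-1) (by rw [hc]; simp)
    exact one_ne_zero (neg_eq_zero.mp this.2)
  -- a functional with nonscalar Schur complement
  obtain ⟨φ, hφ1, hφ2, hφ3⟩ : ∃ φ : (Fin (n + 2) → F) →ₗ[F] F, φ v = 1 ∧ φ (A *ᵥ v) = a₀ ∧
      (n = 0 ∨ ∀ σ : F, ¬ ∀ h, φ h = 0 → A *ᵥ h = σ • h + ((a₀)⁻¹ * φ (A *ᵥ h)) • (A *ᵥ v)) := by
    obtain ⟨φ, hφ1, hφ2⟩ := exists_functional v (A *ᵥ v) hv 1 (a₀)
    by_cases hn : n = 0
    · exact ⟨φ, hφ1, hφ2, Or.inl hn⟩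
    by_cases hbad : ∃ σ : F, ∀ h, φ h = 0 → A *ᵥ h = σ • h + ((a₀)⁻¹ * φ (A *ᵥ h)) • (A *ᵥ v)
    · obtain ⟨σ, hσ⟩ := hbad
      -- another functional
      have hlt : Submodule.span F (Set.range ![v, A *ᵥ v]) < ⊤ := by
        apply lt_top_iff_ne_top.mpr
        intro htop
        have h1 := finrank_span_eq_card hv
        rw [htop, finrank_top] at h1
        simp at h1
        omega
      obtain ⟨ψ, hψ0, hψ⟩ := Submodule.exists_le_ker_of_lt_top _ hlt
      have hψv : ψ v = 0 := hψ (Submodule.subset_span ⟨0, rfl⟩)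
      have hψAv : ψ (A *ᵥ v) = 0 := hψ (Submodule.subset_span ⟨1, rfl⟩)
      -- common kernel vector
      have hker : ∃ z : Fin (n + 2) → F, z ≠ 0 ∧ φ z = 0 ∧ ψ z = 0 := by
        have hni : ¬ Function.Injective (φ.prod ψ) := by
          intro hinj
          have := LinearMap.finrank_le_finrank_of_injective hinj
          simp at this
          omega
        rw [← LinearMap.ker_eq_bot, ← Ne, Submodule.ne_bot_iff] at hni
        obtain ⟨z, hz, hz0⟩ := hni
        rw [LinearMap.mem_ker, LinearMap.prod_apply, Prod.ext_iff] at hz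
        exact ⟨z, hz0, hz.1, hz.2⟩
      obtain ⟨z, hz0, hφz, hψz⟩ := hker
      refine ⟨φ + ψ, by simp [hφ1, hψv], by simp [hφ2, hψAv], Or.inr ?_⟩
      intro σ' hσ'
      have hinjA : Function.Injective (Matrix.toLin' A) := by
        intro x y hxy
        rw [Matrix.toLin'_apply, Matrix.toLin'_apply] at hxy
        have : IsUnit A := (Matrix.isUnit_iff_isUnit_det A).mpr (isUnit_iff_ne_zero.mpr hA)
        exact (Matrix.mulVec_injective_iff_isUnit.mpr this) hxy
      exact no_two_scalar (Matrix.toLin' A) hinjA v (by simpa using hv') (a₀) ha₀ φ (φ + ψ)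
        (by
          intro h
          apply hψ0
          exact left_eq_add.mp h)
        hφ1 (by simp [hφ1, hψv]) (by simpa using hφ2) (by simp [hφ2, hψAv]) z hz0 hφz
        (by simp [hφz, hψz]) σ σ' (by simpa using hσ) (by
          intro h hh
          simpa using hσ' h hh)
    · exact ⟨φ, hφ1, hφ2, Or.inr (fun σ h => hbad ⟨σ, h⟩)⟩
  obtain ⟨P, hP, hPv, hPφ⟩ := exists_adapted v φ hφ1
  have hPinv : P * P⁻¹ = 1 := Matrix.mul_nonsing_inv P hP
  have hPinv' : P⁻¹ * P = 1 := Matrix.nonsing_inv_mul P hP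
  set A' := P⁻¹ * A * P with hA'
  have hAP : A * P = P * A' := by
    rw [hA', ← mul_assoc, ← mul_assoc, hPinv, one_mul]
  have hAPv : ∀ x, A *ᵥ (P *ᵥ x) = P *ᵥ (A' *ᵥ x) := by
    intro x
    rw [Matrix.mulVec_mulVec, Matrix.mulVec_mulVec, hAP]
  have h00 : A' 0 0 = a₀ := by
    have h1 : (A' *ᵥ (Pi.single 0 1)) 0 = A' 0 0 := by simp
    rw [← h1, ← hPφ (A' *ᵥ (Pi.single 0 1)), ← hAPv, hPv, hφ2]
  have hdetA' : A'.det = A.det := by
    rw [hA', Matrix.det_mul, Matrix.det_mul, mul_right_comm, ← Matrix.det_mul, hPinv', Matrix.det_one, one_mul]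
  have hblk := eq_blk A'
  rw [h00] at hblk
  set r : Fin (n + 1) → F := fun j => A' 0 j.succ with hr
  set c : Fin (n + 1) → F := fun i => A' i.succ 0 with hc
  set D : Matrix (Fin (n + 1)) (Fin (n + 1)) F := Matrix.of fun i j => A' i.succ j.succ with hD
  set S := D - (a₀)⁻¹ • Matrix.vecMulVec c r with hS
  have hdetS : a₀ * S.det = A.det := by
    rw [← hdetA', hblk, det_blk (a₀) ha₀]
  have hdetS0 : S.det ≠ 0 := by
    intro h0
    rw [h0, mul_zero] at hdetS
    exact hA hdetS.symm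
  have hSns : n = 0 ∨ ∀ σ : F, S ≠ σ • (1 : Matrix (Fin (n + 1)) (Fin (n + 1)) F) := by
    rcases hφ3 with h | h
    · exact Or.inl h
    · right
      intro σ hσ
      apply h σ
      intro h hφh
      -- write h = P x
      obtain ⟨x, hPx⟩ : ∃ x, P *ᵥ x = h := ⟨P⁻¹ *ᵥ h, by rw [Matrix.mulVec_mulVec, hPinv, Matrix.one_mulVec]⟩
      have hx0 : x 0 = 0 := by rw [← hPφ x, hPx, hφh]
      have hAh : A *ᵥ h = P *ᵥ (A' *ᵥ x) := by rw [← hPx, hAPv]
      have hφAh : φ (A *ᵥ h) = r ⬝ᵥ (fun i => x i.succ) := by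
        rw [hAh, hPφ, Matrix.mulVec, dotProduct, Fin.sum_univ_succ, hx0, mul_zero, zero_add]
        rfl
      have hAv : A *ᵥ v = P *ᵥ (A' *ᵥ (Pi.single 0 1)) := by rw [← hPv, hAPv]
      have hh : σ • h = P *ᵥ (σ • x) := by rw [Matrix.mulVec_smul, hPx]
      rw [hφAh, hAv, hAh, hh, ← Matrix.mulVec_smul, ← Matrix.mulVec_add]
      congr 1
      funext i
      refine Fin.cases ?_ (fun i => ?_) i
      · simp only [Pi.add_apply, Pi.smul_apply, smul_eq_mul, hx0, mul_zero, zero_add]
        have e1 : (A' *ᵥ x) 0 = r ⬝ᵥ (fun i => x i.succ) := by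
          rw [Matrix.mulVec, dotProduct, Fin.sum_univ_succ, hx0, mul_zero, zero_add]
          rfl
        have e2 : (A' *ᵥ (Pi.single 0 1)) 0 = a₀ := by simp [h00]
        rw [e1, e2]
        field_simp [ha₀]
      · simp only [Pi.add_apply, Pi.smul_apply, smul_eq_mul]
        have e1 : (A' *ᵥ x) i.succ = (D *ᵥ (fun i => x i.succ)) i := by
          rw [Matrix.mulVec, dotProduct, Fin.sum_univ_succ, hx0, mul_zero, zero_add]
          rfl
        have e2 : (A' *ᵥ (Pi.single 0 1)) i.succ = c i := by simp [hc]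
        have e3 : D = S + (a₀)⁻¹ • Matrix.vecMulVec c r := by rw [hS]; abel
        rw [e1, e2, e3, hσ, Matrix.add_mulVec, Matrix.smul_mulVec, Matrix.one_mulVec, Matrix.smul_mulVec]
        simp only [Pi.add_apply, Pi.smul_apply, smul_eq_mul]
        congr 1
        rw [mul_assoc]
        congr 1
        rw [Matrix.vecMulVec_mulVec]
        simp [mul_comm]
  exact ⟨P, hP, r, c, D, by rw [hAP, ← hblk], hdetS, hSns⟩

theorem gauss : ∀ (n : ℕ) (A : Matrix (Fin (n + 1)) (Fin (n + 1)) F), A.det ≠ 0 →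
    (n = 0 ∨ ∀ c : F, A ≠ c • (1 : Matrix (Fin (n + 1)) (Fin (n + 1)) F)) →
    ∀ a : Fin (n + 1) → F, ∏ i, a i = A.det →
    ∃ P : Matrix (Fin (n + 1)) (Fin (n + 1)) F, IsUnit P.det ∧ ∃ L U : Matrix (Fin (n + 1)) (Fin (n + 1)) F,
      LowerUni L ∧ UpperUni U ∧ A * P = P * (L * Matrix.diagonal a * U) := by
  intro n
  induction n with
  | zero =>
    intro A hA _ a ha
    refine ⟨1, by simp, 1, 1, ?_, ?_, ?_⟩
    · exact ⟨fun i => by simp, fun i j h => by omega⟩
    · exact ⟨fun i => by simp, fun i j h => by omega⟩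
    · rw [mul_one, one_mul, one_mul, mul_one]
      ext i j
      fin_cases i; fin_cases j
      simp only [Fin.zero_eta, Fin.isValue, Matrix.diagonal_apply_eq]
      simpa using ha.symm
  | succ n ih =>
    intro A hA hns a ha
    have hns' : ∀ c : F, A ≠ c • (1 : Matrix (Fin (n + 2)) (Fin (n + 2)) F) := by
      rcases hns with h | h
      · omega
      · exact h
    have ha0 : ∀ i, a i ≠ 0 := by
      intro i h0
      apply hA
      rw [← ha]
      exact Finset.prod_eq_zero (Finset.mem_univ i) h0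
    obtain ⟨P, hP, r, c, D, hAP, hdetS, hSns⟩ := gauss_step n A hA hns' (a 0) (ha0 0)
    set S := D - (a 0)⁻¹ • Matrix.vecMulVec c r with hS
    have hdetS0 : S.det ≠ 0 := by
      intro h0
      rw [h0, mul_zero] at hdetS
      exact hA hdetS.symm
    obtain ⟨Q, hQ, L', U', hL', hU', hSQ⟩ := ih S hdetS0 hSns (fun i => a i.succ) (by
      have h1 : ∏ i, a i = a 0 * ∏ i : Fin (n + 1), a i.succ := Fin.prod_univ_succ a
      have h2 : a 0 * ∏ i : Fin (n + 1), a i.succ = a 0 * S.det := by rw [← h1, ha, hdetS]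
      exact mul_left_cancel₀ (ha0 0) h2)
    have hQinv : Q * Q⁻¹ = 1 := Matrix.mul_nonsing_inv Q hQ
    have hdiag : Matrix.diagonal a = blk (a 0) 0 0 (Matrix.diagonal fun i : Fin (n + 1) => a i.succ) := by
      rw [blk_diagonal]
      congr 1
      funext i
      refine Fin.cases rfl (fun i => rfl) i
    refine ⟨P * blk 1 0 0 Q, ?_, blk 1 0 (Q⁻¹ *ᵥ ((a 0)⁻¹ • c)) L', blk 1 (((a 0)⁻¹ • r) ᵥ* Q) 0 U', ?_, ?_, ?_⟩
    · rw [Matrix.det_mul, det_blk_lower, one_mul]
      exact hP.mul hQ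
    · exact lowerUni_blk _ _ hL'
    · exact upperUni_blk _ _ hU'
    · rw [← mul_assoc, hAP, mul_assoc, mul_assoc P]
      congr 1
      rw [hdiag, blk_mul, blk_mul, blk_mul, blk_mul]
      apply blk_ext
      · simp
      · intro j
        simp [Matrix.smul_vecMul, ha0 0]
      · intro i
        simp only [blk_s0]
        simp only [Pi.add_apply, Pi.smul_apply, smul_eq_mul, one_mul, mul_one, Matrix.mulVec_zero, Pi.zero_apply,
          add_zero, mul_zero, zero_add, Matrix.zero_mulVec, Matrix.mulVec_smul, smul_zero, zero_smul,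
          Matrix.mulVec_mulVec, hQinv, Matrix.one_mulVec]
        field_simp [ha0 0]
      · intro i j
        simp only [blk_ss]
        have e3 : D = S + (a 0)⁻¹ • Matrix.vecMulVec c r := by rw [hS]; abel
        have e4 : a 0 • Q⁻¹ *ᵥ (a 0)⁻¹ • c = Q⁻¹ *ᵥ c := by
          rw [Matrix.mulVec_smul, smul_smul, mul_inv_cancel₀ (ha0 0), one_smul]
        have e5 : ((a 0)⁻¹ • r) ᵥ* Q = (a 0)⁻¹ • (r ᵥ* Q) := by rw [Matrix.smul_vecMul]
        simp only [Matrix.vecMulVec_zero, Matrix.zero_vecMulVec, zero_add, Matrix.mulVec_zero, add_zero]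
        rw [e4, e5, mul_add, Matrix.mul_vecMulVec, Matrix.mulVec_mulVec, hQinv, Matrix.one_mulVec, e3, add_mul, hSQ,
          Matrix.smul_mul, Matrix.vecMulVec_mul, Matrix.vecMulVec_smul, add_comm]

end H46.Gauss
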