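import Mathlib

/-! Conjugacy classes of a subgroup of index two. -/

set_option autoImplicit false

namespace H46.IndexTwo

open Finset

open scoped Classical

variable {G : Type*} [Group G] [Fintype G]

/-- order of the centraliser -/
noncomputable def cc (x : G) : ℕ := (univ.filter (fun y : G => Commute x y)).card

theorem carrier_mul (x : G) : (univ.filter (fun y : G => IsConj x y)).card * cc x = Fintype.card G := by
  have h1 := MulAction.card_orbit_mul_card_stabilizer_eq_card_group (ConjAct G) x
  rw [ConjAct.card] at h1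
  rw [← h1]
  congr 1
  · rw [← Set.toFinset_card]
    congr 1
    ext y
    rw [Finset.mem_filter, Set.mem_toFinset, ConjAct.orbit_eq_carrier_conjClasses, ConjClasses.mem_carrier_iff_mk_eq, ConjClasses.mk_eq_mk_iff_isConj]
    exact ⟨fun h => h.2.symm, fun h => ⟨mem_univ _, h.symm⟩⟩
  · unfold cc
    rw [← Fintype.card_subtype]
    refine Fintype.card_congr (ConjAct.toConjAct.toEquiv.subtypeEquiv fun y => ?_)
    rw [MulAction.mem_stabilizer_iff]
    show Commute x y ↔ ConjAct.toConjAct y • x = x
    rw [ConjAct.toConjAct_smul, mul_inv_eq_iff_eq_mul]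
    exact ⟨fun h => h.symm, fun h => h.symm⟩

theorem cc_conj {x y : G} (h : IsConj x y) : cc x = cc y := by
  have h1 := carrier_mul x
  have h2 := carrier_mul y
  have h3 : (univ.filter (fun z : G => IsConj x z)) = univ.filter (fun z : G => IsConj y z) := by
    ext z
    simp only [mem_filter, mem_univ, true_and]
    exact ⟨fun h4 => h.symm.trans h4, fun h4 => h.trans h4⟩
  rw [h3] at h1
  have hpos : 0 < (univ.filter (fun z : G => IsConj y z)).card := Finset.card_pos.mpr ⟨y, by rw [mem_filter]; exact ⟨mem_univ _, IsConj.refl y⟩⟩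
  exact Nat.eq_of_mul_eq_mul_left hpos (h1.trans h2.symm)

/-- sum of centraliser orders over a normal subset -/
theorem sum_cc (Q : G → Prop) (hQ : ∀ x y, IsConj x y → (Q x ↔ Q y)) :
    ∑ x ∈ univ.filter Q, cc x = Nat.card {C : ConjClasses G // Q C.out} * Fintype.card G := by
  haveI : Fintype (ConjClasses G) := Fintype.ofFinite _
  have hout : ∀ D : ConjClasses G, ConjClasses.mk D.out = D := fun D => Quotient.out_eq D
  rw [← Finset.sum_fiberwise_of_maps_to (g := fun x => ConjClasses.mk x) (t := univ.filter (fun C : ConjClasses G => Q C.out)) (fun x hx => by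
    rw [mem_filter] at hx ⊢
    refine ⟨mem_univ _, ?_⟩
    rw [← hQ x _ ?_]
    · exact hx.2
    · exact ConjClasses.mk_eq_mk_iff_isConj.mp (hout _).symm)]
  rw [Finset.sum_congr rfl (g := fun _ => Fintype.card G)]
  · rw [Finset.sum_const, smul_eq_mul, Nat.card_eq_fintype_card, Fintype.card_subtype]
  · intro C hC
    rw [mem_filter] at hC
    rw [← carrier_mul C.out]
    have h1 : (univ.filter Q).filter (fun x => ConjClasses.mk x = C) = univ.filter (fun y : G => IsConj C.out y) := by
      ext x
      simp only [mem_filter, mem_univ, true_and]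
      have h2 : ConjClasses.mk x = C ↔ IsConj C.out x := by
        conv_lhs => rw [← hout C]
        rw [ConjClasses.mk_eq_mk_iff_isConj, isConj_comm]
      rw [h2]
      exact ⟨fun h => h.2, fun h => ⟨(hQ _ _ h).mp hC.2, h⟩⟩
    rw [h1, Finset.sum_congr rfl (fun x hx => (cc_conj (mem_filter.mp hx).2).symm), Finset.sum_const, smul_eq_mul]

variable (N : Subgroup G)

/-- the order of the centraliser in the subgroup -/
noncomputable def cn (x : G) : ℕ := (univ.filter (fun y : G => y ∈ N ∧ Commute x y)).card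

/-- the centraliser is contained in the subgroup -/
def Sp (x : G) : Prop := ∀ y, Commute x y → y ∈ N

theorem Sp.mem {N : Subgroup G} {x : G} (h : Sp N x) : x ∈ N := h x (Commute.refl x)

theorem sp_conj [N.Normal] {x y : G} (h : IsConj x y) : Sp N x ↔ Sp N y := by
  have key : ∀ x y : G, IsConj x y → Sp N x → Sp N y := by
    intro x y h hx z hz
    obtain ⟨c, hc⟩ := isConj_iff.mp h
    have h1 : Commute x (c⁻¹ * z * c) := by
      show x * (c⁻¹ * z * c) = c⁻¹ * z * c * x
      have h2 : x = c⁻¹ * y * c := by rw [← hc]; group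
      have h3 : y * z = z * y := hz
      rw [h2]
      calc c⁻¹ * y * c * (c⁻¹ * z * c) = c⁻¹ * (y * z) * c := by group
        _ = c⁻¹ * (z * y) * c := by rw [h3]
        _ = _ := by group
    have h2 := hx _ h1
    have h3 := Subgroup.Normal.conj_mem (H := N) inferInstance _ h2 c
    have h4 : c * (c⁻¹ * z * c) * c⁻¹ = z := by group
    rwa [h4] at h3
  exact ⟨key x y h, key y x h.symm⟩

theorem cn_of_sp {x : G} (h : Sp N x) : cn N x = cc x := by
  unfold cn cc
  congr 1
  ext y
  simp only [mem_filter, mem_univ, true_and]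
  exact ⟨fun h => h.2, fun h' => ⟨h y h', h'⟩⟩

theorem cc_of_not_sp (hN : N.index = 2) {x : G} (h : ¬ Sp N x) : cc x = 2 * cn N x := by
  unfold Sp at h
  push Not at h
  obtain ⟨z, hz, hzN⟩ := h
  have h1 : cc x = cn N x + (univ.filter (fun y : G => y ∉ N ∧ Commute x y)).card := by
    unfold cc cn
    rw [← Finset.card_union_of_disjoint]
    · congr 1
      ext y
      simp only [mem_union, mem_filter, mem_univ, true_and]
      tauto
    · rw [Finset.disjoint_left]
      intro y hy hy'
      rw [mem_filter] at hy hy'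
      exact hy'.2.1 hy.2.1
  have h2 : (univ.filter (fun y : G => y ∉ N ∧ Commute x y)).card = cn N x := by
    unfold cn
    apply Finset.card_bij (fun y _ => z * y)
    · intro y hy
      rw [mem_filter] at hy ⊢
      refine ⟨mem_univ _, ?_, hz.mul_right hy.2.2⟩
      rw [Subgroup.mul_mem_iff_of_index_two hN]
      exact iff_of_false hzN hy.2.1
    · intro y _ y' _ h
      exact mul_left_cancel h
    · intro y hy
      rw [mem_filter] at hy
      refine ⟨z⁻¹ * y, ?_, by group⟩
      rw [mem_filter]
      refine ⟨mem_univ _, ?_, hz.inv_right.mul_right hy.2.2⟩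
      rw [Subgroup.mul_mem_iff_of_index_two hN, Subgroup.inv_mem_iff]
      exact fun h => hzN (h.mpr hy.2.1)
  omega

theorem sum_cn : ∑ x ∈ univ.filter (fun x => x ∈ N), cn N x = Nat.card (ConjClasses N) * Nat.card N := by
  haveI : Fintype N := Fintype.ofFinite _
  have h1 := sum_cc (G := N) (fun _ => True) (fun _ _ _ => Iff.rfl)
  have h2 : Nat.card {C : ConjClasses N // True} = Nat.card (ConjClasses N) := Nat.card_congr (Equiv.Set.univ _)
  rw [h2] at h1
  rw [Nat.card_eq_fintype_card (α := N), ← h1]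
  symm
  apply Finset.sum_bij (fun (x : N) _ => (x : G))
  · intro x _
    rw [mem_filter]
    exact ⟨mem_univ _, x.2⟩
  · intro x _ y _ h
    exact Subtype.ext h
  · intro x hx
    rw [mem_filter] at hx
    exact ⟨⟨x, hx.2⟩, by simp, rfl⟩
  · intro x _
    unfold cc cn
    apply Finset.card_bij (fun (y : N) _ => (y : G))
    · intro y hy
      rw [mem_filter] at hy ⊢
      refine ⟨mem_univ _, y.2, ?_⟩
      have := congrArg (Subtype.val) hy.2.eq
      exact this
    · intro a _ b _ h
      exact Subtype.ext h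
    · intro y hy
      rw [mem_filter] at hy
      exact ⟨⟨y, hy.2.1⟩, by rw [mem_filter]; exact ⟨mem_univ _, Subtype.ext hy.2.2⟩, rfl⟩

theorem sum_swap : ∑ x : G, cn N x = ∑ y ∈ univ.filter (fun y => y ∈ N), cc y := by
  unfold cn cc
  simp only [Finset.card_filter, Finset.sum_filter]
  rw [Finset.sum_comm]
  refine Finset.sum_congr rfl fun y _ => ?_
  by_cases hy : y ∈ N
  · rw [if_pos hy]
    refine Finset.sum_congr rfl fun x _ => ?_
    simp only [hy, true_and]
    have : Commute x y ↔ Commute y x := ⟨fun h => h.symm, fun h => h.symm⟩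
    simp only [this]
  · rw [if_neg hy]
    apply Finset.sum_eq_zero
    intro x _
    rw [if_neg]
    exact fun h => hy h.1

/-- the class number of a subgroup of index two -/
theorem two_mul_card (hN : N.index = 2) : 2 * Nat.card (ConjClasses N) = Nat.card (ConjClasses G) + 3 * Nat.card {C : ConjClasses G // Sp N C.out} := by
  haveI : N.Normal := Subgroup.normal_of_index_eq_two hN
  have hcard : Fintype.card G = 2 * Nat.card N := by
    have := Subgroup.card_mul_index N
    rw [hN, Nat.card_eq_fintype_card (α := G)] at this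
    omega
  have hpos : 0 < Nat.card N := Nat.card_pos
  -- the sums
  have e1 : ∑ x : G, cc x = Nat.card (ConjClasses G) * Fintype.card G := by
    have h1 := sum_cc (G := G) (fun _ => True) (fun _ _ _ => Iff.rfl)
    have h2 : Nat.card {C : ConjClasses G // True} = Nat.card (ConjClasses G) := Nat.card_congr (Equiv.Set.univ _)
    rw [h2, Finset.filter_true] at h1
    exact h1
  have e2 := sum_cc (G := G) (Sp N) (fun _ _ h => sp_conj N h)
  have e3 := sum_cn N
  have e4 := sum_swap N
  have e5 : ∑ x : G, cc x = ∑ x ∈ univ.filter (fun x => x ∈ N), cc x + ∑ x ∈ univ.filter (fun x => ¬ x ∈ N), cc x :=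
    (Finset.sum_filter_add_sum_filter_not univ (fun x => x ∈ N) _).symm
  have e6 : ∑ x : G, cn N x = ∑ x ∈ univ.filter (fun x => x ∈ N), cn N x + ∑ x ∈ univ.filter (fun x => ¬ x ∈ N), cn N x :=
    (Finset.sum_filter_add_sum_filter_not univ (fun x => x ∈ N) _).symm
  have e7 : ∑ x ∈ univ.filter (fun x => ¬ x ∈ N), cc x = 2 * ∑ x ∈ univ.filter (fun x => ¬ x ∈ N), cn N x := by
    rw [Finset.mul_sum]
    refine Finset.sum_congr rfl fun x hx => ?_
    apply cc_of_not_sp N hN
    intro h
    exact (mem_filter.mp hx).2 h.mem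
  have e8 : ∑ x ∈ univ.filter (fun x => x ∈ N), cc x + ∑ x ∈ univ.filter (Sp N), cc x = 2 * ∑ x ∈ univ.filter (fun x => x ∈ N), cn N x := by
    have h1 : univ.filter (Sp N) = (univ.filter (fun x => x ∈ N)).filter (Sp N) := by
      ext x
      simp only [mem_filter, mem_univ, true_and]
      exact ⟨fun h => ⟨h.mem, h⟩, fun h => h.2⟩
    rw [h1, Finset.sum_filter (s := univ.filter (fun x => x ∈ N)), ← Finset.sum_add_distrib, Finset.mul_sum]
    refine Finset.sum_congr rfl fun x _ => ?_
    by_cases hx : Sp N x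
    · rw [if_pos hx, cn_of_sp N hx]; ring
    · rw [if_neg hx, add_zero, cc_of_not_sp N hN hx]
  obtain ⟨s, hs⟩ : ∃ s, s = Nat.card {C : ConjClasses G // Sp N C.out} := ⟨_, rfl⟩
  obtain ⟨k, hk⟩ : ∃ k, k = Nat.card (ConjClasses G) := ⟨_, rfl⟩
  obtain ⟨l, hl⟩ : ∃ l, l = Nat.card (ConjClasses N) := ⟨_, rfl⟩
  rw [← hs, ← hk, ← hl]
  rw [← hs] at e2
  rw [← hk] at e1
  rw [← hl] at e3
  rw [hcard] at e1 e2
  obtain ⟨m, hm⟩ : ∃ m, m = Nat.card N := ⟨_, rfl⟩
  rw [← hm] at e1 e2 e3 hpos
  have key : (k + 3 * s) * (2 * m) = (2 * l) * (2 * m) := by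
    have a1 : k * (2 * m) = ∑ x ∈ univ.filter (fun x => x ∈ N), cc x + 2 * ∑ x ∈ univ.filter (fun x => ¬ x ∈ N), cn N x := by
      rw [← e1, e5, e7]
    have a2 : ∑ x ∈ univ.filter (fun x => x ∈ N), cn N x + ∑ x ∈ univ.filter (fun x => ¬ x ∈ N), cn N x = ∑ x ∈ univ.filter (fun x => x ∈ N), cc x := by
      rw [← e6, e4]
    have a3 : (k + 3 * s) * (2 * m) = k * (2 * m) + 3 * (s * (2 * m)) := by ring
    have a4 : (2 * l) * (2 * m) = 4 * (l * m) := by ring
    rw [a3, a4, a1, ← e2, ← e3]
    omega
  exact (Nat.eq_of_mul_eq_mul_right (by omega) key).symm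

end H46.IndexTwo
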