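import Mathlib
import Cfsg.Agent.Lib.H46.L33Cert

/-! In `SL(3, F)`, `|F| = 3`, every nonscalar element is a product of two conjugates of an element of order four. -/

set_option autoImplicit false

namespace H46.L33

open Matrix Module

theorem pow_aux : ∀ t : ZMod 3, t ≠ 0 → t ^ 3 * t = 1 := by decide

theorem three_aux : (3 : ZMod 3) = 0 := by decide

theorem cover (A : Matrix.SpecialLinearGroup (Fin 3) (ZMod 3))
    (hA : ∀ c : ZMod 3, (A : Matrix (Fin 3) (Fin 3) (ZMod 3)) ≠ c • (1 : Matrix _ _ (ZMod 3))) :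
    ∃ u v : Matrix.SpecialLinearGroup (Fin 3) (ZMod 3), A = (u * X * u⁻¹) * (v * X * v⁻¹) := by
  haveI : Fact (Nat.Prime 3) := ⟨Nat.prime_three⟩
  -- a vector that is not an eigenvector
  obtain ⟨v, hv⟩ : ∃ v, LinearIndependent (ZMod 3) ![v, Matrix.toLin' (A : Matrix (Fin 3) (Fin 3) (ZMod 3)) v] := by
    by_contra hcon
    push Not at hcon
    obtain ⟨c, hc⟩ := LinearMap.exists_eq_smul_id_of_forall_notLinearIndependent hcon
    apply hA c
    apply Matrix.toLin'.injective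
    rw [hc, map_smul, Matrix.toLin'_one]
    rfl
  obtain ⟨w, hw⟩ := exists_linearIndependent_snoc_of_lt_finrank hv (by simp)
  have e1 : (Fin.snoc ![v, Matrix.toLin' (A : Matrix (Fin 3) (Fin 3) (ZMod 3)) v] w : Fin 3 → (Fin 3 → ZMod 3)) =
      ![v, (A : Matrix (Fin 3) (Fin 3) (ZMod 3)) *ᵥ v, w] := by
    funext i
    fin_cases i <;> rfl
  change LinearIndependent (ZMod 3) (Fin.snoc ![v, Matrix.toLin' (A : Matrix (Fin 3) (Fin 3) (ZMod 3)) v] w : Fin 3 → (Fin 3 → ZMod 3)) at hw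
  rw [e1] at hw
  let Q : Matrix (Fin 3) (Fin 3) (ZMod 3) := Matrix.of fun i j => ![v, (A : Matrix (Fin 3) (Fin 3) (ZMod 3)) *ᵥ v, w] j i
  have hcol : Q.col = ![v, (A : Matrix (Fin 3) (Fin 3) (ZMod 3)) *ᵥ v, w] := by
    funext j i
    rfl
  have hQ : IsUnit Q.det := by
    rw [← Matrix.isUnit_iff_isUnit_det, ← Matrix.linearIndependent_cols_iff_isUnit, hcol]
    exact hw
  have hQ0 : Q.det ≠ 0 := hQ.ne_zero
  let T : Matrix.SpecialLinearGroup (Fin 3) (ZMod 3) := ⟨Q.det • Q, by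
    rw [Matrix.det_smul, Fintype.card_fin]
    exact pow_aux _ hQ0⟩
  have hT : (T : Matrix (Fin 3) (Fin 3) (ZMod 3)) = Q.det • Q := rfl
  obtain ⟨M, hM⟩ : ∃ M, M = T⁻¹ * A * T := ⟨_, rfl⟩
  have hAM : (A : Matrix (Fin 3) (Fin 3) (ZMod 3)) * (T : Matrix (Fin 3) (Fin 3) (ZMod 3)) =
      (T : Matrix (Fin 3) (Fin 3) (ZMod 3)) * (M : Matrix (Fin 3) (Fin 3) (ZMod 3)) := by
    rw [← Matrix.SpecialLinearGroup.coe_mul, ← Matrix.SpecialLinearGroup.coe_mul, hM, mul_assoc T⁻¹, mul_inv_cancel_left]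
  have hM0 : (M : Matrix (Fin 3) (Fin 3) (ZMod 3)) *ᵥ (Pi.single 0 1) = Pi.single 1 1 := by
    have hinj : Function.Injective fun x => (T : Matrix (Fin 3) (Fin 3) (ZMod 3)) *ᵥ x := by
      rw [Matrix.mulVec_injective_iff_isUnit, Matrix.isUnit_iff_isUnit_det, T.2]
      exact isUnit_one
    apply hinj
    change (T : Matrix (Fin 3) (Fin 3) (ZMod 3)) *ᵥ ((M : Matrix (Fin 3) (Fin 3) (ZMod 3)) *ᵥ (Pi.single 0 1)) = (T : Matrix (Fin 3) (Fin 3) (ZMod 3)) *ᵥ (Pi.single 1 1)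
    rw [Matrix.mulVec_mulVec, ← hAM, ← Matrix.mulVec_mulVec, hT, Matrix.smul_mulVec, Matrix.smul_mulVec,
      Matrix.mulVec_single_one, Matrix.mulVec_single_one, hcol, Matrix.mulVec_smul]
    rfl
  have hcol0 : ∀ i, (M : Matrix (Fin 3) (Fin 3) (ZMod 3)) i 0 = (Pi.single 1 1 : Fin 3 → ZMod 3) i := by
    intro i
    have := congrFun hM0 i
    rwa [Matrix.mulVec_single_one] at this
  have hMM : (M : Matrix (Fin 3) (Fin 3) (ZMod 3)) = !![0, M.1 0 1, M.1 0 2; 1, M.1 1 1, M.1 1 2; 0, M.1 2 1, M.1 2 2] := by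
    ext i j
    fin_cases i <;> fin_cases j <;> first | rfl | skip
    · exact hcol0 0
    · exact hcol0 1
    · exact hcol0 2
  have hdet := M.2
  rw [hMM, Matrix.det_fin_three] at hdet
  simp at hdet
  obtain ⟨P, R, hPR⟩ := key (M.1 0 1) (M.1 0 2) (M.1 1 1) (M.1 1 2) (M.1 2 1) (M.1 2 2) (by
    linear_combination hdet + (M.1 0 1) * (M.1 2 2) * three_aux)
  rw [← hMM] at hPR
  have hPR' : M * P * R = P * X * R * X := by
    apply Subtype.ext
    simpa only [Matrix.SpecialLinearGroup.coe_mul] using hPR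
  refine ⟨T * P, T * P * R, ?_⟩
  have h1 : A = T * M * T⁻¹ := by
    rw [hM, mul_assoc T⁻¹, mul_inv_cancel_left, mul_inv_cancel_right]
  have h2 : M = P * X * R * X * R⁻¹ * P⁻¹ := by
    rw [← hPR', mul_inv_cancel_right, mul_inv_cancel_right]
  rw [h1, h2]
  simp only [mul_assoc, _root_.mul_inv_rev, inv_mul_cancel_left]

theorem X_pow : X ^ 4 = 1 := by
  apply Subtype.ext
  decide

theorem cover' {F : Type*} [Field F] [Fintype F] (hF : Fintype.card F = 3) :
    ∃ x : Matrix.SpecialLinearGroup (Fin 3) F, x ^ 4 = 1 ∧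
      ∀ A : Matrix.SpecialLinearGroup (Fin 3) F, (∀ c : F, (A : Matrix (Fin 3) (Fin 3) F) ≠ c • (1 : Matrix _ _ F)) →
        ∃ u v : Matrix.SpecialLinearGroup (Fin 3) F, A = (u * x * u⁻¹) * (v * x * v⁻¹) := by
  let σ := ZMod.ringEquivOfPrime F Nat.prime_three hF
  let f : Matrix.SpecialLinearGroup (Fin 3) (ZMod 3) →* Matrix.SpecialLinearGroup (Fin 3) F := Matrix.SpecialLinearGroup.map (σ : ZMod 3 →+* F)
  let g : Matrix.SpecialLinearGroup (Fin 3) F →* Matrix.SpecialLinearGroup (Fin 3) (ZMod 3) := Matrix.SpecialLinearGroup.map (σ.symm : F →+* ZMod 3)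
  have hfg : ∀ A, f (g A) = A := by
    intro A
    ext i j
    exact σ.apply_symm_apply _
  refine ⟨f X, by rw [← map_pow, X_pow, map_one], ?_⟩
  intro A hA
  obtain ⟨u, v, huv⟩ := cover (g A) (by
    intro c hc
    apply hA (σ c)
    ext i j
    have := congrFun (congrFun hc i) j
    have h2 : σ.symm ((A : Matrix (Fin 3) (Fin 3) F) i j) = (c • (1 : Matrix (Fin 3) (Fin 3) (ZMod 3))) i j := this
    rw [RingEquiv.symm_apply_eq] at h2
    rw [h2, Matrix.smul_apply, Matrix.smul_apply, smul_eq_mul, smul_eq_mul, map_mul]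
    congr 1
    rw [Matrix.one_apply, Matrix.one_apply]
    split_ifs <;> simp)
  refine ⟨f u, f v, ?_⟩
  rw [← hfg A, huv]
  simp only [map_mul, map_inv]

end H46.L33
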