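import Mathlib
import Cfsg.Agent.Lib.H46.IsoBound

/-! Numerical bounds for the symplectic class number. -/

set_option autoImplicit false

namespace H46.SpNum

open Finset H46.IsoBound

/-- the combined factor -/
noncomputable def HH (y : ℝ) (j : ℕ) : ℝ := (1 + y ^ j) ^ 4 / (1 - y ^ (2 * j - 1)) * (1 / (1 - y ^ (2 * j)))

theorem HH_mono {y z : ℝ} (hy : 0 ≤ y) (hyz : y ≤ z) (hz : z < 1) {j : ℕ} (hj : 1 ≤ j) : HH y j ≤ HH z j := by
  have hz0 : 0 ≤ z := hy.trans hyz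
  have a1 : y ^ j ≤ z ^ j := pow_le_pow_left₀ hy hyz j
  have a2 : y ^ (2 * j - 1) ≤ z ^ (2 * j - 1) := pow_le_pow_left₀ hy hyz _
  have a3 : y ^ (2 * j) ≤ z ^ (2 * j) := pow_le_pow_left₀ hy hyz _
  have b2 : z ^ (2 * j - 1) < 1 := pow_lt_one₀ hz0 hz (by omega)
  have b3 : z ^ (2 * j) < 1 := pow_lt_one₀ hz0 hz (by omega)
  have c1 : 0 ≤ y ^ j := pow_nonneg hy j
  unfold HH
  apply mul_le_mul
  · apply div_le_div₀
    · positivity
    · exact pow_le_pow_left₀ (by positivity) (by linarith) 4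
    · linarith
    · linarith
  · apply div_le_div₀ (by norm_num) le_rfl (by linarith) (by linarith)
  · apply div_nonneg (by norm_num); linarith
  · apply div_nonneg
    · positivity
    · linarith

theorem HH_pos {z : ℝ} (hz0 : 0 ≤ z) (hz : z < 1) {j : ℕ} (hj : 1 ≤ j) : 0 < HH z j := by
  have b2 : z ^ (2 * j - 1) < 1 := pow_lt_one₀ hz0 hz (by omega)
  have b3 : z ^ (2 * j) < 1 := pow_lt_one₀ hz0 hz (by omega)
  have c1 : 0 ≤ z ^ j := pow_nonneg hz0 j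
  unfold HH
  apply mul_pos
  · apply div_pos
    · positivity
    · linarith
  · apply div_pos (by norm_num); linarith

theorem one_le_HH {z : ℝ} (hz0 : 0 ≤ z) (hz : z < 1) {j : ℕ} (hj : 1 ≤ j) : 1 ≤ HH z j := by
  have b2 : z ^ (2 * j - 1) < 1 := pow_lt_one₀ hz0 hz (by omega)
  have b3 : z ^ (2 * j) < 1 := pow_lt_one₀ hz0 hz (by omega)
  have c1 : 0 ≤ z ^ j := pow_nonneg hz0 j
  have c2 : 0 ≤ z ^ (2 * j - 1) := pow_nonneg hz0 _
  have c3 : 0 ≤ z ^ (2 * j) := pow_nonneg hz0 _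
  unfold HH
  apply one_le_mul_of_one_le_of_one_le
  · rw [le_div_iff₀ (by linarith), one_mul]
    have : (1 : ℝ) ≤ (1 + z ^ j) ^ 4 := one_le_pow₀ (by linarith)
    linarith
  · rw [le_div_iff₀ (by linarith), one_mul]
    linarith

theorem tail_step {k : ℕ} (hk : 5 ≤ k) : HH (1 / 3) k * (1 / (1 - 7 * (1 / 3) ^ (k + 1))) ≤ 1 / (1 - 7 * (1 / 3) ^ k) := by
  obtain ⟨m, rfl⟩ : ∃ m, k = m + 5 := ⟨k - 5, by omega⟩
  obtain ⟨z, hz⟩ : ∃ z : ℝ, z = (1 / 3) ^ (m + 5) := ⟨_, rfl⟩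
  have hz0 : 0 < z := by rw [hz]; positivity
  have hz1 : z ≤ 1 / 243 := by
    rw [hz]
    calc ((1 : ℝ) / 3) ^ (m + 5) ≤ (1 / 3) ^ 5 := pow_le_pow_of_le_one (by norm_num) (by norm_num) (by omega)
      _ = 1 / 243 := by norm_num
  have e1 : ((1 : ℝ) / 3) ^ (2 * (m + 5)) = z ^ 2 := by rw [hz, ← pow_mul]; congr 1; omega
  have e2 : ((1 : ℝ) / 3) ^ (2 * (m + 5) - 1) = 3 * z ^ 2 := by
    rw [← e1]
    have : 2 * (m + 5) = (2 * (m + 5) - 1) + 1 := by omega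
    conv_rhs => rw [this, pow_succ]
    ring
  have e3 : ((1 : ℝ) / 3) ^ (m + 5 + 1) = z / 3 := by rw [pow_succ, ← hz]; ring
  unfold HH
  rw [e1, e2, e3, ← hz]
  have p1 : 0 < 1 - 3 * z ^ 2 := by nlinarith
  have p2 : 0 < 1 - z ^ 2 := by nlinarith
  have p3 : 0 < 1 - 7 * (z / 3) := by nlinarith
  have p4 : 0 < 1 - 7 * z := by nlinarith
  rw [div_mul_div_comm, div_mul_div_comm, mul_one, mul_one, div_le_div_iff₀ (by positivity) p4, one_mul]
  -- `(1 + z) ^ 4 * (1 - 7 z) ≤ (1 - 3 z²) (1 - z²) (1 - 7 z / 3)`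
  have h1 : (1 + z) ^ 4 * (1 - 7 * z) ≤ 1 - 3 * z := by
    have h2 : (1 + z) ^ 4 ≤ 1 + 4 * z + 7 * z ^ 2 := by nlinarith [mul_pos hz0 hz0, mul_pos (mul_pos hz0 hz0) hz0]
    calc (1 + z) ^ 4 * (1 - 7 * z) ≤ (1 + 4 * z + 7 * z ^ 2) * (1 - 7 * z) := mul_le_mul_of_nonneg_right h2 p4.le
      _ ≤ 1 - 3 * z := by nlinarith [mul_pos hz0 hz0, mul_pos (mul_pos hz0 hz0) hz0]
  have h3 : 1 - 3 * z ≤ (1 - 3 * z ^ 2) * (1 - z ^ 2) * (1 - 7 * (z / 3)) := by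
    have h4 : 1 - 4 * z ^ 2 ≤ (1 - 3 * z ^ 2) * (1 - z ^ 2) := by nlinarith [mul_pos hz0 hz0]
    calc 1 - 3 * z ≤ (1 - 4 * z ^ 2) * (1 - 7 * (z / 3)) := by nlinarith [mul_pos hz0 hz0, mul_pos (mul_pos hz0 hz0) hz0]
      _ ≤ _ := mul_le_mul_of_nonneg_right h4 p3.le
  exact h1.trans h3

theorem tail_le (m : ℕ) : ∀ k, 5 ≤ k → ∏ j ∈ Ico k (k + m), HH (1 / 3) j ≤ 1 / (1 - 7 * (1 / 3) ^ k) := by
  induction m with
  | zero =>
    intro k hk
    rw [add_zero, Ico_self, prod_empty]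
    have h1 : ((1 : ℝ) / 3) ^ k ≤ (1 / 3) ^ 5 := pow_le_pow_of_le_one (by norm_num) (by norm_num) hk
    have h2 : 0 ≤ ((1 : ℝ) / 3) ^ k := by positivity
    rw [le_div_iff₀ (by norm_num at h1 ⊢; linarith)]
    linarith
  | succ m ih =>
    intro k hk
    rw [Finset.prod_eq_prod_Ico_succ_bot (by omega)]
    have h1 := ih (k + 1) (by omega)
    have h2 : k + 1 + m = k + (m + 1) := by omega
    rw [h2] at h1
    refine le_trans (mul_le_mul_of_nonneg_left h1 (HH_pos (by norm_num) (by norm_num) (by omega)).le) ?_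
    exact tail_step hk

theorem one_le_prod_of {ι : Type*} (S : Finset ι) (g : ι → ℝ) (h : ∀ i ∈ S, 1 ≤ g i) : 1 ≤ ∏ i ∈ S, g i := by
  have := Finset.prod_le_prod (s := S) (f := fun _ => (1 : ℝ)) (g := g) (fun _ _ => zero_le_one) h
  rwa [Finset.prod_const_one] at this

theorem prod_HH_third (n : ℕ) : ∏ j ∈ Ico 1 (n + 1), HH (1 / 3) j ≤ 54 / 5 := by
  have h0 : ∏ j ∈ Ico 1 (5 + n), HH (1 / 3) j = (∏ j ∈ Ico 1 (n + 1), HH (1 / 3) j) * ∏ j ∈ Ico (n + 1) (5 + n), HH (1 / 3) j :=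
    (Finset.prod_Ico_consecutive _ (by omega) (by omega)).symm
  have h1 : ∏ j ∈ Ico 1 (n + 1), HH (1 / 3) j ≤ ∏ j ∈ Ico 1 (5 + n), HH (1 / 3) j := by
    rw [h0]
    apply le_mul_of_one_le_right
    · apply Finset.prod_nonneg
      intro j hj
      exact (HH_pos (by norm_num) (by norm_num) (mem_Ico.mp hj).1).le
    · apply one_le_prod_of
      intro j hj
      exact one_le_HH (by norm_num) (by norm_num) (by have := (mem_Ico.mp hj).1; omega)
  refine h1.trans ?_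
  rw [← Finset.prod_Ico_consecutive _ (show 1 ≤ 5 by omega) (show 5 ≤ 5 + n by omega)]
  refine (mul_le_mul_of_nonneg_left (tail_le n 5 le_rfl) ?_).trans ?_
  · apply Finset.prod_nonneg
    intro j hj
    exact (HH_pos (by norm_num) (by norm_num) (mem_Ico.mp hj).1).le
  · have : ∏ j ∈ Ico 1 5, HH (1 / 3) j = HH (1 / 3) 1 * HH (1 / 3) 2 * HH (1 / 3) 3 * HH (1 / 3) 4 := by
      simp [Finset.prod_Ico_succ_top]
    rw [this]
    unfold HH
    norm_num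

theorem prod_HH_le {y : ℝ} (hy0 : 0 ≤ y) (hy : y ≤ 1 / 3) (n : ℕ) : ∏ j ∈ Ico 1 (n + 1), HH y j ≤ 54 / 5 := by
  refine le_trans (Finset.prod_le_prod ?_ ?_) (prod_HH_third n)
  · intro j hj
    exact (HH_pos hy0 (by linarith) (mem_Ico.mp hj).1).le
  · intro j hj
    exact HH_mono hy0 hy (by norm_num) (mem_Ico.mp hj).1

section GB
variable {F : Type*} [Field F]

theorem GB_even (s : ℝ) {j : ℕ} (hj : 1 ≤ j) : GB (-1 : F) s (2 * j) = (1 + (s ^ 2) ^ j) ^ 4 / (1 - (s ^ 2) ^ (2 * j - 1)) := by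
  unfold GB
  have h1 : (-1 : F) * (-1) ^ (2 * j - 1) = 1 := by
    have : (-1 : F) * (-1) ^ (2 * j - 1) = (-1) ^ (2 * j) := by
      rw [← pow_succ']; congr 1; omega
    rw [this, pow_mul]; simp
  rw [if_pos h1]
  rw [← pow_mul, ← pow_mul]
  congr 3
  omega

theorem GB_odd (h2 : (2 : F) ≠ 0) (s : ℝ) (j : ℕ) : GB (-1 : F) s (2 * j + 1) = 1 / (1 - (s ^ 2) ^ (2 * j)) := by
  unfold GB
  have h1 : ¬ (-1 : F) * (-1) ^ (2 * j + 1 - 1) = 1 := by
    rw [Nat.add_sub_cancel, pow_mul]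
    intro h
    apply h2
    have h3 : ((-1 : F)) ^ 2 = 1 := by ring
    rw [h3, one_pow, mul_one] at h
    have h5 : (2 : F) = 1 + 1 := by norm_num
    rw [h5]; nth_rw 1 [← h]; ring
  rw [if_neg h1, ← pow_mul]
  congr 3

theorem prod_GB_sp (h2 : (2 : F) ≠ 0) (s : ℝ) (n : ℕ) : ∏ e ∈ Icc 2 (2 * n + 1), GB (-1 : F) s e = ∏ j ∈ Ico 1 (n + 1), HH (s ^ 2) j := by
  induction n with
  | zero => simp
  | succ n ih =>
    rw [Finset.prod_Ico_succ_top (by omega), ← ih]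
    have h1 : Icc 2 (2 * (n + 1) + 1) = insert (2 * (n + 1) + 1) (insert (2 * (n + 1)) (Icc 2 (2 * n + 1))) := by
      ext e; simp only [mem_Icc, mem_insert]; omega
    rw [h1, Finset.prod_insert, Finset.prod_insert, GB_odd h2, GB_even _ (by omega)]
    · unfold HH; ring
    · simp only [mem_Icc]; omega
    · simp only [mem_Icc, mem_insert]; omega

theorem one_le_GB {ε : F} {s : ℝ} (hs0 : 0 < s) (hs1 : s < 1) {e : ℕ} (he : 2 ≤ e) : 1 ≤ GB ε s e := by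
  have b2 : s ^ (2 * e - 2) < 1 := pow_lt_one₀ hs0.le hs1 (by omega)
  have c1 : 0 ≤ s ^ e := pow_nonneg hs0.le e
  have c2 : 0 ≤ s ^ (2 * e - 2) := pow_nonneg hs0.le _
  unfold GB
  split_ifs
  · rw [le_div_iff₀ (by linarith), one_mul]
    have : (1 : ℝ) ≤ (1 + s ^ e) ^ 4 := one_le_pow₀ (by linarith)
    linarith
  · rw [le_div_iff₀ (by linarith), one_mul]
    linarith

theorem prod_GB_le (h2 : (2 : F) ≠ 0) {s : ℝ} (hs0 : 0 < s) (hs : s ^ 2 ≤ 1 / 3) (n : ℕ) : ∏ e ∈ Icc 2 (2 * n), GB (-1 : F) s e ≤ 54 / 5 := by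
  have hs1 : s < 1 := by nlinarith
  rcases Nat.eq_zero_or_pos n with rfl | hn
  · simp; norm_num
  · refine le_trans ?_ (prod_HH_le (by positivity) hs n)
    rw [← prod_GB_sp h2]
    have h1 : Icc 2 (2 * n + 1) = insert (2 * n + 1) (Icc 2 (2 * n)) := by
      ext e; simp only [mem_Icc, mem_insert]; omega
    rw [h1, Finset.prod_insert (by simp only [mem_Icc]; omega)]
    apply le_mul_of_one_le_left
    · apply Finset.prod_nonneg
      intro e he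
      exact zero_le_one.trans (one_le_GB hs0 hs1 (mem_Icc.mp he).1)
    · exact one_le_GB hs0 hs1 (by omega)

end GB

end H46.SpNum
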