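import Mathlib
import Cfsg.Agent.Lib.H46.SpNum

/-! Numerical bounds for the orthogonal class numbers. -/

set_option autoImplicit false

namespace H46.ONum

open Finset H46.IsoBound H46.SpNum

/-- the combined factor -/
noncomputable def KK (s : ℝ) (j : ℕ) : ℝ := (1 + s ^ (2 * j + 1)) ^ 4 / (1 - s ^ (4 * j)) * (1 / (1 - s ^ (4 * j + 2)))

theorem KK_mono {y z : ℝ} (hy : 0 ≤ y) (hyz : y ≤ z) (hz : z < 1) {j : ℕ} (hj : 1 ≤ j) : KK y j ≤ KK z j := by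
  have hz0 : 0 ≤ z := hy.trans hyz
  have a1 : y ^ (2 * j + 1) ≤ z ^ (2 * j + 1) := pow_le_pow_left₀ hy hyz _
  have a2 : y ^ (4 * j) ≤ z ^ (4 * j) := pow_le_pow_left₀ hy hyz _
  have a3 : y ^ (4 * j + 2) ≤ z ^ (4 * j + 2) := pow_le_pow_left₀ hy hyz _
  have b2 : z ^ (4 * j) < 1 := pow_lt_one₀ hz0 hz (by omega)
  have b3 : z ^ (4 * j + 2) < 1 := pow_lt_one₀ hz0 hz (by omega)
  have c1 : 0 ≤ y ^ (2 * j + 1) := pow_nonneg hy _
  unfold KK
  apply mul_le_mul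
  · apply div_le_div₀
    · positivity
    · exact pow_le_pow_left₀ (by positivity) (by linarith) 4
    · linarith
    · linarith
  · apply div_le_div₀ (by norm_num) le_rfl (by linarith) (by linarith)
  · apply div_nonneg (by norm_num); linarith
  · apply div_nonneg
    · positivity
    · linarith

theorem KK_pos {z : ℝ} (hz0 : 0 ≤ z) (hz : z < 1) {j : ℕ} (hj : 1 ≤ j) : 0 < KK z j := by
  have b2 : z ^ (4 * j) < 1 := pow_lt_one₀ hz0 hz (by omega)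
  have b3 : z ^ (4 * j + 2) < 1 := pow_lt_one₀ hz0 hz (by omega)
  have c1 : 0 ≤ z ^ (2 * j + 1) := pow_nonneg hz0 _
  unfold KK
  apply mul_pos
  · apply div_pos
    · positivity
    · linarith
  · apply div_pos (by norm_num); linarith

theorem one_le_KK {z : ℝ} (hz0 : 0 ≤ z) (hz : z < 1) {j : ℕ} (hj : 1 ≤ j) : 1 ≤ KK z j := by
  have b2 : z ^ (4 * j) < 1 := pow_lt_one₀ hz0 hz (by omega)
  have b3 : z ^ (4 * j + 2) < 1 := pow_lt_one₀ hz0 hz (by omega)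
  have c1 : 0 ≤ z ^ (2 * j + 1) := pow_nonneg hz0 _
  have c2 : 0 ≤ z ^ (4 * j) := pow_nonneg hz0 _
  have c3 : 0 ≤ z ^ (4 * j + 2) := pow_nonneg hz0 _
  unfold KK
  apply one_le_mul_of_one_le_of_one_le
  · rw [le_div_iff₀ (by linarith), one_mul]
    have : (1 : ℝ) ≤ (1 + z ^ (2 * j + 1)) ^ 4 := one_le_pow₀ (by linarith)
    linarith
  · rw [le_div_iff₀ (by linarith), one_mul]
    linarith

/-- the rational upper bound for `1 / √3` -/
noncomputable def s0 : ℝ := 5774 / 10000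

theorem tail_step {k : ℕ} (hk : 5 ≤ k) : KK s0 k * (1 / (1 - 7 * s0 ^ (2 * (k + 1) + 1))) ≤ 1 / (1 - 7 * s0 ^ (2 * k + 1)) := by
  obtain ⟨m, rfl⟩ : ∃ m, k = m + 5 := ⟨k - 5, by omega⟩
  obtain ⟨z, hz⟩ : ∃ z : ℝ, z = s0 ^ (2 * (m + 5) + 1) := ⟨_, rfl⟩
  have hs0 : (0 : ℝ) < s0 := by unfold s0; norm_num
  have hz0 : 0 < z := by rw [hz]; positivity
  have hz1 : z ≤ 1 / 400 := by
    rw [hz]
    calc s0 ^ (2 * (m + 5) + 1) ≤ s0 ^ 11 := pow_le_pow_of_le_one hs0.le (by unfold s0; norm_num) (by omega)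
      _ ≤ 1 / 400 := by unfold s0; norm_num
  have hy : s0 ^ 2 ≤ 34 / 100 := by unfold s0; norm_num
  have hy' : 33 / 100 ≤ s0 ^ 2 := by unfold s0; norm_num
  have e1 : s0 ^ (4 * (m + 5) + 2) = z ^ 2 := by rw [hz, ← pow_mul]; congr 1; omega
  have e2 : s0 ^ (4 * (m + 5)) ≤ 4 * z ^ 2 := by
    have h1 : s0 ^ (4 * (m + 5)) * s0 ^ 2 = z ^ 2 := by rw [← e1, ← pow_add]
    have h2 : 0 ≤ s0 ^ (4 * (m + 5)) := by positivity
    nlinarith
  have e3 : s0 ^ (2 * (m + 5 + 1) + 1) ≤ 34 / 100 * z := by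
    have h1 : s0 ^ (2 * (m + 5 + 1) + 1) = z * s0 ^ 2 := by rw [hz, ← pow_add]; congr 1
    rw [h1]
    nlinarith
  unfold KK
  rw [e1, ← hz]
  obtain ⟨a, ha⟩ : ∃ a, a = s0 ^ (4 * (m + 5)) := ⟨_, rfl⟩
  obtain ⟨b, hb⟩ : ∃ b, b = s0 ^ (2 * (m + 5 + 1) + 1) := ⟨_, rfl⟩
  have ha0 : 0 ≤ a := by rw [ha]; positivity
  have hb0 : 0 ≤ b := by rw [hb]; positivity
  rw [← ha, ← hb]
  rw [← ha] at e2
  rw [← hb] at e3
  have p1 : 0 < 1 - a := by nlinarith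
  have p2 : 0 < 1 - z ^ 2 := by nlinarith
  have p3 : 0 < 1 - 7 * b := by nlinarith
  have p4 : 0 < 1 - 7 * z := by nlinarith
  rw [div_mul_div_comm, div_mul_div_comm, mul_one, mul_one, div_le_div_iff₀ (by positivity) p4, one_mul]
  have h1 : (1 + z) ^ 4 * (1 - 7 * z) ≤ 1 - 3 * z := by
    have h2 : (1 + z) ^ 4 ≤ 1 + 4 * z + 7 * z ^ 2 := by nlinarith [mul_pos hz0 hz0, mul_pos (mul_pos hz0 hz0) hz0]
    calc (1 + z) ^ 4 * (1 - 7 * z) ≤ (1 + 4 * z + 7 * z ^ 2) * (1 - 7 * z) := mul_le_mul_of_nonneg_right h2 p4.le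
      _ ≤ 1 - 3 * z := by nlinarith [mul_pos hz0 hz0, mul_pos (mul_pos hz0 hz0) hz0]
  have h3 : 1 - 3 * z ≤ (1 - a) * (1 - z ^ 2) * (1 - 7 * b) := by
    have h4 : 1 - 5 * z ^ 2 ≤ (1 - a) * (1 - z ^ 2) := by nlinarith [mul_pos hz0 hz0, mul_nonneg ha0 (sq_nonneg z)]
    have h5 : 1 - 238 / 100 * z ≤ 1 - 7 * b := by linarith
    calc 1 - 3 * z ≤ (1 - 5 * z ^ 2) * (1 - 238 / 100 * z) := by nlinarith [mul_pos hz0 hz0, mul_pos (mul_pos hz0 hz0) hz0]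
      _ ≤ (1 - a) * (1 - z ^ 2) * (1 - 238 / 100 * z) := mul_le_mul_of_nonneg_right h4 (by nlinarith)
      _ ≤ _ := mul_le_mul_of_nonneg_left h5 (by positivity)
  exact h1.trans h3

theorem tail_le (m : ℕ) : ∀ k, 5 ≤ k → ∏ j ∈ Ico k (k + m), KK s0 j ≤ 1 / (1 - 7 * s0 ^ (2 * k + 1)) := by
  have hs0 : (0 : ℝ) < s0 := by unfold s0; norm_num
  have hs1 : s0 < 1 := by unfold s0; norm_num
  induction m with
  | zero =>
    intro k hk
    rw [add_zero, Ico_self, prod_empty]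
    have h1 : s0 ^ (2 * k + 1) ≤ 1 / 400 := by
      calc s0 ^ (2 * k + 1) ≤ s0 ^ 11 := pow_le_pow_of_le_one hs0.le hs1.le (by omega)
        _ ≤ 1 / 400 := by unfold s0; norm_num
    have h2 : 0 ≤ s0 ^ (2 * k + 1) := by positivity
    rw [le_div_iff₀ (by linarith)]
    linarith
  | succ m ih =>
    intro k hk
    rw [Finset.prod_eq_prod_Ico_succ_bot (by omega)]
    have h1 := ih (k + 1) (by omega)
    have h2 : k + 1 + m = k + (m + 1) := by omega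
    rw [h2] at h1
    refine le_trans (mul_le_mul_of_nonneg_left h1 (KK_pos hs0.le hs1 (by omega)).le) ?_
    exact tail_step hk

theorem prod_KK_s0 (n : ℕ) : (1 + 6 * s0 ^ 2 + s0 ^ 4) * (1 / (1 - s0 ^ 2)) * ∏ j ∈ Ico 1 n, KK s0 j ≤ 165 / 10 := by
  have hs0 : (0 : ℝ) < s0 := by unfold s0; norm_num
  have hs1 : s0 < 1 := by unfold s0; norm_num
  have hp : 0 ≤ (1 + 6 * s0 ^ 2 + s0 ^ 4) * (1 / (1 - s0 ^ 2)) := by unfold s0; norm_num
  rcases Nat.eq_zero_or_pos n with rfl | hn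
  · simp; unfold s0; norm_num
  have h0 : ∏ j ∈ Ico 1 (5 + n), KK s0 j = (∏ j ∈ Ico 1 n, KK s0 j) * ∏ j ∈ Ico n (5 + n), KK s0 j :=
    (Finset.prod_Ico_consecutive _ (by omega) (by omega)).symm
  have h1 : ∏ j ∈ Ico 1 n, KK s0 j ≤ ∏ j ∈ Ico 1 (5 + n), KK s0 j := by
    rw [h0]
    apply le_mul_of_one_le_right
    · apply Finset.prod_nonneg
      intro j hj
      exact (KK_pos hs0.le hs1 (mem_Ico.mp hj).1).le
    · apply one_le_prod_of
      intro j hj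
      exact one_le_KK hs0.le hs1 (by have := (mem_Ico.mp hj).1; omega)
  refine (mul_le_mul_of_nonneg_left h1 hp).trans ?_
  rw [← Finset.prod_Ico_consecutive _ (show 1 ≤ 5 by omega) (show 5 ≤ 5 + n by omega)]
  have h2 : (∏ j ∈ Ico 1 5, KK s0 j) * ∏ j ∈ Ico 5 (5 + n), KK s0 j ≤ (∏ j ∈ Ico 1 5, KK s0 j) * (1 / (1 - 7 * s0 ^ (2 * 5 + 1))) := by
    apply mul_le_mul_of_nonneg_left (tail_le n 5 le_rfl)
    apply Finset.prod_nonneg
    intro j hj
    exact (KK_pos hs0.le hs1 (mem_Ico.mp hj).1).le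
  refine (mul_le_mul_of_nonneg_left h2 hp).trans ?_
  have : ∏ j ∈ Ico 1 5, KK s0 j = KK s0 1 * KK s0 2 * KK s0 3 * KK s0 4 := by
    simp [Finset.prod_Ico_succ_top]
  rw [this]
  unfold KK s0
  norm_num

/-- the second product -/
theorem prod_geo {y : ℝ} (hy0 : 0 ≤ y) (hy : y ≤ 1 / 3) (m : ℕ) : ∀ a, 1 ≤ a → ∏ k ∈ Ico a (a + m), (1 / (1 - y ^ k)) ≤ 1 / (1 - 3 / 2 * y ^ a) := by
  induction m with
  | zero =>
    intro a ha
    rw [add_zero, Ico_self, prod_empty]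
    have h1 : y ^ a ≤ 1 / 3 := (pow_le_of_le_one hy0 (by linarith) (by omega)).trans hy
    have h2 : 0 ≤ y ^ a := pow_nonneg hy0 _
    rw [le_div_iff₀ (by linarith)]
    linarith
  | succ m ih =>
    intro a ha
    rw [Finset.prod_eq_prod_Ico_succ_bot (by omega)]
    have h1 := ih (a + 1) (by omega)
    have h2 : a + 1 + m = a + (m + 1) := by omega
    rw [h2] at h1
    have h3 : y ^ a ≤ 1 / 3 := (pow_le_of_le_one hy0 (by linarith) (by omega)).trans hy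
    have h4 : 0 ≤ y ^ a := pow_nonneg hy0 _
    have h5 : y ^ (a + 1) ≤ 1 / 3 * y ^ a := by rw [pow_succ, mul_comm]; exact mul_le_mul_of_nonneg_right hy h4
    have h6 : 0 ≤ y ^ (a + 1) := pow_nonneg hy0 _
    have h7 : 0 ≤ 1 / (1 - y ^ a) := by apply div_nonneg (by norm_num); linarith
    refine (mul_le_mul_of_nonneg_left h1 h7).trans ?_
    rw [div_mul_div_comm, one_mul, div_le_div_iff₀ (by apply mul_pos <;> linarith) (by linarith)]
    nlinarith [mul_nonneg h4 h6]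

section GB
variable {F : Type*} [Field F]

theorem GB1_odd (s : ℝ) (j : ℕ) : GB (1 : F) s (2 * j + 1) = (1 + s ^ (2 * j + 1)) ^ 4 / (1 - s ^ (4 * j)) := by
  unfold GB
  have h1 : (1 : F) * (-1) ^ (2 * j + 1 - 1) = 1 := by
    rw [Nat.add_sub_cancel, pow_mul]; simp
  rw [if_pos h1]
  congr 3
  omega

theorem GB1_even (h2 : (2 : F) ≠ 0) (s : ℝ) {j : ℕ} (hj : 1 ≤ j) : GB (1 : F) s (2 * j) = 1 / (1 - s ^ (4 * j - 2)) := by
  unfold GB
  have h1 : ¬ (1 : F) * (-1) ^ (2 * j - 1) = 1 := by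
    have : Odd (2 * j - 1) := ⟨j - 1, by omega⟩
    rw [this.neg_one_pow, one_mul]
    intro h
    apply h2
    have h5 : (2 : F) = 1 + 1 := by norm_num
    rw [h5]; nth_rw 1 [← h]; ring
  rw [if_neg h1]
  congr 3
  omega

theorem prod_GB_o (h2 : (2 : F) ≠ 0) (s : ℝ) (n : ℕ) : ∏ e ∈ Icc 2 (2 * (n + 1)), GB (1 : F) s e = (1 / (1 - s ^ 2)) * ∏ j ∈ Ico 1 (n + 1), KK s j := by
  induction n with
  | zero =>
    have h1 : Icc 2 (2 * (0 + 1)) = {2} := by decide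
    rw [h1, Finset.prod_singleton]
    have h3 := GB1_even h2 s (j := 1) le_rfl
    rw [show (2 : ℕ) = 2 * 1 by norm_num, h3]
    simp
  | succ n ih =>
    rw [Finset.prod_Ico_succ_top (by omega), ← mul_assoc, ← ih]
    have h1 : Icc 2 (2 * (n + 1 + 1)) = insert (2 * (n + 1 + 1)) (insert (2 * (n + 1) + 1) (Icc 2 (2 * (n + 1)))) := by
      ext e; simp only [mem_Icc, mem_insert]; omega
    rw [h1, Finset.prod_insert, Finset.prod_insert, GB1_odd, GB1_even h2 _ (by omega)]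
    · unfold KK
      have : 4 * (n + 1 + 1) - 2 = 4 * (n + 1) + 2 := by omega
      rw [this]; ring
    · simp only [mem_Icc]; omega
    · simp only [mem_Icc, mem_insert]; omega

theorem prod_GB1_le (h2 : (2 : F) ≠ 0) {s : ℝ} (hs0 : 0 < s) (hs : s ≤ s0) {n : ℕ} (hn : 1 ≤ n) :
    (1 + 6 * s ^ 2 + s ^ 4) * ∏ e ∈ Icc 2 (2 * n), GB (1 : F) s e ≤ 165 / 10 := by
  obtain ⟨m, rfl⟩ : ∃ m, n = m + 1 := ⟨n - 1, by omega⟩
  rw [prod_GB_o h2, ← mul_assoc]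
  refine le_trans ?_ (prod_KK_s0 (m + 1))
  have hs1 : s0 < 1 := by unfold s0; norm_num
  have a2 : s ^ 2 ≤ s0 ^ 2 := pow_le_pow_left₀ hs0.le hs _
  have a4 : s ^ 4 ≤ s0 ^ 4 := pow_le_pow_left₀ hs0.le hs _
  have b2 : s0 ^ 2 < 1 := by unfold s0; norm_num
  apply mul_le_mul
  · apply mul_le_mul
    · linarith
    · apply div_le_div₀ (by norm_num) le_rfl (by linarith) (by linarith)
    · apply div_nonneg (by norm_num); linarith
    · unfold s0; norm_num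
  · apply Finset.prod_le_prod
    · intro j hj
      exact (KK_pos hs0.le (by linarith) (mem_Ico.mp hj).1).le
    · intro j hj
      exact KK_mono hs0.le hs hs1 (mem_Ico.mp hj).1
  · apply Finset.prod_nonneg
    intro j hj
    exact (KK_pos hs0.le (by linarith) (mem_Ico.mp hj).1).le
  · apply mul_nonneg
    · unfold s0; norm_num
    · apply div_nonneg (by norm_num); linarith

theorem prod_geo_le {s : ℝ} (hs : s ^ 2 ≤ 1 / 3) (n : ℕ) : ∏ e ∈ Icc 2 n, (1 / (1 - s ^ (2 * e - 2))) ≤ 2 := by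
  have h1 : ∏ e ∈ Icc 2 n, (1 / (1 - s ^ (2 * e - 2))) = ∏ k ∈ Ico 1 (1 + (n - 1)), (1 / (1 - (s ^ 2) ^ k)) := by
    apply Finset.prod_bij (fun (e : ℕ) (_ : e ∈ Icc 2 n) => e - 1)
    · intro e he; rw [mem_Icc] at he; rw [mem_Ico]; omega
    · intro e he e' he' h; rw [mem_Icc] at he he'; omega
    · intro k hk; rw [mem_Ico] at hk; exact ⟨k + 1, by rw [mem_Icc]; omega, by omega⟩
    · intro e he
      rw [mem_Icc] at he
      rw [← pow_mul]
      congr 3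
      omega
  rw [h1]
  refine (prod_geo (sq_nonneg s) hs (n - 1) 1 le_rfl).trans ?_
  rw [pow_one, div_le_iff₀ (by linarith)]
  linarith

end GB

end H46.ONum
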