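import Mathlib
import Cfsg.Agent.Lib.H48.QuadStd
import Cfsg.Agent.Lib.H46.Fpf

/-! Sylow 2-subgroups of `O⁺_{2m}(2)`. -/

set_option autoImplicit false

open scoped Pointwise

namespace H46.OPlusTwo

open Module QuadraticMap H48.QuadSplit H48.QuadStd H48.QuadWitt

section Parity

variable {F V : Type*} [Field F] [AddCommGroup V] [Module F V]

/-- in dimension at least three the number of singular vectors is divisible by the characteristic -/
theorem dvd_card_singular [Finite F] [FiniteDimensional F V] (p : ℕ) [CharP F p] [Fact p.Prime] (Q : QuadraticForm F V) (hV : 3 ≤ finrank F V) :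
    p ∣ Nat.card {v : V // Q v = 0} := by
  classical
  letI := Fintype.ofFinite F
  let b := Module.finBasis F V
  let T := Q.toBilin b
  let f : MvPolynomial (Fin (finrank F V)) F := ∑ i, ∑ j, MvPolynomial.C (T (b i) (b j)) * (MvPolynomial.X i * MvPolynomial.X j)
  have heval : ∀ x : Fin (finrank F V) → F, MvPolynomial.eval x f = Q (b.equivFun.symm x) := by
    intro x
    have h1 : Q (b.equivFun.symm x) = T (b.equivFun.symm x) (b.equivFun.symm x) := by
      conv_lhs => rw [← QuadraticMap.toQuadraticMap_toBilin Q b]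
      rfl
    rw [h1, Basis.equivFun_symm_apply, LinearMap.map_sum₂]
    simp_rw [map_sum, LinearMap.map_smul₂, map_smul]
    simp only [f, map_sum, map_mul, MvPolynomial.eval_C, MvPolynomial.eval_X, smul_eq_mul]
    refine Finset.sum_congr rfl (fun i _ => Finset.sum_congr rfl (fun j _ => ?_))
    ring
  have hdeg : f.totalDegree < Fintype.card (Fin (finrank F V)) := by
    rw [Fintype.card_fin]
    apply lt_of_le_of_lt _ (by omega : 2 < finrank F V)
    apply MvPolynomial.totalDegree_finsetSum_le
    intro i _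
    apply MvPolynomial.totalDegree_finsetSum_le
    intro j _
    refine (MvPolynomial.totalDegree_mul _ _).trans ?_
    rw [MvPolynomial.totalDegree_C, zero_add]
    refine (MvPolynomial.totalDegree_mul _ _).trans ?_
    rw [MvPolynomial.totalDegree_X, MvPolynomial.totalDegree_X]
  have h := char_dvd_card_solutions p hdeg
  rw [← Nat.card_eq_fintype_card] at h
  refine h.trans (dvd_of_eq ?_)
  apply Nat.card_congr
  refine b.equivFun.symm.toEquiv.subtypeEquiv (fun x => ?_)
  rw [heval]; rfl

/-- odd number of nonzero singular vectors -/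
theorem odd_card [Finite F] [FiniteDimensional F V] (h2 : (2 : F) = 0) (Q : QuadraticForm F V) (hV : 3 ≤ finrank F V) :
    ¬ 2 ∣ Nat.card {v : V // v ≠ 0 ∧ Q v = 0} := by
  haveI := H48.FinFieldSq.charP_two_of_two_eq_zero h2
  haveI : Fact (Nat.Prime 2) := ⟨Nat.prime_two⟩
  haveI : Finite V := Module.finite_of_finite F
  have h1 := dvd_card_singular 2 Q hV
  have h3 : Nat.card {v : V // Q v = 0} = Nat.card {v : V // v ≠ 0 ∧ Q v = 0} + 1 := by
    classical
    rw [← Finite.card_option]
    apply Nat.card_congr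
    refine ⟨fun v => if h : v.1 = 0 then none else some ⟨v.1, h, v.2⟩, fun o => o.elim ⟨0, QuadraticMap.map_zero Q⟩ (fun v => ⟨v.1, v.2.2⟩), ?_, ?_⟩
    · intro v
      by_cases h : v.1 = 0
      · simp only [h, dite_true]
        exact Subtype.ext h.symm
      · simp only [h, dite_false]
        rfl
    · rintro (_ | ⟨v, hv1, hv2⟩)
      · simp
      · simp [hv1]
  omega

end Parity

/-- totally singular subspaces -/
def TS {F V : Type*} [Field F] [AddCommGroup V] [Module F V] (Q : QuadraticForm F V) (L : Submodule F V) : Prop := ∀ v ∈ L, Q v = 0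

section Flags

variable {F V : Type*} [Field F] [AddCommGroup V] [Module F V] {Q : QuadraticForm F V}

theorem TS.polar {L : Submodule F V} (h : TS Q L) {u v : V} (hu : u ∈ L) (hv : v ∈ L) : polar Q u v = 0 := by
  unfold QuadraticMap.polar
  rw [h _ (L.add_mem hu hv), h u hu, h v hv]; ring

theorem TS.le_orth {L : Submodule F V} (h : TS Q L) : L ≤ orth Q L := fun _ hv _ hu => h.polar hu hv

theorem TS.sup_span {L : Submodule F V} (h : TS Q L) {u : V} (hu : u ∈ orth Q L) (hQ : Q u = 0) : TS Q (L ⊔ F ∙ u) := by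
  intro x hx
  obtain ⟨l, hl, y, hy, rfl⟩ := Submodule.mem_sup.mp hx
  obtain ⟨c, rfl⟩ := Submodule.mem_span_singleton.mp hy
  rw [QuadraticMap.map_add Q, h l hl, QuadraticMap.map_smul, hQ, QuadraticMap.polar_smul_right, hu l hl]
  simp

/-- the odd number of extensions of a totally singular subspace -/
theorem odd_ext [Finite F] [FiniteDimensional F V] (hF : Nat.card F = 2) (hQ : ND Q) (L : Submodule F V) (hL : TS Q L)
    (hd : 2 * finrank F L + 3 ≤ finrank F V) :
    ¬ 2 ∣ Nat.card {L' : Submodule F V // L ≤ L' ∧ finrank F L' = finrank F L + 1 ∧ TS Q L'} := by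
  classical
  have h2 : (2 : F) = 0 := by
    have := pow_card_eq_one' (x := (1 : Multiplicative F))
    have h3 : (Nat.card F : F) = 0 := by
      letI := Fintype.ofFinite F
      rw [Nat.card_eq_fintype_card]; exact Nat.cast_card_eq_zero F
    rw [hF] at h3; exact_mod_cast h3
  have hc : ∀ c : F, c ≠ 0 → c = 1 := by
    intro c hc
    letI := Fintype.ofFinite F
    have h3 := FiniteField.pow_card_sub_one_eq_one c hc
    rw [← Nat.card_eq_fintype_card, hF] at h3
    simpa using h3
  obtain ⟨U', hU'⟩ := L.exists_isCompl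
  set U := U' ⊓ orth Q L with hU
  have hUL : U ⊓ L = ⊥ := by
    rw [eq_bot_iff]
    intro x hx
    have : x ∈ L ⊓ U' := ⟨hx.2, hx.1.1⟩
    rwa [hU'.inf_eq_bot] at this
  have hsup : L ⊔ U = orth Q L := by
    rw [hU, ← sup_inf_assoc_of_le _ hL.le_orth, hU'.sup_eq_top, top_inf_eq]
  have hdimU : 3 ≤ finrank F U := by
    have h3 := Submodule.finrank_sup_add_finrank_inf_eq L U
    rw [hsup, inf_comm, hUL, finrank_bot] at h3
    have h4 := finrank_orth hQ L
    omega
  have hodd := odd_card h2 (Q.restrict U) hdimU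
  intro hdvd
  apply hodd
  refine hdvd.trans (dvd_of_eq ?_)
  symm
  have hnot : ∀ u ∈ U, u ≠ 0 → u ∉ L := by
    intro u hu hu0 huL
    have : u ∈ U ⊓ L := ⟨hu, huL⟩
    rw [hUL] at this
    exact hu0 this
  have hfr : ∀ u ∈ U, u ≠ 0 → finrank F (L ⊔ F ∙ u : Submodule F V) = finrank F L + 1 := by
    intro u hu hu0
    have h3 := Submodule.finrank_sup_add_finrank_inf_eq L (F ∙ u)
    have h4 : L ⊓ F ∙ u = ⊥ := by
      rw [eq_bot_iff]
      rintro x ⟨hx1, hx2⟩
      obtain ⟨c, rfl⟩ := Submodule.mem_span_singleton.mp hx2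
      by_cases hc0 : c = 0
      · simp [hc0]
      · rw [hc c hc0, one_smul] at hx1
        exact absurd hx1 (hnot u hu hu0)
    rw [h4, finrank_bot, finrank_span_singleton hu0] at h3
    omega
  apply Nat.card_eq_of_bijective (fun u : {v : U // v ≠ 0 ∧ Q.restrict U v = 0} =>
    (⟨L ⊔ F ∙ (u.1 : V), le_sup_left, hfr u.1 u.1.2 (fun h => u.2.1 (Subtype.ext h)),
      hL.sup_span u.1.2.2 u.2.2⟩ : {L' : Submodule F V // L ≤ L' ∧ finrank F L' = finrank F L + 1 ∧ TS Q L'}))
  constructor
  · intro u v huv
    have h3 : L ⊔ F ∙ (u.1 : V) = L ⊔ F ∙ (v.1 : V) := congrArg Subtype.val huv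
    have h4 : (u.1 : V) ∈ L ⊔ F ∙ (v.1 : V) := by
      rw [← h3]; exact Submodule.mem_sup_right (Submodule.mem_span_singleton_self _)
    obtain ⟨l, hl, y, hy, hly⟩ := Submodule.mem_sup.mp h4
    obtain ⟨c, rfl⟩ := Submodule.mem_span_singleton.mp hy
    have h5 : l ∈ U := by
      have : l = (u.1 : V) - c • (v.1 : V) := by rw [← hly]; simp
      rw [this]
      exact U.sub_mem u.1.2 (U.smul_mem c v.1.2)
    have h6 : l = 0 := by
      have : l ∈ U ⊓ L := ⟨h5, hl⟩
      rw [hUL] at this
      exact this
    rw [h6, zero_add] at hly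
    have hc0 : c ≠ 0 := by
      rintro rfl
      rw [zero_smul] at hly
      exact u.2.1 (Subtype.ext hly.symm)
    rw [hc c hc0, one_smul] at hly
    exact Subtype.ext (Subtype.ext hly.symm)
  · rintro ⟨L', hLL', hfr', hTS⟩
    obtain ⟨x, hx, hxL⟩ : ∃ x ∈ L', x ∉ L := by
      by_contra hcon
      push Not at hcon
      have := Submodule.finrank_mono (R := F) (show L' ≤ L from hcon)
      omega
    have hxo : x ∈ orth Q L := fun l hl => hTS.polar (hLL' hl) hx
    rw [← hsup] at hxo
    obtain ⟨l, hl, u, hu, rfl⟩ := Submodule.mem_sup.mp hxo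
    have huL' : u ∈ L' := by
      have := L'.sub_mem hx (hLL' hl)
      simpa using this
    have hu0 : u ≠ 0 := by
      rintro rfl
      rw [add_zero] at hxL
      exact hxL hl
    refine ⟨⟨⟨u, hu⟩, fun h => hu0 (congrArg Subtype.val h), hTS u huL'⟩, ?_⟩
    apply Subtype.ext
    show L ⊔ F ∙ u = L'
    apply Submodule.eq_of_le_of_finrank_eq
    · apply sup_le hLL'
      rw [Submodule.span_singleton_le_iff_mem]
      exact huL'
    · rw [hfr u hu hu0, hfr']

/-- a 2-group of isometries stabilises totally singular subspaces -/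
theorem exists_flag [Finite F] [FiniteDimensional F V] (hF : Nat.card F = 2) (hQ : ND Q) {P : Type*} [Group P] [Finite P] (hP : IsPGroup 2 P)
    (ρ : P →* (V ≃ₗ[F] V)) (hρ : ∀ g v, Q (ρ g v) = Q v) (k : ℕ) (hk : 2 * k + 1 ≤ finrank F V) :
    ∃ L : Submodule F V, TS Q L ∧ finrank F L = k ∧ ∀ g, ∀ v ∈ L, ρ g v ∈ L := by
  haveI : Fact (Nat.Prime 2) := ⟨Nat.prime_two⟩
  haveI : Finite V := Module.finite_of_finite F
  induction k with
  | zero =>
    refine ⟨⊥, ?_, finrank_bot F V, ?_⟩
    · intro v hv
      rw [(Submodule.mem_bot F).mp hv, QuadraticMap.map_zero]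
    · intro g v hv
      rw [(Submodule.mem_bot F).mp hv, _root_.map_zero]
      exact Submodule.zero_mem _
  | succ k ih =>
    obtain ⟨L, hL, hfr, hinv⟩ := ih (by omega)
    have hodd := odd_ext hF hQ L hL (by omega)
    letI : MulAction P {L' : Submodule F V // L ≤ L' ∧ finrank F L' = finrank F L + 1 ∧ TS Q L'} :=
      { smul := fun g L' => ⟨L'.1.map (ρ g : V →ₗ[F] V), by
          refine ⟨?_, ?_, ?_⟩
          · intro v hv
            refine ⟨ρ g⁻¹ v, L'.2.1 (hinv _ v hv), ?_⟩
            show ρ g (ρ g⁻¹ v) = v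
            rw [← LinearEquiv.mul_apply, ← map_mul, mul_inv_cancel, map_one]; rfl
          · exact (LinearEquiv.finrank_map_eq (ρ g) L'.1).trans L'.2.2.1
          · rintro _ ⟨v, hv, rfl⟩
            show Q (ρ g v) = 0
            rw [hρ]; exact L'.2.2.2 v hv⟩
        one_smul := by
          intro L'
          apply Subtype.ext
          show L'.1.map (ρ 1 : V →ₗ[F] V) = L'.1
          rw [map_one]
          exact Submodule.map_id _
        mul_smul := by
          intro g h L'
          apply Subtype.ext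
          show L'.1.map (ρ (g * h) : V →ₗ[F] V) = (L'.1.map (ρ h : V →ₗ[F] V)).map (ρ g : V →ₗ[F] V)
          rw [← Submodule.map_comp, map_mul]
          rfl }
    obtain ⟨L', hL'⟩ := hP.nonempty_fixed_point_of_prime_not_dvd_card _ hodd
    refine ⟨L'.1, L'.2.2.2, by rw [L'.2.2.1, hfr], fun g v hv => ?_⟩
    have h1 := congrArg Subtype.val (hL' g)
    have h2 : L'.1.map (ρ g : V →ₗ[F] V) = L'.1 := h1
    rw [← h2]
    exact ⟨v, hv, rfl⟩

theorem two_eq_zero [Finite F] (hF : Nat.card F = 2) : (2 : F) = 0 := by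
  letI := Fintype.ofFinite F
  have h3 : (Nat.card F : F) = 0 := by
    rw [Nat.card_eq_fintype_card]; exact Nat.cast_card_eq_zero F
  rw [hF] at h3; exact_mod_cast h3

theorem eq_one [Finite F] (hF : Nat.card F = 2) (c : F) (hc : c ≠ 0) : c = 1 := by
  letI := Fintype.ofFinite F
  have h3 := FiniteField.pow_card_sub_one_eq_one c hc
  rw [← Nat.card_eq_fintype_card, hF] at h3
  simpa using h3

/-- a singular vector in `L^⊥` outside `L` -/
theorem exists_outside [FiniteDimensional F V] (hQ : ND Q) (L M : Submodule F V) (hL : TS Q L) (hM : TS Q M)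
    (hd : finrank F V = 2 * finrank F M) (hd' : finrank F L + 1 = finrank F M) : ∃ v ∈ orth Q L, Q v = 0 ∧ v ∉ L := by
  have hMM : orth Q M = M := by
    symm
    apply Submodule.eq_of_le_of_finrank_eq hM.le_orth
    have := finrank_orth hQ M
    omega
  have h1 := finrank_orth hQ (L ⊔ M)
  have h2 := Submodule.finrank_sup_add_finrank_inf_eq L M
  have h3 : orth Q (L ⊔ M) ≤ orth Q L ⊓ M := by
    intro x hx
    refine ⟨fun u hu => hx u (Submodule.mem_sup_left hu), ?_⟩
    rw [← hMM]
    exact fun u hu => hx u (Submodule.mem_sup_right hu)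
  by_contra hcon
  push Not at hcon
  have h4 : orth Q (L ⊔ M) ≤ L ⊓ M := fun x hx => ⟨hcon x (h3 hx).1 (hM x (h3 hx).2), (h3 hx).2⟩
  have h5 := Submodule.finrank_mono (R := F) h4
  omega

open H46.Fpf in
/-- no elements of odd prime order fix `L` pointwise -/
theorem no_odd [Finite F] [FiniteDimensional F V] (hF : Nat.card F = 2) (hQ : ND Q) (L M : Submodule F V) (hL : TS Q L) (hM : TS Q M)
    (hd : finrank F V = 2 * finrank F M) (hd' : finrank F L + 1 = finrank F M) (u : (Module.End F V)ˣ) (hu : ∀ v, Q ((u : Module.End F V) v) = Q v)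
    (hfix : ∀ v ∈ L, (u : Module.End F V) v = v) {r : ℕ} (hr : r.Prime) (hr2 : r ≠ 2) (hur : u ^ r = 1) : u = 1 := by
  by_contra hu1
  have h2 := two_eq_zero hF
  obtain ⟨j, hj⟩ := hr.odd_of_ne_two hr2
  have hrF : (r : F) ≠ 0 := by
    rw [hj]; push_cast; rw [h2]; simp
  have hpol : ∀ x y, polar Q ((u : Module.End F V) x) ((u : Module.End F V) y) = polar Q x y := by
    intro x y
    unfold QuadraticMap.polar
    rw [← map_add, hu, hu, hu]
  have hc := H46.Fpf.isCompl hrF (g := (u : Module.End F V)) (by rw [← Units.val_pow_eq_pow_val, hur, Units.val_one])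
  have horth : ∀ v ∈ fix (u : Module.End F V), ∀ w ∈ com (u : Module.End F V), polar Q v w = 0 := by
    rintro v hv _ ⟨x, rfl⟩
    rw [mem_fix] at hv
    rw [LinearMap.sub_apply, Module.End.one_apply, QuadraticMap.polar_sub_right]
    nth_rewrite 1 [← hv]
    rw [hpol, sub_self]
  have hLfix : L ≤ fix (u : Module.End F V) := fun v hv => mem_fix.mpr (hfix v hv)
  have hcomL : com (u : Module.End F V) ≤ orth Q L := fun w hw l hl => horth l (hLfix hl) w hw
  have hinf : L ⊓ com (u : Module.End F V) = ⊥ := by
    rw [eq_bot_iff, ← hc.inf_eq_bot]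
    exact inf_le_inf_right _ hLfix
  have h3 := Submodule.finrank_sup_add_finrank_inf_eq L (com (u : Module.End F V))
  rw [hinf, finrank_bot] at h3
  have hle : L ⊔ com (u : Module.End F V) ≤ orth Q L := sup_le hL.le_orth hcomL
  have h4 := Submodule.finrank_mono (R := F) hle
  have h5 := finrank_orth hQ L
  have hpos : 0 < finrank F (com (u : Module.End F V)) := by
    rw [Nat.pos_iff_ne_zero, Ne, Submodule.finrank_eq_zero]
    exact com_ne_bot (fun h => hu1 (Units.ext h))
  have hcf : ∀ v ∈ com (u : Module.End F V), (u : Module.End F V) v = v → v = 0 := fun v hv hv2 =>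
    eq_zero_of_mem hrF (by rw [← Units.val_pow_eq_pow_val, hur, Units.val_one]) hv2 hv
  have hcinv : ∀ v ∈ com (u : Module.End F V), (u : Module.End F V) v ∈ com (u : Module.End F V) := com_inv (Commute.refl _)
  have h6 := dvd_of_inv u hr hur _ hcinv hcf
  rw [hF] at h6
  have hfr2 : finrank F (com (u : Module.End F V)) = 2 := by
    rcases (by omega : finrank F (com (u : Module.End F V)) = 1 ∨ finrank F (com (u : Module.End F V)) = 2) with h7 | h7
    · rw [h7] at h6
      exact absurd (Nat.dvd_one.mp h6) hr.one_lt.ne'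
    · exact h7
  have hsup : L ⊔ com (u : Module.End F V) = orth Q L := Submodule.eq_of_le_of_finrank_eq hle (by omega)
  obtain ⟨v, hv, hv0, hvL⟩ := exists_outside hQ L M hL hM hd hd'
  rw [← hsup] at hv
  obtain ⟨l, hl, c, hcc, rfl⟩ := Submodule.mem_sup.mp hv
  have hc0 : c ≠ 0 := by
    rintro rfl
    rw [add_zero] at hvL
    exact hvL hl
  have hQc : Q c = 0 := by
    rw [QuadraticMap.map_add Q, hL l hl, horth l (hLfix hl) c hcc] at hv0
    simpa using hv0
  set d := (u : Module.End F V) c with hdd
  have hdc : d ∈ com (u : Module.End F V) := hcinv c hcc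
  have hcd : c ≠ d := fun h => hc0 (hcf c hcc h.symm)
  have hd0 : d ≠ 0 := by
    intro h
    apply hc0
    have h7 : ((u⁻¹ : (Module.End F V)ˣ) : Module.End F V) d = c := by
      rw [hdd, ← Module.End.mul_apply, Units.inv_mul]; rfl
    rw [← h7, h, _root_.map_zero]
  -- `c, d` is a basis
  have hspan : ∀ y ∈ com (u : Module.End F V), y = 0 ∨ y = c ∨ y = d ∨ y = c + d := by
    have hli : LinearIndependent F ![(⟨c, hcc⟩ : com (u : Module.End F V)), ⟨d, hdc⟩] := by
      rw [LinearIndependent.pair_iff]
      intro a b hab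
      have h7 : a • c + b • d = 0 := congrArg Subtype.val hab
      by_cases ha : a = 0
      · refine ⟨ha, ?_⟩
        rw [ha, zero_smul, zero_add] at h7
        exact (smul_eq_zero.mp h7).resolve_right hd0
      · exfalso
        rw [eq_one hF a ha, one_smul] at h7
        by_cases hb : b = 0
        · rw [hb, zero_smul, add_zero] at h7; exact hc0 h7
        · rw [eq_one hF b hb, one_smul] at h7
          apply hcd
          have h8 : d + d = 0 := by rw [← two_smul F, h2, zero_smul]
          exact add_right_cancel (h7.trans h8.symm)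
    intro y hy
    have htop : Submodule.span F (Set.range ![(⟨c, hcc⟩ : com (u : Module.End F V)), ⟨d, hdc⟩]) = ⊤ := by
      apply hli.span_eq_top_of_card_eq_finrank'
      rw [hfr2]; rfl
    have h7 : (⟨y, hy⟩ : com (u : Module.End F V)) ∈ Submodule.span F (Set.range ![(⟨c, hcc⟩ : com (u : Module.End F V)), ⟨d, hdc⟩]) := by
      rw [htop]; trivial
    rw [Matrix.range_cons, Matrix.range_cons, Matrix.range_empty, Set.union_empty, Set.singleton_union, Submodule.mem_span_pair] at h7
    obtain ⟨a, b, hab⟩ := h7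
    have h8 : a • c + b • d = y := congrArg Subtype.val hab
    by_cases ha : a = 0
    · by_cases hb : b = 0
      · left; rw [← h8, ha, hb]; simp
      · right; right; left; rw [← h8, ha, eq_one hF b hb]; simp
    · by_cases hb : b = 0
      · right; left; rw [← h8, hb, eq_one hF a ha]; simp
      · right; right; right; rw [← h8, eq_one hF a ha, eq_one hF b hb]; simp
  have hinj : Function.Injective (u : Module.End F V) := by
    intro x y hxy
    have h7 := congrArg ((u⁻¹ : (Module.End F V)ˣ) : Module.End F V) hxy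
    rw [← Module.End.mul_apply, ← Module.End.mul_apply, Units.inv_mul] at h7
    exact h7
  have hud : (u : Module.End F V) d = c + d := by
    rcases hspan _ (hcinv d hdc) with h7 | h7 | h7 | h7
    · exact absurd (hinj (h7.trans (_root_.map_zero _).symm)) hd0
    · exfalso
      -- u² c = c
      have h8 : ∀ i : ℕ, ((u : Module.End F V) ^ (2 * i)) c = c := by
        intro i
        induction i with
        | zero => rfl
        | succ i ih =>
          rw [mul_add, mul_one, pow_add, Module.End.mul_apply, pow_two, Module.End.mul_apply, ← hdd, h7, ih]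
      have h9 : ((u : Module.End F V) ^ r) c = d := by
        rw [hj, pow_succ', Module.End.mul_apply, h8]
      rw [← Units.val_pow_eq_pow_val, hur] at h9
      exact hcd h9
    · exact absurd (hcf d hdc h7) hd0
    · exact h7
  have hQd : Q d = 0 := by rw [hdd, hu, hQc]
  have hpcd : polar Q c d = 0 := by
    have h7 : Q (c + d) = 0 := by rw [← hud, hu, hQd]
    rw [QuadraticMap.map_add Q, hQc, hQd] at h7
    simpa using h7
  apply hc0
  apply hQ
  intro y
  obtain ⟨a, ha, b, hb, rfl⟩ : ∃ a ∈ fix (u : Module.End F V), ∃ b ∈ com (u : Module.End F V), a + b = y := by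
    have : y ∈ fix (u : Module.End F V) ⊔ com (u : Module.End F V) := by rw [hc.sup_eq_top]; trivial
    exact Submodule.mem_sup.mp this
  rw [QuadraticMap.polar_add_right, polar_comm Q c a, horth a ha c hcc, zero_add]
  have hpcc : polar Q c c = 0 := by rw [QuadraticMap.polar_self, hQc]; simp
  rcases hspan b hb with h7 | h7 | h7 | h7
  · rw [h7, QuadraticMap.polar_zero_right]
  · rw [h7, hpcc]
  · rw [h7, hpcd]
  · rw [h7, QuadraticMap.polar_add_right, hpcc, hpcd, add_zero]

/-- a nontrivial isometry fixing two totally singular subspaces pointwise -/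
theorem exists_isom [Finite F] [FiniteDimensional F V] (hF : Nat.card F = 2) (hQ : ND Q) (W : Submodule F V)
    (hW : finrank F W + 2 ≤ finrank F V) : ∃ φ : V ≃ₗ[F] V, φ ≠ 1 ∧ (∀ v, Q (φ v) = Q v) ∧ ∀ v ∈ W, φ v = v := by
  have h2 := two_eq_zero hF
  have hxx : ∀ x : V, x + x = 0 := fun x => by rw [← two_smul F, h2, zero_smul]
  have hff : ∀ x : F, x + x = 0 := fun x => by rw [← two_mul, h2, zero_mul]
  have hdim := finrank_orth hQ W
  by_cases hns : ∃ v ∈ orth Q W, Q v ≠ 0
  · obtain ⟨v, hv, hv0⟩ := hns
    have hv1 := eq_one hF _ hv0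
    have hvv : polar Q v v = 0 := by rw [QuadraticMap.polar_self, two_smul, hff]
    let f : V →ₗ[F] V :=
      { toFun := fun x => x + polar Q v x • v
        map_add' := fun x y => by rw [QuadraticMap.polar_add_right, add_smul]; abel
        map_smul' := fun c x => by rw [QuadraticMap.polar_smul_right, smul_add, smul_assoc]; rfl }
    have hf : ∀ x, f x = x + polar Q v x • v := fun x => rfl
    have hff' : f * f = 1 := by
      apply LinearMap.ext
      intro x
      rw [Module.End.mul_apply, hf, hf, QuadraticMap.polar_add_right, QuadraticMap.polar_smul_right, hvv, smul_zero, add_zero, add_assoc, hxx, add_zero]; rfl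
    refine ⟨LinearEquiv.ofLinear f f hff' hff', ?_, ?_, ?_⟩
    · intro h
      have hne : v ≠ 0 := by rintro rfl; rw [QuadraticMap.map_zero] at hv0; exact hv0 rfl
      apply hne
      apply hQ
      intro y
      have h3 : y + polar Q v y • v = y := LinearEquiv.congr_fun h y
      rw [add_eq_left] at h3
      exact (smul_eq_zero.mp h3).resolve_right hne
    · intro x
      show Q (x + polar Q v x • v) = Q x
      rw [QuadraticMap.map_add Q, QuadraticMap.map_smul, hv1, QuadraticMap.polar_smul_right, polar_comm Q x v, smul_eq_mul, smul_eq_mul, mul_one, add_assoc, hff, add_zero]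
    · intro x hx
      show x + polar Q v x • v = x
      rw [polar_comm Q v x, hv x hx, zero_smul, add_zero]
  · push Not at hns
    have hTS : TS Q (orth Q W) := hns
    have hfr : 2 ≤ finrank F (orth Q W) := by omega
    obtain ⟨x₁, hx₁⟩ : ∃ x : orth Q W, x ≠ 0 := by
      haveI := Module.nontrivial_of_finrank_pos (R := F) (by omega : 0 < finrank F (orth Q W))
      exact exists_ne 0
    obtain ⟨x₂, hx₂, hx₂'⟩ : ∃ x ∈ orth Q W, x ∉ F ∙ (x₁ : V) := by
      by_contra hcon
      push Not at hcon
      have h3 := Submodule.finrank_mono (R := F) (show orth Q W ≤ F ∙ (x₁ : V) from hcon)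
      rw [finrank_span_singleton (fun h => hx₁ (Subtype.ext h))] at h3
      omega
    obtain ⟨a, ha⟩ : ∃ a : V, a = x₁ := ⟨_, rfl⟩
    have haW : a ∈ orth Q W := ha ▸ x₁.2
    have ha0 : a ≠ 0 := by rw [ha]; exact fun h => hx₁ (Subtype.ext h)
    rw [← ha] at hx₂'
    let f : V →ₗ[F] V :=
      { toFun := fun x => x + (polar Q a x • x₂ + polar Q x₂ x • a)
        map_add' := fun x y => by rw [QuadraticMap.polar_add_right, QuadraticMap.polar_add_right, add_smul, add_smul]; abel
        map_smul' := fun c x => by rw [QuadraticMap.polar_smul_right, QuadraticMap.polar_smul_right, smul_add, smul_add, smul_assoc, smul_assoc]; rfl }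
    have hf : ∀ x, f x = x + (polar Q a x • x₂ + polar Q x₂ x • a) := fun x => rfl
    have haa : polar Q a a = 0 := hTS.polar haW haW
    have hax : polar Q a x₂ = 0 := hTS.polar haW hx₂
    have hxa : polar Q x₂ a = 0 := hTS.polar hx₂ haW
    have hxx₂ : polar Q x₂ x₂ = 0 := hTS.polar hx₂ hx₂
    have hff' : f * f = 1 := by
      apply LinearMap.ext
      intro x
      have h3 : polar Q a (f x) = polar Q a x := by
        rw [hf, QuadraticMap.polar_add_right, QuadraticMap.polar_add_right, QuadraticMap.polar_smul_right, QuadraticMap.polar_smul_right, haa, hax]; simp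
      have h4 : polar Q x₂ (f x) = polar Q x₂ x := by
        rw [hf, QuadraticMap.polar_add_right, QuadraticMap.polar_add_right, QuadraticMap.polar_smul_right, QuadraticMap.polar_smul_right, hxa, hxx₂]; simp
      rw [Module.End.mul_apply, hf (f x), h3, h4, hf, add_assoc, hxx, add_zero]; rfl
    refine ⟨LinearEquiv.ofLinear f f hff' hff', ?_, ?_, ?_⟩
    · intro h
      apply ha0
      apply hQ
      intro y
      by_contra hy
      have h3 : y + (polar Q a y • x₂ + polar Q x₂ y • a) = y := LinearEquiv.congr_fun h y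
      rw [add_eq_left, eq_one hF _ hy, one_smul] at h3
      apply hx₂'
      rw [Submodule.mem_span_singleton]
      exact ⟨-polar Q x₂ y, by rw [neg_smul]; exact (eq_neg_of_add_eq_zero_left h3).symm⟩
    · intro x
      show Q (x + (polar Q a x • x₂ + polar Q x₂ x • a)) = Q x
      have h3 : Q (polar Q a x • x₂ + polar Q x₂ x • a) = 0 := hTS _ (Submodule.add_mem _ (Submodule.smul_mem _ _ hx₂) (Submodule.smul_mem _ _ haW))
      rw [QuadraticMap.map_add Q, h3, QuadraticMap.polar_add_right, QuadraticMap.polar_smul_right, QuadraticMap.polar_smul_right, polar_comm Q x x₂, polar_comm Q x a,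
        smul_eq_mul, smul_eq_mul, mul_comm (polar Q x₂ x), hff, add_zero, add_zero]
    · intro x hx
      show x + (polar Q a x • x₂ + polar Q x₂ x • a) = x
      rw [polar_comm Q a x, polar_comm Q x₂ x, haW x hx, hx₂ x hx]; simp

/-- any two Sylow 2-subgroups meet -/
theorem main [Finite F] [FiniteDimensional F V] (hF : Nat.card F = 2) (hQ : ND Q) (M : Submodule F V) (hM : TS Q M)
    (hd : finrank F V = 2 * finrank F M) (hM1 : 1 ≤ finrank F M)
    {G : Type*} [Group G] [Finite G] (ρ : G →* (V ≃ₗ[F] V)) (hinj : Function.Injective ρ) (hρ : ∀ g v, Q (ρ g v) = Q v)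
    (hfull : ∀ φ : V ≃ₗ[F] V, (∀ v, Q (φ v) = Q v) → ∃ g, ρ g = φ) (H : Sylow 2 G) (x : G) :
    (H : Subgroup G) ⊓ MulAut.conj x • (H : Subgroup G) ≠ ⊥ := by
  haveI : Fact (Nat.Prime 2) := ⟨Nat.prime_two⟩
  have key : ∀ H : Sylow 2 G, ∃ L : Submodule F V, finrank F L + 1 = finrank F M ∧ ∀ g : G, (∀ v ∈ L, ρ g v = v) → g ∈ (H : Subgroup G) := by
    intro H
    obtain ⟨L, hL, hfr, hinv⟩ := exists_flag hF hQ H.isPGroup' (ρ.comp (H : Subgroup G).subtype) (fun g v => hρ _ v) (finrank F M - 1) (by omega)
    refine ⟨L, by omega, ?_⟩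
    let S : Subgroup G :=
      { carrier := {g | ∀ v ∈ L, ρ g v = v}
        mul_mem' := by
          intro a b ha hb v hv
          rw [map_mul, LinearEquiv.mul_apply, hb v hv, ha v hv]
        one_mem' := by
          intro v _
          rw [map_one]; rfl
        inv_mem' := by
          intro a ha v hv
          have h1 : ρ a⁻¹ (ρ a v) = v := by
            rw [← LinearEquiv.mul_apply, ← map_mul, inv_mul_cancel, map_one]; rfl
          rw [ha v hv] at h1
          exact h1 }
    have hS : IsPGroup 2 S := by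
      rw [IsPGroup.iff_card]
      refine ⟨_, Nat.eq_prime_pow_of_unique_prime_dvd Nat.card_pos.ne' ?_⟩
      intro r hr hrd
      by_contra hr2
      haveI := Fact.mk hr
      obtain ⟨g, hg⟩ := exists_prime_orderOf_dvd_card' r hrd
      have hg1 : (g : G) ^ r = 1 := by
        have := pow_orderOf_eq_one g
        rw [hg] at this
        exact congrArg Subtype.val this
      let w : (Module.End F V)ˣ := ⟨(ρ g : V →ₗ[F] V), (ρ (g : G)⁻¹ : V →ₗ[F] V), by
        ext v
        show ρ g (ρ (g : G)⁻¹ v) = v
        rw [← LinearEquiv.mul_apply, ← map_mul, mul_inv_cancel, map_one]; rfl, by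
        ext v
        show ρ (g : G)⁻¹ (ρ g v) = v
        rw [← LinearEquiv.mul_apply, ← map_mul, inv_mul_cancel, map_one]; rfl⟩
      have hwpow : ∀ k, ((w ^ k : (Module.End F V)ˣ) : Module.End F V) = (ρ ((g : G) ^ k) : V →ₗ[F] V) := by
        intro k
        induction k with
        | zero => rw [pow_zero, pow_zero, map_one]; rfl
        | succ k ih =>
          rw [pow_succ, Units.val_mul, ih, pow_succ, map_mul]; rfl
      have hw := no_odd hF hQ L M hL hM hd (by omega) w (fun v => hρ _ v) g.2 hr hr2 (by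
        apply Units.ext
        rw [hwpow, hg1, map_one]; rfl)
      have h1 : ρ (g : G) = ρ 1 := by
        rw [map_one]
        apply LinearEquiv.toLinearMap_injective
        exact congrArg Units.val hw
      have h2 := hinj h1
      have h3 : g = 1 := Subtype.ext h2
      rw [h3, orderOf_one] at hg
      exact hr.one_lt.ne hg
    have hnorm : (H : Subgroup G) ≤ Subgroup.normalizer S := by
      intro h hh
      have key2 : ∀ h ∈ (H : Subgroup G), ∀ s ∈ S, h * s * h⁻¹ ∈ S := by
        intro h hh s hs v hv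
        rw [map_mul, map_mul, LinearEquiv.mul_apply, LinearEquiv.mul_apply]
        have h1 : ρ h⁻¹ v ∈ L := hinv ⟨h⁻¹, (H : Subgroup G).inv_mem hh⟩ v hv
        rw [hs _ h1, ← LinearEquiv.mul_apply, ← map_mul, mul_inv_cancel, map_one]; rfl
      rw [Subgroup.mem_normalizer_iff]
      intro s
      refine ⟨fun hs => key2 h hh s hs, fun hs => ?_⟩
      have := key2 h⁻¹ ((H : Subgroup G).inv_mem hh) _ hs
      simpa [mul_assoc] using this
    have hsup := IsPGroup.to_sup_of_normal_right' H.isPGroup' hS hnorm
    have heq := H.is_maximal' hsup le_sup_left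
    intro g hg
    have : g ∈ (H : Subgroup G) ⊔ S := Subgroup.mem_sup_right hg
    rw [heq] at this
    exact this
  obtain ⟨L, hL1, hL2⟩ := key H
  obtain ⟨L', hL'1, hL'2⟩ := key (x • H)
  obtain ⟨φ, hφ1, hφ2, hφ3⟩ := exists_isom hF hQ (L ⊔ L') (by
    have := Submodule.finrank_add_le_finrank_add_finrank L L'
    omega)
  obtain ⟨g, hg⟩ := hfull φ hφ2
  intro hbot
  have hmem : g ∈ (H : Subgroup G) ⊓ MulAut.conj x • (H : Subgroup G) := by
    refine ⟨hL2 g (fun v hv => by rw [hg]; exact hφ3 v (Submodule.mem_sup_left hv)), ?_⟩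
    have := hL'2 g (fun v hv => by rw [hg]; exact hφ3 v (Submodule.mem_sup_right hv))
    rw [Sylow.coe_subgroup_smul] at this
    exact this
  rw [hbot, Subgroup.mem_bot] at hmem
  apply hφ1
  rw [← hg, hmem, map_one]

end Flags

end H46.OPlusTwo
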