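import Mathlib
import Cfsg.Agent.Lib.H46.SqForm
import Cfsg.Agent.Lib.H46.IsoBound

/-! Counting classes of orthogonal groups: the discriminant condition. -/

set_option autoImplicit false

namespace H46.OrthCount

open Finset Polynomial Module H49.FormConj2 H49.FormConj3 H46.FormSplit H46.SigU H46.SigModel H46.IsoCount H46.UniForm H46.BlockCongr
open H46.TyAlg H46.TyCount H46.TyReal H46.TyGL H46.StPoly H46.StTy H46.SdCount H46.SdWeight H46.TySelf H46.ProdBound H46.IsoBound H46.UniDet H46.SqForm H49.GUUnip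

universe u v w

open scoped Classical

section unip
variable {F : Type u} [Field F] {t : ℕ} {d : Fin t → ℕ} (hd : ∀ k, 1 ≤ d k)

theorem sq_mt [Finite F] (h2 : (2 : F) ≠ 0) {c : F} {f : LinearMap.BilinForm F (I d → F)} (hf : IF (TJ d c) 1 f) : Sq f ↔ IsSquare (mt f).det :=
  sq_iff h2 (Pi.basisFun F (I d)) (fun u v => by rw [hf.symm, one_mul]) hf.nd

theorem key1 [Finite F] (h2 : (2 : F) ≠ 0) {c : F} (hc : c * c = 1) {f f' : LinearMap.BilinForm F (I d → F)} (hf : IF (TJ d c) 1 f) (hf' : IF (TJ d c) 1 f')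
    (hsq : Sq f ↔ Sq f') {i₀ : ℕ} (hi : Odd i₀) (hi₀ : ∃ k, d k = i₀)
    (h : ∀ i, Odd i → i ≠ i₀ → (∃ k, d k = i) → (sgn hd i f ↔ sgn hd i f')) : sgn hd i₀ f ↔ sgn hd i₀ f' := by
  obtain ⟨a1, a2, a3⟩ := mt_facts hc one_ne_zero hf
  obtain ⟨b1, b2, b3⟩ := mt_facts hc one_ne_zero hf'
  have hs : ∀ {M : Matrix (I d) (I d) F}, M ∈ Mf d F → M.transpose = (1 : F) • M → M.det ≠ 0 → ∀ i, Odd i → (SqM (BT d hd i M) ↔ IsSquare (BT d hd i M).det) := by
    intro M m1 m2 m3 i hi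
    apply sqM_iff h2
    · rw [BT_symm hd m1 m2]
      obtain ⟨k, rfl⟩ := hi
      rw [Nat.add_sub_cancel, pow_mul]
      simp
    · exact (det_BT hd m1).mp m3 i
  unfold sgn at *
  rw [hs a1 a2 a3 i₀ hi, hs b1 b2 b3 i₀ hi]
  apply det_key hd a1 b1 a3 b3 _ hi hi₀
  · intro i ho hne
    rw [← hs a1 a2 a3 i ho, ← hs b1 b2 b3 i ho]
    by_cases hk : ∃ k, d k = i
    · exact h i ho hne hk
    · haveI : IsEmpty {k : Fin t // d k = i} := ⟨fun k => hk ⟨k.1, k.2⟩⟩
      have : BT d hd i (mt f) = BT d hd i (mt f') := Subsingleton.elim _ _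
      rw [this]
  · rw [← sq_mt h2 hf, ← sq_mt h2 hf']
    exact hsq

end unip

section model
variable {F : Type u} [Field F] {τ : ℕ → F[X]} (M : Model τ)

theorem eps_odd (h2 : (2 : F) ≠ 0) {i : ℕ} (hi : 1 ≤ i) : (1 : F) * (-1) ^ (i - 1) = 1 ↔ Odd i := by
  rw [one_mul]
  constructor
  · intro h
    by_contra hodd
    rw [Nat.not_odd_iff_even] at hodd
    have : Odd (i - 1) := by
      obtain ⟨k, hk⟩ := hodd
      exact ⟨k - 1, by omega⟩
    rw [this.neg_one_pow] at h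
    apply h2
    have h5 : (2 : F) = 1 + 1 := by norm_num
    rw [h5]; nth_rw 1 [← h]; ring
  · rintro ⟨k, rfl⟩
    rw [Nat.add_sub_cancel, pow_mul]
    simp

theorem symm_of_IF {V : Type*} [AddCommGroup V] [Module F V] {T : V →ₗ[F] V} {f : LinearMap.BilinForm F V} (hf : IF T 1 f) (u v : V) : f u v = f v u := by
  rw [hf.symm, one_mul]

/-- decomposition of the discriminant -/
theorem sq_model [Finite F] (h2 : (2 : F) ≠ 0) {f : LinearMap.BilinForm F M.E} (hf : IF M.T 1 f) :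
    Sq f ↔ (Sq (r1 f) ↔ (Sq (r1 (r2 f)) ↔ Sq (r2 (r2 f)))) := by
  rw [sq_prod h2 (symm_of_IF hf) hf.nd (cross1 M h2 hf) (M.if1 h2 hf).nd (M.if23 h2 hf).nd,
    sq_prod h2 (symm_of_IF (M.if23 h2 hf)) (M.if23 h2 hf).nd (cross2 M h2 hf) (M.if2 h2 hf).nd (M.if3 h2 hf).nd]

theorem sq_of_eqv {V : Type*} [AddCommGroup V] [Module F V] [FiniteDimensional F V] {T : V →ₗ[F] V} {f f' : LinearMap.BilinForm F V} (h : Eqv T f f') : Sq f ↔ Sq f' := by
  obtain ⟨y, _, hy⟩ := h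
  exact sq_congr y hy

theorem sq3 [Finite F] (h2 : (2 : F) ≠ 0) {f f' : LinearMap.BilinForm F M.E} (hf : IF M.T 1 f) (hf' : IF M.T 1 f') : Sq (r2 (r2 f)) ↔ Sq (r2 (r2 f')) := by
  have a := M.if3 h2 hf
  have b := M.if3 h2 hf'
  exact sq_of_eqv (abs_version (lin M.A) _ _ 1 (by ring) a.nd b.nd a.symm b.symm a.inv b.inv (no_sq (isTy_ty M.A) M.hc M.hc'))

/-- the last sign at `1` is determined -/
theorem keyA [Finite F] (hodd : Odd (Nat.card F)) (h2 : (2 : F) ≠ 0) (hτ0 : ∀ e, τ e ≠ 0) {f f' : LinearMap.BilinForm F M.E} (hf : IF M.T 1 f) (hf' : IF M.T 1 f') (hsq : Sq f ↔ Sq f')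
    {i₀ : ℕ} (hi : Odd i₀) (hi₀ : (X - C 1) ∣ τ i₀)
    (h1 : ∀ i, Odd i → i ≠ i₀ → (X - C 1) ∣ τ i → (M.s1 i f ↔ M.s1 i f'))
    (h1' : ∀ i, Odd i → (X - C (-1)) ∣ τ i → (M.s2 i f ↔ M.s2 i f')) : M.s1 i₀ f ↔ M.s1 i₀ f' := by
  have e2 : Sq (r1 (r2 f)) ↔ Sq (r1 (r2 f')) := by
    apply sq_of_eqv
    apply unip_eqv M.hd2 hodd h2 (by ring) (by ring) (M.if2 h2 hf) (M.if2 h2 hf')
    intro i hi hk
    have hi1 : 1 ≤ i := by obtain ⟨k, hk⟩ := hk; rw [← hk]; exact M.hd2 k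
    exact h1' i ((eps_odd h2 hi1).mp hi) (dvd_of_mu2 M hτ0 hk)
  have e3 := sq3 M h2 hf hf'
  have e1 : Sq (r1 f) ↔ Sq (r1 f') := by
    rw [sq_model M h2 hf, sq_model M h2 hf', e2, e3] at hsq
    tauto
  have hk : ∃ k, M.d1 k = i₀ := by
    rw [mu_pos_iff, M.mu1, rootMultiplicity_pos (hτ0 i₀)]
    exact dvd_iff_isRoot.mp hi₀
  exact key1 M.hd1 h2 (by ring) (M.if1 h2 hf) (M.if1 h2 hf') e1 hi hk (fun i ho hne hk => h1 i ho hne (dvd_of_mu1 M hτ0 hk))

/-- the last sign at `-1` is determined -/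
theorem keyB [Finite F] (hodd : Odd (Nat.card F)) (h2 : (2 : F) ≠ 0) (hτ0 : ∀ e, τ e ≠ 0) {f f' : LinearMap.BilinForm F M.E} (hf : IF M.T 1 f) (hf' : IF M.T 1 f') (hsq : Sq f ↔ Sq f')
    {i₀ : ℕ} (hi : Odd i₀) (hi₀ : (X - C (-1)) ∣ τ i₀)
    (h1 : ∀ i, Odd i → (X - C 1) ∣ τ i → (M.s1 i f ↔ M.s1 i f'))
    (h1' : ∀ i, Odd i → i ≠ i₀ → (X - C (-1)) ∣ τ i → (M.s2 i f ↔ M.s2 i f')) : M.s2 i₀ f ↔ M.s2 i₀ f' := by
  have e2 : Sq (r1 f) ↔ Sq (r1 f') := by
    apply sq_of_eqv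
    apply unip_eqv M.hd1 hodd h2 (by ring) (by ring) (M.if1 h2 hf) (M.if1 h2 hf')
    intro i hi hk
    have hi1 : 1 ≤ i := by obtain ⟨k, hk⟩ := hk; rw [← hk]; exact M.hd1 k
    exact h1 i ((eps_odd h2 hi1).mp hi) (dvd_of_mu1 M hτ0 hk)
  have e3 := sq3 M h2 hf hf'
  have e1 : Sq (r1 (r2 f)) ↔ Sq (r1 (r2 f')) := by
    rw [sq_model M h2 hf, sq_model M h2 hf', e2, e3] at hsq
    tauto
  have hk : ∃ k, M.d2 k = i₀ := by
    rw [mu_pos_iff, M.mu2, rootMultiplicity_pos (hτ0 i₀)]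
    exact dvd_iff_isRoot.mp hi₀
  exact key1 M.hd2 h2 (by ring) (M.if2 h2 hf) (M.if2 h2 hf') e1 hi hk (fun i ho hne hk => h1' i ho hne (dvd_of_mu2 M hτ0 hk))

end model

section count
variable {F : Type u} [Field F] {V : Type v} [AddCommGroup V] [Module F V] [FiniteDimensional F V] {G : Type w} [Group G]
variable {f : LinearMap.BilinForm F V} (P : IsoG G f) (hf : NDB f) (hs : ∀ u v, f u v = f v u)

theorem sq_tp {W : Type*} [AddCommGroup W] [Module F W] [FiniteDimensional F W] (f : LinearMap.BilinForm F V) (e : V ≃ₗ[F] W) : Sq (tp f e) ↔ Sq f :=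
  (sq_congr e.symm (fun _ _ => rfl)).symm

/-- the number of signs -/
noncomputable def ns (n : ℕ) (τ : ℕ → F[X]) : ℕ := (E1 1 1 n τ).card + (E1 1 (-1) n τ).card

theorem mem_E1 {ε c : F} {n : ℕ} {τ : ℕ → F[X]} (hτ : τ ∈ TT F 1 n) {i : ℕ} : i ∈ E1 ε c n τ ↔ (ε * (-1) ^ (i - 1) = 1 ∧ (X - C c) ∣ τ i) := by
  unfold E1
  rw [mem_filter, mem_range]
  constructor
  · exact fun h => h.2
  · rintro ⟨a, b⟩
    refine ⟨?_, a, b⟩
    by_contra hcon
    rw [hτ.2.1 i (Or.inr (by omega))] at b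
    exact (irreducible_X_sub_C c).not_isUnit (isUnit_of_dvd_one b)

theorem one_le_of_mem_E1 {ε c : F} {n : ℕ} {τ : ℕ → F[X]} (hτ : τ ∈ TT F 1 n) {i : ℕ} (h : i ∈ E1 ε c n τ) : 1 ≤ i := by
  by_contra hcon
  have h0 : i = 0 := by omega
  rw [mem_E1 hτ] at h
  rw [h0, hτ.2.1 0 (Or.inl (by omega))] at h
  exact (irreducible_X_sub_C c).not_isUnit (isUnit_of_dvd_one h.2)

include hf hs in
/-- the number of classes of a given type, with the discriminant condition -/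
theorem card_fiber_half [Finite F] [Finite G] (hodd : Odd (Nat.card F)) (h2 : (2 : F) ≠ 0) (τ : ℕ → F[X]) :
    2 * Nat.card {C : ConjClasses G // tyG P C.out = τ} ≤ 2 ^ (ns (finrank F V) τ) + if ns (finrank F V) τ = 0 then 1 else 0 := by
  have hs1 : ∀ u v, f u v = 1 * f v u := fun u v => by rw [one_mul, hs]
  have hbasic := card_fiber_le P hf hs1 hodd h2 (by ring) τ
  by_cases hns : ns (finrank F V) τ = 0
  · rw [if_pos hns]
    unfold ns at hns
    rw [hns] at hbasic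
    unfold ns
    rw [hns]
    omega
  rw [if_neg hns, add_zero]
  by_cases hemp : ∃ D : ConjClasses G, tyG P D.out = τ
  swap
  · haveI : IsEmpty {C : ConjClasses G // tyG P C.out = τ} := ⟨fun D => hemp ⟨D.1, D.2⟩⟩
    rw [Nat.card_of_isEmpty]
    exact Nat.zero_le _
  obtain ⟨C₀, hC₀⟩ := hemp
  have hτ : τ ∈ TT F 1 (finrank F V) := hC₀ ▸ tyG_mem P _
  obtain ⟨M⟩ := exists_model h2 hτ
  have hτ0 : ∀ e, τ e ≠ 0 := fun e => (hτ.1 e).1.ne_zero
  have hout : ∀ D : ConjClasses G, ConjClasses.mk D.out = D := fun D => Quotient.out_eq D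
  have hex : ∀ D : {C : ConjClasses G // tyG P C.out = τ}, ∃ e : V ≃ₗ[F] M.E, ∀ v, e (P.ρ D.1.out v) = M.T (e v) := by
    intro D
    have h1 := isTy_tyG P D.1.out
    rw [D.2] at h1
    exact conj_of_isTy h1 M.isTy
  choose e he using hex
  have hIF : ∀ D, IF M.T 1 (tp f (e D)) := fun D => tp_IF (if_rho P hf hs1 D.1.out) (e D) (he D)
  have hSq : ∀ D D', Sq (tp f (e D)) ↔ Sq (tp f (e D')) := fun D D' => (sq_tp f (e D)).trans (sq_tp f (e D')).symm
  -- the general injectivity statement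
  have hinj : ∀ (A B : Finset ℕ), (∀ D D' : {C : ConjClasses G // tyG P C.out = τ}, (∀ i ∈ A, (M.s1 i (tp f (e D)) ↔ M.s1 i (tp f (e D')))) → (∀ i ∈ B, (M.s2 i (tp f (e D)) ↔ M.s2 i (tp f (e D')))) →
      ((∀ i, i ∈ E1 1 1 (finrank F V) τ → (M.s1 i (tp f (e D)) ↔ M.s1 i (tp f (e D')))) ∧ (∀ i, i ∈ E1 1 (-1) (finrank F V) τ → (M.s2 i (tp f (e D)) ↔ M.s2 i (tp f (e D')))))) →
      Nat.card {C : ConjClasses G // tyG P C.out = τ} ≤ 2 ^ (A.card + B.card) := by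
    intro A B hAB
    have hi : Function.Injective (fun D : {C : ConjClasses G // tyG P C.out = τ} =>
        (((⟨A.filter (fun i => M.s1 i (tp f (e D))), Finset.mem_powerset.mpr (Finset.filter_subset _ _)⟩,
          ⟨B.filter (fun i => M.s2 i (tp f (e D))), Finset.mem_powerset.mpr (Finset.filter_subset _ _)⟩)) : A.powerset × B.powerset)) := by
      intro D D' h
      have h3 : A.filter (fun i => M.s1 i (tp f (e D))) = A.filter (fun i => M.s1 i (tp f (e D'))) := congrArg (fun p => (p.1 : Finset ℕ)) h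
      have h4 : B.filter (fun i => M.s2 i (tp f (e D))) = B.filter (fun i => M.s2 i (tp f (e D'))) := congrArg (fun p => (p.2 : Finset ℕ)) h
      obtain ⟨k1, k2⟩ := hAB D D' (fun i hi => by
        have h6 := Finset.ext_iff.mp h3 i
        rw [Finset.mem_filter, Finset.mem_filter, and_iff_right hi, and_iff_right hi] at h6
        exact h6) (fun i hi => by
        have h6 := Finset.ext_iff.mp h4 i
        rw [Finset.mem_filter, Finset.mem_filter, and_iff_right hi, and_iff_right hi] at h6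
        exact h6)
      have key := M.eqv hodd h2 hτ0 (by ring) (hIF D) (hIF D') (fun i hi hd => k1 i ((mem_E1 hτ).mpr ⟨hi, hd⟩)) (fun i hi hd => k2 i ((mem_E1 hτ).mpr ⟨hi, hd⟩))
      have h7 := isConj_of_eqv P (he D) (he D') key
      apply Subtype.ext
      have h8 := ConjClasses.mk_eq_mk_iff_isConj.mpr h7
      rw [hout, hout] at h8
      exact h8
    calc Nat.card {C : ConjClasses G // tyG P C.out = τ} ≤ Nat.card (A.powerset × B.powerset) :=
          Nat.card_le_card_of_injective _ hi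
      _ = _ := by
        rw [Nat.card_prod, Nat.card_eq_fintype_card, Nat.card_eq_fintype_card, Fintype.card_coe, Fintype.card_coe, Finset.card_powerset, Finset.card_powerset, pow_add]
  have hpos : ∀ {c : F} {i : ℕ}, i ∈ E1 1 c (finrank F V) τ → Odd i := by
    intro c i hi
    exact (eps_odd h2 (one_le_of_mem_E1 hτ hi)).mp ((mem_E1 hτ).mp hi).1
  have hpos' : ∀ {c : F} {i : ℕ}, Odd i → (X - C c) ∣ τ i → i ∈ E1 1 c (finrank F V) τ := by
    intro c i hi hd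
    exact (mem_E1 hτ).mpr ⟨(eps_odd h2 hi.pos).mpr hi, hd⟩
  by_cases hA : (E1 1 1 (finrank F V) τ).Nonempty
  · obtain ⟨i₀, hi₀⟩ := hA
    have h1 := hinj ((E1 1 1 (finrank F V) τ).erase i₀) (E1 1 (-1) (finrank F V) τ) (by
      intro D D' hA hB
      refine ⟨fun i hi => ?_, hB⟩
      by_cases hii : i = i₀
      · subst hii
        exact keyA M hodd h2 hτ0 (hIF D) (hIF D') (hSq D D') (hpos hi) ((mem_E1 hτ).mp hi).2
          (fun j ho hne hd => hA j (Finset.mem_erase.mpr ⟨hne, hpos' ho hd⟩)) (fun j ho hd => hB j (hpos' ho hd))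
      · exact hA i (Finset.mem_erase.mpr ⟨hii, hi⟩))
    have hcard : ((E1 1 1 (finrank F V) τ).erase i₀).card + 1 = (E1 1 1 (finrank F V) τ).card := Finset.card_erase_add_one hi₀
    have e1 : ns (finrank F V) τ = (((E1 1 1 (finrank F V) τ).erase i₀).card + (E1 1 (-1) (finrank F V) τ).card) + 1 := by
      unfold ns; omega
    rw [e1, pow_succ]
    omega
  · rw [Finset.not_nonempty_iff_eq_empty] at hA
    have hB : (E1 1 (-1) (finrank F V) τ).Nonempty := by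
      rw [Finset.nonempty_iff_ne_empty]
      intro hB
      apply hns
      unfold ns
      rw [hA, hB]
      simp
    obtain ⟨i₀, hi₀⟩ := hB
    have h1 := hinj (E1 1 1 (finrank F V) τ) ((E1 1 (-1) (finrank F V) τ).erase i₀) (by
      intro D D' hA hB
      refine ⟨hA, fun i hi => ?_⟩
      by_cases hii : i = i₀
      · subst hii
        exact keyB M hodd h2 hτ0 (hIF D) (hIF D') (hSq D D') (hpos hi) ((mem_E1 hτ).mp hi).2
          (fun j ho hd => hA j (hpos' ho hd)) (fun j ho hne hd => hB j (Finset.mem_erase.mpr ⟨hne, hpos' ho hd⟩))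
      · exact hB i (Finset.mem_erase.mpr ⟨hii, hi⟩))
    have hcard : ((E1 1 (-1) (finrank F V) τ).erase i₀).card + 1 = (E1 1 (-1) (finrank F V) τ).card := Finset.card_erase_add_one hi₀
    have e1 : ns (finrank F V) τ = ((E1 1 1 (finrank F V) τ).card + ((E1 1 (-1) (finrank F V) τ).erase i₀).card) + 1 := by
      unfold ns; omega
    rw [e1, pow_succ]
    omega

end count

end H46.OrthCount
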