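import Mathlib
import Cfsg.Agent.Lib.H46.OrthCount
import Cfsg.Agent.Lib.H46.ONum

/-! Upper bound for the class numbers of the even-dimensional orthogonal groups, odd characteristic. -/

set_option autoImplicit false

namespace H46.OrthUpper

open Finset Polynomial Module H49.FormConj2 H49.FormConj3 H46.FormSplit H46.SigU H46.SigModel H46.IsoCount H46.UniForm H46.BlockCongr
open H46.TyAlg H46.TyCount H46.TyReal H46.TyGL H46.StPoly H46.StTy H46.SdCount H46.SdWeight H46.TySelf H46.ProdBound H46.IsoBound H46.UniDet H46.SqForm H49.GUUnip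
open H46.OrthCount H46.ONum

universe u v w

open scoped Classical

variable {F : Type u} [Field F]

/-- types without signs -/
noncomputable def TyN (F : Type u) [Field F] [Finite F] (n : ℕ) : Finset (ℕ → F[X]) := (TyS (1 : F) n).filter (fun τ => ns n τ = 0)

theorem mem_TyN [Finite F] (h2 : (2 : F) ≠ 0) {n : ℕ} {τ : ℕ → F[X]} (h : τ ∈ TyN F n) :
    τ ∈ TT F 1 n ∧ ∀ e, Good (τ e) ∧ st (RingHom.id F) (τ e) = τ e ∧ (τ e).coeff 0 = 1 ∧ Even (τ e).natDegree := by
  unfold TyN at h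
  rw [mem_filter, mem_TyS] at h
  obtain ⟨⟨hτ, hst, hpar⟩, hns⟩ := h
  refine ⟨hτ, fun e => ⟨hτ.1 e, hst e, ?_⟩⟩
  rcases eps_cases (F := F) (ε := 1) (by ring) e with h | h
  · have hno : ∀ c : F, (E1 1 c n τ).card = 0 → ¬ (X - C c) ∣ τ e := by
      intro c hc hd
      have h1 : e ∈ E1 1 c n τ := (mem_E1 hτ).mpr ⟨h, hd⟩
      rw [Finset.card_eq_zero] at hc
      rw [hc] at h1
      exact absurd h1 (Finset.notMem_empty _)
    unfold ns at hns
    have n1 := hno 1 (by omega)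
    have n2 := hno (-1) (by omega)
    have hc := eval_one_of_st (hst e) n1
    exact ⟨hc, even_of_st h2 (hst e) hc n2⟩
  · exact hpar e h

theorem card_TyN_le [Finite F] (h2 : (2 : F) ≠ 0) {n : ℕ} (hn : 1 ≤ n) {s : ℝ} (hs0 : 0 < s) (hs1 : s < 1) (hsq : (Nat.card F : ℝ) * s ^ 2 = 1) :
    ((TyN F n).card : ℝ) * s ^ n ≤ ∏ e ∈ Icc 2 n, (1 / (1 - s ^ (2 * e - 2))) := by
  let A : ℕ → Finset F[X] := fun e => (TyN F n).image (fun τ => τ e)
  have hA : ∀ e, ∀ g ∈ A e, Good g ∧ st (RingHom.id F) g = g ∧ g.coeff 0 = 1 ∧ Even g.natDegree := by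
    intro e g hg
    rw [mem_image] at hg
    obtain ⟨τ, hτ, rfl⟩ := hg
    exact (mem_TyN h2 hτ).2 e
  have hcount : ∀ e m, ∑ g ∈ (A e).filter (fun g => g.natDegree = m), (1 : ℝ) ≤ (Eq' (Nat.card F) m : ℝ) := by
    intro e m
    rw [Finset.sum_const, nsmul_eq_mul, mul_one]
    exact_mod_cast card_even_le (A e) m (hA e)
  have hmain := prod_bound (1 : F[X]) (fun g => g.natDegree) hn (TyN F n) A (fun e g => (1 : ℝ)) (fun e g => zero_le_one) (s := s) (C := 1) hs0
    (fun f hf e _ => mem_image_of_mem _ hf)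
    (fun f hf e he => by
      apply (mem_TyN h2 hf).1.2.1
      rw [mem_Icc] at he
      omega)
    (fun f hf => by
      have h3 := (mem_TyN h2 hf).1.2.2
      rw [Finset.sum_range_succ'] at h3
      rw [zero_mul, add_zero] at h3
      conv_rhs => rw [← h3]
      rw [Finset.sum_bij (fun (e : ℕ) (_ : e ∈ Icc 1 n) => e - 1) (t := range n) (g := fun k => (k + 1) * (f (k + 1)).natDegree)]
      · intro e he; rw [mem_Icc] at he; rw [mem_range]; omega
      · intro e he e' he' h; rw [mem_Icc] at he he'; omega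
      · intro k hk; rw [mem_range] at hk; exact ⟨k + 1, by rw [mem_Icc]; omega, by omega⟩
      · intro e he
        rw [mem_Icc] at he
        have : e - 1 + 1 = e := by omega
        rw [this])
    zero_le_one (fun m => by
      rw [← Finset.sum_mul]
      refine le_trans (mul_le_mul_of_nonneg_right (hcount 1 m) (pow_nonneg hs0.le _)) ?_
      unfold Eq'
      split_ifs with he
      · obtain ⟨k, hk⟩ := he
        have e1 : m / 2 = k := by omega
        have e2 : m = 2 * k := by omega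
        rw [e1, e2, pow_mul]
        push_cast
        rw [← mul_pow, hsq, one_pow]
      · simp)
  rw [one_mul] at hmain
  simp only [Finset.prod_const_one, Finset.sum_const, nsmul_eq_mul, mul_one] at hmain
  refine hmain.trans ?_
  apply Finset.prod_le_prod
  · intro e _
    apply Finset.sum_nonneg
    intro g _
    positivity
  · intro e he
    rw [mem_Icc] at he
    have hv0 : 0 ≤ s ^ e := pow_nonneg hs0.le _
    have hqv : (Nat.card F : ℝ) * (s ^ e) ^ 2 = s ^ (2 * e - 2) := by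
      have h4 : (s ^ e) ^ 2 = s ^ 2 * s ^ (2 * e - 2) := by
        rw [← pow_mul, ← pow_add]; congr 1; omega
      rw [h4, ← mul_assoc, hsq, one_mul]
    have hlt : (Nat.card F : ℝ) * (s ^ e) ^ 2 < 1 := by
      rw [hqv]
      exact pow_lt_one₀ hs0.le hs1 (by omega)
    have h5 : ∑ g ∈ A e, 1 * s ^ (e * g.natDegree) = ∑ g ∈ A e, (1 : ℝ) * (s ^ e) ^ g.natDegree :=
      Finset.sum_congr rfl fun g _ => by rw [pow_mul]
    rw [h5, ← hqv]
    apply sum_by_deg (fun g : F[X] => g.natDegree) (A e) (fun g => (1 : ℝ)) (fun m => (Eq' (Nat.card F) m : ℝ)) _ _ hv0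
    · exact hcount e
    · exact fun M => sum_Eq_le hv0 hlt M

variable {V : Type v} [AddCommGroup V] [Module F V] [FiniteDimensional F V] {G : Type w} [Group G]
variable {f : LinearMap.BilinForm F V} (P : IsoG G f)

include P in
theorem two_card_le [Finite F] [Finite G] (hf : NDB f) (hs : ∀ u v, f u v = f v u) (hodd : Odd (Nat.card F)) (h2 : (2 : F) ≠ 0) {n : ℕ} (hn : finrank F V = n) :
    2 * Nat.card (ConjClasses G) ≤ ∑ τ ∈ TyS (1 : F) n, ∏ e ∈ Icc 1 n, ww (1 : F) e (τ e) + (TyN F n).card := by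
  subst hn
  have hs1 : ∀ u v, f u v = 1 * f v u := fun u v => by rw [one_mul, hs]
  haveI : Finite (ConjClasses G) := Quotient.finite _
  haveI := Fintype.ofFinite (ConjClasses G)
  have h1 : Nat.card (ConjClasses G) = ∑ τ ∈ TyS (1 : F) (finrank F V), (univ.filter (fun D : ConjClasses G => tyG P D.out = τ)).card := by
    rw [Nat.card_eq_fintype_card, ← Finset.card_univ, Finset.card_eq_sum_card_fiberwise (f := fun D : ConjClasses G => tyG P D.out) (t := TyS (1 : F) (finrank F V)) (fun D _ => tyG_mem_TyS P hf hs1 h2 (by ring) _)]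
  have h3 : ∀ τ ∈ TyS (1 : F) (finrank F V), 2 * (univ.filter (fun D : ConjClasses G => tyG P D.out = τ)).card ≤
      ∏ e ∈ Icc 1 (finrank F V), ww (1 : F) e (τ e) + if ns (finrank F V) τ = 0 then 1 else 0 := by
    intro τ hτ
    have h4 := card_fiber_half P hf hs hodd h2 τ
    rw [Nat.card_eq_fintype_card, Fintype.card_subtype] at h4
    refine h4.trans (le_of_eq ?_)
    congr 1
    rw [mem_TyS] at hτ
    have h0 : τ 0 = 1 := hτ.1.2.1 0 (Or.inl (by omega))
    unfold ns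
    rw [pow_add, E1_prod h0, E1_prod h0, ← Finset.prod_mul_distrib]
    refine Finset.prod_congr rfl fun e _ => ?_
    unfold ww wt
    by_cases h : (1 : F) * (-1) ^ (e - 1) = 1
    · simp only [h, true_and, if_true]
    · simp only [h, false_and, if_false, mul_one]
  rw [h1, Finset.mul_sum]
  refine (Finset.sum_le_sum h3).trans (le_of_eq ?_)
  rw [Finset.sum_add_distrib]
  congr 1
  unfold TyN
  rw [Finset.card_filter]

theorem Wq_even (q k : ℕ) (s : ℝ) (hq : (q : ℝ) * s ^ 2 = 1) (hs0 : 0 < s) : (Wq q (2 * k) : ℝ) * s ^ (2 * k) ≤ 1 + 6 * s ^ 2 + s ^ 4 := by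
  rcases k with _ | _ | k
  · have h0 : 0 ≤ s ^ 4 := by positivity
    have h1 : 0 ≤ s ^ 2 := by positivity
    simp [Wq, sdn]
    linarith
  · have : Wq q 2 = q + 6 := by simp [Wq, sdn]
    rw [this]
    push_cast
    have h2 : ((q : ℝ) + 6) * s ^ 2 = q * s ^ 2 + 6 * s ^ 2 := by ring
    rw [h2, hq]
    have : 0 ≤ s ^ 4 := by positivity
    linarith
  · have h1 : Wq q (2 * (k + 1 + 1)) = q ^ k * (q ^ 2 + 6 * q + 1) := by
      unfold Wq sdn
      rw [if_neg (by omega), if_pos (by rw [Nat.even_mul]; left; decide), if_pos (by omega), if_neg (by omega), if_neg (by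
        rw [Nat.not_even_iff_odd]; exact ⟨k + 1, by omega⟩), if_pos (by omega), if_neg (by omega), if_pos ⟨k + 1, by omega⟩]
      have e1 : 2 * (k + 1 + 1) / 2 = k + 2 := by omega
      have e2 : (2 * (k + 1 + 1) - 1) / 2 = k + 1 := by omega
      have e3 : (2 * (k + 1 + 1) - 2) / 2 = k + 1 := by omega
      rw [e1, e2, e3]
      have e4 : k + 2 - 1 = k + 1 := by omega
      have e5 : k + 1 - 1 = k := by omega
      rw [e4, e5]
      ring
    rw [h1]
    push_cast
    have h2 : s ^ (2 * (k + 1 + 1)) = (s ^ 2) ^ k * (s ^ 2) ^ 2 := by rw [← pow_mul, ← pow_mul, ← pow_add]; congr 1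
    rw [h2]
    have h3 : (q : ℝ) ^ k * ((q : ℝ) ^ 2 + 6 * q + 1) * ((s ^ 2) ^ k * (s ^ 2) ^ 2) = (q * s ^ 2) ^ k * ((q * s ^ 2) ^ 2 + 6 * (q * s ^ 2) * s ^ 2 + s ^ 4) := by
      rw [mul_pow]; ring
    rw [h3, hq]
    apply le_of_eq; ring

theorem Wq_odd (q k : ℕ) (s : ℝ) (hq : (q : ℝ) * s ^ 2 = 1) (hs0 : 0 < s) : (Wq q (2 * k + 1) : ℝ) * s ^ (2 * k + 1) ≤ 1 + 6 * s ^ 2 + s ^ 4 := by
  have hbin : 4 * s * (1 + s ^ 2) ≤ 1 + 6 * s ^ 2 + s ^ 4 := by nlinarith [sq_nonneg ((1 - s) ^ 2)]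
  rcases k with _ | k
  · have : Wq q (2 * 0 + 1) = 4 := by simp [Wq, sdn]
    rw [this]
    push_cast
    refine le_trans ?_ hbin
    have h3 := pow_pos hs0 3
    nlinarith
  · have h1 : Wq q (2 * (k + 1) + 1) = q ^ k * (4 * q + 4) := by
      unfold Wq sdn
      rw [if_neg (by omega), if_neg (by rw [Nat.not_even_iff_odd]; exact ⟨k + 1, by omega⟩), if_pos (by omega), if_neg (by omega), if_pos ⟨k + 1, by omega⟩,
        if_pos (by omega), if_neg (by omega), if_neg (by rw [Nat.not_even_iff_odd]; exact ⟨k, by omega⟩)]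
      have e1 : (2 * (k + 1) + 1) / 2 = k + 1 := by omega
      have e2 : (2 * (k + 1) + 1 - 1) / 2 = k + 1 := by omega
      have e3 : (2 * (k + 1) + 1 - 2) / 2 = k := by omega
      rw [e1, e2, e3]
      have e5 : k + 1 - 1 = k := by omega
      rw [e5]
      ring
    rw [h1]
    push_cast
    have h2 : s ^ (2 * (k + 1) + 1) = (s ^ 2) ^ k * s ^ 3 := by rw [← pow_mul, ← pow_add]; congr 1
    rw [h2]
    have h3 : (q : ℝ) ^ k * (4 * (q : ℝ) + 4) * ((s ^ 2) ^ k * s ^ 3) = (q * s ^ 2) ^ k * (4 * (q * s ^ 2) * s + 4 * s ^ 3) := by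
      rw [mul_pow]; ring
    rw [h3, hq, one_pow, one_mul]
    refine le_trans (le_of_eq ?_) hbin
    ring

include P in
/-- the upper bound -/
theorem upper [Finite F] [Finite G] (hf : NDB f) (hs : ∀ u v, f u v = f v u) (hodd : Odd (Nat.card F)) (h2 : (2 : F) ≠ 0) {n : ℕ} (hn : 1 ≤ n) (hdim : finrank F V = 2 * n) :
    2 * Nat.card (ConjClasses G) ≤ 19 * Nat.card F ^ n := by
  have hq3 : 3 ≤ Nat.card F := by
    obtain ⟨k, hk⟩ := hodd
    have := Finite.one_lt_card (α := F)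
    omega
  have h1 := two_card_le P hf hs hodd h2 hdim
  obtain ⟨q, hq⟩ : ∃ q, q = Nat.card F := ⟨_, rfl⟩
  rw [← hq] at hq3
  have hqpos : (0 : ℝ) < q := by have : 0 < q := by omega
                                 exact_mod_cast this
  obtain ⟨s, hs'⟩ : ∃ s : ℝ, s = (Real.sqrt q)⁻¹ := ⟨_, rfl⟩
  have hs0 : 0 < s := by rw [hs']; exact inv_pos.mpr (Real.sqrt_pos.mpr hqpos)
  have hssq : s ^ 2 = (q : ℝ)⁻¹ := by rw [hs', inv_pow, Real.sq_sqrt hqpos.le]
  have hsq : (Nat.card F : ℝ) * s ^ 2 = 1 := by rw [hssq, ← hq]; exact mul_inv_cancel₀ hqpos.ne'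
  have hs3 : s ^ 2 ≤ 1 / 3 := by
    rw [hssq, one_div]
    exact inv_anti₀ (by norm_num) (by exact_mod_cast hq3)
  have hs1 : s < 1 := by nlinarith
  have hsle : s ≤ H46.ONum.s0 := by
    have h3 : s ^ 2 ≤ H46.ONum.s0 ^ 2 := hs3.trans (by unfold H46.ONum.s0; norm_num)
    exact (pow_le_pow_iff_left₀ hs0.le (by unfold H46.ONum.s0; norm_num) (by norm_num)).mp h3
  have h3 := sum_TyS_le (F := F) h2 (ε := 1) (by ring) (n := 2 * n) (by omega) (s := s) (Cc := 1 + 6 * s ^ 2 + s ^ 4) hs0 hs1 hsq (fun m => by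
    rw [if_pos rfl]
    rcases Nat.even_or_odd' m with ⟨k, rfl | rfl⟩
    · exact Wq_even _ k s hsq hs0
    · exact Wq_odd _ k s hsq hs0) (by positivity)
  have h4 := h3.trans (prod_GB1_le h2 hs0 hsle hn)
  have h5 := (card_TyN_le (F := F) h2 (n := 2 * n) (by omega) hs0 hs1 hsq).trans (prod_geo_le hs3 (2 * n))
  have h6 : s ^ (2 * n) * (q : ℝ) ^ n = 1 := by
    rw [pow_mul, ← mul_pow, hssq, inv_mul_cancel₀ hqpos.ne', one_pow]
  have h7 : ((2 * Nat.card (ConjClasses G) : ℕ) : ℝ) * s ^ (2 * n) ≤ 19 := by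
    have h8 : ((2 * Nat.card (ConjClasses G) : ℕ) : ℝ) ≤ ((∑ τ ∈ TyS (1 : F) (2 * n), ∏ e ∈ Icc 1 (2 * n), ww (1 : F) e (τ e) : ℕ) : ℝ) + ((TyN F (2 * n)).card : ℝ) := by
      exact_mod_cast h1
    have h9 := mul_le_mul_of_nonneg_right h8 (show 0 ≤ s ^ (2 * n) by positivity)
    rw [add_mul] at h9
    linarith
  have h8 : ((2 * Nat.card (ConjClasses G) : ℕ) : ℝ) ≤ 19 * (q : ℝ) ^ n := by
    calc ((2 * Nat.card (ConjClasses G) : ℕ) : ℝ) = ((2 * Nat.card (ConjClasses G) : ℕ) : ℝ) * (s ^ (2 * n) * (q : ℝ) ^ n) := by rw [h6, mul_one]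
      _ = (((2 * Nat.card (ConjClasses G) : ℕ) : ℝ) * s ^ (2 * n)) * (q : ℝ) ^ n := by ring
      _ ≤ _ := mul_le_mul_of_nonneg_right h7 (by positivity)
  rw [← hq]
  exact_mod_cast h8

end H46.OrthUpper
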