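import Mathlib
import Cfsg.Agent.Lib.H46.SpNum
import Cfsg.Agent.Lib.H46.TypeReal

/-! The class number of the symplectic groups in odd characteristic. -/

set_option autoImplicit false

namespace H46.SpFinal

open Polynomial Module H49.FormConj2 H49.FormConj3 H46.FormSplit H46.SigU H46.SigModel H46.IsoCount H46.UnipExist
open H46.TyAlg H46.TyCount H46.TyReal H46.TyGL H46.StPoly H46.StTy H46.SdCount H46.SdWeight H46.TySelf H46.IsoBound H46.JordTy H46.TypeReal

universe u

variable {F : Type u} [Field F] {n : ℕ}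

/-- the standard alternating form -/
noncomputable def fJ (F : Type u) [Field F] (n : ℕ) : LinearMap.BilinForm F (Fin n ⊕ Fin n → F) := Matrix.toBilin' (Matrix.J (Fin n) F)

/-- the action on the natural module -/
noncomputable def rho : Matrix.symplecticGroup (Fin n) F →* ((Fin n ⊕ Fin n → F) ≃ₗ[F] (Fin n ⊕ Fin n → F)) where
  toFun g := Matrix.toLin'OfInv (M := ((g⁻¹ : Matrix.symplecticGroup (Fin n) F) : Matrix _ _ F)) (M' := (g : Matrix _ _ F))
    (by rw [← Submonoid.coe_mul, inv_mul_cancel]; rfl) (by rw [← Submonoid.coe_mul, mul_inv_cancel]; rfl)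
  map_one' := by
    apply LinearEquiv.ext
    intro v
    show Matrix.toLin' (1 : Matrix _ _ F) v = v
    rw [Matrix.toLin'_one]; rfl
  map_mul' g h := by
    apply LinearEquiv.ext
    intro v
    show Matrix.toLin' ((g : Matrix (Fin n ⊕ Fin n) (Fin n ⊕ Fin n) F) * (h : Matrix (Fin n ⊕ Fin n) (Fin n ⊕ Fin n) F)) v =
      Matrix.toLin' (g : Matrix (Fin n ⊕ Fin n) (Fin n ⊕ Fin n) F) (Matrix.toLin' (h : Matrix (Fin n ⊕ Fin n) (Fin n ⊕ Fin n) F) v)
    rw [Matrix.toLin'_mul_apply]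

theorem rho_apply (g : Matrix.symplecticGroup (Fin n) F) (v : Fin n ⊕ Fin n → F) : rho g v = Matrix.toLin' (g : Matrix _ _ F) v := rfl

theorem comp_eq_iff (A : Matrix (Fin n ⊕ Fin n) (Fin n ⊕ Fin n) F) :
    (fJ F n).comp (Matrix.toLin' A) (Matrix.toLin' A) = fJ F n ↔ A.transpose * Matrix.J (Fin n) F * A = Matrix.J (Fin n) F := by
  unfold fJ
  rw [← LinearMap.BilinForm.toMatrix'.injective.eq_iff, LinearMap.BilinForm.toMatrix'_comp, LinearMap.BilinForm.toMatrix'_toBilin', LinearMap.toMatrix'_toLin']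

theorem inj_rho : Function.Injective (rho : Matrix.symplecticGroup (Fin n) F → _) := by
  intro g h hgh
  have h1 : Matrix.toLin' (g : Matrix (Fin n ⊕ Fin n) (Fin n ⊕ Fin n) F) = Matrix.toLin' (h : Matrix (Fin n ⊕ Fin n) (Fin n ⊕ Fin n) F) := by
    apply LinearMap.ext
    intro v
    rw [← rho_apply, ← rho_apply, hgh]
  exact Subtype.ext (Matrix.toLin'.injective h1)

theorem pres_rho (g : Matrix.symplecticGroup (Fin n) F) (u v : Fin n ⊕ Fin n → F) : fJ F n (rho g u) (rho g v) = fJ F n u v := by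
  have h0 : (g : Matrix (Fin n ⊕ Fin n) (Fin n ⊕ Fin n) F).transpose * Matrix.J (Fin n) F * (g : Matrix (Fin n ⊕ Fin n) (Fin n ⊕ Fin n) F) = Matrix.J (Fin n) F :=
    SymplecticGroup.mem_iff'.mp g.2
  have h1 := (comp_eq_iff (g : Matrix (Fin n ⊕ Fin n) (Fin n ⊕ Fin n) F)).mpr h0
  rw [rho_apply, rho_apply]
  have h2 := LinearMap.congr_fun (LinearMap.congr_fun h1 u) v
  exact h2

theorem surj_rho (h : (Fin n ⊕ Fin n → F) ≃ₗ[F] (Fin n ⊕ Fin n → F)) (hh : ∀ u v, fJ F n (h u) (h v) = fJ F n u v) :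
    ∃ g : Matrix.symplecticGroup (Fin n) F, rho g = h := by
  obtain ⟨A, hA⟩ : ∃ A, A = LinearMap.toMatrix' (h : (Fin n ⊕ Fin n → F) →ₗ[F] (Fin n ⊕ Fin n → F)) := ⟨_, rfl⟩
  have hA' : Matrix.toLin' A = (h : (Fin n ⊕ Fin n → F) →ₗ[F] (Fin n ⊕ Fin n → F)) := by
    rw [hA, Matrix.toLin'_toMatrix']
  have h1 : (fJ F n).comp (Matrix.toLin' A) (Matrix.toLin' A) = fJ F n := by
    rw [hA']
    apply LinearMap.ext
    intro u
    apply LinearMap.ext
    intro v
    exact hh u v
  have h2 : A.transpose * Matrix.J (Fin n) F * A = Matrix.J (Fin n) F := (comp_eq_iff A).mp h1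
  refine ⟨⟨A, SymplecticGroup.mem_iff'.mpr h2⟩, ?_⟩
  apply LinearEquiv.ext
  intro v
  rw [rho_apply]
  exact LinearMap.congr_fun hA' v

/-- the symplectic group as an isometry group -/
noncomputable def isoSp (F : Type u) [Field F] (n : ℕ) : IsoG (Matrix.symplecticGroup (Fin n) F) (fJ F n) :=
  ⟨rho, inj_rho, pres_rho, surj_rho⟩

theorem ndb_fJ : NDB (fJ F n) := by
  intro x hx
  exact (H46.BlockCongr.nondeg_of_det (Matrix.isUnit_det_J (Fin n) F).ne_zero).1 x hx

theorem symm_fJ (u v : Fin n ⊕ Fin n → F) : fJ F n u v = (-1) * fJ F n v u := by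
  unfold fJ
  rw [H46.BlockCongr.swap_form, Matrix.J_transpose, map_neg, LinearMap.neg_apply, LinearMap.neg_apply, neg_one_mul]

theorem isAlt_of_skew {V : Type*} [AddCommGroup V] [Module F V] (h2 : (2 : F) ≠ 0) {f : LinearMap.BilinForm F V} (h : ∀ u v, f u v = (-1) * f v u) : f.IsAlt := by
  intro u
  have h1 := h u u
  have h3 : (2 : F) * f u u = 0 := by
    rw [two_mul]
    nth_rw 1 [h1]
    ring
  exact (mul_eq_zero.mp h3).resolve_left h2

variable (h2 : (2 : F) ≠ 0)

include h2 in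
/-- upper bound -/
theorem upper [Finite F] (hodd : Odd (Nat.card F)) (hn : 1 ≤ n) :
    5 * Nat.card (ConjClasses (Matrix.symplecticGroup (Fin n) F)) ≤ 54 * Nat.card F ^ n := by
  have hq3 : 3 ≤ Nat.card F := by
    obtain ⟨k, hk⟩ := hodd
    have := Finite.one_lt_card (α := F)
    omega
  have hfr : finrank F (Fin n ⊕ Fin n → F) = 2 * n := by
    rw [Module.finrank_fintype_fun_eq_card, Fintype.card_sum, Fintype.card_fin]; omega
  have hne1 : (-1 : F) ≠ 1 := by
    intro h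
    apply h2
    have h5 : (2 : F) = 1 + 1 := by norm_num
    rw [h5]; nth_rw 1 [← h]; ring
  haveI : Finite (Matrix.symplecticGroup (Fin n) F) := Subtype.finite
  have h1 := card_le_prod_sum (isoSp F n) ndb_fJ (ε := -1) symm_fJ hodd h2 (by ring) hfr
  obtain ⟨q, hq⟩ : ∃ q, q = Nat.card F := ⟨_, rfl⟩
  rw [← hq] at hq3
  have hqpos : (0 : ℝ) < q := by have : 0 < q := by omega
                                 exact_mod_cast this
  obtain ⟨s, hs⟩ : ∃ s : ℝ, s = (Real.sqrt q)⁻¹ := ⟨_, rfl⟩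
  have hs0 : 0 < s := by rw [hs]; exact inv_pos.mpr (Real.sqrt_pos.mpr hqpos)
  have hssq : s ^ 2 = (q : ℝ)⁻¹ := by rw [hs, inv_pow, Real.sq_sqrt hqpos.le]
  have hsq : (Nat.card F : ℝ) * s ^ 2 = 1 := by rw [hssq, ← hq]; exact mul_inv_cancel₀ hqpos.ne'
  have hs3 : s ^ 2 ≤ 1 / 3 := by
    rw [hssq, one_div]
    exact inv_anti₀ (by norm_num) (by exact_mod_cast hq3)
  have hs1 : s < 1 := by nlinarith
  have h3 := sum_TyS_le (F := F) h2 (ε := -1) (by ring) (n := 2 * n) (by omega) (s := s) (Cc := 1) hs0 hs1 hsq (fun m => by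
    rw [if_neg hne1]
    unfold Eq'
    split_ifs with he
    · obtain ⟨k, hk⟩ := he
      have e1 : m / 2 = k := by omega
      have e2 : m = 2 * k := by omega
      rw [e1, e2, pow_mul]
      push_cast
      rw [← mul_pow, hsq, one_pow]
    · simp) (by norm_num)
  rw [one_mul] at h3
  have h4 := h3.trans (H46.SpNum.prod_GB_le h2 hs0 hs3 n)
  have h5 : (Nat.card (ConjClasses (Matrix.symplecticGroup (Fin n) F)) : ℝ) * s ^ (2 * n) ≤ 54 / 5 :=
    (mul_le_mul_of_nonneg_right (by exact_mod_cast h1) (by positivity)).trans h4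
  have h6 : s ^ (2 * n) * (q : ℝ) ^ n = 1 := by
    rw [pow_mul, ← mul_pow, hssq, inv_mul_cancel₀ hqpos.ne', one_pow]
  have h7 : (Nat.card (ConjClasses (Matrix.symplecticGroup (Fin n) F)) : ℝ) ≤ 54 / 5 * (q : ℝ) ^ n := by
    calc (Nat.card (ConjClasses (Matrix.symplecticGroup (Fin n) F)) : ℝ) = Nat.card (ConjClasses (Matrix.symplecticGroup (Fin n) F)) * (s ^ (2 * n) * (q : ℝ) ^ n) := by rw [h6, mul_one]
      _ = (Nat.card (ConjClasses (Matrix.symplecticGroup (Fin n) F)) * s ^ (2 * n)) * (q : ℝ) ^ n := by ring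
      _ ≤ _ := mul_le_mul_of_nonneg_right h5 (by positivity)
  have h8 : (5 : ℝ) * Nat.card (ConjClasses (Matrix.symplecticGroup (Fin n) F)) ≤ 54 * (q : ℝ) ^ n := by linarith
  rw [← hq]
  exact_mod_cast h8

theorem sg_mem_TyS [Finite F] {ε : F} {m : ℕ} (hm : 1 ≤ m) {f : F[X]} (hf : f ∈ SP F m 1) (he : Even m) : sg 1 f ∈ TyS ε m := by
  rw [mem_TyS]
  refine ⟨?_, ?_, ?_⟩
  · refine mem_TT_of_le (N := m) ?_ ?_ ?_ ?_
    · intro e
      unfold sg
      split_ifs
      · exact hf.1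
      · exact good_one
    · intro e he
      unfold sg
      rw [if_neg (by omega)]
    · intro e he
      unfold sg
      rw [if_neg (by omega)]
    · rw [Finset.sum_eq_single 1]
      · unfold sg
        rw [if_pos rfl, one_mul, hf.2.1]
      · intro b _ hb
        unfold sg
        rw [if_neg hb, natDegree_one, mul_zero]
      · intro h
        exact absurd (Finset.mem_range.mpr (by omega)) h
  · intro e
    unfold sg
    split_ifs
    · exact hf.2.2.1
    · exact st_one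
  · intro i _
    unfold sg
    split_ifs
    · exact ⟨hf.2.2.2, by rw [hf.2.1]; exact he⟩
    · exact ⟨by simp, by simp⟩

include h2 in
/-- realisation of self-reciprocal types -/
theorem exists_type [Finite F] {τ : ℕ → F[X]} (hτ : τ ∈ TyS (-1 : F) (2 * n)) :
    ∃ g : Matrix.symplecticGroup (Fin n) F, tyG (isoSp F n) g = τ := by
  obtain ⟨M⟩ := exists_model h2 (mem_TyS.mp hτ).1
  obtain ⟨f', hf', -, -⟩ := exists_form_model h2 (ε := -1) (by ring) hτ M (fun _ => True) (fun _ => True)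
  have hinj : Function.Injective M.T := by
    rw [← LinearMap.ker_eq_bot, LinearMap.ker_eq_bot']
    intro v hv
    apply hf'.nd
    intro y
    rw [← hf'.inv, hv, map_zero, LinearMap.zero_apply]
  have hfr : finrank F M.E = 2 * n := finrank_of_isTy M.isTy hinj (mem_TyS.mp hτ).1
  have hfr' : finrank F (Fin n ⊕ Fin n → F) = 2 * n := by
    rw [Module.finrank_fintype_fun_eq_card, Fintype.card_sum, Fintype.card_fin]; omega
  let e₀ : M.E ≃ₗ[F] (Fin n ⊕ Fin n → F) := LinearEquiv.ofFinrankEq _ _ (by rw [hfr, hfr'])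
  have hI : IF (((e₀ : M.E →ₗ[F] _) ∘ₗ M.T ∘ₗ (e₀.symm : _ →ₗ[F] M.E))) (-1) (tp f' e₀) := tp_IF hf' e₀ (by
    intro v
    show e₀ (M.T v) = e₀ (M.T (e₀.symm (e₀ v)))
    rw [e₀.symm_apply_apply])
  obtain ⟨y, hy⟩ := alt_equiv (fJ F n) (tp f' e₀) ndb_fJ hI.nd (isAlt_of_skew h2 symm_fJ) (isAlt_of_skew h2 hI.symm)
  obtain ⟨g, hg⟩ := exists_elt (isoSp F n) hf' (e₀.trans y) (by
    intro u v
    show fJ F n (y (e₀ u)) (y (e₀ v)) = f' u v
    rw [hy, tp_apply, e₀.symm_apply_apply, e₀.symm_apply_apply])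
  exact ⟨g, tyG_of_conj (isoSp F n) M.isTy (e₀.trans y).symm hg⟩

include h2 in
/-- lower bound -/
theorem lower [Finite F] (hn : 1 ≤ n) : Nat.card F ^ n ≤ Nat.card (ConjClasses (Matrix.symplecticGroup (Fin n) F)) := by
  classical
  haveI : Finite (Matrix.symplecticGroup (Fin n) F) := Subtype.finite
  haveI : Finite (ConjClasses (Matrix.symplecticGroup (Fin n) F)) := Quotient.finite _
  rw [← card_SP_even (F := F) n]
  choose g hg using fun f : SP F (2 * n) 1 => exists_type h2 (n := n) (sg_mem_TyS (ε := -1) (by omega) f.2 (even_two_mul n))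
  apply Nat.card_le_card_of_injective (fun f : SP F (2 * n) 1 => ConjClasses.mk (g f))
  intro f f' h
  have h1 := tyG_conj (isoSp F n) (ConjClasses.mk_eq_mk_iff_isConj.mp h)
  rw [hg, hg] at h1
  have h3 := congrFun h1 1
  unfold sg at h3
  rw [if_pos rfl, if_pos rfl] at h3
  exact Subtype.ext h3

end H46.SpFinal
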