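import Mathlib
import Cfsg.Agent.Lib.H46.DmEval
import Cfsg.Agent.Lib.H46.OrthUpper
import Cfsg.Agent.Lib.H46.SpFinal

/-! Lower bound for the class numbers of the even-dimensional orthogonal groups, odd characteristic. -/

set_option autoImplicit false

namespace H46.OrthLower

open Polynomial Module H49.FormConj2 H49.FormConj3 H46.FormSplit H46.SigU H46.SigModel H46.IsoCount H46.UniForm H46.BlockCongr
open H46.TyAlg H46.TyCount H46.TyReal H46.TyGL H46.StPoly H46.StTy H46.SdCount H46.SdWeight H46.TySelf H46.ProdBound H46.IsoBound H46.UniDet H46.SqForm H49.GUUnip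
open H46.OrthCount H46.DmEval H46.TypeReal H46.SpFinal

universe u v w

section poly
variable {F : Type u} [Field F]

theorem mem_SP_iff {m : ℕ} {f : F[X]} : f ∈ SP F m 1 ↔ f.Monic ∧ f.natDegree = m ∧ f.coeff 0 = 1 ∧ ∀ i ≤ m, f.coeff i = f.coeff (m - i) := by
  constructor
  · rintro ⟨h1, h2, h3, h4⟩
    refine ⟨h1.1, h2, h4, fun i hi => ?_⟩
    rw [coeff_symm h3 (h2 ▸ hi), h4, inv_one, one_mul, h2]
  · rintro ⟨h1, h2, h3, h4⟩
    refine ⟨⟨h1, by rw [h3]; exact one_ne_zero⟩, h2, ?_, h3⟩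
    ext i
    rw [st_coeff, h3, h2]
    show (1 : F)⁻¹ * f.coeff _ = _
    rw [inv_one, one_mul]
    rcases le_or_gt i m with h | h
    · rw [revAt_le h, h4 i h]
    · rw [revAt_eq_self_of_lt h]

/-- the auxiliary polynomial -/
noncomputable def hh (n : ℕ) : F[X] := X ^ (n + 1) + C 2 * X ^ n + X ^ (n - 1)

theorem hh_coeff (n : ℕ) (i : ℕ) : (hh n : F[X]).coeff i = (if i = n + 1 then 1 else 0) + 2 * (if i = n then 1 else 0) + (if i = n - 1 then 1 else 0) := by
  unfold hh
  rw [coeff_add, coeff_add, coeff_X_pow, coeff_X_pow, coeff_C_mul, coeff_X_pow]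

theorem hh_eval (n : ℕ) : (hh n : F[X]).eval 1 = 4 := by
  unfold hh
  simp
  norm_num

theorem hh_eval' {n : ℕ} (hn : 1 ≤ n) : (hh n : F[X]).eval (-1) = 0 := by
  unfold hh
  obtain ⟨m, rfl⟩ : ∃ m, n = m + 1 := ⟨n - 1, by omega⟩
  simp only [eval_add, eval_mul, eval_pow, eval_X, eval_C, Nat.add_sub_cancel]
  ring

theorem add_hh_mem {n : ℕ} (hn : 2 ≤ n) {f : F[X]} (hf : f ∈ SP F (2 * n) 1) (c : F) : f + C c * hh n ∈ SP F (2 * n) 1 := by
  rw [mem_SP_iff] at hf ⊢
  obtain ⟨h1, h2, h3, h4⟩ := hf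
  have hco : ∀ i, (C c * hh n : F[X]).coeff i = c * ((if i = n + 1 then 1 else 0) + 2 * (if i = n then 1 else 0) + (if i = n - 1 then 1 else 0)) := by
    intro i
    rw [coeff_C_mul, hh_coeff]
  have hdeg : (C c * hh n : F[X]).natDegree ≤ n + 1 := by
    rw [natDegree_le_iff_coeff_eq_zero]
    intro N hN
    rw [hco, if_neg (by omega), if_neg (by omega), if_neg (by omega)]
    ring
  have hlt : (C c * hh n : F[X]).natDegree < f.natDegree := by omega
  refine ⟨h1.add_of_left (degree_lt_degree hlt), ?_, ?_, ?_⟩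
  · rw [natDegree_add_eq_left_of_natDegree_lt hlt, h2]
  · rw [coeff_add, h3, hco, if_neg (by omega), if_neg (by omega), if_neg (by omega)]
    ring
  · intro i hi
    rw [coeff_add, coeff_add, h4 i hi, hco, hco]
    congr 2
    have e1 : (2 * n - i = n + 1) ↔ (i = n - 1) := by omega
    have e2 : (2 * n - i = n) ↔ (i = n) := by omega
    have e3 : (2 * n - i = n - 1) ↔ (i = n + 1) := by omega
    simp only [e1, e2, e3]
    ring

theorem add_hh_eval (n : ℕ) (f : F[X]) (c : F) : (f + C c * hh n).eval 1 = f.eval 1 + 4 * c := by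
  rw [eval_add, eval_mul, eval_C, hh_eval, mul_comm]

theorem add_hh_eval' {n : ℕ} (hn : 1 ≤ n) (f : F[X]) (c : F) : (f + C c * hh n).eval (-1) = f.eval (-1) := by
  rw [eval_add, eval_mul, eval_C, hh_eval' hn, mul_zero, add_zero]

/-- the good polynomials for a given discriminant -/
def GS (F : Type u) [Field F] (n : ℕ) (δ : Prop) : Set F[X] := {f | f ∈ SP F (2 * n) 1 ∧ (f.eval 1 * f.eval (-1) = 0 ∨ (IsSquare (f.eval 1 * f.eval (-1)) ↔ δ))}

theorem card_GS [Finite F] (h2 : (2 : F) ≠ 0) {n : ℕ} (hn : 2 ≤ n) (δ : Prop) : Nat.card F ^ n ≤ 2 * Nat.card (GS F n δ) := by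
  classical
  obtain ⟨α, hα⟩ := H48.FinFieldSq.exists_not_isSquare h2
  have hα0 : α ≠ 0 := by rintro rfl; exact hα (IsSquare.zero)
  have h4 : (4 : F) ≠ 0 := by
    have : (4 : F) = 2 * 2 := by norm_num
    rw [this]; exact mul_ne_zero h2 h2
  let B : Set F[X] := {f | f ∈ SP F (2 * n) 1 ∧ ¬ (f.eval 1 * f.eval (-1) = 0 ∨ (IsSquare (f.eval 1 * f.eval (-1)) ↔ δ))}
  have hGSfin : (GS F n δ).Finite := (finite_SP (2 * n) 1).subset (fun f hf => hf.1)
  have hBfin : B.Finite := (finite_SP (2 * n) 1).subset (fun f hf => hf.1)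
  have hU : SP F (2 * n) 1 ⊆ GS F n δ ∪ B := by
    intro f hf
    by_cases h : (f.eval 1 * f.eval (-1) = 0 ∨ (IsSquare (f.eval 1 * f.eval (-1)) ↔ δ))
    · exact Or.inl ⟨hf, h⟩
    · exact Or.inr ⟨hf, h⟩
  have hle : Nat.card (SP F (2 * n) 1) ≤ Nat.card (GS F n δ) + Nat.card B := by
    rw [Nat.card_coe_set_eq, Nat.card_coe_set_eq, Nat.card_coe_set_eq]
    exact (Set.ncard_le_ncard hU (hGSfin.union hBfin)).trans (Set.ncard_union_le _ _)
  have hBG : Nat.card B ≤ Nat.card (GS F n δ) := by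
    haveI : Finite (GS F n δ) := hGSfin
    apply Nat.card_le_card_of_injective (fun f : B => (⟨f.1 + C ((α - 1) * f.1.eval 1 / 4) * hh n, by
      have hev : (f.1 + C ((α - 1) * f.1.eval 1 / 4) * hh n).eval 1 = α * f.1.eval 1 := by
        rw [add_hh_eval]; field_simp; ring
      have hev' := add_hh_eval' (n := n) (by omega) f.1 ((α - 1) * f.1.eval 1 / 4)
      refine ⟨add_hh_mem hn f.2.1 _, Or.inr ?_⟩
      have hf := f.2.2
      push Not at hf
      have hne1 : f.1.eval 1 ≠ 0 := left_ne_zero_of_mul hf.1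
      have hne2 : f.1.eval (-1) ≠ 0 := right_ne_zero_of_mul hf.1
      rw [hev, hev', mul_assoc, isSquare_mul_iff hα0 hf.1]
      rcases hf.2 with ⟨ha, hb⟩ | ⟨ha, hb⟩
      · simp [hα, ha, hb]
      · simp [hα, ha, hb]⟩ : GS F n δ))
    intro f g h
    have h1 := congrArg Subtype.val h
    simp only at h1
    have hev : ∀ f : F[X], (f + C ((α - 1) * f.eval 1 / 4) * hh n).eval 1 = α * f.eval 1 := by
      intro f
      rw [add_hh_eval]; field_simp; ring
    have h3 : α * f.1.eval 1 = α * g.1.eval 1 := by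
      rw [← hev, ← hev, h1]
    have h5 := mul_left_cancel₀ hα0 h3
    rw [h5] at h1
    exact Subtype.ext (add_right_cancel h1)
  rw [← card_SP_even (F := F) n]
  omega

end poly

section real
variable {F : Type u} [Field F] {V : Type v} [AddCommGroup V] [Module F V] [FiniteDimensional F V] {G : Type w} [Group G]
variable {f : LinearMap.BilinForm F V} (P : IsoG G f)

/-- realisation of a type by a form with the right discriminant -/
theorem exists_of_sq [Finite F] (h2 : (2 : F) ≠ 0) (hf : NDB f) (hs : ∀ u v, f u v = f v u) {τ : ℕ → F[X]} {n : ℕ} (hn : finrank F V = n) (hτ : τ ∈ TT F 1 n)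
    (M : Model τ) {f' : LinearMap.BilinForm F M.E} (hf' : IF M.T 1 f') (hsq : Sq f' ↔ Sq f) : ∃ g : G, tyG P g = τ := by
  have hinj : Function.Injective M.T := by
    rw [← LinearMap.ker_eq_bot, LinearMap.ker_eq_bot']
    intro v hv
    apply hf'.nd
    intro y
    rw [← hf'.inv, hv, map_zero, LinearMap.zero_apply]
  have hfr : finrank F M.E = n := finrank_of_isTy M.isTy hinj hτ
  let e₀ : M.E ≃ₗ[F] V := LinearEquiv.ofFinrankEq _ _ (by rw [hfr, hn])
  have hI : IF (((e₀ : M.E →ₗ[F] _) ∘ₗ M.T ∘ₗ (e₀.symm : _ →ₗ[F] M.E))) 1 (tp f' e₀) := tp_IF hf' e₀ (by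
    intro v
    show e₀ (M.T v) = e₀ (M.T (e₀.symm (e₀ v)))
    rw [e₀.symm_apply_apply])
  obtain ⟨y, hy⟩ := equiv_of_sq h2 (f := f) (f' := tp f' e₀) hs hf (symm_of_IF hI) hI.nd (((sq_tp f' e₀).trans hsq).symm)
  obtain ⟨g, hg⟩ := exists_elt P hf' (e₀.trans y) (by
    intro u v
    show f (y (e₀ u)) (y (e₀ v)) = f' u v
    rw [hy, tp_apply, e₀.symm_apply_apply, e₀.symm_apply_apply])
  exact ⟨g, tyG_of_conj P M.isTy (e₀.trans y).symm hg⟩

theorem sg_dvd {m : ℕ} {p : F[X]} {c : F} {i : ℕ} (hd : (X - C c) ∣ sg 1 p i) : i = 1 := by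
  by_contra hne
  unfold sg at hd
  rw [if_neg hne] at hd
  exact (irreducible_X_sub_C c).not_isUnit (isUnit_of_dvd_one hd)

/-- all good polynomials are realised -/
theorem exists_good [Finite F] (hodd : Odd (Nat.card F)) (h2 : (2 : F) ≠ 0) (hf : NDB f) (hs : ∀ u v, f u v = f v u) {n : ℕ} (hn : 1 ≤ n) (hdim : finrank F V = 2 * n)
    {p : F[X]} (hp : p ∈ GS F n (Sq f)) : ∃ g : G, tyG P g = sg 1 p := by
  have hτ := sg_mem_TyS (ε := (1 : F)) (m := 2 * n) (by omega) hp.1 (even_two_mul n)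
  have hTT : sg 1 p ∈ TT F 1 (2 * n) := (mem_TyS.mp hτ).1
  have hτ0 : ∀ e, sg 1 p e ≠ 0 := fun e => (hTT.1 e).1.ne_zero
  obtain ⟨M⟩ := exists_model h2 hTT
  have hsg1 : sg 1 p 1 = p := if_pos rfl
  by_cases h0 : p.eval 1 * p.eval (-1) = 0
  · -- a sign is available
    have key : ∃ f' : LinearMap.BilinForm F M.E, IF M.T 1 f' ∧ (Sq f' ↔ Sq f) := by
      rcases mul_eq_zero.mp h0 with h | h
      · obtain ⟨fT, iT, aT, bT⟩ := exists_form_model h2 (ε := 1) (by ring) hτ M (fun _ => True) (fun _ => True)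
        obtain ⟨fF, iF, aF, bF⟩ := exists_form_model h2 (ε := 1) (by ring) hτ M (fun _ => False) (fun _ => True)
        have hd : (X - C 1) ∣ sg 1 p 1 := by rw [hsg1, dvd_iff_isRoot]; exact h
        have hne : ¬ (Sq fT ↔ Sq fF) := by
          intro hsq
          have h3 := keyA M hodd h2 hτ0 iT iF hsq (i₀ := 1) odd_one hd (fun i _ hne hd => absurd (sg_dvd (m := 1) hd) hne)
            (fun i hi hd => by
              have hi1 := sg_dvd (m := 1) hd
              subst hi1
              rw [bT 1 (by simp) hd, bF 1 (by simp) hd])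
          rw [aT 1 (by simp) hd, aF 1 (by simp) hd] at h3
          exact h3.mp trivial
        by_cases h5 : Sq fT ↔ Sq f
        · exact ⟨fT, iT, h5⟩
        · exact ⟨fF, iF, by tauto⟩
      · obtain ⟨fT, iT, aT, bT⟩ := exists_form_model h2 (ε := 1) (by ring) hτ M (fun _ => True) (fun _ => True)
        obtain ⟨fF, iF, aF, bF⟩ := exists_form_model h2 (ε := 1) (by ring) hτ M (fun _ => True) (fun _ => False)
        have hd : (X - C (-1)) ∣ sg 1 p 1 := by rw [hsg1, dvd_iff_isRoot]; exact h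
        have hne : ¬ (Sq fT ↔ Sq fF) := by
          intro hsq
          have h3 := keyB M hodd h2 hτ0 iT iF hsq (i₀ := 1) odd_one hd
            (fun i hi hd => by
              have hi1 := sg_dvd (m := 1) hd
              subst hi1
              rw [aT 1 (by simp) hd, aF 1 (by simp) hd]) (fun i _ hne hd => absurd (sg_dvd (m := 1) hd) hne)
          rw [bT 1 (by simp) hd, bF 1 (by simp) hd] at h3
          exact h3.mp trivial
        by_cases h5 : Sq fT ↔ Sq f
        · exact ⟨fT, iT, h5⟩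
        · exact ⟨fF, iF, by tauto⟩
    obtain ⟨f', hf', hsq⟩ := key
    exact exists_of_sq P h2 hf hs hdim hTT M hf' hsq
  · obtain ⟨f', hf', -, -⟩ := exists_form_model h2 (ε := 1) (by ring) hτ M (fun _ => True) (fun _ => True)
    have hinj : Function.Injective M.T := by
      rw [← LinearMap.ker_eq_bot, LinearMap.ker_eq_bot']
      intro v hv
      apply hf'.nd
      intro y
      rw [← hf'.inv, hv, map_zero, LinearMap.zero_apply]
    have hfr : finrank F M.E = 2 * n := finrank_of_isTy M.isTy hinj hTT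
    have h3 := sq_iff_eval h2 hf' hfr hp.1 M.isTy (left_ne_zero_of_mul h0) (right_ne_zero_of_mul h0)
    exact exists_of_sq P h2 hf hs hdim hTT M hf' (h3.trans (hp.2.resolve_left h0))

include P in
/-- the lower bound -/
theorem lower [Finite F] [Finite G] (hf : NDB f) (hs : ∀ u v, f u v = f v u) (hodd : Odd (Nat.card F)) (h2 : (2 : F) ≠ 0) {n : ℕ} (hn : 2 ≤ n) (hdim : finrank F V = 2 * n) :
    Nat.card F ^ n ≤ 2 * Nat.card (ConjClasses G) := by
  haveI : Finite (ConjClasses G) := Quotient.finite _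
  refine (card_GS h2 hn (Sq f)).trans ?_
  apply Nat.mul_le_mul_left
  choose g hg using fun p : GS F n (Sq f) => exists_good P hodd h2 hf hs (by omega) hdim p.2
  apply Nat.card_le_card_of_injective (fun p : GS F n (Sq f) => ConjClasses.mk (g p))
  intro p p' h
  have h1 := tyG_conj P (ConjClasses.mk_eq_mk_iff_isConj.mp h)
  rw [hg, hg] at h1
  have h3 := congrFun h1 1
  unfold sg at h3
  rw [if_pos rfl, if_pos rfl] at h3
  exact Subtype.ext h3

end real

end H46.OrthLower
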