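import Mathlib
import Cfsg.Agent.Lib.H46.OrthLower

/-! Lower bound for the class numbers of the odd-dimensional orthogonal groups, odd characteristic. -/

set_option autoImplicit false

namespace H46.OddLower

open Polynomial Module H49.FormConj2 H49.FormConj3 H46.FormSplit H46.SigU H46.SigModel H46.IsoCount H46.UniForm H46.BlockCongr
open H46.TyAlg H46.TyCount H46.TyReal H46.TyGL H46.StPoly H46.StTy H46.SdCount H46.SdWeight H46.TySelf H46.ProdBound H46.IsoBound H46.UniDet H46.SqForm H49.GUUnip
open H46.OrthCount H46.DmEval H46.TypeReal H46.SpFinal H46.OrthLower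

universe u v w

variable {F : Type u} [Field F]

theorem sg_mem_TyS' [Finite F] (h2 : (2 : F) ≠ 0) {n : ℕ} {c : F} (hc : c * c = 1) {p : F[X]} (hp : p ∈ SP F (2 * n) 1) :
    sg 1 ((X - C c) * p) ∈ TyS (1 : F) (2 * n + 1) := by
  have hg : Good ((X - C c) * p : F[X]) := (good_lin hc).mul hp.1
  rw [mem_TyS]
  refine ⟨?_, ?_, ?_⟩
  · refine mem_TT_of_le (N := 2 * n + 1) ?_ ?_ ?_ ?_
    · intro e
      unfold sg
      split_ifs
      · exact hg
      · exact good_one
    · intro e he
      unfold sg
      rw [if_neg (by omega)]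
    · intro e he
      unfold sg
      rw [if_neg (by omega)]
    · rw [Finset.sum_eq_single 1]
      · unfold sg
        rw [if_pos rfl, one_mul, (monic_X_sub_C c).natDegree_mul hp.1.1, natDegree_X_sub_C, hp.2.1, add_comm]
      · intro b _ hb
        unfold sg
        rw [if_neg hb, natDegree_one, mul_zero]
      · intro h
        exact absurd (Finset.mem_range.mpr (by omega)) h
  · intro e
    unfold sg
    split_ifs
    · rw [st_mul, st_lin hc, hp.2.2.1]
    · exact st_one
  · intro i hi
    unfold sg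
    split_ifs with h1
    · exfalso
      rw [h1, Nat.sub_self, pow_zero, mul_one] at hi
      apply h2
      have : (2 : F) = 1 + 1 := by norm_num
      rw [this]
      nth_rewrite 1 [hi]
      ring
    · exact ⟨by simp, by simp⟩

section real
variable {V : Type v} [AddCommGroup V] [Module F V] [FiniteDimensional F V] {G : Type w} [Group G]
variable {f : LinearMap.BilinForm F V} (P : IsoG G f)

theorem exists_good [Finite F] (hodd : Odd (Nat.card F)) (h2 : (2 : F) ≠ 0) (hf : NDB f) (hs : ∀ u v, f u v = f v u) {n : ℕ} (hdim : finrank F V = 2 * n + 1)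
    {c : F} (hc : c = 1 ∨ c = -1) {p : F[X]} (hp : p ∈ SP F (2 * n) 1) : ∃ g : G, tyG P g = sg 1 ((X - C c) * p) := by
  have hcc : c * c = 1 := by rcases hc with rfl | rfl <;> ring
  have hτ := sg_mem_TyS' h2 hcc hp
  have hTT := (mem_TyS.mp hτ).1
  have hτ0 : ∀ e, sg 1 ((X - C c) * p) e ≠ 0 := fun e => (hTT.1 e).1.ne_zero
  obtain ⟨M⟩ := exists_model h2 hTT
  have hsg1 : sg 1 ((X - C c) * p) 1 = (X - C c) * p := if_pos rfl
  have hd : (X - C c) ∣ sg 1 ((X - C c) * p) 1 := by rw [hsg1]; exact dvd_mul_right _ _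
  have key : ∃ f' : LinearMap.BilinForm F M.E, IF M.T 1 f' ∧ (Sq f' ↔ Sq f) := by
    rcases hc with rfl | rfl
    · obtain ⟨fT, iT, aT, bT⟩ := exists_form_model h2 (ε := 1) (by ring) hτ M (fun _ => True) (fun _ => True)
      obtain ⟨fF, iF, aF, bF⟩ := exists_form_model h2 (ε := 1) (by ring) hτ M (fun _ => False) (fun _ => True)
      have hne : ¬ (Sq fT ↔ Sq fF) := by
        intro hsq
        have h3 := keyA M hodd h2 hτ0 iT iF hsq (i₀ := 1) odd_one hd (fun i _ hne hd => absurd (sg_dvd (m := 1) hd) hne)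
          (fun i hi hd => by
            have hi1 := sg_dvd (m := 1) hd
            subst hi1
            rw [bT 1 (by simp) hd, bF 1 (by simp) hd])
        rw [aT 1 (by simp) hd, aF 1 (by simp) hd] at h3
        exact h3.mp trivial
      by_cases h5 : Sq fT ↔ Sq f
      · exact ⟨fT, iT, h5⟩
      · exact ⟨fF, iF, by tauto⟩
    · obtain ⟨fT, iT, aT, bT⟩ := exists_form_model h2 (ε := 1) (by ring) hτ M (fun _ => True) (fun _ => True)
      obtain ⟨fF, iF, aF, bF⟩ := exists_form_model h2 (ε := 1) (by ring) hτ M (fun _ => True) (fun _ => False)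
      have hne : ¬ (Sq fT ↔ Sq fF) := by
        intro hsq
        have h3 := keyB M hodd h2 hτ0 iT iF hsq (i₀ := 1) odd_one hd
          (fun i hi hd => by
            have hi1 := sg_dvd (m := 1) hd
            subst hi1
            rw [aT 1 (by simp) hd, aF 1 (by simp) hd]) (fun i _ hne hd => absurd (sg_dvd (m := 1) hd) hne)
        rw [bT 1 (by simp) hd, bF 1 (by simp) hd] at h3
        exact h3.mp trivial
      by_cases h5 : Sq fT ↔ Sq f
      · exact ⟨fT, iT, h5⟩
      · exact ⟨fF, iF, by tauto⟩
  obtain ⟨f', hf', hsq⟩ := key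
  exact exists_of_sq P h2 hf hs hdim hTT M hf' hsq

include P in
/-- the lower bound -/
theorem lower [Finite F] [Finite G] (hf : NDB f) (hs : ∀ u v, f u v = f v u) (hodd : Odd (Nat.card F)) (h2 : (2 : F) ≠ 0) {n : ℕ} (hdim : finrank F V = 2 * n + 1) :
    2 * Nat.card F ^ n ≤ Nat.card (ConjClasses G) := by
  haveI : Finite (ConjClasses G) := Quotient.finite _
  rw [← card_SP_even (F := F) n]
  have h1 : Nat.card (Bool × SP F (2 * n) 1) = 2 * Nat.card (SP F (2 * n) 1) := by
    rw [Nat.card_prod, Nat.card_eq_fintype_card (α := Bool), Fintype.card_bool]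
  rw [← h1]
  let cc : Bool → F := fun b => if b then 1 else -1
  have hcc : ∀ b, cc b = 1 ∨ cc b = -1 := by
    intro b
    cases b
    · right; rfl
    · left; rfl
  choose g hg using fun x : Bool × SP F (2 * n) 1 => exists_good P hodd h2 hf hs hdim (hcc x.1) x.2.2
  apply Nat.card_le_card_of_injective (fun x : Bool × SP F (2 * n) 1 => ConjClasses.mk (g x))
  rintro ⟨b, p⟩ ⟨b', p'⟩ h
  have h1 := tyG_conj P (ConjClasses.mk_eq_mk_iff_isConj.mp h)
  rw [hg, hg] at h1
  have h3 : (X - C (cc b)) * p.1 = (X - C (cc b')) * p'.1 := by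
    have h3 := congrFun h1 1
    unfold sg at h3
    rw [if_pos rfl, if_pos rfl] at h3
    exact h3
  have h4 : cc b = cc b' := by
    have h4 := congrArg (fun r => r.coeff 0) h3
    simp only [mul_coeff_zero, coeff_sub, coeff_X_zero, coeff_C_zero, zero_sub, p.2.2.2.2, p'.2.2.2.2, mul_one] at h4
    exact neg_injective h4
  have h5 : b = b' := by
    have h11 : (1 : F) ≠ -1 := by
      intro h
      apply h2
      have : (2 : F) = 1 + 1 := by norm_num
      rw [this]
      nth_rewrite 2 [h]
      ring
    cases b <;> cases b'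
    · rfl
    · exact absurd h4 (fun h => h11 h.symm)
    · exact absurd h4 h11
    · rfl
  subst h5
  have h6 : p.1 = p'.1 := mul_left_cancel₀ (monic_X_sub_C _).ne_zero h3
  rw [Subtype.ext h6]

end real

end H46.OddLower
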