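import Mathlib
import Cfsg.Agent.Lib.H46.IsoBound

/-! Bounding weighted numbers of sequences by products: a refined version. -/

set_option autoImplicit false

namespace H46.ProdBound2

open Finset

theorem prod_bound2 {P : Type*} [DecidableEq P] (one : P) (deg : P → ℕ) {N : ℕ} (hN : 1 ≤ N) (𝒯 : Finset (ℕ → P)) (A : ℕ → Finset P)
    (w : ℕ → P → ℝ) (hw : ∀ e p, 0 ≤ w e p) {s C₁ C₂ : ℝ} (hs : 0 < s)
    (h1 : ∀ f ∈ 𝒯, ∀ e ∈ Icc 1 N, f e ∈ A e) (h2 : ∀ f ∈ 𝒯, ∀ e, e ∉ Icc 1 N → f e = one)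
    (h3 : ∀ f ∈ 𝒯, ∑ e ∈ Icc 1 N, e * deg (f e) = N)
    (hC : 0 ≤ C₂) (h4 : ∀ m, ∑ g ∈ (A 1).filter (fun g => deg g = m), w 1 g * s ^ m ≤ C₂)
    (h4' : ∑ g ∈ (A 1).filter (fun g => deg g = N), w 1 g * s ^ N ≤ C₁) (hone : ∀ e ∈ Icc 2 N, one ∈ A e) (hdeg : deg one = 0) (hw1 : ∀ e, w e one = 1) :
    (∑ f ∈ 𝒯, ∏ e ∈ Icc 1 N, w e (f e)) * s ^ N ≤ C₁ + C₂ * ((∏ e ∈ Icc 2 N, ∑ g ∈ A e, w e g * s ^ (e * deg g)) - 1) := by
  classical
  have hsplit : Icc 1 N = insert 1 (Icc 2 N) := by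
    ext e; simp only [mem_Icc, mem_insert]; omega
  have hnot : (1 : ℕ) ∉ Icc 2 N := by simp
  have hterm : ∀ f ∈ 𝒯, (∏ e ∈ Icc 1 N, w e (f e)) * s ^ N = w 1 (f 1) * s ^ (deg (f 1)) * ∏ x ∈ (Icc 2 N).attach, (w x.1 (f x.1) * s ^ (x.1 * deg (f x.1))) := by
    intro f hf
    have e1 : ∏ x ∈ (Icc 2 N).attach, (w x.1 (f x.1) * s ^ (x.1 * deg (f x.1))) = ∏ e ∈ Icc 2 N, (w e (f e) * s ^ (e * deg (f e))) :=
      Finset.prod_attach (Icc 2 N) (fun e => w e (f e) * s ^ (e * deg (f e)))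
    have e2 : (∏ e ∈ Icc 1 N, w e (f e)) * s ^ N = ∏ e ∈ Icc 1 N, (w e (f e) * s ^ (e * deg (f e))) := by
      rw [Finset.prod_mul_distrib, Finset.prod_pow_eq_pow_sum, h3 f hf]
    rw [e1, e2, hsplit, Finset.prod_insert hnot, one_mul]
  rw [Finset.sum_mul, Finset.sum_congr rfl hterm]
  let Z : Finset (P × ((e : ℕ) → e ∈ Icc 2 N → P)) := ((A 1) ×ˢ ((Icc 2 N).pi A)).filter
    (fun z => deg z.1 + ∑ x ∈ (Icc 2 N).attach, x.1 * deg (z.2 x.1 x.2) = N)
  let φ : (ℕ → P) → P × ((e : ℕ) → e ∈ Icc 2 N → P) := fun f => (f 1, fun e _ => f e)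
  have hφ : Set.InjOn φ 𝒯 := by
    intro f hf g hg h
    funext e
    by_cases he : e ∈ Icc 1 N
    · rw [hsplit, mem_insert] at he
      rcases he with rfl | he
      · exact congrArg Prod.fst h
      · exact congrFun (congrFun (congrArg Prod.snd h) e) he
    · rw [h2 f hf e he, h2 g hg e he]
  have hmem : ∀ f ∈ 𝒯, φ f ∈ Z := by
    intro f hf
    rw [mem_filter, mem_product, Finset.mem_pi]
    refine ⟨⟨h1 f hf 1 (by rw [hsplit]; exact mem_insert_self _ _), fun e he => h1 f hf e (by rw [hsplit]; exact mem_insert_of_mem he)⟩, ?_⟩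
    have e1 : ∑ x ∈ (Icc 2 N).attach, x.1 * deg ((φ f).2 x.1 x.2) = ∑ e ∈ Icc 2 N, e * deg (f e) :=
      Finset.sum_attach (Icc 2 N) (fun e => e * deg (f e))
    rw [e1]
    have := h3 f hf
    rw [hsplit, Finset.sum_insert hnot, one_mul] at this
    exact this
  let Ψ : P × ((e : ℕ) → e ∈ Icc 2 N → P) → ℝ := fun z => w 1 z.1 * s ^ (deg z.1) * ∏ x ∈ (Icc 2 N).attach, (w x.1 (z.2 x.1 x.2) * s ^ (x.1 * deg (z.2 x.1 x.2)))
  have hΨ : ∀ z, 0 ≤ Ψ z := by
    intro z
    apply mul_nonneg (mul_nonneg (hw _ _) (pow_nonneg hs.le _))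
    apply Finset.prod_nonneg
    intro x _
    exact mul_nonneg (hw _ _) (pow_nonneg hs.le _)
  let p₁ : (e : ℕ) → e ∈ Icc 2 N → P := fun _ _ => one
  have hp₁ : p₁ ∈ (Icc 2 N).pi A := by
    rw [Finset.mem_pi]
    exact fun e he => hone e he
  have hP₁ : ∏ x ∈ (Icc 2 N).attach, (w x.1 (p₁ x.1 x.2) * s ^ (x.1 * deg (p₁ x.1 x.2))) = 1 := by
    apply Finset.prod_eq_one
    intro x _
    show w x.1 one * s ^ (x.1 * deg one) = 1
    rw [hw1, hdeg, mul_zero, pow_zero, mul_one]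
  have hS₁ : ∑ x ∈ (Icc 2 N).attach, x.1 * deg (p₁ x.1 x.2) = 0 := by
    apply Finset.sum_eq_zero
    intro x _
    show x.1 * deg one = 0
    rw [hdeg, mul_zero]
  have hsum1 : ∑ p ∈ (Icc 2 N).pi A, (∏ x ∈ (Icc 2 N).attach, (w x.1 (p x.1 x.2) * s ^ (x.1 * deg (p x.1 x.2)))) =
      1 + ∑ p ∈ ((Icc 2 N).pi A).erase p₁, (∏ x ∈ (Icc 2 N).attach, (w x.1 (p x.1 x.2) * s ^ (x.1 * deg (p x.1 x.2)))) := by
    rw [← Finset.add_sum_erase _ _ hp₁, hP₁]
  calc ∑ f ∈ 𝒯, w 1 (f 1) * s ^ (deg (f 1)) * ∏ x ∈ (Icc 2 N).attach, (w x.1 (f x.1) * s ^ (x.1 * deg (f x.1)))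
      = ∑ z ∈ 𝒯.image φ, Ψ z := by
        rw [Finset.sum_image hφ]
    _ ≤ ∑ z ∈ Z, Ψ z := by
        apply Finset.sum_le_sum_of_subset_of_nonneg
        · intro z hz
          rw [mem_image] at hz
          obtain ⟨f, hf, rfl⟩ := hz
          exact hmem f hf
        · intro z _ _
          exact hΨ z
    _ = ∑ p ∈ (Icc 2 N).pi A, (∏ x ∈ (Icc 2 N).attach, (w x.1 (p x.1 x.2) * s ^ (x.1 * deg (p x.1 x.2)))) *
          ∑ g ∈ (A 1).filter (fun g => deg g + ∑ x ∈ (Icc 2 N).attach, x.1 * deg (p x.1 x.2) = N), w 1 g * s ^ deg g := by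
        rw [Finset.sum_filter, Finset.sum_product_right]
        refine Finset.sum_congr rfl fun p _ => ?_
        rw [Finset.mul_sum, Finset.sum_filter]
        refine Finset.sum_congr rfl fun g _ => ?_
        split_ifs
        · exact mul_comm _ _
        · rfl
    _ ≤ C₁ + ∑ p ∈ ((Icc 2 N).pi A).erase p₁, (∏ x ∈ (Icc 2 N).attach, (w x.1 (p x.1 x.2) * s ^ (x.1 * deg (p x.1 x.2)))) * C₂ := by
        rw [← Finset.add_sum_erase _ _ hp₁]
        apply add_le_add
        · rw [hP₁, one_mul]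
          refine le_trans (le_of_eq ?_) h4'
          rw [hS₁]
          simp only [add_zero]
          refine Finset.sum_congr rfl fun g hg => ?_
          rw [(mem_filter.mp hg).2]
        · refine Finset.sum_le_sum fun p _ => ?_
          apply mul_le_mul_of_nonneg_left
          · by_cases hle : ∑ x ∈ (Icc 2 N).attach, x.1 * deg (p x.1 x.2) ≤ N
            · obtain ⟨m, hm⟩ := Nat.exists_eq_add_of_le hle
              refine le_trans (le_of_eq ?_) (h4 m)
              have e1 : (A 1).filter (fun g => deg g + ∑ x ∈ (Icc 2 N).attach, x.1 * deg (p x.1 x.2) = N) = (A 1).filter (fun g => deg g = m) := by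
                ext g; simp only [mem_filter]
                constructor
                · rintro ⟨a, b⟩; exact ⟨a, by omega⟩
                · rintro ⟨a, b⟩; exact ⟨a, by omega⟩
              rw [e1]
              refine Finset.sum_congr rfl fun g hg => ?_
              rw [(mem_filter.mp hg).2]
            · rw [Finset.sum_eq_zero]
              · exact hC
              · intro g hg
                exfalso
                have := (mem_filter.mp hg).2
                omega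
          · apply Finset.prod_nonneg
            intro x _
            exact mul_nonneg (hw _ _) (pow_nonneg hs.le _)
    _ = C₁ + C₂ * ((∏ e ∈ Icc 2 N, ∑ g ∈ A e, w e g * s ^ (e * deg g)) - 1) := by
        rw [← Finset.sum_mul, mul_comm C₂]
        have h5 : (∏ e ∈ Icc 2 N, ∑ g ∈ A e, w e g * s ^ (e * deg g)) - 1 =
            ∑ p ∈ ((Icc 2 N).pi A).erase p₁, (∏ x ∈ (Icc 2 N).attach, (w x.1 (p x.1 x.2) * s ^ (x.1 * deg (p x.1 x.2)))) := by
          rw [Finset.prod_sum, hsum1]; ring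
        rw [h5]

open Polynomial H46.TyCount H46.StPoly H46.SdCount H46.SdWeight H46.ProdBound H46.IsoBound

open scoped Classical

variable {F : Type*} [Field F]

theorem types_bound {n : ℕ} (hn : 1 ≤ n) (𝒯 : Finset (ℕ → F[X])) (h𝒯 : ∀ τ ∈ 𝒯, τ ∈ TT F 1 n) (w : ℕ → F[X] → ℝ) (hw : ∀ e g, 0 ≤ w e g) (hw1 : ∀ e, w e 1 = 1)
    {s C₁ C₂ : ℝ} (hs0 : 0 < s) (hC : 0 ≤ C₂) (hA : ∀ m, ∑ g ∈ (insert 1 (𝒯.image (fun τ => τ 1))).filter (fun g => g.natDegree = m), w 1 g * s ^ m ≤ C₂)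
    (hA' : ∑ g ∈ (insert 1 (𝒯.image (fun τ => τ 1))).filter (fun g => g.natDegree = n), w 1 g * s ^ n ≤ C₁)
    (S : ℕ → ℝ) (hS : ∀ e ∈ Icc 2 n, ∑ g ∈ insert 1 (𝒯.image (fun τ => τ e)), w e g * s ^ (e * g.natDegree) ≤ S e) :
    (∑ τ ∈ 𝒯, ∏ e ∈ Icc 1 n, w e (τ e)) * s ^ n ≤ C₁ + C₂ * ((∏ e ∈ Icc 2 n, S e) - 1) := by
  have hmain := prod_bound2 (1 : F[X]) (fun g => g.natDegree) hn 𝒯 (fun e => insert 1 (𝒯.image (fun τ => τ e))) w hw hs0
    (fun f hf e _ => mem_insert_of_mem (mem_image_of_mem _ hf))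
    (fun f hf e he => by
      apply (h𝒯 f hf).2.1
      rw [mem_Icc] at he
      omega)
    (fun f hf => by
      have h3 := (h𝒯 f hf).2.2
      rw [Finset.sum_range_succ'] at h3
      rw [zero_mul, add_zero] at h3
      conv_rhs => rw [← h3]
      rw [Finset.sum_bij (fun (e : ℕ) (_ : e ∈ Icc 1 n) => e - 1) (t := range n) (g := fun k => (k + 1) * (f (k + 1)).natDegree)]
      · intro e he; rw [mem_Icc] at he; rw [mem_range]; omega
      · intro e he e' he' h; rw [mem_Icc] at he he'; omega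
      · intro k hk; rw [mem_range] at hk; exact ⟨k + 1, by rw [mem_Icc]; omega, by omega⟩
      · intro e he
        rw [mem_Icc] at he
        have : e - 1 + 1 = e := by omega
        rw [this])
    hC hA hA' (fun e _ => mem_insert_self _ _) natDegree_one hw1
  refine hmain.trans ?_
  gcongr with e he
  · intro e _
    apply Finset.sum_nonneg
    intro g _
    exact mul_nonneg (hw _ _) (pow_nonneg hs0.le _)
  · exact hS e he

/-- the number of polynomials with at most simple roots `1`, `-1` -/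
def Vq (q m : ℕ) : ℕ := Eq' q m + 2 * (if 1 ≤ m then Eq' q (m - 1) else 0) + (if 2 ≤ m then Eq' q (m - 2) else 0)

theorem Eq_rec (q m : ℕ) : Eq' q (m + 2) = q * Eq' q m := by
  unfold Eq'
  by_cases he : Even m
  · rw [if_pos (by rw [Nat.even_add]; simp [he]), if_pos he]
    have e1 : (m + 2) / 2 = m / 2 + 1 := by omega
    rw [e1, pow_succ, mul_comm]
  · rw [if_neg (by rw [Nat.even_add]; simp [he]), if_neg he, mul_zero]

theorem Vq_rec (q m : ℕ) : Vq q (m + 2) = q * Vq q m + Nat.choose 2 (m + 2) := by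
  unfold Vq
  rcases m with _ | _ | m
  · simp [Eq', Nat.choose]
  · have h3 : ¬ Even 3 := by decide
    simp [Eq', Nat.choose, h3, mul_comm]
  · rw [if_pos (by omega), if_pos (by omega), if_pos (by omega), if_pos (by omega), Nat.choose_eq_zero_of_lt (by omega)]
    have e1 : m + 1 + 1 + 2 - 1 = m + 1 + 2 := by omega
    have e2 : m + 1 + 1 + 2 - 2 = m + 2 := by omega
    have e3 : m + 1 + 1 - 1 = m + 1 := by omega
    have e4 : m + 1 + 1 - 2 = m := by omega
    rw [e1, e2, e3, e4, Eq_rec q (m + 1 + 1), Eq_rec q (m + 1), Eq_rec q m]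
    ring

theorem sum_choose_le (v : ℝ) (hv : 0 ≤ v) (M : ℕ) : ∑ m ∈ range M, (Nat.choose 2 m : ℝ) * v ^ m ≤ (1 + v) ^ 2 := by
  have h1 : ∑ m ∈ range M, (Nat.choose 2 m : ℝ) * v ^ m ≤ ∑ m ∈ range (M + 3), (Nat.choose 2 m : ℝ) * v ^ m :=
    Finset.sum_le_sum_of_subset_of_nonneg (Finset.range_subset_range.mpr (by omega)) (fun m _ _ => by positivity)
  refine h1.trans (le_of_eq ?_)
  have h2 : ∑ m ∈ range (M + 3), (Nat.choose 2 m : ℝ) * v ^ m = ∑ m ∈ range 3, (Nat.choose 2 m : ℝ) * v ^ m := by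
    symm
    apply Finset.sum_subset (Finset.range_subset_range.mpr (by omega))
    intro m _ hm
    rw [mem_range] at hm
    rw [Nat.choose_eq_zero_of_lt (by omega)]; simp
  rw [h2]
  simp [Finset.sum_range_succ, Nat.choose]
  ring

theorem sum_Vq_le {q : ℕ} {v : ℝ} (hv : 0 ≤ v) (hqv : (q : ℝ) * v ^ 2 < 1) (M : ℕ) :
    ∑ m ∈ range M, (Vq q m : ℝ) * v ^ m ≤ (1 + v) ^ 2 / (1 - q * v ^ 2) := by
  apply sum_rec_le (c := fun m => (Nat.choose 2 m : ℝ)) (Nat.cast_nonneg q) hv hqv (fun m => Nat.cast_nonneg _)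
  · intro m
    have := Vq_rec q m
    exact_mod_cast this.le
  · simp [Vq, Eq']
  · simp [Vq, Eq']
  · exact fun M => sum_choose_le v hv M

/-- decomposition of a polynomial with at most simple roots `1`, `-1` -/
theorem strip_small (h2 : (2 : F) ≠ 0) {g : F[X]} (hg : Good g) (hst : st (RingHom.id F) g = g) (h1 : rootMultiplicity 1 g ≤ 1) (h1' : rootMultiplicity (-1) g ≤ 1) :
    ∃ (a b : ℕ) (g₀ : F[X]), a ≤ 1 ∧ b ≤ 1 ∧ g = (X - C 1) ^ a * ((X - C (-1)) ^ b * g₀) ∧ g.natDegree = a + b + g₀.natDegree ∧ g₀.Monic ∧ Even g₀.natDegree ∧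
      g₀ ∈ SP F g₀.natDegree 1 ∧ ¬ (X - C 1) ∣ g₀ ∧ ¬ (X - C (-1)) ∣ g₀ := by
  obtain ⟨g₀, hg1, hg2, hg3, hg4⟩ := SigModel.strip hg.1 h2
  have m1 : ((X - C (1 : F)) ^ rootMultiplicity 1 g).Monic := (monic_X_sub_C 1).pow _
  have m2 : ((X - C (-1 : F)) ^ rootMultiplicity (-1) g).Monic := (monic_X_sub_C (-1)).pow _
  have hsg : st (RingHom.id F) g₀ = g₀ := by
    have h3 := hst
    rw [hg1, st_mul, st_mul, st_pow, st_pow, st_lin (by ring), st_lin (by ring)] at h3
    rw [← hg1] at h3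
    exact mul_left_cancel₀ m2.ne_zero (mul_left_cancel₀ m1.ne_zero (h3.trans hg1))
  have hc := TySelf.eval_one_of_st hsg hg3
  have he := TySelf.even_of_st h2 hsg hc hg4
  have hgood : Good g₀ := ⟨hg2, by rw [hc]; exact one_ne_zero⟩
  refine ⟨rootMultiplicity 1 g, rootMultiplicity (-1) g, g₀, h1, h1', hg1, ?_, hg2, he, ⟨hgood, rfl, hsg, hc⟩, hg3, hg4⟩
  conv_lhs => rw [hg1]
  rw [m1.natDegree_mul (m2.mul hg2), m2.natDegree_mul hg2, natDegree_pow, natDegree_pow, natDegree_X_sub_C, natDegree_X_sub_C]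
  ring

/-- counting -/
theorem card_V_le [Finite F] (h2 : (2 : F) ≠ 0) (A : Finset F[X]) (m : ℕ) (hA : ∀ g ∈ A, Good g ∧ st (RingHom.id F) g = g ∧ rootMultiplicity 1 g ≤ 1 ∧ rootMultiplicity (-1) g ≤ 1) :
    (A.filter (fun g => g.natDegree = m)).card ≤ Vq (Nat.card F) m := by
  let S : ℕ → Finset F[X] := fun k => if Even k then (finite_SP (F := F) k 1).toFinset else ∅
  have hS : ∀ k, (S k).card = Eq' (Nat.card F) k := by
    intro k
    show (if Even k then (finite_SP (F := F) k 1).toFinset else ∅).card = _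
    unfold Eq'
    split_ifs with he
    · obtain ⟨j, hj⟩ := he
      have e1 : k = 2 * j := by omega
      subst e1
      have e2 : 2 * j / 2 = j := by omega
      rw [e2, ← card_SP_even (F := F) j, Nat.card_coe_set_eq, Set.ncard_eq_toFinset_card _ (finite_SP _ _)]
    · rfl
  have hmemS : ∀ g₀ : F[X], Even g₀.natDegree → g₀ ∈ SP F g₀.natDegree 1 → g₀ ∈ S g₀.natDegree := by
    intro g₀ he h
    show g₀ ∈ (if Even g₀.natDegree then (finite_SP (F := F) g₀.natDegree 1).toFinset else ∅)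
    rw [if_pos he, Set.Finite.mem_toFinset]
    exact h
  let B : Finset F[X] := S m ∪ ((if 1 ≤ m then (S (m - 1)).image (fun g => (X - C 1) * g) else ∅) ∪
    ((if 1 ≤ m then (S (m - 1)).image (fun g => (X - C (-1)) * g) else ∅) ∪ (if 2 ≤ m then (S (m - 2)).image (fun g => (X - C 1) * ((X - C (-1)) * g)) else ∅)))
  have hsub : A.filter (fun g => g.natDegree = m) ⊆ B := by
    intro g hg
    rw [mem_filter] at hg
    obtain ⟨hgA, hgm⟩ := hg
    obtain ⟨p1, p2, p3, p4⟩ := hA g hgA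
    obtain ⟨a, b, g₀, ha, hb, he, hd, -, hev, hsp, -, -⟩ := strip_small h2 p1 p2 p3 p4
    have hin := hmemS g₀ hev hsp
    have ha' : a = 0 ∨ a = 1 := by omega
    have hb' : b = 0 ∨ b = 1 := by omega
    simp only [B, mem_union]
    rcases ha' with rfl | rfl <;> rcases hb' with rfl | rfl
    · left
      rw [pow_zero, pow_zero, one_mul, one_mul] at he
      have e1 : g₀.natDegree = m := by omega
      rw [he]
      rwa [e1] at hin
    · right; right; left
      rw [pow_zero, pow_one, one_mul] at he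
      have e1 : g₀.natDegree = m - 1 := by omega
      rw [if_pos (by omega), mem_image]
      exact ⟨g₀, by rwa [e1] at hin, he.symm⟩
    · right; left
      rw [pow_zero, pow_one, one_mul] at he
      have e1 : g₀.natDegree = m - 1 := by omega
      rw [if_pos (by omega), mem_image]
      exact ⟨g₀, by rwa [e1] at hin, he.symm⟩
    · right; right; right
      rw [pow_one, pow_one] at he
      have e1 : g₀.natDegree = m - 2 := by omega
      rw [if_pos (by omega), mem_image]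
      exact ⟨g₀, by rwa [e1] at hin, he.symm⟩
  refine (Finset.card_le_card hsub).trans ?_
  have c1 : ∀ (p : Prop) [Decidable p] (k : ℕ) (φ : F[X] → F[X]), (if p then (S k).image φ else ∅).card ≤ if p then Eq' (Nat.card F) k else 0 := by
    intro p _ k φ
    split_ifs
    · exact Finset.card_image_le.trans (hS k).le
    · simp
  have a1 := Finset.card_union_le (S m) ((if 1 ≤ m then (S (m - 1)).image (fun g => (X - C 1) * g) else ∅) ∪
    ((if 1 ≤ m then (S (m - 1)).image (fun g => (X - C (-1)) * g) else ∅) ∪ (if 2 ≤ m then (S (m - 2)).image (fun g => (X - C 1) * ((X - C (-1)) * g)) else ∅)))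
  have a2 := Finset.card_union_le (if 1 ≤ m then (S (m - 1)).image (fun g => (X - C 1) * g) else ∅)
    ((if 1 ≤ m then (S (m - 1)).image (fun g => (X - C (-1)) * g) else ∅) ∪ (if 2 ≤ m then (S (m - 2)).image (fun g => (X - C 1) * ((X - C (-1)) * g)) else ∅))
  have a3 := Finset.card_union_le (if 1 ≤ m then (S (m - 1)).image (fun g => (X - C (-1)) * g) else ∅) (if 2 ≤ m then (S (m - 2)).image (fun g => (X - C 1) * ((X - C (-1)) * g)) else ∅)
  have b1 := c1 (1 ≤ m) (m - 1) (fun g => (X - C 1) * g)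
  have b2 := c1 (1 ≤ m) (m - 1) (fun g => (X - C (-1)) * g)
  have b3 := c1 (2 ≤ m) (m - 2) (fun g => (X - C 1) * ((X - C (-1)) * g))
  have b0 := hS m
  unfold Vq
  show (S m ∪ _).card ≤ _
  omega

end H46.ProdBound2
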