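import Mathlib
import Cfsg.Agent.Lib.H46.CaseD
import Cfsg.Agent.Lib.H46.IndexTwo
import Cfsg.Agent.Lib.H46.OrthCount
import Cfsg.Agent.Lib.H48.QuadStd

/-! Classes with centraliser in the kernel of the spinor norm. -/

set_option autoImplicit false

namespace H46.SplitTy

open Polynomial Module Matrix H49.FormConj2 H49.FormConj3 H46.FormSplit H46.SigU H46.SigModel H46.IsoCount H46.BlockCongr
open H46.TyAlg H46.TyCount H46.TyReal H46.TyGL H46.StPoly H46.SdCount H46.SdWeight H46.TySelf H46.IsoBound H46.UniDet H46.SqForm H49.GUUnip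
open H46.Wall H46.Embed H46.CaseD H48.SimStruct

universe u v w

open scoped Classical

section block
variable {F : Type u} [Field F] {t : ℕ} {d : Fin t → ℕ} (hd : ∀ k, 1 ≤ d k)

/-- the nilpotent part of the Jordan matrix -/
noncomputable def n1 (d : Fin t → ℕ) (c : F) : (I d → F) →ₗ[F] (I d → F) := TJ d c - c • LinearMap.id

theorem n1_single (c : F) (k : Fin t) (j : Fin (d k)) :
    n1 d c (Pi.single ⟨k, j⟩ 1) = if h : (j : ℕ) + 1 < d k then c • Pi.single ⟨k, ⟨(j : ℕ) + 1, h⟩⟩ 1 else 0 := by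
  have h1 : n1 d c (Pi.single ⟨k, j⟩ 1) = c • (H48.JTCent.nil d F).col ⟨k, j⟩ := by
    unfold n1
    rw [LinearMap.sub_apply, LinearMap.smul_apply, LinearMap.id_apply, Matrix.toLin'_apply, H48.JTCent.jt_eq, Matrix.smul_mulVec, Matrix.add_mulVec, Matrix.one_mulVec,
      Matrix.mulVec_single_one, smul_add]
    abel
  rw [h1]
  split_ifs with h
  · congr 1
    ext ⟨l, i⟩
    rw [Matrix.col_apply, H48.JTCent.nil, Matrix.of_apply, Pi.single_apply]
    by_cases hlk : l = k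
    · subst hlk
      simp only [true_and, Sigma.mk.injEq, heq_eq_eq, Fin.ext_iff]
    · rw [if_neg (fun h' => hlk h'.1), if_neg]
      intro h'
      rw [Sigma.mk.injEq] at h'
      exact hlk h'.1
  · ext ⟨l, i⟩
    rw [Pi.smul_apply, Matrix.col_apply, H48.JTCent.nil, Matrix.of_apply, if_neg, smul_zero]
    · rfl
    · rintro ⟨h1, h2⟩
      simp only at h1
      subst h1
      simp only at h2
      have := i.2
      omega

theorem pow_single (c : F) (k : Fin t) (m : ℕ) :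
    ((n1 d c) ^ m) (Pi.single (UniForm.z0 d hd k) 1) = if h : m < d k then c ^ m • Pi.single ⟨k, ⟨m, h⟩⟩ 1 else 0 := by
  induction m with
  | zero =>
    rw [dif_pos (show 0 < d k from hd k), pow_zero, pow_zero, one_smul]
    rfl
  | succ m ih =>
    rw [pow_succ']
    show n1 d c (((n1 d c) ^ m) (Pi.single (UniForm.z0 d hd k) 1)) = _
    rw [ih]
    by_cases h : m < d k
    · rw [dif_pos h, map_smul, n1_single]
      by_cases h2 : m + 1 < d k
      · rw [dif_pos h2, dif_pos h2, smul_smul, pow_succ]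
      · rw [dif_neg h2, dif_neg h2, smul_zero]
    · rw [dif_neg h, map_zero, dif_neg (by omega)]

/-- a vector in the bottom layer -/
noncomputable def vec (i : ℕ) (a : {k : Fin t // d k = i} → F) : I d → F := ∑ k, a k • Pi.single (UniForm.z0 d hd k.1) 1

theorem vec_pow_zero (c : F) (i : ℕ) (a : {k : Fin t // d k = i} → F) : ((n1 d c) ^ i) (vec hd i a) = 0 := by
  unfold vec
  rw [map_sum]
  apply Finset.sum_eq_zero
  intro k _
  rw [map_smul, pow_single, dif_neg, smul_zero]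
  have := k.2
  omega

theorem vec_pow {c : F} (hc : c * c = 1) {i : ℕ} (hi : Odd i) (a : {k : Fin t // d k = i} → F) :
    ((n1 d c) ^ (i - 1)) (vec hd i a) = ∑ k, a k • Pi.single (UniForm.tp d hd k.1) 1 := by
  unfold vec
  rw [map_sum]
  refine Finset.sum_congr rfl fun k _ => ?_
  have hk := k.2
  have hpos := hi.pos
  rw [map_smul, pow_single, dif_pos (by omega)]
  have e1 : c ^ (i - 1) = 1 := by
    obtain ⟨m, hm⟩ := hi
    rw [hm, Nat.add_sub_cancel, pow_mul, pow_two, hc, one_pow]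
  rw [e1, one_smul]
  congr 2
  apply Sigma.ext
  · rfl
  · apply heq_of_eq
    apply Fin.ext
    show i - 1 = d k.1 - 1
    rw [hk]

theorem vec_val (f₀ : LinearMap.BilinForm F (I d → F)) (i : ℕ) (a : {k : Fin t // d k = i} → F) :
    f₀ (∑ k, a k • Pi.single (UniForm.tp d hd k.1) 1) (vec hd i a) = ∑ l, ∑ k, a l * a k * UniForm.BT d hd i (mt f₀) l k := by
  unfold vec
  rw [LinearMap.map_sum₂]
  refine Finset.sum_congr rfl fun l _ => ?_
  rw [map_sum]
  refine Finset.sum_congr rfl fun k _ => ?_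
  rw [map_smul, LinearMap.map_smul₂, smul_eq_mul, smul_eq_mul]
  have : UniForm.BT d hd i (mt f₀) l k = f₀ (Pi.single (UniForm.tp d hd l.1) 1) (Pi.single (UniForm.z0 d hd k.1) 1) := by
    show mt f₀ (UniForm.tp d hd l.1) (UniForm.z0 d hd k.1) = _
    unfold FormSplit.mt
    rw [LinearMap.BilinForm.toMatrix'_apply]
  rw [this]
  ring

end block

section repr
variable {F : Type u} [Field F] [Finite F] {κ : Type} [Fintype κ] [DecidableEq κ]

theorem exists_val (h2 : (2 : F) ≠ 0) {B : Matrix κ κ F} (hs : Bᵀ = B) (hd : B.det ≠ 0) (hc : 2 ≤ Fintype.card κ) {c : F} (hc0 : c ≠ 0) :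
    ∃ a : κ → F, ∑ l, ∑ k, a l * a k * B l k = c := by
  let Q : QuadraticForm F (κ → F) := (Matrix.toBilin' B).toQuadraticMap
  have hQ : ∀ a, Q a = ∑ l, ∑ k, a l * a k * B l k := by
    intro a
    show Matrix.toBilin' B a a = _
    rw [Matrix.toBilin'_apply]
    refine Finset.sum_congr rfl fun l _ => Finset.sum_congr rfl fun k _ => ?_
    ring
  have hsy : ∀ u v, Matrix.toBilin' B u v = Matrix.toBilin' B v u := by
    intro u v
    rw [swap_form, hs]
  have hpol : ∀ u v, QuadraticMap.polar Q u v = 2 * Matrix.toBilin' B u v := by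
    intro u v
    show Matrix.toBilin' B (u + v) (u + v) - Matrix.toBilin' B u u - Matrix.toBilin' B v v = _
    rw [LinearMap.map_add₂, map_add, map_add, hsy v u]
    ring
  have hnd : H48.QuadSplit.ND Q := by
    intro x hx
    apply (nondeg_of_det hd).1 x
    intro y
    have := hx y
    rw [hpol] at this
    exact (mul_eq_zero.mp this).resolve_left h2
  obtain ⟨v, hv⟩ := H48.QuadStd.exists_eq hnd (by rw [Module.finrank_fintype_fun_eq_card]; exact hc) hc0
  exact ⟨v, by rw [← hQ, hv]⟩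

end repr

section main
variable {F : Type u} [Field F] {V : Type v} [AddCommGroup V] [Module F V] [FiniteDimensional F V] {G : Type w} [Group G]
variable {f : LinearMap.BilinForm F V} (P : IsoG G f)

theorem nl_pow {t : ℕ} {d : Fin t → ℕ} {c : F} {x : G} {j : (I d → F) →ₗ[F] V} (hj : ∀ v, P.ρ x (j v) = j (TJ d c v)) (m : ℕ) (v : I d → F) :
    (nl P x c ^ m) (j v) = j ((n1 d c ^ m) v) := by
  induction m with
  | zero => rfl
  | succ m ih =>
    rw [pow_succ', pow_succ']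
    show nl P x c ((nl P x c ^ m) (j v)) = j (n1 d c ((n1 d c ^ m) v))
    rw [ih, nl_apply, hj]
    show _ = j (TJ d c ((n1 d c ^ m) v) - c • ((n1 d c ^ m) v))
    rw [map_sub, map_smul]

variable [Finite F] (hodd : Odd (Nat.card F)) (h2 : (2 : F) ≠ 0) (hf : NDB f) (hs : ∀ u v, f u v = f v u) {θ : G →* ℤˣ} (hθ : Spin P θ)

include hodd h2 hf hs hθ in
/-- consequences for the Jordan blocks of odd size -/
theorem splitC {x : G} (hx : ∀ g, Commute x g → θ g = 1) {t : ℕ} {d : Fin t → ℕ} (hd : ∀ k, 1 ≤ d k) {c : F} (hc : c * c = 1) {j : (I d → F) →ₗ[F] V}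
    (hj : ∀ v, P.ρ x (j v) = j (TJ d c v)) (hIF : IF (TJ d c) 1 (f.comp j j)) {i : ℕ} (hi : Odd i) :
    Fintype.card {k : Fin t // d k = i} ≤ 1 ∧ ((∃ k, d k = i) → (sgn hd i (f.comp j j) ↔ IsSquare (2 ^ i * kap F i))) := by
  obtain ⟨a1, a2, a3⟩ := mt_facts hc one_ne_zero hIF
  have key : ∀ a : {k : Fin t // d k = i} → F, ∑ l, ∑ k, a l * a k * UniForm.BT d hd i (mt (f.comp j j)) l k ≠ 0 →
      (IsSquare (2 ^ i * kap F i) ↔ IsSquare (∑ l, ∑ k, a l * a k * UniForm.BT d hd i (mt (f.comp j j)) l k)) := by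
    intro a ha
    have e1 : (nl P x c ^ i) (j (vec hd i a)) = 0 := by rw [nl_pow P hj, vec_pow_zero, map_zero]
    have e2 : f ((nl P x c ^ (i - 1)) (j (vec hd i a))) (j (vec hd i a)) = ∑ l, ∑ k, a l * a k * UniForm.BT d hd i (mt (f.comp j j)) l k := by
      rw [nl_pow P hj, vec_pow hd hc hi, ← vec_val hd (f.comp j j)]
      rfl
    obtain ⟨g, hg1, hg2⟩ := caseC P hodd h2 hf hs hθ hc hi e1 (by rw [e2]; exact ha)
    rw [e2] at hg2
    exact hg2.mp (hx g hg1)
  have hBs : (UniForm.BT d hd i (mt (f.comp j j)))ᵀ = UniForm.BT d hd i (mt (f.comp j j)) := by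
    rw [UniForm.BT_symm hd a1 a2]
    obtain ⟨k, rfl⟩ := hi
    rw [Nat.add_sub_cancel, pow_mul]
    simp
  have hBd : (UniForm.BT d hd i (mt (f.comp j j))).det ≠ 0 := (UniForm.det_BT hd a1).mp a3 i
  have hle : Fintype.card {k : Fin t // d k = i} ≤ 1 := by
    by_contra hcon
    obtain ⟨α, hα⟩ := H48.FinFieldSq.exists_not_isSquare h2
    have hα0 : α ≠ 0 := by rintro rfl; exact hα IsSquare.zero
    obtain ⟨a, ha⟩ := exists_val h2 hBs hBd (by omega) hα0
    obtain ⟨b, hb⟩ := exists_val h2 hBs hBd (by omega) (one_ne_zero (α := F))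
    have k1 := key a (by rw [ha]; exact hα0)
    have k2 := key b (by rw [hb]; exact one_ne_zero)
    rw [ha] at k1
    rw [hb] at k2
    exact hα (k1.mp (k2.mpr IsSquare.one))
  refine ⟨hle, ?_⟩
  rintro ⟨k₀, hk₀⟩
  have huniq : ∀ k : {k : Fin t // d k = i}, k = ⟨k₀, hk₀⟩ := by
    intro k
    have := Fintype.card_le_one_iff.mp hle
    exact this _ _
  haveI : Unique {k : Fin t // d k = i} := ⟨⟨⟨k₀, hk₀⟩⟩, huniq⟩
  unfold sgn
  rw [sqM_iff h2 hBs hBd]
  rw [Matrix.det_unique] at hBd ⊢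
  have k1 := key (fun _ => 1)
  rw [Finset.univ_unique, Finset.sum_singleton, Finset.sum_singleton, one_mul, one_mul] at k1
  exact (k1 hBd).symm

include hodd h2 hf hs hθ in
/-- no other factors in the semisimple layer -/
theorem splitD {x : G} (hx : ∀ g, Commute x g → θ g = 1) {p : F[X]} (hpm : p.Monic) (hpi : Irreducible p) (hp : p ∣ tyG P x 1) :
    p = X - C 1 ∨ p = X - C (-1) := by
  by_contra hcon
  push Not at hcon
  obtain ⟨ι, _, g, hg, ⟨E⟩, hτ⟩ := isTy_tyG P x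
  rw [hτ] at hp
  unfold tyf at hp
  obtain ⟨i, -, hi⟩ := (hpi.prime.dvd_finsetProd_iff _).mp hp
  have hi2 : (g i).2 = 1 := by
    by_contra h
    rw [if_neg h] at hi
    exact hpi.not_isUnit (isUnit_of_dvd_one hi)
  rw [if_pos hi2] at hi
  have hpg : p = (g i).1 := eq_of_monic_of_associated hpm (hg i).1 (hpi.associated_of_dvd (hg i).2.1 hi)
  have hzero : ∀ y : Cyc (g i), p • y = 0 := by
    intro y
    obtain ⟨y, rfl⟩ := Submodule.Quotient.mk_surjective _ y
    rw [← Submodule.Quotient.mk_smul, Submodule.Quotient.mk_eq_zero, Ideal.mem_span_singleton, hi2, pow_one, ← hpg, smul_eq_mul]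
    exact dvd_mul_right _ _
  obtain ⟨w', hw'⟩ : ∃ w' : Module.AEval' (P.ρ x : V →ₗ[F] V), E w' = Pi.single i (Submodule.Quotient.mk 1) := E.surjective _
  obtain ⟨w, hw⟩ : ∃ w, Module.AEval'.of (P.ρ x : V →ₗ[F] V) w = w' := (Module.AEval'.of (P.ρ x : V →ₗ[F] V)).surjective w'
  have hsm : ∀ z : V, Module.AEval'.of (P.ρ x : V →ₗ[F] V) (aeval (TX P x) p z) = p • Module.AEval'.of (P.ρ x : V →ₗ[F] V) z := fun z => rfl
  have h1 : aeval (TX P x) p w = 0 := by
    apply (Module.AEval'.of (P.ρ x : V →ₗ[F] V)).injective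
    rw [hsm, map_zero, hw]
    apply E.injective
    rw [map_smul, map_zero, hw']
    ext1 k
    rw [Pi.smul_apply, Pi.zero_apply]
    by_cases hk : k = i
    · subst hk
      exact hzero _
    · rw [Pi.single_eq_of_ne hk, smul_zero]
  have h3 : w ∉ LinearMap.range (aeval (TX P x) p) := by
    rintro ⟨z, hz⟩
    have h4 : w' = p • Module.AEval'.of (P.ρ x : V →ₗ[F] V) z := by rw [← hw, ← hz, hsm]
    have h5 := congrFun (congrArg E h4) i
    rw [hw', map_smul, Pi.single_eq_same, Pi.smul_apply, hzero, Submodule.Quotient.mk_eq_zero, Ideal.mem_span_singleton, hi2, pow_one] at h5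
    exact (hg i).2.1.not_isUnit (isUnit_of_dvd_one h5)
  obtain ⟨y, hy1, hy2⟩ := caseD P x hodd h2 hf hs hθ hpm hpi hcon.1 hcon.2 h1 h3
  exact hy2 (hx y hy1)

/-- the possible types of split classes -/
noncomputable def SpT (F : Type u) [Field F] [Finite F] (n : ℕ) : Finset (ℕ → F[X]) :=
  (TyS (1 : F) n).filter (fun τ => (∀ p : F[X], p.Monic → Irreducible p → p ∣ τ 1 → p = X - C 1 ∨ p = X - C (-1)) ∧
    (∀ i, Odd i → rootMultiplicity 1 (τ i) ≤ 1 ∧ rootMultiplicity (-1) (τ i) ≤ 1))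

include hodd h2 hf hs hθ in
theorem card_split_le [Finite G] : Nat.card {C : ConjClasses G // IndexTwo.Sp θ.ker C.out} ≤ (SpT F (finrank F V)).card := by
  have hs1 : ∀ u v, f u v = 1 * f v u := fun u v => by rw [one_mul, hs]
  have hout : ∀ D : ConjClasses G, ConjClasses.mk D.out = D := fun D => Quotient.out_eq D
  have hj1 : ∀ {x : G} {M : Model (tyG P x)} {e : V ≃ₗ[F] M.E} (_ : ∀ v, e (P.ρ x v) = M.T (e v)) (v : I M.d1 → F),
      P.ρ x ((e.symm : M.E →ₗ[F] V) (LinearMap.inl F _ _ v)) = (e.symm : M.E →ₗ[F] V) (LinearMap.inl F _ _ (TJ M.d1 1 v)) := by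
    intro x M e he v
    apply e.injective
    show e (P.ρ x (e.symm (v, 0))) = e (e.symm (TJ M.d1 1 v, 0))
    rw [he, e.apply_symm_apply, e.apply_symm_apply]
    show (TJ M.d1 1 v, ((TJ M.d2 (-1)).prodMap (lin M.A)) 0) = _
    rw [map_zero]
  have hj2 : ∀ {x : G} {M : Model (tyG P x)} {e : V ≃ₗ[F] M.E} (_ : ∀ v, e (P.ρ x v) = M.T (e v)) (v : I M.d2 → F),
      P.ρ x ((e.symm : M.E →ₗ[F] V) (LinearMap.inr F _ _ (LinearMap.inl F _ _ v))) = (e.symm : M.E →ₗ[F] V) (LinearMap.inr F _ _ (LinearMap.inl F _ _ (TJ M.d2 (-1) v))) := by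
    intro x M e he v
    apply e.injective
    show e (P.ρ x (e.symm (0, (v, 0)))) = e (e.symm (0, (TJ M.d2 (-1) v, 0)))
    rw [he, e.apply_symm_apply, e.apply_symm_apply]
    show (TJ M.d1 1 0, (TJ M.d2 (-1) v, lin M.A 0)) = _
    rw [map_zero, map_zero]
  have hsp : ∀ {x : G}, IndexTwo.Sp θ.ker x → ∀ g, Commute x g → θ g = 1 := fun h g hg => h g hg
  -- the data for a split element
  have hdata : ∀ (x : G), IndexTwo.Sp θ.ker x → ∀ (M : Model (tyG P x)) (e : V ≃ₗ[F] M.E), (∀ v, e (P.ρ x v) = M.T (e v)) →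
      ∀ i, Odd i → (Fintype.card {k // M.d1 k = i} ≤ 1 ∧ ((∃ k, M.d1 k = i) → (M.s1 i (tp f e) ↔ IsSquare (2 ^ i * kap F i)))) ∧
        (Fintype.card {k // M.d2 k = i} ≤ 1 ∧ ((∃ k, M.d2 k = i) → (M.s2 i (tp f e) ↔ IsSquare (2 ^ i * kap F i)))) := by
    intro x hx M e he i hi
    have hIF := tp_IF (if_rho P hf hs1 x) e he
    exact ⟨splitC P hodd h2 hf hs hθ (hsp hx) M.hd1 (c := 1) (by ring) (j := (e.symm : M.E →ₗ[F] V) ∘ₗ LinearMap.inl F _ _) (hj1 he) (M.if1 h2 hIF) hi,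
      splitC P hodd h2 hf hs hθ (hsp hx) M.hd2 (c := -1) (by ring) (j := (e.symm : M.E →ₗ[F] V) ∘ₗ LinearMap.inr F _ _ ∘ₗ LinearMap.inl F _ _) (hj2 he) (M.if2 h2 hIF) hi⟩
  haveI : Finite (SpT F (finrank F V)) := inferInstance
  have hcard : Nat.card (SpT F (finrank F V)) = (SpT F (finrank F V)).card := by rw [Nat.card_eq_fintype_card, Fintype.card_coe]
  rw [← hcard]
  apply Nat.card_le_card_of_injective (fun D : {C : ConjClasses G // IndexTwo.Sp θ.ker C.out} => (⟨tyG P D.1.out, by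
    unfold SpT
    rw [Finset.mem_filter]
    refine ⟨tyG_mem_TyS P hf hs1 h2 (by ring) _, fun p hpm hpi hp => splitD P hodd h2 hf hs hθ (hsp D.2) hpm hpi hp, fun i hi => ?_⟩
    obtain ⟨M⟩ := exists_model h2 (tyG_mem P D.1.out)
    obtain ⟨e, he⟩ := exists_conj_model P D.1.out M
    obtain ⟨⟨h3, -⟩, ⟨h4, -⟩⟩ := hdata _ D.2 M e he i hi
    rw [← M.mu1, ← M.mu2]
    exact ⟨h3, h4⟩⟩ : SpT F (finrank F V)))
  intro D D' h
  have h3 : tyG P D.1.out = tyG P D'.1.out := congrArg Subtype.val h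
  obtain ⟨x, hx⟩ : ∃ x, x = D.1.out := ⟨_, rfl⟩
  obtain ⟨x', hx'⟩ : ∃ x', x' = D'.1.out := ⟨_, rfl⟩
  have hSx := D.2
  have hSx' := D'.2
  rw [← hx] at hSx h3
  rw [← hx'] at hSx' h3
  have hτ := tyG_mem P x
  have hτ0 : ∀ e, tyG P x e ≠ 0 := fun e => (hτ.1 e).1.ne_zero
  obtain ⟨M⟩ := exists_model h2 hτ
  obtain ⟨e, he⟩ := exists_conj_model P x M
  obtain ⟨e', he'⟩ : ∃ e' : V ≃ₗ[F] M.E, ∀ v, e' (P.ρ x' v) = M.T (e' v) := by
    have h4 := isTy_tyG P x'
    rw [← h3] at h4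
    exact conj_of_isTy h4 M.isTy
  have d1 := hdata x hSx M e he
  have d2 : ∀ i, Odd i → ((∃ k, M.d1 k = i) → (M.s1 i (tp f e') ↔ IsSquare (2 ^ i * kap F i))) ∧ ((∃ k, M.d2 k = i) → (M.s2 i (tp f e') ↔ IsSquare (2 ^ i * kap F i))) := by
    have gen : ∀ (τ : ℕ → F[X]) (_ : τ = tyG P x') (M : Model τ) (e' : V ≃ₗ[F] M.E), (∀ v, e' (P.ρ x' v) = M.T (e' v)) →
        ∀ i, Odd i → ((∃ k, M.d1 k = i) → (M.s1 i (tp f e') ↔ IsSquare (2 ^ i * kap F i))) ∧ ((∃ k, M.d2 k = i) → (M.s2 i (tp f e') ↔ IsSquare (2 ^ i * kap F i))) := by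
      rintro τ rfl M e' he' i hi
      have := hdata x' hSx' M e' he' i hi
      exact ⟨this.1.2, this.2.2⟩
    exact gen _ h3 M e' he'
  have hposi : ∀ {c : F} {i : ℕ}, (X - C c) ∣ tyG P x i → 1 ≤ i := by
    intro c i hd
    by_contra hcon
    have h0 : i = 0 := by omega
    rw [h0, hτ.2.1 0 (Or.inl (by omega))] at hd
    exact (irreducible_X_sub_C c).not_isUnit (isUnit_of_dvd_one hd)
  have key := M.eqv hodd h2 hτ0 (by ring) (tp_IF (if_rho P hf hs1 x) e he) (tp_IF (if_rho P hf hs1 x') e' he') (by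
      intro i hi hd
      have hio := (OrthCount.eps_odd h2 (hposi hd)).mp hi
      have hk : ∃ k, M.d1 k = i := by
        rw [mu_pos_iff, M.mu1, rootMultiplicity_pos (hτ0 i)]
        exact dvd_iff_isRoot.mp hd
      rw [((d1 i hio).1.2 hk), ((d2 i hio).1 hk)]) (by
      intro i hi hd
      have hio := (OrthCount.eps_odd h2 (hposi hd)).mp hi
      have hk : ∃ k, M.d2 k = i := by
        rw [mu_pos_iff, M.mu2, rootMultiplicity_pos (hτ0 i)]
        exact dvd_iff_isRoot.mp hd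
      rw [((d1 i hio).2.2 hk), ((d2 i hio).2 hk)])
  have h7 := isConj_of_eqv P he he' key
  apply Subtype.ext
  have h8 := ConjClasses.mk_eq_mk_iff_isConj.mpr h7
  rw [hx, hx', hout, hout] at h8
  exact h8

end main

end H46.SplitTy
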