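import Mathlib
import Cfsg.Agent.Lib.H46.SplitTy
import Cfsg.Agent.Lib.H46.ProdBound2
import Cfsg.Agent.Lib.H46.OrthUpper

/-! Upper bounds for the odd-dimensional orthogonal groups, odd characteristic. -/

set_option autoImplicit false

namespace H46.OddUpper

open Finset

section num

/-- growth at most linear -/
def Ml (f : ℝ → ℝ) : Prop := ∀ s : ℝ, 0 < s → s ≤ ONum.s0 → 1 ≤ f s ∧ f s - 1 ≤ s / ONum.s0 * (f ONum.s0 - 1)

theorem s0_pos : 0 < ONum.s0 := by unfold ONum.s0; norm_num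

theorem s0_lt : ONum.s0 < 1 := by unfold ONum.s0; norm_num

theorem Ml.mul {f g : ℝ → ℝ} (hf : Ml f) (hg : Ml g) : Ml (fun s => f s * g s) := by
  intro s hs hs'
  obtain ⟨f1, f2⟩ := hf s hs hs'
  obtain ⟨g1, g2⟩ := hg s hs hs'
  obtain ⟨F1, -⟩ := hf ONum.s0 s0_pos le_rfl
  obtain ⟨G1, -⟩ := hg ONum.s0 s0_pos le_rfl
  have ht : 0 < s / ONum.s0 := div_pos hs s0_pos
  have ht1 : s / ONum.s0 ≤ 1 := (div_le_one s0_pos).mpr hs'
  have hg0 : g s ≤ g ONum.s0 := by nlinarith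
  refine ⟨by nlinarith, ?_⟩
  have e1 : f s * g s - 1 = (f s - 1) * g s + (g s - 1) := by ring
  have e2 : s / ONum.s0 * (f ONum.s0 * g ONum.s0 - 1) = (s / ONum.s0 * (f ONum.s0 - 1)) * g ONum.s0 + s / ONum.s0 * (g ONum.s0 - 1) := by ring
  rw [e1, e2]
  have h3 : (f s - 1) * g s ≤ (s / ONum.s0 * (f ONum.s0 - 1)) * g ONum.s0 :=
    mul_le_mul f2 hg0 (by linarith) (by apply mul_nonneg ht.le; linarith)
  linarith

theorem Ml.one : Ml (fun _ => 1) := by
  intro s _ _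
  simp

theorem Ml.pow {f : ℝ → ℝ} (hf : Ml f) (k : ℕ) : Ml (fun s => f s ^ k) := by
  induction k with
  | zero => simp only [pow_zero]; exact Ml.one
  | succ k ih => simp only [pow_succ]; exact ih.mul hf

theorem Ml.prod {ι : Type*} (S : Finset ι) {f : ι → ℝ → ℝ} (hf : ∀ i ∈ S, Ml (f i)) : Ml (fun s => ∏ i ∈ S, f i s) := by
  classical
  induction S using Finset.induction_on with
  | empty => simp only [Finset.prod_empty]; exact Ml.one
  | insert i S hi ih =>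
    simp only [Finset.prod_insert hi]
    exact (hf i (mem_insert_self _ _)).mul (ih fun j hj => hf j (mem_insert_of_mem hj))

theorem Ml.add {k : ℕ} (hk : 1 ≤ k) : Ml (fun s => 1 + s ^ k) := by
  intro s hs hs'
  have h1 : 0 ≤ s ^ k := pow_nonneg hs.le _
  refine ⟨by linarith, ?_⟩
  obtain ⟨m, rfl⟩ : ∃ m, k = m + 1 := ⟨k - 1, by omega⟩
  have e1 : s / ONum.s0 * (1 + ONum.s0 ^ (m + 1) - 1) = s * ONum.s0 ^ m := by
    have := s0_pos.ne'
    field_simp
    ring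
  rw [e1]
  have h2 : s ^ m ≤ ONum.s0 ^ m := pow_le_pow_left₀ hs.le hs' m
  have e2 : 1 + s ^ (m + 1) - 1 = s * s ^ m := by ring
  rw [e2]
  exact mul_le_mul_of_nonneg_left h2 hs.le

theorem Ml.inv {k : ℕ} (hk : 1 ≤ k) : Ml (fun s => 1 / (1 - s ^ k)) := by
  intro s hs hs'
  have h1 : 0 ≤ s ^ k := pow_nonneg hs.le _
  have h2 : s ^ k ≤ ONum.s0 ^ k := pow_le_pow_left₀ hs.le hs' k
  have h3 : ONum.s0 ^ k < 1 := pow_lt_one₀ s0_pos.le s0_lt (by omega)
  have p1 : 0 < 1 - s ^ k := by linarith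
  have p2 : 0 < 1 - ONum.s0 ^ k := by linarith
  refine ⟨by rw [le_div_iff₀ p1]; linarith, ?_⟩
  obtain ⟨-, h4⟩ := Ml.add hk s hs hs'
  have h5 : s ^ k ≤ s / ONum.s0 * ONum.s0 ^ k := by
    have e1 : 1 + s ^ k - 1 = s ^ k := by ring
    have e2 : 1 + ONum.s0 ^ k - 1 = ONum.s0 ^ k := by ring
    simp only at h4
    rwa [e1, e2] at h4
  have e1 : 1 / (1 - s ^ k) - 1 = s ^ k / (1 - s ^ k) := by field_simp; ring
  have e2 : 1 / (1 - ONum.s0 ^ k) - 1 = ONum.s0 ^ k / (1 - ONum.s0 ^ k) := by field_simp; ring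
  simp only
  rw [e1, e2, ← mul_div_assoc]
  apply div_le_div₀ _ h5 p2 (by linarith)
  exact h1.trans h5

/-- the factor for split classes -/
noncomputable def GS (s : ℝ) (e : ℕ) : ℝ := if Odd e then (1 + s ^ e) ^ 2 / (1 - s ^ (2 * e - 2)) else 1 / (1 - s ^ (2 * e - 2))

theorem Ml.GS {e : ℕ} (he : 2 ≤ e) : Ml (fun s => GS s e) := by
  unfold OddUpper.GS
  by_cases ho : Odd e
  · simp only [ho, if_true]
    have := ((Ml.add (k := e) (by omega)).pow 2).mul (Ml.inv (k := 2 * e - 2) (by omega))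
    simp only [mul_one_div] at this
    exact this
  · simp only [ho, if_false]
    exact Ml.inv (by omega)

section GB
variable {F : Type*} [Field F]

theorem Ml.GB (h2 : (2 : F) ≠ 0) {e : ℕ} (he : 2 ≤ e) : Ml (fun s => IsoBound.GB (1 : F) s e) := by
  unfold IsoBound.GB
  by_cases ho : (1 : F) * (-1) ^ (e - 1) = 1
  · simp only [ho, if_true]
    have := ((Ml.add (k := e) (by omega)).pow 4).mul (Ml.inv (k := 2 * e - 2) (by omega))
    simp only [mul_one_div] at this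
    exact this
  · simp only [ho, if_false]
    exact Ml.inv (by omega)

theorem GB_eq (h2 : (2 : F) ≠ 0) {e : ℕ} (he : 1 ≤ e) (s : ℝ) : IsoBound.GB (1 : F) s e = GS s e * (if Odd e then (1 + s ^ e) ^ 2 else 1) := by
  unfold IsoBound.GB GS
  simp only [OrthCount.eps_odd h2 he]
  split_ifs
  · ring
  · ring

theorem P0_le (h2 : (2 : F) ≠ 0) {n : ℕ} (hn : 1 ≤ n) : ∏ e ∈ Icc 2 (2 * n + 1), IsoBound.GB (1 : F) ONum.s0 e ≤ 5303 / 1000 := by
  have h1 : Icc 2 (2 * (n + 1)) = insert (2 * (n + 1)) (Icc 2 (2 * n + 1)) := by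
    ext e; simp only [mem_Icc, mem_insert]; omega
  have h3 := ONum.prod_GB_o h2 ONum.s0 n
  rw [h1, Finset.prod_insert (by simp only [mem_Icc]; omega)] at h3
  have h4 := ONum.prod_KK_s0 (n + 1)
  rw [mul_assoc, ← h3] at h4
  have h5 := (Ml.GB h2 (e := 2 * (n + 1)) (by omega)) ONum.s0 s0_pos le_rfl
  have h6 := (Ml.prod (Icc 2 (2 * n + 1)) (f := fun e s => IsoBound.GB (1 : F) s e) (fun e he => Ml.GB h2 (mem_Icc.mp he).1)) ONum.s0 s0_pos le_rfl
  obtain ⟨a, ha⟩ : ∃ a, a = IsoBound.GB (1 : F) ONum.s0 (2 * (n + 1)) := ⟨_, rfl⟩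
  obtain ⟨b, hb⟩ : ∃ b, b = ∏ e ∈ Icc 2 (2 * n + 1), IsoBound.GB (1 : F) ONum.s0 e := ⟨_, rfl⟩
  simp only at h5 h6
  rw [← ha] at h4 h5
  rw [← hb] at h4 h6 ⊢
  have hc : (3111 / 1000 : ℝ) ≤ 1 + 6 * ONum.s0 ^ 2 + ONum.s0 ^ 4 := by unfold ONum.s0; norm_num
  have hc' : (311149 / 100000 : ℝ) ≤ 1 + 6 * ONum.s0 ^ 2 + ONum.s0 ^ 4 := by unfold ONum.s0; norm_num
  have h7 : b ≤ a * b := le_mul_of_one_le_left (by linarith [h6.1]) h5.1
  have h8 : (311149 / 100000 : ℝ) * b ≤ 165 / 10 := by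
    refine le_trans ?_ h4
    apply mul_le_mul hc' h7 (by linarith [h6.1]) (by linarith)
  linarith

theorem P0'_le (h2 : (2 : F) ≠ 0) {n : ℕ} (hn : 2 ≤ n) : ∏ e ∈ Icc 2 (2 * n + 1), GS ONum.s0 e ≤ 3294 / 1000 := by
  have h1 := P0_le (F := F) h2 (n := n) (by omega)
  have h3 : ∏ e ∈ Icc 2 (2 * n + 1), IsoBound.GB (1 : F) ONum.s0 e = (∏ e ∈ Icc 2 (2 * n + 1), GS ONum.s0 e) * ∏ e ∈ Icc 2 (2 * n + 1), (if Odd e then (1 + ONum.s0 ^ e) ^ 2 else 1) := by
    rw [← Finset.prod_mul_distrib]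
    refine Finset.prod_congr rfl fun e he => ?_
    rw [mem_Icc] at he
    exact GB_eq h2 (by omega) _
  have h4 : (161 / 100 : ℝ) ≤ ∏ e ∈ Icc 2 (2 * n + 1), (if Odd e then (1 + ONum.s0 ^ e) ^ 2 else 1) := by
    have hsub : ({3, 5} : Finset ℕ) ⊆ Icc 2 (2 * n + 1) := by
      intro e he
      simp only [mem_insert, mem_singleton] at he
      rw [mem_Icc]
      omega
    have h5 : ∏ e ∈ ({3, 5} : Finset ℕ), (if Odd e then (1 + ONum.s0 ^ e) ^ 2 else 1) ≤ ∏ e ∈ Icc 2 (2 * n + 1), (if Odd e then (1 + ONum.s0 ^ e) ^ 2 else 1) := by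
      rw [← Finset.prod_sdiff hsub]
      apply le_mul_of_one_le_left
      · apply Finset.prod_nonneg
        intro e _
        split_ifs
        · positivity
        · norm_num
      · apply SpNum.one_le_prod_of
        intro e _
        split_ifs
        · have : 0 ≤ ONum.s0 ^ e := pow_nonneg s0_pos.le _
          nlinarith
        · norm_num
    refine le_trans ?_ h5
    rw [Finset.prod_pair (by norm_num), if_pos (by decide), if_pos (by decide)]
    unfold ONum.s0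
    norm_num
  have h6 := (Ml.prod (Icc 2 (2 * n + 1)) (f := fun e s => GS s e) (fun e he => Ml.GS (mem_Icc.mp he).1)) ONum.s0 s0_pos le_rfl
  rw [h3] at h1
  obtain ⟨a, ha⟩ : ∃ a, a = ∏ e ∈ Icc 2 (2 * n + 1), (if Odd e then (1 + ONum.s0 ^ e) ^ 2 else 1) := ⟨_, rfl⟩
  obtain ⟨b, hb⟩ : ∃ b, b = ∏ e ∈ Icc 2 (2 * n + 1), GS ONum.s0 e := ⟨_, rfl⟩
  simp only at h6
  rw [← ha, ← hb] at h1
  rw [← ha] at h4
  rw [← hb] at h6 ⊢
  nlinarith [h6.1]

end GB

end num

section bound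
open Polynomial Module H49.FormConj2 H49.FormConj3 H46.FormSplit H46.SigU H46.SigModel H46.IsoCount
open H46.TyAlg H46.TyCount H46.TyReal H46.TyGL H46.StPoly H46.StTy H46.SdCount H46.SdWeight H46.TySelf H46.ProdBound H46.IsoBound H46.ProdBound2
open H46.OrthCount H46.OrthUpper H46.SplitTy H46.Wall

universe u v w

open scoped Classical

variable {F : Type u} [Field F]

theorem Wq_odd' (q k : ℕ) (s : ℝ) (hq : (q : ℝ) * s ^ 2 = 1) (hs0 : 0 < s) : (Wq q (2 * k + 1) : ℝ) * s ^ (2 * k + 1) ≤ 4 * s * (1 + s ^ 2) := by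
  rcases k with _ | k
  · have : Wq q (2 * 0 + 1) = 4 := by simp [Wq, sdn]
    rw [this]
    push_cast
    have h3 := pow_pos hs0 3
    nlinarith
  · have h1 : Wq q (2 * (k + 1) + 1) = q ^ k * (4 * q + 4) := by
      unfold Wq sdn
      rw [if_neg (by omega), if_neg (by rw [Nat.not_even_iff_odd]; exact ⟨k + 1, by omega⟩), if_pos (by omega), if_neg (by omega), if_pos ⟨k + 1, by omega⟩,
        if_pos (by omega), if_neg (by omega), if_neg (by rw [Nat.not_even_iff_odd]; exact ⟨k, by omega⟩)]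
      have e1 : (2 * (k + 1) + 1) / 2 = k + 1 := by omega
      have e2 : (2 * (k + 1) + 1 - 1) / 2 = k + 1 := by omega
      have e3 : (2 * (k + 1) + 1 - 2) / 2 = k := by omega
      rw [e1, e2, e3]
      have e5 : k + 1 - 1 = k := by omega
      rw [e5]
      ring
    rw [h1]
    push_cast
    have h2 : s ^ (2 * (k + 1) + 1) = (s ^ 2) ^ k * s ^ 3 := by rw [← pow_mul, ← pow_add]; congr 1
    rw [h2]
    have h3 : (q : ℝ) ^ k * (4 * (q : ℝ) + 4) * ((s ^ 2) ^ k * s ^ 3) = (q * s ^ 2) ^ k * (4 * (q * s ^ 2) * s + 4 * s ^ 3) := by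
      rw [mul_pow]; ring
    rw [h3, hq, one_pow, one_mul]
    apply le_of_eq; ring

theorem TyN_odd [Finite F] (h2 : (2 : F) ≠ 0) (n : ℕ) : TyN F (2 * n + 1) = ∅ := by
  rw [Finset.eq_empty_iff_forall_notMem]
  intro τ hτ
  obtain ⟨h1, h3⟩ := mem_TyN h2 hτ
  have h4 : Even (∑ e ∈ range (2 * n + 1 + 1), e * (τ e).natDegree) := Finset.even_sum _ fun e _ => (h3 e).2.2.2.mul_left e
  rw [h1.2.2] at h4
  exact (Nat.not_even_iff_odd.mpr ⟨n, rfl⟩) h4

/-- the sum over all types, refined -/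
theorem sum_TyS_odd [Finite F] (h2 : (2 : F) ≠ 0) {n : ℕ} {s : ℝ} (hs0 : 0 < s) (hs1 : s < 1) (hsq : (Nat.card F : ℝ) * s ^ 2 = 1) :
    ((∑ τ ∈ TyS (1 : F) (2 * n + 1), ∏ e ∈ Icc 1 (2 * n + 1), ww (1 : F) e (τ e) : ℕ) : ℝ) * s ^ (2 * n + 1) ≤
      4 * s * (1 + s ^ 2) + (1 + 6 * s ^ 2 + s ^ 4) * ((∏ e ∈ Icc 2 (2 * n + 1), GB (1 : F) s e) - 1) := by
  have hA : ∀ e, ∀ g ∈ insert 1 ((TyS (1 : F) (2 * n + 1)).image (fun τ => τ e)), (Good g ∧ st (RingHom.id F) g = g) ∧ ((1 : F) * (-1) ^ (e - 1) = -1 → g.coeff 0 = 1 ∧ Even g.natDegree) := by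
    intro e g hg
    rw [mem_insert, mem_image] at hg
    rcases hg with rfl | ⟨τ, hτ, rfl⟩
    · exact ⟨⟨good_one, st_one⟩, fun _ => by simp⟩
    · rw [mem_TyS] at hτ
      exact ⟨⟨hτ.1.1 e, hτ.2.1 e⟩, hτ.2.2 e⟩
  have hcount : ∀ e m, ∑ g ∈ (insert 1 ((TyS (1 : F) (2 * n + 1)).image (fun τ => τ e))).filter (fun g => g.natDegree = m), (ww (1 : F) e g : ℝ) ≤
      ((if (1 : F) * (-1) ^ (e - 1) = 1 then Wq (Nat.card F) m else Eq' (Nat.card F) m : ℕ) : ℝ) := by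
    intro e m
    rw [← Nat.cast_sum]
    apply Nat.cast_le.mpr
    unfold ww
    by_cases h : (1 : F) * (-1) ^ (e - 1) = 1
    · simp only [h, if_true]
      exact sum_wt_le h2 _ m (fun g hg => (hA e g hg).1)
    · simp only [h, if_false]
      rw [Finset.sum_const, smul_eq_mul, mul_one]
      refine card_even_le _ m (fun g hg => ?_)
      have h3 := (hA e g hg).2 ((eps_cases (ε := (1 : F)) (by ring) e).resolve_left h)
      exact ⟨(hA e g hg).1.1, (hA e g hg).1.2, h3.1, h3.2⟩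
  have hw1 : ∀ e, (ww (1 : F) e 1 : ℝ) = 1 := by
    intro e
    have h3 : ∀ c : F, ¬ (X - C c) ∣ (1 : F[X]) := fun c h => (irreducible_X_sub_C c).not_isUnit (isUnit_of_dvd_one h)
    unfold ww wt
    rw [if_neg (h3 1), if_neg (h3 (-1))]
    simp
  have hwe : ∀ m, ∑ g ∈ (insert 1 ((TyS (1 : F) (2 * n + 1)).image (fun τ => τ 1))).filter (fun g => g.natDegree = m), (ww (1 : F) 1 g : ℝ) * s ^ m ≤ (Wq (Nat.card F) m : ℝ) * s ^ m := by
    intro m
    rw [← Finset.sum_mul]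
    apply mul_le_mul_of_nonneg_right _ (pow_nonneg hs0.le _)
    have := hcount 1 m
    simp only [Nat.sub_self, pow_zero, mul_one, if_true] at this
    exact this
  push_cast
  refine types_bound (by omega) (TyS (1 : F) (2 * n + 1)) (fun τ hτ => (mem_TyS.mp hτ).1) (fun e g => (ww (1 : F) e g : ℝ)) (fun e g => Nat.cast_nonneg _) hw1 hs0
    (by positivity) (fun m => (hwe m).trans ?_) ((hwe (2 * n + 1)).trans (Wq_odd' _ n s hsq hs0)) (fun e => GB (1 : F) s e) ?_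
  · rcases Nat.even_or_odd' m with ⟨k, rfl | rfl⟩
    · exact Wq_even _ k s hsq hs0
    · exact Wq_odd _ k s hsq hs0
  · intro e he
    rw [mem_Icc] at he
    have hv0 : 0 ≤ s ^ e := pow_nonneg hs0.le _
    have hqv : (Nat.card F : ℝ) * (s ^ e) ^ 2 = s ^ (2 * e - 2) := by
      have h4 : (s ^ e) ^ 2 = s ^ 2 * s ^ (2 * e - 2) := by
        rw [← pow_mul, ← pow_add]; congr 1; omega
      rw [h4, ← mul_assoc, hsq, one_mul]
    have hlt : (Nat.card F : ℝ) * (s ^ e) ^ 2 < 1 := by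
      rw [hqv]
      exact pow_lt_one₀ hs0.le hs1 (by omega)
    simp only [pow_mul]
    unfold GB
    rw [← hqv]
    split_ifs with h
    · apply sum_by_deg (fun g : F[X] => g.natDegree) _ (fun g => (ww (1 : F) e g : ℝ)) (fun m => (Wq (Nat.card F) m : ℝ)) _ _ hv0
      · intro m
        have := hcount e m
        rw [if_pos h] at this
        exact this
      · exact fun M => sum_Wq_le hv0 hlt M
    · apply sum_by_deg (fun g : F[X] => g.natDegree) _ (fun g => (ww (1 : F) e g : ℝ)) (fun m => (Eq' (Nat.card F) m : ℝ)) _ _ hv0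
      · intro m
        have := hcount e m
        rw [if_neg h] at this
        exact this
      · exact fun M => sum_Eq_le hv0 hlt M

/-- the number of split types -/
theorem card_SpT_le [Finite F] (h2 : (2 : F) ≠ 0) {n : ℕ} (hn : 2 ≤ n) {s K : ℝ} (hs0 : 0 < s) (hs1 : s < 1) (hsq : (Nat.card F : ℝ) * s ^ 2 = 1) (hK1 : 1 ≤ K) (hK2 : 2 * s ≤ K) :
    ((SpT F (2 * n + 1)).card : ℝ) * s ^ (2 * n + 1) ≤ K * ((∏ e ∈ Icc 2 (2 * n + 1), GS s e) - 1) := by
  have hno : ∀ (c : F), rootMultiplicity c (1 : F[X]) = 0 := fun c => rootMultiplicity_eq_zero (by simp)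
  have hA : ∀ e, ∀ g ∈ insert 1 ((SpT F (2 * n + 1)).image (fun τ => τ e)), (Good g ∧ st (RingHom.id F) g = g) ∧ ((1 : F) * (-1) ^ (e - 1) = -1 → g.coeff 0 = 1 ∧ Even g.natDegree) ∧
      (Odd e → rootMultiplicity 1 g ≤ 1 ∧ rootMultiplicity (-1) g ≤ 1) := by
    intro e g hg
    rw [mem_insert, mem_image] at hg
    rcases hg with rfl | ⟨τ, hτ, rfl⟩
    · exact ⟨⟨good_one, st_one⟩, fun _ => by simp, fun _ => by rw [hno, hno]; omega⟩
    · unfold SpT at hτ
      rw [mem_filter, mem_TyS] at hτ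
      exact ⟨⟨hτ.1.1.1 e, hτ.1.2.1 e⟩, hτ.1.2.2 e, hτ.2.2 e⟩
  -- the semisimple layer
  have hT1 : ∀ g ∈ insert 1 ((SpT F (2 * n + 1)).image (fun τ => τ 1)), ∃ a b : ℕ, a ≤ 1 ∧ b ≤ 1 ∧ g = (X - C 1) ^ a * (X - C (-1)) ^ b ∧ g.natDegree = a + b := by
    intro g hg
    obtain ⟨⟨h3, h4⟩, -, h5⟩ := hA 1 g hg
    obtain ⟨h6, h7⟩ := h5 odd_one
    obtain ⟨a, b, g₀, ha, hb, he, hd, hm, -, -, hn1, hn2⟩ := strip_small h2 h3 h4 h6 h7
    have hfac : ∀ p : F[X], p.Monic → Irreducible p → p ∣ g → p = X - C 1 ∨ p = X - C (-1) := by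
      rw [mem_insert, mem_image] at hg
      rcases hg with rfl | ⟨τ, hτ, rfl⟩
      · intro p _ hpi hp
        exact absurd (isUnit_of_dvd_one hp) hpi.not_isUnit
      · unfold SpT at hτ
        rw [mem_filter] at hτ
        exact hτ.2.1
    have hg0 : g₀ = 1 := by
      by_contra hne
      have hnu : ¬ IsUnit g₀ := fun h => hne (hm.eq_one_of_isUnit h)
      obtain ⟨p, hp, hpi, hpd⟩ := Polynomial.exists_monic_irreducible_factor g₀ hnu
      have hpg : p ∣ g := by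
        rw [he]
        exact Dvd.dvd.mul_left (Dvd.dvd.mul_left hpd _) _
      rcases hfac p hp hpi hpg with h8 | h8
      · rw [h8] at hpd; exact hn1 hpd
      · rw [h8] at hpd; exact hn2 hpd
    rw [hg0, mul_one] at he
    rw [hg0, natDegree_one, add_zero] at hd
    exact ⟨a, b, ha, hb, he, hd⟩
  have hmain := types_bound (show 1 ≤ 2 * n + 1 by omega) (SpT F (2 * n + 1)) (fun τ hτ => by
      unfold SpT at hτ
      rw [mem_filter] at hτ
      exact (mem_TyS.mp hτ.1).1) (fun _ _ => (1 : ℝ)) (fun _ _ => zero_le_one) (fun _ => rfl) hs0 (C₁ := 0) (C₂ := K)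
    (by linarith) (fun m => ?_) ?_ (fun e => GS s e) ?_
  · simp only [Finset.prod_const_one, Finset.sum_const, nsmul_eq_mul, mul_one, zero_add] at hmain
    exact hmain
  · -- counting the first layer
    simp only [one_mul]
    rw [Finset.sum_const, nsmul_eq_mul]
    rcases m with _ | _ | m
    · have h3 : ((insert 1 ((SpT F (2 * n + 1)).image (fun τ => τ 1))).filter (fun g => g.natDegree = 0)).card ≤ 1 := by
        rw [Finset.card_le_one]
        intro g hg g' hg'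
        rw [mem_filter] at hg hg'
        have e1 : ∀ g : F[X], g ∈ insert 1 ((SpT F (2 * n + 1)).image (fun τ => τ 1)) ∧ g.natDegree = 0 → g = 1 := fun g hg =>
          (natDegree_eq_zero_iff (hA 1 g hg.1).1.1.1).mp hg.2
        rw [e1 g hg, e1 g' hg']
      have h4 : (((insert 1 ((SpT F (2 * n + 1)).image (fun τ => τ 1))).filter (fun g => g.natDegree = 0)).card : ℝ) ≤ 1 := by exact_mod_cast h3
      simpa using h4.trans hK1
    · have h3 : (insert 1 ((SpT F (2 * n + 1)).image (fun τ => τ 1))).filter (fun g => g.natDegree = 0 + 1) ⊆ {X - C 1, X - C (-1)} := by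
        intro g hg
        rw [mem_filter] at hg
        obtain ⟨a, b, ha, hb, he, hd⟩ := hT1 g hg.1
        rw [mem_insert, mem_singleton]
        have : (a = 1 ∧ b = 0) ∨ (a = 0 ∧ b = 1) := by omega
        rcases this with ⟨rfl, rfl⟩ | ⟨rfl, rfl⟩
        · left; rw [he]; simp
        · right; rw [he]; simp
      have h5 : ((insert 1 ((SpT F (2 * n + 1)).image (fun τ => τ 1))).filter (fun g => g.natDegree = 0 + 1)).card ≤ 2 :=
        (Finset.card_le_card h3).trans (Finset.card_le_two)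
      have h4 : (((insert 1 ((SpT F (2 * n + 1)).image (fun τ => τ 1))).filter (fun g => g.natDegree = 0 + 1)).card : ℝ) ≤ 2 := by exact_mod_cast h5
      rw [zero_add, pow_one] at *
      exact (mul_le_mul_of_nonneg_right h4 hs0.le).trans hK2
    · have h3 : (insert 1 ((SpT F (2 * n + 1)).image (fun τ => τ 1))).filter (fun g => g.natDegree = m + 1 + 1) ⊆ {(X - C 1) ^ 1 * (X - C (-1)) ^ 1} := by
        intro g hg
        rw [mem_filter] at hg
        obtain ⟨a, b, ha, hb, he, hd⟩ := hT1 g hg.1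
        have ha1 : a = 1 := by omega
        have hb1 : b = 1 := by omega
        rw [mem_singleton, he, ha1, hb1]
      have h5 : ((insert 1 ((SpT F (2 * n + 1)).image (fun τ => τ 1))).filter (fun g => g.natDegree = m + 1 + 1)).card ≤ 1 :=
        (Finset.card_le_card h3).trans (by rw [Finset.card_singleton])
      have h4 : (((insert 1 ((SpT F (2 * n + 1)).image (fun τ => τ 1))).filter (fun g => g.natDegree = m + 1 + 1)).card : ℝ) ≤ 1 := by exact_mod_cast h5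
      have h6 : s ^ (m + 1 + 1) ≤ 1 := pow_le_one₀ hs0.le hs1.le
      have h7 : 0 ≤ s ^ (m + 1 + 1) := pow_nonneg hs0.le _
      nlinarith
  · simp only [one_mul]
    rw [Finset.filter_eq_empty_iff.mpr]
    · simp
    · intro g hg h3
      obtain ⟨a, b, ha, hb, he, hd⟩ := hT1 g hg
      omega
  · intro e he
    rw [mem_Icc] at he
    have hv0 : 0 ≤ s ^ e := pow_nonneg hs0.le _
    have hqv : (Nat.card F : ℝ) * (s ^ e) ^ 2 = s ^ (2 * e - 2) := by
      have h4 : (s ^ e) ^ 2 = s ^ 2 * s ^ (2 * e - 2) := by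
        rw [← pow_mul, ← pow_add]; congr 1; omega
      rw [h4, ← mul_assoc, hsq, one_mul]
    have hlt : (Nat.card F : ℝ) * (s ^ e) ^ 2 < 1 := by
      rw [hqv]
      exact pow_lt_one₀ hs0.le hs1 (by omega)
    simp only [pow_mul]
    unfold GS
    rw [← hqv]
    split_ifs with h
    · apply sum_by_deg (fun g : F[X] => g.natDegree) _ (fun _ => (1 : ℝ)) (fun m => (Vq (Nat.card F) m : ℝ)) _ _ hv0
      · intro m
        rw [Finset.sum_const, nsmul_eq_mul, mul_one]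
        exact_mod_cast card_V_le h2 _ m (fun g hg => ⟨(hA e g hg).1.1, (hA e g hg).1.2, (hA e g hg).2.2 h⟩)
      · exact fun M => sum_Vq_le hv0 hlt M
    · apply sum_by_deg (fun g : F[X] => g.natDegree) _ (fun _ => (1 : ℝ)) (fun m => (Eq' (Nat.card F) m : ℝ)) _ _ hv0
      · intro m
        rw [Finset.sum_const, nsmul_eq_mul, mul_one]
        have hne : ¬ (1 : F) * (-1) ^ (e - 1) = 1 := fun h' => h ((eps_odd h2 (by omega)).mp h')
        exact_mod_cast card_even_le _ m (fun g hg => ⟨(hA e g hg).1.1, (hA e g hg).1.2, (hA e g hg).2.1 ((eps_cases (ε := (1 : F)) (by ring) e).resolve_left hne)⟩)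
      · exact fun M => sum_Eq_le hv0 hlt M

variable {V : Type v} [AddCommGroup V] [Module F V] [FiniteDimensional F V] {G : Type w} [Group G]
variable {f : LinearMap.BilinForm F V} (P : IsoG G f)

include P in
/-- the upper bound -/
theorem upper [Finite F] [Finite G] (hf : NDB f) (hs : ∀ u v, f u v = f v u) (hodd : Odd (Nat.card F)) (h2 : (2 : F) ≠ 0) {θ : G →* ℤˣ} (hθ : Spin P θ) {n : ℕ} (hn : 2 ≤ n)
    (hdim : finrank F V = 2 * n + 1) :
    10 * Nat.card (ConjClasses G) + 30 * Nat.card {C : ConjClasses G // IndexTwo.Sp θ.ker C.out} ≤ 292 * Nat.card F ^ n := by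
  have hq3 : 3 ≤ Nat.card F := by
    obtain ⟨k, hk⟩ := hodd
    have := Finite.one_lt_card (α := F)
    omega
  have h1 := two_card_le P hf hs hodd h2 hdim
  rw [TyN_odd h2, Finset.card_empty, add_zero] at h1
  have h1' := card_split_le P hodd h2 hf hs hθ
  rw [hdim] at h1'
  obtain ⟨q, hq⟩ : ∃ q, q = Nat.card F := ⟨_, rfl⟩
  rw [← hq] at hq3
  have hqpos : (0 : ℝ) < q := by have : 0 < q := by omega
                                 exact_mod_cast this
  obtain ⟨s, hs'⟩ : ∃ s : ℝ, s = (Real.sqrt q)⁻¹ := ⟨_, rfl⟩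
  have hs0 : 0 < s := by rw [hs']; exact inv_pos.mpr (Real.sqrt_pos.mpr hqpos)
  have hssq : s ^ 2 = (q : ℝ)⁻¹ := by rw [hs', inv_pow, Real.sq_sqrt hqpos.le]
  have hsq : (Nat.card F : ℝ) * s ^ 2 = 1 := by rw [hssq, ← hq]; exact mul_inv_cancel₀ hqpos.ne'
  have hs3 : s ^ 2 ≤ 1 / 3 := by
    rw [hssq, one_div]
    exact inv_anti₀ (by norm_num) (by exact_mod_cast hq3)
  have hs1 : s < 1 := by nlinarith
  have hsle : s ≤ H46.ONum.s0 := by
    have h3 : s ^ 2 ≤ H46.ONum.s0 ^ 2 := hs3.trans (by unfold H46.ONum.s0; norm_num)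
    exact (pow_le_pow_iff_left₀ hs0.le (by unfold H46.ONum.s0; norm_num) (by norm_num)).mp h3
  have b1 := sum_TyS_odd (F := F) h2 (n := n) hs0 hs1 hsq
  have b2 := card_SpT_le (F := F) h2 hn hs0 hs1 hsq (K := 1155 / 1000) (by norm_num) (by
    have : H46.ONum.s0 = 5774 / 10000 := rfl
    rw [this] at hsle
    linarith)
  obtain ⟨-, m1⟩ := Ml.prod (Icc 2 (2 * n + 1)) (f := fun e s => GB (1 : F) s e) (fun e he => Ml.GB h2 (mem_Icc.mp he).1) s hs0 hsle
  obtain ⟨-, m2⟩ := Ml.prod (Icc 2 (2 * n + 1)) (f := fun e s => GS s e) (fun e he => Ml.GS (mem_Icc.mp he).1) s hs0 hsle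
  have p1 := P0_le (F := F) h2 (n := n) (by omega)
  have p2 := P0'_le (F := F) h2 hn
  simp only at m1 m2
  obtain ⟨W₁, hW₁⟩ : ∃ a, a = ∏ e ∈ Icc 2 (2 * n + 1), GB (1 : F) s e := ⟨_, rfl⟩
  obtain ⟨W₂, hW₂⟩ : ∃ a, a = ∏ e ∈ Icc 2 (2 * n + 1), GS s e := ⟨_, rfl⟩
  obtain ⟨R₁, hR₁⟩ : ∃ a, a = ∏ e ∈ Icc 2 (2 * n + 1), GB (1 : F) ONum.s0 e := ⟨_, rfl⟩
  obtain ⟨R₂, hR₂⟩ : ∃ a, a = ∏ e ∈ Icc 2 (2 * n + 1), GS ONum.s0 e := ⟨_, rfl⟩
  rw [← hW₁] at b1 m1
  rw [← hW₂] at b2 m2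
  rw [← hR₁] at m1 p1
  rw [← hR₂] at m2 p2
  have hs0v : s / ONum.s0 = s * (10000 / 5774) := by unfold ONum.s0; ring
  have c1 : W₁ - 1 ≤ s * (7453 / 1000) := by
    rw [hs0v] at m1
    have : s * (10000 / 5774) * (R₁ - 1) ≤ s * (7453 / 1000) := by
      rw [mul_assoc]
      apply mul_le_mul_of_nonneg_left _ hs0.le
      linarith
    linarith
  have c2 : W₂ - 1 ≤ s * (3974 / 1000) := by
    rw [hs0v] at m2
    have : s * (10000 / 5774) * (R₂ - 1) ≤ s * (3974 / 1000) := by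
      rw [mul_assoc]
      apply mul_le_mul_of_nonneg_left _ hs0.le
      linarith
    linarith
  have hpw : s ^ (2 * n + 1) = s ^ (2 * n) * s := pow_succ _ _
  have hs4 : s ^ 4 ≤ 1 / 9 := by
    have : s ^ 4 = s ^ 2 * s ^ 2 := by ring
    rw [this]
    nlinarith [sq_nonneg s]
  -- divide by `s`
  have d1 : ((2 * Nat.card (ConjClasses G) : ℕ) : ℝ) * s ^ (2 * n) ≤ 2853 / 100 := by
    have e1 : ((2 * Nat.card (ConjClasses G) : ℕ) : ℝ) ≤ ((∑ τ ∈ TyS (1 : F) (2 * n + 1), ∏ e ∈ Icc 1 (2 * n + 1), ww (1 : F) e (τ e) : ℕ) : ℝ) := by exact_mod_cast h1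
    have e2 := mul_le_mul_of_nonneg_right e1 (show 0 ≤ s ^ (2 * n + 1) by positivity)
    have e3 := e2.trans b1
    have e4 : (1 + 6 * s ^ 2 + s ^ 4) * (W₁ - 1) ≤ (28 / 9) * (s * (7453 / 1000)) := by
      have f1 : 0 ≤ W₁ - 1 := by
        have := (Ml.prod (Icc 2 (2 * n + 1)) (f := fun e s => GB (1 : F) s e) (fun e he => Ml.GB h2 (mem_Icc.mp he).1) s hs0 hsle).1
        simp only at this
        rw [← hW₁] at this
        linarith
      apply mul_le_mul _ c1 f1 (by norm_num)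
      linarith
    have e5 : 4 * s * (1 + s ^ 2) ≤ s * (16 / 3) := by
      have : 4 * s * (1 + s ^ 2) = s * (4 * (1 + s ^ 2)) := by ring
      rw [this]
      apply mul_le_mul_of_nonneg_left _ hs0.le
      linarith
    rw [hpw, ← mul_assoc] at e3
    have e6 : ((2 * Nat.card (ConjClasses G) : ℕ) : ℝ) * s ^ (2 * n) * s ≤ (2853 / 100) * s := by
      refine e3.trans ?_
      nlinarith
    exact le_of_mul_le_mul_right e6 hs0
  have d2 : (Nat.card {C : ConjClasses G // IndexTwo.Sp θ.ker C.out} : ℝ) * s ^ (2 * n) ≤ 459 / 100 := by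
    have e1 : (Nat.card {C : ConjClasses G // IndexTwo.Sp θ.ker C.out} : ℝ) ≤ ((SpT F (2 * n + 1)).card : ℝ) := by exact_mod_cast h1'
    have e2 := mul_le_mul_of_nonneg_right e1 (show 0 ≤ s ^ (2 * n + 1) by positivity)
    have e3 := e2.trans b2
    rw [hpw, ← mul_assoc] at e3
    have e6 : (Nat.card {C : ConjClasses G // IndexTwo.Sp θ.ker C.out} : ℝ) * s ^ (2 * n) * s ≤ (459 / 100) * s := by
      refine e3.trans ?_
      nlinarith
    exact le_of_mul_le_mul_right e6 hs0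
  have h6 : s ^ (2 * n) * (q : ℝ) ^ n = 1 := by
    rw [pow_mul, ← mul_pow, hssq, inv_mul_cancel₀ hqpos.ne', one_pow]
  have h8 : ((10 * Nat.card (ConjClasses G) + 30 * Nat.card {C : ConjClasses G // IndexTwo.Sp θ.ker C.out} : ℕ) : ℝ) ≤ 292 * (q : ℝ) ^ n := by
    have e1 : ((10 * Nat.card (ConjClasses G) + 30 * Nat.card {C : ConjClasses G // IndexTwo.Sp θ.ker C.out} : ℕ) : ℝ) * s ^ (2 * n) ≤ 292 := by
      push_cast at d1 ⊢
      rw [add_mul]
      linarith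
    calc ((10 * Nat.card (ConjClasses G) + 30 * Nat.card {C : ConjClasses G // IndexTwo.Sp θ.ker C.out} : ℕ) : ℝ) =
        ((10 * Nat.card (ConjClasses G) + 30 * Nat.card {C : ConjClasses G // IndexTwo.Sp θ.ker C.out} : ℕ) : ℝ) * (s ^ (2 * n) * (q : ℝ) ^ n) := by rw [h6, mul_one]
      _ = (((10 * Nat.card (ConjClasses G) + 30 * Nat.card {C : ConjClasses G // IndexTwo.Sp θ.ker C.out} : ℕ) : ℝ) * s ^ (2 * n)) * (q : ℝ) ^ n := by ring
      _ ≤ _ := mul_le_mul_of_nonneg_right e1 (by positivity)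
  rw [← hq]
  exact_mod_cast h8

end bound

end H46.OddUpper
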