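import Mathlib
import Cfsg.Agent.Lib.H46.OddLower
import Cfsg.Agent.Lib.H46.OddUpper
import Cfsg.Agent.Lib.H48.OmegaQ
import Cfsg.Agent.Lib.H17.OrthNegOne

/-! Class numbers of `Ω` in odd dimension, odd characteristic. -/

set_option autoImplicit false

namespace H46.OddFinal

open Module H49.FormConj2 H46.IsoCount H46.FormSplit QuadraticMap H48.QuadStd H48.QuadSplit H17.OrthAbs H17.OrthTheta H17.OrthOmega H17.OrthNegOne

section grp

theorem card_conj_congr {A B : Type*} [Group A] [Group B] (e : A ≃* B) : Nat.card (ConjClasses A) = Nat.card (ConjClasses B) := by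
  refine Nat.card_congr ⟨fun C => ConjClasses.map e.toMonoidHom C, fun C => ConjClasses.map e.symm.toMonoidHom C, ?_, ?_⟩
  · intro C
    induction C using Quotient.inductionOn with
    | h g =>
      change ConjClasses.mk (e.symm (e g)) = _
      rw [e.symm_apply_apply]
      rfl
  · intro C
    induction C using Quotient.inductionOn with
    | h g =>
      change ConjClasses.mk (e (e.symm g)) = _
      rw [e.apply_symm_apply]
      rfl

theorem card_conj_prod {A B : Type*} [Group A] [Group B] [Finite A] [Finite B] : Nat.card (ConjClasses (A × B)) = Nat.card (ConjClasses A) * Nat.card (ConjClasses B) := by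
  have h := commProb_prod A B
  rw [commProb_def', commProb_def', commProb_def', Nat.card_prod] at h
  have hA : (Nat.card A : ℚ) ≠ 0 := by exact_mod_cast Nat.card_pos.ne'
  have hB : (Nat.card B : ℚ) ≠ 0 := by exact_mod_cast Nat.card_pos.ne'
  push_cast at h
  field_simp at h
  exact_mod_cast h

variable {G : Type*} [Group G]

/-- the homomorphism from the two-element group determined by an involution -/
def inv2 (z : G) (hz : z * z = 1) : ℤˣ →* G where
  toFun u := if u = 1 then 1 else z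
  map_one' := if_pos rfl
  map_mul' u v := by
    rcases Int.units_eq_one_or u with rfl | rfl <;> rcases Int.units_eq_one_or v with rfl | rfl
    · simp
    · simp
    · simp
    · have h1 : ((-1 : ℤˣ) * -1) = 1 := by decide
      have h3 : (-1 : ℤˣ) ≠ 1 := by decide
      rw [h1, if_pos rfl, if_neg h3, hz]

theorem inv2_neg (z : G) (hz : z * z = 1) : inv2 z hz (-1) = z := by
  show (if (-1 : ℤˣ) = 1 then 1 else z) = z
  rw [if_neg (by decide)]

/-- class number of a direct product with a central involution -/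
theorem card_conj_ker [Finite G] {θ θ' : G →* ℤˣ} {z : G} (hz : z * z = 1) (hc : ∀ g, g * z = z * g) (h1 : θ z = 1) (h2 : θ' z = -1) {M : Subgroup G}
    (hM : ∀ g, g ∈ M ↔ θ g = 1 ∧ θ' g = 1) : Nat.card (ConjClasses θ.ker) = 2 * Nat.card (ConjClasses M) := by
  have hcc : ∀ (u : ℤˣ) (g : G), g * inv2 z hz u = inv2 z hz u * g := by
    intro u g
    rcases Int.units_eq_one_or u with rfl | rfl
    · rw [map_one, mul_one, one_mul]
    · rw [inv2_neg, hc]
  have hu1 : ∀ u : ℤˣ, θ (inv2 z hz u) = 1 := by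
    intro u
    rcases Int.units_eq_one_or u with rfl | rfl
    · rw [map_one, map_one]
    · rw [inv2_neg, h1]
  have hu2 : ∀ u : ℤˣ, θ' (inv2 z hz u) = u := by
    intro u
    rcases Int.units_eq_one_or u with rfl | rfl
    · rw [map_one, map_one]
    · rw [inv2_neg, h2]
  let φ : M × ℤˣ →* θ.ker :=
    { toFun := fun x => ⟨x.1.1 * inv2 z hz x.2, by
        rw [MonoidHom.mem_ker, map_mul, hu1, mul_one]
        exact ((hM _).mp x.1.2).1⟩
      map_one' := by
        apply Subtype.ext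
        show (1 : G) * inv2 z hz 1 = 1
        rw [map_one, mul_one]
      map_mul' := by
        intro x y
        apply Subtype.ext
        show (x.1.1 * y.1.1) * inv2 z hz (x.2 * y.2) = (x.1.1 * inv2 z hz x.2) * (y.1.1 * inv2 z hz y.2)
        rw [map_mul, mul_assoc, mul_assoc, ← mul_assoc y.1.1, hcc x.2 y.1.1, mul_assoc] }
  have hφ : Function.Bijective φ := by
    constructor
    · rintro ⟨x, u⟩ ⟨y, v⟩ h
      have h3 : x.1 * inv2 z hz u = y.1 * inv2 z hz v := congrArg Subtype.val h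
      have h4 : u = v := by
        have h5 := congrArg θ' h3
        rw [map_mul, map_mul, hu2, hu2, ((hM _).mp x.2).2, ((hM _).mp y.2).2, one_mul, one_mul] at h5
        exact h5
      subst h4
      have h5 : x = y := Subtype.ext (mul_right_cancel h3)
      rw [h5]
    · rintro ⟨g, hg⟩
      rw [MonoidHom.mem_ker] at hg
      refine ⟨(⟨g * (inv2 z hz (θ' g))⁻¹, (hM _).mpr ⟨?_, ?_⟩⟩, θ' g), ?_⟩
      · rw [map_mul, map_inv, hu1, hg, inv_one, one_mul]
      · rw [map_mul, map_inv, hu2, mul_inv_cancel]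
      · apply Subtype.ext
        show g * (inv2 z hz (θ' g))⁻¹ * inv2 z hz (θ' g) = g
        rw [inv_mul_cancel_right]
  rw [← card_conj_congr (MulEquiv.ofBijective φ hφ), card_conj_prod]
  have h3 : Nat.card (ConjClasses ℤˣ) = 2 := by
    rw [Nat.card_congr (ConjClasses.mkEquiv (α := ℤˣ)).symm, Nat.card_eq_fintype_card]
    rfl
  rw [h3, mul_comm]

end grp

universe u
variable {F : Type u} [Field F] {ι : Type} [Fintype ι] [DecidableEq ι]

/-- the abstract isometry group and a multiple of the polar form -/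
noncomputable def isoA (h2 : (2 : F) ≠ 0) (Q : QuadraticForm F (ι → F)) {c : F} (hc : c ≠ 0) : IsoG ↥(O Q) (c • polarBilin Q) where
  ρ := (O Q).subtype
  inj := Subtype.val_injective
  pres g u v := by
    show c * polar Q _ _ = c * polar Q _ _
    rw [show polar Q (((O Q).subtype g) u) (((O Q).subtype g) v) = polar Q u v from polar_map g.2 u v]
  surj h hh := by
    refine ⟨⟨h, ?_⟩, rfl⟩
    intro v
    have h1 : c * polar Q (h v) (h v) = c * polar Q v v := hh v v
    have h1' := mul_left_cancel₀ hc h1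
    rw [QuadraticMap.polar_self, QuadraticMap.polar_self] at h1'
    have h3 : (2 : F) * Q (h v) = 2 * Q v := by
      simpa [two_mul, two_smul] using h1'
    exact mul_left_cancel₀ h2 h3

theorem ff_self (Q : QuadraticForm F (ι → F)) (c : F) (w : ι → F) : (c • polarBilin Q) w w = 2 * (c * Q w) := by
  show c * polar Q w w = _
  rw [QuadraticMap.polar_self, nsmul_eq_mul]
  push_cast
  ring

theorem refl_eq (h2 : (2 : F) ≠ 0) (Q : QuadraticForm F (ι → F)) {c : F} (hc : c ≠ 0) {w : ι → F} (hw : Q w ≠ 0) {g : ↥(O Q)}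
    (hg : ∀ v, (isoA h2 Q hc).ρ g v = v - (2 * (c • polarBilin Q) v w / (c • polarBilin Q) w w) • w) : g = rf Q w hw := by
  apply Subtype.ext
  apply LinearEquiv.ext
  intro v
  show (isoA h2 Q hc).ρ g v = refl Q w hw v
  rw [hg, refl_apply]
  congr 2
  rw [ff_self]
  show 2 * (c * polar Q v w) / _ = _
  rw [polar_comm]
  field_simp

theorem isSquare_four_mul (h2 : (2 : F) ≠ 0) (a : F) : IsSquare (2 * (2 * a)) ↔ IsSquare a := by
  constructor
  · rintro ⟨r, hr⟩
    refine ⟨r / 2, ?_⟩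
    field_simp
    rw [show a * (2 : F) ^ 2 = 2 * (2 * a) by ring, hr]
    ring
  · rintro ⟨r, hr⟩
    exact ⟨2 * r, by rw [hr]; ring⟩

variable [Finite F] (h2 : (2 : F) ≠ 0) (Q : QuadraticForm F (ι → F)) (R : Reps F) (hR : R.c₁ = 1)

include hR in
theorem c2_not_isSquare : ¬ IsSquare R.c₂ := by
  rintro ⟨t, ht⟩
  exact R.hns ⟨t, by rw [hR, ht]; ring⟩

include hR in
theorem spin_one : H46.Wall.Spin (isoA h2 Q (one_ne_zero (α := F))) (theta Q R.c₂) := by
  classical
  intro w hw g hg
  rw [ff_self, one_mul] at hw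
  have hw0 : Q w ≠ 0 := right_ne_zero_of_mul hw
  rw [refl_eq h2 Q one_ne_zero hw0 hg, ff_self, one_mul, isSquare_four_mul h2, H48.OmegaQ.theta_two h2 Q R hR]
  split_ifs with h
  · simp [h]
  · simp only [h, iff_false]
    decide

include hR in
theorem spin_two : H46.Wall.Spin (isoA h2 Q R.h₂) (theta Q R.c₁) := by
  classical
  intro w hw g hg
  rw [ff_self] at hw
  have hw0 : Q w ≠ 0 := right_ne_zero_of_mul (right_ne_zero_of_mul hw)
  rw [refl_eq h2 Q R.h₂ hw0 hg, ff_self, isSquare_four_mul h2, H48.OmegaQ.theta_one h2 Q R hR, H48.FinFieldSq.isSquare_mul_iff R.h₂ hw0]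
  have hns := c2_not_isSquare R hR
  split_ifs with h
  · simp only [h, hns, iff_true, iff_false]
    decide
  · simp only [h, hns, iff_false, not_false_eq_true, iff_true]

include h2 hR in
theorem det_eq (hQ : (polarBilin Q).Nondegenerate) (g : ↥(O Q)) :
    LinearMap.det ((g : (ι → F) ≃ₗ[F] (ι → F)) : (ι → F) →ₗ[F] (ι → F)) = (((theta Q R.c₁ g * theta Q R.c₂ g : ℤˣ) : ℤ) : F) := by
  classical
  let _ := Fintype.ofFinite F
  have hcl := closure_rf (V := ι → F) (Or.inl (fun h => by
    have : (2 : F) = 0 := by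
      have h3 := FiniteField.cast_card_eq_zero F
      rw [h] at h3
      exact_mod_cast h3
    exact h2 this)) Q hQ
  have hg : g ∈ Subgroup.closure {g : ↥(O Q) | ∃ (v : ι → F) (hv : Q v ≠ 0), g = rf Q v hv} := by rw [hcl]; trivial
  induction hg using Subgroup.closure_induction with
  | mem x hx =>
    obtain ⟨v, hv, rfl⟩ := hx
    have h3 : theta Q R.c₁ (rf Q v hv) * theta Q R.c₂ (rf Q v hv) = -1 := by
      rw [H48.OmegaQ.theta_one h2 Q R hR, H48.OmegaQ.theta_two h2 Q R hR]
      split_ifs <;> rfl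
    rw [h3]
    have h4 : ((rf Q v hv : (ι → F) ≃ₗ[F] (ι → F)) : (ι → F) →ₗ[F] (ι → F)) = Matrix.toLin' (Cfsg.reflectionMatrix (⇑Q) v) := by
      apply LinearMap.ext
      intro x
      rw [Matrix.toLin'_apply, H17.OrthMat.reflectionMatrix_mulVec]
      exact refl_apply Q v hv x
    rw [h4, LinearMap.det_toLin', H17.OrthMat.reflection_det Q v hv]
    simp
  | one =>
    rw [map_one, map_one, mul_one]
    show LinearMap.det (LinearMap.id) = _
    rw [LinearMap.det_id]; simp
  | mul x y _ _ hx hy =>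
    rw [map_mul, map_mul, mul_mul_mul_comm]
    show LinearMap.det (((x : (ι → F) ≃ₗ[F] (ι → F)) : (ι → F) →ₗ[F] (ι → F)) ∘ₗ ((y : (ι → F) ≃ₗ[F] (ι → F)) : (ι → F) →ₗ[F] (ι → F))) = _
    rw [LinearMap.det_comp, hx, hy, Units.val_mul (theta Q R.c₁ x * theta Q R.c₂ x) (theta Q R.c₁ y * theta Q R.c₂ y), Int.cast_mul]
  | inv x _ hx =>
    have h5 : LinearMap.det (((x⁻¹ : ↥(O Q)) : (ι → F) ≃ₗ[F] (ι → F)) : (ι → F) →ₗ[F] (ι → F)) * LinearMap.det ((x : (ι → F) ≃ₗ[F] (ι → F)) : (ι → F) →ₗ[F] (ι → F)) = 1 := by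
      rw [← LinearMap.det_comp]
      have h6 : (((x⁻¹ : ↥(O Q)) : (ι → F) ≃ₗ[F] (ι → F)) : (ι → F) →ₗ[F] (ι → F)) ∘ₗ ((x : (ι → F) ≃ₗ[F] (ι → F)) : (ι → F) →ₗ[F] (ι → F)) = LinearMap.id := by
        apply LinearMap.ext
        intro v
        show ((x⁻¹ * x : ↥(O Q)) : (ι → F) ≃ₗ[F] (ι → F)) v = v
        rw [inv_mul_cancel]; rfl
      rw [h6, LinearMap.det_id]
    rw [hx] at h5
    rw [map_inv, map_inv, ← mul_inv, Int.units_inv_eq_self]
    rcases Int.units_eq_one_or (theta Q R.c₁ x * theta Q R.c₂ x) with h | h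
    · rw [h] at h5 ⊢
      simpa using h5
    · rw [h] at h5 ⊢
      simp only [Units.val_neg, Units.val_one, Int.cast_neg, Int.cast_one, mul_neg, mul_one] at h5 ⊢
      rw [← h5, neg_neg]

include h2 hR in
theorem theta_negO (hQ : (polarBilin Q).Nondegenerate) (hodd : Odd (Fintype.card ι)) : theta Q R.c₁ (negO Q) * theta Q R.c₂ (negO Q) = -1 := by
  have h1 := det_eq h2 Q R hR hQ (negO Q)
  have h3 : ((negO Q : (ι → F) ≃ₗ[F] (ι → F)) : (ι → F) →ₗ[F] (ι → F)) = (-1 : F) • LinearMap.id := by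
    apply LinearMap.ext
    intro v
    rw [LinearMap.smul_apply, LinearMap.id_apply, neg_one_smul]
    rfl
  rw [h3, LinearMap.det_smul, LinearMap.det_id, mul_one, Module.finrank_fintype_fun_eq_card, hodd.neg_one_pow] at h1
  rcases Int.units_eq_one_or (theta Q R.c₁ (negO Q) * theta Q R.c₂ (negO Q)) with h | h
  · exfalso
    rw [h] at h1
    simp only [Units.val_one, Int.cast_one] at h1
    apply h2
    have : (2 : F) = 1 + 1 := by norm_num
    rw [this]
    nth_rewrite 1 [← h1]
    ring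
  · exact h

include h2 hR in
/-- the good choice of the sign of the form -/
theorem exists_choice (hQ : (polarBilin Q).Nondegenerate) (hodd : Odd (Fintype.card ι)) (hd : 2 ≤ Module.finrank F (ι → F)) :
    ∃ (c : F) (hc : c ≠ 0) (θ θ' : ↥(O Q) →* ℤˣ), H46.Wall.Spin (isoA h2 Q hc) θ ∧ θ (negO Q) = 1 ∧ θ' (negO Q) = -1 ∧
      (∀ g, g ∈ commutator ↥(O Q) ↔ θ g = 1 ∧ θ' g = 1) ∧ ∃ g, θ g = -1 := by
  have h1 := theta_negO h2 Q R hR hQ hodd
  obtain ⟨u, w, hu, hw, -, -, a1, a2, b1, b2⟩ := exists_pair_theta h2 Q R hQ hd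
  rcases Int.units_eq_one_or (theta Q R.c₂ (negO Q)) with h | h
  · rw [h, mul_one] at h1
    refine ⟨1, one_ne_zero, theta Q R.c₂, theta Q R.c₁, spin_one h2 Q R hR, h, h1, ?_, _, b2⟩
    intro g
    rw [mem_commutator_iff h2 Q R hQ hd, and_comm]
  · rw [h, mul_neg, mul_one, neg_inj] at h1
    exact ⟨R.c₂, R.h₂, theta Q R.c₁, theta Q R.c₂, spin_two h2 Q R hR, h1, h, fun g => mem_commutator_iff h2 Q R hQ hd g, _, a1⟩

theorem bounds (hodd : Odd (Nat.card F)) (h2 : (2 : F) ≠ 0) (Q : QuadraticForm F (ι → F)) (hQ : ND Q) {n : ℕ} (hn : 2 ≤ n) (hdim : Fintype.card ι = 2 * n + 1) :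
    Nat.card F ^ n ≤ 2 * Nat.card (ConjClasses (commutator ↥(O Q))) ∧ 10 * Nat.card (ConjClasses (commutator ↥(O Q))) ≤ 73 * Nat.card F ^ n := by
  classical
  have hfr : finrank F (ι → F) = 2 * n + 1 := by rw [Module.finrank_fintype_fun_eq_card, hdim]
  have hQ' : (polarBilin Q).Nondegenerate := H48.QuadSplit.nd_iff.mp hQ
  haveI : Finite ((ι → F) ≃ₗ[F] (ι → F)) := Finite.of_injective (fun g => (g : (ι → F) → (ι → F))) DFunLike.coe_injective
  haveI : Finite ↥(O Q) := Subtype.finite
  letI := Fintype.ofFinite ↥(O Q)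
  obtain ⟨R, hR⟩ := exists_reps (F := F) h2 1 one_ne_zero
  obtain ⟨c, hc, θ, θ', hθ, h3, h4, h5, g₀, hg₀⟩ := exists_choice h2 Q R hR hQ' (by rw [hdim]; exact ⟨n, rfl⟩) (by rw [hfr]; omega)
  have hnd : NDB (c • polarBilin Q) := by
    intro x hx
    apply hQ x
    intro y
    have := hx y
    exact (mul_eq_zero.mp this).resolve_left hc
  have hs : ∀ u v, (c • polarBilin Q) u v = (c • polarBilin Q) v u := fun u v => congrArg (c * ·) (QuadraticMap.polar_comm _ _ _)
  have hup := H46.OddUpper.upper (isoA h2 Q hc) hnd hs hodd h2 hθ hn hfr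
  have hlow := H46.OddLower.lower (isoA h2 Q hc) hnd hs hodd h2 hfr
  have hidx : θ.ker.index = 2 := by
    rw [Subgroup.index_ker]
    have : θ.range = ⊤ := by
      rw [eq_top_iff]
      rintro x -
      rcases Int.units_eq_one_or x with rfl | rfl
      · exact one_mem _
      · exact ⟨g₀, hg₀⟩
    rw [this, Subgroup.card_top, Nat.card_eq_fintype_card]
    rfl
  have hcount := H46.IndexTwo.two_mul_card θ.ker hidx
  have hz : negO Q * negO Q = 1 := by
    apply Subtype.ext
    apply LinearEquiv.ext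
    intro v
    show - - v = v
    rw [neg_neg]
  have hzc : ∀ g : ↥(O Q), g * negO Q = negO Q * g := by
    intro g
    apply Subtype.ext
    apply LinearEquiv.ext
    intro v
    show (g : (ι → F) ≃ₗ[F] (ι → F)) (-v) = -((g : (ι → F) ≃ₗ[F] (ι → F)) v)
    rw [map_neg]
  have hk := card_conj_ker hz hzc h3 h4 h5
  constructor <;> omega

end H46.OddFinal
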