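import Mathlib
import Cfsg.Agent.Lib.H46.OrthLower
import Cfsg.Agent.Lib.H48.QuadStd

/-! Class numbers of the even-dimensional orthogonal groups, odd characteristic. -/

set_option autoImplicit false

namespace H46.OrthFinal

open Module H49.FormConj2 H46.IsoCount H46.FormSplit QuadraticMap H48.QuadStd H48.QuadSplit

universe u

variable {F : Type u} [Field F] {ι : Type} [Fintype ι] [DecidableEq ι]

/-- the action on the natural module -/
noncomputable def rho (Q : (ι → F) → F) : Cfsg.isometryGroup F Q →* ((ι → F) ≃ₗ[F] (ι → F)) where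
  toFun g := Matrix.toLin'OfInv (M := (((g : Matrix.GeneralLinearGroup ι F)⁻¹ : Matrix.GeneralLinearGroup ι F) : Matrix ι ι F)) (M' := ((g : Matrix.GeneralLinearGroup ι F) : Matrix ι ι F))
    (by rw [← Units.val_mul, inv_mul_cancel]; rfl) (by rw [← Units.val_mul, mul_inv_cancel]; rfl)
  map_one' := by
    apply LinearEquiv.ext
    intro v
    show Matrix.toLin' (1 : Matrix _ _ F) v = v
    rw [Matrix.toLin'_one]; rfl
  map_mul' g h := by
    apply LinearEquiv.ext
    intro v
    show Matrix.toLin' (((g : Matrix.GeneralLinearGroup ι F) : Matrix ι ι F) * ((h : Matrix.GeneralLinearGroup ι F) : Matrix ι ι F)) v =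
      Matrix.toLin' ((g : Matrix.GeneralLinearGroup ι F) : Matrix ι ι F) (Matrix.toLin' ((h : Matrix.GeneralLinearGroup ι F) : Matrix ι ι F) v)
    rw [Matrix.toLin'_mul_apply]

theorem rho_apply {Q : (ι → F) → F} (g : Cfsg.isometryGroup F Q) (v : ι → F) : rho Q g v = ((g : Matrix.GeneralLinearGroup ι F) : Matrix ι ι F).mulVec v := rfl

theorem mem_iso {Q : (ι → F) → F} (g : Matrix.GeneralLinearGroup ι F) : g ∈ Cfsg.isometryGroup F Q ↔ ∀ v, Q ((g : Matrix ι ι F).mulVec v) = Q v := by
  constructor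
  · intro h v
    exact h v v
  · intro h u v
    exact h u

theorem inj_rho {Q : (ι → F) → F} : Function.Injective (rho Q) := by
  intro g h hgh
  apply Subtype.ext
  apply Units.ext
  apply Matrix.toLin'.injective
  apply LinearMap.ext
  intro v
  exact LinearEquiv.congr_fun hgh v

theorem pres_rho (Q : QuadraticForm F (ι → F)) (g : Cfsg.isometryGroup F ⇑Q) (u v : ι → F) : polarBilin Q (rho _ g u) (rho _ g v) = polarBilin Q u v := by
  have h := (mem_iso (g : Matrix.GeneralLinearGroup ι F)).mp g.2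
  have e : ∀ u, Q (rho _ g u) = Q u := h
  show polar Q (rho _ g u) (rho _ g v) = polar Q u v
  unfold polar
  rw [← map_add, e, e, e]

theorem surj_rho (h2 : (2 : F) ≠ 0) (Q : QuadraticForm F (ι → F)) (h : (ι → F) ≃ₗ[F] (ι → F)) (hh : ∀ u v, polarBilin Q (h u) (h v) = polarBilin Q u v) :
    ∃ g : Cfsg.isometryGroup F ⇑Q, rho _ g = h := by
  obtain ⟨A, hA⟩ : ∃ A, A = LinearMap.toMatrix' (h : (ι → F) →ₗ[F] (ι → F)) := ⟨_, rfl⟩
  have hA' : Matrix.toLin' A = (h : (ι → F) →ₗ[F] (ι → F)) := by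
    rw [hA, Matrix.toLin'_toMatrix']
  have hdet : A.det ≠ 0 := by
    rw [hA, LinearMap.det_toMatrix']
    exact (LinearEquiv.isUnit_det' h).ne_zero
  have hQ : ∀ v, Q (h v) = Q v := by
    intro v
    have h1 : polar Q (h v) (h v) = polar Q v v := hh v v
    rw [QuadraticMap.polar_self, QuadraticMap.polar_self] at h1
    have h3 : (2 : F) * Q (h v) = 2 * Q v := by
      simpa [two_mul, two_smul] using h1
    exact mul_left_cancel₀ h2 h3
  refine ⟨⟨Matrix.GeneralLinearGroup.mkOfDetNeZero A hdet, ?_⟩, ?_⟩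
  · rw [mem_iso]
    intro v
    have : (Matrix.GeneralLinearGroup.mkOfDetNeZero A hdet : Matrix ι ι F).mulVec v = h v := LinearMap.congr_fun hA' v
    rw [this, hQ]
  · apply LinearEquiv.ext
    intro v
    exact LinearMap.congr_fun hA' v

/-- the isometry group of a quadratic form -/
noncomputable def isoO (h2 : (2 : F) ≠ 0) (Q : QuadraticForm F (ι → F)) : IsoG (Cfsg.isometryGroup F ⇑Q) (polarBilin Q) :=
  ⟨rho _, inj_rho, pres_rho Q, surj_rho h2 Q⟩

theorem bounds [Finite F] (hodd : Odd (Nat.card F)) (h2 : (2 : F) ≠ 0) (Q : QuadraticForm F (ι → F)) (hQ : ND Q) {n : ℕ} (hn : 2 ≤ n) (hdim : Fintype.card ι = 2 * n) :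
    Nat.card F ^ n ≤ 2 * Nat.card (ConjClasses (Cfsg.isometryGroup F ⇑Q)) ∧ 2 * Nat.card (ConjClasses (Cfsg.isometryGroup F ⇑Q)) ≤ 19 * Nat.card F ^ n := by
  have hfr : finrank F (ι → F) = 2 * n := by rw [Module.finrank_fintype_fun_eq_card, hdim]
  have hnd : NDB (polarBilin Q) := fun x hx => hQ x hx
  have hs : ∀ u v, polarBilin Q u v = polarBilin Q v u := fun u v => QuadraticMap.polar_comm _ _ _
  haveI : Finite (Matrix.GeneralLinearGroup ι F) := inferInstance
  haveI : Finite (Cfsg.isometryGroup F ⇑Q) := Subtype.finite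
  exact ⟨H46.OrthLower.lower (isoO h2 Q) hnd hs hodd h2 hn hfr, H46.OrthUpper.upper (isoO h2 Q) hnd hs hodd h2 (by omega) hfr⟩

end H46.OrthFinal
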