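import Mathlib
import Cfsg.Agent.Lib.H54.RA0

/-! S3330, piece T2 (helper46): the group `EE` in the twisted case. -/

set_option autoImplicit false
set_option maxRecDepth 100000

open Equiv Subgroup H54.RA

namespace H46.RT2

theorem t5_sq : t5 * t5 = 1 := by decide +kernel
theorem sign_t5 : Perm.sign t5 = -1 := by decide +kernel

/-- the sign representative -/
def sg (σ : Perm (Fin 5)) : Perm (Fin 5) := if Perm.sign σ = 1 then 1 else t5

theorem sgn_or (σ : Perm (Fin 5)) : Perm.sign σ = 1 ∨ Perm.sign σ = -1 := Int.units_eq_one_or _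

theorem sg_even {σ : Perm (Fin 5)} (h : Perm.sign σ = 1) : sg σ = 1 := by simp [sg, h]

theorem sg_odd {σ : Perm (Fin 5)} (h : Perm.sign σ = -1) : sg σ = t5 := by
  have : ¬ ((-1 : ℤˣ) = 1) := by decide
  simp [sg, h, this]

theorem sg_sq (σ : Perm (Fin 5)) : sg σ * sg σ = 1 := by
  rcases sgn_or σ with h | h
  · simp [sg_even h]
  · rw [sg_odd h, t5_sq]

theorem sign_sg (σ : Perm (Fin 5)) : Perm.sign (sg σ) = Perm.sign σ := by
  rcases sgn_or σ with h | h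
  · simp [sg_even h, h]
  · rw [sg_odd h, sign_t5, h]

theorem sg_mul (σ τ : Perm (Fin 5)) : sg (σ * τ) = sg τ * sg σ := by
  rcases sgn_or σ with h | h <;> rcases sgn_or τ with h' | h'
  · rw [sg_even (by simp [h, h']), sg_even h, sg_even h']; rfl
  · rw [sg_odd (by simp [h, h']), sg_even h, sg_odd h', mul_one]
  · rw [sg_odd (by simp [h, h']), sg_odd h, sg_even h', one_mul]
  · rw [sg_even (by simp [h, h']), sg_odd h, sg_odd h', t5_sq]

theorem sign_even {σ τ : Perm (Fin 5)} (h : Perm.sign σ = Perm.sign τ) : Perm.sign (sg σ * τ) = 1 := by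
  rw [Perm.sign_mul, sign_sg, h]
  rcases sgn_or τ with h | h <;> rw [h] <;> decide

section
variable {G : Type*} [Group G] (ψ : PP →* G) (n : G)

/-- first factor -/
def A : Perm (Fin 5) →* G := ψ.comp (MonoidHom.inr _ _)

/-- second factor -/
def B : Perm (Fin 5) →* G := (MulAut.conj n).toMonoidHom.comp (A ψ)

theorem A_apply (a : Perm (Fin 5)) : A ψ a = ψ (1, a) := rfl

theorem B_apply (a : Perm (Fin 5)) : B ψ n a = n * ψ (1, a) * n⁻¹ := rfl

variable {ψ n}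

theorem Bt (h : TD ψ n) : B ψ n t5 = A ψ t5 := by
  rw [A_apply, B_apply, h.nt, mul_inv_cancel_right]

theorem BA (h : TD ψ n)
    (hc : ∀ a b : Perm (Fin 5), Perm.sign a = 1 → Perm.sign b = 1 →
      ψ (1, a) * (n * ψ (1, b) * n⁻¹) = (n * ψ (1, b) * n⁻¹) * ψ (1, a))
    {β : Perm (Fin 5)} (hβ : Perm.sign β = 1) (σ : Perm (Fin 5)) :
    B ψ n β * A ψ σ = A ψ σ * B ψ n (sg σ * β * sg σ) := by
  rcases sgn_or σ with hs | hs
  · rw [sg_even hs, one_mul, mul_one]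
    exact (hc σ β hs hβ).symm
  · rw [sg_odd hs]
    have e1 : A ψ σ = A ψ (σ * t5) * A ψ t5 := by
      rw [← map_mul, mul_assoc, t5_sq, mul_one]
    have e2 : B ψ n β * A ψ (σ * t5) = A ψ (σ * t5) * B ψ n β :=
      (hc (σ * t5) β (by rw [Perm.sign_mul, hs, sign_t5]; decide) hβ).symm
    have e3 : B ψ n β * A ψ t5 = A ψ t5 * B ψ n (t5 * β * t5) := by
      rw [← Bt h, ← map_mul, ← map_mul, ← mul_assoc, ← mul_assoc, t5_sq, one_mul]
    calc B ψ n β * A ψ σ = (B ψ n β * A ψ (σ * t5)) * A ψ t5 := by rw [e1, mul_assoc]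
      _ = A ψ (σ * t5) * (B ψ n β * A ψ t5) := by rw [e2, mul_assoc]
      _ = (A ψ (σ * t5) * A ψ t5) * B ψ n (t5 * β * t5) := by rw [e3, ← mul_assoc]
      _ = A ψ σ * B ψ n (t5 * β * t5) := by rw [← e1]

/-- the homomorphism -/
def Phi (h : TD ψ n)
    (hc : ∀ a b : Perm (Fin 5), Perm.sign a = 1 → Perm.sign b = 1 →
      ψ (1, a) * (n * ψ (1, b) * n⁻¹) = (n * ψ (1, b) * n⁻¹) * ψ (1, a)) : EE →* G where
  toFun x := A ψ x.1.1 * B ψ n (sg x.1.1 * x.1.2)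
  map_one' := by
    simp [sg_even (σ := 1) (by simp)]
  map_mul' := by
    rintro ⟨⟨σ, τ⟩, (hx : Perm.sign σ = Perm.sign τ)⟩ ⟨⟨σ', τ'⟩, (hy : Perm.sign σ' = Perm.sign τ')⟩
    show A ψ (σ * σ') * B ψ n (sg (σ * σ') * (τ * τ')) =
      (A ψ σ * B ψ n (sg σ * τ)) * (A ψ σ' * B ψ n (sg σ' * τ'))
    have e := BA h hc (sign_even hx) σ'
    calc A ψ (σ * σ') * B ψ n (sg (σ * σ') * (τ * τ'))
        = A ψ σ * A ψ σ' * (B ψ n (sg σ' * (sg σ * τ) * sg σ') * B ψ n (sg σ' * τ')) := by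
          rw [map_mul, ← map_mul (B ψ n)]
          congr 2
          rw [sg_mul]
          have := sg_sq σ'
          calc sg σ' * sg σ * (τ * τ') = sg σ' * (sg σ * τ) * (1 * τ') := by
                simp only [mul_assoc, one_mul]
            _ = sg σ' * (sg σ * τ) * ((sg σ' * sg σ') * τ') := by rw [this]
            _ = _ := by simp only [mul_assoc]
      _ = A ψ σ * (A ψ σ' * B ψ n (sg σ' * (sg σ * τ) * sg σ')) * B ψ n (sg σ' * τ') := by
          simp only [mul_assoc]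
      _ = A ψ σ * (B ψ n (sg σ * τ) * A ψ σ') * B ψ n (sg σ' * τ') := by rw [e]
      _ = _ := by simp only [mul_assoc]

theorem Phi_apply (h : TD ψ n)
    (hc : ∀ a b : Perm (Fin 5), Perm.sign a = 1 → Perm.sign b = 1 →
      ψ (1, a) * (n * ψ (1, b) * n⁻¹) = (n * ψ (1, b) * n⁻¹) * ψ (1, a)) (x : EE) :
    Phi h hc x = A ψ x.1.1 * B ψ n (sg x.1.1 * x.1.2) := rfl

theorem Phi_mkE (h : TD ψ n)
    (hc : ∀ a b : Perm (Fin 5), Perm.sign a = 1 → Perm.sign b = 1 →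
      ψ (1, a) * (n * ψ (1, b) * n⁻¹) = (n * ψ (1, b) * n⁻¹) * ψ (1, a))
    (a b : Perm (Fin 5)) (hab : Perm.sign a = Perm.sign b) :
    Phi h hc (mkE a b hab) = A ψ a * B ψ n (sg a * b) := rfl

theorem cent_A5 (σ : Perm (Fin 5)) (h1 : σ * (swap 0 1 * swap 1 2) = (swap 0 1 * swap 1 2) * σ)
    (h2 : σ * (swap 0 1 * swap 1 3) = (swap 0 1 * swap 1 3) * σ)
    (h3 : σ * (swap 0 1 * swap 1 4) = (swap 0 1 * swap 1 4) * σ) : σ = 1 := by
  revert σ
  decide +kernel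

theorem inv_n (h : TD ψ n) : n⁻¹ = n := by
  rw [inv_eq_iff_mul_eq_one]; exact h.nn

theorem A_inj (h : TD ψ n) : Function.Injective (A ψ) := by
  intro a b hab
  have := h.inj (by simpa [A_apply] using hab : ψ (1, a) = ψ (1, b))
  simpa using this

theorem Phi_inj (h : TD ψ n)
    (hc : ∀ a b : Perm (Fin 5), Perm.sign a = 1 → Perm.sign b = 1 →
      ψ (1, a) * (n * ψ (1, b) * n⁻¹) = (n * ψ (1, b) * n⁻¹) * ψ (1, a)) :
    Function.Injective (Phi h hc) := by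
  rw [injective_iff_map_eq_one]
  rintro ⟨⟨σ, τ⟩, (hx : Perm.sign σ = Perm.sign τ)⟩ h1
  have h1' : A ψ σ * B ψ n (sg σ * τ) = 1 := h1
  have hev := sign_even hx
  have hcomm : ∀ a : Perm (Fin 5), Perm.sign a = 1 → σ * a = a * σ := by
    intro a ha
    apply A_inj h
    rw [map_mul, map_mul]
    have e1 : A ψ σ = (B ψ n (sg σ * τ))⁻¹ := eq_inv_of_mul_eq_one_left h1'
    have e2 : Commute (A ψ a) (B ψ n (sg σ * τ)) := hc a (sg σ * τ) ha hev
    rw [e1]
    exact (e2.inv_right).eq.symm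
  have hσ : σ = 1 := cent_A5 σ (hcomm _ (by decide +kernel)) (hcomm _ (by decide +kernel))
    (hcomm _ (by decide +kernel))
  subst hσ
  have h2 : B ψ n τ = 1 := by
    have : sg (1 : Perm (Fin 5)) = 1 := sg_even (by simp)
    rw [this, one_mul, map_one, one_mul] at h1'
    exact h1'
  have h3 : A ψ τ = 1 := by
    rw [B_apply] at h2
    rw [A_apply]
    have : n * ψ (1, τ) = n := by
      rw [mul_inv_eq_one] at h2; exact h2
    exact mul_eq_left.mp this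
  have h4 : τ = 1 := by
    apply A_inj h
    rw [h3, map_one]
  subst h4
  rfl

theorem n_not (h : TD ψ n)
    (hc : ∀ a b : Perm (Fin 5), Perm.sign a = 1 → Perm.sign b = 1 →
      ψ (1, a) * (n * ψ (1, b) * n⁻¹) = (n * ψ (1, b) * n⁻¹) * ψ (1, a)) :
    n ∉ (Phi h hc).range := by
  rintro ⟨⟨⟨σ, τ⟩, (hx : Perm.sign σ = Perm.sign τ)⟩, h1⟩
  have h1' : A ψ σ * B ψ n (sg σ * τ) = n := h1
  have e2 : Commute (A ψ d5) (B ψ n (sg σ * τ)) := hc d5 (sg σ * τ) (by decide +kernel) (sign_even hx)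
  have e3 : n * A ψ d5 * n⁻¹ = A ψ (σ * d5 * σ⁻¹) := by
    have : n * A ψ d5 = A ψ (σ * d5 * σ⁻¹) * n := by
      calc n * A ψ d5 = A ψ σ * (B ψ n (sg σ * τ) * A ψ d5) := by rw [← mul_assoc, h1']
        _ = A ψ σ * (A ψ d5 * B ψ n (sg σ * τ)) := by rw [e2.eq]
        _ = A ψ (σ * d5 * σ⁻¹) * (A ψ σ * B ψ n (sg σ * τ)) := by
          simp only [map_mul, map_inv, mul_assoc, inv_mul_cancel_left]
        _ = _ := by rw [h1']
    rw [this, mul_inv_cancel_right]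
  have e4 : ψ (c3, 1) = ψ (1, σ * d5 * σ⁻¹) := by
    rw [← h.n2]; exact e3
  have e5 := h.inj e4
  have e6 : c3 = 1 := (Prod.mk.inj e5).1
  revert e6
  decide +kernel

theorem n_conj (h : TD ψ n)
    (hc : ∀ a b : Perm (Fin 5), Perm.sign a = 1 → Perm.sign b = 1 →
      ψ (1, a) * (n * ψ (1, b) * n⁻¹) = (n * ψ (1, b) * n⁻¹) * ψ (1, a))
    (a b : Perm (Fin 5)) (hab : Perm.sign a = Perm.sign b) :
    n * Phi h hc (mkE a b hab) * n⁻¹ = Phi h hc (mkE b a hab.symm) := by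
  rw [Phi_mkE, Phi_mkE]
  have hsg : sg b = sg a := by
    simp only [sg, hab]
  rw [hsg]
  have e1 : n * (A ψ a * B ψ n (sg a * b)) * n⁻¹ = B ψ n a * A ψ (sg a * b) := by
    have hB : B ψ n (sg a * b) = n * A ψ (sg a * b) * n⁻¹ := rfl
    have hB2 : B ψ n a = n * A ψ a * n⁻¹ := rfl
    rw [hB, hB2, inv_n h]
    have hn : n * n = 1 := h.nn
    calc n * (A ψ a * (n * A ψ (sg a * b) * n)) * n = n * A ψ a * n * A ψ (sg a * b) * (n * n) := by
          simp only [mul_assoc]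
      _ = _ := by rw [hn, mul_one]
  rw [e1]
  rcases sgn_or a with ha | ha
  · rw [sg_even ha, one_mul, one_mul]
    exact (hc b a (by rw [← hab]; exact ha) ha).symm
  · rw [sg_odd ha]
    have e2 : B ψ n a = A ψ t5 * B ψ n (t5 * a) := by
      rw [← Bt h, ← map_mul, ← mul_assoc, t5_sq, one_mul]
    have hb : Perm.sign b = -1 := by rw [← hab]; exact ha
    have e3 : B ψ n (t5 * a) * A ψ (t5 * b) = A ψ (t5 * b) * B ψ n (t5 * a) :=
      (hc (t5 * b) (t5 * a) (by rw [Perm.sign_mul, hb, sign_t5]; decide)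
        (by rw [Perm.sign_mul, ha, sign_t5]; decide)).symm
    rw [e2, mul_assoc, e3, ← mul_assoc, ← map_mul, ← mul_assoc, t5_sq, one_mul]

theorem psi_range (h : TD ψ n)
    (hc : ∀ a b : Perm (Fin 5), Perm.sign a = 1 → Perm.sign b = 1 →
      ψ (1, a) * (n * ψ (1, b) * n⁻¹) = (n * ψ (1, b) * n⁻¹) * ψ (1, a)) (k : PP) :
    ψ k ∈ (Phi h hc).range := by
  have hsg1 : sg (1 : Perm (Fin 5)) = 1 := sg_even (by simp)
  have hB : ∀ b : Perm (Fin 5), Perm.sign b = 1 → B ψ n b ∈ (Phi h hc).range := by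
    intro b hb
    refine ⟨mkE 1 b (by simp [hb]), ?_⟩
    rw [Phi_mkE, hsg1, map_one, one_mul, one_mul]
  have hAe : ∀ a : Perm (Fin 5), Perm.sign a = 1 → A ψ a ∈ (Phi h hc).range := by
    intro a ha
    refine ⟨mkE a 1 (by simp [ha]), ?_⟩
    rw [Phi_mkE, sg_even ha, one_mul, map_one, mul_one]
  have ht : A ψ t5 ∈ (Phi h hc).range := by
    refine ⟨tE, ?_⟩
    show A ψ t5 * B ψ n (sg t5 * t5) = A ψ t5
    rw [sg_odd sign_t5, t5_sq, map_one, mul_one]
  have hA : ∀ a : Perm (Fin 5), A ψ a ∈ (Phi h hc).range := by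
    intro a
    rcases sgn_or a with ha | ha
    · exact hAe a ha
    · have e1 : A ψ a = A ψ (a * t5) * A ψ t5 := by
        rw [← map_mul, mul_assoc, t5_sq, mul_one]
      rw [e1]
      exact mul_mem (hAe _ (by rw [Perm.sign_mul, ha, sign_t5]; decide)) ht
  have hz : ψ (c3, 1) ∈ (Phi h hc).range := by
    rw [← h.n2]
    exact hB d5 (by decide +kernel)
  have hr : ψ (swap 0 1, 1) ∈ (Phi h hc).range := by
    have e1 : ψ (swap 0 1, t5) ∈ (Phi h hc).range ∨ True := Or.inr trivial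
    have e2 : B ψ n (swap 1 2 * t5) = ψ (swap 0 1, 1) := by
      rw [map_mul, Bt h, B_apply, h.n3, A_apply, ← map_mul]
      congr 1
      exact Prod.ext (mul_one _) t5_sq
    rw [← e2]
    exact hB _ (by decide +kernel)
  have hS : ∀ a : Perm (Fin 3), ψ (a, 1) ∈ (Phi h hc).range := by
    have key : ∀ a : Perm (Fin 3), ∃ i j : ℕ, i < 3 ∧ j < 2 ∧ a = c3 ^ i * (swap 0 1) ^ j := by
      intro a
      have : ∃ i : Fin 3, ∃ j : Fin 2, a = c3 ^ (i : ℕ) * (swap 0 1) ^ (j : ℕ) := by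
        revert a; decide +kernel
      obtain ⟨i, j, hij⟩ := this
      exact ⟨i, j, i.2, j.2, hij⟩
    intro a
    obtain ⟨i, j, -, -, rfl⟩ := key a
    have : ψ (c3 ^ i * (swap 0 1) ^ j, 1) = ψ (c3, 1) ^ i * ψ (swap 0 1, 1) ^ j := by
      rw [← map_pow, ← map_pow, ← map_mul]
      congr 1
      simp
    rw [this]
    exact mul_mem (pow_mem hz i) (pow_mem hr j)
  obtain ⟨a, b⟩ := k
  have : ψ (a, b) = ψ (a, 1) * A ψ b := by
    rw [A_apply, ← map_mul]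
    simp
  rw [this]
  exact mul_mem (hS a) (hA b)

theorem mem_norm_of {z g : G} (h : g * z * g⁻¹ = z ∨ g * z * g⁻¹ = z⁻¹) :
    g ∈ normalizer (zpowers z : Set G) := by
  have h' : g⁻¹ * z * g = z ∨ g⁻¹ * z * g = z⁻¹ := by
    rcases h with h | h
    · left
      calc g⁻¹ * z * g = g⁻¹ * (g * z * g⁻¹) * g := by rw [h]
        _ = z := by group
    · right
      calc g⁻¹ * z * g = (g⁻¹ * z⁻¹ * g)⁻¹ := by group
        _ = (g⁻¹ * (g * z * g⁻¹) * g)⁻¹ := by rw [h]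
        _ = z⁻¹ := by group
  rw [Subgroup.mem_normalizer_iff]
  intro x
  constructor
  · intro hx
    obtain ⟨i, rfl⟩ := mem_zpowers_iff.mp hx
    rw [← conj_zpow]
    apply zpow_mem
    rcases h with h | h <;> rw [h]
    · exact mem_zpowers z
    · exact inv_mem (mem_zpowers z)
  · intro hx
    obtain ⟨i, hi⟩ := mem_zpowers_iff.mp hx
    have e : x = (g⁻¹ * z * g) ^ i := by
      have : (g⁻¹ * z * g) ^ i = g⁻¹ * z ^ i * g := by
        have := conj_zpow (i := i) (a := g⁻¹) (b := z)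
        simpa using this
      rw [this, hi]; group
    rw [e]
    apply zpow_mem
    rcases h' with h | h <;> rw [h]
    · exact mem_zpowers z
    · exact inv_mem (mem_zpowers z)

theorem mem_D {x : G} (hx : x ∈ DD ψ) :
    ∃ a ∈ zpowers c3, ∃ b ∈ zpowers d5, ψ (a, b) = x := by
  have hle : DD ψ ≤ ((zpowers c3).prod (zpowers d5)).map ψ := by
    refine sup_le ?_ ?_
    · rw [zpowers_le]
      exact ⟨(c3, 1), ⟨mem_zpowers _, one_mem _⟩, rfl⟩
    · rw [zpowers_le]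
      exact ⟨(1, d5), ⟨one_mem _, mem_zpowers _⟩, rfl⟩
  obtain ⟨⟨a, b⟩, ⟨ha, hb⟩, hx⟩ := hle hx
  exact ⟨a, ha, b, hb, hx⟩

theorem c3_cases (a : Perm (Fin 3)) (ha : a ∈ zpowers c3) : a = 1 ∨ a = c3 ∨ a = c3⁻¹ := by
  obtain ⟨i, rfl⟩ := mem_zpowers_iff.mp ha
  have h3 : c3 ^ (3 : ℤ) = 1 := by decide +kernel
  have hi : i = 3 * (i / 3) + i % 3 := (Int.mul_ediv_add_emod i 3).symm
  have e : c3 ^ i = c3 ^ (i % 3) := by
    conv_lhs => rw [hi, zpow_add, zpow_mul, h3, one_zpow, one_mul]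
  rw [e]
  have h1 := Int.emod_nonneg i (by norm_num : (3 : ℤ) ≠ 0)
  have h2 := Int.emod_lt_of_pos i (by norm_num : (0 : ℤ) < 3)
  have h4 : i % 3 = 0 ∨ i % 3 = 1 ∨ i % 3 = 2 := by omega
  rcases h4 with h | h | h <;> rw [h]
  · left; rfl
  · right; left; exact zpow_one _
  · right; right; decide +kernel

theorem d5_cases (b : Perm (Fin 5)) (hb : b ∈ zpowers d5) : b = 1 ∨ b = d5 ∨ b = d5⁻¹ := by
  obtain ⟨i, rfl⟩ := mem_zpowers_iff.mp hb
  have h3 : d5 ^ (3 : ℤ) = 1 := by decide +kernel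
  have hi : i = 3 * (i / 3) + i % 3 := (Int.mul_ediv_add_emod i 3).symm
  have e : d5 ^ i = d5 ^ (i % 3) := by
    conv_lhs => rw [hi, zpow_add, zpow_mul, h3, one_zpow, one_mul]
  rw [e]
  have h1 := Int.emod_nonneg i (by norm_num : (3 : ℤ) ≠ 0)
  have h2 := Int.emod_lt_of_pos i (by norm_num : (0 : ℤ) < 3)
  have h4 : i % 3 = 0 ∨ i % 3 = 1 ∨ i % 3 = 2 := by omega
  rcases h4 with h | h | h <;> rw [h]
  · left; rfl
  · right; left; exact zpow_one _
  · right; right; decide +kernel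

theorem norm_D [Finite G] (h : TD ψ n) {g : G} (hg : g ∈ normalizer (DD ψ : Set G)) :
    (∃ k, ψ k = g) ∨ ∃ k, n * ψ k = g := by
  have hz : g * ψ (c3, 1) * g⁻¹ ∈ DD ψ :=
    (Subgroup.mem_normalizer_iff.mp hg _).mp (le_sup_left (a := zpowers (ψ (c3, 1))) (mem_zpowers _))
  obtain ⟨a, ha, b, hb, hab⟩ := mem_D hz
  have hc3 : ∀ e : ψ (a, b) = 1, False := by
    intro e
    rw [e] at hab
    have h1 : ψ (c3, 1) = 1 := by
      have : g * ψ (c3, 1) * g⁻¹ = 1 := hab.symm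
      simpa using this
    have h2 : (c3, (1 : Perm (Fin 5))) = 1 := h.inj (by rw [h1, map_one])
    have h3 : c3 = 1 := (Prod.mk.inj h2).1
    revert h3; decide +kernel
  -- the conjugates of `y`
  have key : ∀ k : PP, k * (c3, d5) * k⁻¹ = (a, b) → False := by
    intro k hk
    set u : G := g⁻¹ * ψ k with hu
    have hzy : ψ (c3, 1) = u * ψ (c3, d5) * u⁻¹ := by
      have e1 : ψ k * ψ (c3, d5) * (ψ k)⁻¹ = g * ψ (c3, 1) * g⁻¹ := by
        rw [← hab, ← hk, map_mul, map_mul, map_inv]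
      calc ψ (c3, 1) = g⁻¹ * (g * ψ (c3, 1) * g⁻¹) * g := by group
        _ = g⁻¹ * (ψ k * ψ (c3, d5) * (ψ k)⁻¹) * g := by rw [e1]
        _ = u * ψ (c3, d5) * u⁻¹ := by rw [hu]; group
    have hmem : ∀ p : Perm (Fin 5), u⁻¹ * A ψ p * u ∈ centralizer ({ψ (c3, d5)} : Set G) := by
      intro p
      rw [Subgroup.mem_centralizer_singleton_iff]
      have e2 : A ψ p * ψ (c3, 1) = ψ (c3, 1) * A ψ p := by
        rw [A_apply, ← map_mul, ← map_mul]
        simp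
      rw [hzy] at e2
      calc u⁻¹ * A ψ p * u * ψ (c3, d5) = u⁻¹ * (A ψ p * (u * ψ (c3, d5) * u⁻¹)) * u := by group
        _ = u⁻¹ * (u * ψ (c3, d5) * u⁻¹ * A ψ p) * u := by rw [e2]
        _ = _ := by group
    have hle := Nat.card_le_card_of_injective
      (fun p : Perm (Fin 5) => (⟨u⁻¹ * A ψ p * u, hmem p⟩ : centralizer ({ψ (c3, d5)} : Set G)))
      (by
        intro p q hpq
        apply A_inj h
        have := congrArg Subtype.val hpq
        simpa using this)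
    rw [h.cy, Nat.card_eq_fintype_card, Fintype.card_perm, Fintype.card_fin] at hle
    revert hle; decide
  have hnz : n * (ψ (c3, 1)) * n⁻¹ = ψ (1, d5) := h.n1
  have hcase : ∀ (ε : Perm (Fin 3)) (δ : Perm (Fin 5)), (∃ k : PP, k * (c3, d5) * k⁻¹ = (ε, δ)) →
      a = ε → b = δ → False := by
    rintro ε δ ⟨k, hk⟩ rfl rfl
    exact key k hk
  rcases c3_cases a ha with ha | ha | ha <;> rcases d5_cases b hb with hb | hb | hb
  · exact (hc3 (by rw [ha, hb]; exact map_one ψ)).elim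
  · right
    have : n⁻¹ * g ∈ normalizer (zpowers (ψ (c3, 1)) : Set G) := by
      apply mem_norm_of
      left
      rw [ha, hb] at hab
      calc n⁻¹ * g * ψ (c3, 1) * (n⁻¹ * g)⁻¹ = n⁻¹ * (g * ψ (c3, 1) * g⁻¹) * n := by group
        _ = n⁻¹ * (n * (ψ (c3, 1)) * n⁻¹) * n := by rw [← hab, hnz]
        _ = _ := by group
    obtain ⟨k, hk⟩ := h.rng _ this
    exact ⟨k, by rw [hk]; group⟩
  · right
    have : n⁻¹ * g ∈ normalizer (zpowers (ψ (c3, 1)) : Set G) := by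
      apply mem_norm_of
      right
      rw [ha, hb] at hab
      have e : ψ (1, d5⁻¹) = (ψ (1, d5))⁻¹ := by
        rw [← map_inv]; congr 1
      calc n⁻¹ * g * ψ (c3, 1) * (n⁻¹ * g)⁻¹ = n⁻¹ * (g * ψ (c3, 1) * g⁻¹) * n := by group
        _ = n⁻¹ * (n * (ψ (c3, 1)) * n⁻¹)⁻¹ * n := by rw [← hab, hnz, e]
        _ = _ := by group
    obtain ⟨k, hk⟩ := h.rng _ this
    exact ⟨k, by rw [hk]; group⟩
  · left
    apply h.rng
    apply mem_norm_of
    left
    rw [← hab, ha, hb]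
  · exact (hcase c3 d5 ⟨1, by simp⟩ ha hb).elim
  · refine (hcase c3 d5⁻¹ ⟨(1, swap 1 2), ?_⟩ ha hb).elim
    decide +kernel
  · left
    apply h.rng
    apply mem_norm_of
    right
    rw [← hab, ha, hb, ← map_inv]
    congr 1
  · refine (hcase c3⁻¹ d5 ⟨(swap 0 1, 1), ?_⟩ ha hb).elim
    decide +kernel
  · refine (hcase c3⁻¹ d5⁻¹ ⟨(swap 0 1, swap 1 2), ?_⟩ ha hb).elim
    decide +kernel

theorem t2 {G : Type*} [Group G] [Finite G] {ψ : PP →* G} {n : G} (h : TD ψ n) (hN : ∀ g : G, g * ψ (1, t5) = ψ (1, t5) * g → g ∈ normalizer (DD ψ : Set G)) (hc : ∀ a b : Perm (Fin 5), Perm.sign a = 1 → Perm.sign b = 1 → ψ (1, a) * (n * ψ (1, b) * n⁻¹) = (n * ψ (1, b) * n⁻¹) * ψ (1, a)) : ∃ Φ : EE →* G, Function.Injective Φ ∧ n ∉ Φ.range ∧ (∀ (a b : Perm (Fin 5)) (h : Perm.sign a = Perm.sign b), n * Φ (mkE a b h) * n⁻¹ = Φ (mkE b a h.symm)) ∧ (∀ (a : Perm (Fin 5)) (ha : Perm.sign a = Perm.sign (1 : Perm (Fin 5))), Φ (mkE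 a 1 ha) = ψ (1, a)) ∧ Φ tE = ψ (1, t5) ∧ (∀ g : G, g * Φ tE = Φ tE * g → g ∈ Φ.range ∨ g * n ∈ Φ.range) ∧ ∀ g : G, g * ψ (1, d5) = ψ (1, d5) * g → g ∈ Φ.range := by
  have htE : Phi h hc tE = ψ (1, t5) := by
    show A ψ t5 * B ψ n (sg t5 * t5) = A ψ t5
    rw [sg_odd sign_t5, t5_sq, map_one, mul_one]
  have hconj : ∀ x : G, x ∈ (Phi h hc).range → n * x * n⁻¹ ∈ (Phi h hc).range := by
    rintro x ⟨⟨⟨σ, τ⟩, hx⟩, rfl⟩
    exact ⟨_, (n_conj h hc σ τ hx).symm⟩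
  refine ⟨Phi h hc, Phi_inj h hc, n_not h hc, n_conj h hc, ?_, htE, ?_, ?_⟩
  · intro a ha
    have ha' : Perm.sign a = 1 := by rw [ha]; exact Perm.sign_one
    rw [Phi_mkE, sg_even ha', one_mul, map_one, mul_one, A_apply]
  · intro g hg
    rw [htE] at hg
    rcases norm_D h (hN g hg) with ⟨k, hk⟩ | ⟨k, hk⟩
    · left; rw [← hk]; exact psi_range h hc k
    · right
      have := hconj _ (psi_range h hc k)
      rw [inv_n h] at this
      rw [← hk]; exact this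
  · intro g hg
    have e1 : n⁻¹ * g * n ∈ normalizer (zpowers (ψ (c3, 1)) : Set G) := by
      apply mem_norm_of
      left
      have hn2 : ψ (c3, 1) = n⁻¹ * ψ (1, d5) * n := by
        rw [← h.n1]; group
      rw [hn2]
      calc n⁻¹ * g * n * (n⁻¹ * ψ (1, d5) * n) * (n⁻¹ * g * n)⁻¹
          = n⁻¹ * (g * ψ (1, d5)) * g⁻¹ * n := by group
        _ = n⁻¹ * (ψ (1, d5) * g) * g⁻¹ * n := by rw [hg]
        _ = _ := by group
    obtain ⟨k, hk⟩ := h.rng _ e1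
    have e2 : g = n * ψ k * n⁻¹ := by rw [hk]; group
    rw [e2]
    exact hconj _ (psi_range h hc k)

end

end H46.RT2
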