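import Mathlib
import Cfsg.Agent.Lib.H46.TypeCnt
import Cfsg.Agent.Lib.H17.OrthTrans2

/-! Element orders of the split extension of the natural module by the commutator subgroup of an orthogonal group. -/

set_option autoImplicit false

namespace H46.SemiOrd

open Module QuadraticMap H17.OrthAbs H46.SForm H46.SForm.SForm H46.ProdUnit H17.SpecPO H46.TypeCnt H46.ThetaSp H48.QuadStd

section semi
variable {F : Type*} [Field F] {V : Type*} [AddCommGroup V] [Module F V] {G : Type*} [Group G] (ρ : G →* LinearMap.GeneralLinearGroup F V)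

/-- the action -/
abbrev act : G →* MulAut (Multiplicative V) :=
  (MulAutMultiplicative V).symm.toMonoidHom.comp ((DistribMulAction.toAddAut (LinearMap.GeneralLinearGroup F V) V).comp ρ)

theorem act_apply (g : G) (a : V) : act ρ g (Multiplicative.ofAdd a) = Multiplicative.ofAdd ((ρ g : Module.End F V) a) := rfl

theorem pow_right (x : Multiplicative V ⋊[act ρ] G) (k : ℕ) : (x ^ k).right = x.right ^ k :=
  map_pow (SemidirectProduct.rightHom (φ := act ρ)) x k

theorem pow_left (a : V) (g : G) (k : ℕ) : ((⟨Multiplicative.ofAdd a, g⟩ : Multiplicative V ⋊[act ρ] G) ^ k).left =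
    Multiplicative.ofAdd (∑ i ∈ Finset.range k, ((ρ g : Module.End F V) ^ i) a) := by
  induction k with
  | zero => rfl
  | succ k ih =>
    rw [pow_succ, SemidirectProduct.mul_left, ih, pow_right, Finset.sum_range_succ, ofAdd_add]
    congr 1
    rw [act_apply, map_pow, Units.val_pow_eq_pow_val]

theorem range_orderOf [Finite G] (p : ℕ) [Fact p.Prime] [CharP F p] :
    Set.range (orderOf : (Multiplicative V ⋊[act ρ] G) → ℕ) =
      {N | ∃ g : G, N = orderOf g ∨ (N = p * orderOf g ∧ ∃ a : V, ∑ i ∈ Finset.range (orderOf g), ((ρ g : Module.End F V) ^ i) a ≠ 0)} := by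
  have hp : p.Prime := Fact.out
  -- the order of an element
  have key : ∀ (a : V) (g : G), (∑ i ∈ Finset.range (orderOf g), ((ρ g : Module.End F V) ^ i) a = 0 → orderOf (⟨Multiplicative.ofAdd a, g⟩ : Multiplicative V ⋊[act ρ] G) = orderOf g) ∧
      (∑ i ∈ Finset.range (orderOf g), ((ρ g : Module.End F V) ^ i) a ≠ 0 → orderOf (⟨Multiplicative.ofAdd a, g⟩ : Multiplicative V ⋊[act ρ] G) = p * orderOf g) := by
    intro a g
    set x : Multiplicative V ⋊[act ρ] G := ⟨Multiplicative.ofAdd a, g⟩ with hx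
    have h1 : x ^ orderOf g = ⟨Multiplicative.ofAdd (∑ i ∈ Finset.range (orderOf g), ((ρ g : Module.End F V) ^ i) a), 1⟩ := by
      apply SemidirectProduct.ext
      · rw [hx, pow_left]
      · rw [pow_right]
        exact pow_orderOf_eq_one g
    have h2 : orderOf g ∣ orderOf x := orderOf_map_dvd (SemidirectProduct.rightHom (φ := act ρ)) x
    have hg0 : orderOf g ≠ 0 := (orderOf_pos g).ne'
    constructor
    · intro h
      apply Nat.dvd_antisymm _ h2
      apply orderOf_dvd_of_pow_eq_one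
      rw [h1, h]
      rfl
    · intro h
      have h3 : orderOf (x ^ orderOf g) = p := by
        apply orderOf_eq_prime
        · rw [h1]
          apply SemidirectProduct.ext
          · rw [pow_left]
            have h4 : ∀ i ∈ Finset.range p, ((ρ (1 : G) : Module.End F V) ^ i) (∑ i ∈ Finset.range (orderOf g), ((ρ g : Module.End F V) ^ i) a) = ∑ i ∈ Finset.range (orderOf g), ((ρ g : Module.End F V) ^ i) a := by
              intro i _
              rw [map_one, Units.val_one, one_pow, Module.End.one_apply]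
            rw [Finset.sum_congr rfl h4, Finset.sum_const, Finset.card_range, ← Nat.cast_smul_eq_nsmul F, CharP.cast_eq_zero, zero_smul]
            rfl
          · rw [pow_right]
            exact one_pow p
        · rw [h1]
          intro h4
          have h5 := congrArg SemidirectProduct.left h4
          exact h (Multiplicative.ofAdd.injective h5)
      have h4 := orderOf_pow_of_dvd hg0 h2
      rw [h3] at h4
      rw [h4, Nat.div_mul_cancel h2]
  ext N
  constructor
  · rintro ⟨x, rfl⟩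
    obtain ⟨a, g⟩ := x
    refine ⟨g, ?_⟩
    by_cases h : ∑ i ∈ Finset.range (orderOf g), ((ρ g : Module.End F V) ^ i) (Multiplicative.toAdd a) = 0
    · left
      exact (key (Multiplicative.toAdd a) g).1 h
    · right
      exact ⟨(key (Multiplicative.toAdd a) g).2 h, _, h⟩
  · rintro ⟨g, h | ⟨h, a, ha⟩⟩
    · refine ⟨⟨Multiplicative.ofAdd 0, g⟩, ?_⟩
      rw [h]
      apply (key 0 g).1
      simp
    · exact ⟨⟨Multiplicative.ofAdd a, g⟩, by rw [h]; exact (key a g).2 ha⟩

end semi

section mat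
variable {ι : Type} [Fintype ι] [DecidableEq ι] {F : Type*} [Field F]

/-- the natural representation -/
noncomputable abbrev rep (Q : (ι → F) → F) : ↥(Cfsg.Omega F Q) →* LinearMap.GeneralLinearGroup F (ι → F) :=
  Matrix.GeneralLinearGroup.toLin.toMonoidHom.comp ((Cfsg.isometryGroup F Q).subtype.comp (Cfsg.Omega F Q).subtype)

theorem rep_inj (Q : (ι → F) → F) : Function.Injective (rep Q) := by
  intro g h hgh
  apply Subtype.ext
  apply Subtype.ext
  exact Matrix.GeneralLinearGroup.toLin.injective hgh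

theorem ev_equiv (Q : QuadraticForm F (ι → F)) (g : ↥(Cfsg.isometryGroup F (⇑Q))) :
    ev Q (H17.OrthTrans.equiv Q g) = Matrix.GeneralLinearGroup.toLin (g : Matrix.GeneralLinearGroup ι F) := by
  apply Units.ext
  apply LinearMap.ext
  intro v
  rw [ev_apply, H17.OrthTrans.equiv_apply]
  rfl

theorem rep_mem {f : SForm F (ι → F) (RingHom.id F)} {Q : QuadraticForm F (ι → F)} (hQ : Qof f = Q) (g : ↥(Cfsg.Omega F (⇑Q))) : rep _ g ∈ Om f := by
  subst hQ
  refine ⟨H17.OrthTrans.equiv (Qof f) g.1, ?_, ev_equiv _ _⟩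
  exact (H17.OrthTrans2.mem_commutator_equiv _ _).mpr g.2

theorem exists_rep {f : SForm F (ι → F) (RingHom.id F)} {Q : QuadraticForm F (ι → F)} (hQ : Qof f = Q) {u : (Module.End F (ι → F))ˣ} (hu : u ∈ Om f) :
    ∃ g : ↥(Cfsg.Omega F (⇑Q)), rep _ g = u := by
  subst hQ
  obtain ⟨z, hz, rfl⟩ := hu
  refine ⟨⟨(H17.OrthTrans.equiv (Qof f)).symm z, ?_⟩, ?_⟩
  · have := (H17.OrthTrans2.mem_commutator_equiv (H17.OrthTrans.equiv (Qof f)) ((H17.OrthTrans.equiv (Qof f)).symm z)).mp
    rw [MulEquiv.apply_symm_apply] at this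
    exact this hz
  · show Matrix.GeneralLinearGroup.toLin (((H17.OrthTrans.equiv (Qof f)).symm z : ↥(Cfsg.isometryGroup F (⇑(Qof f)))) : Matrix.GeneralLinearGroup ι F) = _
    rw [← ev_equiv, MulEquiv.apply_symm_apply]

end mat

/-- orders through a symmetric bilinear space -/
def OrS {F : Type*} [Field F] (p : ℕ) {V : Type*} [AddCommGroup V] [Module F V] (f : SForm F V (RingHom.id F)) : Set ℕ :=
  {N | ∃ u ∈ Om f, N = orderOf u ∨ (N = p * orderOf u ∧ ∃ a : V, ∑ i ∈ Finset.range (orderOf u), ((u : Module.End F V) ^ i) a ≠ 0)}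

theorem range_eq {ι : Type} [Fintype ι] [DecidableEq ι] {F : Type*} [Field F] [Finite F] (p : ℕ) [Fact p.Prime] [CharP F p]
    {f : SForm F (ι → F) (RingHom.id F)} {Q : QuadraticForm F (ι → F)} (hQ : Qof f = Q) :
    Set.range (orderOf : (Multiplicative (ι → F) ⋊[act (rep (⇑Q))] ↥(Cfsg.Omega F (⇑Q))) → ℕ) = OrS p f := by
  haveI : Finite ↥(Cfsg.isometryGroup F (⇑Q)) := Subtype.finite
  haveI : Finite ↥(Cfsg.Omega F (⇑Q)) := Subtype.finite
  rw [range_orderOf (rep (⇑Q)) p]
  ext N
  constructor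
  · rintro ⟨g, h⟩
    refine ⟨rep _ g, rep_mem hQ g, ?_⟩
    rw [orderOf_injective _ (rep_inj _)]
    exact h
  · rintro ⟨u, hu, h⟩
    obtain ⟨g, rfl⟩ := exists_rep hQ hu
    rw [orderOf_injective _ (rep_inj _)] at h
    exact ⟨g, h⟩

/-- transport -/
theorem OrS_tr {F : Type*} [Field F] [Finite F] (h2 : (2 : F) ≠ 0) (p : ℕ) {V V' : Type*} [AddCommGroup V] [Module F V] [FiniteDimensional F V] [AddCommGroup V'] [Module F V'] [FiniteDimensional F V']
    {f : SForm F V (RingHom.id F)} {f' : SForm F V' (RingHom.id F)} (hs : f.Sym 1) (hn : f.ND) (hs' : f'.Sym 1) (hn' : f'.ND) (hd : 2 ≤ finrank F V) (e : V ≃ₗ[F] V')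
    (he : ∀ v w, f'.B (e v) (e w) = f.B v w) : OrS p f ⊆ OrS p f' := by
  haveI : Finite V := Module.finite_of_finite F
  haveI : Finite V' := Module.finite_of_finite F
  rintro N ⟨u, hu, h⟩
  let u' : (Module.End F V')ˣ := Units.map ((e.conjAlgEquiv F : Module.End F V →* Module.End F V')) u
  have hu' : ∀ v, (u' : Module.End F V') (e v) = e ((u : Module.End F V) v) := by
    intro v
    show e ((u : Module.End F V) (e.symm (e v))) = _
    rw [e.symm_apply_apply]
  have hui := isom_of_mem h2 hs hu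
  have hord : orderOf u' = orderOf u := by
    apply orderOf_injective
    exact Units.map_injective (e.conjAlgEquiv F).injective
  have hi : f'.Isom u' := (th_tr e he hui hu' 1).1
  refine ⟨u', ?_, ?_⟩
  · rw [mem_iff h2 hs' hn' (by rw [← e.finrank_eq]; exact hd) hi]
    intro c hc
    rw [(th_tr e he hui hu' c).2]
    exact (mem_iff h2 hs hn hd hui).mp hu c hc
  · rw [hord]
    rcases h with h | ⟨h, a, ha⟩
    · exact Or.inl h
    · right
      refine ⟨h, e a, ?_⟩
      have hpow : ∀ i : ℕ, ((u' : Module.End F V') ^ i) (e a) = e (((u : Module.End F V) ^ i) a) := by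
        intro i
        induction i with
        | zero => rfl
        | succ i ih =>
          rw [pow_succ', pow_succ', Module.End.mul_apply, Module.End.mul_apply, ih, hu']
      rw [Finset.sum_congr rfl fun i _ => hpow i, ← map_sum]
      intro h0
      exact ha (e.injective (by rw [h0, map_zero]))

/-- the standard form of minus type -/
noncomputable def stdM (m : ℕ) (F : Type*) [Field F] (a b : F) : SForm F ((Fin m ⊕ Fin m) ⊕ Fin 2 → F) (RingHom.id F) where
  B v w := (2 : F)⁻¹ * polar (⇑(qMinus m F a b)) v w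
  add_left u v w := by rw [QuadraticMap.polar_add_left, mul_add]
  add_right u v w := by rw [QuadraticMap.polar_add_right, mul_add]
  smul_left c v w := by rw [QuadraticMap.polar_smul_left, smul_eq_mul]; ring
  smul_right c v w := by rw [QuadraticMap.polar_smul_right, smul_eq_mul, RingHom.id_apply]; ring

section std
variable {F : Type*} [Field F] (m : ℕ) {a b : F}

theorem stdM_sym : (stdM m F a b).Sym 1 := by
  intro v w
  rw [RingHom.id_apply, one_mul]
  exact congrArg (fun x => (2 : F)⁻¹ * x) (QuadraticMap.polar_comm _ _ _)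

theorem stdM_nd [Finite F] (h2 : (2 : F) ≠ 0) (hab : ∀ z₁ z₂ : F, z₁ ^ 2 + a * z₁ * z₂ + b * z₂ ^ 2 = 0 → z₁ = 0 ∧ z₂ = 0) : (stdM m F a b).ND := by
  intro v hv
  apply nd_qMinus m (disc_ne_zero hab) v
  intro w
  have := hv w
  exact (mul_eq_zero.mp this).resolve_left (inv_ne_zero h2)

theorem Qof_stdM (h2 : (2 : F) ≠ 0) : Qof (stdM m F a b) = qMinus m F a b := by
  ext v
  rw [Qof_apply]
  change (2 : F)⁻¹ * polar (⇑(qMinus m F a b)) v v = _
  rw [QuadraticMap.polar_self, nsmul_eq_mul, Nat.cast_ofNat, inv_mul_cancel_left₀ h2]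

theorem finrank_stdM : finrank F ((Fin m ⊕ Fin m) ⊕ Fin 2 → F) = 2 * (m + 1) := by
  rw [Module.finrank_fintype_fun_eq_card, Fintype.card_sum, Fintype.card_sum, Fintype.card_fin, Fintype.card_fin]; omega

theorem stdM_not_pl [Finite F] (h2 : (2 : F) ≠ 0) (hab : ∀ z₁ z₂ : F, z₁ ^ 2 + a * z₁ * z₂ + b * z₂ ^ 2 = 0 → z₁ = 0 ∧ z₂ = 0) : ¬ Pl (stdM m F a b) (m + 1) := by
  intro h
  have h1 := cnt_pl h2 (stdM_sym m) (stdM_nd m h2 hab) (finrank_stdM m) h (one_ne_zero (α := F))
  have h3 := H17.OrthNegOne.cnt_minus_ne m (show H7.AnisoPlane.Aniso a b from hab) 1 one_ne_zero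
  unfold H7.HypStd.cnt at h3
  rw [Qof_stdM m h2, h3] at h1
  have : 0 < Nat.card F ^ m := pow_pos Nat.card_pos _
  omega

end std

/-- orders from any space of minus type -/
theorem mem_std {F : Type*} [Field F] [Finite F] (h2 : (2 : F) ≠ 0) (p : ℕ) (m : ℕ) {a b : F} (hab : ∀ z₁ z₂ : F, z₁ ^ 2 + a * z₁ * z₂ + b * z₂ ^ 2 = 0 → z₁ = 0 ∧ z₂ = 0)
    {V : Type*} [AddCommGroup V] [Module F V] [FiniteDimensional F V] {f : SForm F V (RingHom.id F)} (hs : f.Sym 1) (hn : f.ND) (hd : finrank F V = 2 * (m + 1)) (hpl : ¬ Pl f (m + 1)) :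
    OrS p f ⊆ OrS p (stdM m F a b) := by
  have h1 := stdM_not_pl m h2 hab
  let e₀ : V ≃ₗ[F] ((Fin m ⊕ Fin m) ⊕ Fin 2 → F) := LinearEquiv.ofFinrankEq _ _ (by rw [hd, finrank_stdM])
  let g : LinearMap.BilinForm F V := H46.IsoCount.tp (H46.OrdPSp.toBilin (stdM m F a b)) e₀.symm
  have hg : ∀ u v, g u v = H46.OrdPSp.toBilin (stdM m F a b) (e₀ u) (e₀ v) := fun u v => rfl
  have hsq : H46.BlockCongr.Sq g ↔ H46.BlockCongr.Sq (H46.OrdPSp.toBilin (stdM m F a b)) :=
    (H46.SqForm.sq_congr e₀ (fun u v => (hg u v).symm)).symm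
  have hgn : H49.FormConj2.NDB g := by
    intro x hx
    have h1 : e₀ x = 0 := by
      apply ndb_toBilin (stdM_nd m h2 hab)
      intro y
      have := hx (e₀.symm y)
      rw [hg, e₀.apply_symm_apply] at this
      exact this
    exact e₀.injective (by rw [h1, map_zero])
  obtain ⟨y, hy⟩ := H46.SqForm.equiv_of_sq h2 (f := g) (f' := H46.OrdPSp.toBilin f) (fun u v => by rw [hg, hg, sym_toBilin (stdM_sym m)]) hgn (sym_toBilin hs) (ndb_toBilin hn) (by
    rw [hsq]
    unfold Pl at h1 hpl
    tauto)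
  exact OrS_tr h2 p hs hn (stdM_sym m) (stdM_nd m h2 hab) (by omega) (y.trans e₀) (fun v w => hy v w)

end H46.SemiOrd
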