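import Cfsg.Agent.Lib.H46.Gauss

/-! Sourour's factorisation: a nonscalar element of `SL(n,F)` is a product of conjugates of any two diagonal matrices with
distinct entries and determinant one. -/

set_option autoImplicit false

namespace H46.Sourour

open Matrix Module H46.Gauss

variable {F : Type*} [Field F]

/-- a matrix with `n` distinct given eigenvalues is diagonalisable -/
theorem diagonalize {ι : Type*} [Fintype ι] [DecidableEq ι] (M : Matrix ι ι F) (d : ι → F) (hd : Function.Injective d)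
    (h : ∀ i, (d i • (1 : Matrix ι ι F) - M).det = 0) :
    ∃ Q : Matrix ι ι F, IsUnit Q.det ∧ M * Q = Q * Matrix.diagonal d := by
  have hv : ∀ i, ∃ v : ι → F, v ≠ 0 ∧ (d i • (1 : Matrix ι ι F) - M) *ᵥ v = 0 := fun i =>
    Matrix.exists_mulVec_eq_zero_iff.mpr (h i)
  choose v hv0 hv using hv
  have hMv : ∀ i, M *ᵥ v i = d i • v i := by
    intro i
    have := hv i
    rw [Matrix.sub_mulVec, Matrix.smul_mulVec, Matrix.one_mulVec, sub_eq_zero] at this
    exact this.symm
  have hli : LinearIndependent F v := by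
    apply Module.End.eigenvectors_linearIndependent' (Matrix.toLin' M) d hd v
    intro i
    rw [Module.End.hasEigenvector_iff, Module.End.mem_eigenspace_iff, Matrix.toLin'_apply]
    exact ⟨hMv i, hv0 i⟩
  let Q : Matrix ι ι F := Matrix.of fun i j => v j i
  have hcol : Q.col = v := by
    funext j i
    rfl
  refine ⟨Q, ?_, ?_⟩
  · rw [← Matrix.isUnit_iff_isUnit_det, ← Matrix.linearIndependent_cols_iff_isUnit, hcol]
    exact hli
  · ext i j
    rw [Matrix.mul_diagonal]
    have := congrFun (hMv j) i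
    simp only [Matrix.mulVec, dotProduct, Pi.smul_apply, smul_eq_mul] at this
    rw [Matrix.mul_apply]
    simp only [Q, Matrix.of_apply]
    rw [this, mul_comm]

/-- from GL-conjugacy with a diagonal matrix to SL-conjugacy -/
theorem sl_conj {ι : Type*} [Fintype ι] [DecidableEq ι] [Nonempty ι] (M : Matrix.SpecialLinearGroup ι F) (D : Matrix.SpecialLinearGroup ι F)
    (d : ι → F) (hD : (D : Matrix ι ι F) = Matrix.diagonal d)
    (Q : Matrix ι ι F) (hQ : IsUnit Q.det) (h : (M : Matrix ι ι F) * Q = Q * Matrix.diagonal d) :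
    ∃ P : Matrix.SpecialLinearGroup ι F, M = P * D * P⁻¹ := by
  obtain ⟨i₀⟩ := ‹Nonempty ι›
  let E : Matrix ι ι F := Matrix.diagonal (Function.update 1 i₀ (Q.det)⁻¹)
  have hE : E.det = (Q.det)⁻¹ := by
    rw [Matrix.det_diagonal, Finset.prod_update_of_mem (Finset.mem_univ i₀)]
    simp
  have hdet : (Q * E).det = 1 := by
    rw [Matrix.det_mul, hE, mul_inv_cancel₀ hQ.ne_zero]
  let P : Matrix.SpecialLinearGroup ι F := ⟨Q * E, hdet⟩
  have hP : (P : Matrix ι ι F) = Q * E := rfl
  refine ⟨P, ?_⟩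
  rw [eq_mul_inv_iff_mul_eq]
  apply Subtype.ext
  rw [Matrix.SpecialLinearGroup.coe_mul, Matrix.SpecialLinearGroup.coe_mul, hD, hP, ← mul_assoc, h, mul_assoc, mul_assoc]
  congr 1
  rw [Matrix.diagonal_mul_diagonal, Matrix.diagonal_mul_diagonal]
  congr 1
  funext i
  rw [mul_comm]

/-- Sourour's theorem in `SL` with distinct prescribed eigenvalues -/
theorem sourour {n : ℕ} (A : Matrix.SpecialLinearGroup (Fin (n + 1)) F)
    (hA : ∀ c : F, (A : Matrix (Fin (n + 1)) (Fin (n + 1)) F) ≠ c • (1 : Matrix _ _ F))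
    (D E : Matrix.SpecialLinearGroup (Fin (n + 1)) F) (d e : Fin (n + 1) → F)
    (hD : (D : Matrix (Fin (n + 1)) (Fin (n + 1)) F) = Matrix.diagonal d) (hE : (E : Matrix (Fin (n + 1)) (Fin (n + 1)) F) = Matrix.diagonal e)
    (hd : Function.Injective d) (he : Function.Injective e) :
    ∃ P Q : Matrix.SpecialLinearGroup (Fin (n + 1)) F, A = (P * D * P⁻¹) * (Q * E * Q⁻¹) := by
  have hdp : ∏ i, d i = 1 := by
    have := D.2
    rwa [hD, Matrix.det_diagonal] at this
  have hep : ∏ i, e i = 1 := by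
    have := E.2
    rwa [hE, Matrix.det_diagonal] at this
  obtain ⟨P, hP, L, U, hL, hU, h⟩ := gauss n (A : Matrix (Fin (n + 1)) (Fin (n + 1)) F) (by rw [A.2]; exact one_ne_zero)
    (Or.inr hA) (fun i => d i * e i) (by rw [Finset.prod_mul_distrib, hdp, hep, A.2, one_mul])
  have hPP : P * P⁻¹ = 1 := Matrix.mul_nonsing_inv P hP
  have hPP' : P⁻¹ * P = 1 := Matrix.nonsing_inv_mul P hP
  have hLl : L.IsLowerTriangular := by
    intro i j hij
    exact hL.2 i j hij
  have hUu : U.IsUpperTriangular := by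
    intro i j hij
    exact hU.2 i j hij
  have hLdet : L.det = 1 := by
    rw [Matrix.det_of_lowerTriangular L hLl]
    exact Finset.prod_eq_one (fun i _ => hL.1 i)
  have hUdet : U.det = 1 := by
    rw [Matrix.det_of_upperTriangular hUu]
    exact Finset.prod_eq_one (fun i _ => hU.1 i)
  -- B = P L diag(d) P⁻¹, C = P diag(e) U P⁻¹
  have hBdet : (P * (L * Matrix.diagonal d) * P⁻¹).det = 1 := by
    rw [Matrix.det_mul, Matrix.det_mul, mul_right_comm, ← Matrix.det_mul, hPP, Matrix.det_one, one_mul, Matrix.det_mul, hLdet,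
      Matrix.det_diagonal, hdp, one_mul]
  have hCdet : (P * (Matrix.diagonal e * U) * P⁻¹).det = 1 := by
    rw [Matrix.det_mul, Matrix.det_mul, mul_right_comm, ← Matrix.det_mul, hPP, Matrix.det_one, one_mul, Matrix.det_mul, hUdet,
      Matrix.det_diagonal, hep, one_mul]
  let B : Matrix.SpecialLinearGroup (Fin (n + 1)) F := ⟨P * (L * Matrix.diagonal d) * P⁻¹, hBdet⟩
  let C : Matrix.SpecialLinearGroup (Fin (n + 1)) F := ⟨P * (Matrix.diagonal e * U) * P⁻¹, hCdet⟩
  have hABC : A = B * C := by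
    apply Subtype.ext
    rw [Matrix.SpecialLinearGroup.coe_mul]
    change (A : Matrix (Fin (n + 1)) (Fin (n + 1)) F) = (P * (L * Matrix.diagonal d) * P⁻¹) * (P * (Matrix.diagonal e * U) * P⁻¹)
    have h1 : (A : Matrix (Fin (n + 1)) (Fin (n + 1)) F) = P * (L * Matrix.diagonal (fun i => d i * e i) * U) * P⁻¹ := by
      rw [← h, mul_assoc, hPP, mul_one]
    rw [h1, ← Matrix.diagonal_mul_diagonal]
    simp only [mul_assoc]
    rw [← mul_assoc P⁻¹ P, hPP', one_mul]
  -- diagonalise B and C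
  obtain ⟨Q₁, hQ₁, hQ₁'⟩ := diagonalize (L * Matrix.diagonal d) d hd (by
    intro i
    have hlow : (d i • (1 : Matrix (Fin (n + 1)) (Fin (n + 1)) F) - L * Matrix.diagonal d).IsLowerTriangular := by
      intro j k hjk
      have hjk' : j < k := hjk
      simp [Matrix.one_apply, hjk'.ne, Matrix.mul_diagonal, hL.2 j k hjk']
    rw [Matrix.det_of_lowerTriangular _ hlow]
    apply Finset.prod_eq_zero (Finset.mem_univ i)
    simp [Matrix.mul_diagonal, hL.1 i])
  obtain ⟨Q₂, hQ₂, hQ₂'⟩ := diagonalize (Matrix.diagonal e * U) e he (by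
    intro i
    have hup : (e i • (1 : Matrix (Fin (n + 1)) (Fin (n + 1)) F) - Matrix.diagonal e * U).IsUpperTriangular := by
      intro j k hjk
      have hjk' : k < j := hjk
      simp [Matrix.one_apply, hjk'.ne', Matrix.diagonal_mul, hU.2 j k hjk']
    rw [Matrix.det_of_upperTriangular hup]
    apply Finset.prod_eq_zero (Finset.mem_univ i)
    simp [Matrix.diagonal_mul, hU.1 i])
  obtain ⟨R₁, hR₁⟩ := sl_conj B D d hD (P * Q₁) (by rw [Matrix.det_mul]; exact hP.mul hQ₁) (by
    change (P * (L * Matrix.diagonal d) * P⁻¹) * (P * Q₁) = _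
    rw [mul_assoc, ← mul_assoc P⁻¹, hPP', one_mul, mul_assoc P, hQ₁', ← mul_assoc])
  obtain ⟨R₂, hR₂⟩ := sl_conj C E e hE (P * Q₂) (by rw [Matrix.det_mul]; exact hP.mul hQ₂) (by
    change (P * (Matrix.diagonal e * U) * P⁻¹) * (P * Q₂) = _
    rw [mul_assoc, ← mul_assoc P⁻¹, hPP', one_mul, mul_assoc P, hQ₂', ← mul_assoc])
  exact ⟨R₁, R₂, by rw [hABC, hR₁, hR₂]⟩

end H46.Sourour
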