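import Mathlib
import Cfsg.Agent.Lib.H46.TypeCnt
import Cfsg.Agent.Lib.H46.SpModels

/-! Cyclic tori of orthogonal groups generated by isometries of spinor norm `-1`. -/

set_option autoImplicit false

namespace H46.TorusOrth

open Module QuadraticMap H46.SForm H46.SForm.SForm H46.ProdUnit H17.SpecPO H46.TypeCnt H46.ThetaSp H46.SpModels H46.ExtElt

theorem sign_eq' {α : Type*} [Fintype α] [DecidableEq α] (σ : Equiv.Perm α) (N : ℕ)
    (hpow : σ ^ N = 1) (hfree : ∀ x, σ x ≠ x → ∀ k : ℕ, (σ ^ k) x = x → N ∣ k) :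
    ∃ j, σ.support.card = N * j ∧ Equiv.Perm.sign σ = (-1) ^ (N * j + j) := by
  have h1 : ∀ n ∈ σ.cycleType, n = N := by
    intro n hn
    rw [Equiv.Perm.cycleType_def, Multiset.mem_map] at hn
    obtain ⟨c, hc, rfl⟩ := hn
    have hc' : c ∈ σ.cycleFactorsFinset := hc
    have hcyc := (Equiv.Perm.mem_cycleFactorsFinset_iff.mp hc').1
    obtain ⟨x, hx, -⟩ := hcyc
    have hxs : x ∈ c.support := Equiv.Perm.mem_support.mpr hx
    have hcx := (Equiv.Perm.mem_cycleFactorsFinset_iff.mp hc').2 x hxs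
    have hσx : σ x ≠ x := by rw [← hcx]; exact hx
    have hcσ : c = σ.cycleOf x := (Equiv.Perm.cycle_is_cycleOf hxs hc')
    have h2 : ∀ k : ℕ, (c ^ k) x = (σ ^ k) x := by
      intro k
      rw [hcσ, Equiv.Perm.cycleOf_pow_apply_self]
    have hord : orderOf c = c.support.card :=
      (Equiv.Perm.mem_cycleFactorsFinset_iff.mp hc').1.orderOf
    change c.support.card = N
    rw [← hord]
    apply Nat.dvd_antisymm
    · rw [orderOf_dvd_iff_pow_eq_one]
      apply ((Equiv.Perm.mem_cycleFactorsFinset_iff.mp hc').1.pow_eq_one_iff' (x := x) hx).mpr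
      rw [h2, hpow]
      rfl
    · apply hfree x hσx
      rw [← h2, pow_orderOf_eq_one]
      rfl
  have h3 : σ.cycleType = Multiset.replicate (Multiset.card σ.cycleType) N :=
    Multiset.eq_replicate_card.mpr h1
  have h4 : σ.cycleType.sum = N * Multiset.card σ.cycleType := by
    conv_lhs => rw [h3]
    rw [Multiset.sum_replicate, smul_eq_mul, mul_comm]
  refine ⟨Multiset.card σ.cycleType, ?_, ?_⟩
  · rw [← Equiv.Perm.sum_cycleType, h4]
  · rw [Equiv.Perm.sign_of_cycleType, h4]

section semi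
variable {F : Type*} [Field F] {V : Type*} [AddCommGroup V] [Module F V] [Finite V]

/-- sign and count for an isometry acting semiregularly on the nonsingular vectors -/
theorem semireg {f : SForm F V (RingHom.id F)} {u : (Module.End F V)ˣ} (hu : f.Isom u) (h1 : 1 < orderOf u)
    (hfree : ∀ v, f.B v v ≠ 0 → ∀ k : ℕ, ((u ^ k : (Module.End F V)ˣ) : Module.End F V) v = v → orderOf u ∣ k) {c : F} (hc : c ≠ 0) :
    ∃ j, Nat.card {v : V // Qof f v = c} = orderOf u * j ∧ th f c u = (-1) ^ (orderOf u * j + j) := by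
  classical
  letI := Fintype.ofFinite {x : V // Qof f x = c}
  set g := toO f u hu with hg
  set σ := H17.OrthTheta.permX (Qof f) c g with hσ
  have hth : th f c u = Equiv.Perm.sign σ := by
    rw [th_of c hu, H17.OrthTheta.theta]
    rfl
  have hσp : ∀ (k : ℕ) (x : {x : V // Qof f x = c}), ((σ ^ k) x).1 = ((u ^ k : (Module.End F V)ˣ) : Module.End F V) x.1 := by
    intro k
    induction k with
    | zero => intro x; rfl
    | succ k ih =>
      intro x
      rw [pow_succ, Equiv.Perm.mul_apply, ih, pow_succ, Units.val_mul, Module.End.mul_apply]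
      rfl
  have hfree' : ∀ x : {x : V // Qof f x = c}, ∀ k : ℕ, (σ ^ k) x = x → orderOf u ∣ k := by
    intro x k hk
    apply hfree x.1
    · rw [← Qof_apply, x.2]; exact hc
    · rw [← hσp, hk]
  obtain ⟨j, hj, hs⟩ := sign_eq' σ (orderOf u) (by
    ext x
    rw [hσp, pow_orderOf_eq_one]
    rfl) (fun x _ k hk => hfree' x k hk)
  refine ⟨j, ?_, by rw [hth, hs]⟩
  rw [← hj, Nat.card_eq_fintype_card, ← Finset.card_univ]
  congr 1
  symm
  rw [Finset.eq_univ_iff_forall]
  intro x
  rw [Equiv.Perm.mem_support]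
  intro hx
  have := hfree' x 1 (by rw [pow_one]; exact hx)
  have := Nat.le_of_dvd one_pos this
  omega

end semi

section models
variable {F : Type*} [Field F] [Finite F] (h2 : (2 : F) ≠ 0) (hodd : Odd (Nat.card F))

include hodd in
/-- from the semiregular action to the sign -/
theorem th_neg {V : Type*} [AddCommGroup V] [Module F V] [Finite V] {f : SForm F V (RingHom.id F)} {u : (Module.End F V)ˣ} (hu : f.Isom u) {D N : ℕ}
    (hN : orderOf u = N) (hN1 : 1 < N) (hNe : Even N)
    (hfree : ∀ v, f.B v v ≠ 0 → ∀ k : ℕ, ((u ^ k : (Module.End F V)ˣ) : Module.End F V) v = v → orderOf u ∣ k) {c : F} (hc : c ≠ 0)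
    (hcard : Nat.card {v : V // Qof f v = c} = N * Nat.card F ^ D) : th f c u = -1 := by
  obtain ⟨j, hj, hs⟩ := semireg hu (by rw [hN]; exact hN1) hfree hc
  rw [hcard, hN] at hj
  have h1 : j = Nat.card F ^ D := (Nat.eq_of_mul_eq_mul_left (by omega) hj).symm
  have h3 : Odd j := by rw [h1]; exact hodd.pow
  rw [hs, hN, pow_add, (hNe.mul_right j).neg_one_pow, h3.neg_one_pow, one_mul]

include h2 hodd in
/-- the torus of order `q^e + 1` -/
theorem torus_mi (D : ℕ) :
    ∃ (A : Type) (_ : AddCommGroup A) (_ : Module F A) (_ : FiniteDimensional F A) (_ : Finite A) (f : SForm F A (RingHom.id F)) (u : (Module.End F A)ˣ),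
      f.Sym 1 ∧ f.ND ∧ finrank F A = 2 * (D + 1) ∧ ¬ Pl f (D + 1) ∧ f.Isom u ∧ orderOf u = Nat.card F ^ (D + 1) + 1 ∧ ∀ c : F, c ≠ 0 → th f c u = -1 := by
  obtain ⟨A, _, _, _, hA, hcard⟩ := exists_field_ext F (2 * (D + 1)) (by omega)
  haveI : Module.Finite F A := Module.finite_of_finrank_pos (by omega)
  let τ := frobPow F A (D + 1)
  have hτ : ∀ x, τ x = x ^ (Nat.card F ^ (D + 1)) := frobPow_apply (D + 1)
  have hττ : ∀ x, τ (τ x) = x := by
    intro x
    rw [hτ, hτ, ← pow_mul, ← pow_add, ← two_mul, ← hA]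
    exact pow_card_finrank x
  let ℓ : A →ₗ[F] F := Algebra.trace F A
  have hℓ : ∀ x, ℓ (τ x) = ℓ x := fun x => Algebra.trace_eq_of_algEquiv τ x
  let f : SForm F A (RingHom.id F) := algForm (τ : A →+* A) (fun c => τ.commutes c) ℓ
  have hB : ∀ a b, f.B a b = ℓ (a * τ b) := fun a b => rfl
  have hs : f.Sym 1 := by
    intro v w
    rw [RingHom.id_apply, one_mul, hB, hB, ← hℓ (w * τ v), map_mul, hττ, mul_comm]
  have hn : f.ND := by
    intro a ha
    by_contra ha0
    obtain ⟨z, hz⟩ := Algebra.trace_surjective F A 1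
    have h1 : ℓ (a * τ (τ (z / a))) = 0 := ha (τ (z / a))
    rw [hττ, mul_div_cancel₀ _ ha0] at h1
    rw [show ℓ z = 1 from hz] at h1
    exact one_ne_zero h1
  obtain ⟨β, hβ⟩ := exists_unit_orderOf A (Nat.card F ^ (D + 1) + 1) (by
      rw [hcard]
      have : Nat.card F ^ (2 * (D + 1)) - 1 = (Nat.card F ^ (D + 1) + 1) * (Nat.card F ^ (D + 1) - 1) := by
        rw [mul_comm 2 (D + 1), pow_mul, ← Nat.sq_sub_sq, one_pow]
      rw [this]
      exact dvd_mul_right _ _)
  have hu : f.Isom (mulUnit F β) := by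
    apply isom_mulUnit
    show (β : A) * τ β = 1
    rw [hτ, ← pow_succ', ← Units.val_pow_eq_pow_val, ← hβ, pow_orderOf_eq_one]
    rfl
  have hord : orderOf (mulUnit F β) = Nat.card F ^ (D + 1) + 1 := by rw [orderOf_mulUnit, hβ]
  have hfree : ∀ v, f.B v v ≠ 0 → ∀ k : ℕ, ((mulUnit F β ^ k : (Module.End F A)ˣ) : Module.End F A) v = v → orderOf (mulUnit F β) ∣ k := by
    intro v hv k hk
    have hv0 : v ≠ 0 := by rintro rfl; exact hv (f.zero_left 0)
    rw [orderOf_mulUnit]
    apply orderOf_dvd_of_pow_eq_one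
    have h1 : (mulUnit F β ^ k : (Module.End F A)ˣ) = mulUnit F (β ^ k) := (map_pow (Units.map (Algebra.lmul F A : A →* Module.End F A)) β k).symm
    rw [h1, mulUnit_apply] at hk
    apply Units.ext
    exact mul_right_cancel₀ hv0 (by rw [hk, Units.val_one, one_mul])
  have hq1 : 1 < Nat.card F := Finite.one_lt_card
  have hqD : 1 < Nat.card F ^ (D + 1) := Nat.one_lt_pow (by omega) hq1
  have hfr : finrank F A = 2 * (D + 1) := hA
  have hpl : ¬ Pl f (D + 1) := by
    intro hp
    have h1 := cnt_pl h2 hs hn hfr hp (one_ne_zero (α := F))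
    obtain ⟨j, hj, -⟩ := semireg hu (by rw [hord]; omega) hfree (one_ne_zero (α := F))
    rw [hj, hord] at h1
    have h3 : (Nat.card F ^ (D + 1) + 1) * j = Nat.card F ^ D * (Nat.card F ^ (D + 1) - 1) := by
      rw [Nat.mul_sub, mul_one, ← pow_add]
      have e : D + (D + 1) = 2 * D + 1 := by ring
      rw [e]
      omega
    have h4 : Nat.Coprime (Nat.card F ^ (D + 1) + 1) (Nat.card F ^ D) := by
      apply Nat.Coprime.pow_right
      rw [pow_succ]
      exact (Nat.coprime_mul_right_add_left _ _ _).mpr (Nat.coprime_one_left _)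
    have h5 : Nat.card F ^ (D + 1) + 1 ∣ Nat.card F ^ (D + 1) - 1 := h4.dvd_of_dvd_mul_left ⟨j, h3.symm⟩
    have := Nat.le_of_dvd (by omega) h5
    omega
  refine ⟨A, inferInstance, inferInstance, inferInstance, inferInstance, f, mulUnit F β, hs, hn, hfr, hpl, hu, hord, ?_⟩
  intro c hc
  refine th_neg hodd hu hord (by omega) (hodd.pow.add_odd odd_one) hfree hc (D := D) ?_
  rw [cnt_mi h2 hs hn hfr hpl hc]
  ring

include h2 hodd in
/-- the torus of order `q^e - 1` -/
theorem torus_pl (D : ℕ) :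
    ∃ (A : Type) (_ : AddCommGroup A) (_ : Module F A) (_ : FiniteDimensional F A) (_ : Finite A) (f : SForm F A (RingHom.id F)) (u : (Module.End F A)ˣ),
      f.Sym 1 ∧ f.ND ∧ finrank F A = 2 * (D + 1) ∧ Pl f (D + 1) ∧ f.Isom u ∧ orderOf u = Nat.card F ^ (D + 1) - 1 ∧ ∀ c : F, c ≠ 0 → th f c u = -1 := by
  obtain ⟨L, _, _, _, hL, hcard⟩ := exists_field_ext F (D + 1) (by omega)
  haveI : Module.Finite F L := Module.finite_of_finrank_pos (by omega)
  let τ : L × L ≃+* L × L := RingEquiv.prodComm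
  let ℓ : L × L →ₗ[F] F := (Algebra.trace F L).comp (LinearMap.fst F L L) + (Algebra.trace F L).comp (LinearMap.snd F L L)
  let f : SForm F (L × L) (RingHom.id F) := algForm (τ : L × L →+* L × L) (fun c => rfl) ℓ
  have hB : ∀ a b : L × L, f.B a b = Algebra.trace F L (a.1 * b.2) + Algebra.trace F L (a.2 * b.1) := fun a b => rfl
  have hs : f.Sym 1 := by
    intro v w
    rw [RingHom.id_apply, one_mul, hB, hB, mul_comm w.1, mul_comm w.2, add_comm]
  have hn : f.ND := by
    rintro ⟨a, b⟩ hab
    obtain ⟨z, hz⟩ := Algebra.trace_surjective F L 1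
    have h1 : ∀ c d : L, Algebra.trace F L (a * d) + Algebra.trace F L (b * c) = 0 := fun c d => hab (c, d)
    apply Prod.ext
    · by_contra ha
      have := h1 0 (z / a)
      rw [mul_zero, map_zero, add_zero, mul_div_cancel₀ _ ha, hz] at this
      exact one_ne_zero this
    · by_contra hb
      have := h1 (z / b) 0
      rw [mul_zero, map_zero, zero_add, mul_div_cancel₀ _ hb, hz] at this
      exact one_ne_zero this
  obtain ⟨x, hx⟩ := exists_unit_orderOf L (Nat.card F ^ (D + 1) - 1) (by rw [hcard])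
  let β : (L × L)ˣ := MulEquiv.prodUnits.symm (x, x⁻¹)
  have hu : f.Isom (mulUnit F β) := by
    apply isom_mulUnit
    show ((x : L), ((x⁻¹ : Lˣ) : L)) * (((x⁻¹ : Lˣ) : L), (x : L)) = 1
    rw [Prod.mk_mul_mk, Units.mul_inv, Units.inv_mul]; rfl
  have hord : orderOf (mulUnit F β) = Nat.card F ^ (D + 1) - 1 := by
    rw [orderOf_mulUnit, MulEquiv.orderOf_eq, Prod.orderOf_mk, orderOf_inv, Nat.lcm_self, hx]
  have hfree : ∀ v, f.B v v ≠ 0 → ∀ k : ℕ, ((mulUnit F β ^ k : (Module.End F (L × L))ˣ) : Module.End F (L × L)) v = v → orderOf (mulUnit F β) ∣ k := by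
    rintro ⟨v, w⟩ hv k hk
    have hv0 : v ≠ 0 := by
      rintro rfl
      apply hv
      rw [hB]
      simp
    rw [hord, ← hx]
    apply orderOf_dvd_of_pow_eq_one
    have h1 : (mulUnit F β ^ k : (Module.End F (L × L))ˣ) = mulUnit F (β ^ k) := (map_pow (Units.map (Algebra.lmul F (L × L) : L × L →* Module.End F (L × L))) β k).symm
    rw [h1, mulUnit_apply] at hk
    have h3 : ((β ^ k : (L × L)ˣ) : L × L).1 = ((x ^ k : Lˣ) : L) := by
      rw [Units.val_pow_eq_pow_val, Prod.pow_fst, Units.val_pow_eq_pow_val]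
      rfl
    have h4 : ((x ^ k : Lˣ) : L) * v = v := by
      rw [← h3]
      exact congrArg Prod.fst hk
    apply Units.ext
    exact mul_right_cancel₀ hv0 (by rw [h4, Units.val_one, one_mul])
  have hq1 : 1 < Nat.card F := Finite.one_lt_card
  have hq3 : 3 ≤ Nat.card F := by
    obtain ⟨k, hk⟩ := hodd
    omega
  have hqD : 3 ≤ Nat.card F ^ (D + 1) := hq3.trans (Nat.le_self_pow (by omega) _)
  have hfr : finrank F (L × L) = 2 * (D + 1) := by rw [finrank_prod, hL, two_mul]
  -- the number of vectors of given norm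
  have hcnt : ∀ c : F, c ≠ 0 → Nat.card {v : L × L // Qof f v = c} = (Nat.card F ^ (D + 1) - 1) * Nat.card F ^ D := by
    intro c hc
    have e1 : Nat.card {v : L × L // Qof f v = c} = Nat.card (Lˣ × {z : L // Algebra.trace F L z = c / 2}) := by
      have hval : ∀ v : L × L, Qof f v = 2 * Algebra.trace F L (v.1 * v.2) := by
        intro v
        rw [Qof_apply, hB, mul_comm v.2, two_mul]
      apply Nat.card_congr
      refine ⟨fun v => (Units.mk0 v.1.1 ?_, ⟨v.1.1 * v.1.2, ?_⟩), fun z => ⟨((z.1 : L), ((z.1⁻¹ : Lˣ) : L) * z.2.1), ?_⟩, ?_, ?_⟩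
      · intro h0
        have := v.2
        rw [hval, h0, zero_mul, map_zero, mul_zero] at this
        exact hc this.symm
      · rw [eq_div_iff h2, mul_comm, ← hval]
        exact v.2
      · rw [hval]
        show 2 * Algebra.trace F L ((z.1 : L) * (((z.1⁻¹ : Lˣ) : L) * z.2.1)) = c
        rw [← mul_assoc, Units.mul_inv, one_mul, z.2.2, mul_div_cancel₀ _ h2]
      · rintro ⟨⟨a, b⟩, hv⟩
        apply Subtype.ext
        apply Prod.ext
        · rfl
        · have ha : a ≠ 0 := by
            intro h0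
            rw [hval] at hv
            simp only [h0, zero_mul, map_zero, mul_zero] at hv
            exact hc hv.symm
          show a⁻¹ * (a * b) = b
          rw [inv_mul_cancel_left₀ ha]
      · rintro ⟨y, z, hz⟩
        apply Prod.ext
        · apply Units.ext; rfl
        · apply Subtype.ext
          show (y : L) * (((y⁻¹ : Lˣ) : L) * z) = z
          rw [← mul_assoc, Units.mul_inv, one_mul]
    have e2 : Nat.card {z : L // Algebra.trace F L z = c / 2} = Nat.card F ^ D := by
      obtain ⟨z₀, hz₀⟩ := Algebra.trace_surjective F L (c / 2)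
      have e3 : Nat.card {z : L // Algebra.trace F L z = c / 2} = Nat.card (LinearMap.ker (Algebra.trace F L)) := by
        apply Nat.card_congr
        refine ⟨fun z => ⟨z.1 - z₀, ?_⟩, fun y => ⟨y.1 + z₀, ?_⟩, ?_, ?_⟩
        · rw [LinearMap.mem_ker, map_sub, z.2, hz₀, sub_self]
        · rw [map_add, LinearMap.mem_ker.mp y.2, zero_add, hz₀]
        · intro z
          apply Subtype.ext
          show z.1 - z₀ + z₀ = z.1
          rw [sub_add_cancel]
        · intro z
          apply Subtype.ext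
          show z.1 + z₀ - z₀ = z.1
          rw [add_sub_cancel_right]
      rw [e3, Module.natCard_eq_pow_finrank (K := F)]
      congr 1
      have h1 := LinearMap.finrank_range_add_finrank_ker (Algebra.trace F L)
      rw [LinearMap.range_eq_top.mpr (Algebra.trace_surjective F L), finrank_top, Module.finrank_self, hL] at h1
      omega
    rw [e1, Nat.card_prod, e2, Nat.card_units, hcard]
  have hpl : Pl f (D + 1) := by
    by_contra hp
    have h1 := cnt_mi h2 hs hn hfr hp (one_ne_zero (α := F))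
    rw [hcnt 1 one_ne_zero, Nat.sub_mul, one_mul, ← pow_add] at h1
    have e : D + 1 + D = 2 * D + 1 := by ring
    rw [e] at h1
    have : 0 < Nat.card F ^ D := pow_pos (by omega) _
    omega
  refine ⟨L × L, inferInstance, inferInstance, inferInstance, inferInstance, f, mulUnit F β, hs, hn, hfr, hpl, hu, hord, ?_⟩
  intro c hc
  exact th_neg hodd hu hord (by omega) (Nat.Odd.sub_odd hodd.pow odd_one) hfree hc (D := D) (hcnt c hc)

end models

end H46.TorusOrth
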