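import Mathlib
import Cfsg.Agent.Lib.H46.UnipModel
import Cfsg.Agent.Lib.H46.Tri

/-! Regular unipotent isometries in odd dimension. -/

set_option autoImplicit false

universe w

namespace H46.UnipOrth

open Module Polynomial H46.SForm H46.SForm.SForm H46.ProjOrder H46.ExtElt H46.SpModels

theorem exists_regular' {K : Type w} [Field K] [Finite K] (p : ℕ) [Fact p.Prime] [CharP K p] (σ : K →+* K)
    (hσ : ∀ c, σ (σ c) = c) (ε : K) (hε : σ ε = ε ∧ ε * ε = 1) (α : K) (hα : α - ε * σ α ≠ 0) (d : ℕ) (hd : 0 < d) :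
    ∃ (A : Type w) (_ : CommRing A) (_ : Algebra K A) (τ : A →+* A)
      (hτ : ∀ c, τ (algebraMap K A c) = algebraMap K A (σ c)) (ℓ : A →ₗ[K] K) (β : Aˣ) (E : ℕ),
      (algForm τ hτ ℓ).ND ∧ (∀ a, τ (τ a) = a) ∧ (∀ a, ℓ (τ a) = ε ^ (d - 1) * σ (ℓ a)) ∧ finrank K A = d ∧
      (β : A) * τ β = 1 ∧ Algebra.norm K (β : A) = 1 ∧ orderOf β = p ^ E ∧ (∀ e : ℕ, (e = 0 ∨ p ^ (e - 1) < d) → e ≤ E) ∧ (∀ j, ((β : A) - 1) ^ j = 0 → d ≤ j) := by
  have hp : p.Prime := Fact.out
  let f : K[X] := X ^ d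
  have hfm : f.Monic := monic_X_pow d
  have hdeg : f.natDegree = d := natDegree_X_pow d
  let A := AdjoinRoot f
  have hfin : Module.Finite K A := (AdjoinRoot.powerBasis hfm.ne_zero).finite
  have hrank : finrank K A = d := by
    rw [(AdjoinRoot.powerBasis hfm.ne_zero).finrank, AdjoinRoot.powerBasis_dim hfm.ne_zero, hdeg]
  have hnt : Nontrivial A := Module.nontrivial_of_finrank_pos (R := K) (by omega)
  have hchar : CharP A p := charP_of_injective_algebraMap (FaithfulSMul.algebraMap_injective K A) p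
  set N : A := AdjoinRoot.root f with hN
  have hNd : N ^ d = 0 := by
    have h : AdjoinRoot.mk f (X ^ d) = 0 := AdjoinRoot.mk_self
    rw [map_pow, AdjoinRoot.mk_X] at h
    exact h
  have hNj : ∀ j < d, N ^ j ≠ 0 := by
    intro j hj h0
    have h1 : AdjoinRoot.mk f (X ^ j) = 0 := by simpa using h0
    rw [AdjoinRoot.mk_eq_zero] at h1
    have h2 := (pow_dvd_pow_iff (X_ne_zero (R := K)) not_isUnit_X).mp h1
    omega
  let τ : A →+* A := AdjoinRoot.lift ((algebraMap K A).comp σ) (algebraMap K A ε * N) (by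
    show eval₂ ((algebraMap K A).comp σ) (algebraMap K A ε * N) (X ^ d) = 0
    rw [eval₂_X_pow, mul_pow, hNd, mul_zero])
  have hτc : ∀ c : K, τ (algebraMap K A c) = algebraMap K A (σ c) := by
    intro c
    exact AdjoinRoot.lift_of _
  have hτN : τ N = algebraMap K A ε * N := AdjoinRoot.lift_root _
  have hττ : ∀ x, τ (τ x) = x := by
    have h1 : (τ.comp τ) = RingHom.id _ := by
      apply AdjoinRoot.ringHom_ext
      · ext c
        show τ (τ (algebraMap K A c)) = _
        rw [hτc, hτc, hσ]; rfl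
      · show τ (τ N) = N
        rw [hτN, map_mul, hτc, hτN, hε.1, ← mul_assoc, ← map_mul, hε.2, map_one, one_mul]
    intro x
    exact congrArg (fun g : A →+* A => g x) h1
  let ℓ : A →ₗ[K] K := (Polynomial.lcoeff K (d - 1)).comp (AdjoinRoot.modByMonicHom hfm)
  have hℓ : ∀ P : K[X], ℓ (AdjoinRoot.mk f P) = P.coeff (d - 1) := by
    intro P
    show (AdjoinRoot.modByMonicHom hfm (AdjoinRoot.mk f P)).coeff (d - 1) = P.coeff (d - 1)
    rw [AdjoinRoot.modByMonicHom_mk]
    conv_rhs => rw [← modByMonic_add_div P f]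
    rw [coeff_add]
    have : (f * (P /ₘ f)).coeff (d - 1) = 0 := by
      show (X ^ d * (P /ₘ f)).coeff (d - 1) = 0
      rw [coeff_X_pow_mul', if_neg (by omega)]
    rw [this, add_zero]
  have hℓτ : ∀ a, ℓ (τ a) = ε ^ (d - 1) * σ (ℓ a) := by
    intro a
    obtain ⟨P, rfl⟩ := AdjoinRoot.mk_surjective a
    induction P using Polynomial.induction_on' with
    | add p q hp hq =>
      rw [map_add, map_add, map_add, hp, hq, map_add, map_add]
      ring
    | monomial n c =>
      have h1' : ∀ c : K, AdjoinRoot.mk f (monomial n c) = algebraMap K A c * N ^ n := by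
        intro c
        rw [← C_mul_X_pow_eq_monomial, map_mul, map_pow, AdjoinRoot.mk_X, AdjoinRoot.mk_C]
        rfl
      have h1 := h1' c
      have h2 : τ (algebraMap K A c * N ^ n) = AdjoinRoot.mk f (monomial n (σ c * ε ^ n)) := by
        rw [h1', map_mul τ, hτc, map_pow τ, hτN, mul_pow, ← map_pow (algebraMap K A), ← mul_assoc, ← map_mul (algebraMap K A)]
      rw [h1, h2, hℓ, ← h1, hℓ, coeff_monomial, coeff_monomial]
      by_cases hn : n = d - 1
      · rw [if_pos hn, if_pos hn, hn]; ring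
      · rw [if_neg hn, if_neg hn, map_zero, mul_zero]
  -- the units
  have hnil : IsNilpotent N := ⟨d, hNd⟩
  have hv : IsUnit (1 + algebraMap K A α * N) := by
    have : IsNilpotent (algebraMap K A α * N) := (Commute.all _ _).isNilpotent_mul_left hnil
    exact this.isUnit_one_add
  have hw : IsUnit (1 + algebraMap K A (ε * σ α) * N) := by
    have : IsNilpotent (algebraMap K A (ε * σ α) * N) := (Commute.all _ _).isNilpotent_mul_left hnil
    exact this.isUnit_one_add
  obtain ⟨v, hv⟩ := hv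
  obtain ⟨w, hw⟩ := hw
  have hτv : τ v = w := by
    rw [hv, hw, map_add, map_one, map_mul, hτc, hτN, ← mul_assoc, ← map_mul, mul_comm (σ α)]
  have hτw : τ w = v := by rw [← hτv, hττ]
  have hτw' : τ ((w⁻¹ : Aˣ) : A) = ((v⁻¹ : Aˣ) : A) := by
    have h1 : τ ((w⁻¹ : Aˣ) : A) * (v : A) = 1 := by
      rw [← hτw, ← map_mul, Units.inv_mul, map_one]
    calc τ ((w⁻¹ : Aˣ) : A) = τ ((w⁻¹ : Aˣ) : A) * ((v : A) * ((v⁻¹ : Aˣ) : A)) := by rw [Units.mul_inv, mul_one]
      _ = ((v⁻¹ : Aˣ) : A) := by rw [← mul_assoc, h1, one_mul]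
  let β : Aˣ := v * w⁻¹
  have hβ1 : (β : A) - 1 = algebraMap K A (α - ε * σ α) * N * ((w⁻¹ : Aˣ) : A) := by
    have h1 : ((β : A) - 1) = ((v : A) - (w : A)) * ((w⁻¹ : Aˣ) : A) := by
      rw [sub_mul, Units.mul_inv]; rfl
    rw [h1, hv, hw, map_sub]
    ring
  have hβpow : ∀ j, ((β : A) - 1) ^ j = 0 → d ≤ j := by
    intro j hj
    by_contra hcon
    push Not at hcon
    apply hNj j hcon
    rw [hβ1, mul_pow, mul_pow] at hj
    have h2 : (algebraMap K A (α - ε * σ α)) ^ j * N ^ j = 0 := by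
      have h3 : IsUnit (((w⁻¹ : Aˣ) : A) ^ j) := (Units.isUnit w⁻¹).pow j
      exact (h3.mul_left_eq_zero).mp hj
    rw [← map_pow] at h2
    have h4 : IsUnit (algebraMap K A ((α - ε * σ α) ^ j)) := (IsUnit.mk0 _ (pow_ne_zero j hα)).map (algebraMap K A)
    exact (h4.mul_right_eq_zero).mp h2
  have hβnil : ((β : A) - 1) ^ d = 0 := by
    rw [hβ1, mul_pow, mul_pow, hNd, mul_zero, zero_mul]
  obtain ⟨E0, hE0⟩ : ∃ E0, d ≤ p ^ E0 := ⟨d, (Nat.lt_pow_self hp.one_lt).le⟩
  have hun : β ^ p ^ E0 = 1 := by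
    apply Units.ext
    rw [Units.val_pow_eq_pow_val, Units.val_one, ← sub_eq_zero, ← one_pow (p ^ E0), ← sub_pow_char_pow]
    exact pow_eq_zero_of_le hE0 hβnil
  obtain ⟨E, _, hE⟩ := (Nat.dvd_prime_pow hp).mp (orderOf_dvd_of_pow_eq_one hun)
  refine ⟨A, inferInstance, inferInstance, τ, hτc, ℓ, β, E, ?_, hττ, hℓτ, hrank, ?_, ?_, hE, ?_, hβpow⟩
  · intro a ha
    obtain ⟨P, rfl⟩ := AdjoinRoot.mk_surjective a
    rw [AdjoinRoot.mk_eq_zero]
    show X ^ d ∣ P
    rw [X_pow_dvd_iff]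
    intro j hj
    have h1 : ℓ (AdjoinRoot.mk f P * τ (τ (N ^ (d - 1 - j)))) = 0 := ha (τ (N ^ (d - 1 - j)))
    rw [hττ] at h1
    have h2 : AdjoinRoot.mk f P * N ^ (d - 1 - j) = AdjoinRoot.mk f (P * X ^ (d - 1 - j)) := by
      rw [map_mul, map_pow, AdjoinRoot.mk_X]
    rw [h2, hℓ, coeff_mul_X_pow', if_pos (by omega)] at h1
    rwa [show d - 1 - (d - 1 - j) = j by omega] at h1
  · show ((v * w⁻¹ : Aˣ) : A) * τ ((v * w⁻¹ : Aˣ) : A) = 1
    rw [Units.val_mul, map_mul, hτv, hτw']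
    calc (v : A) * ((w⁻¹ : Aˣ) : A) * ((w : A) * ((v⁻¹ : Aˣ) : A)) =
        ((v : A) * ((v⁻¹ : Aˣ) : A)) * ((w : A) * ((w⁻¹ : Aˣ) : A)) := by ring
      _ = 1 := by rw [Units.mul_inv, Units.mul_inv, one_mul]
  · have h1 : (Algebra.norm K (β : A)) ^ p ^ E0 = 1 := by
      rw [← map_pow, ← Units.val_pow_eq_pow_val, hun, Units.val_one, map_one]
    have h2 : (Algebra.norm K (β : A) - 1) ^ p ^ E0 = 0 := by
      rw [sub_pow_char_pow, h1, one_pow, sub_self]
    exact sub_eq_zero.mp (pow_eq_zero_iff (pow_pos hp.pos _).ne' |>.mp h2)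
  · intro e he
    rcases he with rfl | he
    · exact Nat.zero_le _
    · by_contra hcon
      push Not at hcon
      have h1 : β ^ p ^ (e - 1) = 1 := by
        apply orderOf_dvd_iff_pow_eq_one.mp
        rw [hE]
        exact Nat.pow_dvd_pow p (by omega)
      have h2 : ((β : A) - 1) ^ p ^ (e - 1) = 0 := by
        rw [sub_pow_char_pow, ← Units.val_pow_eq_pow_val, h1, one_pow, Units.val_one, sub_self]
      have := hβpow _ h2
      omega


/-- regular unipotent isometry in odd dimension -/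
theorem exists_reg {K : Type w} [Field K] [Finite K] (p : ℕ) [Fact p.Prime] [CharP K p] (h2 : (2 : K) ≠ 0) (d : ℕ) (hd : Odd d) :
    ∃ (A : Type w) (_ : AddCommGroup A) (_ : Module K A) (f : SForm K A (RingHom.id K)) (u : (Module.End K A)ˣ) (E : ℕ),
      f.Sym 1 ∧ f.ND ∧ finrank K A = d ∧ f.Isom u ∧ orderOf u = p ^ E ∧ (∀ e : ℕ, (e = 0 ∨ p ^ (e - 1) < d) → e ≤ E) ∧
      (∀ j, ((u : Module.End K A) - 1) ^ j = 0 → d ≤ j) := by
  obtain ⟨A, _, _, τ, hτ, ℓ, β, E, hnd, hττ, hℓτ, hrank, hβ, -, hE, hle, hpow⟩ := exists_regular' (K := K) p (RingHom.id K) (fun _ => rfl)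
    (-1) ⟨rfl, by ring⟩ 1 (by
      rw [RingHom.id_apply]
      have : (1 : K) - -1 * 1 = 2 := by norm_num
      rw [this]; exact h2) d hd.pos
  have hev : Even (d - 1) := by
    obtain ⟨k, hk⟩ := hd
    exact ⟨k, by omega⟩
  refine ⟨A, inferInstance, inferInstance, algForm τ hτ ℓ, mulUnit K β, E, ?_, hnd, hrank, isom_mulUnit τ hτ ℓ β hβ, ?_, hle, ?_⟩
  · intro v w
    rw [RingHom.id_apply, one_mul]
    show ℓ (w * τ v) = ℓ (v * τ w)
    have h1 := hℓτ (v * τ w)
    rw [hev.neg_one_pow, one_mul, RingHom.id_apply, map_mul, hττ, mul_comm] at h1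
    exact h1
  · rw [orderOf_mulUnit, hE]
  · intro j hj
    apply hpow
    have h1 : ((mulUnit K β : Module.End K A) - 1) = Algebra.lmul K A ((β : A) - 1) := by
      rw [map_sub, map_one]; rfl
    rw [h1, ← map_pow] at hj
    exact Algebra.lmul_injective (by rw [hj, map_zero])

/-- unipotent isometry with a single block of size `p ^ e` -/
theorem exists_block {K : Type w} [Field K] [Finite K] (p : ℕ) [Fact p.Prime] [CharP K p] (h2 : (2 : K) ≠ 0) (e : ℕ) :
    ∃ (A : Type w) (_ : AddCommGroup A) (_ : Module K A) (f : SForm K A (RingHom.id K)) (u : (Module.End K A)ˣ),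
      f.Sym 1 ∧ f.ND ∧ finrank K A = p ^ e ∧ f.Isom u ∧ orderOf u = p ^ e ∧ ((u : Module.End K A) - 1) ^ (p ^ e - 1) ≠ 0 := by
  have hp : p.Prime := Fact.out
  have hpo : Odd p := by
    rcases hp.eq_two_or_odd' with h | h
    · exfalso
      subst h
      exact h2 (by exact_mod_cast CharP.cast_eq_zero K 2)
    · exact h
  obtain ⟨A, _, _, f, u, E, hs, hn, hd, hu, hE, hle, hpow⟩ := exists_reg (K := K) p h2 (p ^ e) hpo.pow
  have hpos : 0 < p ^ e := pow_pos hp.pos e
  haveI : FiniteDimensional K A := Module.finite_of_finrank_pos (by omega)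
  haveI : Nontrivial A := Module.nontrivial_of_finrank_pos (R := K) (by omega)
  have hchar : CharP (Module.End K A) p := charP_of_injective_algebraMap (FaithfulSMul.algebraMap_injective K (Module.End K A)) p
  have hnil : IsNilpotent ((u : Module.End K A) - 1) := H46.SpDich.isNilpotent_sub_one p _ E (by
    rw [← Units.val_pow_eq_pow_val, ← hE, pow_orderOf_eq_one]; rfl)
  have h1 : u ^ p ^ e = 1 := by
    apply Units.ext
    rw [Units.val_pow_eq_pow_val, Units.val_one, ← sub_eq_zero]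
    have h3 := H46.Tri.nilp_pow_finrank hnil
    rw [hd, sub_pow_char_pow_of_commute p e (Commute.one_right _), one_pow] at h3
    exact h3
  have h3 : E ≤ e := by
    have := orderOf_dvd_of_pow_eq_one h1
    rw [hE] at this
    exact (Nat.pow_dvd_pow_iff_le_right hp.one_lt).mp this
  have h4 : e ≤ E := by
    apply hle
    rcases Nat.eq_zero_or_pos e with h | h
    · exact Or.inl h
    · right
      exact Nat.pow_lt_pow_right hp.one_lt (by omega)
  have h5 : E = e := le_antisymm h3 h4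
  refine ⟨A, inferInstance, inferInstance, f, u, hs, hn, hd, hu, by rw [hE, h5], ?_⟩
  intro h0
  have := hpow _ h0
  omega

end H46.UnipOrth
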