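import Mathlib
import Cfsg.Agent.Lib.H46.DecSU
import Cfsg.Agent.Lib.H46.SemiOrd
import Cfsg.Agent.Lib.H46.UnipOrth
import Cfsg.Agent.Lib.H46.TorusOrth
import Cfsg.Agent.Lib.H46.BlNum
import Cfsg.Agent.Lib.H17.SpecStr

/-! Building elements of the commutator subgroup of an orthogonal group of minus type in dimension eight. -/

set_option autoImplicit false

namespace H46.SpecSemi

open Module QuadraticMap H17.OrthAbs H46.SForm H46.SForm.SForm H46.ProdUnit H17.SpecPO H46.TypeCnt H46.ThetaSp H46.OrdPSp H46.SqForm H46.FormSplit H46.BlockCongr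
open H49.FormConj2 H46.SemiOrd

section prod
variable {F : Type*} [Field F] [Finite F] {V₁ V₂ : Type*} [AddCommGroup V₁] [Module F V₁] [FiniteDimensional F V₁] [AddCommGroup V₂] [Module F V₂] [FiniteDimensional F V₂]

theorem sq_prodF (h2 : (2 : F) ≠ 0) {f₁ : SForm F V₁ (RingHom.id F)} {f₂ : SForm F V₂ (RingHom.id F)} (hs₁ : f₁.Sym 1) (hs₂ : f₂.Sym 1) (hn₁ : f₁.ND) (hn₂ : f₂.ND) :
    Sq (toBilin (f₁.prod f₂)) ↔ (Sq (toBilin f₁) ↔ Sq (toBilin f₂)) := by
  have e1 : r1 (toBilin (f₁.prod f₂)) = toBilin f₁ := by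
    refine LinearMap.ext₂ fun x y => ?_
    rw [r1_apply]
    change f₁.B x y + f₂.B 0 0 = f₁.B x y
    rw [f₂.zero_left, add_zero]
  have e2 : r2 (toBilin (f₁.prod f₂)) = toBilin f₂ := by
    refine LinearMap.ext₂ fun x y => ?_
    rw [r2_apply]
    change f₁.B 0 0 + f₂.B x y = f₂.B x y
    rw [f₁.zero_left, zero_add]
  rw [sq_prod h2 (sym_toBilin (sym_prod hs₁ hs₂)) (ndb_toBilin (hn₁.prod hn₂)) (fun v w => by
    change f₁.B v 0 + f₂.B 0 w = 0
    rw [f₁.zero_right, f₂.zero_left, add_zero]) (by rw [e1]; exact ndb_toBilin hn₁) (by rw [e2]; exact ndb_toBilin hn₂), e1, e2]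

theorem pl_prod (h2 : (2 : F) ≠ 0) {f₁ : SForm F V₁ (RingHom.id F)} {f₂ : SForm F V₂ (RingHom.id F)} (hs₁ : f₁.Sym 1) (hs₂ : f₂.Sym 1) (hn₁ : f₁.ND) (hn₂ : f₂.ND)
    (a b : ℕ) : Pl (f₁.prod f₂) (a + b) ↔ (Pl f₁ a ↔ Pl f₂ b) := by
  unfold Pl
  rw [sq_prodF h2 hs₁ hs₂ hn₁ hn₂, pow_add, isSquare_mul_iff (pow_ne_zero _ (neg_ne_zero.mpr one_ne_zero)) (pow_ne_zero _ (neg_ne_zero.mpr one_ne_zero))]
  tauto

end prod

section disc
variable {F : Type*} [Field F]

/-- diagonal forms -/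
def diagF (k : ℕ) (w : Fin k → F) : SForm F (Fin k → F) (RingHom.id F) where
  B := fun a b => ∑ i, w i * (a i * b i)
  add_left := fun a b c => by simp only [Pi.add_apply, add_mul, mul_add, Finset.sum_add_distrib]
  add_right := fun a b c => by simp only [Pi.add_apply, mul_add, Finset.sum_add_distrib]
  smul_left := fun c a b => by
    simp only [Pi.smul_apply, smul_eq_mul, Finset.mul_sum]
    exact Finset.sum_congr rfl fun i _ => by ring
  smul_right := fun c a b => by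
    simp only [Pi.smul_apply, smul_eq_mul, Finset.mul_sum, RingHom.id_apply]
    exact Finset.sum_congr rfl fun i _ => by ring

theorem diagF_sym (k : ℕ) (w : Fin k → F) : (diagF k w).Sym 1 := by
  intro a b
  rw [RingHom.id_apply, one_mul]
  change ∑ i, w i * (b i * a i) = ∑ i, w i * (a i * b i)
  exact Finset.sum_congr rfl fun i _ => by rw [mul_comm (b i)]

theorem diagF_nd (k : ℕ) (w : Fin k → F) (hw : ∀ i, w i ≠ 0) : (diagF k w).ND := by
  intro a ha
  funext i
  have := ha (Pi.single i 1)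
  change ∑ j, w j * (a j * (Pi.single i (1 : F) : Fin k → F) j) = 0 at this
  rw [Finset.sum_eq_single i] at this
  · rw [Pi.single_eq_same, mul_one] at this
    exact (mul_eq_zero.mp this).resolve_left (hw i)
  · intro j _ hj
    rw [Pi.single_eq_of_ne hj, mul_zero, mul_zero]
  · intro h; exact absurd (Finset.mem_univ i) h

theorem exists_disc [Finite F] (h2 : (2 : F) ≠ 0) (k : ℕ) (hk : 0 < k) (P : Prop) :
    ∃ f : SForm F (Fin k → F) (RingHom.id F), f.Sym 1 ∧ f.ND ∧ (Sq (toBilin f) ↔ P) := by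
  classical
  obtain ⟨α, hα⟩ := H48.FinFieldSq.exists_not_isSquare h2
  have hα0 : α ≠ 0 := by rintro rfl; exact hα ⟨0, by ring⟩
  let β : F := if P then 1 else α
  have hβ0 : β ≠ 0 := by
    by_cases h : P
    · simp [β, h]
    · simp [β, h, hα0]
  have hβ : IsSquare β ↔ P := by
    by_cases h : P
    · simp [β, h]
    · simp [β, h, hα]
  let w : Fin k → F := Function.update (fun _ => 1) ⟨0, hk⟩ β
  have hw : ∀ i, w i ≠ 0 := by
    intro i
    by_cases hi : i = ⟨0, hk⟩
    · subst hi; simp only [w, Function.update_self]; exact hβ0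
    · simp only [w, Function.update_of_ne hi]; exact one_ne_zero
  refine ⟨diagF k w, diagF_sym k w, diagF_nd k w hw, ?_⟩
  rw [sq_iff h2 (Pi.basisFun F (Fin k)) (sym_toBilin (diagF_sym k w)) (ndb_toBilin (diagF_nd k w hw))]
  have h1 : LinearMap.BilinForm.toMatrix (Pi.basisFun F (Fin k)) (toBilin (diagF k w)) = Matrix.diagonal w := by
    ext i j
    rw [LinearMap.BilinForm.toMatrix_apply]
    change ∑ l, w l * ((Pi.basisFun F (Fin k)) i l * (Pi.basisFun F (Fin k)) j l) = _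
    rw [Finset.sum_eq_single i]
    · rw [Pi.basisFun_apply, Pi.basisFun_apply, Pi.single_eq_same, one_mul]
      by_cases hij : i = j
      · subst hij
        rw [Pi.single_eq_same, mul_one, Matrix.diagonal_apply_eq]
      · rw [Pi.single_eq_of_ne hij, mul_zero, Matrix.diagonal_apply_ne _ hij]
    · intro l _ hl
      rw [Pi.basisFun_apply, Pi.single_eq_of_ne hl, zero_mul, mul_zero]
    · intro h; exact absurd (Finset.mem_univ i) h
  rw [h1, Matrix.det_diagonal, Finset.prod_update_of_mem (Finset.mem_univ _)]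
  simp only [Finset.prod_const_one, mul_one]
  exact hβ

/-- completion to a space of minus type -/
theorem exists_mi [Finite F] (h2 : (2 : F) ≠ 0) {D : Type*} [AddCommGroup D] [Module F D] [FiniteDimensional F D] {f : SForm F D (RingHom.id F)} (hs : f.Sym 1) (hn : f.ND)
    (m k : ℕ) (hd : finrank F D + k = 2 * m) (hk : 0 < k) :
    ∃ g : SForm F (Fin k → F) (RingHom.id F), g.Sym 1 ∧ g.ND ∧ finrank F (D × (Fin k → F)) = 2 * m ∧ ¬ Pl (f.prod g) m := by
  obtain ⟨g, h1, h3, h4⟩ := exists_disc h2 k hk (¬ (Sq (toBilin f) ↔ IsSquare ((-1 : F) ^ m)))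
  refine ⟨g, h1, h3, ?_, ?_⟩
  · rw [Module.finrank_prod, Module.finrank_fintype_fun_eq_card, Fintype.card_fin, hd]
  · unfold Pl
    rw [sq_prodF h2 hs h1 hn h3, h4]
    tauto

end disc

section geom
open Polynomial

theorem geom_char {F : Type*} [Field F] (p : ℕ) [Fact p.Prime] [CharP F p] (k : ℕ) :
    ∑ i ∈ Finset.range (p ^ k), (X : F[X]) ^ i = (X - 1) ^ (p ^ k - 1) := by
  have hp : p.Prime := Fact.out
  have h0 : (X - 1 : F[X]) ≠ 0 := by
    have := Polynomial.X_sub_C_ne_zero (1 : F)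
    rwa [map_one] at this
  apply mul_right_cancel₀ h0
  rw [geom_sum_mul, ← pow_succ, Nat.sub_add_cancel (Nat.one_le_pow _ _ hp.pos), sub_pow_char_pow, one_pow]

theorem geom_end {F : Type*} [Field F] (p : ℕ) [Fact p.Prime] [CharP F p] {V : Type*} [AddCommGroup V] [Module F V] (k m : ℕ) {u : Module.End F V} (hu : u ^ p ^ k = 1) :
    ∑ i ∈ Finset.range (m * p ^ k), u ^ i = (m : F) • (u - 1) ^ (p ^ k - 1) := by
  have h1 : ∑ i ∈ Finset.range (p ^ k), u ^ i = (u - 1) ^ (p ^ k - 1) := by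
    have := congrArg (aeval u) (geom_char (F := F) p k)
    simpa using this
  induction m with
  | zero => simp
  | succ m ih =>
    rw [Nat.succ_mul, Finset.sum_range_add, ih]
    have h3 : ∀ i ∈ Finset.range (p ^ k), u ^ (m * p ^ k + i) = u ^ i := by
      intro i _
      rw [pow_add, mul_comm m, pow_mul, hu, one_pow, one_mul]
    rw [Finset.sum_congr rfl h3, h1, Nat.cast_succ, add_smul, one_smul]

end geom

section mem
variable {F : Type*} [Field F] [Finite F]

/-- divisors of orders in minus type -/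
theorem mem_dvd (h2 : (2 : F) ≠ 0) (p : ℕ) {a b : F} (hab : ∀ z₁ z₂ : F, z₁ ^ 2 + a * z₁ * z₂ + b * z₂ ^ 2 = 0 → z₁ = 0 ∧ z₂ = 0)
    {D : Type*} [AddCommGroup D] [Module F D] [FiniteDimensional F D] [Finite D] {f : SForm F D (RingHom.id F)} (hs : f.Sym 1) (hn : f.ND) (hd : finrank F D = 8) (hpl : ¬ Pl f 4)
    {u : (Module.End F D)ˣ} (hu : f.Isom u) (hth : ∀ c : F, c ≠ 0 → th f c u = 1) {N : ℕ} (hN : N ∣ orderOf u) : N ∈ OrS p (stdM 3 F a b) := by
  haveI : Finite (Module.End F D) := Finite.of_injective (fun g => (g : D → D)) DFunLike.coe_injective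
  apply mem_std h2 p 3 hab hs hn hd hpl
  refine ⟨u ^ (orderOf u / N), ?_, Or.inl ?_⟩
  · rw [mem_iff h2 hs hn (by omega) (hu.pow _)]
    intro c hc
    rw [th_pow c hu, hth c hc, one_pow]
  · exact (orderOf_pow_orderOf_div (orderOf_pos u).ne' hN).symm

/-- elements of smaller dimension -/
theorem free (h2 : (2 : F) ≠ 0) (p : ℕ) {a b : F} (hab : ∀ z₁ z₂ : F, z₁ ^ 2 + a * z₁ * z₂ + b * z₂ ^ 2 = 0 → z₁ = 0 ∧ z₂ = 0)
    {D : Type*} [AddCommGroup D] [Module F D] [FiniteDimensional F D] [Finite D] {f : SForm F D (RingHom.id F)} (hs : f.Sym 1) (hn : f.ND) (hd : finrank F D < 8)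
    {u : (Module.End F D)ˣ} (hu : f.Isom u) (hth : ∀ c : F, c ≠ 0 → th f c u = 1) : orderOf u ∈ OrS p (stdM 3 F a b) := by
  obtain ⟨k, hk⟩ : ∃ k, k = 8 - finrank F D := ⟨_, rfl⟩
  obtain ⟨g, gs, gn, gd, gpl⟩ := exists_mi h2 hs hn 4 k (by omega) (by omega)
  have ho : orderOf (prodUnit u (1 : (Module.End F (Fin k → F))ˣ)) = orderOf u := by
    rw [H46.Irr.orderOf_prodUnit, orderOf_one, Nat.lcm_one_right]
  rw [← ho]
  apply mem_dvd h2 p hab (sym_prod hs gs) (hn.prod gn) gd gpl (hu.prod Isom.one) _ dvd_rfl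
  intro c hc
  rw [th_prod h2 hs gs hn gn hc hu Isom.one, hth c hc, th_one, mul_one]

variable (p : ℕ) [Fact p.Prime] [CharP F p]

/-- elements with a unipotent block -/
theorem blk (h2 : (2 : F) ≠ 0) {a b : F} (hab : ∀ z₁ z₂ : F, z₁ ^ 2 + a * z₁ * z₂ + b * z₂ ^ 2 = 0 → z₁ = 0 ∧ z₂ = 0)
    {D : Type*} [AddCommGroup D] [Module F D] [FiniteDimensional F D] [Finite D] {f : SForm F D (RingHom.id F)} (hs : f.Sym 1) (hn : f.ND) (e : ℕ) (hd : finrank F D + p ^ e < 8)
    {u : (Module.End F D)ˣ} (hu : f.Isom u) (hth : ∀ c : F, c ≠ 0 → th f c u = 1) {m i : ℕ} (hm : (m : F) ≠ 0) (hmp : Nat.Coprime m p) (ho : orderOf u = m * p ^ i) (hi : i ≤ e) :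
    m * p ^ (e + 1) ∈ OrS p (stdM 3 F a b) := by
  have hp : p.Prime := Fact.out
  have hpo : Odd p := by
    rcases hp.eq_two_or_odd' with h | h
    · exfalso
      subst h
      exact h2 (by exact_mod_cast CharP.cast_eq_zero F 2)
    · exact h
  obtain ⟨A, _, _, g, w, gs, gn, gd, gi, go, gz⟩ := H46.UnipOrth.exists_block (K := F) p h2 e
  haveI : FiniteDimensional F A := Module.finite_of_finrank_pos (by rw [gd]; exact pow_pos hp.pos _)
  haveI : Finite A := Module.finite_of_finite F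
  obtain ⟨k, hk⟩ : ∃ k, k = 8 - (finrank F D + p ^ e) := ⟨_, rfl⟩
  obtain ⟨h, hhs, hhn, hhd, hpl⟩ := exists_mi h2 (sym_prod hs gs) (hn.prod gn) 4 k (by rw [Module.finrank_prod, gd]; omega) (by omega)
  apply mem_std h2 p 3 hab (sym_prod (sym_prod hs gs) hhs) ((hn.prod gn).prod hhn) hhd hpl
  have hord : orderOf (prodUnit (prodUnit u w) (1 : (Module.End F (Fin k → F))ˣ)) = m * p ^ e := by
    rw [H46.Irr.orderOf_prodUnit, orderOf_one, Nat.lcm_one_right, H46.Irr.orderOf_prodUnit, ho, go]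
    apply Nat.dvd_antisymm
    · exact Nat.lcm_dvd (Nat.mul_dvd_mul_left _ (pow_dvd_pow _ hi)) (dvd_mul_left _ _)
    · exact (Nat.Coprime.pow_right e hmp).mul_dvd_of_dvd_of_dvd ((dvd_mul_right m _).trans (Nat.dvd_lcm_left _ _)) (Nat.dvd_lcm_right _ _)
  refine ⟨prodUnit (prodUnit u w) 1, ?_, Or.inr ⟨?_, ?_⟩⟩
  · rw [mem_iff h2 (sym_prod (sym_prod hs gs) hhs) ((hn.prod gn).prod hhn) (by omega) ((hu.prod gi).prod Isom.one)]
    intro c hc
    rw [th_prod h2 (sym_prod hs gs) hhs (hn.prod gn) hhn hc (hu.prod gi) Isom.one, th_prod h2 hs gs hn gn hc hu gi, hth c hc, th_one, mul_one, one_mul]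
    exact th_odd c gi (hpo.pow (n := e)) (by rw [← go]; exact pow_orderOf_eq_one w)
  · rw [hord, pow_succ]; ring
  · obtain ⟨x, hx⟩ : ∃ x, (((w : Module.End F A) - 1) ^ (p ^ e - 1)) x ≠ 0 := by
      by_contra hcon
      push Not at hcon
      exact gz (LinearMap.ext hcon)
    refine ⟨((0, x), 0), ?_⟩
    rw [hord]
    have hpw : ∀ i : ℕ, ((prodUnit (prodUnit u w) (1 : (Module.End F (Fin k → F))ˣ) : Module.End F ((D × A) × (Fin k → F))) ^ i) ((0, x), 0) = ((0, ((w : Module.End F A) ^ i) x), 0) := by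
      intro i
      induction i with
      | zero => rfl
      | succ i ih =>
        rw [pow_succ', Module.End.mul_apply, ih, pow_succ', Module.End.mul_apply]
        change (((u : Module.End F D) 0, (w : Module.End F A) (((w : Module.End F A) ^ i) x)), (((1 : (Module.End F (Fin k → F))ˣ) : Module.End F (Fin k → F)) 0)) = _
        rw [map_zero, map_zero]
    rw [Finset.sum_congr rfl fun i _ => hpw i]
    intro h0
    have h1 := congrArg (fun z : (D × A) × (Fin k → F) => z.1.2) h0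
    have h3 : (∑ i ∈ Finset.range (m * p ^ e), (((0 : D), ((w : Module.End F A) ^ i) x), (0 : Fin k → F))).1.2 = (∑ i ∈ Finset.range (m * p ^ e), (w : Module.End F A) ^ i) x := by
      rw [LinearMap.sum_apply, Prod.fst_sum, Prod.snd_sum]
    change (∑ i ∈ Finset.range (m * p ^ e), (((0 : D), ((w : Module.End F A) ^ i) x), (0 : Fin k → F))).1.2 = 0 at h1
    rw [h3, geom_end p e m (by rw [← Units.val_pow_eq_pow_val, ← go, pow_orderOf_eq_one]; rfl), LinearMap.smul_apply] at h1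
    exact hx ((smul_eq_zero.mp h1).resolve_left hm)

/-- elements with a unipotent block, dividing version -/
theorem blk' (h2 : (2 : F) ≠ 0) {a b : F} (hab : ∀ z₁ z₂ : F, z₁ ^ 2 + a * z₁ * z₂ + b * z₂ ^ 2 = 0 → z₁ = 0 ∧ z₂ = 0)
    {D : Type*} [AddCommGroup D] [Module F D] [FiniteDimensional F D] [Finite D] {f : SForm F D (RingHom.id F)} (hs : f.Sym 1) (hn : f.ND) (e : ℕ) (hd : finrank F D + p ^ e < 8)
    {u : (Module.End F D)ˣ} (hu : f.Isom u) (hth : ∀ c : F, c ≠ 0 → th f c u = 1) {m : ℕ} (hm : (m : F) ≠ 0) (hmp : Nat.Coprime m p) (ho : m ∣ orderOf u) :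
    m * p ^ (e + 1) ∈ OrS p (stdM 3 F a b) := by
  haveI : Finite (Module.End F D) := Finite.of_injective (fun g => (g : D → D)) DFunLike.coe_injective
  refine blk p h2 hab hs hn e hd (hu.pow (orderOf u / m)) (fun c hc => ?_) hm hmp (i := 0) ?_ (Nat.zero_le _)
  · rw [th_pow c hu, hth c hc, one_pow]
  · rw [pow_zero, mul_one]
    exact orderOf_pow_orderOf_div (orderOf_pos u).ne' ho

end mem

end H46.SpecSemi
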