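import Mathlib
import Cfsg.Agent.Lib.H46.SpecSemi

/-! Element orders of the split extension of the natural module by an orthogonal group in dimension eight occur in dimension nine. -/

set_option autoImplicit false

namespace H46.SpecSemiUp

open Module QuadraticMap H17.OrthAbs H46.SForm H46.SForm.SForm H46.ProdUnit H17.SpecPO H46.TypeCnt H46.ThetaSp H46.OrdPSp H46.SqForm H46.FormSplit H46.BlockCongr
open H49.FormConj2 H46.SemiOrd H46.SpecSemi H46.DecSU H46.Tri H46.SpDich

universe u

section unip
variable {F : Type*} [Field F] (p : ℕ) [Fact p.Prime] [CharP F p] {V : Type*} [AddCommGroup V] [Module F V] [FiniteDimensional F V]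

theorem unip_pow {u : (Module.End F V)ˣ} {j : ℕ} (hu : u ^ p ^ j = 1) {n : ℕ} (h : ((u : Module.End F V) - 1) ^ n ≠ 0) : n < finrank F V := by
  haveI : Nontrivial V := by
    by_contra hcon
    rw [not_nontrivial_iff_subsingleton] at hcon
    exact h (LinearMap.ext fun v => Subsingleton.elim _ _)
  by_contra hcon
  push Not at hcon
  have hnil : IsNilpotent ((u : Module.End F V) - 1) := isNilpotent_sub_one p _ j (by rw [← Units.val_pow_eq_pow_val, hu]; rfl)
  apply h
  rw [← Nat.add_sub_cancel' hcon, pow_add, nilp_pow_finrank hnil, zero_mul]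

theorem unip_lt {u : (Module.End F V)ˣ} {j : ℕ} (hu : orderOf u = p ^ (j + 1)) : p ^ j < finrank F V := by
  have hp : p.Prime := Fact.out
  haveI : Nontrivial V := by
    by_contra hcon
    rw [not_nontrivial_iff_subsingleton] at hcon
    have h1 : u = 1 := Units.ext (LinearMap.ext fun v => Subsingleton.elim _ _)
    rw [h1, orderOf_one] at hu
    have : 1 < p ^ (j + 1) := Nat.one_lt_pow (Nat.succ_ne_zero j) hp.one_lt
    omega
  have hnil : IsNilpotent ((u : Module.End F V) - 1) := isNilpotent_sub_one p _ (j + 1) (by rw [← Units.val_pow_eq_pow_val, ← hu, pow_orderOf_eq_one]; rfl)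
  have h1 := unip_bound p (u : Module.End F V) (finrank F V) (j + 1) (nilp_pow_finrank hnil) (by
    rw [Nat.add_sub_cancel]
    intro h
    have h3 : u ^ p ^ j = 1 := Units.ext (by rw [Units.val_pow_eq_pow_val, h]; rfl)
    have h4 := orderOf_dvd_of_pow_eq_one h3
    rw [hu] at h4
    have h5 := Nat.le_of_dvd (pow_pos hp.pos _) h4
    have h6 : p ^ j < p ^ (j + 1) := Nat.pow_lt_pow_right hp.one_lt (Nat.lt_succ_self j)
    omega)
  rwa [Nat.add_sub_cancel] at h1

end unip

section up
variable {F : Type u} [Field F] [Finite F] (p : ℕ) [Fact p.Prime] [CharP F p]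

theorem subset_up (h2 : (2 : F) ≠ 0) {V : Type u} [AddCommGroup V] [Module F V] [FiniteDimensional F V] [Finite V] {f : SForm F V (RingHom.id F)} (hs : f.Sym 1) (hn : f.ND)
    (hd : finrank F V = 8) : OrS p f ⊆ Set.range (orderOf : Cfsg.POmega F (Cfsg.quadFormOdd 4 F) → ℕ) := by
  have hp : p.Prime := Fact.out
  have hpo : Odd p := by
    rcases hp.eq_two_or_odd' with h | h
    · exfalso
      subst h
      exact h2 (by exact_mod_cast CharP.cast_eq_zero F 2)
    · exact h
  rintro N ⟨u, hu, h | ⟨h, a, ha⟩⟩
  · -- add a line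
    subst h
    have h1 := prod_mem_left (f₂ := H17.SpecStr.dotF F 1) hu
    have ho : orderOf (prodUnit u (1 : (Module.End F (Fin 1 → F))ˣ)) = orderOf u := by
      rw [H46.Irr.orderOf_prodUnit, orderOf_one, Nat.lcm_one_right]
    rw [← ho]
    exact mem_orders h2 (n := 4) (by norm_num) (sym_prod hs (H17.SpecStr.dotF_sym F 1)) (hn.prod (H17.SpecStr.dotF_nd F 1)) (by
      rw [Module.finrank_prod, hd, H17.SpecStr.dotF_finrank]) h1
  · have hui := isom_of_mem h2 hs hu
    obtain ⟨D⟩ := exists_dec p h2 hs hn hui (H17.SpecStr.det_of_mem hu)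
    obtain ⟨m, k, i, j, W, U, uW, uU, hm, hmp, hord, hk, hWU, sW, sU, nW, nU, iW, iU, oW, oU, hth, aW, aU, fW, ev⟩ := D
    have huU : uU ^ p ^ k = 1 := by
      apply orderOf_dvd_iff_pow_eq_one.mp
      rw [oU]
      exact pow_dvd_pow _ (hk ▸ le_max_right _ _)
    -- the fixed space is large
    have hlt : p ^ k - 1 < finrank F U := by
      apply unip_pow p huU
      intro h0
      apply ha
      obtain ⟨w, hw, x, hx, rfl⟩ := mem_sup_of_compl hWU a
      have hpW : ∀ l : ℕ, ((u : Module.End F V) ^ l) w = ((((uW : Module.End F W) ^ l) ⟨w, hw⟩ : W) : V) := by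
        intro l
        induction l with
        | zero => rfl
        | succ l ih => rw [pow_succ', Module.End.mul_apply, ih, ← aW, pow_succ', Module.End.mul_apply]
      have hpU : ∀ l : ℕ, ((u : Module.End F V) ^ l) x = ((((uU : Module.End F U) ^ l) ⟨x, hx⟩ : U) : V) := by
        intro l
        induction l with
        | zero => rfl
        | succ l ih => rw [pow_succ', Module.End.mul_apply, ih, ← aU, pow_succ', Module.End.mul_apply]
      have hsplit : ∀ l ∈ Finset.range (orderOf u), ((u : Module.End F V) ^ l) (w + x) = ((((uW : Module.End F W) ^ l) ⟨w, hw⟩ : W) : V) + ((((uU : Module.End F U) ^ l) ⟨x, hx⟩ : U) : V) := by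
        intro l _
        rw [map_add, hpW, hpU]
      rw [Finset.sum_congr rfl hsplit, Finset.sum_add_distrib]
      have e1 : ∑ l ∈ Finset.range (orderOf u), ((uW : Module.End F W) ^ l) ⟨w, hw⟩ = 0 := by
        apply fW
        have h3 : (∑ l ∈ Finset.range (orderOf u), (uW : Module.End F W) ^ l) * ((uW : Module.End F W) - 1) = 0 := by
          rw [geom_sum_mul, ← Units.val_pow_eq_pow_val]
          have h4 : uW ^ orderOf u = 1 := by
            apply orderOf_dvd_iff_pow_eq_one.mp
            rw [oW, hord]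
            exact Nat.mul_dvd_mul_left _ (pow_dvd_pow _ (hk ▸ le_max_left _ _))
          rw [h4, Units.val_one, sub_self]
        have hcm : Commute (uW : Module.End F W) (∑ l ∈ Finset.range (orderOf u), (uW : Module.End F W) ^ l) :=
          Commute.sum_right _ _ _ fun l _ => (Commute.refl _).pow_right l
        have h5 : (uW : Module.End F W) * (∑ l ∈ Finset.range (orderOf u), (uW : Module.End F W) ^ l) = ∑ l ∈ Finset.range (orderOf u), (uW : Module.End F W) ^ l := by
          rw [mul_sub, mul_one, sub_eq_zero] at h3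
          rw [hcm.eq, h3]
        rw [← LinearMap.sum_apply]
        exact congrArg (fun g : Module.End F W => g ⟨w, hw⟩) h5
      have e2 : ∑ l ∈ Finset.range (orderOf u), ((uU : Module.End F U) ^ l) ⟨x, hx⟩ = 0 := by
        rw [← LinearMap.sum_apply, hord, geom_end p k m (by rw [← Units.val_pow_eq_pow_val, huU]; rfl), h0, smul_zero, LinearMap.zero_apply]
      rw [← AddSubmonoidClass.coe_finsetSum, ← AddSubmonoidClass.coe_finsetSum, e1, e2]
      rw [ZeroMemClass.coe_zero, ZeroMemClass.coe_zero, add_zero]
    have hfs := Submodule.finrank_add_eq_of_isCompl hWU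
    rw [hd] at hfs
    have hpk : Odd (p ^ k) := hpo.pow
    obtain ⟨r, hr⟩ := ev
    obtain ⟨s, hs'⟩ := hpk
    have hpos : 0 < p ^ k := pow_pos hp.pos _
    have hdU : Odd (finrank F U + 1) := ⟨4 - r, by omega⟩
    have hlt' : p ^ k < finrank F U + 1 := by omega
    obtain ⟨A, _, _, g, z, E, gs, gn, gd, gi, go, gE, -⟩ := H46.UnipOrth.exists_reg (K := F) p h2 (finrank F U + 1) hdU
    haveI : FiniteDimensional F A := Module.finite_of_finrank_pos (by omega)
    haveI : Finite A := Module.finite_of_finite F
    haveI : Finite W := Module.finite_of_finite F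
    haveI : Finite U := Module.finite_of_finite F
    have hE : k + 1 ≤ E := gE (k + 1) (Or.inr (by rw [Nat.add_sub_cancel]; exact hlt'))
    have hmem : prodUnit uW z ∈ Om ((f.pull W.subtype).prod g) := by
      rw [mem_iff h2 (sym_prod sW gs) (nW.prod gn) (by rw [Module.finrank_prod, gd]; omega) (iW.prod gi)]
      intro c hc
      rw [th_prod h2 sW gs nW gn hc iW gi, th_odd c gi (hpo.pow (n := E)) (by rw [← go]; exact pow_orderOf_eq_one z), mul_one]
      have h3 := hth c hc
      rw [th_odd c iU (hpo.pow (n := j)) (by rw [← oU]; exact pow_orderOf_eq_one uU), mul_one] at h3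
      rw [← h3]
      exact (mem_iff h2 hs hn (by omega) hui).mp hu c hc
    have h3 := mem_orders h2 (n := 4) (by norm_num) (sym_prod sW gs) (nW.prod gn) (by
      rw [Module.finrank_prod, gd]; omega) hmem
    haveI := Fintype.ofFinite F
    haveI : Finite (Cfsg.POmega F (Cfsg.quadFormOdd 4 F)) := by
      haveI : Finite ↥(Cfsg.isometryGroup F (Cfsg.quadFormOdd 4 F)) := Subtype.finite
      haveI : Finite ↥(Cfsg.Omega F (Cfsg.quadFormOdd 4 F)) := Subtype.finite
      exact Quotient.finite _
    apply H46.Orders.mem_of_dvd h3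
    rw [H46.Irr.orderOf_prodUnit, oW, go, h, hord]
    have h5 : p * (m * p ^ k) = m * p ^ (k + 1) := by rw [pow_succ]; ring
    rw [h5]
    exact (Nat.Coprime.pow_right (k + 1) hmp).mul_dvd_of_dvd_of_dvd ((dvd_mul_right m _).trans (Nat.dvd_lcm_left _ _))
      ((pow_dvd_pow _ hE).trans (Nat.dvd_lcm_right _ _))

end up

end H46.SpecSemiUp
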