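import Mathlib
import Cfsg.Agent.Lib.H46.SpecSemiUp

/-! Element orders in dimension nine occur in the split extension of the natural module by an orthogonal group of minus type in dimension eight. -/

set_option autoImplicit false

namespace H46.SpecSemiDown

open Module QuadraticMap H17.OrthAbs H46.SForm H46.SForm.SForm H46.ProdUnit H17.SpecPO H46.TypeCnt H46.ThetaSp H46.OrdPSp H46.SqForm H46.FormSplit H46.BlockCongr
open H49.FormConj2 H46.SemiOrd H46.SpecSemi H46.SpecSemiUp H46.DecSU H46.Tri H46.BlNum H46.SpDich H46.TorusOrth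

section combo
variable {F : Type*} [Field F] [Finite F] (p : ℕ) [Fact p.Prime] [CharP F p]

variable {A₁ A₂ : Type*} [AddCommGroup A₁] [Module F A₁] [FiniteDimensional F A₁] [Finite A₁] [AddCommGroup A₂] [Module F A₂] [FiniteDimensional F A₂] [Finite A₂]
  {f₁ : SForm F A₁ (RingHom.id F)} {f₂ : SForm F A₂ (RingHom.id F)} {u₁ : (Module.End F A₁)ˣ} {u₂ : (Module.End F A₂)ˣ}

theorem combo_mi (h2 : (2 : F) ≠ 0) {a b : F} (hab : ∀ z₁ z₂ : F, z₁ ^ 2 + a * z₁ * z₂ + b * z₂ ^ 2 = 0 → z₁ = 0 ∧ z₂ = 0)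
    (s₁ : f₁.Sym 1) (s₂ : f₂.Sym 1) (n₁ : f₁.ND) (n₂ : f₂.ND) (hd : finrank F A₁ + finrank F A₂ = 8) {x y : ℕ} (hxy : x + y = 4) (hpl : ¬ (Pl f₁ x ↔ Pl f₂ y))
    (i₁ : f₁.Isom u₁) (i₂ : f₂.Isom u₂) (t₁ : ∀ c : F, c ≠ 0 → th f₁ c u₁ = -1) (t₂ : ∀ c : F, c ≠ 0 → th f₂ c u₂ = -1) {N : ℕ} (hN : N ∣ Nat.lcm (orderOf u₁) (orderOf u₂)) :
    N ∈ OrS p (stdM 3 F a b) := by
  apply mem_dvd h2 p hab (sym_prod s₁ s₂) (n₁.prod n₂) (by rw [Module.finrank_prod, hd]) (by rw [← hxy, pl_prod h2 s₁ s₂ n₁ n₂]; exact hpl) (i₁.prod i₂) _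
    (by rw [H46.Irr.orderOf_prodUnit]; exact hN)
  intro c hc
  rw [th_prod h2 s₁ s₂ n₁ n₂ hc i₁ i₂, t₁ c hc, t₂ c hc]
  rfl

theorem combo_blk (h2 : (2 : F) ≠ 0) {a b : F} (hab : ∀ z₁ z₂ : F, z₁ ^ 2 + a * z₁ * z₂ + b * z₂ ^ 2 = 0 → z₁ = 0 ∧ z₂ = 0)
    (s₁ : f₁.Sym 1) (s₂ : f₂.Sym 1) (n₁ : f₁.ND) (n₂ : f₂.ND) {e : ℕ} (hd : finrank F A₁ + finrank F A₂ + p ^ e < 8)
    (i₁ : f₁.Isom u₁) (i₂ : f₂.Isom u₂) (t₁ : ∀ c : F, c ≠ 0 → th f₁ c u₁ = -1) (t₂ : ∀ c : F, c ≠ 0 → th f₂ c u₂ = -1) {m : ℕ} (hm : (m : F) ≠ 0) (hmp : Nat.Coprime m p)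
    (hN : m ∣ Nat.lcm (orderOf u₁) (orderOf u₂)) : m * p ^ (e + 1) ∈ OrS p (stdM 3 F a b) := by
  apply blk' p h2 hab (sym_prod s₁ s₂) (n₁.prod n₂) e (by rw [Module.finrank_prod]; exact hd) (i₁.prod i₂) _ hm hmp (by rw [H46.Irr.orderOf_prodUnit]; exact hN)
  intro c hc
  rw [th_prod h2 s₁ s₂ n₁ n₂ hc i₁ i₂, t₁ c hc, t₂ c hc]
  rfl

end combo

section plus
variable {F : Type*} [Field F] [Finite F] (p : ℕ) [Fact p.Prime] [CharP F p]

theorem semi_half {q N j : ℕ} (hq : Ar q) (hc : Nat.Coprime N q) (h : q ^ 3 * (q ^ 4 - 1) = N * j) (he : Even (N * j + j)) : N ∣ (q ^ 4 - 1) / 2 := by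
  have h2 : 2 ∣ q ^ 4 - 1 := two_dvd_pow_sub hq 4
  obtain ⟨r, hr⟩ := h2
  have hr2 : (q ^ 4 - 1) / 2 = r := by omega
  rw [hr2]
  have hc3 : Nat.Coprime N (q ^ 3) := Nat.Coprime.pow_right 3 hc
  rw [hr] at h
  rcases Nat.even_or_odd N with hN | hN
  · -- `j` is even
    have hj : Even j := by
      rw [Nat.even_add] at he
      exact he.mp (hN.mul_right j)
    obtain ⟨j', rfl⟩ := hj
    have h3 : q ^ 3 * r = N * j' := by
      have : 2 * (q ^ 3 * r) = 2 * (N * j') := by linarith [h]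
      omega
    exact hc3.dvd_of_dvd_mul_left ⟨j', h3⟩
  · have h3 : N ∣ 2 * r := hc3.dvd_of_dvd_mul_left ⟨j, h⟩
    exact (Nat.Coprime.dvd_of_dvd_mul_left (Nat.coprime_two_right.mpr hN) h3)

theorem half_dvd_lcm {q : ℕ} (hq : Ar q) : (q ^ 4 - 1) / 2 ∣ Nat.lcm (q ^ (1 + 1) - 1) (q ^ (1 + 1) + 1) := by
  have h1 : 1 ≤ q ^ 2 := Nat.one_le_pow _ _ (by have := hq.three; omega)
  obtain ⟨r, hr⟩ := hq.odd
  have h4 : q ^ 2 = 4 * (r ^ 2 + r) + 1 := by rw [hr]; ring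
  have h5 : (q ^ 2 + 1) / 2 = 2 * (r ^ 2 + r) + 1 := by omega
  have h6 : q ^ 2 - 1 = 2 * (2 * (r ^ 2 + r)) := by omega
  rw [m0' hq]
  have hc : Nat.Coprime ((q ^ 2 + 1) / 2) (q ^ 2 - 1) := by
    rw [h5, h6]
    apply Nat.Coprime.mul_right
    · rw [Nat.coprime_two_right]
      exact ⟨r ^ 2 + r, rfl⟩
    · exact (Nat.coprime_self_add_left.mpr (Nat.coprime_one_left _))
  apply hc.mul_dvd_of_dvd_of_dvd
  · refine (Nat.dvd_trans ?_ (Nat.dvd_lcm_right _ _))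
    exact Nat.div_dvd_of_dvd (two_dvd_pow_add hq 2)
  · exact Nat.dvd_lcm_left _ _

theorem dvd_half {q m : ℕ} (hq : Ar q) (h : m ∣ q - 1 ∨ m ∣ q + 1) : m ∣ (q ^ (1 + 1) - 1) / 2 := by
  have h1 : q ^ (1 + 1) - 1 = (q + 1) * (q - 1) := by
    have := pow_sub_factor hq 1
    rwa [mul_one, pow_one] at this
  rw [h1]
  rcases h with h | h
  · rw [Nat.mul_div_right_comm (t2 hq)]
    exact h.trans (dvd_mul_left _ _)
  · rw [Nat.mul_div_assoc _ (t1 hq)]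
    exact h.trans (dvd_mul_right _ _)

theorem plus_case (h2 : (2 : F) ≠ 0) (hodd : Odd (Nat.card F)) {a b : F} (hab : ∀ z₁ z₂ : F, z₁ ^ 2 + a * z₁ * z₂ + b * z₂ ^ 2 = 0 → z₁ = 0 ∧ z₂ = 0)
    {V : Type*} [AddCommGroup V] [Module F V] [FiniteDimensional F V] [Finite V] {f : SForm F V (RingHom.id F)} (hs : f.Sym 1) (hn : f.ND)
    (hd : finrank F V = 8) (hpl : Pl f 4) {u : (Module.End F V)ˣ} (hu : f.Isom u) (hth : ∀ c : F, c ≠ 0 → th f c u = 1) {m i : ℕ} (hm : (m : F) ≠ 0) (hmp : Nat.Coprime m p)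
    (ho : orderOf u = m * p ^ i) : m * p ^ i ∈ OrS p (stdM 3 F a b) := by
  have hp : p.Prime := Fact.out
  have hp2 : p ≠ 2 := by
    rintro rfl
    exact h2 (by exact_mod_cast CharP.cast_eq_zero F 2)
  haveI : Finite (Module.End F V) := Finite.of_injective (fun g => (g : V → V)) DFunLike.coe_injective
  haveI : Nontrivial V := Module.nontrivial_of_finrank_pos (R := F) (by omega)
  obtain ⟨q, hq⟩ : ∃ q, q = Nat.card F := ⟨_, rfl⟩
  have hq1 : 1 < Nat.card F := Finite.one_lt_card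
  have har : Ar (Nat.card F) := ⟨hodd, by
    rcases hodd with ⟨k, hk⟩
    omega⟩
  obtain ⟨x, y, hx, hy, hxy⟩ := exists_split_pow ho (Nat.Coprime.pow_right i hmp)
  have hct : Commute (u ^ y) (u ^ x) := (Commute.refl u).pow_pow y x
  have hsi := hu.pow x
  have hti := hu.pow y
  have hmpos : 0 < m := Nat.pos_of_ne_zero (by rintro rfl; exact hm Nat.cast_zero)
  -- orders of the parts
  have hms : ∀ N, (u ^ x) ^ N = 1 → m ∣ N := by
    intro N hN
    have h1 : u ^ (N * p ^ i) = 1 := by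
      rw [← hxy, hct.symm.mul_pow, pow_mul, hN, one_pow, one_mul, mul_comm N, pow_mul, hy, one_pow]
    have h3 := orderOf_dvd_of_pow_eq_one h1
    rw [ho] at h3
    exact Nat.dvd_of_mul_dvd_mul_right (pow_pos hp.pos _) h3
  have hit : ∀ j, (u ^ y) ^ p ^ j = 1 → i ≤ j := by
    intro j hj
    have h1 : u ^ (m * p ^ j) = 1 := by
      rw [← hxy, hct.symm.mul_pow, pow_mul, hx, one_pow, one_mul, mul_comm m, pow_mul, hj, one_pow]
    have h3 := orderOf_dvd_of_pow_eq_one h1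
    rw [ho] at h3
    exact (Nat.pow_dvd_pow_iff_le_right hp.one_lt).mp (Nat.dvd_of_mul_dvd_mul_left hmpos h3)
  rcases Nat.eq_zero_or_pos i with h0 | h0
  · -- semisimple elements
    subst h0
    rw [pow_zero, mul_one] at ho ⊢
    have hum : u ^ m = 1 := by rw [← ho]; exact pow_orderOf_eq_one u
    have key : m ∣ (Nat.card F ^ 4 - 1) / 2 ∨ m ∣ Nat.lcm (Nat.card F ^ 3 - 1) (Nat.card F + 1) ∨ m ∣ Nat.lcm (Nat.card F ^ 3 + 1) (Nat.card F - 1) := by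
      rcases tri p h2 hs hn hu Isom.one (Commute.one_left u) hm hum (j := 0) (one_pow _) with ⟨W₁, W₂, hW, hW₁, hW₂, horth, hinv⟩ | ⟨-, hsr⟩
      · obtain ⟨hs₁, hs₂⟩ := hinv _ (Commute.refl (u : Module.End F V))
        obtain ⟨u₁, u₂, a₁, a₂⟩ := exists_split hs₁ hs₂
        obtain ⟨s₁, s₂, n₁, n₂, i₁, i₂, hoo, -⟩ := split h2 hs hn hW horth hu a₁ a₂
        have hfs := Submodule.finrank_add_eq_of_isCompl hW
        have hp1 : 0 < finrank F W₁ := by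
          rw [Nat.pos_iff_ne_zero, Ne, Submodule.finrank_eq_zero]; exact hW₁
        have hp2 : 0 < finrank F W₂ := by
          rw [Nat.pos_iff_ne_zero, Ne, Submodule.finrank_eq_zero]; exact hW₂
        have hm1 : u₁ ^ m = 1 := by
          apply orderOf_dvd_iff_pow_eq_one.mp
          rw [← ho, hoo]; exact Nat.dvd_lcm_left _ _
        have hm2 : u₂ ^ m = 1 := by
          apply orderOf_dvd_iff_pow_eq_one.mp
          rw [← ho, hoo]; exact Nat.dvd_lcm_right _ _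
        obtain ⟨N₁, j₁, b₁, c₁, -⟩ := exists_bl p h2 (finrank F W₁) s₁ n₁ i₁ Isom.one (Commute.one_left u₁) hm hm1 (j := 0) (one_pow _) rfl hp1
        obtain ⟨N₂, j₂, b₂, c₂, -⟩ := exists_bl p h2 (finrank F W₂) s₂ n₂ i₂ Isom.one (Commute.one_left u₂) hm hm2 (j := 0) (one_pow _) rfl hp2
        have hdv : m ∣ Nat.lcm N₁ N₂ := by
          rw [← ho, hoo]
          exact Nat.lcm_dvd ((orderOf_dvd_of_pow_eq_one c₁).trans (Nat.dvd_lcm_left _ _)) ((orderOf_dvd_of_pow_eq_one c₂).trans (Nat.dvd_lcm_right _ _))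
        rcases eight har b₁ b₂ (by rw [hfs, hd]) with h | h | h
        · exact Or.inl (hdv.trans h)
        · exact Or.inr (Or.inl (hdv.trans h))
        · exact Or.inr (Or.inr (hdv.trans h))
      · left
        rcases Nat.lt_or_ge 1 m with h1 | h1
        · obtain ⟨j, hj, hsg⟩ := semireg hu (by rw [ho]; exact h1) (fun v hv k hk => orderOf_dvd_of_pow_eq_one (hsr v hv k hk)) (one_ne_zero (α := F))
          have hcnt := cnt_pl h2 hs hn (d := 3) (by rw [hd]) hpl (one_ne_zero (α := F))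
          rw [hj, ho] at hcnt
          rw [hth 1 one_ne_zero, ho] at hsg
          apply semi_half har (j := j)
          · -- coprimality
            haveI := Fintype.ofFinite F
            obtain ⟨n, -, hn'⟩ := FiniteField.card F p
            rw [Nat.card_eq_fintype_card, hn']
            exact Nat.Coprime.pow_right _ hmp
          · have h3 : 1 ≤ Nat.card F ^ 4 := Nat.one_le_pow _ _ (by omega)
            have h5 : Nat.card F ^ 3 * (Nat.card F ^ 4 - 1) + Nat.card F ^ 3 = Nat.card F ^ (2 * 3 + 1) := by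
              have : Nat.card F ^ 3 * (Nat.card F ^ 4 - 1) + Nat.card F ^ 3 = Nat.card F ^ 3 * (Nat.card F ^ 4 - 1 + 1) := by ring
              rw [this, Nat.sub_add_cancel h3]; ring
            omega
          · by_contra hcon
            rw [Nat.not_even_iff_odd] at hcon
            rw [hcon.neg_one_pow] at hsg
            exact absurd hsg (by decide)
        · have : m = 1 := by omega
          rw [this]; exact one_dvd _
    rcases key with h | h | h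
    · obtain ⟨A₁, _, _, _, _, f₁, w₁, s₁, n₁, d₁, p₁, i₁, o₁, t₁⟩ := torus_pl (F := F) h2 hodd 1
      obtain ⟨A₂, _, _, _, _, f₂, w₂, s₂, n₂, d₂, p₂, i₂, o₂, t₂⟩ := torus_mi (F := F) h2 hodd 1
      refine combo_mi p h2 hab s₁ s₂ n₁ n₂ (by omega) (x := 2) (y := 2) rfl (fun h' => p₂ (h'.mp p₁)) i₁ i₂ t₁ t₂ (h.trans ?_)
      rw [o₁, o₂]
      exact half_dvd_lcm har
    · obtain ⟨A₁, _, _, _, _, f₁, w₁, s₁, n₁, d₁, p₁, i₁, o₁, t₁⟩ := torus_pl (F := F) h2 hodd 2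
      obtain ⟨A₂, _, _, _, _, f₂, w₂, s₂, n₂, d₂, p₂, i₂, o₂, t₂⟩ := torus_mi (F := F) h2 hodd 0
      refine combo_mi p h2 hab s₁ s₂ n₁ n₂ (by omega) (x := 3) (y := 1) rfl (fun h' => p₂ (h'.mp p₁)) i₁ i₂ t₁ t₂ ?_
      rw [o₁, o₂, zero_add, pow_one]
      exact h
    · obtain ⟨A₁, _, _, _, _, f₁, w₁, s₁, n₁, d₁, p₁, i₁, o₁, t₁⟩ := torus_mi (F := F) h2 hodd 2
      obtain ⟨A₂, _, _, _, _, f₂, w₂, s₂, n₂, d₂, p₂, i₂, o₂, t₂⟩ := torus_pl (F := F) h2 hodd 0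
      refine combo_mi p h2 hab s₁ s₂ n₁ n₂ (by omega) (x := 3) (y := 1) rfl (fun h' => p₁ (h'.mpr p₂)) i₁ i₂ t₁ t₂ ?_
      rw [o₁, o₂, zero_add, pow_one]
      exact h
  · -- mixed elements
    obtain ⟨N, j', bl, hsN, htj⟩ := exists_bl p h2 8 hs hn hsi hti hct hm hx hy hd (by norm_num)
    have hmN := hms N hsN
    have hij := hit j' htj
    have hi3 : i < 3 := by
      by_contra hcon
      have := claimE (by have := hp.two_le; omega) bl (by omega)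
      omega
    rcases Nat.lt_or_ge i 2 with h1 | h1
    · have hi1 : i = 0 + 1 := by omega
      rw [hi1]
      obtain ⟨-, -, -, -, -, h8⟩ := claimA har bl (by omega)
      rcases h8 le_rfl with h | h | h
      · obtain ⟨A₁, _, _, _, _, f₁, w₁, s₁, n₁, d₁, p₁, i₁, o₁, t₁⟩ := torus_pl (F := F) h2 hodd 1
        obtain ⟨A₂, _, _, _, _, f₂, w₂, s₂, n₂, d₂, p₂, i₂, o₂, t₂⟩ := torus_pl (F := F) h2 hodd 0
        refine combo_blk p h2 hab s₁ s₂ n₁ n₂ (e := 0) (by rw [pow_zero]; omega) i₁ i₂ t₁ t₂ hm hmp ((hmN.trans h).trans ?_)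
        rw [o₁]
        exact Nat.dvd_lcm_left _ _
      · obtain ⟨A₁, _, _, _, _, f₁, w₁, s₁, n₁, d₁, p₁, i₁, o₁, t₁⟩ := torus_mi (F := F) h2 hodd 1
        obtain ⟨A₂, _, _, _, _, f₂, w₂, s₂, n₂, d₂, p₂, i₂, o₂, t₂⟩ := torus_pl (F := F) h2 hodd 0
        refine combo_blk p h2 hab s₁ s₂ n₁ n₂ (e := 0) (by rw [pow_zero]; omega) i₁ i₂ t₁ t₂ hm hmp (hmN.trans ?_)
        rw [o₁, o₂, zero_add, pow_one]
        exact h
      · obtain ⟨A₁, _, _, _, _, f₁, w₁, s₁, n₁, d₁, p₁, i₁, o₁, t₁⟩ := torus_mi (F := F) h2 hodd 1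
        obtain ⟨A₂, _, _, _, _, f₂, w₂, s₂, n₂, d₂, p₂, i₂, o₂, t₂⟩ := torus_mi (F := F) h2 hodd 0
        refine combo_blk p h2 hab s₁ s₂ n₁ n₂ (e := 0) (by rw [pow_zero]; omega) i₁ i₂ t₁ t₂ hm hmp (hmN.trans ?_)
        rw [o₁, o₂, zero_add, pow_one]
        exact h
    · have hi2 : i = 1 + 1 := by omega
      rw [hi2]
      obtain ⟨-, -, h8⟩ := claimC har hp hp2 bl (by omega)
      rcases h8 le_rfl with ⟨h3, h⟩ | ⟨h5, h⟩
      · obtain ⟨A₁, _, _, _, _, f₁, w₁, s₁, n₁, d₁, p₁, i₁, o₁, t₁⟩ := torus_pl (F := F) h2 hodd 1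
        haveI : Finite (Module.End F A₁) := Finite.of_injective (fun g => (g : A₁ → A₁)) DFunLike.coe_injective
        refine blk' p h2 hab s₁ n₁ 1 (by rw [h3]; omega) (i₁.pow 2) (fun c hc => th_sq c i₁) hm hmp (hmN.trans ?_)
        have hq2 : 2 ∣ Nat.card F ^ 2 - 1 := two_dvd_pow_sub har 2
        have hor : orderOf (w₁ ^ 2) = (Nat.card F ^ 2 - 1) / 2 := by
          rw [orderOf_pow_of_dvd two_ne_zero (by rw [o₁]; exact hq2), o₁]
        rw [hor]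
        exact dvd_half har h
      · refine blk' p h2 hab (H17.SpecStr.planeF_sym F) (H17.SpecStr.planeF_nd F) 1 (by rw [h5, Module.finrank_prod, Module.finrank_self]; norm_num) ((H17.SpecStr.rot_isom F).pow 2)
          (fun c hc => th_sq c (H17.SpecStr.rot_isom F)) hm hmp (hmN.trans ?_)
        rw [H17.SpecStr.orderOf_rot_sq F h2]
        exact h

end plus

end H46.SpecSemiDown
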