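import Mathlib
import Cfsg.Agent.Lib.H46.SpecSemiDown

/-! The two sets of element orders agree. -/

set_option autoImplicit false

namespace H46.SpecSemiMain

open Module QuadraticMap H17.OrthAbs H46.SForm H46.SForm.SForm H46.ProdUnit H17.SpecPO H46.TypeCnt H46.ThetaSp H46.OrdPSp H46.SqForm H46.FormSplit H46.BlockCongr
open H49.FormConj2 H46.SemiOrd H46.SpecSemi H46.SpecSemiUp H46.SpecSemiDown H46.DecSU H46.Tri H46.BlNum H46.SpDich H46.TorusOrth

universe u

variable {F : Type u} [Field F] [Finite F] (p : ℕ) [Fact p.Prime] [CharP F p]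

theorem subset_down (h2 : (2 : F) ≠ 0) (hodd : Odd (Nat.card F)) {a b : F} (hab : ∀ z₁ z₂ : F, z₁ ^ 2 + a * z₁ * z₂ + b * z₂ ^ 2 = 0 → z₁ = 0 ∧ z₂ = 0) :
    Set.range (orderOf : Cfsg.POmega F (Cfsg.quadFormOdd 4 F) → ℕ) ⊆ OrS p (stdM 3 F a b) := by
  have hp : p.Prime := Fact.out
  have hpo : Odd p := by
    rcases hp.eq_two_or_odd' with h | h
    · exfalso
      subst h
      exact h2 (by exact_mod_cast CharP.cast_eq_zero F 2)
    · exact h
  rintro _ ⟨x, rfl⟩
  obtain ⟨u, hu, ho⟩ := exists_of_mem h2 (n := 4) (by norm_num) x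
  rw [← ho]
  have hs := stdO_sym 4 F
  have hn := stdO_nd h2 4
  have hd := stdO_finrank 4 F
  have hui := isom_of_mem h2 hs hu
  obtain ⟨D⟩ := exists_dec p h2 hs hn hui (H17.SpecStr.det_of_mem hu)
  obtain ⟨m, k, i, j, W, U, uW, uU, hm, hmp, hord, hk, hWU, sW, sU, nW, nU, iW, iU, oW, oU, hth, aW, aU, fW, ev⟩ := D
  haveI : Finite W := Module.finite_of_finite F
  haveI : Finite U := Module.finite_of_finite F
  have hfs := Submodule.finrank_add_eq_of_isCompl hWU
  rw [hd] at hfs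
  have htW : ∀ c : F, c ≠ 0 → th (f := (stdO 4 F).pull W.subtype) c uW = 1 := by
    intro c hc
    have h3 := hth c hc
    rw [th_odd c iU (hpo.pow (n := j)) (by rw [← oU]; exact pow_orderOf_eq_one uU), mul_one] at h3
    rw [← h3]
    exact (mem_iff h2 hs hn (by omega) hui).mp hu c hc
  obtain ⟨r, hr⟩ := ev
  rcases Nat.lt_or_ge (finrank F W) 8 with hlt | hge
  · rcases le_or_gt j i with hji | hji
    · have h1 : k = i := by rw [hk, max_eq_left hji]
      rw [hord, h1, ← oW]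
      exact free h2 p hab sW nW hlt iW htW
    · have h1 : k = j := by rw [hk, max_eq_right hji.le]
      obtain ⟨j', rfl⟩ : ∃ j', j = j' + 1 := ⟨j - 1, by omega⟩
      have h3 := unip_lt p oU
      obtain ⟨s, hs'⟩ : Odd (p ^ j') := hpo.pow
      rw [hord, h1]
      exact blk p h2 hab sW nW j' (by omega) iW htW hm hmp oW (by omega)
  · have hU : finrank F U = 1 := by omega
    have hW8 : finrank F W = 8 := by omega
    have hj : j = 0 := by
      rcases Nat.eq_zero_or_pos j with h0 | h0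
      · exact h0
      · obtain ⟨j', rfl⟩ : ∃ j', j = j' + 1 := ⟨j - 1, by omega⟩
        have h3 := unip_lt p oU
        have : 0 < p ^ j' := pow_pos hp.pos _
        omega
    have h1 : k = i := by rw [hk, hj, Nat.max_zero]
    rw [hord, h1]
    by_cases hpl : Pl ((stdO 4 F).pull W.subtype) 4
    · exact plus_case p h2 hodd hab sW nW hW8 hpl iW htW hm hmp oW
    · rw [← oW]
      exact mem_dvd h2 p hab sW nW hW8 hpl iW htW dvd_rfl

theorem range_eq_OrS (h2 : (2 : F) ≠ 0) (hodd : Odd (Nat.card F)) {a b : F} (hab : ∀ z₁ z₂ : F, z₁ ^ 2 + a * z₁ * z₂ + b * z₂ ^ 2 = 0 → z₁ = 0 ∧ z₂ = 0) :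
    Set.range (orderOf : Cfsg.POmega F (Cfsg.quadFormOdd 4 F) → ℕ) = OrS p (stdM 3 F a b) :=
  Set.Subset.antisymm (subset_down p h2 hodd hab) (subset_up p h2 (stdM_sym 3) (stdM_nd 3 h2 hab) (finrank_stdM 3))

end H46.SpecSemiMain
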