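import Mathlib

/-! Intersections of Sylow subgroups which are centralisers. -/

set_option autoImplicit false

open scoped Pointwise

namespace H46.SylInt

/-- if the centraliser of `t` is a maximal `p`-subgroup, and every two conjugates of `t` have a common nontrivial centralising element,
then any two Sylow subgroups meet non-trivially -/
theorem inf_ne_bot {G : Type*} [Group G] [Finite G] {p : ℕ} [Fact p.Prime] (t : G) (ht : t ≠ 1)
    (hC : IsPGroup p (Subgroup.centralizer ({t} : Set G)))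
    (hmax : ∀ z : G, z ≠ 1 → (∀ c : G, c * t = t * c → z * c = c * z) → ∀ c : G, c * z = z * c → c * t = t * c)
    (hint : ∀ x : G, ∃ z : G, z ≠ 1 ∧ z * t = t * z ∧ z * (x * t * x⁻¹) = (x * t * x⁻¹) * z)
    (H : Sylow p G) (x : G) : (H : Subgroup G) ⊓ MulAut.conj x • (H : Subgroup G) ≠ ⊥ := by
  have hmemC : ∀ c : G, c ∈ Subgroup.centralizer ({t} : Set G) ↔ c * t = t * c := fun c => Subgroup.mem_centralizer_singleton_iff
  obtain ⟨S, hS⟩ := hC.exists_le_sylow
  have htS : t ∈ (S : Subgroup G) := hS ((hmemC t).mpr rfl)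
  haveI : Nontrivial (S : Subgroup G) := ⟨⟨⟨t, htS⟩, 1, fun h => ht (congrArg Subtype.val h)⟩⟩
  have hSC : (S : Subgroup G) = Subgroup.centralizer ({t} : Set G) := by
    apply le_antisymm _ hS
    haveI := S.isPGroup'.center_nontrivial
    obtain ⟨⟨z, hz⟩, hz1⟩ := exists_ne (1 : Subgroup.center (S : Subgroup G))
    have hzc : ∀ g ∈ (S : Subgroup G), g * z = z * g := fun g hg => congrArg Subtype.val (Subgroup.mem_center_iff.mp hz ⟨g, hg⟩)
    intro g hg
    rw [hmemC]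
    apply hmax (z : G) _ _ g (hzc g hg)
    · intro h
      exact hz1 (Subtype.ext (Subtype.ext h))
    · intro c hc
      exact (hzc c (hS ((hmemC c).mpr hc))).symm
  obtain ⟨g, rfl⟩ := MulAction.exists_smul_eq G S H
  obtain ⟨z, hz1, hz2, hz3⟩ := hint (g⁻¹ * x * g)
  intro hbot
  have hmem : g * z * g⁻¹ ∈ ((g • S : Sylow p G) : Subgroup G) ⊓ MulAut.conj x • ((g • S : Sylow p G) : Subgroup G) := by
    rw [Sylow.coe_subgroup_smul, hSC]
    refine ⟨?_, ?_⟩
    · show g * z * g⁻¹ ∈ MulAut.conj g • Subgroup.centralizer ({t} : Set G)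
      rw [Subgroup.mem_pointwise_smul_iff_inv_smul_mem, hmemC, ← MulAut.conj.map_inv, MulAut.smul_def, MulAut.conj_apply]
      simpa [mul_assoc] using hz2
    · show g * z * g⁻¹ ∈ MulAut.conj x • (MulAut.conj g • Subgroup.centralizer ({t} : Set G))
      rw [smul_smul, ← map_mul, Subgroup.mem_pointwise_smul_iff_inv_smul_mem, hmemC, ← MulAut.conj.map_inv, MulAut.smul_def, MulAut.conj_apply]
      have h1 : g⁻¹ * x⁻¹ * g * z * (g⁻¹ * x * g) * t = g⁻¹ * x⁻¹ * g * (z * (g⁻¹ * x * g * t * (g⁻¹ * x * g)⁻¹)) * (g⁻¹ * x * g) := by group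
      have h2 : t * (g⁻¹ * x⁻¹ * g * z * (g⁻¹ * x * g)) = g⁻¹ * x⁻¹ * g * ((g⁻¹ * x * g * t * (g⁻¹ * x * g)⁻¹) * z) * (g⁻¹ * x * g) := by group
      have h3 : (x * g)⁻¹ * (g * z * g⁻¹) * ((x * g)⁻¹)⁻¹ = g⁻¹ * x⁻¹ * g * z * (g⁻¹ * x * g) := by group
      rw [h3, h1, h2, hz3]
  rw [hbot, Subgroup.mem_bot] at hmem
  apply hz1
  have : z = g⁻¹ * (g * z * g⁻¹) * g := by group
  rw [this, hmem]; group

end H46.SylInt
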