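import Mathlib
import Cfsg.Agent.Lib.H46.SylInt

/-! More on Sylow subgroups which are centralisers; fixed involutions; conjugacy class sizes. -/

set_option autoImplicit false

open scoped Pointwise

namespace H46.SylInt

/-- if a Sylow subgroup is the centraliser of `t`, and every two conjugates of `t` have a common nontrivial centralising element,
then any two Sylow subgroups meet non-trivially -/
theorem inf_ne_bot_of_sylow {G : Type*} [Group G] [Finite G] {p : ℕ} [Fact p.Prime] (t : G) (S : Sylow p G)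
    (hSC : (S : Subgroup G) = Subgroup.centralizer ({t} : Set G))
    (hint : ∀ x : G, ∃ z : G, z ≠ 1 ∧ z * t = t * z ∧ z * (x * t * x⁻¹) = (x * t * x⁻¹) * z)
    (H : Sylow p G) (x : G) : (H : Subgroup G) ⊓ MulAut.conj x • (H : Subgroup G) ≠ ⊥ := by
  have hmemC : ∀ c : G, c ∈ Subgroup.centralizer ({t} : Set G) ↔ c * t = t * c := fun c => Subgroup.mem_centralizer_singleton_iff
  obtain ⟨g, rfl⟩ := MulAction.exists_smul_eq G S H
  obtain ⟨z, hz1, hz2, hz3⟩ := hint (g⁻¹ * x * g)
  intro hbot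
  have hmem : g * z * g⁻¹ ∈ ((g • S : Sylow p G) : Subgroup G) ⊓ MulAut.conj x • ((g • S : Sylow p G) : Subgroup G) := by
    rw [Sylow.coe_subgroup_smul, hSC]
    refine ⟨?_, ?_⟩
    · show g * z * g⁻¹ ∈ MulAut.conj g • Subgroup.centralizer ({t} : Set G)
      rw [Subgroup.mem_pointwise_smul_iff_inv_smul_mem, hmemC, ← MulAut.conj.map_inv, MulAut.smul_def, MulAut.conj_apply]
      simpa [mul_assoc] using hz2
    · show g * z * g⁻¹ ∈ MulAut.conj x • (MulAut.conj g • Subgroup.centralizer ({t} : Set G))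
      rw [smul_smul, ← map_mul, Subgroup.mem_pointwise_smul_iff_inv_smul_mem, hmemC, ← MulAut.conj.map_inv, MulAut.smul_def, MulAut.conj_apply]
      have h1 : g⁻¹ * x⁻¹ * g * z * (g⁻¹ * x * g) * t = g⁻¹ * x⁻¹ * g * (z * (g⁻¹ * x * g * t * (g⁻¹ * x * g)⁻¹)) * (g⁻¹ * x * g) := by group
      have h2 : t * (g⁻¹ * x⁻¹ * g * z * (g⁻¹ * x * g)) = g⁻¹ * x⁻¹ * g * ((g⁻¹ * x * g * t * (g⁻¹ * x * g)⁻¹) * z) * (g⁻¹ * x * g) := by group
      have h3 : (x * g)⁻¹ * (g * z * g⁻¹) * ((x * g)⁻¹)⁻¹ = g⁻¹ * x⁻¹ * g * z * (g⁻¹ * x * g) := by group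
      rw [h3, h1, h2, hz3]
  rw [hbot, Subgroup.mem_bot] at hmem
  apply hz1
  have : z = g⁻¹ * (g * z * g⁻¹) * g := by group
  rw [this, hmem]; group

/-- an involutory element normalising a subgroup of even order centralises a nontrivial element of it -/
theorem exists_fixed {K : Type*} [Group K] [Finite K] (C : Subgroup K) (t : K) (ht : t * t = 1) (hn : ∀ c ∈ C, t * c * t⁻¹ ∈ C)
    (hC : 2 ∣ Nat.card C) : ∃ z ∈ C, z ≠ 1 ∧ z * t = t * z := by
  classical
  haveI : Fact (Nat.Prime 2) := ⟨Nat.prime_two⟩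
  letI := Fintype.ofFinite K
  -- the inversion
  let σ : Function.End C := fun c => c⁻¹
  have hσ : σ ^ 2 ^ 1 = 1 := by
    rw [pow_one, pow_two]
    funext c
    exact inv_inv c
  have h1 := Equiv.Perm.card_fixedPoints_modEq (p := 2) (n := 1) (f := σ) hσ
  let X := {c : C // c * c = 1}
  have h2 : 2 ∣ Fintype.card X := by
    have h3 : Fintype.card (Function.fixedPoints σ) = Fintype.card X := by
      apply Fintype.card_congr
      refine Equiv.subtypeEquivRight (fun c => ?_)
      show c⁻¹ = c ↔ c * c = 1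
      constructor
      · intro h; nth_rewrite 1 [← h]; exact inv_mul_cancel c
      · intro h; exact inv_eq_of_mul_eq_one_left h
    rw [← h3]
    rw [Nat.card_eq_fintype_card] at hC
    exact (Nat.modEq_zero_iff_dvd).mp (h1.symm.trans ((Nat.modEq_zero_iff_dvd).mpr hC))
  let τ : Equiv.Perm X :=
    { toFun := fun c => ⟨⟨t * c.1.1 * t⁻¹, hn _ c.1.2⟩, by
        apply Subtype.ext
        have h := congrArg Subtype.val c.2
        show t * (c.1 : K) * t⁻¹ * (t * (c.1 : K) * t⁻¹) = 1
        have h' : (c.1 : K) * (c.1 : K) = 1 := h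
        calc t * (c.1 : K) * t⁻¹ * (t * (c.1 : K) * t⁻¹) = t * ((c.1 : K) * (c.1 : K)) * t⁻¹ := by group
          _ = 1 := by rw [h']; group⟩
      invFun := fun c => ⟨⟨t * c.1.1 * t⁻¹, hn _ c.1.2⟩, by
        apply Subtype.ext
        have h := congrArg Subtype.val c.2
        show t * (c.1 : K) * t⁻¹ * (t * (c.1 : K) * t⁻¹) = 1
        have h' : (c.1 : K) * (c.1 : K) = 1 := h
        calc t * (c.1 : K) * t⁻¹ * (t * (c.1 : K) * t⁻¹) = t * ((c.1 : K) * (c.1 : K)) * t⁻¹ := by group
          _ = 1 := by rw [h']; group⟩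
      left_inv := by
        intro c
        apply Subtype.ext
        apply Subtype.ext
        show t * (t * (c.1 : K) * t⁻¹) * t⁻¹ = c.1
        calc t * (t * (c.1 : K) * t⁻¹) * t⁻¹ = (t * t) * (c.1 : K) * (t * t)⁻¹ := by group
          _ = c.1 := by rw [ht]; group
      right_inv := by
        intro c
        apply Subtype.ext
        apply Subtype.ext
        show t * (t * (c.1 : K) * t⁻¹) * t⁻¹ = c.1
        calc t * (t * (c.1 : K) * t⁻¹) * t⁻¹ = (t * t) * (c.1 : K) * (t * t)⁻¹ := by group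
          _ = c.1 := by rw [ht]; group }
  have hτ : τ ^ 2 ^ 1 = 1 := by
    rw [pow_one, pow_two]
    ext c
    show t * (t * (c.1 : K) * t⁻¹) * t⁻¹ = c.1
    calc t * (t * (c.1 : K) * t⁻¹) * t⁻¹ = (t * t) * (c.1 : K) * (t * t)⁻¹ := by group
      _ = c.1 := by rw [ht]; group
  obtain ⟨b, hb, hb1⟩ := Equiv.Perm.exists_fixed_point_of_prime' h2 hτ (a := ⟨1, one_mul 1⟩) (by
    apply Subtype.ext
    apply Subtype.ext
    show t * 1 * t⁻¹ = 1
    group)
  refine ⟨b.1, b.1.2, ?_, ?_⟩
  · intro h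
    apply hb1
    apply Subtype.ext
    apply Subtype.ext
    exact h
  · have h := congrArg (fun x : X => (x.1 : K)) hb
    have h' : t * (b.1 : K) * t⁻¹ = b.1 := h
    rw [mul_inv_eq_iff_eq_mul] at h'
    exact h'.symm

/-- bound for conjugacy classes -/
theorem index_centralizer_le {G : Type*} [Group G] [Finite G] (x : G) (S : Set G) (hS : ∀ g : G, g * x * g⁻¹ ∈ S) :
    (Subgroup.centralizer ({x} : Set G)).index ≤ Nat.card S := by
  apply Nat.card_le_card_of_injective (fun a : G ⧸ Subgroup.centralizer ({x} : Set G) => Quotient.liftOn' a (fun g => (⟨g * x * g⁻¹, hS g⟩ : S)) (by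
    intro a b hab
    rw [QuotientGroup.leftRel_apply, Subgroup.mem_centralizer_singleton_iff] at hab
    apply Subtype.ext
    show a * x * a⁻¹ = b * x * b⁻¹
    have h1 : a * (a⁻¹ * b * x) * b⁻¹ = a * (x * (a⁻¹ * b)) * b⁻¹ := by rw [hab]
    calc a * x * a⁻¹ = a * (x * (a⁻¹ * b)) * b⁻¹ := by group
      _ = b * x * b⁻¹ := by rw [← h1]; group))
  intro a b
  induction a using Quotient.inductionOn' with | h a => ?_
  induction b using Quotient.inductionOn' with | h b => ?_
  intro h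
  apply Quotient.sound'
  rw [QuotientGroup.leftRel_apply, Subgroup.mem_centralizer_singleton_iff]
  have h1 : a * x * a⁻¹ = b * x * b⁻¹ := congrArg Subtype.val h
  calc a⁻¹ * b * x = a⁻¹ * (b * x * b⁻¹) * b := by group
    _ = x * (a⁻¹ * b) := by rw [← h1]; group

end H46.SylInt
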