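import Mathlib
import Cfsg.Agent.Lib.H46.ExtElt

/-! Two by two matrices with irreducible characteristic polynomial, for the squares of classes in `PSp(4,q)`. -/

set_option autoImplicit false

namespace H46.TwA

open Matrix

/-- the parameters -/
theorem exists_param (F : Type*) [Field F] [Finite F] (h3 : 3 ≤ Nat.card F) : ∃ τ δ : F, τ ≠ 0 ∧ δ ≠ 0 ∧ δ ≠ 1 ∧
    (∀ c : F, c * c - τ * c + δ ≠ 0) ∧ (!![0, -δ; 1, τ] : Matrix (Fin 2) (Fin 2) F) ^ (Nat.card F ^ 2 - 1) = 1 := by
  classical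
  have : Fintype F := Fintype.ofFinite F
  obtain ⟨K, _, _, _, hfr, hcard⟩ := H46.ExtElt.exists_field_ext F 2 (by norm_num)
  have : Fintype K := Fintype.ofFinite K
  obtain ⟨z, hz⟩ := H46.ExtElt.exists_unit_orderOf K (Nat.card K - 1) dvd_rfl
  rw [hcard] at hz
  set q := Nat.card F with hq
  have hqF : Fintype.card F = q := by rw [hq, Nat.card_eq_fintype_card]
  set ζ : K := (z : K) with hζ
  have hζ0 : ζ ≠ 0 := z.ne_zero
  have hpow : ∀ n : ℕ, ζ ^ n = 1 → q ^ 2 - 1 ∣ n := by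
    intro n hn
    rw [← hz]
    apply orderOf_dvd_of_pow_eq_one
    ext
    rw [Units.val_pow_eq_pow_val, Units.val_one]
    exact hn
  have hq2 : q ^ 2 - 1 = (q - 1) * (q + 1) := by
    zify [show 1 ≤ q ^ 2 from Nat.one_le_pow _ _ (by omega), show 1 ≤ q by omega]
    ring
  have hfin : Module.Finite F K := Module.finite_of_finrank_pos (by rw [hfr]; norm_num)
  let b : Module.Basis (Fin 2) F K := Module.finBasisOfFinrankEq F K hfr
  set M : Matrix (Fin 2) (Fin 2) F := Algebra.leftMulMatrix b ζ with hM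
  set τ : F := M 0 0 + M 1 1 with hτ
  set δ : F := M 0 0 * M 1 1 - M 0 1 * M 1 0 with hδ
  have hCH : M * M = τ • M - δ • (1 : Matrix (Fin 2) (Fin 2) F) := by
    ext i j
    fin_cases i <;> fin_cases j <;> simp [Matrix.mul_apply, Fin.sum_univ_two, hτ, hδ] <;> ring
  have hrel : ζ * ζ - algebraMap F K τ * ζ + algebraMap F K δ = 0 := by
    apply Algebra.leftMulMatrix_injective b
    rw [map_zero, map_add, map_sub, map_mul, map_mul, ← hM, hCH, AlgHom.commutes, AlgHom.commutes,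
      Algebra.algebraMap_eq_smul_one, Algebra.algebraMap_eq_smul_one, Matrix.smul_mul, Matrix.one_mul]
    abel
  -- `ζ` is not in `F`
  have hnot : ∀ c : F, algebraMap F K c ≠ ζ := by
    intro c hc
    have hc0 : c ≠ 0 := by
      rintro rfl
      rw [map_zero] at hc
      exact hζ0 hc.symm
    have h1 : ζ ^ (q - 1) = 1 := by
      rw [← hc, ← map_pow, ← hqF, FiniteField.pow_card_sub_one_eq_one c hc0, map_one]
    have h2 := Nat.le_of_dvd (by omega) (hpow _ h1)
    rw [hq2] at h2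
    nlinarith [Nat.sub_pos_of_lt (show 1 < q by omega)]
  have hroot : ∀ c : F, c * c - τ * c + δ ≠ 0 := by
    intro c hc
    have h1 : (ζ - algebraMap F K c) * (ζ - algebraMap F K (τ - c)) = 0 := by
      have h2 := congrArg (algebraMap F K) hc
      rw [map_add, map_sub, map_mul, map_mul, map_zero] at h2
      rw [map_sub]
      linear_combination hrel - h2
    rcases mul_eq_zero.mp h1 with h1 | h1
    · exact hnot _ (sub_eq_zero.mp h1).symm
    · exact hnot _ (sub_eq_zero.mp h1).symm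
  -- the conjugate
  have hfrob : ζ ^ q * ζ ^ q - algebraMap F K τ * ζ ^ q + algebraMap F K δ = 0 := by
    have h1 := congrArg (FiniteField.frobeniusAlgHom F K) hrel
    rw [map_add, map_sub, map_mul, map_mul, AlgHom.commutes, AlgHom.commutes, map_zero,
      FiniteField.coe_frobeniusAlgHom] at h1
    simpa only [hqF] using h1
  have hne : ζ ^ q ≠ ζ := by
    intro h
    have h1 : ζ ^ (q - 1) = 1 := by
      apply mul_left_cancel₀ hζ0
      rw [mul_one, ← pow_succ', show q - 1 + 1 = q by omega, h]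
    have h2 := Nat.le_of_dvd (by omega) (hpow _ h1)
    rw [hq2] at h2
    nlinarith [Nat.sub_pos_of_lt (show 1 < q by omega)]
  have hconj : ζ ^ q = algebraMap F K τ - ζ := by
    have h1 : (ζ ^ q - ζ) * (ζ ^ q - (algebraMap F K τ - ζ)) = 0 := by
      linear_combination hfrob - hrel
    rcases mul_eq_zero.mp h1 with h1 | h1
    · exact absurd (sub_eq_zero.mp h1) hne
    · exact sub_eq_zero.mp h1
  have hδ0 : δ ≠ 0 := by
    intro h0
    have h1 := hroot 0
    rw [h0] at h1
    exact h1 (by ring)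
  refine ⟨τ, δ, ?_, hδ0, ?_, hroot, ?_⟩
  · intro h0
    rw [h0, map_zero, zero_sub] at hconj
    have h1 : ζ ^ (2 * (q - 1)) = 1 := by
      have h2 : ζ ^ (q - 1) = -1 := by
        apply mul_left_cancel₀ hζ0
        rw [← pow_succ', show q - 1 + 1 = q by omega, hconj]
        ring
      rw [mul_comm, pow_mul, h2]
      ring
    have h2 := Nat.le_of_dvd (by omega) (hpow _ h1)
    rw [hq2, mul_comm 2] at h2
    have h3 := Nat.le_of_mul_le_mul_left h2 (by omega)
    omega
  · intro h0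
    have h1 : ζ ^ (q + 1) = 1 := by
      rw [pow_succ, hconj]
      rw [h0, map_one] at hrel
      linear_combination -hrel
    have h2 := Nat.le_of_dvd (by omega) (hpow _ h1)
    rw [hq2] at h2
    have h4 : 2 * (q + 1) ≤ (q - 1) * (q + 1) := Nat.mul_le_mul_right _ (by omega)
    omega
  · -- powers of the companion matrix
    have key : ∀ n : ℕ, ∃ u v : F, ζ ^ n = algebraMap F K u * ζ + algebraMap F K v ∧
        (!![0, -δ; 1, τ] : Matrix (Fin 2) (Fin 2) F) ^ n = u • !![0, -δ; 1, τ] + v • (1 : Matrix (Fin 2) (Fin 2) F) := by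
      intro n
      induction n with
      | zero => exact ⟨0, 1, by simp, by simp⟩
      | succ n ih =>
        obtain ⟨u, v, h1, h2⟩ := ih
        refine ⟨u * τ + v, -(u * δ), ?_, ?_⟩
        · rw [pow_succ, h1]
          simp only [map_add, map_mul, map_neg]
          linear_combination (algebraMap F K u) * hrel
        · rw [pow_succ, h2]
          ext i j
          fin_cases i <;> fin_cases j <;> simp [Matrix.mul_apply, Fin.sum_univ_two] <;> ring
    obtain ⟨u, v, h1, h2⟩ := key (q ^ 2 - 1)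
    have h3 : ζ ^ (q ^ 2 - 1) = 1 := by
      have h4 : z ^ (q ^ 2 - 1) = 1 := by
        rw [← hz]
        exact pow_orderOf_eq_one z
      rw [hζ, ← Units.val_pow_eq_pow_val, h4, Units.val_one]
    rw [h3] at h1
    have hu : u = 0 := by
      by_contra hu
      apply hnot ((1 - v) / u)
      have hu' : algebraMap F K u ≠ 0 := by
        rw [Ne, map_eq_zero]
        exact hu
      rw [map_div₀, map_sub, map_one, div_eq_iff hu']
      linear_combination h1
    have hv : v = 1 := by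
      rw [hu, map_zero, zero_mul, zero_add] at h1
      apply (algebraMap F K).injective
      rw [← h1, map_one]
    rw [h2, hu, hv, zero_smul, one_smul, zero_add]

variable {F : Type*} [Field F] {τ δ : F}

/-- a matrix with the given trace and determinant is conjugate to the companion matrix -/
theorem conj_comp (hroot : ∀ c : F, c * c - τ * c + δ ≠ 0) (P : Matrix (Fin 2) (Fin 2) F)
    (ht : P 0 0 + P 1 1 = τ) (hd : P 0 0 * P 1 1 - P 0 1 * P 1 0 = δ) :
    ∃ R : Matrix (Fin 2) (Fin 2) F, R.det ≠ 0 ∧ P * R = R * !![0, -δ; 1, τ] := by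
  have hs : P 1 0 ≠ 0 := by
    intro h
    apply hroot (P 0 0)
    rw [← ht, ← hd, h]
    ring
  refine ⟨!![1, P 0 0; 0, P 1 0], ?_, ?_⟩
  · rw [Matrix.det_fin_two_of]
    simpa using hs
  · ext i j
    fin_cases i <;> fin_cases j <;> simp [Matrix.mul_apply, Fin.sum_univ_two, ← ht, ← hd] <;> ring

/-- symmetric solutions of the homogeneous equation vanish -/
theorem sym_inj (hroot : ∀ c : F, c * c - τ * c + δ ≠ 0) (hτ : τ ≠ 0) (hδ1 : δ ≠ 1) (P T : Matrix (Fin 2) (Fin 2) F)
    (ht : P 0 0 + P 1 1 = τ) (hd : P 0 0 * P 1 1 - P 0 1 * P 1 0 = δ) (hT : T 0 1 = T 1 0)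
    (h : Pᵀ * T * P = T) : T = 0 := by
  have hCH : P * (τ • (1 : Matrix (Fin 2) (Fin 2) F) - P) = δ • (1 : Matrix (Fin 2) (Fin 2) F) := by
    ext i j
    fin_cases i <;> fin_cases j <;> simp [Matrix.mul_apply, Fin.sum_univ_two, ← ht, ← hd] <;> ring
  have hTt : Tᵀ = T := by
    ext i j
    fin_cases i <;> fin_cases j <;> simp [hT]
  have E1 : δ • (Pᵀ * T) = τ • T - T * P := by
    calc δ • (Pᵀ * T) = Pᵀ * T * (δ • (1 : Matrix (Fin 2) (Fin 2) F)) := by rw [Matrix.mul_smul, Matrix.mul_one]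
      _ = Pᵀ * T * P * (τ • (1 : Matrix (Fin 2) (Fin 2) F) - P) := by rw [← hCH, Matrix.mul_assoc, Matrix.mul_assoc, Matrix.mul_assoc]
      _ = T * (τ • (1 : Matrix (Fin 2) (Fin 2) F) - P) := by rw [h]
      _ = τ • T - T * P := by rw [Matrix.mul_sub, Matrix.mul_smul, Matrix.mul_one]
  have E2 : δ • (T * P) = τ • T - Pᵀ * T := by
    have h1 := congrArg Matrix.transpose E1
    rw [Matrix.transpose_smul, Matrix.transpose_mul, Matrix.transpose_transpose, hTt, Matrix.transpose_sub,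
      Matrix.transpose_smul, hTt, Matrix.transpose_mul, hTt] at h1
    exact h1
  have E3 : Pᵀ * T = T * P := by
    have h1 : (δ - 1) • (Pᵀ * T - T * P) = 0 := by
      have h2 : (δ - 1) • (Pᵀ * T - T * P) = (δ • (Pᵀ * T) - δ • (T * P)) - Pᵀ * T + T * P := by
        rw [sub_smul, one_smul, smul_sub]
        abel
      rw [h2, E1, E2]
      abel
    rcases smul_eq_zero.mp h1 with h2 | h2
    · exact absurd (sub_eq_zero.mp h2) hδ1
    · exact sub_eq_zero.mp h2
  have E4 : T * ((δ + 1) • P - τ • (1 : Matrix (Fin 2) (Fin 2) F)) = 0 := by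
    rw [Matrix.mul_sub, Matrix.mul_smul, Matrix.mul_smul, Matrix.mul_one, add_smul, one_smul, E2, E3]
    abel
  have hdet : ((δ + 1) • P - τ • (1 : Matrix (Fin 2) (Fin 2) F)).det ≠ 0 := by
    have h1 : ((δ + 1) • P - τ • (1 : Matrix (Fin 2) (Fin 2) F)).det = (δ + 1) ^ 2 * δ - (δ + 1) * τ * τ + τ ^ 2 := by
      rw [Matrix.det_fin_two]
      simp
      rw [← ht, ← hd]
      ring
    rw [h1]
    by_cases h2 : δ + 1 = 0
    · rw [h2]
      have h3 : (0 : F) ^ 2 * δ - 0 * τ * τ + τ ^ 2 = τ ^ 2 := by ring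
      rw [h3]
      exact pow_ne_zero _ hτ
    · intro h3
      apply hroot (τ / (δ + 1))
      field_simp
      linear_combination h3
  have hu : IsUnit ((δ + 1) • P - τ • (1 : Matrix (Fin 2) (Fin 2) F)).det := isUnit_iff_ne_zero.mpr hdet
  rw [← Matrix.mul_nonsing_inv_cancel_right _ T hu, E4, Matrix.zero_mul]

/-- solving the twisted equation -/
theorem sym_surj [Finite F] (hroot : ∀ c : F, c * c - τ * c + δ ≠ 0) (hτ : τ ≠ 0) (hδ1 : δ ≠ 1)
    (P Q : Matrix (Fin 2) (Fin 2) F) (hPQ : P * Q = 1) (hQP : Q * P = 1)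
    (ht : P 0 0 + P 1 1 = τ) (hd : P 0 0 * P 1 1 - P 0 1 * P 1 0 = δ) (S : Matrix (Fin 2) (Fin 2) F) (hS : Sᵀ = S) :
    ∃ T : Matrix (Fin 2) (Fin 2) F, Tᵀ = T ∧ T - Qᵀ * T * Q = S := by
  classical
  let Y := {T : Matrix (Fin 2) (Fin 2) F // Tᵀ = T}
  have : Finite Y := inferInstance
  let f : Y → Y := fun T => ⟨T.1 - Qᵀ * T.1 * Q, by
    rw [Matrix.transpose_sub, Matrix.transpose_mul, Matrix.transpose_mul, Matrix.transpose_transpose, T.2,
      Matrix.mul_assoc]⟩
  have hPQt : Qᵀ * Pᵀ = 1 := by rw [← Matrix.transpose_mul, hPQ, Matrix.transpose_one]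
  have hQPt : Pᵀ * Qᵀ = 1 := by rw [← Matrix.transpose_mul, hQP, Matrix.transpose_one]
  have hinj : Function.Injective f := by
    intro T U hTU
    have h1 : T.1 - Qᵀ * T.1 * Q = U.1 - Qᵀ * U.1 * Q := congrArg Subtype.val hTU
    have h2 : (T.1 - U.1) = Qᵀ * (T.1 - U.1) * Q := by
      rw [Matrix.mul_sub, Matrix.sub_mul]
      have h3 : T.1 - U.1 = (T.1 - Qᵀ * T.1 * Q) - (U.1 - Qᵀ * U.1 * Q) + (Qᵀ * T.1 * Q - Qᵀ * U.1 * Q) := by abel
      rw [h3, h1]
      abel
    have h3 : Pᵀ * (T.1 - U.1) * P = T.1 - U.1 := by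
      calc Pᵀ * (T.1 - U.1) * P = Pᵀ * (Qᵀ * (T.1 - U.1) * Q) * P := by rw [← h2]
        _ = (Pᵀ * Qᵀ) * (T.1 - U.1) * (Q * P) := by simp only [Matrix.mul_assoc]
        _ = T.1 - U.1 := by rw [hQPt, hQP, Matrix.one_mul, Matrix.mul_one]
    have h4 : T.1 - U.1 = 0 := by
      refine sym_inj hroot hτ hδ1 P _ ht hd ?_ h3
      have h5 : (T.1 - U.1)ᵀ = T.1 - U.1 := by rw [Matrix.transpose_sub, T.2, U.2]
      exact congrFun (congrFun h5 1) 0
    exact Subtype.ext (sub_eq_zero.mp h4)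
  obtain ⟨T, hT⟩ := (Finite.injective_iff_surjective.mp hinj) ⟨S, hS⟩
  exact ⟨T.1, T.2, congrArg Subtype.val hT⟩

end H46.TwA
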