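import Mathlib
import Cfsg.Agent.Lib.H46.TwA

/-! Products of two conjugates of a Levi element in `Sp(4,F)`: reduction to two by two matrices. -/

set_option autoImplicit false

namespace H46.TwB

open Matrix

variable {F : Type*} [Field F]

/-- lower unipotent -/
def dn (S : Matrix (Fin 2) (Fin 2) F) (hS : Sᵀ = S) : symplecticGroup (Fin 2) F :=
  ⟨fromBlocks 1 0 S 1, by
    rw [SymplecticGroup.fromBlocks_mem_iff]
    refine ⟨by simp [hS], by simp, by simp⟩⟩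

/-- upper unipotent -/
def up (S : Matrix (Fin 2) (Fin 2) F) (hS : Sᵀ = S) : symplecticGroup (Fin 2) F :=
  ⟨fromBlocks 1 S 0 1, by
    rw [SymplecticGroup.fromBlocks_mem_iff]
    refine ⟨by simp, by simp [hS], by simp⟩⟩

/-- Levi element -/
def lv (P Q : Matrix (Fin 2) (Fin 2) F) (h : Q * P = 1) : symplecticGroup (Fin 2) F :=
  ⟨fromBlocks P 0 0 Qᵀ, by
    rw [SymplecticGroup.fromBlocks_mem_iff]
    refine ⟨by simp, by simp, by rw [← Matrix.transpose_mul, h]; simp⟩⟩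

theorem dn_val (S : Matrix (Fin 2) (Fin 2) F) (hS : Sᵀ = S) : (dn S hS : Matrix (Fin 2 ⊕ Fin 2) (Fin 2 ⊕ Fin 2) F) = fromBlocks 1 0 S 1 := rfl
theorem up_val (S : Matrix (Fin 2) (Fin 2) F) (hS : Sᵀ = S) : (up S hS : Matrix (Fin 2 ⊕ Fin 2) (Fin 2 ⊕ Fin 2) F) = fromBlocks 1 S 0 1 := rfl
theorem lv_val (P Q : Matrix (Fin 2) (Fin 2) F) (h : Q * P = 1) : (lv P Q h : Matrix (Fin 2 ⊕ Fin 2) (Fin 2 ⊕ Fin 2) F) = fromBlocks P 0 0 Qᵀ := rfl

theorem isConj_of_mul {G : Type*} [Group G] {a b c : G} (h : c * a = b * c) : IsConj a b := by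
  rw [isConj_iff]
  exact ⟨c, by rw [h, mul_inv_cancel_right]⟩

variable {τ δ : F}

/-- the lower triangular factor is conjugate to the Levi element -/
theorem conj_dn [Finite F] (hroot : ∀ c : F, c * c - τ * c + δ ≠ 0) (hτ : τ ≠ 0) (hδ1 : δ ≠ 1)
    (C : Matrix (Fin 2) (Fin 2) F) (hC : C = !![0, -δ; 1, τ]) (C' : Matrix (Fin 2) (Fin 2) F) (hC' : C' * C = 1)
    (P Q : Matrix (Fin 2) (Fin 2) F) (hQP : Q * P = 1)
    (ht : P 0 0 + P 1 1 = τ) (hd : P 0 0 * P 1 1 - P 0 1 * P 1 0 = δ) (S : Matrix (Fin 2) (Fin 2) F) (hS : Sᵀ = S) :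
    IsConj (lv C C' hC') (dn S hS * lv P Q hQP) := by
  have hPQ : P * Q = 1 := mul_eq_one_comm.mp hQP
  obtain ⟨R, hR0, hR⟩ := H46.TwA.conj_comp hroot P ht hd
  rw [← hC] at hR
  have hRu : IsUnit R.det := isUnit_iff_ne_zero.mpr hR0
  have hR1 : R⁻¹ * R = 1 := Matrix.nonsing_inv_mul R hRu
  have hR2 : R * R⁻¹ = 1 := Matrix.mul_nonsing_inv R hRu
  have hCC' : C * C' = 1 := mul_eq_one_comm.mp hC'
  have h1 : IsConj (lv C C' hC') (lv P Q hQP) := by
    apply isConj_of_mul (c := lv R R⁻¹ hR1)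
    apply Subtype.ext
    rw [Submonoid.coe_mul, Submonoid.coe_mul, lv_val, lv_val, lv_val, fromBlocks_multiply, fromBlocks_multiply]
    have h2 : R⁻¹ * Q = C' * R⁻¹ := by
      calc R⁻¹ * Q = (C' * C) * R⁻¹ * Q := by rw [hC', Matrix.one_mul]
        _ = C' * (R⁻¹ * R) * C * R⁻¹ * Q := by rw [hR1, Matrix.mul_one]
        _ = C' * R⁻¹ * (R * C) * R⁻¹ * Q := by simp only [Matrix.mul_assoc]
        _ = C' * R⁻¹ * P * (R * R⁻¹) * Q := by rw [← hR]; simp only [Matrix.mul_assoc]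
        _ = C' * R⁻¹ := by rw [hR2, Matrix.mul_one, Matrix.mul_assoc, hPQ, Matrix.mul_one]
    simp only [Matrix.mul_zero, Matrix.zero_mul, add_zero, zero_add]
    rw [← Matrix.transpose_mul, ← Matrix.transpose_mul, hR, ← h2]
  have h2 : IsConj (lv P Q hQP) (dn S hS * lv P Q hQP) := by
    obtain ⟨T, hT, hTS⟩ := H46.TwA.sym_surj hroot hτ hδ1 P Q hPQ hQP ht hd S hS
    apply isConj_of_mul (c := dn T hT)
    apply Subtype.ext
    rw [Submonoid.coe_mul, Submonoid.coe_mul, Submonoid.coe_mul, lv_val, dn_val, dn_val, fromBlocks_multiply,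
      fromBlocks_multiply, fromBlocks_multiply]
    simp only [Matrix.mul_zero, Matrix.zero_mul, add_zero, zero_add, Matrix.one_mul, Matrix.mul_one]
    have h3 : T * P = S * P + Qᵀ * T := by
      rw [← hTS, Matrix.sub_mul, Matrix.mul_assoc _ Q P, hQP, Matrix.mul_one]
      abel
    rw [h3]
  exact h1.trans h2

/-- factorisation -/
theorem block1 [Finite F] (hroot : ∀ c : F, c * c - τ * c + δ ≠ 0) (hτ : τ ≠ 0) (hδ1 : δ ≠ 1) (hδ0 : δ ≠ 0)
    (C : Matrix (Fin 2) (Fin 2) F) (hC : C = !![0, -δ; 1, τ]) (C' : Matrix (Fin 2) (Fin 2) F) (hC' : C' * C = 1)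
    (g : symplecticGroup (Fin 2) F) (a b c d : Matrix (Fin 2) (Fin 2) F) (hg : (g : Matrix (Fin 2 ⊕ Fin 2) (Fin 2 ⊕ Fin 2) F) = fromBlocks a b c d)
    (P Q : Matrix (Fin 2) (Fin 2) F) (hPt : P 0 0 + P 1 1 = τ) (hPd : P 0 0 * P 1 1 - P 0 1 * P 1 0 = δ)
    (hQt : Q 0 0 + Q 1 1 = τ) (hQd : Q 0 0 * Q 1 1 - Q 0 1 * Q 1 0 = δ) (haQ : a * Q = P) :
    ∃ y z : symplecticGroup (Fin 2) F, IsConj (lv C C' hC') y ∧ IsConj (lv C C' hC') z ∧ g = y * z := by
  have hPdet : P.det ≠ 0 := by rw [Matrix.det_fin_two, hPd]; exact hδ0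
  have hQdet : Q.det ≠ 0 := by rw [Matrix.det_fin_two, hQd]; exact hδ0
  obtain ⟨P', hP1, hP2⟩ : ∃ P', P' * P = 1 ∧ P * P' = 1 :=
    ⟨P⁻¹, Matrix.nonsing_inv_mul _ (isUnit_iff_ne_zero.mpr hPdet), Matrix.mul_nonsing_inv _ (isUnit_iff_ne_zero.mpr hPdet)⟩
  obtain ⟨Q', hQ1, hQ2⟩ : ∃ Q', Q' * Q = 1 ∧ Q * Q' = 1 :=
    ⟨Q⁻¹, Matrix.nonsing_inv_mul _ (isUnit_iff_ne_zero.mpr hQdet), Matrix.mul_nonsing_inv _ (isUnit_iff_ne_zero.mpr hQdet)⟩
  have ha : a = P * Q' := by rw [← haQ, Matrix.mul_assoc, hQ2, Matrix.mul_one]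
  obtain ⟨ai, hai⟩ : ∃ ai : Matrix (Fin 2) (Fin 2) F, ai = Q * P' := ⟨_, rfl⟩
  have hai1 : a * ai = 1 := by rw [hai, ← Matrix.mul_assoc, haQ, hP2]
  have hai2 : ai * a = 1 := mul_eq_one_comm.mp hai1
  have hmem := g.2
  rw [hg] at hmem
  have hmemT := SymplecticGroup.transpose_mem hmem
  rw [fromBlocks_transpose] at hmemT
  rw [SymplecticGroup.fromBlocks_mem_iff] at hmem hmemT
  obtain ⟨m1, m2, m3⟩ := hmem
  obtain ⟨n1, n2, n3⟩ := hmemT
  rw [Matrix.transpose_transpose] at n1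
  rw [Matrix.transpose_transpose] at n1
  have hS1 : (c * ai)ᵀ = c * ai := by
    have h1 : aiᵀ * aᵀ = 1 := by rw [← Matrix.transpose_mul, hai1, Matrix.transpose_one]
    calc (c * ai)ᵀ = aiᵀ * cᵀ := Matrix.transpose_mul _ _
      _ = aiᵀ * (cᵀ * a) * ai := by rw [Matrix.mul_assoc, Matrix.mul_assoc, hai1, Matrix.mul_one]
      _ = aiᵀ * aᵀ * (c * ai) := by rw [← m1]; simp only [Matrix.mul_assoc]
      _ = c * ai := by rw [h1, Matrix.one_mul]
  have hS2 : (ai * b)ᵀ = ai * b := by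
    have h1 : aᵀ * aiᵀ = 1 := by rw [← Matrix.transpose_mul, hai2, Matrix.transpose_one]
    calc (ai * b)ᵀ = bᵀ * aiᵀ := Matrix.transpose_mul _ _
      _ = ai * (a * bᵀ) * aiᵀ := by rw [← Matrix.mul_assoc, hai2, Matrix.one_mul]
      _ = ai * b * (aᵀ * aiᵀ) := by rw [n1]; simp only [Matrix.mul_assoc]
      _ = ai * b := by rw [h1, Matrix.mul_one]
  have hS3 : (-(Q' * (ai * b) * Q'ᵀ))ᵀ = -(Q' * (ai * b) * Q'ᵀ) := by
    rw [Matrix.transpose_neg, Matrix.transpose_mul, Matrix.transpose_mul, hS2, Matrix.transpose_transpose,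
      ← Matrix.mul_assoc]
  refine ⟨dn (c * ai) hS1 * lv P P' hP1, lv Q' Q hQ2 * up (ai * b) hS2, ?_, ?_, ?_⟩
  · exact conj_dn hroot hτ hδ1 C hC C' hC' P P' hP1 hPt hPd _ hS1
  · have h1 : Q'ᵀ * Qᵀ = 1 := by rw [← Matrix.transpose_mul, hQ2, Matrix.transpose_one]
    have h2 : IsConj (lv C C' hC') (dn (-(Q' * (ai * b) * Q'ᵀ)) hS3 * lv Qᵀ Q'ᵀ h1) := by
      refine conj_dn hroot hτ hδ1 C hC C' hC' Qᵀ Q'ᵀ h1 ?_ ?_ _ hS3
      · exact hQt
      · rw [Matrix.transpose_apply, Matrix.transpose_apply, Matrix.transpose_apply, Matrix.transpose_apply]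
        rw [← hQd]
        ring
    refine h2.trans (IsConj.symm ?_)
    refine isConj_of_mul (c := SymplecticGroup.symJ (Fin 2) F) ?_
    apply Subtype.ext
    rw [Submonoid.coe_mul, Submonoid.coe_mul, Submonoid.coe_mul, Submonoid.coe_mul, lv_val, lv_val, dn_val, up_val,
      SymplecticGroup.coe_J, J, fromBlocks_multiply, fromBlocks_multiply, fromBlocks_multiply, fromBlocks_multiply]
    simp only [Matrix.mul_zero, Matrix.zero_mul, add_zero, zero_add, Matrix.one_mul, Matrix.mul_one,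
      Matrix.transpose_transpose, Matrix.neg_mul, Matrix.mul_neg, neg_neg]
    rw [Matrix.mul_assoc _ Q'ᵀ Qᵀ, h1, Matrix.mul_one]
  · apply Subtype.ext
    rw [Submonoid.coe_mul, Submonoid.coe_mul, Submonoid.coe_mul, lv_val, lv_val, dn_val, up_val,
      fromBlocks_multiply, fromBlocks_multiply, fromBlocks_multiply, hg]
    simp only [Matrix.mul_zero, Matrix.zero_mul, add_zero, zero_add, Matrix.one_mul, Matrix.mul_one]
    rw [fromBlocks_inj]
    have haT : aiᵀ * aᵀ = 1 := by rw [← Matrix.transpose_mul, hai1, Matrix.transpose_one]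
    refine ⟨ha, ?_, ?_, ?_⟩
    · rw [← Matrix.mul_assoc, ← ha, ← Matrix.mul_assoc, hai1, Matrix.one_mul]
    · rw [Matrix.mul_assoc, Matrix.mul_assoc, ← ha, hai2, Matrix.mul_one]
    · have h3 : d = aiᵀ * (1 + cᵀ * b) := by
        have h4 : aᵀ * d = 1 + cᵀ * b := by rw [← m3]; abel
        rw [← h4, ← Matrix.mul_assoc, haT, Matrix.one_mul]
      have h5 : aiᵀ = P'ᵀ * Qᵀ := by rw [hai, Matrix.transpose_mul]
      have h6 : c * ai * P * (Q' * (ai * b)) = c * ai * b := by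
        calc c * ai * P * (Q' * (ai * b)) = c * (ai * (P * Q')) * (ai * b) := by simp only [Matrix.mul_assoc]
          _ = c * ai * b := by rw [← ha, hai2, Matrix.mul_one, ← Matrix.mul_assoc]
      rw [h6, h3, ← h5, Matrix.mul_add, Matrix.mul_one, ← Matrix.mul_assoc]
      have h7 : aiᵀ * cᵀ = c * ai := by rw [← Matrix.transpose_mul, hS1]
      rw [h7]
      abel

end H46.TwB
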