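import Mathlib
import Cfsg.Agent.Lib.H46.TwB

/-! Products of two conjugates of a Levi element in `Sp(4,F)`: admissible two by two blocks. -/

set_option autoImplicit false

namespace H46.TwC

open Matrix

variable {F : Type*} [Field F]

/-- admissible blocks -/
def OK (τ δ : F) (B : Matrix (Fin 2) (Fin 2) F) : Prop :=
  ∃ (P Q : Matrix (Fin 2) (Fin 2) F) (ε : F), (ε = 1 ∨ ε = -1) ∧ P.trace = τ ∧ P.det = δ ∧ Q.trace = τ ∧ Q.det = δ ∧
    B * Q = ε • P

variable {τ δ : F}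

theorem OK.conj {B B' R : Matrix (Fin 2) (Fin 2) F} (hR : R.det ≠ 0) (h : B * R = R * B') (hB : OK τ δ B') :
    OK τ δ B := by
  obtain ⟨P, Q, ε, hε, h1, h2, h3, h4, h5⟩ := hB
  have hRu : IsUnit R.det := isUnit_iff_ne_zero.mpr hR
  refine ⟨R * P * R⁻¹, R * Q * R⁻¹, ε, hε, ?_, ?_, ?_, ?_, ?_⟩
  · rw [Matrix.trace_mul_cycle, Matrix.nonsing_inv_mul _ hRu, Matrix.one_mul, h1]
  · rw [Matrix.det_mul, Matrix.det_mul, h2, mul_comm R.det, mul_assoc, ← Matrix.det_mul, Matrix.mul_nonsing_inv _ hRu,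
      Matrix.det_one, mul_one]
  · rw [Matrix.trace_mul_cycle, Matrix.nonsing_inv_mul _ hRu, Matrix.one_mul, h3]
  · rw [Matrix.det_mul, Matrix.det_mul, h4, mul_comm R.det, mul_assoc, ← Matrix.det_mul, Matrix.mul_nonsing_inv _ hRu,
      Matrix.det_one, mul_one]
  · rw [← Matrix.mul_assoc, ← Matrix.mul_assoc, h, Matrix.mul_assoc R B' Q, h5, Matrix.mul_smul, Matrix.smul_mul]

theorem OK_one (ε : F) (hε : ε = 1 ∨ ε = -1) : OK τ δ (ε • (1 : Matrix (Fin 2) (Fin 2) F)) := by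
  have h1 : (!![0, -δ; 1, τ] : Matrix (Fin 2) (Fin 2) F).trace = τ := by
    rw [Matrix.trace_fin_two_of, zero_add]
  have h2 : (!![0, -δ; 1, τ] : Matrix (Fin 2) (Fin 2) F).det = δ := by
    rw [Matrix.det_fin_two_of]
    ring
  exact ⟨!![0, -δ; 1, τ], !![0, -δ; 1, τ], ε, hε, h1, h2, h1, h2, by rw [Matrix.smul_mul, Matrix.one_mul]⟩

theorem OK_tri {X Y : F} (hXY : X * Y = 1) (hne : X ≠ Y) (n : F) : OK τ δ !![X, n; 0, Y] := by
  have h0 : X - Y ≠ 0 := sub_ne_zero.mpr hne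
  obtain ⟨p, hp⟩ : ∃ p : F, p * (X - Y) = τ - n - Y * τ := ⟨(τ - n - Y * τ) / (X - Y), div_mul_cancel₀ _ h0⟩
  refine ⟨!![X, n; 0, Y] * !![p, p * (τ - p) - δ; 1, τ - p], !![p, p * (τ - p) - δ; 1, τ - p], 1, Or.inl rfl, ?_, ?_, ?_,
    ?_, ?_⟩
  · rw [Matrix.mul_fin_two, Matrix.trace_fin_two_of]
    linear_combination hp
  · rw [Matrix.det_mul, Matrix.det_fin_two_of, Matrix.det_fin_two_of]
    linear_combination δ * hXY
  · rw [Matrix.trace_fin_two_of]
    ring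
  · rw [Matrix.det_fin_two_of]
    ring
  · rw [one_smul]

theorem OK_uni (h2 : (2 : F) ≠ 0) (hτ : τ ≠ 0) (n : F) : OK τ δ !![1, n; 0, 1] := by
  by_cases hn : n = 0
  · have h1 := OK_one (τ := τ) (δ := δ) 1 (Or.inl rfl)
    rw [one_smul, Matrix.one_fin_two] at h1
    rw [hn]
    exact h1
  · obtain ⟨s, hs⟩ : ∃ s : F, n * s = -(2 * τ) := ⟨-(2 * τ) / n, mul_div_cancel₀ _ hn⟩
    have hs0 : s ≠ 0 := by
      rintro rfl
      rw [mul_zero] at hs
      exact mul_ne_zero h2 hτ (neg_eq_zero.mp hs.symm)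
    obtain ⟨r, hr⟩ : ∃ r : F, r * s = -δ := ⟨-δ / s, div_mul_cancel₀ _ hs0⟩
    refine ⟨-(!![1, n; 0, 1] * !![0, r; s, τ]), !![0, r; s, τ], -1, Or.inr rfl, ?_, ?_, ?_, ?_, ?_⟩
    · rw [Matrix.trace_neg, Matrix.mul_fin_two, Matrix.trace_fin_two_of]
      linear_combination -hs
    · rw [Matrix.det_neg, Matrix.det_mul, Matrix.det_fin_two_of, Matrix.det_fin_two_of, Fintype.card_fin]
      linear_combination -hr
    · rw [Matrix.trace_fin_two_of]
      ring
    · rw [Matrix.det_fin_two_of]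
      linear_combination -hr
    · rw [neg_one_smul, neg_neg]

theorem OK_rot [Fintype F] (h2 : Fintype.card F % 2 = 1) : OK τ δ !![0, -1; 1, 0] := by
  classical
  obtain ⟨p, s, hps⟩ := FiniteField.exists_root_sum_quadratic
    (f := Polynomial.X ^ 2 + Polynomial.C (-τ) * Polynomial.X + Polynomial.C δ)
    (g := Polynomial.X ^ 2 + Polynomial.C τ * Polynomial.X)
    (by
      have := Polynomial.degree_quadratic (R := F) (a := 1) (b := -τ) (c := δ) one_ne_zero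
      rwa [map_one, one_mul] at this)
    (by
      have := Polynomial.degree_quadratic (R := F) (a := 1) (b := τ) (c := 0) one_ne_zero
      rwa [map_one, one_mul, map_zero, add_zero] at this) h2
  simp only [Polynomial.eval_add, Polynomial.eval_mul, Polynomial.eval_pow, Polynomial.eval_X, Polynomial.eval_C] at hps
  refine ⟨!![0, -1; 1, 0] * !![p, τ + s; s, τ - p], !![p, τ + s; s, τ - p], 1, Or.inl rfl, ?_, ?_, ?_, ?_, ?_⟩
  · rw [Matrix.mul_fin_two, Matrix.trace_fin_two_of]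
    ring
  · rw [Matrix.det_mul, Matrix.det_fin_two_of, Matrix.det_fin_two_of]
    linear_combination -hps
  · rw [Matrix.trace_fin_two_of]
    ring
  · rw [Matrix.det_fin_two_of]
    linear_combination -hps
  · rw [one_smul]

/-- the choice of the symmetric matrix -/
theorem exists_S [Fintype F] (h3 : 3 ≤ Fintype.card F) (hτ : τ ≠ 0) (c : Matrix (Fin 2) (Fin 2) F) (hc0 : c 0 0 ≠ 0)
    (hc : c.det ≠ 0) : ∃ S : Matrix (Fin 2) (Fin 2) F, Sᵀ = S ∧ OK τ δ (S * c) := by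
  classical
  obtain ⟨X, Y, hXY, hOK⟩ : ∃ X Y : F, X * Y = 1 ∧ ∀ n : F, OK τ δ !![X, n; 0, Y] := by
    by_cases h2 : (2 : F) = 0
    · obtain ⟨X, hX⟩ : ∃ X : F, X ∉ ({0, 1} : Finset F) := by
        by_contra hcon
        push Not at hcon
        have h4 : Fintype.card F ≤ ({0, 1} : Finset F).card := Finset.card_le_card fun x _ => hcon x
        have h5 : ({0, 1} : Finset F).card ≤ 2 := Finset.card_le_two
        omega
      rw [Finset.mem_insert, Finset.mem_singleton, not_or] at hX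
      refine ⟨X, X⁻¹, mul_inv_cancel₀ hX.1, fun n => OK_tri (mul_inv_cancel₀ hX.1) ?_ n⟩
      intro h4
      have h5 : X * X = 1 := by
        nth_rewrite 2 [h4]
        exact mul_inv_cancel₀ hX.1
      have h6 : (X - 1) * (X - 1) = 0 := by
        linear_combination h5 + (1 - X) * h2
      rcases mul_eq_zero.mp h6 with h7 | h7 <;> exact hX.2 (sub_eq_zero.mp h7)
    · exact ⟨1, 1, one_mul 1, fun n => OK_uni h2 hτ n⟩
  have hdet := hc
  rw [Matrix.det_fin_two] at hdet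
  obtain ⟨ρ, hρ⟩ : ∃ ρ : F, ρ * c 0 0 = c 1 0 := ⟨c 1 0 / c 0 0, div_mul_cancel₀ _ hc0⟩
  obtain ⟨s1, hs1⟩ : ∃ s : F, s * c 0 0 = X := ⟨X / c 0 0, div_mul_cancel₀ _ hc0⟩
  obtain ⟨s3, hs3⟩ : ∃ s : F, s * (c 1 1 - ρ * c 0 1) = Y := by
    have h1 : c 1 1 - ρ * c 0 1 ≠ 0 := by
      intro h
      apply hdet
      linear_combination c 0 0 * h + c 0 1 * hρ
    exact ⟨Y / (c 1 1 - ρ * c 0 1), div_mul_cancel₀ _ h1⟩
  refine ⟨!![s1 + ρ ^ 2 * s3, -(ρ * s3); -(ρ * s3), s3], ?_, ?_⟩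
  · ext i j
    fin_cases i <;> fin_cases j <;> rfl
  · refine OK.conj (R := !![1, -ρ; 0, 1]) ?_ ?_ (hOK (s1 * (c 0 1 - c 1 0)))
    · rw [Matrix.det_fin_two_of]
      simp
    · have hc' : c = !![c 0 0, c 0 1; c 1 0, c 1 1] := by
        ext i j
        fin_cases i <;> fin_cases j <;> rfl
      rw [hc', Matrix.mul_fin_two, Matrix.mul_fin_two, Matrix.mul_fin_two]
      simp only [Matrix.of_apply, Matrix.cons_val', Matrix.cons_val_zero, Matrix.cons_val_one, Matrix.cons_val_fin_one]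
      congr 1
      ext i j
      fin_cases i <;> fin_cases j <;> simp
      · linear_combination hs1 + ρ * s3 * hρ
      · linear_combination - (ρ) * hs3 - s1 * hρ - ρ ^ 2 * s3 * hρ
      · linear_combination -s3 * hρ
      · linear_combination hs3 + ρ * s3 * hρ

end H46.TwC
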