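import Mathlib
import Cfsg.Agent.Lib.H46.TwC

/-! Products of two conjugates of a Levi element in `Sp(4,F)`: symplectic frames. -/

set_option autoImplicit false

namespace H46.TwD

open Matrix H46.TwB H46.TwC

variable {F : Type*} [Field F]

/-- the symplectic form -/
def om (u v : Fin 2 ⊕ Fin 2 → F) : F := u ⬝ᵥ (J (Fin 2) F *ᵥ v)

theorem om_eq (u v : Fin 2 ⊕ Fin 2 → F) : om u v = u (Sum.inr 0) * v (Sum.inl 0) + u (Sum.inr 1) * v (Sum.inl 1)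
    - u (Sum.inl 0) * v (Sum.inr 0) - u (Sum.inl 1) * v (Sum.inr 1) := by
  simp only [om, J, dotProduct, Matrix.mulVec, Fintype.sum_sum_type, Fin.sum_univ_two, fromBlocks_apply₁₁,
    fromBlocks_apply₁₂, fromBlocks_apply₂₁, fromBlocks_apply₂₂, Matrix.zero_apply, Matrix.neg_apply, Matrix.one_apply]
  simp
  ring

theorem om_add_left (u v w : Fin 2 ⊕ Fin 2 → F) : om (u + v) w = om u w + om v w := by
  simp only [om_eq, Pi.add_apply]; ring
theorem om_add_right (u v w : Fin 2 ⊕ Fin 2 → F) : om u (v + w) = om u v + om u w := by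
  simp only [om_eq, Pi.add_apply]; ring
theorem om_sub_left (u v w : Fin 2 ⊕ Fin 2 → F) : om (u - v) w = om u w - om v w := by
  simp only [om_eq, Pi.sub_apply]; ring
theorem om_sub_right (u v w : Fin 2 ⊕ Fin 2 → F) : om u (v - w) = om u v - om u w := by
  simp only [om_eq, Pi.sub_apply]; ring
theorem om_smul_left (a : F) (u v : Fin 2 ⊕ Fin 2 → F) : om (a • u) v = a * om u v := by
  simp only [om_eq, Pi.smul_apply, smul_eq_mul]; ring
theorem om_smul_right (a : F) (u v : Fin 2 ⊕ Fin 2 → F) : om u (a • v) = a * om u v := by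
  simp only [om_eq, Pi.smul_apply, smul_eq_mul]; ring
theorem om_neg_left (u v : Fin 2 ⊕ Fin 2 → F) : om (-u) v = -om u v := by
  simp only [om_eq, Pi.neg_apply]; ring
theorem om_neg_right (u v : Fin 2 ⊕ Fin 2 → F) : om u (-v) = -om u v := by
  simp only [om_eq, Pi.neg_apply]; ring
theorem om_self (u : Fin 2 ⊕ Fin 2 → F) : om u u = 0 := by
  simp only [om_eq]; ring
theorem om_comm (u v : Fin 2 ⊕ Fin 2 → F) : om u v = -om v u := by
  simp only [om_eq]; ring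
theorem om_zero_right (u : Fin 2 ⊕ Fin 2 → F) : om u 0 = 0 := by
  simp only [om_eq, Pi.zero_apply]; ring

theorem eq_zero_of_om {u : Fin 2 ⊕ Fin 2 → F} (h : ∀ v, om u v = 0) : u = 0 := by
  have h1 := h (Pi.single (Sum.inl 0) 1)
  have h2 := h (Pi.single (Sum.inl 1) 1)
  have h3 := h (Pi.single (Sum.inr 0) 1)
  have h4 := h (Pi.single (Sum.inr 1) 1)
  rw [om_eq] at h1 h2 h3 h4
  simp at h1 h2 h3 h4
  ext i
  rcases i with i | i <;> fin_cases i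
  · exact h3
  · exact h4
  · exact h1
  · exact h2

theorem exists_om {u : Fin 2 ⊕ Fin 2 → F} (h : u ≠ 0) (c : F) : ∃ v, om u v = c := by
  by_contra hcon
  apply h
  apply eq_zero_of_om
  intro v
  by_contra hv
  exact hcon ⟨(c / om u v) • v, by rw [om_smul_right, div_mul_cancel₀ _ hv]⟩

theorem om_map (g : symplecticGroup (Fin 2) F) (u v : Fin 2 ⊕ Fin 2 → F) :
    om ((g : Matrix _ _ F) *ᵥ u) ((g : Matrix _ _ F) *ᵥ v) = om u v := by
  have h := SymplecticGroup.mem_iff'.mp g.2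
  calc om ((g : Matrix _ _ F) *ᵥ u) ((g : Matrix _ _ F) *ᵥ v)
      = (u ᵥ* (g : Matrix (Fin 2 ⊕ Fin 2) (Fin 2 ⊕ Fin 2) F)ᵀ) ⬝ᵥ (J (Fin 2) F *ᵥ ((g : Matrix _ _ F) *ᵥ v)) := by
        rw [Matrix.vecMul_transpose]; rfl
    _ = u ⬝ᵥ ((g : Matrix (Fin 2 ⊕ Fin 2) (Fin 2 ⊕ Fin 2) F)ᵀ *ᵥ (J (Fin 2) F *ᵥ ((g : Matrix _ _ F) *ᵥ v))) := by
        rw [← Matrix.dotProduct_mulVec]
    _ = om u v := by
        rw [Matrix.mulVec_mulVec, Matrix.mulVec_mulVec, h]; rfl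

theorem entry (P Q : Matrix (Fin 2 ⊕ Fin 2) (Fin 2 ⊕ Fin 2) F) (i j : Fin 2 ⊕ Fin 2) :
    (Pᵀ * J (Fin 2) F * Q) i j = om (fun k => P k i) (fun k => Q k j) := by
  rw [om, Matrix.mul_assoc]
  rfl

/-- the matrix of a frame -/
def fr (e1 e2 f1 f2 : Fin 2 ⊕ Fin 2 → F) : Matrix (Fin 2 ⊕ Fin 2) (Fin 2 ⊕ Fin 2) F :=
  Matrix.of fun k j => Sum.elim ![e1 k, e2 k] ![f1 k, f2 k] j

theorem fr_mem {e1 e2 f1 f2 : Fin 2 ⊕ Fin 2 → F} (h1 : om e1 e2 = 0) (h2 : om e1 f1 = -1) (h3 : om e1 f2 = 0)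
    (h4 : om e2 f1 = 0) (h5 : om e2 f2 = -1) (h6 : om f1 f2 = 0) : fr e1 e2 f1 f2 ∈ symplecticGroup (Fin 2) F := by
  rw [SymplecticGroup.mem_iff']
  ext i j
  rw [entry]
  have a1 : om e2 e1 = 0 := by rw [om_comm, h1, neg_zero]
  have a2 : om f1 e1 = 1 := by rw [om_comm, h2, neg_neg]
  have a3 : om f2 e1 = 0 := by rw [om_comm, h3, neg_zero]
  have a4 : om f1 e2 = 0 := by rw [om_comm, h4, neg_zero]
  have a5 : om f2 e2 = 1 := by rw [om_comm, h5, neg_neg]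
  have a6 : om f2 f1 = 0 := by rw [om_comm, h6, neg_zero]
  rcases i with i | i <;> rcases j with j | j <;> fin_cases i <;> fin_cases j
  · refine (om_self e1).trans ?_
    simp [J]
  · refine h1.trans ?_
    simp [J]
  · refine a1.trans ?_
    simp [J]
  · refine (om_self e2).trans ?_
    simp [J]
  · refine h2.trans ?_
    simp [J]
  · refine h3.trans ?_
    simp [J]
  · refine h4.trans ?_
    simp [J]
  · refine h5.trans ?_
    simp [J]
  · refine a2.trans ?_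
    simp [J]
  · refine a4.trans ?_
    simp [J]
  · refine a3.trans ?_
    simp [J]
  · refine a5.trans ?_
    simp [J]
  · refine (om_self f1).trans ?_
    simp [J]
  · refine h6.trans ?_
    simp [J]
  · refine a6.trans ?_
    simp [J]
  · refine (om_self f2).trans ?_
    simp [J]

/-- product of two conjugates up to sign -/
def Good (x g : symplecticGroup (Fin 2) F) : Prop :=
  ∃ y z : symplecticGroup (Fin 2) F, IsConj x y ∧ IsConj x z ∧
    ((g : Matrix (Fin 2 ⊕ Fin 2) (Fin 2 ⊕ Fin 2) F) = (y * z : symplecticGroup (Fin 2) F) ∨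
    (g : Matrix (Fin 2 ⊕ Fin 2) (Fin 2 ⊕ Fin 2) F) = -((y * z : symplecticGroup (Fin 2) F) : Matrix _ _ F))

variable {τ δ : F}

theorem isConj_conj {G : Type*} [Group G] {x y : G} (p : G) (h : IsConj x y) : IsConj x (p * y * p⁻¹) := by
  refine h.trans ?_
  rw [isConj_iff]
  exact ⟨p, rfl⟩

theorem good_of_frame [Finite F] (hroot : ∀ c : F, c * c - τ * c + δ ≠ 0) (hτ : τ ≠ 0) (hδ1 : δ ≠ 1) (hδ0 : δ ≠ 0)
    (C : Matrix (Fin 2) (Fin 2) F) (hC : C = !![0, -δ; 1, τ]) (C' : Matrix (Fin 2) (Fin 2) F) (hC' : C' * C = 1)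
    (g : symplecticGroup (Fin 2) F) {e1 e2 f1 f2 : Fin 2 ⊕ Fin 2 → F} (h1 : om e1 e2 = 0) (h2 : om e1 f1 = -1)
    (h3 : om e1 f2 = 0) (h4 : om e2 f1 = 0) (h5 : om e2 f2 = -1) (h6 : om f1 f2 = 0)
    (hOK : OK τ δ !![om f1 ((g : Matrix _ _ F) *ᵥ e1), om f1 ((g : Matrix _ _ F) *ᵥ e2);
      om f2 ((g : Matrix _ _ F) *ᵥ e1), om f2 ((g : Matrix _ _ F) *ᵥ e2)]) : Good (lv C C' hC') g := by
  set p : symplecticGroup (Fin 2) F := ⟨fr e1 e2 f1 f2, fr_mem h1 h2 h3 h4 h5 h6⟩ with hp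
  have hval : ((p⁻¹ * g * p : symplecticGroup (Fin 2) F) : Matrix _ _ F) =
      -(J (Fin 2) F) * ((fr e1 e2 f1 f2)ᵀ * J (Fin 2) F * ((g : Matrix _ _ F) * fr e1 e2 f1 f2)) := by
    rw [Submonoid.coe_mul, Submonoid.coe_mul, SymplecticGroup.coe_inv]
    simp only [Matrix.mul_assoc]
    rfl
  obtain ⟨M, hM⟩ : ∃ M : Matrix (Fin 2 ⊕ Fin 2) (Fin 2 ⊕ Fin 2) F,
    M = (fr e1 e2 f1 f2)ᵀ * J (Fin 2) F * ((g : Matrix _ _ F) * fr e1 e2 f1 f2) := ⟨_, rfl⟩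
  have hblk : ((p⁻¹ * g * p : symplecticGroup (Fin 2) F) : Matrix _ _ F) =
      fromBlocks (M.toBlocks₂₁) (M.toBlocks₂₂) (-M.toBlocks₁₁) (-M.toBlocks₁₂) := by
    rw [hval, ← hM]
    conv_lhs => rw [← fromBlocks_toBlocks M]
    rw [J, fromBlocks_neg, fromBlocks_multiply]
    simp
  have hblk11 : M.toBlocks₂₁ = !![om f1 ((g : Matrix _ _ F) *ᵥ e1), om f1 ((g : Matrix _ _ F) *ᵥ e2);
      om f2 ((g : Matrix _ _ F) *ᵥ e1), om f2 ((g : Matrix _ _ F) *ᵥ e2)] := by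
    ext i j
    rw [toBlocks₂₁, Matrix.of_apply, hM, entry]
    fin_cases i <;> fin_cases j <;> rfl
  rw [← hblk11] at hOK
  obtain ⟨P, Q, ε, hε, hPt, hPd, hQt, hQd, hPQ⟩ := hOK
  rw [Matrix.trace_fin_two] at hPt hQt
  rw [Matrix.det_fin_two] at hPd hQd
  rcases hε with rfl | rfl
  · rw [one_smul] at hPQ
    obtain ⟨y, z, hy, hz, hyz⟩ := block1 hroot hτ hδ1 hδ0 C hC C' hC' (p⁻¹ * g * p) _ _ _ _ hblk P Q hPt hPd hQt hQd hPQ
    refine ⟨p * y * p⁻¹, p * z * p⁻¹, isConj_conj p hy, isConj_conj p hz, Or.inl ?_⟩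
    congr 1
    have h7 : p * y * p⁻¹ * (p * z * p⁻¹) = p * (y * z) * p⁻¹ := by group
    rw [h7, ← hyz]
    group
  · rw [neg_one_smul] at hPQ
    set g' : symplecticGroup (Fin 2) F := ⟨-((p⁻¹ * g * p : symplecticGroup (Fin 2) F) : Matrix _ _ F),
      SymplecticGroup.neg_mem (p⁻¹ * g * p).2⟩ with hg'
    have hblk' : (g' : Matrix _ _ F) = fromBlocks (-(M.toBlocks₂₁)) (-(M.toBlocks₂₂)) (- -M.toBlocks₁₁) (- -M.toBlocks₁₂) := by
      rw [hg']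
      simp only
      rw [hblk, fromBlocks_neg]
    obtain ⟨y, z, hy, hz, hyz⟩ := block1 hroot hτ hδ1 hδ0 C hC C' hC' g' _ _ _ _ hblk' P Q hPt hPd hQt hQd
      (by rw [Matrix.neg_mul, hPQ, neg_neg])
    refine ⟨p * y * p⁻¹, p * z * p⁻¹, isConj_conj p hy, isConj_conj p hz, Or.inr ?_⟩
    have h7 : p * y * p⁻¹ * (p * z * p⁻¹) = p * (y * z) * p⁻¹ := by group
    rw [h7, ← hyz, Submonoid.coe_mul, Submonoid.coe_mul, hg']
    simp only
    rw [Matrix.mul_neg, Matrix.neg_mul, neg_neg, ← Submonoid.coe_mul, ← Submonoid.coe_mul]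
    congr 1
    group

end H46.TwD
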