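import Mathlib
import Cfsg.Agent.Lib.H46.TwD

/-! Products of two conjugates of a Levi element in `Sp(4,F)`: the main case distinction. -/

set_option autoImplicit false

namespace H46.TwE

open Matrix H46.TwB H46.TwC H46.TwD

variable {F : Type*} [Field F] [Fintype F] {τ δ : F}

/-- a Lagrangian plane meeting its image trivially -/
theorem good_of_K (hroot : ∀ c : F, c * c - τ * c + δ ≠ 0) (hτ : τ ≠ 0) (hδ1 : δ ≠ 1) (hδ0 : δ ≠ 0)
    (C : Matrix (Fin 2) (Fin 2) F) (hC : C = !![0, -δ; 1, τ]) (C' : Matrix (Fin 2) (Fin 2) F) (hC' : C' * C = 1)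
    (g : symplecticGroup (Fin 2) F) {e1 e2 : Fin 2 ⊕ Fin 2 → F} (h1 : om e1 e2 = 0) {k11 k12 k21 k22 : F}
    (h11 : om e1 ((g : Matrix _ _ F) *ᵥ e1) = k11) (h12 : om e1 ((g : Matrix _ _ F) *ᵥ e2) = k12)
    (h21 : om e2 ((g : Matrix _ _ F) *ᵥ e1) = k21) (h22 : om e2 ((g : Matrix _ _ F) *ᵥ e2) = k22)
    (hD : k11 * k22 - k12 * k21 ≠ 0)
    (hS : ∃ S : Matrix (Fin 2) (Fin 2) F, Sᵀ = S ∧ OK τ δ (S * !![-k11, -k12; -k21, -k22])) : Good (lv C C' hC') g := by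
  obtain ⟨S, hSt, hOK⟩ := hS
  have hS10 : S 1 0 = S 0 1 := congrFun (congrFun hSt 0) 1
  obtain ⟨D, hDe⟩ : ∃ D : F, D * (k11 * k22 - k12 * k21) = 1 := ⟨(k11 * k22 - k12 * k21)⁻¹, inv_mul_cancel₀ hD⟩
  have hg12 : om ((g : Matrix _ _ F) *ᵥ e1) ((g : Matrix _ _ F) *ᵥ e2) = 0 := by rw [om_map, h1]
  have hg21 : om ((g : Matrix _ _ F) *ᵥ e2) ((g : Matrix _ _ F) *ᵥ e1) = 0 := by rw [om_comm, hg12, neg_zero]
  have h1' : om e2 e1 = 0 := by rw [om_comm, h1, neg_zero]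
  have i11 : om ((g : Matrix _ _ F) *ᵥ e1) e1 = -k11 := by rw [om_comm, h11]
  have i12 : om ((g : Matrix _ _ F) *ᵥ e2) e1 = -k12 := by rw [om_comm, h12]
  have i21 : om ((g : Matrix _ _ F) *ᵥ e1) e2 = -k21 := by rw [om_comm, h21]
  have i22 : om ((g : Matrix _ _ F) *ᵥ e2) e2 = -k22 := by rw [om_comm, h22]
  refine good_of_frame hroot hτ hδ1 hδ0 C hC C' hC' g (e1 := e1) (e2 := e2)
    (f1 := -((D * k22) • ((g : Matrix _ _ F) *ᵥ e1) + (-(D * k21)) • ((g : Matrix _ _ F) *ᵥ e2)) - (S 0 0 • e1 + S 0 1 • e2))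
    (f2 := -((-(D * k12)) • ((g : Matrix _ _ F) *ᵥ e1) + (D * k11) • ((g : Matrix _ _ F) *ᵥ e2)) - (S 0 1 • e1 + S 1 1 • e2))
    h1 ?_ ?_ ?_ ?_ ?_ ?_
  · simp only [om_sub_right, om_neg_right, om_add_right, om_smul_right, om_self, h1, h11, h12]
    linear_combination -hDe
  · simp only [om_sub_right, om_neg_right, om_add_right, om_smul_right, om_self, h1, h11, h12]
    ring
  · simp only [om_sub_right, om_neg_right, om_add_right, om_smul_right, om_self, h1', h21, h22]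
    ring
  · simp only [om_sub_right, om_neg_right, om_add_right, om_smul_right, om_self, h1', h21, h22]
    linear_combination -hDe
  · simp only [om_sub_right, om_neg_right, om_add_right, om_smul_right, om_sub_left, om_neg_left, om_add_left, om_smul_left,
      om_self, h1, h1', h11, h12, h21, h22, hg12, hg21, i11, i12, i21, i22]
    ring
  · have h7 : S * !![-k11, -k12; -k21, -k22] = !![-(S 0 0 * k11 + S 0 1 * k21), -(S 0 0 * k12 + S 0 1 * k22);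
        -(S 0 1 * k11 + S 1 1 * k21), -(S 0 1 * k12 + S 1 1 * k22)] := by
      ext i j
      fin_cases i <;> fin_cases j <;> simp [Matrix.mul_apply, Fin.sum_univ_two, hS10] <;> ring
    rw [h7] at hOK
    convert hOK using 1
    simp only [om_sub_left, om_neg_left, om_add_left, om_smul_left, om_self, h11, h12, h21, h22, hg12, hg21]
    congr 1
    ext i j
    fin_cases i <;> fin_cases j <;> simp <;> ring

/-- the case of a plane with nonzero diagonal entry -/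
theorem good_of_K0 (h3 : 3 ≤ Fintype.card F) (hroot : ∀ c : F, c * c - τ * c + δ ≠ 0) (hτ : τ ≠ 0) (hδ1 : δ ≠ 1) (hδ0 : δ ≠ 0)
    (C : Matrix (Fin 2) (Fin 2) F) (hC : C = !![0, -δ; 1, τ]) (C' : Matrix (Fin 2) (Fin 2) F) (hC' : C' * C = 1)
    (g : symplecticGroup (Fin 2) F) {e1 e2 : Fin 2 ⊕ Fin 2 → F} (h1 : om e1 e2 = 0) {k11 k12 k21 k22 : F}
    (h11 : om e1 ((g : Matrix _ _ F) *ᵥ e1) = k11) (h12 : om e1 ((g : Matrix _ _ F) *ᵥ e2) = k12)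
    (h21 : om e2 ((g : Matrix _ _ F) *ᵥ e1) = k21) (h22 : om e2 ((g : Matrix _ _ F) *ᵥ e2) = k22)
    (hk : k11 ≠ 0) (hD : k11 * k22 - k12 * k21 ≠ 0) : Good (lv C C' hC') g := by
  refine good_of_K hroot hτ hδ1 hδ0 C hC C' hC' g h1 h11 h12 h21 h22 hD (exists_S h3 hτ _ ?_ ?_)
  · exact neg_ne_zero.mpr hk
  · rw [Matrix.det_fin_two_of]
    intro h
    apply hD
    linear_combination h

/-- the case `ω(v, g v) = 0` for all `v` -/
theorem caseA (hroot : ∀ c : F, c * c - τ * c + δ ≠ 0) (hτ : τ ≠ 0) (hδ1 : δ ≠ 1) (hδ0 : δ ≠ 0)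
    (C : Matrix (Fin 2) (Fin 2) F) (hC : C = !![0, -δ; 1, τ]) (C' : Matrix (Fin 2) (Fin 2) F) (hC' : C' * C = 1)
    (g : symplecticGroup (Fin 2) F) (hg1 : ∃ x, (g : Matrix (Fin 2 ⊕ Fin 2) (Fin 2 ⊕ Fin 2) F) *ᵥ x ≠ x) (hg2 : ∃ x, (g : Matrix (Fin 2 ⊕ Fin 2) (Fin 2 ⊕ Fin 2) F) *ᵥ x ≠ -x)
    (hq : ∀ v, om v ((g : Matrix (Fin 2 ⊕ Fin 2) (Fin 2 ⊕ Fin 2) F) *ᵥ v) = 0) : Good (lv C C' hC') g := by
  have hadj : ∀ u v, om ((g : Matrix (Fin 2 ⊕ Fin 2) (Fin 2 ⊕ Fin 2) F) *ᵥ u) v = om u ((g : Matrix (Fin 2 ⊕ Fin 2) (Fin 2 ⊕ Fin 2) F) *ᵥ v) := by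
    intro u v
    have h1 := hq (u + v)
    rw [Matrix.mulVec_add, om_add_left, om_add_right, om_add_right, hq, hq] at h1
    rw [om_comm]
    linear_combination -h1
  have hsq : ∀ v, (g : Matrix (Fin 2 ⊕ Fin 2) (Fin 2 ⊕ Fin 2) F) *ᵥ ((g : Matrix (Fin 2 ⊕ Fin 2) (Fin 2 ⊕ Fin 2) F) *ᵥ v) = v := by
    intro v
    apply sub_eq_zero.mp
    apply eq_zero_of_om
    intro u
    rw [om_sub_left, hadj, om_map, sub_self]
  obtain ⟨x, hx⟩ := hg1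
  by_cases h2 : (2 : F) = 0
  · -- characteristic two
    have hx' : (g : Matrix (Fin 2 ⊕ Fin 2) (Fin 2 ⊕ Fin 2) F) *ᵥ x - x ≠ 0 := sub_ne_zero.mpr hx
    obtain ⟨y, hy⟩ := exists_om hx' (-1)
    rw [om_sub_left] at hy
    have hyx : om ((g : Matrix (Fin 2 ⊕ Fin 2) (Fin 2 ⊕ Fin 2) F) *ᵥ y) x - om y x = -1 := by
      rw [hadj, om_comm y, om_comm y]
      linear_combination -hy + h2
    have hxx : om ((g : Matrix (Fin 2 ⊕ Fin 2) (Fin 2 ⊕ Fin 2) F) *ᵥ x) x = 0 := by rw [hadj, hq]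
    have hyy : om ((g : Matrix (Fin 2 ⊕ Fin 2) (Fin 2 ⊕ Fin 2) F) *ᵥ y) y = 0 := by rw [hadj, hq]
    have h5 : om ((g : Matrix (Fin 2 ⊕ Fin 2) (Fin 2 ⊕ Fin 2) F) *ᵥ x - x) ((g : Matrix (Fin 2 ⊕ Fin 2) (Fin 2 ⊕ Fin 2) F) *ᵥ y - y) = 0 := by
      rw [om_sub_left, om_sub_right, om_sub_right, om_map, ← hadj x y]
      linear_combination (om x y - om ((g : Matrix (Fin 2 ⊕ Fin 2) (Fin 2 ⊕ Fin 2) F) *ᵥ x) y) * h2
    have he1 : (g : Matrix (Fin 2 ⊕ Fin 2) (Fin 2 ⊕ Fin 2) F) *ᵥ ((g : Matrix (Fin 2 ⊕ Fin 2) (Fin 2 ⊕ Fin 2) F) *ᵥ x - x) = (g : Matrix (Fin 2 ⊕ Fin 2) (Fin 2 ⊕ Fin 2) F) *ᵥ x - x := by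
      rw [Matrix.mulVec_sub, hsq]
      ext i
      simp only [Pi.sub_apply]
      linear_combination (x i - ((g : Matrix (Fin 2 ⊕ Fin 2) (Fin 2 ⊕ Fin 2) F) *ᵥ x) i) * h2
    have he2 : (g : Matrix (Fin 2 ⊕ Fin 2) (Fin 2 ⊕ Fin 2) F) *ᵥ ((g : Matrix (Fin 2 ⊕ Fin 2) (Fin 2 ⊕ Fin 2) F) *ᵥ y - y) = (g : Matrix (Fin 2 ⊕ Fin 2) (Fin 2 ⊕ Fin 2) F) *ᵥ y - y := by
      rw [Matrix.mulVec_sub, hsq]
      ext i
      simp only [Pi.sub_apply]
      linear_combination (y i - ((g : Matrix (Fin 2 ⊕ Fin 2) (Fin 2 ⊕ Fin 2) F) *ᵥ y) i) * h2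
    have k1 : om ((g : Matrix (Fin 2 ⊕ Fin 2) (Fin 2 ⊕ Fin 2) F) *ᵥ x - x) y = -1 := by rw [om_sub_left, hy]
    have k2 : om ((g : Matrix (Fin 2 ⊕ Fin 2) (Fin 2 ⊕ Fin 2) F) *ᵥ x - x) (x + (-om y x) • ((g : Matrix (Fin 2 ⊕ Fin 2) (Fin 2 ⊕ Fin 2) F) *ᵥ x - x)) = 0 := by
      rw [om_add_right, om_smul_right, om_self, om_sub_left, hxx, om_self]
      ring
    have k3 : om ((g : Matrix (Fin 2 ⊕ Fin 2) (Fin 2 ⊕ Fin 2) F) *ᵥ y - y) y = 0 := by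
      rw [om_sub_left, hyy, om_self, sub_zero]
    have k4 : om ((g : Matrix (Fin 2 ⊕ Fin 2) (Fin 2 ⊕ Fin 2) F) *ᵥ y - y) (x + (-om y x) • ((g : Matrix (Fin 2 ⊕ Fin 2) (Fin 2 ⊕ Fin 2) F) *ᵥ x - x)) = -1 := by
      rw [om_add_right, om_smul_right, om_comm _ ((g : Matrix (Fin 2 ⊕ Fin 2) (Fin 2 ⊕ Fin 2) F) *ᵥ x - x), h5, om_sub_left, hyx]
      ring
    have k5 : om y (x + (-om y x) • ((g : Matrix (Fin 2 ⊕ Fin 2) (Fin 2 ⊕ Fin 2) F) *ᵥ x - x)) = 0 := by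
      rw [om_add_right, om_smul_right, om_comm _ ((g : Matrix (Fin 2 ⊕ Fin 2) (Fin 2 ⊕ Fin 2) F) *ᵥ x - x), k1]
      ring
    refine good_of_frame hroot hτ hδ1 hδ0 C hC C' hC' g h5 k1 k2 k3 k4 k5 ?_
    rw [he1, he2, om_comm, k1, om_comm y, k3, om_comm (x + _), k2, om_comm (x + _), k4, neg_neg, neg_zero]
    have h6 := OK_one (τ := τ) (δ := δ) 1 (Or.inl rfl)
    rw [one_smul, Matrix.one_fin_two] at h6
    exact h6
  · -- odd characteristic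
    obtain ⟨y, hy⟩ := hg2
    have hcard : Fintype.card F % 2 = 1 := by
      by_contra hcon
      have h4 : 2 ∣ Fintype.card F := by omega
      apply h2
      have h5 := (CharP.cast_eq_zero_iff F (ringChar F) 2)
      rw [Nat.cast_ofNat] at h5
      rw [h5]
      have h6 := FiniteField.even_card_iff_char_two (F := F)
      rw [h6.mpr (by omega)]
    obtain ⟨h, hh⟩ : ∃ h : F, h * 2 = 1 := ⟨2⁻¹, inv_mul_cancel₀ h2⟩
    set vm := (g : Matrix (Fin 2 ⊕ Fin 2) (Fin 2 ⊕ Fin 2) F) *ᵥ x - x with hvm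
    set vp := (g : Matrix (Fin 2 ⊕ Fin 2) (Fin 2 ⊕ Fin 2) F) *ᵥ y + y with hvp
    have hvm0 : vm ≠ 0 := sub_ne_zero.mpr hx
    have hvp0 : vp ≠ 0 := by
      intro h0
      exact hy (eq_neg_of_add_eq_zero_left h0)
    have gvm : (g : Matrix (Fin 2 ⊕ Fin 2) (Fin 2 ⊕ Fin 2) F) *ᵥ vm = -vm := by
      rw [hvm, Matrix.mulVec_sub, hsq]
      abel
    have gvp : (g : Matrix (Fin 2 ⊕ Fin 2) (Fin 2 ⊕ Fin 2) F) *ᵥ vp = vp := by
      rw [hvp, Matrix.mulVec_add, hsq]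
      abel
    obtain ⟨w, hw⟩ := exists_om hvp0 1
    obtain ⟨w', hw'⟩ := exists_om hvm0 (-1)
    obtain ⟨wp, hwp⟩ : ∃ wp, wp = h • (w + (g : Matrix (Fin 2 ⊕ Fin 2) (Fin 2 ⊕ Fin 2) F) *ᵥ w) := ⟨_, rfl⟩
    obtain ⟨wm, hwm⟩ : ∃ wm, wm = h • (w' - (g : Matrix (Fin 2 ⊕ Fin 2) (Fin 2 ⊕ Fin 2) F) *ᵥ w') := ⟨_, rfl⟩
    have gwp : (g : Matrix (Fin 2 ⊕ Fin 2) (Fin 2 ⊕ Fin 2) F) *ᵥ wp = wp := by
      rw [hwp, Matrix.mulVec_smul, Matrix.mulVec_add, hsq, add_comm w]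
    have gwm : (g : Matrix (Fin 2 ⊕ Fin 2) (Fin 2 ⊕ Fin 2) F) *ᵥ wm = -wm := by
      rw [hwm, Matrix.mulVec_smul, Matrix.mulVec_sub, hsq, ← smul_neg, neg_sub]
    have c1 : om vp wp = 1 := by
      rw [hwp, om_smul_right, om_add_right, ← hadj, gvp, hw]
      linear_combination hh
    have c2 : om vm wm = -1 := by
      rw [hwm, om_smul_right, om_sub_right, ← hadj, gvm, om_neg_left, hw']
      linear_combination -hh
    have cross : ∀ a b, (g : Matrix (Fin 2 ⊕ Fin 2) (Fin 2 ⊕ Fin 2) F) *ᵥ a = a → (g : Matrix (Fin 2 ⊕ Fin 2) (Fin 2 ⊕ Fin 2) F) *ᵥ b = -b → om a b = 0 := by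
      intro a b ha hb
      have h4 := om_map g a b
      rw [ha, hb, om_neg_right] at h4
      have h5 : (2 : F) * om a b = 0 := by linear_combination -h4
      exact (mul_eq_zero.mp h5).resolve_left h2
    have c3 : om vp wm = 0 := cross _ _ gvp gwm
    have c4 : om wp vm = 0 := cross _ _ gwp gvm
    have c5 : om vp vm = 0 := cross _ _ gvp gvm
    have c6 : om wp wm = 0 := cross _ _ gwp gwm
    have c3' : om wm vp = 0 := by rw [om_comm, c3, neg_zero]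
    have c4' : om vm wp = 0 := by rw [om_comm, c4, neg_zero]
    have c5' : om vm vp = 0 := by rw [om_comm, c5, neg_zero]
    have c6' : om wm wp = 0 := by rw [om_comm, c6, neg_zero]
    have c1' : om wp vp = -1 := by rw [om_comm, c1]
    have c2' : om wm vm = 1 := by rw [om_comm, c2, neg_neg]
    refine good_of_K hroot hτ hδ1 hδ0 C hC C' hC' g (e1 := vp + vm) (e2 := wp + wm) (k11 := 0) (k12 := 2) (k21 := -2)
      (k22 := 0) ?_ (hq _) ?_ ?_ (hq _) ?_ ?_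
    · simp only [om_add_left, om_add_right, c1, c2, c3, c4']
      ring
    · simp only [Matrix.mulVec_add, gwp, gwm, om_add_left, om_add_right, om_neg_right, c1, c2, c3, c4']
      ring
    · simp only [Matrix.mulVec_add, gvp, gvm, om_add_left, om_add_right, om_neg_right, c1', c2', c3', c4]
      ring
    · intro h4
      have h5 : (2 : F) * 2 = 0 := by linear_combination h4
      rcases mul_eq_zero.mp h5 with h6 | h6 <;> exact h2 h6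
    · refine ⟨!![h, 0; 0, h], ?_, ?_⟩
      · ext i j
        fin_cases i <;> fin_cases j <;> rfl
      · have h4 : !![h, 0; 0, h] * !![-(0:F), -2; -(-2), -0] = !![0, -1; 1, 0] := by
          rw [Matrix.mul_fin_two]
          congr 1
          ext i j
          fin_cases i <;> fin_cases j <;> simp [hh]
        rw [h4]
        exact OK_rot hcard

end H46.TwE
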