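import Mathlib
import Cfsg.Agent.Lib.H46.TwE

/-! Products of two conjugates of a Levi element in `Sp(4,F)`: the generic case. -/

set_option autoImplicit false

namespace H46.TwF

open Matrix H46.TwB H46.TwC H46.TwD H46.TwE

variable {F : Type*} [Field F]

abbrev VV (F : Type*) := Fin 2 ⊕ Fin 2 → F

/-- the complement of a hyperbolic plane -/
theorem exists_compl {e f : VV F} {m : F} (hm : m ≠ 0) (hef : om e f = m) :
    ∃ w1 w2 : VV F, om w1 e = 0 ∧ om w1 f = 0 ∧ om w2 e = 0 ∧ om w2 f = 0 ∧ om w1 w2 = 1 ∧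
      ∀ v : VV F, m • v = om v f • e + om e v • f + (m * om v w2) • w1 + (m * om w1 v) • w2 := by
  have hfe : om f e = -m := by rw [om_comm, hef]
  obtain ⟨w1, hw0, hwe, hwf⟩ : ∃ w1 : VV F, w1 ≠ 0 ∧ om w1 e = 0 ∧ om w1 f = 0 := by
    let φ : VV F →ₗ[F] F × F :=
      { toFun := fun v => (om v e, om v f)
        map_add' := fun u v => by rw [om_add_left, om_add_left]; rfl
        map_smul' := fun a v => by rw [om_smul_left, om_smul_left]; rfl }
    have h1 : LinearMap.ker φ ≠ ⊥ := by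
      apply LinearMap.ker_ne_bot_of_finrank_lt
      simp
    obtain ⟨w, hw, hw0⟩ := Submodule.exists_mem_ne_zero_of_ne_bot h1
    rw [LinearMap.mem_ker] at hw
    exact ⟨w, hw0, congrArg Prod.fst hw, congrArg Prod.snd hw⟩
  obtain ⟨v, hv⟩ := exists_om hw0 1
  obtain ⟨mi, hmi⟩ : ∃ mi : F, mi * m = 1 := ⟨m⁻¹, inv_mul_cancel₀ hm⟩
  obtain ⟨w2, hw2⟩ : ∃ w2 : VV F, w2 = v - (mi * om v f) • e + (mi * om v e) • f := ⟨_, rfl⟩
  have k1 : om w2 e = 0 := by
    rw [hw2, om_add_left, om_sub_left, om_smul_left, om_smul_left, om_self, hfe]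
    linear_combination (-om v e) * hmi
  have k2 : om w2 f = 0 := by
    rw [hw2, om_add_left, om_sub_left, om_smul_left, om_smul_left, om_self, hef]
    linear_combination (-om v f) * hmi
  have k3 : om w1 w2 = 1 := by
    rw [hw2, om_add_right, om_sub_right, om_smul_right, om_smul_right, hwe, hwf, hv]
    ring
  have hwe' : om e w1 = 0 := by rw [om_comm, hwe, neg_zero]
  have hwf' : om f w1 = 0 := by rw [om_comm, hwf, neg_zero]
  have k1' : om e w2 = 0 := by rw [om_comm, k1, neg_zero]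
  have k2' : om f w2 = 0 := by rw [om_comm, k2, neg_zero]
  have k3' : om w2 w1 = -1 := by rw [om_comm, k3]
  have hli : LinearIndependent F ![e, f, w1, w2] := by
    rw [Fintype.linearIndependent_iff]
    intro c hc
    rw [Fin.sum_univ_four] at hc
    simp only [Matrix.cons_val_zero, Matrix.cons_val_one, Matrix.cons_val] at hc
    have r1 := congrArg (fun u => om u f) hc
    have r2 := congrArg (fun u => om u e) hc
    have r3 := congrArg (fun u => om u w2) hc
    have r4 := congrArg (fun u => om u w1) hc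
    have hz : ∀ u : VV F, om 0 u = 0 := fun u => by rw [om_comm, om_zero_right, neg_zero]
    simp only [om_add_left, om_smul_left, om_self, hef, hfe, hwe, hwf, k1, k2, k3, hwe', hwf', k1', k2', k3', hz] at r1 r2 r3 r4
    have s0 : c 0 = 0 := by
      have : c 0 * m = 0 := by linear_combination r1
      exact (mul_eq_zero.mp this).resolve_right hm
    have s1 : c 1 = 0 := by
      have : c 1 * m = 0 := by linear_combination -r2
      exact (mul_eq_zero.mp this).resolve_right hm
    have s2 : c 2 = 0 := by linear_combination r3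
    have s3 : c 3 = 0 := by linear_combination -r4
    intro i
    fin_cases i
    · exact s0
    · exact s1
    · exact s2
    · exact s3
  have hspan : Submodule.span F (Set.range ![e, f, w1, w2]) = ⊤ := by
    apply hli.span_eq_top_of_card_eq_finrank'
    simp
  refine ⟨w1, w2, hwe, hwf, k1, k2, k3, ?_⟩
  intro v
  obtain ⟨r, hr⟩ : ∃ r : VV F, r = m • v - (om v f • e + om e v • f + (m * om v w2) • w1 + (m * om w1 v) • w2) := ⟨_, rfl⟩
  have r1 : om r e = 0 := by
    rw [hr]
    simp only [om_sub_left, om_add_left, om_smul_left, om_self, hfe, hwe, k1]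
    rw [om_comm v e]
    ring
  have r2 : om r f = 0 := by
    rw [hr]
    simp only [om_sub_left, om_add_left, om_smul_left, om_self, hef, hwf, k2]
    ring
  have r3 : om r w1 = 0 := by
    rw [hr]
    simp only [om_sub_left, om_add_left, om_smul_left, om_self, hwe', hwf', k3']
    rw [om_comm v w1]
    ring
  have r4 : om r w2 = 0 := by
    rw [hr]
    simp only [om_sub_left, om_add_left, om_smul_left, om_self, k1', k2', k3]
    ring
  have hr0 : r = 0 := by
    apply eq_zero_of_om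
    intro u
    have hu : u ∈ Submodule.span F (Set.range ![e, f, w1, w2]) := by rw [hspan]; trivial
    induction hu using Submodule.span_induction with
    | mem x hx =>
      obtain ⟨i, rfl⟩ := hx
      fin_cases i
      · exact r1
      · exact r2
      · exact r3
      · exact r4
    | zero => exact om_zero_right _
    | add x y _ _ hx hy => rw [om_add_right, hx, hy, add_zero]
    | smul a x _ hx => rw [om_smul_right, hx, mul_zero]
  rw [hr] at hr0
  exact sub_eq_zero.mp hr0

variable [Fintype F] {τ δ : F}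

/-- one vector moved along `f` -/
theorem caseB1 (h3 : 3 ≤ Fintype.card F) (hroot : ∀ c : F, c * c - τ * c + δ ≠ 0) (hτ : τ ≠ 0) (hδ1 : δ ≠ 1) (hδ0 : δ ≠ 0)
    (C : Matrix (Fin 2) (Fin 2) F) (hC : C = !![0, -δ; 1, τ]) (C' : Matrix (Fin 2) (Fin 2) F) (hC' : C' * C = 1)
    (g : symplecticGroup (Fin 2) F) {e f w : VV F} {m κ β c : F} (hm : m ≠ 0)
    (hf : (g : Matrix (Fin 2 ⊕ Fin 2) (Fin 2 ⊕ Fin 2) F) *ᵥ e = f) (hef : om e f = m)
    (hκ : om e ((g : Matrix (Fin 2 ⊕ Fin 2) (Fin 2 ⊕ Fin 2) F) *ᵥ f) = κ)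
    (hwe : om w e = 0) (hwf : om w f = 0) (hgw : (g : Matrix (Fin 2 ⊕ Fin 2) (Fin 2 ⊕ Fin 2) F) *ᵥ w = β • f + c • w)
    (hβ : β ≠ 0) (hc : c * c = 1) : Good (lv C C' hC') g := by
  classical
  have hfe : om f e = -m := by rw [om_comm, hef]
  have hwe' : om e w = 0 := by rw [om_comm, hwe, neg_zero]
  have hwf' : om f w = 0 := by rw [om_comm, hwf, neg_zero]
  have hff : om f ((g : Matrix (Fin 2 ⊕ Fin 2) (Fin 2 ⊕ Fin 2) F) *ᵥ f) = m := by
    have h1 := om_map g e f
    rw [hf, hef] at h1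
    exact h1
  have hwTf : om w ((g : Matrix (Fin 2 ⊕ Fin 2) (Fin 2 ⊕ Fin 2) F) *ᵥ f) = -(c * β * m) := by
    have h1 := om_map g w f
    rw [hgw, om_add_left, om_smul_left, om_smul_left, hff, hwf] at h1
    linear_combination c * h1 - om w ((g : Matrix (Fin 2 ⊕ Fin 2) (Fin 2 ⊕ Fin 2) F) *ᵥ f) * hc
  obtain ⟨b, hb0, hb⟩ : ∃ b : F, b ≠ 0 ∧ m * (1 + b ^ 2) + b * κ ≠ 0 := by
    by_cases h1 : m * (1 + 1 ^ 2) + 1 * κ ≠ 0
    · exact ⟨1, one_ne_zero, h1⟩
    by_cases h2 : m * (1 + (-1) ^ 2) + (-1) * κ ≠ 0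
    · exact ⟨-1, neg_ne_zero.mpr one_ne_zero, h2⟩
    push Not at h1 h2
    have h4 : (2 : F) = 0 := by
      have h5 : m * ((2 : F) * 2) = 0 := by linear_combination h1 + h2
      have h6 := (mul_eq_zero.mp h5).resolve_left hm
      rcases mul_eq_zero.mp h6 with h7 | h7 <;> exact h7
    have h5 : κ = 0 := by linear_combination h1 - m * h4
    obtain ⟨X, hX⟩ : ∃ X : F, X ∉ ({0, 1} : Finset F) := by
      by_contra hcon
      push Not at hcon
      have h4 : Fintype.card F ≤ ({0, 1} : Finset F).card := Finset.card_le_card fun x _ => hcon x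
      have h5 : ({0, 1} : Finset F).card ≤ 2 := Finset.card_le_two
      omega
    rw [Finset.mem_insert, Finset.mem_singleton, not_or] at hX
    refine ⟨X, hX.1, ?_⟩
    intro h6
    have h7 : m * ((X - 1) * (X - 1)) = 0 := by
      rw [h5] at h6
      linear_combination h6 - m * X * h4
    rcases mul_eq_zero.mp ((mul_eq_zero.mp h7).resolve_left hm) with h8 | h8 <;> exact hX.2 (sub_eq_zero.mp h8)
  refine good_of_K0 h3 hroot hτ hδ1 hδ0 C hC C' hC' g (e1 := e + b • f) (e2 := w) (k11 := m * (1 + b ^ 2) + b * κ)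
    (k12 := β * m) (k21 := -(b * c * β * m)) (k22 := 0) ?_ ?_ ?_ ?_ ?_ hb ?_
  · simp only [om_add_left, om_smul_left, hwe', hwf']
    ring
  · simp only [Matrix.mulVec_add, Matrix.mulVec_smul, om_add_left, om_smul_left, om_add_right, om_smul_right, hf, hef, hκ,
      om_self, hff]
    ring
  · rw [hgw]
    simp only [om_add_left, om_smul_left, om_add_right, om_smul_right, hef, om_self, hwe', hwf']
    ring
  · simp only [Matrix.mulVec_add, Matrix.mulVec_smul, om_add_right, om_smul_right, hf, hwf, hwTf]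
    ring
  · rw [hgw]
    simp only [om_add_right, om_smul_right, hwf, om_self]
    ring
  · intro h1
    have h2 : (β * m) * (b * β * m) = 0 := by
      linear_combination c * h1 - (b * β * β * m * m) * hc
    rcases mul_eq_zero.mp h2 with h4 | h4
    · rcases mul_eq_zero.mp h4 with h5 | h5
      · exact hβ h5
      · exact hm h5
    · rcases mul_eq_zero.mp h4 with h5 | h5
      · rcases mul_eq_zero.mp h5 with h6 | h6
        · exact hb0 h6
        · exact hβ h6
      · exact hm h5

/-- the case where some `ω(e, g e)` is nonzero -/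
theorem caseB (h3 : 3 ≤ Fintype.card F) (hroot : ∀ c : F, c * c - τ * c + δ ≠ 0) (hτ : τ ≠ 0) (hδ1 : δ ≠ 1) (hδ0 : δ ≠ 0)
    (C : Matrix (Fin 2) (Fin 2) F) (hC : C = !![0, -δ; 1, τ]) (C' : Matrix (Fin 2) (Fin 2) F) (hC' : C' * C = 1)
    (g : symplecticGroup (Fin 2) F) (e f : VV F) (m : F) (hm : m ≠ 0)
    (hf : (g : Matrix (Fin 2 ⊕ Fin 2) (Fin 2 ⊕ Fin 2) F) *ᵥ e = f) (hef : om e f = m) : Good (lv C C' hC') g := by
  by_cases hB1 : ∃ w : VV F, om w e = 0 ∧ om w f = 0 ∧ om w ((g : Matrix (Fin 2 ⊕ Fin 2) (Fin 2 ⊕ Fin 2) F) *ᵥ w) ≠ 0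
  · obtain ⟨w, hwe, hwf, hww⟩ := hB1
    refine good_of_K0 h3 hroot hτ hδ1 hδ0 C hC C' hC' g (e1 := e) (e2 := w) (by rw [om_comm, hwe, neg_zero])
      (k11 := m) (by rw [hf, hef]) rfl (k21 := 0) (by rw [hf, hwf]) rfl hm ?_
    rw [mul_zero, sub_zero]
    exact mul_ne_zero hm hww
  push Not at hB1
  obtain ⟨w1, w2, hw1e, hw1f, hw2e, hw2f, hw12, hexp⟩ := exists_compl hm hef
  have hfe : om f e = -m := by rw [om_comm, hef]
  have hw21 : om w2 w1 = -1 := by rw [om_comm, hw12]
  have hw1e' : om e w1 = 0 := by rw [om_comm, hw1e, neg_zero]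
  have hw1f' : om f w1 = 0 := by rw [om_comm, hw1f, neg_zero]
  have hw2e' : om e w2 = 0 := by rw [om_comm, hw2e, neg_zero]
  have hw2f' : om f w2 = 0 := by rw [om_comm, hw2f, neg_zero]
  obtain ⟨mi, hmi⟩ : ∃ mi : F, mi * m = 1 := ⟨m⁻¹, inv_mul_cancel₀ hm⟩
  have hexp' : ∀ v : VV F, v = (mi * om v f) • e + (mi * om e v) • f + (om v w2) • w1 + (om w1 v) • w2 := by
    intro v
    have h1 := congrArg (fun u => mi • u) (hexp v)
    simp only [smul_add, smul_smul, hmi, one_smul, ← mul_assoc, one_mul] at h1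
    exact h1
  obtain ⟨T, hT⟩ : ∃ T : Matrix (Fin 2 ⊕ Fin 2) (Fin 2 ⊕ Fin 2) F, (g : Matrix (Fin 2 ⊕ Fin 2) (Fin 2 ⊕ Fin 2) F) = T :=
    ⟨_, rfl⟩
  have hTom : ∀ u v, om (T *ᵥ u) (T *ᵥ v) = om u v := fun u v => by rw [← hT, om_map]
  rw [hT] at hf hB1
  -- images of `w1`, `w2`
  obtain ⟨c, hcd⟩ : ∃ c, om (T *ᵥ w1) w2 = c := ⟨_, rfl⟩
  obtain ⟨c', hcd'⟩ : ∃ c, om w1 (T *ᵥ w2) = c := ⟨_, rfl⟩
  have hTw1 : T *ᵥ w1 = (mi * om e (T *ᵥ w1)) • f + c • w1 := by
    have h1 := hexp' (T *ᵥ w1)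
    have h2 : om (T *ᵥ w1) f = 0 := by rw [← hf, hTom, hw1e]
    rw [h2, hB1 w1 hw1e hw1f, hcd, mul_zero, zero_smul, zero_smul, zero_add, add_zero] at h1
    exact h1
  have hTw2 : T *ᵥ w2 = (mi * om e (T *ᵥ w2)) • f + c' • w2 := by
    have h1 := hexp' (T *ᵥ w2)
    have h2 : om (T *ᵥ w2) f = 0 := by rw [← hf, hTom, hw2e]
    rw [h2, om_comm (T *ᵥ w2) w2, hB1 w2 hw2e hw2f, hcd', mul_zero, zero_smul, neg_zero, zero_smul, zero_add, add_zero] at h1
    exact h1
  obtain ⟨β1, hβ1⟩ : ∃ β, mi * om e (T *ᵥ w1) = β := ⟨_, rfl⟩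
  obtain ⟨β2, hβ2⟩ : ∃ β, mi * om e (T *ᵥ w2) = β := ⟨_, rfl⟩
  rw [hβ1] at hTw1
  rw [hβ2] at hTw2
  have hcc : c' = c := by
    have h1 := hB1 (w1 + w2) (by rw [om_add_left, hw1e, hw2e, add_zero]) (by rw [om_add_left, hw1f, hw2f, add_zero])
    rw [Matrix.mulVec_add, hTw1, hTw2] at h1
    simp only [om_add_left, om_add_right, om_smul_right, hw1f, hw2f, om_self, hw12, hw21] at h1
    linear_combination h1
  rw [hcc] at hTw2
  have hc1 : c * c = 1 := by
    have h1 := hTom w1 w2
    rw [hTw1, hTw2] at h1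
    simp only [om_add_left, om_add_right, om_smul_left, om_smul_right, hw1f, hw2f', hw1f', om_self, hw12] at h1
    linear_combination h1
  by_cases h1 : β1 = 0
  · by_cases h2 : β2 = 0
    · -- everything is explicit
      rw [h1, zero_smul, zero_add] at hTw1
      rw [h2, zero_smul, zero_add] at hTw2
      obtain ⟨t, ht⟩ : ∃ t, mi * om e (T *ᵥ f) = t := ⟨_, rfl⟩
      have hTf : T *ᵥ f = -e + t • f := by
        have h4 := hexp' (T *ᵥ f)
        have h5 : om (T *ᵥ f) f = -m := by
          rw [om_comm]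
          have h6 := hTom e f
          rw [hf, hef] at h6
          rw [h6]
        have h6 : om (T *ᵥ f) w2 = 0 := by
          have h7 := hTom f w2
          rw [hTw2, om_smul_right, hw2f'] at h7
          linear_combination c * h7 - om (T *ᵥ f) w2 * hc1
        have h7 : om w1 (T *ᵥ f) = 0 := by
          have h7 := hTom w1 f
          rw [hTw1, om_smul_left, hw1f] at h7
          linear_combination c * h7 - om w1 (T *ᵥ f) * hc1
        rw [h5, h6, h7, ht, zero_smul, zero_smul, add_zero, add_zero, mul_neg, hmi, neg_one_smul] at h4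
        exact h4
      by_cases htc : t = 2 * c
      · have he1 : T *ᵥ (f - c • e) = c • (f - c • e) := by
          rw [Matrix.mulVec_sub, Matrix.mulVec_smul, hf, hTf, htc, smul_sub, smul_smul, hc1, one_smul, mul_smul, two_smul]
          abel
        have k1 : om (f - c • e) w1 = 0 := by rw [om_sub_left, om_smul_left, hw1f', hw1e']; ring
        have k2 : om (f - c • e) (mi • e) = -1 := by
          rw [om_smul_right, om_sub_left, om_smul_left, hfe, om_self]
          linear_combination -hmi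
        have k3 : om (f - c • e) (-w2) = 0 := by rw [om_neg_right, om_sub_left, om_smul_left, hw2f', hw2e']; ring
        have k4 : om w1 (mi • e) = 0 := by rw [om_smul_right, hw1e, mul_zero]
        have k5 : om w1 (-w2) = -1 := by rw [om_neg_right, hw12]
        have k6 : om (mi • e) (-w2) = 0 := by rw [om_neg_right, om_smul_left, hw2e', mul_zero, neg_zero]
        refine good_of_frame hroot hτ hδ1 hδ0 C hC C' hC' g k1 k2 k3 k4 k5 k6 ?_
        rw [hT, he1, hTw1]
        simp only [om_smul_right]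
        rw [om_comm (mi • e) (f - c • e), k2, om_comm (mi • e) w1, k4, om_comm (-w2) (f - c • e), k3, om_comm (-w2) w1, k5]
        have h6 := OK_one (τ := τ) (δ := δ) c (by
          have h7 : (c - 1) * (c + 1) = 0 := by linear_combination hc1
          rcases mul_eq_zero.mp h7 with h8 | h8
          · exact Or.inl (sub_eq_zero.mp h8)
          · exact Or.inr (eq_neg_of_add_eq_zero_left h8))
        convert h6 using 1
        ext i j
        fin_cases i <;> fin_cases j <;> simp
      · refine good_of_K0 h3 hroot hτ hδ1 hδ0 C hC C' hC' g (e1 := e + w1) (e2 := f - m • w2) (k11 := m)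
          (k12 := t * m - m * c) (k21 := m * c) (k22 := m) ?_ ?_ ?_ ?_ ?_ hm ?_
        · simp only [om_add_left, om_sub_right, om_smul_right, hef, hw2e', hw1f, hw12]
          ring
        · rw [hT, Matrix.mulVec_add, hf, hTw1]
          simp only [om_add_left, om_add_right, om_smul_right, hef, hw1e', hw1f, om_self]
          ring
        · rw [hT, Matrix.mulVec_sub, Matrix.mulVec_smul, hTf, hTw2]
          simp only [om_add_left, om_sub_right, om_add_right, om_neg_right, om_smul_right, hef, hw1e, hw1f, hw2e', hw12, om_self]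
          ring
        · rw [hT, Matrix.mulVec_add, hf, hTw1]
          simp only [om_sub_left, om_smul_left, om_add_right, om_smul_right, hw1f', hw2f, hw21, om_self]
          ring
        · rw [hT, Matrix.mulVec_sub, Matrix.mulVec_smul, hTf, hTw2]
          simp only [om_sub_left, om_smul_left, om_sub_right, om_add_right, om_neg_right, om_smul_right, hfe, hw2e, hw2f,
            hw2f', om_self]
          ring
        · intro h4
          apply htc
          have h5 : m * m * (2 - t * c) = 0 := by linear_combination h4 + m * m * (-hc1)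
          have h6 := (mul_eq_zero.mp h5).resolve_left (mul_ne_zero hm hm)
          linear_combination (-c) * h6 + t * (-hc1)
    · exact caseB1 h3 hroot hτ hδ1 hδ0 C hC C' hC' g hm (by rw [hT]; exact hf) hef rfl hw2e hw2f (by rw [hT]; exact hTw2) h2 hc1
  · exact caseB1 h3 hroot hτ hδ1 hδ0 C hC C' hC' g hm (by rw [hT]; exact hf) hef rfl hw1e hw1f (by rw [hT]; exact hTw1) h1 hc1

/-- every noncentral element is, up to sign, a product of two conjugates -/
theorem main (h3 : 3 ≤ Fintype.card F) (hroot : ∀ c : F, c * c - τ * c + δ ≠ 0) (hτ : τ ≠ 0) (hδ1 : δ ≠ 1) (hδ0 : δ ≠ 0)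
    (C : Matrix (Fin 2) (Fin 2) F) (hC : C = !![0, -δ; 1, τ]) (C' : Matrix (Fin 2) (Fin 2) F) (hC' : C' * C = 1)
    (g : symplecticGroup (Fin 2) F) (hg1 : (g : Matrix (Fin 2 ⊕ Fin 2) (Fin 2 ⊕ Fin 2) F) ≠ 1)
    (hg2 : (g : Matrix (Fin 2 ⊕ Fin 2) (Fin 2 ⊕ Fin 2) F) ≠ -1) : Good (lv C C' hC') g := by
  by_cases h : ∃ e : VV F, om e ((g : Matrix (Fin 2 ⊕ Fin 2) (Fin 2 ⊕ Fin 2) F) *ᵥ e) ≠ 0
  · obtain ⟨e, he⟩ := h
    exact caseB h3 hroot hτ hδ1 hδ0 C hC C' hC' g e _ _ he rfl rfl
  · push Not at h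
    refine caseA hroot hτ hδ1 hδ0 C hC C' hC' g ?_ ?_ h
    · by_contra hcon
      push Not at hcon
      apply hg1
      apply Matrix.mulVec_injective
      ext1 v
      rw [hcon, Matrix.one_mulVec]
    · by_contra hcon
      push Not at hcon
      apply hg2
      apply Matrix.mulVec_injective
      ext1 v
      rw [hcon, Matrix.neg_mulVec, Matrix.one_mulVec]

end H46.TwF
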