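import Mathlib
import Cfsg.Agent.Lib.H46.TyGL

/-! Weighted counts of types with given determinant. -/

set_option autoImplicit false

namespace H46.TyDet

open Finset Polynomial H46.TyAlg H46.TyCount H46.TyNum

open scoped Classical

variable {F : Type*} [Field F]

/-- the support of a type -/
noncomputable def supp (n : ℕ) (f : ℕ → F[X]) : Finset ℕ := (range (n + 1)).filter (fun e => f e ≠ 1)

theorem mem_supp {n : ℕ} {f : ℕ → F[X]} (hf : f ∈ TT F 1 n) (e : ℕ) : e ∈ supp n f ↔ f e ≠ 1 := by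
  unfold supp
  rw [mem_filter, mem_range]
  constructor
  · exact fun h => h.2
  · intro h
    refine ⟨?_, h⟩
    by_contra hcon
    exact h (hf.2.1 e (Or.inr (by omega)))

/-- the gcd of the support -/
noncomputable def gc (n : ℕ) (f : ℕ → F[X]) : ℕ := (supp n f).gcd id

/-- the weight of a type -/
noncomputable def wt (n : ℕ) (f : ℕ → F[X]) : ℕ := Nat.gcd (gc n f) (Nat.card F - 1)

theorem exists_bezout (s : Finset ℕ) : ∃ k : ℕ → ℤ, ∑ e ∈ s, k e * (e : ℤ) = ((s.gcd id : ℕ) : ℤ) := by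
  induction s using Finset.induction_on with
  | empty => exact ⟨fun _ => 0, by simp⟩
  | insert a s ha ih =>
    obtain ⟨k, hk⟩ := ih
    refine ⟨fun e => if e = a then Nat.gcdA a (s.gcd id) else Nat.gcdB a (s.gcd id) * k e, ?_⟩
    rw [Finset.sum_insert ha]
    simp only [if_pos]
    rw [Finset.gcd_insert, id]
    have h1 : ∑ x ∈ s, (if x = a then Nat.gcdA a (s.gcd id) else Nat.gcdB a (s.gcd id) * k x) * (x : ℤ) = Nat.gcdB a (s.gcd id) * ∑ x ∈ s, k x * (x : ℤ) := by
      rw [Finset.mul_sum]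
      refine Finset.sum_congr rfl fun x hx => ?_
      rw [if_neg (fun h : x = a => ha (h ▸ hx)), mul_assoc]
    rw [h1, hk]
    have h2 := Nat.gcd_eq_gcd_ab a (s.gcd id)
    have h3 : GCDMonoid.gcd a (s.gcd id) = Nat.gcd a (s.gcd id) := rfl
    rw [h3, h2]
    ring

/-- Bezout coefficients -/
noncomputable def bz (s : Finset ℕ) : ℕ → ℤ := (exists_bezout s).choose

theorem bz_spec (s : Finset ℕ) : ∑ e ∈ s, bz s e * (e : ℤ) = ((s.gcd id : ℕ) : ℤ) := (exists_bezout s).choose_spec

/-- multiplying the constant coefficient -/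
noncomputable def sh1 (c : F) (f : F[X]) : F[X] := if f = 1 then 1 else f + C ((c - 1) * f.coeff 0)

theorem sh1_one (c : F) : sh1 c (1 : F[X]) = 1 := if_pos rfl

theorem pos_of_ne_one {f : F[X]} (hf : f.Monic) (h : f ≠ 1) : 0 < f.natDegree := by
  rcases Nat.eq_zero_or_pos f.natDegree with h0 | h0
  · exact absurd ((natDegree_eq_zero_iff hf).mp h0) h
  · exact h0

theorem sh1_data {c : F} {f : F[X]} (hf : f.Monic) (h : f ≠ 1) :
    (sh1 c f).Monic ∧ (sh1 c f).natDegree = f.natDegree ∧ (sh1 c f).coeff 0 = c * f.coeff 0 ∧ sh1 c f ≠ 1 := by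
  have hpos := pos_of_ne_one hf h
  unfold sh1
  rw [if_neg h]
  have hdeg : (C ((c - 1) * f.coeff 0)).degree < f.degree :=
    degree_C_le.trans_lt (natDegree_pos_iff_degree_pos.mp hpos)
  have hnd : (f + C ((c - 1) * f.coeff 0)).natDegree = f.natDegree := natDegree_add_eq_left_of_degree_lt hdeg
  refine ⟨hf.add_of_left hdeg, hnd, ?_, ?_⟩
  · rw [coeff_add, coeff_C_zero]; ring
  · intro h1
    rw [h1, natDegree_one] at hnd
    omega

theorem sh1_sh1 {c : F} (hc : c ≠ 0) {f : F[X]} (hf : f.Monic) : sh1 c⁻¹ (sh1 c f) = f := by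
  by_cases h : f = 1
  · subst h; rw [sh1_one, sh1_one]
  · obtain ⟨h1, h2, h3, h4⟩ := sh1_data (c := c) hf h
    unfold sh1 at h3 h4 ⊢
    rw [if_neg h] at h3 h4 ⊢
    rw [if_neg h4, h3, add_assoc, ← C_add]
    have : (c - 1) * f.coeff 0 + (c⁻¹ - 1) * (c * f.coeff 0) = 0 := by
      field_simp
      ring
    rw [this, C_0, add_zero]

theorem sh1_one_left {f : F[X]} : sh1 1 f = f := by
  unfold sh1
  split_ifs with h
  · exact h.symm
  · rw [sub_self, zero_mul, C_0, add_zero]

/-- the shift of a type -/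
noncomputable def sh (n : ℕ) (c : Fˣ) (f : ℕ → F[X]) : ℕ → F[X] := fun e => sh1 ((c ^ (bz (supp n f) e) : Fˣ) : F) (f e)

theorem sh_ne_one_iff {n : ℕ} {c : Fˣ} {f : ℕ → F[X]} (hf : f ∈ TT F 1 n) (e : ℕ) : sh n c f e ≠ 1 ↔ f e ≠ 1 := by
  unfold sh
  constructor
  · intro h h1
    rw [h1, sh1_one] at h
    exact h rfl
  · intro h
    exact (sh1_data (hf.1 e).1 h).2.2.2

theorem supp_sh {n : ℕ} {c : Fˣ} {f : ℕ → F[X]} (hf : f ∈ TT F 1 n) : supp n (sh n c f) = supp n f := by
  unfold supp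
  apply Finset.filter_congr
  intro e _
  exact sh_ne_one_iff hf e

theorem sh_natDegree {n : ℕ} {c : Fˣ} {f : ℕ → F[X]} (hf : f ∈ TT F 1 n) (e : ℕ) : (sh n c f e).natDegree = (f e).natDegree := by
  by_cases h : f e = 1
  · unfold sh; rw [h, sh1_one]
  · exact (sh1_data (hf.1 e).1 h).2.1

theorem sh_mem {n : ℕ} {c : Fˣ} {f : ℕ → F[X]} (hf : f ∈ TT F 1 n) : sh n c f ∈ TT F 1 n := by
  refine ⟨fun e => ?_, fun e he => ?_, ?_⟩
  · by_cases h : f e = 1
    · unfold sh; rw [h, sh1_one]; exact ⟨monic_one, by simp⟩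
    · obtain ⟨h1, h2, h3, h4⟩ := sh1_data (c := ((c ^ (bz (supp n f) e) : Fˣ) : F)) (hf.1 e).1 h
      refine ⟨h1, ?_⟩
      unfold sh
      rw [h3]
      exact mul_ne_zero (Units.ne_zero _) (hf.1 e).2
  · unfold sh; rw [hf.2.1 e he, sh1_one]
  · conv_rhs => rw [← hf.2.2]
    refine Finset.sum_congr rfl fun e _ => ?_
    rw [sh_natDegree hf]

theorem sh_sh {n : ℕ} {c : Fˣ} {f : ℕ → F[X]} (hf : f ∈ TT F 1 n) : sh n c⁻¹ (sh n c f) = f := by
  ext1 e
  show sh1 (((c⁻¹) ^ (bz (supp n (sh n c f)) e) : Fˣ) : F) (sh1 ((c ^ (bz (supp n f) e) : Fˣ) : F) (f e)) = f e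
  rw [supp_sh hf, inv_zpow, Units.val_inv_eq_inv_val]
  exact sh1_sh1 (Units.ne_zero _) (hf.1 e).1

theorem dt_sh {n : ℕ} {c : Fˣ} {f : ℕ → F[X]} (hf : f ∈ TT F 1 n) : dt n (sh n c f) = ((c ^ (gc n f) : Fˣ) : F) * dt n f := by
  have h1 : ∀ e ∈ range (n + 1), sc (sh n c f e) ^ e = (if e ∈ supp n f then ((c ^ (bz (supp n f) e * (e : ℤ)) : Fˣ) : F) else 1) * sc (f e) ^ e := by
    intro e _
    by_cases h : f e = 1
    · have h2 : e ∉ supp n f := by rw [mem_supp hf]; exact fun h3 => h3 h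
      rw [if_neg h2, one_mul]
      unfold sh
      rw [h, sh1_one]
    · have h2 : e ∈ supp n f := by rw [mem_supp hf]; exact h
      obtain ⟨h3, h4, h5, h6⟩ := sh1_data (c := ((c ^ (bz (supp n f) e) : Fˣ) : F)) (hf.1 e).1 h
      rw [if_pos h2]
      unfold sh sc
      rw [h4, h5, zpow_mul, zpow_natCast, Units.val_pow_eq_pow_val]
      ring
  unfold dt
  rw [Finset.prod_congr rfl h1, Finset.prod_mul_distrib]
  congr 1
  rw [← Finset.prod_filter]
  have h2 : (range (n + 1)).filter (fun e => e ∈ supp n f) = supp n f := by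
    ext e
    rw [mem_filter, mem_range]
    constructor
    · exact fun h => h.2
    · intro h
      exact ⟨mem_range.mp (Finset.mem_filter.mp h).1, h⟩
  rw [h2]
  have h3 := bz_spec (supp n f)
  have h4 : (c ^ (gc n f) : Fˣ) = ∏ e ∈ supp n f, c ^ (bz (supp n f) e * (e : ℤ)) := by
    unfold gc
    rw [← zpow_natCast, ← h3]
    exact (zpow_sum_aux c _ _)
  rw [h4, Units.coe_prod]
where
  zpow_sum_aux (c : Fˣ) (s : Finset ℕ) (g : ℕ → ℤ) : c ^ (∑ e ∈ s, g e) = ∏ e ∈ s, c ^ g e := by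
    induction s using Finset.induction_on with
    | empty => simp
    | insert a s ha ih => rw [Finset.sum_insert ha, Finset.prod_insert ha, zpow_add, ih]

theorem card_pow_eq_le [Finite F] [Fintype Fˣ] (g : ℕ) (y : Fˣ) : (univ.filter (fun c : Fˣ => c ^ g = y)).card ≤ Nat.gcd g (Nat.card F - 1) := by
  have hq : 1 < Nat.card F := Finite.one_lt_card
  by_cases hemp : ∃ c₀ : Fˣ, c₀ ^ g = y
  · obtain ⟨c₀, hc₀⟩ := hemp
    have h1 : (univ.filter (fun c : Fˣ => c ^ g = y)).card ≤ (univ.filter (fun c : Fˣ => c ^ (Nat.gcd g (Nat.card F - 1)) = 1)).card := by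
      apply Finset.card_le_card_of_injOn (fun c => c * c₀⁻¹)
      · intro c hc
        rw [Finset.coe_filter, Set.mem_setOf_eq] at hc ⊢
        refine ⟨Finset.mem_univ _, ?_⟩
        apply orderOf_dvd_iff_pow_eq_one.mp
        apply Nat.dvd_gcd
        · rw [orderOf_dvd_iff_pow_eq_one, mul_pow, hc.2, inv_pow, hc₀, mul_inv_cancel]
        · have h2 := orderOf_dvd_natCard (c * c₀⁻¹)
          rwa [Nat.card_units] at h2
      · intro a _ b _ hab
        exact mul_right_cancel hab
    exact h1.trans (IsCyclic.card_pow_eq_one_le (Nat.gcd_pos_of_pos_right _ (by omega)))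
  · rw [Finset.filter_eq_empty_iff.mpr]
    · simp
    · intro c _ hc
      exact hemp ⟨c, hc⟩

/-- all types, as a finset -/
noncomputable def TF (F : Type*) [Field F] [Finite F] (n : ℕ) : Finset (ℕ → F[X]) := (Set.toFinite (TT F 1 n)).toFinset

theorem mem_TF [Finite F] {n : ℕ} {f : ℕ → F[X]} : f ∈ TF F n ↔ f ∈ TT F 1 n := by
  unfold TF
  rw [Set.Finite.mem_toFinset]

theorem card_TF [Finite F] (n : ℕ) : (TF F n).card = kk F 1 n := by
  unfold TF kk
  rw [← Set.ncard_eq_toFinset_card _ (Set.toFinite (TT F 1 n)), ← Nat.card_coe_set_eq]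

/-- sum of the squares of the weights -/
noncomputable def WW (F : Type*) [Field F] [Finite F] (n : ℕ) : ℕ := ∑ f ∈ TF F n, wt n f ^ 2

theorem wt_sh [Finite F] {n : ℕ} {c : Fˣ} {f : ℕ → F[X]} (hf : f ∈ TT F 1 n) : wt n (sh n c f) = wt n f := by
  unfold wt gc
  rw [supp_sh hf]

/-- types with given determinant -/
theorem sum_wt_le [Finite F] (n : ℕ) (δ : F) (hδ : δ ≠ 0) :
    (Nat.card F - 1) * ∑ f ∈ (TF F n).filter (fun f => dt n f = δ), wt n f ≤ WW F n := by
  haveI : Fintype Fˣ := Fintype.ofFinite _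
  have hcard : (univ : Finset Fˣ).card = Nat.card F - 1 := by
    rw [Finset.card_univ, ← Nat.card_eq_fintype_card, Nat.card_units]
  set A := (TF F n).filter (fun f => dt n f = δ) with hA
  have h1 : (Nat.card F - 1) * ∑ f ∈ A, wt n f = ∑ p ∈ A ×ˢ (univ : Finset Fˣ), wt n p.1 := by
    rw [Finset.sum_product, Finset.mul_sum]
    refine Finset.sum_congr rfl fun f _ => ?_
    simp only
    rw [Finset.sum_const, hcard, smul_eq_mul]
  have hmaps : ∀ p ∈ A ×ˢ (univ : Finset Fˣ), sh n p.2 p.1 ∈ TF F n := by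
    intro p hp
    rw [Finset.mem_product] at hp
    rw [mem_TF]
    exact sh_mem (mem_TF.mp (Finset.mem_filter.mp hp.1).1)
  rw [h1, ← Finset.sum_fiberwise_of_maps_to hmaps]
  unfold WW
  refine Finset.sum_le_sum fun f' hf' => ?_
  have h2 : ∀ p ∈ (A ×ˢ (univ : Finset Fˣ)).filter (fun p => sh n p.2 p.1 = f'), wt n p.1 = wt n f' := by
    intro p hp
    rw [Finset.mem_filter, Finset.mem_product] at hp
    rw [← hp.2, wt_sh (mem_TF.mp (Finset.mem_filter.mp hp.1.1).1)]
  rw [Finset.sum_congr rfl h2, Finset.sum_const, smul_eq_mul, sq]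
  refine Nat.mul_le_mul_right _ ?_
  -- the fibre
  by_cases hdet : dt n f' = 0
  · rw [Finset.card_eq_zero.mpr]
    · exact Nat.zero_le _
    · rw [Finset.filter_eq_empty_iff]
      intro p hp hp2
      rw [Finset.mem_product] at hp
      have hpT := mem_TF.mp (Finset.mem_filter.mp hp.1).1
      have h3 := dt_sh (c := p.2) hpT
      rw [hp2, hdet, (Finset.mem_filter.mp hp.1).2] at h3
      exact mul_ne_zero (Units.ne_zero _) hδ h3.symm
  · have h3 : ((A ×ˢ (univ : Finset Fˣ)).filter (fun p => sh n p.2 p.1 = f')).card ≤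
        (univ.filter (fun c : Fˣ => c ^ (gc n f') = (Units.mk0 (dt n f') hdet) * (Units.mk0 δ hδ)⁻¹)).card := by
      apply Finset.card_le_card_of_injOn (fun p => p.2)
      · intro p hp
        rw [Finset.coe_filter, Set.mem_setOf_eq, Finset.mem_product] at hp
        rw [Finset.coe_filter, Set.mem_setOf_eq]
        refine ⟨Finset.mem_univ _, ?_⟩
        have hpT := mem_TF.mp (Finset.mem_filter.mp hp.1.1).1
        have h4 := dt_sh (c := p.2) hpT
        rw [hp.2, (Finset.mem_filter.mp hp.1.1).2] at h4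
        have h5 : gc n f' = gc n p.1 := by
          unfold gc
          rw [← hp.2, supp_sh hpT]
        rw [h5, eq_mul_inv_iff_mul_eq]
        apply Units.ext
        rw [Units.val_mul, Units.val_mk0, Units.val_mk0, h4]
      · intro p hp p' hp' hpp
        rw [Finset.coe_filter, Set.mem_setOf_eq, Finset.mem_product] at hp hp'
        have hpT := mem_TF.mp (Finset.mem_filter.mp hp.1.1).1
        have hpT' := mem_TF.mp (Finset.mem_filter.mp hp'.1.1).1
        simp only at hpp
        apply Prod.ext _ hpp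
        rw [← sh_sh (c := p.2) hpT, ← sh_sh (c := p'.2) hpT', hp.2, hp'.2, hpp]
    refine h3.trans ?_
    unfold wt
    exact card_pow_eq_le _ _

theorem gc_dvd {n : ℕ} {f : ℕ → F[X]} (hf : f ∈ TT F 1 n) : gc n f ∣ n := by
  conv_rhs => rw [← hf.2.2]
  apply Finset.dvd_sum
  intro e _
  by_cases h : f e = 1
  · rw [h, natDegree_one, mul_zero]; exact dvd_zero _
  · have : gc n f ∣ e := Finset.gcd_dvd (f := id) ((mem_supp hf e).mpr h)
    exact this.mul_right _

/-- types supported on multiples of `d` -/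
theorem card_dvd_le [Finite F] (n d : ℕ) (hd : 0 < d) : ((TF F n).filter (fun f => d ∣ gc n f)).card ≤ kk F 1 (n / d) := by
  rw [← card_TF]
  have hone : ∀ f ∈ (TF F n).filter (fun f => d ∣ gc n f), ∀ e, ¬ d ∣ e → f e = 1 := by
    intro f hf e he
    rw [mem_filter, mem_TF] at hf
    by_contra h
    exact he (hf.2.trans (Finset.gcd_dvd (f := id) ((mem_supp hf.1 e).mpr h)))
  apply Finset.card_le_card_of_injOn (fun f e => f (d * e))
  · intro f hf
    have hone' := hone f hf
    rw [Finset.mem_coe, mem_filter, mem_TF] at hf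
    rw [Finset.mem_coe, mem_TF]
    obtain ⟨⟨h1, h2, h3⟩, h4⟩ := hf
    have hdn : d ∣ n := h4.trans (gc_dvd ⟨h1, h2, h3⟩)
    apply mem_TT_of_le (N := n)
    · intro e; exact h1 _
    · intro e he
      have : e = 0 := by omega
      subst this
      exact h2 _ (Or.inl (by omega))
    · intro e he
      apply h2 _ (Or.inr _)
      calc n < e := he
        _ ≤ d * e := Nat.le_mul_of_pos_left _ hd
    · have h5 : d * ∑ e ∈ range (n + 1), e * (f (d * e)).natDegree = n := by
        rw [Finset.mul_sum]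
        have h6 : ∑ x ∈ range (d * n + 1), x * (f x).natDegree = n := by
          rw [sum_range_of_le (fun e he => h2 e (Or.inr he)) (Nat.le_mul_of_pos_left _ hd)]
          exact h3
        conv_rhs => rw [← h6]
        have h7 : ∑ e ∈ range (n + 1), d * (e * (f (d * e)).natDegree) = ∑ x ∈ (range (n + 1)).image (fun e => d * e), x * (f x).natDegree := by
          rw [Finset.sum_image]
          · refine Finset.sum_congr rfl fun e _ => ?_
            rw [mul_assoc]
          · intro a _ b _ hab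
            exact Nat.eq_of_mul_eq_mul_left hd hab
        rw [h7]
        apply Finset.sum_subset
        · intro x hx
          rw [mem_image] at hx
          obtain ⟨e, he, rfl⟩ := hx
          rw [mem_range] at he ⊢
          have : d * e ≤ d * n := Nat.mul_le_mul_left d (by omega)
          omega
        · intro x hx hx2
          by_cases hdx : d ∣ x
          · exfalso
            obtain ⟨e, rfl⟩ := hdx
            apply hx2
            rw [mem_image]
            refine ⟨e, ?_, rfl⟩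
            rw [mem_range] at hx ⊢
            have h8 : d * e ≤ d * n := by omega
            have := Nat.le_of_mul_le_mul_left h8 hd
            omega
          · rw [hone' x hdx, natDegree_one, mul_zero]
      rw [Nat.eq_div_iff_mul_eq_left (by omega) hdn, mul_comm]
      exact h5.symm
  · intro f hf g hg hfg
    ext1 e
    by_cases hde : d ∣ e
    · obtain ⟨e', rfl⟩ := hde
      exact congrFun hfg e'
    · rw [hone f hf e hde, hone g hg e hde]

/-- bound for the weighted number of types -/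
theorem WW_le [Finite F] (n : ℕ) (hn : 0 < n) :
    WW F n ≤ kk F 1 n + ∑ d ∈ range (n + 1), if 2 ≤ d ∧ d ∣ n ∧ d ∣ Nat.card F - 1 then (d ^ 2 - 1) * kk F 1 (n / d) else 0 := by
  have hq : 1 < Nat.card F := Finite.one_lt_card
  have h1 : ∀ f ∈ TF F n, wt n f ^ 2 ≤ 1 + ∑ d ∈ range (n + 1), if 2 ≤ d ∧ d ∣ n ∧ d ∣ Nat.card F - 1 then (if d ∣ gc n f then d ^ 2 - 1 else 0) else 0 := by
    intro f hf
    rw [mem_TF] at hf
    have hg := gc_dvd hf
    have hw1 : wt n f ∣ gc n f := Nat.gcd_dvd_left _ _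
    have hw2 : wt n f ∣ Nat.card F - 1 := Nat.gcd_dvd_right _ _
    have hw3 : wt n f ∣ n := hw1.trans hg
    have hwpos : 0 < wt n f := Nat.gcd_pos_of_pos_right _ (by omega)
    by_cases h2 : 2 ≤ wt n f
    · have h3 : wt n f ∈ range (n + 1) := mem_range.mpr (Nat.lt_succ_of_le (Nat.le_of_dvd hn hw3))
      have h4 : wt n f ^ 2 - 1 ≤ ∑ d ∈ range (n + 1), if 2 ≤ d ∧ d ∣ n ∧ d ∣ Nat.card F - 1 then (if d ∣ gc n f then d ^ 2 - 1 else 0) else 0 := by
        refine le_trans ?_ (Finset.single_le_sum (f := fun d => if 2 ≤ d ∧ d ∣ n ∧ d ∣ Nat.card F - 1 then (if d ∣ gc n f then d ^ 2 - 1 else 0) else 0)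
          (fun _ _ => Nat.zero_le _) h3)
        rw [if_pos ⟨h2, hw3, hw2⟩, if_pos hw1]
      omega
    · have h5 : wt n f = 1 := by omega
      rw [h5]
      omega
  unfold WW
  calc ∑ f ∈ TF F n, wt n f ^ 2 ≤ ∑ f ∈ TF F n, (1 + ∑ d ∈ range (n + 1), if 2 ≤ d ∧ d ∣ n ∧ d ∣ Nat.card F - 1 then (if d ∣ gc n f then d ^ 2 - 1 else 0) else 0) :=
        Finset.sum_le_sum h1
    _ = kk F 1 n + ∑ d ∈ range (n + 1), ∑ f ∈ TF F n, (if 2 ≤ d ∧ d ∣ n ∧ d ∣ Nat.card F - 1 then (if d ∣ gc n f then d ^ 2 - 1 else 0) else 0) := by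
        rw [Finset.sum_add_distrib, Finset.sum_const, card_TF, smul_eq_mul, mul_one, Finset.sum_comm]
    _ ≤ _ := by
        refine Nat.add_le_add_left (Finset.sum_le_sum fun d _ => ?_) _
        split_ifs with h
        · rw [← Finset.sum_filter, Finset.sum_const, smul_eq_mul, mul_comm]
          exact Nat.mul_le_mul_left _ (card_dvd_le n d (by omega))
        · simp

end H46.TyDet
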