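import Mathlib
import Cfsg.Agent.Lib.H46.TyDet

/-! Conjugacy classes of `SL_n`. -/

set_option autoImplicit false

namespace H46.TySL

open Finset Polynomial H46.TyAlg H46.TyCount H46.TyNum H46.TyDet H46.TyGL

open scoped Classical

variable {F : Type*} [Field F] {n : ℕ}

/-- elements of the centralizer whose determinant is a given `g`-th power -/
theorem exists_commute_gc [Finite F] (x : Matrix.GeneralLinearGroup (Fin n) F) (c : Fˣ) :
    ∃ s : Matrix.GeneralLinearGroup (Fin n) F, s * x = x * s ∧ Matrix.GeneralLinearGroup.det s = c ^ (gc n (ty (x : Matrix (Fin n) (Fin n) F))) := by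
  have hT := (ty_mem (det_ne_zero x)).1
  set f := ty (x : Matrix (Fin n) (Fin n) F) with hf
  let D : Subgroup Fˣ := (Subgroup.centralizer {x}).map Matrix.GeneralLinearGroup.det
  have h1 : ∀ e ∈ supp n f, c ^ e ∈ D := by
    intro e he
    obtain ⟨s, hs, hd⟩ := exists_commute ((mem_supp hT e).mp he) c
    refine ⟨s, ?_, hd⟩
    rw [SetLike.mem_coe, Subgroup.mem_centralizer_singleton_iff]
    apply Units.ext
    exact hs
  have h2 : c ^ (gc n f) ∈ D := by
    have h3 := bz_spec (supp n f)
    have h4 : (c ^ (gc n f) : Fˣ) = ∏ e ∈ supp n f, c ^ (bz (supp n f) e * (e : ℤ)) := by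
      unfold gc
      rw [← zpow_natCast, ← h3]
      exact (dt_sh.zpow_sum_aux c _ _)
    rw [h4]
    apply Subgroup.prod_mem
    intro e he
    rw [mul_comm, zpow_mul, zpow_natCast]
    exact D.zpow_mem (h1 e he) _
  obtain ⟨s, hs, hd⟩ := h2
  refine ⟨s, ?_, hd⟩
  rw [SetLike.mem_coe, Subgroup.mem_centralizer_singleton_iff] at hs
  exact hs

/-- the type of a class of `SL_n` -/
noncomputable def cty : ConjClasses (Matrix.SpecialLinearGroup (Fin n) F) → (ℕ → F[X]) :=
  Quotient.lift (fun x => ty (x : Matrix (Fin n) (Fin n) F)) (by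
    intro x y hxy
    obtain ⟨h, hh⟩ := isConj_iff.mp (show IsConj x y from hxy)
    apply ty_eq_iff.mpr
    refine ⟨Matrix.SpecialLinearGroup.toGL h, ?_⟩
    show (h : Matrix (Fin n) (Fin n) F) * x = y * h
    rw [← hh, Matrix.SpecialLinearGroup.coe_mul, Matrix.SpecialLinearGroup.coe_mul, mul_assoc, ← Matrix.SpecialLinearGroup.coe_mul h⁻¹, inv_mul_cancel,
      Matrix.SpecialLinearGroup.coe_one, mul_one])

theorem cty_mk (x : Matrix.SpecialLinearGroup (Fin n) F) : cty (ConjClasses.mk x) = ty (x : Matrix (Fin n) (Fin n) F) := rfl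

theorem card_quot_le [Finite F] (g : ℕ) : Nat.card (Fˣ ⧸ (powMonoidHom g : Fˣ →* Fˣ).range) ≤ Nat.gcd g (Nat.card F - 1) := by
  haveI : Fintype Fˣ := Fintype.ofFinite _
  have h1 := Subgroup.card_mul_index (powMonoidHom g : Fˣ →* Fˣ).range
  have h2 := Subgroup.card_mul_index (powMonoidHom g : Fˣ →* Fˣ).ker
  rw [Subgroup.index_ker] at h2
  have h3 : 0 < Nat.card (powMonoidHom g : Fˣ →* Fˣ).range := Nat.card_pos
  have h4 : (powMonoidHom g : Fˣ →* Fˣ).range.index = Nat.card (powMonoidHom g : Fˣ →* Fˣ).ker := by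
    apply Nat.eq_of_mul_eq_mul_left h3
    rw [h1, ← h2, mul_comm]
  rw [← Subgroup.index_eq_card, h4]
  have h5 := card_pow_eq_le (F := F) g 1
  have h6 : Nat.card (powMonoidHom g : Fˣ →* Fˣ).ker = (univ.filter (fun c : Fˣ => c ^ g = 1)).card := by
    rw [Nat.card_eq_fintype_card, Fintype.card_subtype]
    congr 1
    ext x
    simp only [mem_filter, mem_univ, true_and]
    rw [MonoidHom.mem_ker, powMonoidHom_apply]
  rw [h6]
  exact h5

/-- the number of classes of `SL_n` of a given type -/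
theorem card_fiber_le [Finite F] (f : ℕ → F[X]) :
    Nat.card {C : ConjClasses (Matrix.SpecialLinearGroup (Fin n) F) // cty C = f} ≤ wt n f := by
  by_cases hne : Nonempty {C : ConjClasses (Matrix.SpecialLinearGroup (Fin n) F) // cty C = f}
  · obtain ⟨C₀, hC₀⟩ := hne
    obtain ⟨x₀, rfl⟩ := ConjClasses.exists_rep C₀
    rw [cty_mk] at hC₀
    have hex : ∀ C : {C : ConjClasses (Matrix.SpecialLinearGroup (Fin n) F) // cty C = f},
        ∃ (y : Matrix.SpecialLinearGroup (Fin n) F) (h : Matrix.GeneralLinearGroup (Fin n) F), ConjClasses.mk y = C.1 ∧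
          (h : Matrix (Fin n) (Fin n) F) * x₀ = y * h := by
      rintro ⟨C, hC⟩
      obtain ⟨y, rfl⟩ := ConjClasses.exists_rep C
      rw [cty_mk] at hC
      obtain ⟨h, hh⟩ := ty_eq_iff.mp (hC₀.trans hC.symm)
      exact ⟨y, h, rfl, hh⟩
    choose y h hy hh using hex
    have hle := card_quot_le (F := F) (gc n f)
    refine le_trans (Nat.card_le_card_of_injective
      (fun C => (QuotientGroup.mk (Matrix.GeneralLinearGroup.det (h C)) : Fˣ ⧸ (powMonoidHom (gc n f) : Fˣ →* Fˣ).range)) ?_) hle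
    intro C C' hCC
    have h1 := QuotientGroup.eq.mp hCC
    obtain ⟨c, hc⟩ := h1
    rw [powMonoidHom_apply] at hc
    obtain ⟨s, hs, hsd⟩ := exists_commute_gc (Matrix.SpecialLinearGroup.toGL x₀) c
    have hx₀ : ((Matrix.SpecialLinearGroup.toGL x₀ : Matrix.GeneralLinearGroup (Fin n) F) : Matrix (Fin n) (Fin n) F) = x₀ := rfl
    rw [hx₀, hC₀, hc] at hsd
    -- h C * s has the determinant of h C'
    have hdet : Matrix.GeneralLinearGroup.det (h C * s) = Matrix.GeneralLinearGroup.det (h C') := by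
      rw [map_mul, hsd, mul_inv_cancel_left]
    set k : Matrix.GeneralLinearGroup (Fin n) F := h C' * (h C * s)⁻¹ with hk
    have hkdet : Matrix.GeneralLinearGroup.det k = 1 := by
      rw [hk, map_mul, map_inv, hdet, mul_inv_cancel]
    have hkdet' : (k : Matrix (Fin n) (Fin n) F).det = 1 := by
      rw [← Matrix.GeneralLinearGroup.val_det_apply, hkdet, Units.val_one]
    have e1 : h C' * Matrix.SpecialLinearGroup.toGL x₀ = Matrix.SpecialLinearGroup.toGL (y C') * h C' := Units.ext (hh C')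
    have e2 : h C * Matrix.SpecialLinearGroup.toGL x₀ = Matrix.SpecialLinearGroup.toGL (y C) * h C := Units.ext (hh C)
    have e3 : k * Matrix.SpecialLinearGroup.toGL (y C) = Matrix.SpecialLinearGroup.toGL (y C') * k := by
      have e4 : Matrix.SpecialLinearGroup.toGL (y C) = (h C * s) * Matrix.SpecialLinearGroup.toGL x₀ * (h C * s)⁻¹ := by
        rw [mul_assoc (h C) s, hs, ← mul_assoc, e2]
        group
      rw [e4, hk]
      calc h C' * (h C * s)⁻¹ * ((h C * s) * Matrix.SpecialLinearGroup.toGL x₀ * (h C * s)⁻¹)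
          = (h C' * Matrix.SpecialLinearGroup.toGL x₀) * (h C * s)⁻¹ := by group
        _ = _ := by rw [e1]; group
    apply Subtype.ext
    rw [← hy C, ← hy C', ConjClasses.mk_eq_mk_iff_isConj, isConj_iff]
    let K : Matrix.SpecialLinearGroup (Fin n) F := ⟨(k : Matrix (Fin n) (Fin n) F), hkdet'⟩
    refine ⟨K, ?_⟩
    rw [mul_inv_eq_iff_eq_mul]
    apply Subtype.ext
    have := congrArg (fun z : Matrix.GeneralLinearGroup (Fin n) F => (z : Matrix (Fin n) (Fin n) F)) e3
    exact this
  · rw [not_nonempty_iff] at hne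
    rw [Nat.card_of_isEmpty]
    exact Nat.zero_le _

theorem cty_mem [Finite F] (C : ConjClasses (Matrix.SpecialLinearGroup (Fin n) F)) : cty C ∈ (TF F n).filter (fun f => dt n f = 1) := by
  obtain ⟨x, rfl⟩ := ConjClasses.exists_rep C
  rw [cty_mk, mem_filter, mem_TF]
  have h := ty_mem (x := (x : Matrix (Fin n) (Fin n) F)) (by rw [x.2]; exact one_ne_zero)
  rw [x.2] at h
  exact h

/-- a set of classes is bounded by the weights of its types -/
theorem card_classes_le [Finite F] (P : ConjClasses (Matrix.SpecialLinearGroup (Fin n) F) → Prop) (S : Finset (ℕ → F[X])) (hS : ∀ C, P C → cty C ∈ S) :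
    Nat.card {C : ConjClasses (Matrix.SpecialLinearGroup (Fin n) F) // P C} ≤ ∑ f ∈ S, wt n f := by
  haveI : Fintype (ConjClasses (Matrix.SpecialLinearGroup (Fin n) F)) := Fintype.ofFinite _
  rw [Nat.card_eq_fintype_card, Fintype.card_subtype, Finset.card_eq_sum_card_fiberwise (f := cty) (t := S)]
  · refine Finset.sum_le_sum fun f _ => ?_
    refine le_trans ?_ (card_fiber_le (n := n) f)
    rw [Nat.card_eq_fintype_card, Fintype.card_subtype]
    apply Finset.card_le_card
    intro C hC
    rw [mem_filter] at hC ⊢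
    exact ⟨mem_univ _, hC.2⟩
  · intro C hC
    rw [Finset.mem_coe, mem_filter] at hC
    exact hS C hC.2

/-- the number of classes of `SL_n` -/
theorem card_SL_le [Finite F] : (Nat.card F - 1) * Nat.card (ConjClasses (Matrix.SpecialLinearGroup (Fin n) F)) ≤ WW F n := by
  have h1 : Nat.card (ConjClasses (Matrix.SpecialLinearGroup (Fin n) F)) = Nat.card {C : ConjClasses (Matrix.SpecialLinearGroup (Fin n) F) // True} :=
    Nat.card_congr (Equiv.subtypeUnivEquiv (fun _ => trivial)).symm
  rw [h1]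
  refine le_trans (Nat.mul_le_mul_left _ (card_classes_le (n := n) (fun _ => True) _ (fun C _ => cty_mem C))) ?_
  exact sum_wt_le n 1 one_ne_zero

/-- monic polynomials with signed constant coefficient one -/
def P1 (F : Type*) [Field F] (n : ℕ) : Set F[X] := {f | (f.Monic ∧ f.natDegree = n) ∧ sc f = 1}

theorem card_P1 [Finite F] (m : ℕ) : Nat.card (P1 F (m + 1)) = Nat.card F ^ m := by
  have hs : ((-1 : F) ^ (m + 1)) * (-1) ^ (m + 1) = 1 := by
    rw [← mul_pow]; simp
  have e1 : Nat.card (P1 F (m + 1)) = Nat.card {c : Fin (m + 1) → F // (-1) ^ (m + 1) * c 0 = 1} := by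
    apply Nat.card_congr
    refine (Equiv.trans (?_ : (P1 F (m + 1)) ≃ {p : {p : F[X] // p.Monic ∧ p.natDegree = m + 1} // (-1) ^ (m + 1) * p.1.coeff 0 = 1})
      ((monicEquiv (m + 1)).subtypeEquiv ?_))
    · refine ⟨fun x => ⟨⟨x.1, x.2.1⟩, ?_⟩, fun x => ⟨x.1.1, x.1.2, ?_⟩, fun _ => rfl, fun _ => rfl⟩
      · have h := x.2.2
        unfold sc at h
        rw [x.2.1.2] at h
        exact h
      · have h := x.2
        unfold sc
        rw [x.1.2.2]
        exact h
    · intro p
      rw [monicEquiv_apply]; rfl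
  have e2 : Nat.card {c : Fin (m + 1) → F // (-1) ^ (m + 1) * c 0 = 1} = Nat.card (Fin m → F) := by
    apply Nat.card_congr
    refine ⟨fun c => Fin.tail c.1, fun x => ⟨Fin.cons ((-1) ^ (m + 1)) x, by rw [Fin.cons_zero, hs]⟩, ?_, ?_⟩
    · rintro ⟨c, hc⟩
      apply Subtype.ext
      simp only
      have h0 : (-1) ^ (m + 1) = c 0 := by
        calc (-1 : F) ^ (m + 1) = (-1) ^ (m + 1) * ((-1) ^ (m + 1) * c 0) := by rw [hc, mul_one]
          _ = c 0 := by rw [← mul_assoc, hs, one_mul]
      rw [h0]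
      exact Fin.cons_self_tail c
    · intro x
      simp
  rw [e1, e2, Nat.card_fun, Nat.card_fin]

/-- lower bound -/
theorem lt_card_SL [Finite F] (hn : 2 ≤ n) : Nat.card F ^ (n - 1) < Nat.card (ConjClasses (Matrix.SpecialLinearGroup (Fin n) F)) := by
  obtain ⟨m, rfl⟩ : ∃ m, n = m + 1 := ⟨n - 1, by omega⟩
  rw [Nat.add_sub_cancel, ← card_P1]
  let χ : ConjClasses (Matrix.SpecialLinearGroup (Fin (m + 1)) F) → P1 F (m + 1) :=
    Quotient.lift (fun x => (⟨(x : Matrix (Fin (m + 1)) (Fin (m + 1)) F).charpoly, ⟨Matrix.charpoly_monic _, by rw [Matrix.charpoly_natDegree_eq_dim, Fintype.card_fin]⟩, by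
      unfold sc
      rw [Matrix.charpoly_natDegree_eq_dim]
      exact (Matrix.det_eq_sign_charpoly_coeff _).symm.trans x.2⟩ : P1 F (m + 1))) (by
      intro x y hxy
      obtain ⟨h, hh⟩ := isConj_iff.mp (show IsConj x y from hxy)
      apply Subtype.ext
      show (x : Matrix (Fin (m + 1)) (Fin (m + 1)) F).charpoly = (y : Matrix (Fin (m + 1)) (Fin (m + 1)) F).charpoly
      rw [← hh, Matrix.SpecialLinearGroup.coe_mul, Matrix.SpecialLinearGroup.coe_mul, Matrix.charpoly_mul_comm, ← mul_assoc,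
        ← Matrix.SpecialLinearGroup.coe_mul h⁻¹, inv_mul_cancel, Matrix.SpecialLinearGroup.coe_one, one_mul])
  have hsurj : Function.Surjective χ := by
    rintro ⟨f, ⟨hf, hfn⟩, hfs⟩
    obtain ⟨A, hA, hAd⟩ := exists_companion hf hfn
    refine ⟨ConjClasses.mk (⟨A, hAd.trans hfs⟩ : Matrix.SpecialLinearGroup (Fin (m + 1)) F), ?_⟩
    exact Subtype.ext hA
  have hninj : ¬ Function.Injective χ := by
    intro hinj
    obtain ⟨i, j, hij⟩ : ∃ i j : Fin (m + 1), i < j := ⟨⟨0, by omega⟩, ⟨1, by omega⟩, by simp [Fin.lt_def]⟩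
    let t : Matrix.SpecialLinearGroup (Fin (m + 1)) F := ⟨Matrix.transvection i j 1, Matrix.det_transvection_of_ne i j hij.ne 1⟩
    have h1 : (Matrix.transvection i j (1 : F)).BlockTriangular id := by
      intro a b hab
      simp only [id] at hab
      unfold Matrix.transvection
      rw [Matrix.add_apply, Matrix.one_apply_ne (ne_of_gt hab), Matrix.single_apply_of_ne, add_zero]
      rintro ⟨rfl, rfl⟩
      exact absurd hij (not_lt.mpr hab.le)
    have h2 : (Matrix.transvection i j (1 : F)).charpoly = (1 : Matrix (Fin (m + 1)) (Fin (m + 1)) F).charpoly := by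
      rw [Matrix.charpoly_of_upperTriangular _ h1, Matrix.charpoly_of_upperTriangular _ Matrix.blockTriangular_one]
      refine Finset.prod_congr rfl fun a _ => ?_
      congr 2
      unfold Matrix.transvection
      rw [Matrix.add_apply, Matrix.single_apply_of_ne, add_zero]
      rintro ⟨rfl, h⟩
      exact hij.ne' h
    have h3 : χ (ConjClasses.mk t) = χ (ConjClasses.mk 1) := Subtype.ext h2
    have h4 : t = 1 := isConj_one_left.mp (ConjClasses.mk_eq_mk_iff_isConj.mp (hinj h3))
    have h5 := congrArg (fun z : Matrix.SpecialLinearGroup (Fin (m + 1)) F => (z : Matrix (Fin (m + 1)) (Fin (m + 1)) F) i j) h4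
    have h6 : (Matrix.transvection i j (1 : F)) i j = (1 : Matrix (Fin (m + 1)) (Fin (m + 1)) F) i j := h5
    unfold Matrix.transvection at h6
    rw [Matrix.add_apply, Matrix.one_apply_ne hij.ne, Matrix.single_apply_same, zero_add] at h6
    exact one_ne_zero h6
  have hfin : Finite (ConjClasses (Matrix.SpecialLinearGroup (Fin (m + 1)) F)) := inferInstance
  have hfin2 : Finite (P1 F (m + 1)) := Finite.of_surjective χ hsurj
  refine lt_of_le_of_ne (Nat.card_le_card_of_surjective χ hsurj) (fun h => hninj ?_)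
  exact ((Nat.bijective_iff_surjective_and_card χ).mpr ⟨hsurj, h.symm⟩).1

end H46.TySL
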