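import Mathlib
import Cfsg.Agent.Lib.H46.TySL

/-! Numerical bounds for the weighted numbers of types. -/

set_option autoImplicit false

namespace H46.TyBound

open Finset H46.TyCount H46.TyNum H46.TyDet

variable (F : Type*) [Field F] [Finite F]

theorem kk_one : kk F 1 1 = Nat.card F - 1 := by
  rw [kk_rec 1 1 le_rfl]
  simp [Finset.sum_range_succ, kk_zero, kk_eq_zero, phi]

theorem kk_two_two : kk F 2 2 = Nat.card F - 1 := by
  rw [kk_rec 2 2 (by norm_num)]
  simp [Finset.sum_range_succ, kk_zero, kk_eq_zero, phi]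

theorem kk_three_three : kk F 3 3 = Nat.card F - 1 := by
  rw [kk_rec 3 3 (by norm_num)]
  simp [Finset.sum_range_succ, kk_zero, kk_eq_zero, phi]

theorem kk_two_three : kk F 2 3 = Nat.card F - 1 := by
  rw [kk_rec 2 3 (by norm_num)]
  simp [Finset.sum_range_succ, kk_zero, kk_eq_zero, phi, kk_three_three]

theorem kk_two : kk F 1 2 = (Nat.card F - 1) * (Nat.card F + 1) := by
  rw [kk_rec 1 2 le_rfl]
  simp [Finset.sum_range_succ, kk_zero, kk_eq_zero, phi, kk_two_two]
  ring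

theorem kk_three : kk F 1 3 = (Nat.card F - 1) * (Nat.card F ^ 2 + Nat.card F) := by
  have hq : 1 < Nat.card F := Finite.one_lt_card
  rw [kk_rec 1 3 le_rfl]
  simp [Finset.sum_range_succ, kk_zero, kk_eq_zero, phi, kk_two_two, kk_two_three]
  obtain ⟨s, hs⟩ : ∃ s, Nat.card F = s + 1 := ⟨Nat.card F - 1, by omega⟩
  rw [hs, Nat.add_sub_cancel]
  ring

theorem WW_one : WW F 1 ≤ Nat.card F - 1 := by
  have h := WW_le (F := F) 1 one_pos
  simp [Finset.sum_range_succ, kk_one] at h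
  exact h

theorem WW_two : WW F 2 ≤ (Nat.card F - 1) * (Nat.card F + 1) + (if 2 ∣ Nat.card F - 1 then 3 * (Nat.card F - 1) else 0) := by
  have h := WW_le (F := F) 2 two_pos
  simp [Finset.sum_range_succ, kk_one, kk_two] at h
  exact h

theorem WW_three : WW F 3 ≤ (Nat.card F - 1) * (Nat.card F ^ 2 + Nat.card F) + (if 3 ∣ Nat.card F - 1 then 8 * (Nat.card F - 1) else 0) := by
  have h := WW_le (F := F) 3 (by norm_num)
  simp [Finset.sum_range_succ, kk_one, kk_three] at h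
  exact h

theorem WW_four : WW F 4 ≤ Nat.card F ^ 4 + (if 2 ∣ Nat.card F - 1 then 3 * ((Nat.card F - 1) * (Nat.card F + 1)) else 0) +
    (if 4 ∣ Nat.card F - 1 then 15 * (Nat.card F - 1) else 0) := by
  have h := WW_le (F := F) 4 (by norm_num)
  have h4 := kk_le (F := F) 4
  simp [Finset.sum_range_succ, kk_one, kk_two, show ¬ (3 ∣ 4) by norm_num] at h
  omega

theorem WW_five : WW F 5 ≤ Nat.card F ^ 5 + (if 5 ∣ Nat.card F - 1 then 24 * (Nat.card F - 1) else 0) := by
  have h := WW_le (F := F) 5 (by norm_num)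
  have h4 := kk_le (F := F) 5
  simp [Finset.sum_range_succ, kk_one, show ¬ (2 ∣ 5) by norm_num, show ¬ (3 ∣ 5) by norm_num, show ¬ (4 ∣ 5) by norm_num] at h
  omega

theorem WW_six : WW F 6 ≤ Nat.card F ^ 6 + (if 2 ∣ Nat.card F - 1 then 3 * Nat.card F ^ 3 else 0) +
    (if 3 ∣ Nat.card F - 1 then 8 * Nat.card F ^ 2 else 0) + (if 6 ∣ Nat.card F - 1 then 35 * Nat.card F else 0) := by
  have h := WW_le (F := F) 6 (by norm_num)
  have h6 := kk_le (F := F) 6
  have h3 := kk_le (F := F) 3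
  have h2 := kk_le (F := F) 2
  have h1 := kk_le (F := F) 1
  simp [Finset.sum_range_succ, show ¬ (4 ∣ 6) by norm_num, show ¬ (5 ∣ 6) by norm_num, show 3 ∣ 6 by norm_num] at h
  rw [pow_one] at h1
  split_ifs at h ⊢ <;> omega

theorem WW_big {n : ℕ} (hn : 7 ≤ n) : WW F n ≤ Nat.card F ^ n + (Nat.card F - 2) * Nat.card F ^ (n - 2) := by
  have hq : 1 < Nat.card F := Finite.one_lt_card
  have h := WW_le (F := F) n (by omega)
  refine h.trans (Nat.add_le_add (kk_le n) ?_)
  rw [← Finset.sum_filter]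
  have h1 : ∀ d ∈ (range (n + 1)).filter (fun d => 2 ≤ d ∧ d ∣ n ∧ d ∣ Nat.card F - 1), (d ^ 2 - 1) * kk F 1 (n / d) ≤ Nat.card F ^ (n - 2) := by
    intro d hd
    rw [mem_filter] at hd
    obtain ⟨-, h2, h3, h4⟩ := hd
    have h5 : d ≤ Nat.card F - 1 := Nat.le_of_dvd (by omega) h4
    have h6 : d ^ 2 - 1 ≤ Nat.card F ^ 2 := by
      have : d ^ 2 ≤ Nat.card F ^ 2 := Nat.pow_le_pow_left (by omega) 2
      omega
    have h7 : kk F 1 (n / d) ≤ Nat.card F ^ (n / 2) :=
      (kk_le _).trans (Nat.pow_le_pow_right (by omega) (Nat.div_le_div_left h2 (by norm_num)))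
    calc (d ^ 2 - 1) * kk F 1 (n / d) ≤ Nat.card F ^ 2 * Nat.card F ^ (n / 2) := Nat.mul_le_mul h6 h7
      _ = Nat.card F ^ (2 + n / 2) := by rw [pow_add]
      _ ≤ Nat.card F ^ (n - 2) := Nat.pow_le_pow_right (by omega) (by omega)
  have h2 : ((range (n + 1)).filter (fun d => 2 ≤ d ∧ d ∣ n ∧ d ∣ Nat.card F - 1)).card ≤ Nat.card F - 2 := by
    have h3 : (range (n + 1)).filter (fun d => 2 ≤ d ∧ d ∣ n ∧ d ∣ Nat.card F - 1) ⊆ Finset.Icc 2 (Nat.card F - 1) := by
      intro d hd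
      rw [mem_filter] at hd
      rw [Finset.mem_Icc]
      exact ⟨hd.2.1, Nat.le_of_dvd (by omega) hd.2.2.2⟩
    have h4 := Finset.card_le_card h3
    rw [Nat.card_Icc] at h4
    omega
  refine (Finset.sum_le_card_nsmul _ _ _ h1).trans ?_
  rw [smul_eq_mul]
  exact Nat.mul_le_mul_right _ h2

/-- the bound for `n ≥ 3` -/
theorem WW_ge_three {n : ℕ} (hn : 3 ≤ n) : WW F n ≤ (Nat.card F - 1) * (Nat.card F ^ (n - 1) + 3 * Nat.card F ^ (n - 2)) := by
  have hq : 1 < Nat.card F := Finite.one_lt_card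
  rcases (by omega : n = 3 ∨ n = 4 ∨ n = 5 ∨ n = 6 ∨ 7 ≤ n) with rfl | rfl | rfl | rfl | h7
  · refine (WW_three F).trans ?_
    split_ifs with h
    · have h1 : 3 ≤ Nat.card F - 1 := Nat.le_of_dvd (by omega) h
      obtain ⟨t, ht⟩ : ∃ t, Nat.card F = t + 4 := ⟨Nat.card F - 4, by omega⟩
      rw [ht, show t + 4 - 1 = t + 3 by omega]
      simp only [Nat.reduceSub]
      zify
      have ht0 : (0 : ℤ) ≤ t := Int.natCast_nonneg t
      nlinarith [pow_nonneg ht0 2, pow_nonneg ht0 3]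
    · obtain ⟨t, ht⟩ : ∃ t, Nat.card F = t + 2 := ⟨Nat.card F - 2, by omega⟩
      rw [ht, show t + 2 - 1 = t + 1 by omega]
      simp only [Nat.reduceSub]
      zify
      have ht0 : (0 : ℤ) ≤ t := Int.natCast_nonneg t
      nlinarith [pow_nonneg ht0 2, pow_nonneg ht0 3]
  · refine (WW_four F).trans ?_
    by_cases h4 : 4 ∣ Nat.card F - 1
    · have h1 : 4 ≤ Nat.card F - 1 := Nat.le_of_dvd (by omega) h4
      rw [if_pos h4, if_pos ((show 2 ∣ 4 by norm_num).trans h4)]
      obtain ⟨t, ht⟩ : ∃ t, Nat.card F = t + 5 := ⟨Nat.card F - 5, by omega⟩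
      rw [ht, show t + 5 - 1 = t + 4 by omega]
      simp only [Nat.reduceSub]
      zify
      have ht0 : (0 : ℤ) ≤ t := Int.natCast_nonneg t
      nlinarith [pow_nonneg ht0 2, pow_nonneg ht0 3, pow_nonneg ht0 4]
    · rw [if_neg h4]
      split_ifs with h2
      · have h1 : 2 ≤ Nat.card F - 1 := Nat.le_of_dvd (by omega) h2
        obtain ⟨t, ht⟩ : ∃ t, Nat.card F = t + 3 := ⟨Nat.card F - 3, by omega⟩
        rw [ht, show t + 3 - 1 = t + 2 by omega]
        simp only [Nat.reduceSub]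
        zify
        have ht0 : (0 : ℤ) ≤ t := Int.natCast_nonneg t
        nlinarith [pow_nonneg ht0 2, pow_nonneg ht0 3, pow_nonneg ht0 4]
      · obtain ⟨t, ht⟩ : ∃ t, Nat.card F = t + 2 := ⟨Nat.card F - 2, by omega⟩
        rw [ht, show t + 2 - 1 = t + 1 by omega]
        simp only [Nat.reduceSub]
        zify
        have ht0 : (0 : ℤ) ≤ t := Int.natCast_nonneg t
        nlinarith [pow_nonneg ht0 2, pow_nonneg ht0 3, pow_nonneg ht0 4]
  · refine (WW_five F).trans ?_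
    split_ifs with h
    · have h1 : 5 ≤ Nat.card F - 1 := Nat.le_of_dvd (by omega) h
      obtain ⟨t, ht⟩ : ∃ t, Nat.card F = t + 6 := ⟨Nat.card F - 6, by omega⟩
      rw [ht, show t + 6 - 1 = t + 5 by omega]
      simp only [Nat.reduceSub]
      zify
      have ht0 : (0 : ℤ) ≤ t := Int.natCast_nonneg t
      nlinarith [pow_nonneg ht0 2, pow_nonneg ht0 3, pow_nonneg ht0 4, pow_nonneg ht0 5]
    · obtain ⟨t, ht⟩ : ∃ t, Nat.card F = t + 2 := ⟨Nat.card F - 2, by omega⟩
      rw [ht, show t + 2 - 1 = t + 1 by omega]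
      simp only [Nat.reduceSub]
      zify
      have ht0 : (0 : ℤ) ≤ t := Int.natCast_nonneg t
      nlinarith [pow_nonneg ht0 2, pow_nonneg ht0 3, pow_nonneg ht0 4, pow_nonneg ht0 5]
  · refine (WW_six F).trans ?_
    by_cases h6 : 6 ∣ Nat.card F - 1
    · have h1 : 6 ≤ Nat.card F - 1 := Nat.le_of_dvd (by omega) h6
      rw [if_pos h6, if_pos ((show 2 ∣ 6 by norm_num).trans h6), if_pos ((show 3 ∣ 6 by norm_num).trans h6)]
      obtain ⟨t, ht⟩ : ∃ t, Nat.card F = t + 7 := ⟨Nat.card F - 7, by omega⟩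
      rw [ht, show t + 7 - 1 = t + 6 by omega]
      simp only [Nat.reduceSub]
      zify
      have ht0 : (0 : ℤ) ≤ t := Int.natCast_nonneg t
      nlinarith [pow_nonneg ht0 2, pow_nonneg ht0 3, pow_nonneg ht0 4, pow_nonneg ht0 5, pow_nonneg ht0 6]
    · rw [if_neg h6]
      by_cases h3 : 3 ∣ Nat.card F - 1
      · have h1 : 3 ≤ Nat.card F - 1 := Nat.le_of_dvd (by omega) h3
        rw [if_pos h3, if_neg (fun h2 => h6 (by
          have := Nat.Coprime.mul_dvd_of_dvd_of_dvd (by norm_num : Nat.Coprime 2 3) h2 h3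
          simpa using this))]
        obtain ⟨t, ht⟩ : ∃ t, Nat.card F = t + 4 := ⟨Nat.card F - 4, by omega⟩
        rw [ht, show t + 4 - 1 = t + 3 by omega]
        simp only [Nat.reduceSub]
        zify
        have ht0 : (0 : ℤ) ≤ t := Int.natCast_nonneg t
        nlinarith [pow_nonneg ht0 2, pow_nonneg ht0 3, pow_nonneg ht0 4, pow_nonneg ht0 5, pow_nonneg ht0 6]
      · rw [if_neg h3]
        split_ifs with h2
        · have h1 : 2 ≤ Nat.card F - 1 := Nat.le_of_dvd (by omega) h2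
          obtain ⟨t, ht⟩ : ∃ t, Nat.card F = t + 3 := ⟨Nat.card F - 3, by omega⟩
          rw [ht, show t + 3 - 1 = t + 2 by omega]
          simp only [Nat.reduceSub]
          zify
          have ht0 : (0 : ℤ) ≤ t := Int.natCast_nonneg t
          nlinarith [pow_nonneg ht0 2, pow_nonneg ht0 3, pow_nonneg ht0 4, pow_nonneg ht0 5, pow_nonneg ht0 6]
        · obtain ⟨t, ht⟩ : ∃ t, Nat.card F = t + 2 := ⟨Nat.card F - 2, by omega⟩
          rw [ht, show t + 2 - 1 = t + 1 by omega]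
          simp only [Nat.reduceSub]
          zify
          have ht0 : (0 : ℤ) ≤ t := Int.natCast_nonneg t
          nlinarith [pow_nonneg ht0 2, pow_nonneg ht0 3, pow_nonneg ht0 4, pow_nonneg ht0 5, pow_nonneg ht0 6]
  · refine (WW_big F h7).trans ?_
    obtain ⟨m, rfl⟩ : ∃ m, n = m + 2 := ⟨n - 2, by omega⟩
    rw [show m + 2 - 2 = m by omega, show m + 2 - 1 = m + 1 by omega, pow_succ, pow_succ]
    obtain ⟨t, ht⟩ : ∃ t, Nat.card F = t + 2 := ⟨Nat.card F - 2, by omega⟩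
    rw [ht, show t + 2 - 1 = t + 1 by omega, show t + 2 - 2 = t by omega]
    have h1 : (t + 2) ^ m * (t + 2) * (t + 2) + t * (t + 2) ^ m = ((t + 2) * (t + 2) + t) * (t + 2) ^ m := by ring
    have h2 : (t + 1) * ((t + 2) ^ m * (t + 2) + 3 * (t + 2) ^ m) = ((t + 1) * (t + 5)) * (t + 2) ^ m := by ring
    rw [h1, h2]
    apply Nat.mul_le_mul_right
    nlinarith

theorem WW_general {n : ℕ} (hn : 1 ≤ n) : 2 * WW F n ≤ 5 * ((Nat.card F - 1) * Nat.card F ^ (n - 1)) := by
  have hq : 1 < Nat.card F := Finite.one_lt_card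
  rcases (by omega : n = 1 ∨ n = 2 ∨ 3 ≤ n) with rfl | rfl | h3
  · have := WW_one F
    rw [Nat.sub_self, pow_zero, mul_one]
    omega
  · have := WW_two F
    split_ifs at this with h
    · have h1 : 2 ≤ Nat.card F - 1 := Nat.le_of_dvd (by omega) h
      obtain ⟨t, ht⟩ : ∃ t, Nat.card F = t + 3 := ⟨Nat.card F - 3, by omega⟩
      rw [ht, show t + 3 - 1 = t + 2 by omega] at this ⊢
      simp only [Nat.reduceSub, pow_one]
      nlinarith
    · obtain ⟨t, ht⟩ : ∃ t, Nat.card F = t + 2 := ⟨Nat.card F - 2, by omega⟩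
      rw [ht, show t + 2 - 1 = t + 1 by omega] at this ⊢
      simp only [Nat.reduceSub, pow_one]
      nlinarith
  · refine (Nat.mul_le_mul_left 2 (WW_ge_three F h3)).trans ?_
    obtain ⟨m, rfl⟩ : ∃ m, n = m + 2 := ⟨n - 2, by omega⟩
    rw [show m + 2 - 2 = m by omega, show m + 2 - 1 = m + 1 by omega, pow_succ]
    have h1 : 2 * ((Nat.card F - 1) * (Nat.card F ^ m * Nat.card F + 3 * Nat.card F ^ m)) = (Nat.card F - 1) * Nat.card F ^ m * (2 * (Nat.card F + 3)) := by ring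
    have h2 : 5 * ((Nat.card F - 1) * (Nat.card F ^ m * Nat.card F)) = (Nat.card F - 1) * Nat.card F ^ m * (5 * Nat.card F) := by ring
    rw [h1, h2]
    apply Nat.mul_le_mul_left
    omega

end H46.TyBound
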