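import Mathlib
import Cfsg.Agent.Lib.H46.TySd
import Cfsg.Agent.Lib.H46.TySL
import Cfsg.Agent.Lib.H49.SUClasses
import Cfsg.Agent.Lib.H49.SUSS3

/-! Types of unitary matrices. -/

set_option autoImplicit false

namespace H46.TyU

open Polynomial H48.SimStruct H46.TyAlg H46.TyCount H46.TyGL H46.StPoly H46.StTy H46.TyReal H46.TySd Matrix H49.Unitary H46.TyDet

variable {K : Type*} [Field K] [Fintype K] {q n : ℕ}

/-- self-dual types -/
def UT (hK : Nat.card K = q ^ 2) (r n : ℕ) : Set (ℕ → K[X]) := {f | f ∈ TT K r n ∧ ∀ e, st (frob hK) (f e) = f e}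

theorem ct_eq (hK : Nat.card K = q ^ 2) (A : Matrix (Fin n) (Fin n) K) : ct hK A = cT (frob hK) A := rfl

theorem det_ne_zero_of_mem {F : Type*} [Field F] {A : Matrix (Fin n) (Fin n) F} (h : ty A ∈ TT F 1 n) : A.det ≠ 0 := by
  obtain ⟨ι, _, g, hg, ⟨E⟩, h1⟩ := isTy_ty A
  have h2 := det_isTy hg E
  have h3 := finrank_isTy hg E
  rw [Module.finrank_fin_fun] at h3
  rw [LinearMap.det_toLin'] at h2
  have hN : ∀ i, (g i).2 ≤ n := by
    intro i
    have h4 : (g i).2 * (g i).1.natDegree ≤ n := by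
      conv_rhs => rw [h3]
      exact Finset.single_le_sum (f := fun i => (g i).2 * (g i).1.natDegree) (fun _ _ => Nat.zero_le _) (Finset.mem_univ i)
    exact (Nat.le_mul_of_pos_right _ (hg i).2.1.natDegree_pos).trans h4
  have h4 := tyf_dt hg n hN
  rw [h2, ← h4, ← h1]
  unfold dt
  rw [Finset.prod_ne_zero_iff]
  intro e _
  apply pow_ne_zero
  unfold sc
  exact mul_ne_zero (pow_ne_zero _ (by norm_num)) (h.1 e).2

theorem det_ne_zero_of_U (hK : Nat.card K = q ^ 2) {A : Matrix (Fin n) (Fin n) K} (h : ct hK A * A = 1) : A.det ≠ 0 := by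
  intro h0
  have := congrArg Matrix.det h
  rw [Matrix.det_mul, h0, mul_zero, Matrix.det_one] at this
  exact zero_ne_one this

/-- the type of a unitary matrix is self-dual -/
theorem ty_mem_UT (hK : Nat.card K = q ^ 2) {A : Matrix (Fin n) (Fin n) K} (h : ct hK A * A = 1) : ty A ∈ UT hK 1 n := by
  refine ⟨(ty_mem (det_ne_zero_of_U hK h)).1, ?_⟩
  intro e
  have := ty_dual (frob_frob hK) h
  exact (congrFun this e).symm

theorem isConj_matrix {F : Type*} [Field F] {A B : Matrix (Fin n) (Fin n) F} (h : ty A = ty B) : IsConj A B := by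
  obtain ⟨g, hg⟩ := ty_eq_iff.mp h
  exact ⟨g, hg⟩

/-- conjugacy in the unitary group by the type -/
theorem exists_conj_U (hK : Nat.card K = q ^ 2) {A B : Matrix (Fin n) (Fin n) K} (hA : ct hK A * A = 1) (hB : ct hK B * B = 1) (h : ty A = ty B) :
    ∃ g : Matrix (Fin n) (Fin n) K, ct hK g * g = 1 ∧ g * A = B * g := by
  have hK' : Fintype.card K = q ^ 2 := by rw [← Nat.card_eq_fintype_card]; exact hK
  have hu : ∀ {M : Matrix (Fin n) (Fin n) K}, ct hK M * M = 1 → M * ct hK M = 1 := fun h => mul_eq_one_comm.mp h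
  let a : GL (Fin n) K := ⟨A, ct hK A, hu hA, hA⟩
  let b : GL (Fin n) K := ⟨B, ct hK B, hu hB, hB⟩
  let a' : ↥(Cfsg.GU n K q) := ⟨a, (mem_GU hK a).mpr hA⟩
  let b' : ↥(Cfsg.GU n K q) := ⟨b, (mem_GU hK b).mpr hB⟩
  have h1 : IsConj a' b' := H49.SUClasses.isConj_GU hK' (isConj_matrix h)
  obtain ⟨c, hc⟩ := isConj_iff.mp h1
  refine ⟨(c : GL (Fin n) K), (mem_GU hK _).mp c.2, ?_⟩
  have h2 : c * a' = b' * c := by rw [← hc]; group
  exact congrArg (fun z : ↥(Cfsg.GU n K q) => ((z : GL (Fin n) K) : Matrix (Fin n) (Fin n) K)) h2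

/-- every self-dual type is realised by a unitary matrix -/
theorem real_U (hK : Nat.card K = q ^ 2) {f : ℕ → K[X]} (hf : f ∈ UT hK 1 n) :
    ∃ A : Matrix (Fin n) (Fin n) K, ct hK A * A = 1 ∧ ty A = f := by
  have hK' : Fintype.card K = q ^ 2 := by rw [← Nat.card_eq_fintype_card]; exact hK
  obtain ⟨A, hA⟩ := real_of_mem hf.1
  have hdet : A.det ≠ 0 := det_ne_zero_of_mem (hA ▸ hf.1)
  have hdet' : IsUnit (ct hK A).det := by
    rw [ct_eq, det_cT]
    exact IsUnit.mk0 _ ((_root_.map_ne_zero _).mpr hdet)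
  have h1 : cT (frob hK) A * (ct hK A)⁻¹ = 1 := Matrix.mul_nonsing_inv _ hdet'
  have h2 := ty_dual (frob_frob hK) h1
  have h3 : ty (ct hK A)⁻¹ = ty A := by
    rw [h2, hA]
    funext e
    exact hf.2 e
  let a : GL (Fin n) K := Matrix.nonsingInvUnit A (IsUnit.mk0 _ hdet)
  obtain ⟨B, hB⟩ := (Cfsg.Agent.S2588.result hK' a).mpr (isConj_matrix h3.symm)
  refine ⟨(B : GL (Fin n) K), (mem_GU hK _).mp B.2, ?_⟩
  rw [← hA]
  exact (conj_iff_ty.mp hB).symm

theorem sg_mem {F : Type*} [Field F] {h : F[X]} (hh : Good h) {e : ℕ} (he : 1 ≤ e) : sg e h ∈ TT F 1 (e * h.natDegree) := by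
  apply mem_TT_of_le (N := e)
  · intro k
    unfold sg
    split_ifs
    · exact hh
    · exact good_one
  · intro k hk
    unfold sg
    rw [if_neg (by omega)]
  · intro k hk
    unfold sg
    rw [if_neg (by omega)]
  · rw [Finset.sum_eq_single e]
    · unfold sg; rw [if_pos rfl]
    · intro k _ hk
      unfold sg
      rw [if_neg hk, natDegree_one, mul_zero]
    · intro h
      exact absurd (Finset.mem_range.mpr (by omega)) h

theorem commute_aeval {R A : Type*} [CommSemiring R] [Semiring A] [Algebra R A] {Z a : A} (h : Z * a = a * Z) (u : R[X]) :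
    Z * aeval a u = aeval a u * Z := by
  have h1 : Commute Z a := h
  have h2 : Commute Z (aeval a u) := by
    induction u using Polynomial.induction_on' with
    | add p q hp hq => rw [map_add]; exact hp.add_right hq
    | monomial i r =>
      rw [aeval_monomial]
      have h3 : Commute Z (algebraMap R A r) := (Algebra.commutes r Z).symm
      exact h3.mul_right (h1.pow_right i)
  exact h2

/-- unitary elements of the centralizer -/
theorem exists_comm_U (hK : Nat.card K = q ^ 2) {A : Matrix (Fin n) (Fin n) K} (hA : ct hK A * A = 1) {e : ℕ} (he : ty A e ≠ 1)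
    {c : K} (hc : c ^ (q + 1) = 1) :
    ∃ S : Matrix (Fin n) (Fin n) K, ct hK S * S = 1 ∧ S * A = A * S ∧ S.det = c ^ e := by
  have hf := ty_mem_UT hK hA
  obtain ⟨f, hfdef⟩ : ∃ f, f = ty A := ⟨_, rfl⟩
  rw [← hfdef] at hf he
  obtain ⟨h, k, hfe, hg, kg, sth, stk, h1, hu⟩ := exists_sd_factor (frob_frob hK) (hf.1.1 e) (hf.2 e) he
  obtain ⟨e1, en, hup, hsplit⟩ := split_TT hf.1 hfe hg.1 he
  obtain ⟨m, rfl⟩ : ∃ m, n = e * h.natDegree + m := ⟨n - e * h.natDegree, by omega⟩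
  rw [Nat.add_sub_cancel_left] at hup
  obtain ⟨A₁, hA₁, ht₁⟩ := real_U (n := e * h.natDegree) hK (f := sg e h) ⟨sg_mem hg e1, by
    intro i
    unfold sg
    split_ifs
    · exact sth
    · exact st_one⟩
  obtain ⟨A₂, hA₂, ht₂⟩ := real_U hK (f := Function.update f e k) ⟨hup, by
    intro i
    by_cases hi : i = e
    · subst hi; rw [Function.update_self]; exact stk
    · rw [Function.update_of_ne hi]; exact hf.2 i⟩
  have hbd : ct hK (bd A₁ A₂) * bd A₁ A₂ = 1 := by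
    rw [ct_eq, cT_bd, bd_mul, ← ct_eq, ← ct_eq, hA₁, hA₂, bd_one]
  have htbd : ty (bd A₁ A₂) = ty A := by
    rw [ty_bd, ht₁, ht₂, ← hfdef]
    exact hsplit.symm
  obtain ⟨g, hgu, hgc⟩ := exists_conj_U hK hbd hA htbd
  -- the element of the centralizer of `A₁`
  have hc0 : c ≠ 0 := by
    rintro rfl
    rw [zero_pow (by omega)] at hc
    exact zero_ne_one hc
  obtain ⟨d, hd0, hd⟩ := H49.SUSS.exists_frob_eq_mul hK (c := c⁻¹) (by rw [inv_pow, hc, inv_one])
  obtain ⟨u, hu'⟩ := hu d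
  obtain ⟨Y, hY⟩ : ∃ Y, Y = aeval A₁ u := ⟨_, rfl⟩
  have hYdet : Y.det = d ^ e := by rw [hY, det_aeval_sg ht₁, hu']
  have hYu : IsUnit Y.det := by rw [hYdet]; exact (IsUnit.mk0 _ hd0).pow e
  have hA₁' : A₁ * ct hK A₁ = 1 := mul_eq_one_comm.mp hA₁
  have hYA : A₁ * Y = Y * A₁ := by
    rw [hY]
    exact commute_aeval rfl u
  have hYA' : ct hK A₁ * Y = Y * ct hK A₁ := by
    calc ct hK A₁ * Y = ct hK A₁ * Y * (A₁ * ct hK A₁) := by rw [hA₁', mul_one]
      _ = ct hK A₁ * (A₁ * Y) * ct hK A₁ := by rw [hYA]; simp only [mul_assoc]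
      _ = (ct hK A₁ * A₁) * Y * ct hK A₁ := by simp only [mul_assoc]
      _ = Y * ct hK A₁ := by rw [hA₁, one_mul]
  have hYc : ct hK Y * A₁ = A₁ * ct hK Y := by
    have h2 := congrArg (ct hK) hYA'
    rw [ct_mul, ct_mul, ct_ct] at h2
    exact h2
  have hYY : ct hK Y * Y = Y * ct hK Y := by
    have h2 : ct hK Y * aeval A₁ u = aeval A₁ u * ct hK Y := commute_aeval hYc u
    rw [← hY] at h2
    exact h2
  have hcdet : (ct hK Y).det = frob hK Y.det := by rw [ct_eq, det_cT]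
  have hcu : IsUnit (ct hK Y).det := by
    rw [hcdet]
    exact IsUnit.map _ hYu
  obtain ⟨Z, hZ⟩ : ∃ Z, Z = (ct hK Y)⁻¹ := ⟨_, rfl⟩
  have hZ1 : Z * ct hK Y = 1 := by rw [hZ]; exact Matrix.nonsing_inv_mul _ hcu
  have hZ2 : ct hK Y * Z = 1 := by rw [hZ]; exact Matrix.mul_nonsing_inv _ hcu
  have hZA : Z * A₁ = A₁ * Z := by
    calc Z * A₁ = Z * A₁ * (ct hK Y * Z) := by rw [hZ2, mul_one]
      _ = Z * (A₁ * ct hK Y) * Z := by simp only [mul_assoc]
      _ = (Z * ct hK Y) * A₁ * Z := by rw [← hYc]; simp only [mul_assoc]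
      _ = A₁ * Z := by rw [hZ1, one_mul]
  have hcZ1 : Y * ct hK Z = 1 := by
    have h2 := congrArg (ct hK) hZ1
    rwa [ct_mul, ct_ct, ct_one] at h2
  have hcZ : ct hK Z * Y = 1 := mul_eq_one_comm.mp hcZ1
  have hYZ : Y * Z = Z * Y := by
    calc Y * Z = Z * ct hK Y * (Y * Z) := by rw [hZ1, one_mul]
      _ = Z * (ct hK Y * Y) * Z := by simp only [mul_assoc]
      _ = Z * Y * (ct hK Y * Z) := by rw [hYY]; simp only [mul_assoc]
      _ = Z * Y := by rw [hZ2, mul_one]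
  -- the unitary element `Y * Z`
  have hW1 : ct hK (Y * Z) * (Y * Z) = 1 := by
    calc ct hK (Y * Z) * (Y * Z) = ct hK Z * ct hK Y * (Y * Z) := by rw [ct_mul]
      _ = ct hK Z * (ct hK Y * Y) * Z := by simp only [mul_assoc]
      _ = (ct hK Z * Y) * (ct hK Y * Z) := by rw [hYY]; simp only [mul_assoc]
      _ = 1 := by rw [hcZ, hZ2, one_mul]
  have hW2 : (Y * Z) * A₁ = A₁ * (Y * Z) := by
    rw [mul_assoc, hZA, ← mul_assoc, ← mul_assoc, hYA]
  have hZdet : Z.det = (frob hK Y.det)⁻¹ := by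
    have h2 := congrArg Matrix.det hZ1
    rw [Matrix.det_mul, Matrix.det_one, hcdet] at h2
    exact eq_inv_of_mul_eq_one_left h2
  have hW3 : (Y * Z).det = c ^ e := by
    rw [Matrix.det_mul, hZdet, hYdet, map_pow, hd, mul_pow, inv_pow]
    have h2 : d ^ e ≠ 0 := pow_ne_zero _ hd0
    have h3 : c ^ e ≠ 0 := pow_ne_zero _ hc0
    field_simp
  -- transport
  have hgi : g * ct hK g = 1 := mul_eq_one_comm.mp hgu
  refine ⟨g * bd (Y * Z) 1 * ct hK g, ?_, ?_, ?_⟩
  · have hb : ct hK (bd (Y * Z) (1 : Matrix (Fin m) (Fin m) K)) * bd (Y * Z) 1 = 1 := by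
      rw [ct_eq, cT_bd, bd_mul, ← ct_eq, ← ct_eq, hW1, ct_one, one_mul, bd_one]
    calc ct hK (g * bd (Y * Z) 1 * ct hK g) * (g * bd (Y * Z) 1 * ct hK g)
        = g * ct hK (bd (Y * Z) (1 : Matrix (Fin m) (Fin m) K)) * (ct hK g * g) * bd (Y * Z) 1 * ct hK g := by
          rw [ct_mul, ct_mul, ct_ct]; simp only [mul_assoc]
      _ = g * (ct hK (bd (Y * Z) (1 : Matrix (Fin m) (Fin m) K)) * bd (Y * Z) 1) * ct hK g := by
          rw [hgu, mul_one]; simp only [mul_assoc]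
      _ = 1 := by rw [hb, mul_one, hgi]
  · have hAg : A = g * bd A₁ A₂ * ct hK g := by
      rw [hgc, mul_assoc, hgi, mul_one]
    have hb : bd (Y * Z) 1 * bd A₁ A₂ = bd A₁ A₂ * bd (Y * Z) (1 : Matrix (Fin m) (Fin m) K) := by
      rw [bd_mul, bd_mul, hW2, one_mul, mul_one]
    calc g * bd (Y * Z) 1 * ct hK g * A = g * bd (Y * Z) 1 * (ct hK g * g) * bd A₁ A₂ * ct hK g := by
          conv_lhs => rw [hAg]
          simp only [mul_assoc]
      _ = g * (bd (Y * Z) 1 * bd A₁ A₂) * ct hK g := by rw [hgu, mul_one]; simp only [mul_assoc]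
      _ = g * bd A₁ A₂ * (ct hK g * g) * bd (Y * Z) 1 * ct hK g := by rw [hb, hgu, mul_one]; simp only [mul_assoc]
      _ = A * (g * bd (Y * Z) 1 * ct hK g) := by
          conv_rhs => rw [hAg]
          simp only [mul_assoc]
  · have h2 : g.det * (ct hK g).det = 1 := by rw [← Matrix.det_mul, hgi, Matrix.det_one]
    rw [Matrix.det_mul, Matrix.det_mul, det_bd, hW3, Matrix.det_one, mul_one]
    calc g.det * c ^ e * (ct hK g).det = (g.det * (ct hK g).det) * c ^ e := by ring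
      _ = c ^ e := by rw [h2, one_mul]

end H46.TyU
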