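import Mathlib
import Cfsg.Agent.Lib.H46.TyU

/-! Conjugacy classes of `SU_n`. -/

set_option autoImplicit false

namespace H46.TySU

open Finset Polynomial H46.TyAlg H46.TyCount H46.TyNum H46.TyDet H46.TyGL H46.TyU H49.Unitary H49.SUClasses

open scoped Classical

variable {K : Type*} [Field K] [Fintype K] {q n : ℕ}

/-- elements of the centralizer whose determinant is a given `g`-th power -/
theorem exists_commute_gc (hK : Fintype.card K = q ^ 2) (hN : Nat.card K = q ^ 2) (x : ↥(Cfsg.GU n K q)) (c : S K q) :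
    ∃ s : ↥(Cfsg.GU n K q), s * x = x * s ∧
      detS hK n s = c ^ (gc n (ty ((x : Matrix.GeneralLinearGroup (Fin n) K) : Matrix (Fin n) (Fin n) K))) := by
  have hx : ct hN ((x : Matrix.GeneralLinearGroup (Fin n) K) : Matrix (Fin n) (Fin n) K) * (x : Matrix.GeneralLinearGroup (Fin n) K) = 1 := (mem_GU hN _).mp x.2
  have hT := (ty_mem_UT hN hx).1
  set f := ty ((x : Matrix.GeneralLinearGroup (Fin n) K) : Matrix (Fin n) (Fin n) K) with hf
  let D : Subgroup (S K q) := (Subgroup.centralizer {x}).map (detS hK n)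
  have h1 : ∀ e ∈ supp n f, c ^ e ∈ D := by
    intro e he
    obtain ⟨s, hs1, hs2, hs3⟩ := exists_comm_U hN hx ((mem_supp hT e).mp he) (c := ((c : Kˣ) : K)) (by
      have := (mem_S (c : Kˣ)).mp c.2
      rw [← Units.val_pow_eq_pow_val, this, Units.val_one])
    let s' : Matrix.GeneralLinearGroup (Fin n) K := ⟨s, ct hN s, mul_eq_one_comm.mp hs1, hs1⟩
    let s'' : ↥(Cfsg.GU n K q) := ⟨s', (mem_GU hN s').mpr hs1⟩
    refine ⟨s'', ?_, ?_⟩
    · rw [SetLike.mem_coe, Subgroup.mem_centralizer_singleton_iff]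
      apply Subtype.ext
      apply Units.ext
      exact hs2
    · apply Subtype.ext
      apply Units.ext
      rw [detS_coe]
      show s.det = _
      rw [hs3]
      simp
  have h2 : c ^ (gc n f) ∈ D := by
    have h3 := bz_spec (supp n f)
    have h4 : c ^ (gc n f) = ∏ e ∈ supp n f, c ^ (bz (supp n f) e * (e : ℤ)) := by
      unfold gc
      rw [← zpow_natCast, ← h3]
      generalize supp n f = s
      generalize bz s = b
      induction s using Finset.induction_on with
      | empty => simp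
      | insert a s ha ih => rw [Finset.sum_insert ha, Finset.prod_insert ha, zpow_add, ih]
    rw [h4]
    apply Subgroup.prod_mem
    intro e he
    rw [mul_comm, zpow_mul, zpow_natCast]
    exact D.zpow_mem (h1 e he) _
  obtain ⟨s, hs, hd⟩ := h2
  refine ⟨s, ?_, hd⟩
  rw [SetLike.mem_coe, Subgroup.mem_centralizer_singleton_iff] at hs
  exact hs

/-- the matrix of an element of `SU` -/
abbrev mx (x : ↥(Cfsg.SU n K q)) : Matrix (Fin n) (Fin n) K := ((x : Matrix.SpecialLinearGroup (Fin n) K) : Matrix (Fin n) (Fin n) K)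

theorem mx_mul (x y : ↥(Cfsg.SU n K q)) : mx (x * y) = mx x * mx y := rfl

theorem mx_one : mx (1 : ↥(Cfsg.SU n K q)) = 1 := rfl

theorem mx_unitary (hN : Nat.card K = q ^ 2) (x : ↥(Cfsg.SU n K q)) : ct hN (mx x) * mx x = 1 :=
  (mem_GU hN _).mp (toGU n K q x).2

/-- the type of a class of `SU_n` -/
noncomputable def cty : ConjClasses ↥(Cfsg.SU n K q) → (ℕ → K[X]) :=
  Quotient.lift (fun x => ty (mx x)) (by
    intro x y hxy
    obtain ⟨h, hh⟩ := isConj_iff.mp (show IsConj x y from hxy)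
    apply ty_eq_iff.mpr
    refine ⟨Matrix.SpecialLinearGroup.toGL (h : Matrix.SpecialLinearGroup (Fin n) K), ?_⟩
    show mx h * mx x = mx y * mx h
    rw [← hh, mx_mul, mx_mul, mul_assoc, ← mx_mul h⁻¹, inv_mul_cancel, mx_one, mul_one])

theorem cty_mk (x : ↥(Cfsg.SU n K q)) : cty (ConjClasses.mk x) = ty (mx x) := rfl

/-- the number of classes of `SU_n` of a given type -/
theorem card_fiber_le (hK : Fintype.card K = q ^ 2) (f : ℕ → K[X]) :
    Nat.card {C : ConjClasses ↥(Cfsg.SU n K q) // cty C = f} ≤ Nat.gcd (gc n f) (q + 1) := by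
  have hN : Nat.card K = q ^ 2 := by rw [Nat.card_eq_fintype_card, hK]
  by_cases hne : Nonempty {C : ConjClasses ↥(Cfsg.SU n K q) // cty C = f}
  · obtain ⟨C₀, hC₀⟩ := hne
    obtain ⟨x₀, rfl⟩ := ConjClasses.exists_rep C₀
    rw [cty_mk] at hC₀
    have hex : ∀ C : {C : ConjClasses ↥(Cfsg.SU n K q) // cty C = f},
        ∃ (y : ↥(Cfsg.SU n K q)) (h : ↥(Cfsg.GU n K q)), ConjClasses.mk y = C.1 ∧
          h * toGU n K q x₀ = toGU n K q y * h := by
      rintro ⟨C, hC⟩
      obtain ⟨y, rfl⟩ := ConjClasses.exists_rep C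
      rw [cty_mk] at hC
      have h1 : IsConj (toGU n K q x₀) (toGU n K q y) := isConj_GU hK (isConj_matrix (hC₀.trans hC.symm))
      obtain ⟨h, hh⟩ := isConj_iff.mp h1
      exact ⟨y, h, rfl, by rw [← hh]; group⟩
    choose y h hy hh using hex
    have hle : Nat.card (S K q ⧸ (powMonoidHom (gc n f) : S K q →* S K q).range) = Nat.gcd (gc n f) (q + 1) := by
      rw [← Subgroup.index_eq_card, IsCyclic.index_powMonoidHom_range, card_S hK, Nat.gcd_comm]
    refine le_trans (Nat.card_le_card_of_injective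
      (fun C => (QuotientGroup.mk (detS hK n (h C)) : S K q ⧸ (powMonoidHom (gc n f) : S K q →* S K q).range)) ?_) hle.le
    intro C C' hCC
    obtain ⟨c, hc⟩ := QuotientGroup.eq.mp hCC
    rw [powMonoidHom_apply] at hc
    obtain ⟨s, hs, hsd⟩ := exists_commute_gc hK hN (toGU n K q x₀) c
    have hty : ty (((toGU n K q x₀ : ↥(Cfsg.GU n K q)) : Matrix.GeneralLinearGroup (Fin n) K) : Matrix (Fin n) (Fin n) K) = f := hC₀
    rw [hty, hc] at hsd
    have hdet : detS hK n (h C * s) = detS hK n (h C') := by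
      rw [map_mul, hsd, mul_inv_cancel_left]
    set k : ↥(Cfsg.GU n K q) := h C' * (h C * s)⁻¹ with hk
    have hkdet : detS hK n k = 1 := by
      rw [hk, map_mul, map_inv, hdet, mul_inv_cancel]
    obtain ⟨k', hk'⟩ := (detS_eq_one_iff hK k).mp hkdet
    have e1 := hh C'
    have e2 := hh C
    have e3 : k * toGU n K q (y C) = toGU n K q (y C') * k := by
      have e4 : toGU n K q (y C) = (h C * s) * toGU n K q x₀ * (h C * s)⁻¹ := by
        rw [mul_assoc (h C) s, hs, ← mul_assoc, e2]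
        group
      rw [e4, hk]
      calc h C' * (h C * s)⁻¹ * ((h C * s) * toGU n K q x₀ * (h C * s)⁻¹)
          = (h C' * toGU n K q x₀) * (h C * s)⁻¹ := by group
        _ = _ := by rw [e1]; group
    apply Subtype.ext
    rw [← hy C, ← hy C', ConjClasses.mk_eq_mk_iff_isConj, isConj_iff]
    refine ⟨k', ?_⟩
    rw [mul_inv_eq_iff_eq_mul]
    apply toGU_injective
    rw [map_mul, map_mul, hk']
    exact e3
  · rw [not_nonempty_iff] at hne
    rw [Nat.card_of_isEmpty]
    exact Nat.zero_le _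

theorem cty_mem (hN : Nat.card K = q ^ 2) (C : ConjClasses ↥(Cfsg.SU n K q)) : cty C ∈ UT hN 1 n ∧ dt n (cty C) = 1 := by
  obtain ⟨x, rfl⟩ := ConjClasses.exists_rep C
  rw [cty_mk]
  refine ⟨ty_mem_UT hN (mx_unitary hN x), ?_⟩
  have h1 : (mx x).det = 1 := x.1.2
  have h := (ty_mem (x := mx x) (by rw [h1]; exact one_ne_zero)).2
  rw [h, h1]

/-- the classes are bounded by the weights of their types -/
theorem card_classes_le (hK : Fintype.card K = q ^ 2) (T : Finset (ℕ → K[X])) (hS : ∀ C : ConjClasses ↥(Cfsg.SU n K q), cty C ∈ T) :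
    Nat.card (ConjClasses ↥(Cfsg.SU n K q)) ≤ ∑ f ∈ T, Nat.gcd (gc n f) (q + 1) := by
  haveI : Fintype (ConjClasses ↥(Cfsg.SU n K q)) := Fintype.ofFinite _
  rw [Nat.card_eq_fintype_card, ← Finset.card_univ, Finset.card_eq_sum_card_fiberwise (f := cty) (t := T)]
  · refine Finset.sum_le_sum fun f _ => ?_
    refine le_trans ?_ (card_fiber_le (n := n) hK f)
    rw [Nat.card_eq_fintype_card, Fintype.card_subtype]
  · intro C _
    exact hS C

end H46.TySU
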