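import Mathlib
import Cfsg.Agent.Lib.H46.TyBound

/-! Types and multiplication by scalars. -/

set_option autoImplicit false

namespace H46.TyScale

open Finset Polynomial H48.SimStruct H46.TyAlg H46.TyCount H46.TyNum H46.TyDet H46.TyGL

universe u v

section alg
variable {F : Type u} [Field F]

theorem aeval_scale {V : Type v} [AddCommGroup V] [Module F V] (T : V →ₗ[F] V) (ζ : F) (p : F[X]) :
    aeval (ζ • T) (scaleRoots p ζ) = ζ ^ p.natDegree • aeval T p := by
  have h1 : ζ • T = (algebraMap F (Module.End F V)) ζ * T := by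
    rw [Algebra.smul_def]
  rw [h1, aeval_def, scaleRoots_eval₂_mul_of_commute, ← aeval_def, Algebra.smul_def, map_pow]
  · exact Algebra.commutes _ _
  · intro a b
    exact Algebra.commutes _ _

theorem scaleRoots_inv_self {ζ : F} (hζ : ζ ≠ 0) (p : F[X]) : scaleRoots (scaleRoots p ζ⁻¹) ζ = p := by
  rw [← scaleRoots_mul, inv_mul_cancel₀ hζ, scaleRoots_one]

theorem scaleRoots_self_inv {ζ : F} (hζ : ζ ≠ 0) (p : F[X]) : scaleRoots (scaleRoots p ζ) ζ⁻¹ = p := by
  rw [← scaleRoots_mul, mul_inv_cancel₀ hζ, scaleRoots_one]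

theorem irreducible_scaleRoots {ζ : F} (hζ : ζ ≠ 0) {p : F[X]} (hp : Irreducible p) : Irreducible (scaleRoots p ζ) := by
  constructor
  · intro h
    apply hp.not_isUnit
    have h0 : (scaleRoots p ζ).natDegree = 0 := natDegree_eq_zero_of_isUnit h
    rw [natDegree_scaleRoots] at h0
    rw [eq_C_of_natDegree_eq_zero h0, isUnit_C, isUnit_iff_ne_zero]
    intro h1
    apply hp.ne_zero
    rw [eq_C_of_natDegree_eq_zero h0, h1, C_0]
  · intro a b hab
    have h1 : p = scaleRoots a ζ⁻¹ * scaleRoots b ζ⁻¹ := by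
      rw [← mul_scaleRoots_of_noZeroDivisors, ← hab, scaleRoots_self_inv hζ]
    have key : ∀ c : F[X], IsUnit (scaleRoots c ζ⁻¹) → c ≠ 0 → IsUnit c := by
      intro c hc hc0
      have h0 : (scaleRoots c ζ⁻¹).natDegree = 0 := natDegree_eq_zero_of_isUnit hc
      rw [natDegree_scaleRoots] at h0
      rw [eq_C_of_natDegree_eq_zero h0, isUnit_C, isUnit_iff_ne_zero]
      intro h1
      apply hc0
      rw [eq_C_of_natDegree_eq_zero h0, h1, C_0]
    have hne : scaleRoots p ζ ≠ 0 := by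
      intro h
      apply hp.ne_zero
      rw [← scaleRoots_self_inv hζ p, h, zero_scaleRoots]
    rw [hab] at hne
    rcases hp.isUnit_or_isUnit h1 with h | h
    · exact Or.inl (key a h (left_ne_zero_of_mul hne))
    · exact Or.inr (key b h (right_ne_zero_of_mul hne))

theorem finrank_ker_scale {V : Type v} [AddCommGroup V] [Module F V] (T : V →ₗ[F] V) {ζ : F} (hζ : ζ ≠ 0) (p : F[X]) (k : ℕ) :
    Module.finrank F (LinearMap.ker (aeval (ζ • T) (p ^ k))) = Module.finrank F (LinearMap.ker (aeval T ((scaleRoots p ζ⁻¹) ^ k))) := by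
  have h1 : p ^ k = scaleRoots ((scaleRoots p ζ⁻¹) ^ k) ζ := by
    rw [pow_scaleRoots_of_isReduced, scaleRoots_inv_self hζ]
  rw [h1, aeval_scale]
  have h2 : LinearMap.ker (ζ ^ ((scaleRoots p ζ⁻¹) ^ k).natDegree • aeval T ((scaleRoots p ζ⁻¹) ^ k)) = LinearMap.ker (aeval T ((scaleRoots p ζ⁻¹) ^ k)) :=
    LinearMap.ker_smul _ _ (pow_ne_zero _ hζ)
  rw [h2]

/-- scaling of types -/
theorem isTy_scale {V : Type v} [AddCommGroup V] [Module F V] [FiniteDimensional F V] {T : V →ₗ[F] V} {f : ℕ → F[X]} (hT : IsTy T f) {ζ : F} (hζ : ζ ≠ 0) :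
    IsTy (ζ • T) (fun e => scaleRoots (f e) ζ) := by
  classical
  obtain ⟨ι, _, g, hg, ⟨E⟩, rfl⟩ := hT
  obtain ⟨κ, _, h, hh, ⟨E'⟩⟩ := exists_struct (ζ • T)
  let g' : ι → F[X] × ℕ := fun i => (scaleRoots (g i).1 ζ, (g i).2)
  have hg' : ∀ i, Adm (g' i) := fun i => ⟨(monic_scaleRoots_iff ζ).mpr (hg i).1, irreducible_scaleRoots hζ (hg i).2.1, (hg i).2.2⟩
  have hc := card_fiber_eq h g' hh hg' (fun p hp hpi k => by
    rw [kd_struct hh E', finrank_ker_scale T hζ, ← kd_struct hg E]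
    refine Finset.sum_congr rfl fun i _ => ?_
    rw [kd_cyc (hg i) ((monic_scaleRoots_iff _).mpr hp) (irreducible_scaleRoots (inv_ne_zero hζ) hpi), kd_cyc (hg' i) hp hpi, natDegree_scaleRoots]
    congr 1
    have h1 : (g i).1 = scaleRoots p ζ⁻¹ ↔ (g' i).1 = p := by
      show _ ↔ scaleRoots (g i).1 ζ = p
      constructor
      · intro h2; rw [h2, scaleRoots_inv_self hζ]
      · intro h2; rw [← h2, scaleRoots_self_inv hζ]
    simp only [h1]
    rfl)
  obtain ⟨e, he⟩ := equiv_of_fibers h g' hc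
  obtain ⟨P⟩ := pi_equiv h g' e he
  refine ⟨ι, inferInstance, g', hg', ⟨E'.trans P⟩, ?_⟩
  ext1 e
  unfold tyf
  have key : ∀ s : Finset ι, scaleRoots (∏ i ∈ s, if (g i).2 = e then (g i).1 else 1) ζ = ∏ i ∈ s, if (g' i).2 = e then (g' i).1 else 1 := by
    intro s
    induction s using Finset.induction_on with
    | empty => simp
    | insert a s ha ih =>
      rw [Finset.prod_insert ha, Finset.prod_insert ha, mul_scaleRoots_of_noZeroDivisors, ih]
      congr 1
      show scaleRoots (if (g a).2 = e then (g a).1 else 1) ζ = if (g a).2 = e then scaleRoots (g a).1 ζ else 1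
      split_ifs
      · rfl
      · exact one_scaleRoots ζ
  exact key Finset.univ

end alg

section mat
variable {F : Type*} [Field F] {n : ℕ}

/-- a matrix conjugate to a scalar multiple of itself -/
theorem ty_scale_eq {x : Matrix (Fin n) (Fin n) F} {ζ : F} (hζ : ζ ≠ 0) (h : ty (ζ • x) = ty x) (e : ℕ) :
    scaleRoots (ty x e) ζ = ty x e := by
  have h1 := isTy_scale (isTy_ty x) hζ
  have h2 : lin (ζ • x) = ζ • lin x := map_smul _ _ _
  rw [← h2] at h1
  have h3 := isTy_unique h1 (isTy_ty (ζ • x)) (LinearEquiv.refl F _) (fun v => rfl)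
  have h4 : scaleRoots (ty x e) ζ = ty (ζ • x) e := congrFun h3 e
  rw [h4, h]

open scoped Classical

theorem coeff_of_scale {ζ : F} {f : F[X]} (hf : f.Monic) (hf0 : f.coeff 0 ≠ 0) (h : scaleRoots f ζ = f) :
    orderOf ζ ∣ f.natDegree ∧ ∀ i, f.coeff i ≠ 0 → orderOf ζ ∣ i := by
  have key : ∀ i, f.coeff i ≠ 0 → orderOf ζ ∣ f.natDegree - i := by
    intro i hi
    have h1 : (scaleRoots f ζ).coeff i = f.coeff i := by rw [h]
    rw [coeff_scaleRoots] at h1
    rw [orderOf_dvd_iff_pow_eq_one]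
    exact mul_left_cancel₀ hi (h1.trans (mul_one _).symm)
  have h0 : orderOf ζ ∣ f.natDegree := by simpa using key 0 hf0
  refine ⟨h0, fun i hi => ?_⟩
  have h1 := key i hi
  have h2 : i ≤ f.natDegree := le_natDegree_of_ne_zero hi
  exact (Nat.dvd_sub_iff_right h2 h0).mp h1

theorem contract_data {m : ℕ} (hm : 0 < m) {f : F[X]} (hf : f.Monic) (hd : m ∣ f.natDegree) :
    (contract m f).Monic ∧ (contract m f).natDegree = f.natDegree / m ∧ (contract m f).coeff 0 = f.coeff 0 := by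
  have h1 : (contract m f).coeff (f.natDegree / m) = 1 := by
    rw [coeff_contract hm.ne', Nat.div_mul_cancel hd]
    exact hf
  have h2 : (contract m f).natDegree = f.natDegree / m := by
    apply le_antisymm
    · rw [natDegree_le_iff_coeff_eq_zero]
      intro N hN
      rw [coeff_contract hm.ne']
      apply coeff_eq_zero_of_natDegree_lt
      exact (Nat.div_lt_iff_lt_mul hm).mp hN
    · apply le_natDegree_of_ne_zero
      rw [h1]; exact one_ne_zero
  refine ⟨?_, h2, ?_⟩
  · rw [Monic, leadingCoeff, h2, h1]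
  · rw [coeff_contract hm.ne', zero_mul]

/-- types fixed by a scalar -/
noncomputable def SF (F : Type*) [Field F] [Finite F] (n : ℕ) (ζ : F) : Finset (ℕ → F[X]) :=
  (TF F n).filter (fun f => dt n f = 1 ∧ ∀ e, scaleRoots (f e) ζ = f e)

theorem sum_SF_le [Finite F] (n : ℕ) {ζ : F} (hζ : ζ ≠ 0) (hn : 0 < n) : (Nat.card F - 1) * ∑ f ∈ SF F n ζ, wt n f ≤ WW F (n / orderOf ζ) := by
  obtain ⟨m, hm⟩ : ∃ m, orderOf ζ = m := ⟨_, rfl⟩
  have hmpos : 0 < m := by
    rw [← hm]
    have h1 : orderOf (Units.mk0 ζ hζ) = orderOf ζ := by rw [← orderOf_units]; rfl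
    rw [← h1]
    exact orderOf_pos _
  rw [hm]
  -- data of the elements
  have hdat : ∀ f ∈ SF F n ζ, f ∈ TT F 1 n ∧ dt n f = 1 ∧ ∀ e, m ∣ (f e).natDegree ∧ ∀ i, (f e).coeff i ≠ 0 → m ∣ i := by
    intro f hf
    unfold SF at hf
    rw [mem_filter, mem_TF] at hf
    refine ⟨hf.1, hf.2.1, fun e => ?_⟩
    rw [← hm]
    exact coeff_of_scale (hf.1.1 e).1 (hf.1.1 e).2 (hf.2.2 e)
  by_cases hemp : SF F n ζ = ∅
  · rw [hemp]; simp
  obtain ⟨f₀, hf₀⟩ := Finset.nonempty_iff_ne_empty.mpr hemp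
  have hmn : m ∣ n := by
    obtain ⟨h1, -, h3⟩ := hdat f₀ hf₀
    conv_rhs => rw [← h1.2.2]
    exact Finset.dvd_sum fun e _ => (h3 e).1.mul_left _
  set φ : (ℕ → F[X]) → (ℕ → F[X]) := fun f e => contract m (f e) with hφ
  set δ : F := (-1) ^ (n - n / m) with hδ
  have hδ0 : δ ≠ 0 := pow_ne_zero _ (by norm_num)
  have hone : ∀ f ∈ SF F n ζ, ∀ e, φ f e = 1 ↔ f e = 1 := by
    intro f hf e
    obtain ⟨h1, h2, h3⟩ := hdat f hf
    obtain ⟨h4, h5, h6⟩ := contract_data hmpos (h1.1 e).1 (h3 e).1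
    rw [← natDegree_eq_zero_iff (h1.1 e).1, ← natDegree_eq_zero_iff h4, h5]
    constructor
    · intro h7
      rw [← Nat.div_mul_cancel (h3 e).1, h7, zero_mul]
    · intro h7
      rw [h7, Nat.zero_div]
  have hwtn : ∀ f ∈ SF F n ζ, ∑ e ∈ range (n + 1), e * (φ f e).natDegree = n / m := by
    intro f hf
    obtain ⟨h1, h2, h3⟩ := hdat f hf
    apply Nat.eq_of_mul_eq_mul_left hmpos
    rw [Nat.mul_div_cancel' hmn, Finset.mul_sum]
    conv_rhs => rw [← h1.2.2]
    refine Finset.sum_congr rfl fun e _ => ?_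
    obtain ⟨h4, h5, h6⟩ := contract_data hmpos (h1.1 e).1 (h3 e).1
    have h8 : m * (φ f e).natDegree = (f e).natDegree := by
      show m * (contract m (f e)).natDegree = _
      rw [h5, Nat.mul_div_cancel' (h3 e).1]
    calc m * (e * (φ f e).natDegree) = e * (m * (φ f e).natDegree) := by ring
      _ = _ := by rw [h8]
  have hmem : ∀ f ∈ SF F n ζ, φ f ∈ TT F 1 (n / m) := by
    intro f hf
    obtain ⟨h1, h2, h3⟩ := hdat f hf
    apply mem_TT_of_le (N := n)
    · intro e
      obtain ⟨h4, h5, h6⟩ := contract_data hmpos (h1.1 e).1 (h3 e).1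
      refine ⟨h4, ?_⟩
      show (contract m (f e)).coeff 0 ≠ 0
      rw [h6]; exact (h1.1 e).2
    · intro e he
      exact (hone f hf e).mpr (h1.2.1 e (Or.inl he))
    · intro e he
      exact (hone f hf e).mpr (h1.2.1 e (Or.inr he))
    · exact hwtn f hf
  have hle : n / m ≤ n := Nat.div_le_self _ _
  have hsupp : ∀ f ∈ SF F n ζ, supp (n / m) (φ f) = supp n f := by
    intro f hf
    obtain ⟨h1, h2, h3⟩ := hdat f hf
    ext e
    rw [mem_supp (hmem f hf), mem_supp h1, Ne, hone f hf]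
  have hdt : ∀ f ∈ SF F n ζ, dt (n / m) (φ f) = δ := by
    intro f hf
    obtain ⟨h1, h2, h3⟩ := hdat f hf
    have e1 : dt (n / m) (φ f) = dt n (φ f) := by
      unfold dt
      apply Finset.prod_subset (Finset.range_subset_range.mpr (by omega))
      intro e _ he
      rw [mem_range] at he
      rw [(hmem f hf).2.1 e (Or.inr (by omega)), sc_one, one_pow]
    have e2 : ∀ e ∈ range (n + 1), sc (φ f e) ^ e * (-1 : F) ^ (e * (f e).natDegree) = sc (f e) ^ e * (-1) ^ (e * (φ f e).natDegree) := by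
      intro e _
      obtain ⟨h4, h5, h6⟩ := contract_data hmpos (h1.1 e).1 (h3 e).1
      unfold sc
      show ((-1) ^ (φ f e).natDegree * (contract m (f e)).coeff 0) ^ e * _ = _
      rw [h6, mul_pow, mul_pow, ← pow_mul, ← pow_mul, mul_comm e (f e).natDegree, mul_comm e (φ f e).natDegree]
      ring
    have e3 : dt n (φ f) * (-1 : F) ^ n = dt n f * (-1) ^ (n / m) := by
      have h9 := Finset.prod_congr rfl e2
      rw [Finset.prod_mul_distrib, Finset.prod_mul_distrib, Finset.prod_pow_eq_pow_sum, Finset.prod_pow_eq_pow_sum, h1.2.2, hwtn f hf] at h9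
      exact h9
    rw [h2, one_mul] at e3
    rw [e1, hδ]
    have e4 : (-1 : F) ^ n * (-1) ^ n = 1 := by rw [← mul_pow]; simp
    calc dt n (φ f) = dt n (φ f) * (-1) ^ n * (-1) ^ n := by rw [mul_assoc, e4, mul_one]
      _ = (-1) ^ (n / m) * (-1) ^ n := by rw [e3]
      _ = (-1) ^ (n / m) * ((-1) ^ (n - n / m) * (-1) ^ (n / m)) := by congr 1; rw [← pow_add]; congr 1; omega
      _ = _ := by
        rw [mul_left_comm, ← mul_pow]; simp
  have hinj : Set.InjOn φ (SF F n ζ : Set (ℕ → F[X])) := by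
    intro f hf g hg hfg
    rw [Finset.mem_coe] at hf hg
    obtain ⟨h1, h2, h3⟩ := hdat f hf
    obtain ⟨h1', h2', h3'⟩ := hdat g hg
    ext1 e
    ext i
    by_cases hi : m ∣ i
    · obtain ⟨j, rfl⟩ := hi
      have h4 := congrArg (fun p : F[X] => p.coeff j) (congrFun hfg e)
      simp only [hφ] at h4
      rw [coeff_contract hmpos.ne', coeff_contract hmpos.ne', mul_comm j m] at h4
      exact h4
    · have h4 : (f e).coeff i = 0 := by
        by_contra h; exact hi ((h3 e).2 i h)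
      have h5 : (g e).coeff i = 0 := by
        by_contra h; exact hi ((h3' e).2 i h)
      rw [h4, h5]
  refine le_trans (Nat.mul_le_mul_left _ ?_) (sum_wt_le (n / m) δ hδ0)
  calc ∑ f ∈ SF F n ζ, wt n f = ∑ f ∈ SF F n ζ, wt (n / m) (φ f) := by
        refine Finset.sum_congr rfl fun f hf => ?_
        unfold wt gc
        rw [hsupp f hf]
    _ = ∑ h ∈ (SF F n ζ).image φ, wt (n / m) h := (Finset.sum_image hinj).symm
    _ ≤ _ := by
        apply Finset.sum_le_sum_of_subset
        intro h hh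
        rw [mem_image] at hh
        obtain ⟨f, hf, rfl⟩ := hh
        rw [mem_filter, mem_TF]
        exact ⟨hmem f hf, hdt f hf⟩

end mat

end H46.TyScale
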