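import Mathlib
import Cfsg.Agent.Lib.H46.TyCount
import Cfsg.Agent.Lib.H46.StPoly
import Cfsg.Agent.Lib.H46.TyU
import Cfsg.Agent.Lib.H49.SemiInvol

/-! Counting self-dual polynomials and shifts. -/

set_option autoImplicit false

namespace H46.UCount

open Finset Polynomial H46.TyAlg H46.TyCount H46.StPoly H49.Unitary H49.SemiInvol H46.TyDet

open scoped Classical

variable {K : Type*} [Field K] [Finite K] {q : ℕ} (hK : Nat.card K = q ^ 2)

/-- self-dual polynomials of given degree -/
def SD (a : ℕ) : Set K[X] := {f | Good f ∧ f.natDegree = a ∧ st (frob hK) f = f}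

/-- self-dual polynomials of given degree and constant coefficient -/
def SDc (a : ℕ) (c : K) : Set K[X] := {f | Good f ∧ f.natDegree = a ∧ st (frob hK) f = f ∧ f.coeff 0 = c}

variable {hK}

theorem coeff_zero_norm {f : K[X]} (hf : Good f) (h : st (frob hK) f = f) : frob hK (f.coeff 0) * f.coeff 0 = 1 := by
  have h1 := st_coeff_zero (φ := frob hK) hf
  rw [h] at h1
  conv_lhs => rw [h1]
  rw [map_inv₀, frob_frob, ← h1]
  exact inv_mul_cancel₀ hf.2

theorem norm_iff {c : K} : frob hK c * c = 1 ↔ c ^ (q + 1) = 1 := by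
  rw [frob_apply, ← pow_succ]

theorem st_eq_iff {p : K[X]} {m : ℕ} {c : K} (hd : p.natDegree = m + 1) (hp : p.Monic) (h0 : p.coeff 0 = c) (hc : frob hK c * c = 1) :
    st (frob hK) p = p ↔ ∀ i : Fin m, (frob hK c)⁻¹ * frob hK (p.coeff ((Fin.rev i : ℕ) + 1)) = p.coeff ((i : ℕ) + 1) := by
  have hc0 : frob hK c ≠ 0 := left_ne_zero_of_mul (hc ▸ one_ne_zero)
  constructor
  · intro h i
    conv_rhs => rw [← h]
    rw [st_coeff, h0, hd, revAt_le (by omega)]
    have : m + 1 - ((i : ℕ) + 1) = (Fin.rev i : ℕ) + 1 := by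
      rw [Fin.val_rev]; omega
    rw [this]
  · intro h
    ext i
    rw [st_coeff, h0, hd]
    rcases Nat.eq_zero_or_pos i with rfl | hi
    · rw [revAt_le (Nat.zero_le _), Nat.sub_zero]
      have : p.coeff (m + 1) = 1 := by rw [← hd]; exact hp
      rw [this, map_one, mul_one, h0]
      exact inv_eq_of_mul_eq_one_right hc
    · rcases lt_trichotomy i (m + 1) with h1 | h1 | h1
      · rw [revAt_le h1.le]
        have h2 := h ⟨i - 1, by omega⟩
        have h3 : m + 1 - i = (Fin.rev (⟨i - 1, by omega⟩ : Fin m) : ℕ) + 1 := by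
          rw [Fin.val_rev]
          show m + 1 - i = m - (i - 1 + 1) + 1
          omega
        have h4 : i = ((⟨i - 1, by omega⟩ : Fin m) : ℕ) + 1 := by
          show i = i - 1 + 1
          omega
        rw [h3, h2, ← h4]
      · subst h1
        rw [revAt_le le_rfl, Nat.sub_self, h0, inv_mul_cancel₀ hc0]
        have : p.coeff (m + 1) = 1 := by rw [← hd]; exact hp
        rw [this]
      · have h2 : revAt (m + 1) i = i := revAt_eq_self_of_lt h1
        rw [h2, coeff_eq_zero_of_natDegree_lt (by omega), map_zero, mul_zero]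

variable (hK)

/-- the semilinear involution on middle coefficients -/
def sinv (m : ℕ) (c : K) : (Fin m → K) →+ (Fin m → K) where
  toFun a := fun i => (frob hK c)⁻¹ * frob hK (a (Fin.rev i))
  map_zero' := by funext i; simp
  map_add' a b := by funext i; simp [mul_add]

theorem sinv_apply (m : ℕ) (c : K) (a : Fin m → K) (i : Fin m) : sinv hK m c a i = (frob hK c)⁻¹ * frob hK (a (Fin.rev i)) := rfl

theorem card_fix_sinv (m : ℕ) {c : K} (hc : frob hK c * c = 1) : Nat.card (fix (sinv hK m c)) = q ^ m := by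
  have h1 := card_fix_sq hK (sinv hK m c) (fun b x => by
    funext i
    rw [sinv_apply, Pi.smul_apply, Pi.smul_apply, sinv_apply, smul_eq_mul, smul_eq_mul, map_mul]
    ring) (fun x => by
    funext i
    rw [sinv_apply, sinv_apply, Fin.rev_rev, map_mul, map_inv₀, frob_frob, frob_frob]
    have hc0 : frob hK c ≠ 0 := left_ne_zero_of_mul (hc ▸ one_ne_zero)
    have hc1 : c ≠ 0 := right_ne_zero_of_mul (hc ▸ one_ne_zero)
    rw [← mul_assoc, ← mul_inv, hc, inv_one, one_mul])
  rw [Nat.card_fun, Nat.card_fin, hK, ← pow_mul, mul_comm 2 m, pow_mul, sq] at h1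
  exact (Nat.mul_self_inj.mp h1).symm

theorem card_SDc (m : ℕ) {c : K} (hc : frob hK c * c = 1) : Nat.card (SDc hK (m + 1) c) = q ^ m := by
  rw [← card_fix_sinv hK m hc]
  have hc1 : c ≠ 0 := right_ne_zero_of_mul (hc ▸ one_ne_zero)
  apply Nat.card_congr
  refine Equiv.ofBijective (fun f => (⟨fun i => f.1.coeff ((i : ℕ) + 1), ?_⟩ : fix (sinv hK m c))) ⟨?_, ?_⟩
  · rw [mem_fix]
    funext i
    exact (st_eq_iff f.2.2.1 f.2.1.1 f.2.2.2.2 hc).mp f.2.2.2.1 i
  · rintro ⟨f, hf1, hf2, hf3, hf4⟩ ⟨g, hg1, hg2, hg3, hg4⟩ h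
    apply Subtype.ext
    have h1 := congrArg Subtype.val h
    ext i
    show f.coeff i = g.coeff i
    rcases Nat.eq_zero_or_pos i with rfl | hi
    · rw [hf4, hg4]
    · rcases lt_trichotomy i (m + 1) with h2 | h2 | h2
      · have h3 := congrFun h1 ⟨i - 1, by omega⟩
        have h4 : i - 1 + 1 = i := by omega
        simp only [h4] at h3
        exact h3
      · subst h2
        have e1 : f.coeff (m + 1) = 1 := by rw [← hf2]; exact hf1.1
        have e2 : g.coeff (m + 1) = 1 := by rw [← hg2]; exact hg1.1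
        rw [e1, e2]
      · rw [coeff_eq_zero_of_natDegree_lt (by omega), coeff_eq_zero_of_natDegree_lt (by omega)]
  · rintro ⟨a, ha⟩
    rw [mem_fix] at ha
    obtain ⟨p, hp⟩ := (monicEquiv (F := K) (m + 1)).surjective (Fin.cons c a)
    have hco : ∀ i : Fin (m + 1), p.1.coeff i = (Fin.cons c a : Fin (m + 1) → K) i := by
      intro i
      rw [← hp, monicEquiv_apply]
    have h0 : p.1.coeff 0 = c := by
      have := hco 0
      rwa [Fin.val_zero, Fin.cons_zero] at this
    have hs : ∀ i : Fin m, p.1.coeff ((i : ℕ) + 1) = a i := by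
      intro i
      have := hco i.succ
      rwa [Fin.val_succ, Fin.cons_succ] at this
    refine ⟨⟨p.1, ⟨p.2.1, by rw [h0]; exact hc1⟩, p.2.2, ?_, h0⟩, ?_⟩
    · rw [st_eq_iff p.2.2 p.2.1 h0 hc]
      intro i
      rw [hs, hs]
      exact congrFun ha i
    · apply Subtype.ext
      funext i
      exact hs i

/-- number of self-dual polynomials -/
def phu (q a : ℕ) : ℕ := if a = 0 then 1 else (q + 1) * q ^ (a - 1)

theorem finite_SD (a : ℕ) : (SD hK a).Finite := by
  have h1 : Finite (MP K a) := finite_MP a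
  apply Set.Finite.subset (Set.toFinite (MP K a))
  intro f hf
  exact ⟨hf.1.1, hf.1.2, hf.2.1⟩

theorem card_SD (a : ℕ) : Nat.card (SD hK a) ≤ phu q a := by
  unfold phu
  split_ifs with h
  · subst h
    have : SD hK 0 ⊆ {1} := by
      rintro f ⟨h1, h2, h3⟩
      exact (natDegree_eq_zero_iff h1.1).mp h2
    calc Nat.card (SD hK 0) ≤ Nat.card ({1} : Set K[X]) := Nat.card_mono (Set.finite_singleton _) this
      _ = 1 := by simp
  · obtain ⟨m, rfl⟩ : ∃ m, a = m + 1 := ⟨a - 1, by omega⟩
    rw [Nat.add_sub_cancel]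
    haveI : Fintype K := Fintype.ofFinite K
    -- the constant coefficients
    let T : Finset K := univ.filter (fun c => c ^ (q + 1) = 1)
    have hT : T.card ≤ q + 1 := by
      have h1 : T ⊆ (nthRoots (q + 1) (1 : K)).toFinset := by
        intro c hc
        rw [Multiset.mem_toFinset, mem_nthRoots (by omega)]
        exact (mem_filter.mp hc).2
      exact (Finset.card_le_card h1).trans ((Multiset.toFinset_card_le _).trans (card_nthRoots _ _))
    have hfin : (SD hK (m + 1)).Finite := finite_SD hK _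
    have h2 : hfin.toFinset.card = Nat.card (SD hK (m + 1)) := by
      rw [Nat.card_coe_set_eq, Set.ncard_eq_toFinset_card _ hfin]
    rw [← h2, Finset.card_eq_sum_card_fiberwise (f := fun f => f.coeff 0) (t := T)]
    · calc ∑ c ∈ T, (hfin.toFinset.filter (fun f => f.coeff 0 = c)).card ≤ ∑ c ∈ T, q ^ m := by
            refine Finset.sum_le_sum fun c hc => ?_
            have hc' : frob hK c * c = 1 := norm_iff.mpr (mem_filter.mp hc).2
            rw [← card_SDc hK m hc', Nat.card_coe_set_eq]
            rw [← Set.ncard_coe_finset]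
            apply Set.ncard_le_ncard
            · intro f hf
              rw [Finset.mem_coe, mem_filter, Set.Finite.mem_toFinset] at hf
              exact ⟨hf.1.1, hf.1.2.1, hf.1.2.2, hf.2⟩
            · exact hfin.subset (fun f hf => ⟨hf.1, hf.2.1, hf.2.2.1⟩)
        _ = T.card * q ^ m := by rw [Finset.sum_const, smul_eq_mul]
        _ ≤ (q + 1) * q ^ m := Nat.mul_le_mul_right _ hT
    · intro f hf
      rw [Finset.mem_coe, Set.Finite.mem_toFinset] at hf
      rw [Finset.mem_coe, mem_filter]
      exact ⟨mem_univ _, norm_iff.mp (coeff_zero_norm hf.1 hf.2.2)⟩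

end H46.UCount
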