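import Mathlib
import Cfsg.Agent.Lib.H46.UCount
import Cfsg.Agent.Lib.H46.TySU

/-! Weighted counts of self-dual types. -/

set_option autoImplicit false

namespace H46.UShift

open Finset Polynomial H46.TyAlg H46.TyCount H46.StPoly H49.Unitary H49.SemiInvol H46.TyDet H46.TyU H46.UCount

open scoped Classical

variable {K : Type*} [Field K] [Fintype K] {q : ℕ} (hK : Nat.card K = q ^ 2)

open H49.SUClasses (S mem_S)

include hK in
theorem exists_yy (c : S K q) : ∃ y : K, y ≠ 0 ∧ frob hK y = frob hK ((c : Kˣ) : K) * y := by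
  have h1 : (((c : Kˣ) : K)⁻¹) ^ (q + 1) = 1 := by
    have := (mem_S (c : Kˣ)).mp c.2
    rw [inv_pow, ← Units.val_pow_eq_pow_val, this, Units.val_one, inv_one]
  obtain ⟨d, hd0, hd⟩ := H49.SUSS.exists_frob_eq_mul hK h1
  refine ⟨d, hd0, ?_⟩
  rw [hd]
  congr 1
  have h2 : frob hK ((c : Kˣ) : K) * ((c : Kˣ) : K) = 1 := by
    rw [frob_apply, ← pow_succ]
    have := (mem_S (c : Kˣ)).mp c.2
    rw [← Units.val_pow_eq_pow_val, this, Units.val_one]
  exact (eq_inv_of_mul_eq_one_left h2).symm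

/-- the middle factor -/
noncomputable def yy (c : S K q) : K := (exists_yy hK c).choose

theorem yy_ne (c : S K q) : yy hK c ≠ 0 := (exists_yy hK c).choose_spec.1

theorem yy_spec (c : S K q) : frob hK (yy hK c) = frob hK ((c : Kˣ) : K) * yy hK c := (exists_yy hK c).choose_spec.2

theorem norm_S (c : S K q) : frob hK ((c : Kˣ) : K) * ((c : Kˣ) : K) = 1 := by
  rw [frob_apply, ← pow_succ]
  have := (mem_S (c : Kˣ)).mp c.2
  rw [← Units.val_pow_eq_pow_val, this, Units.val_one]

/-- shifting the constant coefficient of a self-dual polynomial -/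
noncomputable def sh1 (c : S K q) (f : K[X]) : K[X] :=
  if f = 1 then 1 else C (yy hK c) * f + C ((((c : Kˣ) : K) - yy hK c) * f.coeff 0) + C (1 - yy hK c) * X ^ f.natDegree

theorem sh1_one (c : S K q) : sh1 hK c (1 : K[X]) = 1 := if_pos rfl

theorem coeff_sh1 (c : S K q) {f : K[X]} (hf : f.Monic) (h : f ≠ 1) (i : ℕ) :
    (sh1 hK c f).coeff i = if i = 0 then ((c : Kˣ) : K) * f.coeff 0 else if i = f.natDegree then 1 else yy hK c * f.coeff i := by
  have hpos := pos_of_ne_one hf h
  unfold sh1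
  rw [if_neg h, coeff_add, coeff_add, coeff_C_mul, coeff_C, coeff_C_mul, coeff_X_pow]
  split_ifs with h1 h2 h3
  · omega
  · subst h1; ring
  · rw [h3]
    have : f.coeff f.natDegree = 1 := hf
    rw [this]; ring
  · ring

theorem sh1_data (c : S K q) {f : K[X]} (hf : Good f) (h : f ≠ 1) :
    (sh1 hK c f).Monic ∧ (sh1 hK c f).natDegree = f.natDegree ∧ (sh1 hK c f).coeff 0 = ((c : Kˣ) : K) * f.coeff 0 ∧ sh1 hK c f ≠ 1 := by
  have hpos := pos_of_ne_one hf.1 h
  have hco := coeff_sh1 hK c hf.1 h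
  have hle : (sh1 hK c f).natDegree ≤ f.natDegree := by
    rw [natDegree_le_iff_coeff_eq_zero]
    intro i hi
    rw [hco, if_neg (by omega), if_neg (by omega), coeff_eq_zero_of_natDegree_lt hi, mul_zero]
  have hld : (sh1 hK c f).coeff f.natDegree = 1 := by
    rw [hco, if_neg (by omega), if_pos rfl]
  have hnd : (sh1 hK c f).natDegree = f.natDegree := by
    apply le_antisymm hle
    apply le_natDegree_of_ne_zero
    rw [hld]; exact one_ne_zero
  refine ⟨?_, hnd, ?_, ?_⟩
  · unfold Monic leadingCoeff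
    rw [hnd, hld]
  · rw [hco, if_pos rfl]
  · intro h1
    rw [h1, natDegree_one] at hnd
    omega

theorem sh1_sd (c : S K q) {f : K[X]} (hf : Good f) (hst : st (frob hK) f = f) : Good (sh1 hK c f) ∧ st (frob hK) (sh1 hK c f) = sh1 hK c f := by
  by_cases h : f = 1
  · subst h; rw [sh1_one]; exact ⟨good_one, st_one⟩
  obtain ⟨h1, h2, h3, h4⟩ := sh1_data hK c hf h
  have hc0 : ((c : Kˣ) : K) ≠ 0 := Units.ne_zero _
  have hpos := pos_of_ne_one hf.1 h
  have hg : Good (sh1 hK c f) := ⟨h1, by rw [h3]; exact mul_ne_zero hc0 hf.2⟩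
  refine ⟨hg, ?_⟩
  have hco := coeff_sh1 hK c hf.1 h
  have hn1 := norm_S hK c
  have hn2 := coeff_zero_norm hf hst
  have hfc : frob hK ((c : Kˣ) : K) ≠ 0 := left_ne_zero_of_mul (hn1 ▸ one_ne_zero)
  have hff : frob hK (f.coeff 0) ≠ 0 := left_ne_zero_of_mul (hn2 ▸ one_ne_zero)
  ext i
  rw [st_coeff, h2, h3]
  rcases Nat.eq_zero_or_pos i with rfl | hi
  · rw [revAt_le (Nat.zero_le _), Nat.sub_zero, hco, if_neg (by omega), if_pos rfl, map_one, mul_one, hco, if_pos rfl]
    apply inv_eq_of_mul_eq_one_right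
    rw [map_mul]
    calc frob hK ((c : Kˣ) : K) * frob hK (f.coeff 0) * (((c : Kˣ) : K) * f.coeff 0)
        = (frob hK ((c : Kˣ) : K) * ((c : Kˣ) : K)) * (frob hK (f.coeff 0) * f.coeff 0) := by ring
      _ = 1 := by rw [hn1, hn2, one_mul]
  · rcases lt_trichotomy i f.natDegree with hlt | heq | hgt
    · rw [revAt_le hlt.le, hco, if_neg (by omega), if_neg (by omega), hco, if_neg (by omega), if_neg (by omega), map_mul, map_mul, yy_spec]
      have h5 := congrArg (fun g : K[X] => g.coeff i) hst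
      simp only [st_coeff] at h5
      rw [revAt_le hlt.le] at h5
      rw [← h5]
      field_simp
    · subst heq
      rw [revAt_le le_rfl, Nat.sub_self, hco, if_pos rfl, hco, if_neg (by omega), if_pos rfl]
      apply inv_mul_cancel₀
      rw [map_mul]
      exact mul_ne_zero hfc hff
    · rw [revAt_eq_self_of_lt hgt, hco, if_neg (by omega), if_neg (by omega), coeff_eq_zero_of_natDegree_lt hgt]
      simp

theorem sh1_injective (c : S K q) {f g : K[X]} (hf : Good f) (hg : Good g) (h : sh1 hK c f = sh1 hK c g) : f = g := by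
  by_cases hf1 : f = 1
  · by_contra hne
    have hg1 : g ≠ 1 := fun h1 => hne (hf1.trans h1.symm)
    have h2 := (sh1_data hK c hg hg1).2.2.2
    rw [← h, hf1, sh1_one] at h2
    exact h2 rfl
  · have hg1 : g ≠ 1 := by
      intro hg1
      have h2 := (sh1_data hK c hf hf1).2.2.2
      rw [h, hg1, sh1_one] at h2
      exact h2 rfl
    have h3 := (sh1_data hK c hf hf1).2.1
    have h4 := (sh1_data hK c hg hg1).2.1
    rw [h, h4] at h3
    ext i
    have h5 : (sh1 hK c f).coeff i = (sh1 hK c g).coeff i := by rw [h]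
    rw [coeff_sh1 hK c hf.1 hf1, coeff_sh1 hK c hg.1 hg1, h3] at h5
    split_ifs at h5 with h6 h7
    · subst h6
      exact mul_left_cancel₀ (Units.ne_zero _) h5
    · subst h7
      have e1 : g.coeff g.natDegree = 1 := hg.1
      have e2 : f.coeff g.natDegree = 1 := by rw [h3]; exact hf.1
      rw [← h3, e1, e2]
    · exact mul_left_cancel₀ (yy_ne hK c) h5

/-- the shift of a type -/
noncomputable def sh (n : ℕ) (c : S K q) (f : ℕ → K[X]) : ℕ → K[X] := fun e => sh1 hK (c ^ (bz (supp n f) e)) (f e)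

theorem sh_ne_one_iff {n : ℕ} {c : S K q} {f : ℕ → K[X]} (hf : f ∈ UT hK 1 n) (e : ℕ) : sh hK n c f e ≠ 1 ↔ f e ≠ 1 := by
  unfold sh
  constructor
  · intro h h1
    rw [h1, sh1_one] at h
    exact h rfl
  · intro h
    exact (sh1_data hK _ (hf.1.1 e) h).2.2.2

theorem supp_sh {n : ℕ} {c : S K q} {f : ℕ → K[X]} (hf : f ∈ UT hK 1 n) : supp n (sh hK n c f) = supp n f := by
  unfold supp
  apply Finset.filter_congr
  intro e _
  exact sh_ne_one_iff hK hf e

theorem sh_natDegree {n : ℕ} {c : S K q} {f : ℕ → K[X]} (hf : f ∈ UT hK 1 n) (e : ℕ) : (sh hK n c f e).natDegree = (f e).natDegree := by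
  by_cases h : f e = 1
  · unfold sh; rw [h, sh1_one]
  · exact (sh1_data hK _ (hf.1.1 e) h).2.1

theorem sh_mem {n : ℕ} {c : S K q} {f : ℕ → K[X]} (hf : f ∈ UT hK 1 n) : sh hK n c f ∈ UT hK 1 n := by
  refine ⟨⟨fun e => (sh1_sd hK _ (hf.1.1 e) (hf.2 e)).1, fun e he => ?_, ?_⟩, fun e => (sh1_sd hK _ (hf.1.1 e) (hf.2 e)).2⟩
  · unfold sh; rw [hf.1.2.1 e he, sh1_one]
  · conv_rhs => rw [← hf.1.2.2]
    refine Finset.sum_congr rfl fun e _ => ?_
    rw [sh_natDegree hK hf]

theorem sh_injective {n : ℕ} {c : S K q} {f g : ℕ → K[X]} (hf : f ∈ UT hK 1 n) (hg : g ∈ UT hK 1 n) (h : sh hK n c f = sh hK n c g) : f = g := by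
  have h1 : supp n f = supp n g := by rw [← supp_sh hK (c := c) hf, ← supp_sh hK (c := c) hg, h]
  funext e
  have h2 := congrFun h e
  unfold sh at h2
  rw [h1] at h2
  exact sh1_injective hK _ (hf.1.1 e) (hg.1.1 e) h2

theorem dt_sh {n : ℕ} {c : S K q} {f : ℕ → K[X]} (hf : f ∈ UT hK 1 n) : dt n (sh hK n c f) = (((c ^ (gc n f) : S K q) : Kˣ) : K) * dt n f := by
  have h1 : ∀ e ∈ range (n + 1), sc (sh hK n c f e) ^ e = (if e ∈ supp n f then (((c ^ (bz (supp n f) e * (e : ℤ)) : S K q) : Kˣ) : K) else 1) * sc (f e) ^ e := by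
    intro e _
    by_cases h : f e = 1
    · have h2 : e ∉ supp n f := by rw [mem_supp hf.1]; exact fun h3 => h3 h
      rw [if_neg h2, one_mul]
      unfold sh
      rw [h, sh1_one]
    · have h2 : e ∈ supp n f := by rw [mem_supp hf.1]; exact h
      obtain ⟨h3, h4, h5, h6⟩ := sh1_data hK (c ^ (bz (supp n f) e)) (hf.1.1 e) h
      rw [if_pos h2]
      unfold sh sc
      rw [h4, h5, zpow_mul, zpow_natCast, SubmonoidClass.coe_pow, Units.val_pow_eq_pow_val]
      ring
  unfold dt
  rw [Finset.prod_congr rfl h1, Finset.prod_mul_distrib]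
  congr 1
  rw [← Finset.prod_filter]
  have h2 : (range (n + 1)).filter (fun e => e ∈ supp n f) = supp n f := by
    ext e
    rw [mem_filter, mem_range]
    constructor
    · exact fun h => h.2
    · intro h
      exact ⟨mem_range.mp (Finset.mem_filter.mp h).1, h⟩
  rw [h2]
  have h3 := bz_spec (supp n f)
  have h4 : (c ^ (gc n f)) = ∏ e ∈ supp n f, c ^ (bz (supp n f) e * (e : ℤ)) := by
    unfold gc
    rw [← zpow_natCast, ← h3]
    generalize supp n f = s
    generalize bz s = b
    induction s using Finset.induction_on with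
    | empty => simp
    | insert a s ha ih => rw [Finset.sum_insert ha, Finset.prod_insert ha, zpow_add, ih]
  rw [h4]
  exact (map_prod ((Units.coeHom K).comp (S K q).subtype) (fun e => c ^ (bz (supp n f) e * (e : ℤ))) (supp n f)).symm

/-- fibres of power maps in a finite cyclic group -/
theorem card_pow_fiber_le {A : Type*} [CommGroup A] [IsCyclic A] [Fintype A] (g : ℕ) (y : A) :
    (univ.filter (fun c : A => c ^ g = y)).card ≤ Nat.gcd g (Nat.card A) := by
  by_cases hemp : ∃ c₀ : A, c₀ ^ g = y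
  · obtain ⟨c₀, hc₀⟩ := hemp
    have h2 := IsCyclic.card_powMonoidHom_ker (G := A) g
    rw [Nat.gcd_comm] at h2
    rw [← h2, Nat.card_eq_fintype_card, ← Finset.card_univ]
    apply Finset.card_le_card_of_injOn (fun c => if h : c ^ g = y then (⟨c * c₀⁻¹, by
      rw [MonoidHom.mem_ker, powMonoidHom_apply, mul_pow, h, inv_pow, hc₀, mul_inv_cancel]⟩ : (powMonoidHom g : A →* A).ker) else 1)
    · intro c _
      exact mem_univ _
    · intro a ha b hb hab
      rw [Finset.coe_filter, Set.mem_setOf_eq] at ha hb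
      simp only [ha.2, hb.2, dif_pos] at hab
      exact mul_right_cancel (congrArg Subtype.val hab)
  · rw [Finset.filter_eq_empty_iff.mpr]
    · simp
    · intro c _ hc
      exact hemp ⟨c, hc⟩

/-- self-dual types as a finset -/
noncomputable def UF (n : ℕ) : Finset (ℕ → K[X]) := (TF K n).filter (fun f => ∀ e, st (frob hK) (f e) = f e)

theorem mem_UF {n : ℕ} {f : ℕ → K[X]} : f ∈ UF hK n ↔ f ∈ UT hK 1 n := by
  unfold UF
  rw [mem_filter, mem_TF]
  rfl

/-- number of self-dual types -/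
noncomputable def KU (r n : ℕ) : ℕ := Nat.card (UT hK r n)

theorem card_UF (n : ℕ) : (UF hK n).card = KU hK 1 n := by
  unfold KU
  rw [Nat.card_coe_set_eq, ← Set.ncard_coe_finset]
  congr 1
  ext f
  rw [Finset.mem_coe, mem_UF]

/-- types with given determinant -/
theorem sum_wt_le (hK' : Fintype.card K = q ^ 2) (n : ℕ) :
    (q + 1) * ∑ f ∈ (UF hK n).filter (fun f => dt n f = 1), Nat.gcd (gc n f) (q + 1) ≤ ∑ f ∈ UF hK n, Nat.gcd (gc n f) (q + 1) ^ 2 := by
  haveI : Fintype (S K q) := Fintype.ofFinite _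
  have hcard : (univ : Finset (S K q)).card = q + 1 := by
    rw [Finset.card_univ, ← Nat.card_eq_fintype_card, H49.SUClasses.card_S hK']
  set A := (UF hK n).filter (fun f => dt n f = 1) with hA
  have h1 : (q + 1) * ∑ f ∈ A, Nat.gcd (gc n f) (q + 1) = ∑ p ∈ A ×ˢ (univ : Finset (S K q)), Nat.gcd (gc n p.1) (q + 1) := by
    rw [Finset.sum_product, Finset.mul_sum]
    refine Finset.sum_congr rfl fun f _ => ?_
    simp only
    rw [Finset.sum_const, hcard, smul_eq_mul]
  have hmaps : ∀ p ∈ A ×ˢ (univ : Finset (S K q)), sh hK n p.2 p.1 ∈ UF hK n := by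
    intro p hp
    rw [Finset.mem_product] at hp
    rw [mem_UF]
    exact sh_mem hK ((mem_UF hK).mp (Finset.mem_filter.mp hp.1).1)
  rw [h1, ← Finset.sum_fiberwise_of_maps_to hmaps]
  refine Finset.sum_le_sum fun f' hf' => ?_
  have h2 : ∀ p ∈ (A ×ˢ (univ : Finset (S K q))).filter (fun p => sh hK n p.2 p.1 = f'), Nat.gcd (gc n p.1) (q + 1) = Nat.gcd (gc n f') (q + 1) := by
    intro p hp
    rw [Finset.mem_filter, Finset.mem_product] at hp
    have hpT := (mem_UF hK).mp (Finset.mem_filter.mp hp.1.1).1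
    unfold gc
    rw [← hp.2, supp_sh hK hpT]
  rw [Finset.sum_congr rfl h2, Finset.sum_const, smul_eq_mul, sq]
  refine Nat.mul_le_mul_right _ ?_
  -- the fibre
  by_cases hemp : ((A ×ˢ (univ : Finset (S K q))).filter (fun p => sh hK n p.2 p.1 = f')) = ∅
  · rw [hemp, Finset.card_empty]; exact Nat.zero_le _
  obtain ⟨p₀, hp₀⟩ := Finset.nonempty_iff_ne_empty.mpr hemp
  rw [Finset.mem_filter, Finset.mem_product] at hp₀
  have hpT₀ := (mem_UF hK).mp (Finset.mem_filter.mp hp₀.1.1).1
  have h3 : ((A ×ˢ (univ : Finset (S K q))).filter (fun p => sh hK n p.2 p.1 = f')).card ≤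
      (univ.filter (fun c : S K q => c ^ (gc n f') = p₀.2 ^ (gc n f'))).card := by
    apply Finset.card_le_card_of_injOn (fun p => p.2)
    · intro p hp
      rw [Finset.coe_filter, Set.mem_setOf_eq, Finset.mem_product] at hp
      rw [Finset.coe_filter, Set.mem_setOf_eq]
      refine ⟨Finset.mem_univ _, ?_⟩
      have hpT := (mem_UF hK).mp (Finset.mem_filter.mp hp.1.1).1
      have h4 := dt_sh hK (c := p.2) hpT
      have h4' := dt_sh hK (c := p₀.2) hpT₀
      rw [hp.2, (Finset.mem_filter.mp hp.1.1).2, mul_one] at h4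
      rw [hp₀.2, (Finset.mem_filter.mp hp₀.1.1).2, mul_one] at h4'
      have h5 : gc n f' = gc n p.1 := by
        unfold gc
        rw [← hp.2, supp_sh hK hpT]
      have h5' : gc n f' = gc n p₀.1 := by
        unfold gc
        rw [← hp₀.2, supp_sh hK hpT₀]
      rw [← h5] at h4
      rw [← h5'] at h4'
      apply Subtype.ext
      apply Units.ext
      rw [← h4, ← h4']
    · intro p hp p' hp' hpp
      rw [Finset.coe_filter, Set.mem_setOf_eq, Finset.mem_product] at hp hp'
      have hpT := (mem_UF hK).mp (Finset.mem_filter.mp hp.1.1).1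
      have hpT' := (mem_UF hK).mp (Finset.mem_filter.mp hp'.1.1).1
      simp only at hpp
      refine Prod.ext (sh_injective hK (c := p.2) hpT hpT' ?_) hpp
      rw [hp.2]
      conv_rhs => rw [hpp]
      exact hp'.2.symm
  refine h3.trans ?_
  have h6 := card_pow_fiber_le (A := S K q) (gc n f') (p₀.2 ^ (gc n f'))
  rw [H49.SUClasses.card_S hK'] at h6
  refine le_trans (le_of_eq ?_) h6
  congr 1
  ext c
  simp only [mem_filter]

end H46.UShift
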