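import Mathlib
import Cfsg.Agent.Lib.H46.UShift

/-! Weighted counts of self-dual types: reduction to unweighted ones, recursion. -/

set_option autoImplicit false

namespace H46.UWeight

open Finset Polynomial H46.TyAlg H46.TyCount H46.StPoly H49.Unitary H46.TyDet H46.TyU H46.UCount H46.UShift

open scoped Classical

variable {K : Type*} [Field K] [Fintype K] {q : ℕ} (hK : Nat.card K = q ^ 2)

/-- dilating a type -/
theorem dil_mem {F : Type*} [Field F] {n d : ℕ} (hd : 0 < d) {f : ℕ → F[X]} (hf : f ∈ TT F 1 n) (hone : ∀ e, ¬ d ∣ e → f e = 1) (hdn : d ∣ n) :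
    (fun e => f (d * e)) ∈ TT F 1 (n / d) := by
  obtain ⟨h1, h2, h3⟩ := hf
  apply mem_TT_of_le (N := n)
  · intro e; exact h1 _
  · intro e he
    have : e = 0 := by omega
    subst this
    exact h2 _ (Or.inl (by omega))
  · intro e he
    apply h2 _ (Or.inr _)
    calc n < e := he
      _ ≤ d * e := Nat.le_mul_of_pos_left _ hd
  · have h5 : d * ∑ e ∈ range (n + 1), e * (f (d * e)).natDegree = n := by
      rw [Finset.mul_sum]
      have h6 : ∑ x ∈ range (d * n + 1), x * (f x).natDegree = n := by
        rw [sum_range_of_le (fun e he => h2 e (Or.inr he)) (Nat.le_mul_of_pos_left _ hd)]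
        exact h3
      conv_rhs => rw [← h6]
      have h7 : ∑ e ∈ range (n + 1), d * (e * (f (d * e)).natDegree) = ∑ x ∈ (range (n + 1)).image (fun e => d * e), x * (f x).natDegree := by
        rw [Finset.sum_image]
        · refine Finset.sum_congr rfl fun e _ => ?_
          rw [mul_assoc]
        · intro a _ b _ hab
          exact Nat.eq_of_mul_eq_mul_left hd hab
      rw [h7]
      apply Finset.sum_subset
      · intro x hx
        rw [mem_image] at hx
        obtain ⟨e, he, rfl⟩ := hx
        rw [mem_range] at he ⊢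
        have : d * e ≤ d * n := Nat.mul_le_mul_left d (by omega)
        omega
      · intro x hx hx2
        by_cases hdx : d ∣ x
        · exfalso
          obtain ⟨e, rfl⟩ := hdx
          apply hx2
          rw [mem_image]
          refine ⟨e, ?_, rfl⟩
          rw [mem_range] at hx ⊢
          have h8 : d * e ≤ d * n := by omega
          have := Nat.le_of_mul_le_mul_left h8 hd
          omega
        · rw [hone x hdx, natDegree_one, mul_zero]
    rw [Nat.eq_div_iff_mul_eq_left (by omega) hdn, mul_comm]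
    exact h5.symm

theorem card_dvd_le (n d : ℕ) (hd : 0 < d) : ((UF hK n).filter (fun f => d ∣ gc n f)).card ≤ KU hK 1 (n / d) := by
  rw [← card_UF]
  have hone : ∀ f ∈ (UF hK n).filter (fun f => d ∣ gc n f), ∀ e, ¬ d ∣ e → f e = 1 := by
    intro f hf e he
    rw [mem_filter, mem_UF] at hf
    by_contra h
    exact he (hf.2.trans (Finset.gcd_dvd (f := id) ((mem_supp hf.1.1 e).mpr h)))
  apply Finset.card_le_card_of_injOn (fun f e => f (d * e))
  · intro f hf
    have hone' := hone f hf
    rw [Finset.mem_coe, mem_filter, mem_UF] at hf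
    rw [Finset.mem_coe, mem_UF]
    exact ⟨dil_mem hd hf.1.1 hone' (hf.2.trans (gc_dvd hf.1.1)), fun e => hf.1.2 _⟩
  · intro f hf g hg hfg
    ext1 e
    by_cases hde : d ∣ e
    · obtain ⟨e', rfl⟩ := hde
      exact congrFun hfg e'
    · rw [hone f hf e hde, hone g hg e hde]

/-- bound for the weighted number of types -/
theorem WU_le (n : ℕ) (hn : 0 < n) :
    ∑ f ∈ UF hK n, Nat.gcd (gc n f) (q + 1) ^ 2 ≤ KU hK 1 n + ∑ d ∈ range (n + 1), if 2 ≤ d ∧ d ∣ n ∧ d ∣ q + 1 then (d ^ 2 - 1) * KU hK 1 (n / d) else 0 := by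
  have h1 : ∀ f ∈ UF hK n, Nat.gcd (gc n f) (q + 1) ^ 2 ≤ 1 + ∑ d ∈ range (n + 1), if 2 ≤ d ∧ d ∣ n ∧ d ∣ q + 1 then (if d ∣ gc n f then d ^ 2 - 1 else 0) else 0 := by
    intro f hf
    rw [mem_UF] at hf
    have hg := gc_dvd hf.1
    obtain ⟨w, hw⟩ : ∃ w, w = Nat.gcd (gc n f) (q + 1) := ⟨_, rfl⟩
    have hw1 : w ∣ gc n f := hw ▸ Nat.gcd_dvd_left _ _
    have hw2 : w ∣ q + 1 := hw ▸ Nat.gcd_dvd_right _ _
    rw [← hw]
    have hw3 : w ∣ n := hw1.trans hg
    have hwpos : 0 < w := hw ▸ Nat.gcd_pos_of_pos_right _ (by omega)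
    by_cases h2 : 2 ≤ w
    · have h3 : w ∈ range (n + 1) := mem_range.mpr (Nat.lt_succ_of_le (Nat.le_of_dvd hn hw3))
      have h4 : w ^ 2 - 1 ≤ ∑ d ∈ range (n + 1), if 2 ≤ d ∧ d ∣ n ∧ d ∣ q + 1 then (if d ∣ gc n f then d ^ 2 - 1 else 0) else 0 := by
        refine le_trans ?_ (Finset.single_le_sum (f := fun d => if 2 ≤ d ∧ d ∣ n ∧ d ∣ q + 1 then (if d ∣ gc n f then d ^ 2 - 1 else 0) else 0)
          (fun _ _ => Nat.zero_le _) h3)
        rw [if_pos ⟨h2, hw3, hw2⟩, if_pos hw1]
      omega
    · have h5 : w = 1 := by omega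
      rw [h5]
      omega
  calc ∑ f ∈ UF hK n, Nat.gcd (gc n f) (q + 1) ^ 2 ≤ ∑ f ∈ UF hK n, (1 + ∑ d ∈ range (n + 1), if 2 ≤ d ∧ d ∣ n ∧ d ∣ q + 1 then (if d ∣ gc n f then d ^ 2 - 1 else 0) else 0) :=
        Finset.sum_le_sum h1
    _ = KU hK 1 n + ∑ d ∈ range (n + 1), ∑ f ∈ UF hK n, (if 2 ≤ d ∧ d ∣ n ∧ d ∣ q + 1 then (if d ∣ gc n f then d ^ 2 - 1 else 0) else 0) := by
        rw [Finset.sum_add_distrib, Finset.sum_const, card_UF, smul_eq_mul, mul_one, Finset.sum_comm]
    _ ≤ _ := by
        refine Nat.add_le_add_left (Finset.sum_le_sum fun d _ => ?_) _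
        split_ifs with h
        · rw [← Finset.sum_filter, Finset.sum_const, smul_eq_mul, mul_comm]
          exact Nat.mul_le_mul_left _ (card_dvd_le hK n d (by omega))
        · simp

theorem finite_UT {r n : ℕ} (hr : 1 ≤ r) : (UT hK r n).Finite := by
  have h1 : Finite (TT K r n) := finite_TT' hr
  exact (Set.toFinite (TT K r n)).subset (fun f hf => hf.1)

theorem KU_zero {r : ℕ} (hr : 1 ≤ r) : KU hK r 0 ≤ 1 := by
  unfold KU
  have h1 : UT hK r 0 ⊆ {fun _ => 1} := by
    intro f hf
    have := hf.1
    rw [TT_zero hr] at this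
    exact this
  calc Nat.card (UT hK r 0) ≤ Nat.card ({fun _ => 1} : Set (ℕ → K[X])) := Nat.card_mono (Set.finite_singleton _) h1
    _ = 1 := by simp

theorem KU_eq_zero {r n : ℕ} (h0 : 0 < n) (h : n < r) : KU hK r n = 0 := by
  unfold KU
  have h1 : UT hK r n = ∅ := by
    ext f
    simp only [Set.mem_empty_iff_false, iff_false]
    intro hf
    have := hf.1
    rw [TT_empty h0 h] at this
    exact this
  rw [h1]
  simp

theorem KU_rec (r n : ℕ) (hr : 1 ≤ r) :
    KU hK r n ≤ ∑ a ∈ range (n + 1), if r * a ≤ n then phu q a * KU hK (r + 1) (n - r * a) else 0 := by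
  have hfin := finite_UT hK (r := r) (n := n) hr
  have h2 : hfin.toFinset.card = KU hK r n := by
    unfold KU
    rw [Nat.card_coe_set_eq, Set.ncard_eq_toFinset_card _ hfin]
  have hdeg : ∀ f ∈ UT hK r n, r * (f r).natDegree ≤ n := by
    intro f hf
    by_cases hrn : r ≤ n
    · conv_rhs => rw [← hf.1.2.2]
      exact Finset.single_le_sum (f := fun e => e * (f e).natDegree) (fun _ _ => Nat.zero_le _) (mem_range.mpr (by omega))
    · rw [hf.1.2.1 r (Or.inr (by omega)), natDegree_one, mul_zero]; omega
  rw [← h2, Finset.card_eq_sum_card_fiberwise (f := fun f => (f r).natDegree) (t := range (n + 1))]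
  · refine Finset.sum_le_sum fun a _ => ?_
    split_ifs with ha
    · have hfin1 := finite_SD hK a
      have hfin2 := finite_UT hK (r := r + 1) (n := n - r * a) (by omega)
      have e1 : hfin1.toFinset.card ≤ phu q a := by
        rw [← Set.ncard_eq_toFinset_card _ hfin1, ← Nat.card_coe_set_eq]
        exact card_SD hK a
      have e2 : hfin2.toFinset.card = KU hK (r + 1) (n - r * a) := by
        unfold KU
        rw [Nat.card_coe_set_eq, Set.ncard_eq_toFinset_card _ hfin2]
      rw [← e2]
      refine le_trans ?_ (Nat.mul_le_mul_right _ e1)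
      rw [← Finset.card_product]
      apply Finset.card_le_card_of_injOn (fun f => (f r, Function.update f r 1))
      · intro f hf
        rw [Finset.mem_coe, mem_filter, Set.Finite.mem_toFinset] at hf
        obtain ⟨⟨hf1, hf2⟩, hf3⟩ := hf
        rw [Finset.mem_coe, mem_product, Set.Finite.mem_toFinset, Set.Finite.mem_toFinset]
        refine ⟨⟨hf1.1 r, hf3, hf2 r⟩, ?_, ?_⟩
        · have hf3 : (f r).natDegree = a := hf3
          have h6 := (splitEquiv (F := K) (r := r) (n := n) (w := n - r * a) hr (by omega) (by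
            have : n - (n - r * a) = r * a := by omega
            rw [this]; exact dvd_mul_right r a) ⟨⟨f, hf1⟩, by
              show r * (f r).natDegree + (n - r * a) = n
              rw [hf3]; omega⟩).2.2
          exact h6
        · intro e
          show st (frob hK) (Function.update f r 1 e) = Function.update f r 1 e
          by_cases he : e = r
          · subst he; rw [Function.update_self]; exact st_one
          · rw [Function.update_of_ne he]; exact hf2 e
      · intro f _ g _ hfg
        have h5 : f r = g r := (Prod.ext_iff.mp hfg).1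
        have h6 : Function.update f r 1 = Function.update g r 1 := (Prod.ext_iff.mp hfg).2
        funext e
        by_cases he : e = r
        · subst he; exact h5
        · have := congrFun h6 e
          rwa [Function.update_of_ne he, Function.update_of_ne he] at this
    · rw [Finset.card_eq_zero.mpr]
      rw [Finset.filter_eq_empty_iff]
      intro f hf hfa
      rw [Set.Finite.mem_toFinset] at hf
      have := hdeg f hf
      rw [hfa] at this
      exact ha this
  · intro f hf
    rw [Finset.mem_coe, Set.Finite.mem_toFinset] at hf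
    rw [Finset.mem_coe, mem_range]
    have h3 := hdeg f hf
    have h4 : (f r).natDegree ≤ r * (f r).natDegree := Nat.le_mul_of_pos_left _ (by omega)
    show (f r).natDegree < n + 1
    omega

theorem KU_one : KU hK 1 1 ≤ q + 1 := by
  have h := KU_rec hK 1 1 le_rfl
  rw [Finset.sum_range_succ, Finset.sum_range_one] at h
  simp only [mul_zero, Nat.zero_le, if_true, Nat.sub_zero, mul_one, le_refl, Nat.sub_self] at h
  have h0 := KU_zero hK (r := 2) (by norm_num)
  have h1 := KU_eq_zero hK (r := 2) (n := 1) (by norm_num) (by norm_num)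
  rw [h1, mul_zero, zero_add] at h
  refine h.trans ?_
  have : phu q 1 = q + 1 := by unfold phu; simp
  rw [this]
  calc (q + 1) * KU hK 2 0 ≤ (q + 1) * 1 := Nat.mul_le_mul_left _ h0
    _ = q + 1 := mul_one _

theorem KU_two : KU hK 1 2 ≤ (q + 1) ^ 2 := by
  have h := KU_rec hK 1 2 le_rfl
  have h22 := KU_rec hK 2 2 (by norm_num)
  have e30 := KU_zero hK (r := 3) (by norm_num)
  have e32 := KU_eq_zero hK (r := 3) (n := 2) (by norm_num) (by norm_num)
  have e20 := KU_zero hK (r := 2) (by norm_num)
  have e21 := KU_eq_zero hK (r := 2) (n := 1) (by norm_num) (by norm_num)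
  have p0 : phu q 0 = 1 := by unfold phu; simp
  have p1 : phu q 1 = q + 1 := by unfold phu; simp
  have p2 : phu q 2 = (q + 1) * q := by unfold phu; simp
  rw [Finset.sum_range_succ, Finset.sum_range_succ, Finset.sum_range_one] at h h22
  norm_num at h h22
  rw [e21, mul_zero, add_zero, p0, one_mul, p2] at h
  rw [e32, mul_zero, zero_add, p1] at h22
  nlinarith

end H46.UWeight
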