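import Mathlib
import Cfsg.Agent.Lib.H46.UWeight

/-! Numerical bounds for the numbers of self-dual types. -/

set_option autoImplicit false

namespace H46.UBound

open Finset H46.UCount

section abs
variable (q : ℕ) (k : ℕ → ℕ → ℕ)

/-- weighted partial sums -/
noncomputable def SS (r N : ℕ) : ℝ := ∑ w ∈ range (N + 1), (k r w : ℝ) * ((q : ℝ)⁻¹) ^ w

variable {q k} (hq : 2 ≤ q) (h0 : ∀ r, 1 ≤ r → k r 0 ≤ 1) (hz : ∀ r n, 0 < n → n < r → k r n = 0)
  (hrec : ∀ r n, 1 ≤ r → k r n ≤ ∑ a ∈ range (n + 1), if r * a ≤ n then phu q a * k (r + 1) (n - r * a) else 0)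

include hq in
theorem y_pos : 0 < (q : ℝ)⁻¹ := by positivity

include hq in
theorem y_le : (q : ℝ)⁻¹ ≤ 1 / 2 := by
  rw [one_div]
  exact inv_anti₀ (by norm_num) (by exact_mod_cast hq)

include hq in
theorem q_mul_y : (q : ℝ) * (q : ℝ)⁻¹ = 1 := mul_inv_cancel₀ (by positivity)

include hq h0 hz in
theorem SS_small {r N : ℕ} (hr : 1 ≤ r) (h : N < r) : SS q k r N ≤ 1 := by
  unfold SS
  rw [Finset.sum_eq_single 0]
  · rw [pow_zero, mul_one]
    exact_mod_cast h0 r hr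
  · intro w hw hw0
    rw [mem_range] at hw
    rw [hz r w (by omega) (by omega)]
    simp
  · intro h
    exact absurd (mem_range.mpr (by omega)) h

theorem SS_nonneg (r N : ℕ) : 0 ≤ SS q k r N := by
  unfold SS
  apply Finset.sum_nonneg
  intro w _
  positivity

include hq in
theorem phu_le {r : ℕ} (hr : 2 ≤ r) (N : ℕ) :
    ∑ a ∈ range (N + 1), (phu q a : ℝ) * ((q : ℝ)⁻¹) ^ (r * a) ≤ (1 + (q : ℝ)⁻¹ * ((q : ℝ)⁻¹) ^ (r - 1)) / (1 - ((q : ℝ)⁻¹) ^ (r - 1)) := by
  have hy := y_pos hq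
  have hy2 := y_le hq
  set y := (q : ℝ)⁻¹ with hydef
  set x := y ^ (r - 1) with hx
  have hx0 : 0 ≤ x := by positivity
  have hx1 : x ≤ 1 / 2 := by
    calc x ≤ y ^ 1 := pow_le_pow_of_le_one hy.le (by linarith) (by omega)
      _ ≤ 1 / 2 := by rw [pow_one]; exact hy2
  have hterm : ∀ a, 1 ≤ a → (phu q a : ℝ) * y ^ (r * a) = (1 + y) * x ^ a := by
    intro a ha
    obtain ⟨b, rfl⟩ : ∃ b, a = b + 1 := ⟨a - 1, by omega⟩
    unfold phu
    rw [if_neg (by omega), Nat.add_sub_cancel]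
    push_cast
    have hqy := q_mul_y hq
    obtain ⟨s, rfl⟩ : ∃ s, r = s + 1 := ⟨r - 1, by omega⟩
    rw [hx, Nat.add_sub_cancel]
    have e1 : y ^ ((s + 1) * (b + 1)) = (y ^ s) ^ (b + 1) * y ^ b * y := by
      rw [← pow_mul, ← pow_add, ← pow_succ]; congr 1; ring
    rw [e1]
    calc ((q : ℝ) + 1) * (q : ℝ) ^ b * ((y ^ s) ^ (b + 1) * y ^ b * y)
        = ((q : ℝ) * y + y) * ((q : ℝ) * y) ^ b * (y ^ s) ^ (b + 1) := by rw [mul_pow]; ring
      _ = (1 + y) * (y ^ s) ^ (b + 1) := by rw [hqy, one_pow]; ring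
  rw [Finset.sum_range_succ']
  have h1 : (phu q 0 : ℝ) * y ^ (r * 0) = 1 := by unfold phu; simp
  rw [h1]
  have h2 : ∑ a ∈ range N, (phu q (a + 1) : ℝ) * y ^ (r * (a + 1)) = (1 + y) * x * ∑ a ∈ range N, x ^ a := by
    rw [Finset.mul_sum]
    refine Finset.sum_congr rfl fun a _ => ?_
    rw [hterm _ (by omega), pow_succ]; ring
  rw [h2]
  have h3 : ∑ a ∈ range N, x ^ a ≤ 1 / (1 - x) := by
    rw [le_div_iff₀ (by linarith)]
    have := geom_sum_mul_neg x N
    rw [this]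
    have : 0 ≤ x ^ N := by positivity
    linarith
  have h4 : (1 + y) * x * ∑ a ∈ range N, x ^ a ≤ (1 + y) * x * (1 / (1 - x)) :=
    mul_le_mul_of_nonneg_left h3 (by positivity)
  have h5 : (1 + y * x) / (1 - x) = (1 + y) * x * (1 / (1 - x)) + 1 := by
    have : (1 - x) ≠ 0 := by linarith
    field_simp
    ring
  rw [h5]
  linarith

include hrec in
theorem SS_rec {r : ℕ} (hr : 1 ≤ r) (hq0 : 0 < q) (N : ℕ) :
    SS q k r N ≤ (∑ a ∈ range (N + 1), (phu q a : ℝ) * ((q : ℝ)⁻¹) ^ (r * a)) * SS q k (r + 1) N := by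
  have hy : 0 < (q : ℝ)⁻¹ := by positivity
  set y := (q : ℝ)⁻¹ with hydef
  -- bound each term
  have h1 : ∀ w ∈ range (N + 1), (k r w : ℝ) * y ^ w ≤ ∑ a ∈ range (N + 1), if r * a ≤ w then (phu q a : ℝ) * y ^ (r * a) * ((k (r + 1) (w - r * a) : ℝ) * y ^ (w - r * a)) else 0 := by
    intro w hw
    rw [mem_range] at hw
    have h2 : (k r w : ℝ) ≤ ∑ a ∈ range (w + 1), if r * a ≤ w then (phu q a : ℝ) * (k (r + 1) (w - r * a) : ℝ) else 0 := by
      have := hrec r w hr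
      have h3 : (k r w : ℝ) ≤ ((∑ a ∈ range (w + 1), if r * a ≤ w then phu q a * k (r + 1) (w - r * a) else 0 : ℕ) : ℝ) := by exact_mod_cast this
      refine h3.trans (le_of_eq ?_)
      push_cast
      refine Finset.sum_congr rfl fun a _ => ?_
      split_ifs <;> simp
    calc (k r w : ℝ) * y ^ w ≤ (∑ a ∈ range (w + 1), if r * a ≤ w then (phu q a : ℝ) * (k (r + 1) (w - r * a) : ℝ) else 0) * y ^ w :=
          mul_le_mul_of_nonneg_right h2 (by positivity)
      _ = ∑ a ∈ range (w + 1), if r * a ≤ w then (phu q a : ℝ) * y ^ (r * a) * ((k (r + 1) (w - r * a) : ℝ) * y ^ (w - r * a)) else 0 := by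
          rw [Finset.sum_mul]
          refine Finset.sum_congr rfl fun a _ => ?_
          split_ifs with h
          · have : y ^ w = y ^ (r * a) * y ^ (w - r * a) := by rw [← pow_add]; congr 1; omega
            rw [this]; ring
          · rw [zero_mul]
      _ ≤ _ := by
          apply Finset.sum_le_sum_of_subset_of_nonneg
          · intro a ha
            rw [mem_range] at ha ⊢
            omega
          · intro a _ _
            split_ifs
            · positivity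
            · exact le_rfl
  unfold SS
  refine (Finset.sum_le_sum h1).trans ?_
  rw [Finset.sum_comm, Finset.sum_mul]
  refine Finset.sum_le_sum fun a _ => ?_
  have h2 : ∑ w ∈ range (N + 1), (if r * a ≤ w then (phu q a : ℝ) * y ^ (r * a) * ((k (r + 1) (w - r * a) : ℝ) * y ^ (w - r * a)) else 0)
      = (phu q a : ℝ) * y ^ (r * a) * ∑ w ∈ range (N + 1), (if r * a ≤ w then ((k (r + 1) (w - r * a) : ℝ) * y ^ (w - r * a)) else 0) := by
    rw [Finset.mul_sum]
    refine Finset.sum_congr rfl fun w _ => ?_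
    split_ifs
    · rfl
    · rw [mul_zero]
  rw [h2]
  apply mul_le_mul_of_nonneg_left _ (by positivity)
  rw [← Finset.sum_filter]
  have h3 : ∑ w ∈ (range (N + 1)).filter (fun w => r * a ≤ w), ((k (r + 1) (w - r * a) : ℝ) * y ^ (w - r * a)) =
      ∑ w ∈ ((range (N + 1)).filter (fun w => r * a ≤ w)).image (fun w => w - r * a), ((k (r + 1) w : ℝ) * y ^ w) := by
    rw [Finset.sum_image]
    intro a1 h1 a2 h2 h12
    rw [Finset.mem_coe, mem_filter] at h1 h2
    simp only at h12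
    omega
  rw [h3]
  apply Finset.sum_le_sum_of_subset_of_nonneg
  · intro w hw
    rw [mem_image] at hw
    obtain ⟨w', hw', rfl⟩ := hw
    rw [mem_filter, mem_range] at hw'
    rw [mem_range]
    omega
  · intro w _ _
    positivity

include hq h0 hz hrec in
theorem SS_tail (N : ℕ) : ∀ (t r : ℕ), 4 ≤ r → N < r + t → SS q k r N ≤ 1 / (1 - 3 * ((q : ℝ)⁻¹) ^ (r - 1)) := by
  intro t
  have hy := y_pos hq
  have hy2 := y_le hq
  have hpow : ∀ r, 4 ≤ r → ((q : ℝ)⁻¹) ^ (r - 1) ≤ 1 / 8 := by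
    intro r hr
    calc ((q : ℝ)⁻¹) ^ (r - 1) ≤ ((q : ℝ)⁻¹) ^ 3 := pow_le_pow_of_le_one hy.le (by linarith) (by omega)
      _ ≤ (1 / 2) ^ 3 := pow_le_pow_left₀ hy.le hy2 3
      _ = 1 / 8 := by norm_num
  induction t with
  | zero =>
    intro r hr hN
    refine (SS_small hq h0 hz (by omega) (by omega)).trans ?_
    have h1 := hpow r hr
    have h2 : 0 ≤ ((q : ℝ)⁻¹) ^ (r - 1) := by positivity
    rw [le_div_iff₀ (by linarith)]
    linarith
  | succ t ih =>
    intro r hr hN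
    have h1 := ih (r + 1) (by omega) (by omega)
    have h2 := SS_rec hrec (by omega : 1 ≤ r) (by omega) N
    have h3 := phu_le hq (by omega : 2 ≤ r) N
    have h4 := hpow r hr
    set y := (q : ℝ)⁻¹ with hydef
    have e1 : y ^ (r + 1 - 1) = y * y ^ (r - 1) := by
      rw [← pow_succ']; congr 1; omega
    rw [e1] at h1
    set x := y ^ (r - 1) with hx
    have hx0 : 0 ≤ x := by positivity
    have hyx : y * x ≤ 1 / 16 := by nlinarith
    have hyx0 : 0 ≤ y * x := by positivity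
    calc SS q k r N ≤ _ := h2
      _ ≤ ((1 + y * x) / (1 - x)) * (1 / (1 - 3 * (y * x))) := by
          apply mul_le_mul h3 h1 (SS_nonneg _ _)
          apply div_nonneg (by linarith) (by linarith)
      _ ≤ 1 / (1 - 3 * x) := by
          rw [div_mul_div_comm, mul_one, div_le_div_iff₀ (by apply mul_pos <;> linarith) (by linarith), one_mul]
          nlinarith

include hq h0 hz hrec in
/-- the general bound -/
theorem k_le (n : ℕ) : (k 1 n : ℝ) ≤ (1 + (q : ℝ)⁻¹) * ((1 + (q : ℝ)⁻¹ ^ 2) / (1 - (q : ℝ)⁻¹)) * ((1 + (q : ℝ)⁻¹ ^ 3) / (1 - (q : ℝ)⁻¹ ^ 2)) *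
    (1 / (1 - 3 * (q : ℝ)⁻¹ ^ 3)) * (q : ℝ) ^ n := by
  have hy := y_pos hq
  have hy2 := y_le hq
  have hqy := q_mul_y hq
  have hq0 : (0 : ℝ) < q := by positivity
  have h4 := SS_tail hq h0 hz hrec n n 4 le_rfl (by omega)
  have h3 := SS_rec hrec (by norm_num : 1 ≤ 3) (by omega) n
  have h2 := SS_rec hrec (by norm_num : 1 ≤ 2) (by omega) n
  have f3 := phu_le hq (by norm_num : 2 ≤ 3) n
  have f2 := phu_le hq (by norm_num : 2 ≤ 2) n
  set y := (q : ℝ)⁻¹ with hydef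
  norm_num at h4 f2 f3
  have hn4 := SS_nonneg (q := q) (k := k) 4 n
  have hn3 := SS_nonneg (q := q) (k := k) 3 n
  have e2 : 0 ≤ (1 + y * y) / (1 - y) := div_nonneg (by positivity) (by linarith)
  have hyy : y ^ 2 ≤ 1 / 4 := by nlinarith
  have e3 : 0 ≤ (1 + y * y ^ 2) / (1 - y ^ 2) := div_nonneg (by positivity) (by linarith)
  have s3 : SS q k 3 n ≤ (1 + y * y ^ 2) / (1 - y ^ 2) * (1 - 3 * y ^ 3)⁻¹ := h3.trans (mul_le_mul f3 h4 hn4 e3)
  have s2 : SS q k 2 n ≤ (1 + y * y) / (1 - y) * ((1 + y * y ^ 2) / (1 - y ^ 2) * (1 - 3 * y ^ 3)⁻¹) := h2.trans (mul_le_mul f2 s3 hn3 e2)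
  -- the first step
  have h1 : (k 1 n : ℝ) ≤ (1 + y) * (q : ℝ) ^ n * SS q k 2 n := by
    have h5 : (k 1 n : ℝ) ≤ ∑ a ∈ range (n + 1), (phu q a : ℝ) * (k 2 (n - a) : ℝ) := by
      have := hrec 1 n le_rfl
      have h6 : (k 1 n : ℝ) ≤ ((∑ a ∈ range (n + 1), if 1 * a ≤ n then phu q a * k (1 + 1) (n - 1 * a) else 0 : ℕ) : ℝ) := by exact_mod_cast this
      refine h6.trans (le_of_eq ?_)
      push_cast
      refine Finset.sum_congr rfl fun a ha => ?_
      rw [mem_range] at ha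
      rw [one_mul, if_pos (by omega)]
    have h7 : ∀ a, (phu q a : ℝ) ≤ (1 + y) * (q : ℝ) ^ a := by
      intro a
      unfold phu
      split_ifs with ha
      · subst ha
        rw [pow_zero]
        push_cast
        linarith
      · obtain ⟨b, rfl⟩ : ∃ b, a = b + 1 := ⟨a - 1, by omega⟩
        rw [Nat.add_sub_cancel]
        push_cast
        apply le_of_eq
        calc ((q : ℝ) + 1) * (q : ℝ) ^ b = (q : ℝ) * (q : ℝ) ^ b + 1 * (q : ℝ) ^ b := by ring
          _ = (q : ℝ) * (q : ℝ) ^ b + ((q : ℝ) * y) * (q : ℝ) ^ b := by rw [hqy]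
          _ = (1 + y) * (q : ℝ) ^ (b + 1) := by ring
    calc (k 1 n : ℝ) ≤ _ := h5
      _ ≤ ∑ a ∈ range (n + 1), ((1 + y) * (q : ℝ) ^ a) * (k 2 (n - a) : ℝ) :=
          Finset.sum_le_sum fun a _ => mul_le_mul_of_nonneg_right (h7 a) (by positivity)
      _ = (1 + y) * (q : ℝ) ^ n * SS q k 2 n := by
          unfold SS
          rw [Finset.mul_sum, ← Finset.sum_range_reflect]
          refine Finset.sum_congr rfl fun w hw => ?_
          rw [mem_range] at hw
          have e : n + 1 - 1 - w = n - w := by omega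
          have e' : n - (n - w) = w := by omega
          rw [e, e']
          have : (q : ℝ) ^ n * y ^ w = (q : ℝ) ^ (n - w) := by
            have h8 : (q : ℝ) ^ n = (q : ℝ) ^ (n - w) * (q : ℝ) ^ w := by rw [← pow_add]; congr 1; omega
            rw [h8, mul_assoc, ← mul_pow, hqy, one_pow, mul_one]
          rw [← this]; ring
  calc (k 1 n : ℝ) ≤ (1 + y) * (q : ℝ) ^ n * SS q k 2 n := h1
    _ ≤ (1 + y) * (q : ℝ) ^ n * ((1 + y * y) / (1 - y) * ((1 + y * y ^ 2) / (1 - y ^ 2) * (1 - 3 * y ^ 3)⁻¹)) :=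
        mul_le_mul_of_nonneg_left s2 (by positivity)
    _ = _ := by rw [one_div]; ring

include hq h0 hz hrec in
theorem k_le_two (h : q = 2) (n : ℕ) : (k 1 n : ℝ) ≤ 9 * (q : ℝ) ^ n := by
  refine (k_le hq h0 hz hrec n).trans (mul_le_mul_of_nonneg_right ?_ (by positivity))
  subst h
  norm_num

include hq h0 hz hrec in
theorem k_le_three (h : q = 3) (n : ℕ) : (k 1 n : ℝ) ≤ 3 * (q : ℝ) ^ n := by
  refine (k_le hq h0 hz hrec n).trans (mul_le_mul_of_nonneg_right ?_ (by positivity))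
  subst h
  norm_num

include hq h0 hz hrec in
theorem k_le_four (h : 4 ≤ q) (n : ℕ) : (k 1 n : ℝ) ≤ 9 / 4 * (q : ℝ) ^ n := by
  refine (k_le hq h0 hz hrec n).trans (mul_le_mul_of_nonneg_right ?_ (by positivity))
  have hy := y_pos hq
  have hy4 : (q : ℝ)⁻¹ ≤ 1 / 4 := by
    rw [one_div]
    exact inv_anti₀ (by norm_num) (by exact_mod_cast h)
  set y := (q : ℝ)⁻¹ with hydef
  have a1 : 1 + y ≤ 5 / 4 := by linarith
  have hy2 : y ^ 2 ≤ 1 / 16 := by nlinarith
  have hy3 : y ^ 3 ≤ 1 / 64 := by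
    have : y ^ 3 = y * y ^ 2 := by ring
    rw [this]; nlinarith [sq_nonneg y]
  have a2 : (1 + y ^ 2) / (1 - y) ≤ 17 / 12 := by
    rw [div_le_iff₀ (by linarith)]; nlinarith
  have a3 : (1 + y ^ 3) / (1 - y ^ 2) ≤ 65 / 60 := by
    rw [div_le_iff₀ (by linarith)]; nlinarith
  have a4 : 1 / (1 - 3 * y ^ 3) ≤ 64 / 61 := by
    rw [div_le_iff₀ (by linarith)]; nlinarith
  have p2 : 0 ≤ (1 + y ^ 2) / (1 - y) := div_nonneg (by positivity) (by linarith)
  have p3 : 0 ≤ (1 + y ^ 3) / (1 - y ^ 2) := div_nonneg (by positivity) (by linarith)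
  have p4 : 0 ≤ 1 / (1 - 3 * y ^ 3) := div_nonneg (by norm_num) (by linarith)
  calc (1 + y) * ((1 + y ^ 2) / (1 - y)) * ((1 + y ^ 3) / (1 - y ^ 2)) * (1 / (1 - 3 * y ^ 3))
      ≤ 5 / 4 * (17 / 12) * (65 / 60) * (64 / 61) := by
        apply mul_le_mul _ a4 p4 (by norm_num)
        apply mul_le_mul _ a3 p3 (by norm_num)
        apply mul_le_mul a1 a2 p2 (by norm_num)
    _ ≤ 9 / 4 := by norm_num

end abs

end H46.UBound
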