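import Mathlib
import Cfsg.Agent.Lib.H46.UBound

/-! The final bound for the weighted number of self-dual types. -/

set_option autoImplicit false

namespace H46.UFinal

open Finset H46.UCount H46.UBound H46.UWeight H46.UShift

section abs
variable {q : ℕ} {k : ℕ → ℕ → ℕ} (hq : 2 ≤ q) (h0 : ∀ r, 1 ≤ r → k r 0 ≤ 1) (hz : ∀ r n, 0 < n → n < r → k r n = 0)
  (hrec : ∀ r n, 1 ≤ r → k r n ≤ ∑ a ∈ range (n + 1), if r * a ≤ n then phu q a * k (r + 1) (n - r * a) else 0)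

/-- the weighted sum -/
def ws (q : ℕ) (k : ℕ → ℕ → ℕ) (n : ℕ) : ℕ :=
  ∑ d ∈ range (n + 1), if 2 ≤ d ∧ d ∣ n ∧ d ∣ q + 1 then (d ^ 2 - 1) * k 1 (n / d) else 0

include hq h0 hz hrec in
theorem case_two (h1 : k 1 1 ≤ q + 1) (h2 : k 1 2 ≤ (q + 1) ^ 2) (h : q = 2) {n : ℕ} (hn : 1 ≤ n) :
    100 * (k 1 n + ws q k n) ≤ 826 * ((q + 1) * q ^ (n - 1)) := by
  have hk := k_le_two hq h0 hz hrec h
  have hw : ws q k n ≤ if 3 ∣ n then 8 * k 1 (n / 3) else 0 := by
    unfold ws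
    refine le_trans (Finset.sum_le_sum_of_ne_zero (t := {3}) ?_) ?_
    · intro d _ hd
      rw [Finset.mem_singleton]
      by_contra hne
      apply hd
      rw [if_neg]
      rintro ⟨e1, e2, e3⟩
      subst h
      have : d ∣ 3 := e3
      have h3 := Nat.le_of_dvd (by norm_num) this
      interval_cases d <;> omega
    · rw [Finset.sum_singleton]
      split_ifs with e1 e2 <;> norm_num
      exact absurd e1.2.1 e2
  subst h
  obtain ⟨m, rfl⟩ : ∃ m, n = m + 1 := ⟨n - 1, by omega⟩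
  rw [Nat.add_sub_cancel]
  have hkn : k 1 (m + 1) ≤ 9 * 2 ^ (m + 1) := by exact_mod_cast hk (m + 1)
  split_ifs at hw with h3
  · obtain ⟨j, hj⟩ := h3
    rw [hj, Nat.mul_div_cancel_left _ (by norm_num)] at hw
    rcases (by omega : j = 1 ∨ j = 2 ∨ 3 ≤ j) with rfl | rfl | hj3
    · have : m = 2 := by omega
      subst this
      rw [hj] at hkn ⊢
      norm_num at hkn hw h1 h2 ⊢
      omega
    · have : m = 5 := by omega
      subst this
      rw [hj] at hkn ⊢
      norm_num at hkn hw h1 h2 ⊢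
      omega
    · have hkj : k 1 j ≤ 9 * 2 ^ j := by exact_mod_cast hk j
      have e1 : 64 * 2 ^ j ≤ 2 ^ (m + 1) := by
        have : 64 * 2 ^ j = 2 ^ (j + 6) := by rw [pow_add]; ring
        rw [this]
        exact Nat.pow_le_pow_right (by norm_num) (by omega)
      rw [← hj] at hw
      have e2 : 2 ^ (m + 1) = 2 * 2 ^ m := by rw [pow_succ]; ring
      omega
  · have e2 : 2 ^ (m + 1) = 2 * 2 ^ m := by rw [pow_succ]; ring
    omega

include hq h0 hz hrec in
theorem case_three (h : q = 3) {n : ℕ} (hn : 1 ≤ n) :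
    100 * (k 1 n + ws q k n) ≤ 826 * ((q + 1) * q ^ (n - 1)) := by
  have hk := k_le_three hq h0 hz hrec h
  have hw : ws q k n ≤ (if 2 ∣ n then 3 * k 1 (n / 2) else 0) + (if 4 ∣ n then 15 * k 1 (n / 4) else 0) := by
    unfold ws
    refine le_trans (Finset.sum_le_sum_of_ne_zero (t := {2, 4}) ?_) ?_
    · intro d _ hd
      rw [Finset.mem_insert, Finset.mem_singleton]
      by_contra hne
      apply hd
      rw [if_neg]
      rintro ⟨e1, e2, e3⟩
      subst h
      have : d ∣ 4 := e3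
      have h3 := Nat.le_of_dvd (by norm_num) this
      interval_cases d <;> omega
    · rw [Finset.sum_pair (by norm_num)]
      apply Nat.add_le_add
      · split_ifs with e1 e2 <;> norm_num
        exact absurd e1.2.1 e2
      · split_ifs with e1 e2 <;> norm_num
        exact absurd e1.2.1 e2
  subst h
  obtain ⟨m, rfl⟩ : ∃ m, n = m + 1 := ⟨n - 1, by omega⟩
  rw [Nat.add_sub_cancel]
  have hkn : k 1 (m + 1) ≤ 3 * 3 ^ (m + 1) := by exact_mod_cast hk (m + 1)
  have e0 : 3 ^ (m + 1) = 3 * 3 ^ m := by rw [pow_succ]; ring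
  have hA : (if 2 ∣ m + 1 then 3 * k 1 ((m + 1) / 2) else 0) ≤ 3 * 3 ^ (m + 1) := by
    split_ifs with h2
    · obtain ⟨j, hj⟩ := h2
      rw [hj, Nat.mul_div_cancel_left _ (by norm_num)]
      have hkj : k 1 j ≤ 3 * 3 ^ j := by exact_mod_cast hk j
      have e1 : 3 * 3 ^ j ≤ 3 ^ (2 * j) := by
        rw [← pow_succ']
        exact Nat.pow_le_pow_right (by norm_num) (by omega)
      omega
    · exact Nat.zero_le _
  have hB : (if 4 ∣ m + 1 then 15 * k 1 ((m + 1) / 4) else 0) ≤ 3 * 3 ^ (m + 1) := by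
    split_ifs with h2
    · obtain ⟨j, hj⟩ := h2
      rw [hj, Nat.mul_div_cancel_left _ (by norm_num)]
      have hkj : k 1 j ≤ 3 * 3 ^ j := by exact_mod_cast hk j
      have e1 : 27 * 3 ^ j ≤ 3 ^ (4 * j) := by
        have : 27 * 3 ^ j = 3 ^ (j + 3) := by rw [pow_add]; ring
        rw [this]
        exact Nat.pow_le_pow_right (by norm_num) (by omega)
      omega
    · exact Nat.zero_le _
  omega

theorem sum_aux (n : ℕ) : (∑ d ∈ range (n + 2), if 2 ≤ d then (((d : ℝ) ^ 2 - 1) / 4 ^ (d - 1)) else 0) +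
    (9 * ((n : ℝ) + 1) ^ 2 + 24 * ((n : ℝ) + 1) + 11) / (27 * 4 ^ n) ≤ 44 / 27 := by
  induction n with
  | zero =>
    norm_num [Finset.sum_range_succ]
  | succ n ih =>
    rw [Finset.sum_range_succ, if_pos (by omega)]
    have e1 : n + 1 + 1 - 1 = n + 1 := by omega
    rw [e1]
    refine le_trans (le_of_eq ?_) ih
    rw [add_assoc]
    congr 1
    push_cast
    rw [pow_succ]
    field_simp
    ring

include hq h0 hz hrec in
theorem case_four (h : 4 ≤ q) {n : ℕ} (hn : 1 ≤ n) :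
    100 * (k 1 n + ws q k n) ≤ 826 * ((q + 1) * q ^ (n - 1)) := by
  have hk := k_le_four hq h0 hz hrec h
  have hq0 : (0 : ℝ) < q := by positivity
  have hq4 : (4 : ℝ) ≤ q := by exact_mod_cast h
  have hw : (ws q k n : ℝ) ≤ (9 / 4 * (q : ℝ) ^ n) * ∑ d ∈ range (n + 1), if 2 ≤ d then (((d : ℝ) ^ 2 - 1) / 4 ^ (d - 1)) else 0 := by
    unfold ws
    push_cast
    rw [Finset.mul_sum]
    refine Finset.sum_le_sum fun d hd => ?_
    rw [mem_range] at hd
    split_ifs with e1 e2 e2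
    · obtain ⟨e1, ⟨m, rfl⟩, e3⟩ := e1
      rw [Nat.mul_div_cancel_left _ (by omega)]
      have hm : 1 ≤ m := by
        rcases Nat.eq_zero_or_pos m with rfl | hm
        · omega
        · exact hm
      have h1 : ((d ^ 2 - 1 : ℕ) : ℝ) = (d : ℝ) ^ 2 - 1 := by
        rw [Nat.cast_sub (Nat.one_le_pow _ _ (by omega))]
        push_cast
        rfl
      have hd2 : (0 : ℝ) ≤ (d : ℝ) ^ 2 - 1 := by
        rw [← h1]; positivity
      have h2 : (q : ℝ) ^ m * (q : ℝ) ^ (d - 1) ≤ (q : ℝ) ^ (d * m) := by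
        rw [← pow_add]
        apply pow_le_pow_right₀ (by linarith)
        obtain ⟨d', rfl⟩ : ∃ d', d = d' + 1 := ⟨d - 1, by omega⟩
        obtain ⟨m', rfl⟩ : ∃ m', m = m' + 1 := ⟨m - 1, by omega⟩
        rw [Nat.add_sub_cancel]
        nlinarith
      have h3 : (4 : ℝ) ^ (d - 1) ≤ (q : ℝ) ^ (d - 1) := pow_le_pow_left₀ (by norm_num) hq4 _
      have h4 : (q : ℝ) ^ m ≤ (q : ℝ) ^ (d * m) / 4 ^ (d - 1) := by
        rw [le_div_iff₀ (by positivity)]
        refine le_trans ?_ h2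
        exact mul_le_mul_of_nonneg_left h3 (by positivity)
      calc ((d ^ 2 - 1 : ℕ) : ℝ) * (k 1 m : ℝ) ≤ ((d : ℝ) ^ 2 - 1) * (9 / 4 * (q : ℝ) ^ m) := by
            rw [h1]
            exact mul_le_mul_of_nonneg_left (hk m) hd2
        _ ≤ ((d : ℝ) ^ 2 - 1) * (9 / 4 * ((q : ℝ) ^ (d * m) / 4 ^ (d - 1))) := by
            apply mul_le_mul_of_nonneg_left _ hd2
            apply mul_le_mul_of_nonneg_left h4 (by norm_num)
        _ = _ := by ring
    · exact absurd e1.1 e2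
    · have hd2 : (0 : ℝ) ≤ (d : ℝ) ^ 2 - 1 := by
        have : (1 : ℝ) ≤ d := by exact_mod_cast (by omega : 1 ≤ d)
        nlinarith
      positivity
    · simp
  have hs : (∑ d ∈ range (n + 1), if 2 ≤ d then (((d : ℝ) ^ 2 - 1) / 4 ^ (d - 1)) else 0) ≤ 44 / 27 := by
    obtain ⟨m, rfl⟩ : ∃ m, n = m + 1 := ⟨n - 1, by omega⟩
    have := sum_aux m
    have h1 : (0 : ℝ) ≤ (9 * ((m : ℝ) + 1) ^ 2 + 24 * ((m : ℝ) + 1) + 11) / (27 * 4 ^ m) := by positivity
    linarith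
  have h1 : ((k 1 n + ws q k n : ℕ) : ℝ) ≤ 9 / 4 * (71 / 27) * (q : ℝ) ^ n := by
    push_cast
    have h2 : (9 / 4 * (q : ℝ) ^ n) * (∑ d ∈ range (n + 1), if 2 ≤ d then (((d : ℝ) ^ 2 - 1) / 4 ^ (d - 1)) else 0) ≤ (9 / 4 * (q : ℝ) ^ n) * (44 / 27) :=
      mul_le_mul_of_nonneg_left hs (by positivity)
    have := hk n
    nlinarith
  have h2 : (q : ℝ) ^ n ≤ ((q : ℝ) + 1) * (q : ℝ) ^ (n - 1) := by
    obtain ⟨m, rfl⟩ : ∃ m, n = m + 1 := ⟨n - 1, by omega⟩
    rw [Nat.add_sub_cancel, pow_succ']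
    apply mul_le_mul_of_nonneg_right (by linarith) (by positivity)
  have h3 : (100 * (k 1 n + ws q k n) : ℕ) ≤ ((826 * ((q + 1) * q ^ (n - 1)) : ℕ) : ℝ) := by
    push_cast
    push_cast at h1
    have : (0 : ℝ) ≤ (q : ℝ) ^ n := by positivity
    nlinarith
  exact_mod_cast h3

include hq h0 hz hrec in
theorem bound (h1 : k 1 1 ≤ q + 1) (h2 : k 1 2 ≤ (q + 1) ^ 2) {n : ℕ} (hn : 1 ≤ n) :
    100 * (k 1 n + ws q k n) ≤ 826 * ((q + 1) * q ^ (n - 1)) := by
  rcases (by omega : q = 2 ∨ q = 3 ∨ 4 ≤ q) with h | h | h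
  · exact case_two hq h0 hz hrec h1 h2 h hn
  · exact case_three hq h0 hz hrec h hn
  · exact case_four hq h0 hz hrec h hn

end abs

variable {K : Type*} [Field K] [Fintype K] {q n : ℕ}

open scoped Classical in
theorem card_SU_le (hK : Fintype.card K = q ^ 2) (hn : 1 ≤ n) :
    100 * Nat.card (ConjClasses ↥(Cfsg.SU n K q)) ≤ 826 * q ^ (n - 1) := by
  have hN : Nat.card K = q ^ 2 := by rw [Nat.card_eq_fintype_card, hK]
  have hq := H49.Unitary.two_le hN
  have h1 := H46.TySU.card_classes_le (n := n) hK ((UF hN n).filter (fun f => H46.TyAlg.dt n f = 1)) (by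
    intro C
    rw [mem_filter, mem_UF]
    exact H46.TySU.cty_mem hN C)
  have h2 := sum_wt_le hN hK n
  have h3 := WU_le hN n (by omega)
  have h4 := bound (q := q) (k := KU hN) hq (fun r hr => KU_zero hN hr) (fun r n h0 h => KU_eq_zero hN h0 h)
    (fun r n hr => KU_rec hN r n hr) (KU_one hN) (KU_two hN) (n := n) hn
  unfold ws at h4
  have h5 : (q + 1) * Nat.card (ConjClasses ↥(Cfsg.SU n K q)) ≤ _ := (Nat.mul_le_mul_left (q + 1) h1).trans (h2.trans h3)
  have h6 : (q + 1) * (100 * Nat.card (ConjClasses ↥(Cfsg.SU n K q))) ≤ (q + 1) * (826 * q ^ (n - 1)) := by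
    calc (q + 1) * (100 * Nat.card (ConjClasses ↥(Cfsg.SU n K q))) = 100 * ((q + 1) * Nat.card (ConjClasses ↥(Cfsg.SU n K q))) := by ring
      _ ≤ _ := (Nat.mul_le_mul_left 100 h5).trans h4
      _ = _ := by ring
  exact Nat.le_of_mul_le_mul_left h6 (by omega)

end H46.UFinal
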