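import Mathlib
import Cfsg.Agent.Lib.H46.UFinal

/-! Lower bound for the number of classes of `SU_n`. -/

set_option autoImplicit false

namespace H46.ULower

open Finset Polynomial H46.TyAlg H46.TyCount H46.TyGL H46.StPoly H46.TyReal H49.Unitary H46.TyDet H46.TyU H46.UCount H46.UShift H49.SUClasses

variable {K : Type*} [Field K] [Fintype K] {q n : ℕ}

theorem le_card_SU (hK : Fintype.card K = q ^ 2) (hn : 1 ≤ n) : q ^ (n - 1) ≤ Nat.card (ConjClasses ↥(Cfsg.SU n K q)) := by
  have hN : Nat.card K = q ^ 2 := by rw [Nat.card_eq_fintype_card, hK]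
  obtain ⟨m, rfl⟩ : ∃ m, n = m + 1 := ⟨n - 1, by omega⟩
  rw [Nat.add_sub_cancel]
  have hc : frob hN ((-1) ^ (m + 1)) * (-1) ^ (m + 1) = 1 := by
    rw [map_pow, map_neg, map_one, ← mul_pow]; simp
  rw [← card_SDc hN m hc]
  have hex : ∀ f : SDc hN (m + 1) ((-1) ^ (m + 1)), ∃ u : ↥(Cfsg.SU (m + 1) K q), ty (H46.TySU.mx u) = sg 1 f.1 := by
    rintro ⟨f, hf1, hf2, hf3, hf4⟩
    have hmem : sg 1 f ∈ UT hN 1 (m + 1) := by
      refine ⟨?_, ?_⟩
      · have := sg_mem hf1 (e := 1) le_rfl
        rwa [hf2, one_mul] at this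
      · intro e
        unfold sg
        split_ifs
        · exact hf3
        · exact st_one
    obtain ⟨A, hA, hty⟩ := real_U hN hmem
    have hdet0 := det_ne_zero_of_U hN hA
    have hdet : A.det = 1 := by
      rw [← (ty_mem hdet0).2, hty]
      unfold dt
      rw [Finset.prod_eq_single 1]
      · unfold sg
        rw [if_pos rfl, pow_one]
        unfold sc
        rw [hf2, hf4, ← mul_pow]
        simp
      · intro e _ he
        unfold sg
        rw [if_neg he, sc_one, one_pow]
      · intro h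
        exact absurd (mem_range.mpr (by omega)) h
    let g : Matrix.GeneralLinearGroup (Fin (m + 1)) K := ⟨A, ct hN A, mul_eq_one_comm.mp hA, hA⟩
    let g' : ↥(Cfsg.GU (m + 1) K q) := ⟨g, (mem_GU hN g).mpr hA⟩
    have h1 : detS hK (m + 1) g' = 1 := by
      apply Subtype.ext
      apply Units.ext
      rw [detS_coe]
      exact hdet
    obtain ⟨u, hu⟩ := (detS_eq_one_iff hK g').mp h1
    refine ⟨u, ?_⟩
    have h2 : H46.TySU.mx u = A := congrArg (fun z : ↥(Cfsg.GU (m + 1) K q) => ((z : Matrix.GeneralLinearGroup (Fin (m + 1)) K) : Matrix (Fin (m + 1)) (Fin (m + 1)) K)) hu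
    rw [h2]
    exact hty
  choose u hu using hex
  apply Nat.card_le_card_of_injective (fun f => ConjClasses.mk (u f))
  intro f g hfg
  have h1 := congrArg H46.TySU.cty hfg
  rw [H46.TySU.cty_mk, H46.TySU.cty_mk, hu, hu] at h1
  have h2 := congrFun h1 1
  unfold sg at h2
  rw [if_pos rfl, if_pos rfl] at h2
  exact Subtype.ext h2

end H46.ULower
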