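import Mathlib
import Cfsg.Agent.Lib.H46.UDich
import Cfsg.Agent.Lib.H46.Irr

/-! Numerical data of orthogonally indecomposable semisimple isometries of hermitian spaces. -/

set_option autoImplicit false

namespace H46.UTorus

open Module Polynomial H46.SForm H46.SForm.SForm H46.ProjOrder H46.ProdUnit H46.OrthDec H46.FieldInv H46.ExtElt H46.OrdPSU H46.UNum H46.UDich

variable {K : Type*} [Field K] [Fintype K] {q : ℕ}

/-- the second and third alternatives of `structure_isom` -/
def Indec {V : Type*} [AddCommGroup V] [Module K V] {σ : K →+* K} (f : SForm K V σ) (s : (Module.End K V)ˣ) : Prop :=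
  Irreducible (minpoly K (s : Module.End K V)) ∨
    (∃ (W₁ W₂ : Submodule K V) (h : K[X]), IsCompl W₁ W₂ ∧ W₁ ≠ ⊥ ∧ W₂ ≠ ⊥ ∧ (∀ v ∈ W₁, ∀ w ∈ W₁, f.B v w = 0) ∧
      (∀ v ∈ W₂, ∀ w ∈ W₂, f.B v w = 0) ∧
      (∀ g : Module.End K V, Commute g s → (∀ v ∈ W₁, g v ∈ W₁) ∧ (∀ v ∈ W₂, g v ∈ W₂)) ∧
      Irreducible h ∧ (∀ v ∈ W₁, aeval (s : Module.End K V) h v = 0))

theorem odd_of_bar (hF : Fintype.card K = q ^ 2) (d : ℕ) (hd : ∀ c : K, bar hF c = c ^ (q ^ d)) : Odd d := by
  rw [← Nat.not_even_iff_odd]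
  intro hev
  obtain ⟨c, hc⟩ := exists_bar_ne hF
  apply hc
  rw [hd c]
  obtain ⟨m, rfl⟩ := hev
  have : ∀ m : ℕ, c ^ (q ^ (m + m)) = c := by
    intro m
    induction m with
    | zero => simp
    | succ m ih =>
      rw [show m + 1 + (m + 1) = (m + m) + 2 by ring, pow_add, pow_mul, ih, ← hF, FiniteField.pow_card]
  exact this m

theorem trivial_of_res {V : Type*} [AddCommGroup V] [Module K V] {σ : K →+* K} {f : SForm K V σ} {W₁ W₂ : Submodule K V}
    (hpair : Pair f W₁ W₂) (hnd : f.ND) (hndr : f.NDR) (w : (Module.End K V)ˣ) (w₁ : (Module.End K W₁)ˣ) (hw : f.Isom w)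
    (hw₂ : ∀ v ∈ W₂, (w : Module.End K V) v ∈ W₂)
    (hww : ∀ x : W₁, (((w₁ : Module.End K W₁) x : W₁) : V) = (w : Module.End K V) x) (m : ℕ) (hm : w₁ ^ m = 1) : w ^ m = 1 := by
  apply hpair.eq_one hndr hnd (hw.pow m)
  · intro v hv
    have : ∀ j : ℕ, ∀ v ∈ W₂, ((w ^ j : (Module.End K V)ˣ) : Module.End K V) v ∈ W₂ := by
      intro j
      induction j with
      | zero => intro v hv; exact hv
      | succ j ih =>
        intro v hv
        rw [pow_succ, Units.val_mul]
        exact ih _ (hw₂ v hv)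
    exact this m v hv
  · intro v hv
    have h3 := res_pow hww m ⟨v, hv⟩
    rw [Units.val_pow_eq_pow_val, ← h3, ← Units.val_pow_eq_pow_val, hm]
    rfl

theorem num_data (hF : Fintype.card K = q ^ 2) {V : Type*} [AddCommGroup V] [Module K V] [Module.Finite K V] [Nontrivial V]
    (f : SForm K V (bar hF)) (hsym : f.Sym 1) (hnd : f.ND) (s : (Module.End K V)ˣ) (hs : f.Isom s) (h : Indec f s) :
    (∃ d k : ℕ, d * k = finrank K V ∧ Odd d ∧ s ^ (q ^ d + 1) = 1) ∨ (∃ d k : ℕ, 2 * (d * k) = finrank K V ∧ s ^ (q ^ (2 * d) - 1) = 1) := by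
  have hndr : f.NDR := hsym.ndr hnd
  rcases h with h | h
  · left
    obtain ⟨R, hR, hsR, hθR, hcR⟩ := irred_data (bar_bar hF) hndr s hs _ rfl h (Or.inl (exists_bar_ne hF))
    obtain ⟨k, hk0, hkdim, hkcard, hkdet, -⟩ := field_data (s : Module.End K V) _ rfl h
    have hfact : Fact (Irreducible (minpoly K (s : Module.End K V))) := ⟨h⟩
    haveI hfin0 : Module.Finite K (AdjoinRoot (minpoly K (s : Module.End K V))) := (AdjoinRoot.powerBasis h.ne_zero).finite
    have hcardE : Nat.card (AdjoinRoot (minpoly K (s : Module.End K V))) = q ^ (2 * finrank K (AdjoinRoot (minpoly K (s : Module.End K V)))) := by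
      rw [Module.natCard_eq_pow_finrank (K := K), Nat.card_eq_fintype_card, hF, ← pow_mul]
    have hRq : R = q ^ finrank K (AdjoinRoot (minpoly K (s : Module.End K V))) := by
      rw [hcardE, mul_comm, pow_mul] at hR
      exact Nat.pow_left_injective (by norm_num : 2 ≠ 0) hR
    exact ⟨_, k, hkdim, odd_of_bar hF _ (by intro c; rw [hcR c, hRq]), by rw [← hRq]; exact hsR⟩
  · right
    obtain ⟨W₁, W₂, h, hW, hW₁, hW₂, hiso₁, hiso₂, hinv, hirr, hker⟩ := h
    have hpair : Pair f W₁ W₂ := ⟨hW, hiso₁, hiso₂⟩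
    have hnt₁ : Nontrivial W₁ := Submodule.nontrivial_iff_ne_bot.mpr hW₁
    obtain ⟨hs₁, hs₂⟩ := hinv _ (Commute.refl (s : Module.End K V))
    obtain ⟨s₁, hs₁e, hs₁v⟩ := exists_res s W₁ hs₁
    have hirr₁ : Irreducible (minpoly K (s₁ : Module.End K W₁)) := by
      apply H46.SpDich.irreducible_minpoly_restrict _ h hirr
      intro w
      apply Subtype.ext
      rw [res_aeval hs₁v, hker w w.2]; rfl
    obtain ⟨k, hk0, hkdim, hkcard, hkdet, -⟩ := field_data (s₁ : Module.End K W₁) _ rfl hirr₁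
    have hfact : Fact (Irreducible (minpoly K (s₁ : Module.End K W₁))) := ⟨hirr₁⟩
    haveI hfin0 : Module.Finite K (AdjoinRoot (minpoly K (s₁ : Module.End K W₁))) := (AdjoinRoot.powerBasis hirr₁.ne_zero).finite
    have hcardE : Nat.card (AdjoinRoot (minpoly K (s₁ : Module.End K W₁))) = q ^ (2 * finrank K (AdjoinRoot (minpoly K (s₁ : Module.End K W₁)))) := by
      rw [Module.natCard_eq_pow_finrank (K := K), Nat.card_eq_fintype_card, hF, ← pow_mul]
    refine ⟨finrank K (AdjoinRoot (minpoly K (s₁ : Module.End K W₁))), k, ?_, ?_⟩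
    · rw [hkdim]
      have h1 := hpair.finrank_eq hndr
      have h2 := Submodule.finrank_add_eq_of_isCompl hW
      omega
    · rw [← hcardE]
      exact trivial_of_res hpair hnd hndr s s₁ hs hs₂ hs₁v _ (H46.SpDich.pow_card_sub_one s₁ _ rfl hirr₁)

/-- an orthogonally indecomposable semisimple isometry of determinant one has projective order dividing
`(q^n - (-1)^n)/((q+1) gcd(n, q+1))` -/
theorem torus_dvd (hF : Fintype.card K = q ^ 2) {V : Type*} [AddCommGroup V] [Module K V] [Module.Finite K V] [Nontrivial V]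
    (f : SForm K V (bar hF)) (hsym : f.Sym 1) (hnd : f.ND) (s : (Module.End K V)ˣ) (hsu : f.Isom s)
    (hsdet : LinearMap.det (s : Module.End K V) = 1) (h : Indec f s) (n : ℕ) (hrank : finrank K V = n) :
    projOrder K s ∣ MM q n / Nat.gcd n (q + 1) := by
  have hq2 : 2 ≤ q := H16.Herm.one_lt_q hF
  have hndr : f.NDR := hsym.ndr hnd
  have hMM1 : MM q n / Nat.gcd n (q + 1) * (q + 1) = MM q n * ((q + 1) / Nat.gcd n (q + 1)) := by
    have h1 : Nat.gcd n (q + 1) ∣ MM q n := by
      rw [← gcd_MM q n (by omega)]; exact Nat.gcd_dvd_left _ _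
    rw [Nat.div_mul_right_comm h1, Nat.mul_div_assoc _ (Nat.gcd_dvd_right _ _)]
  rcases h with h | h
  · obtain ⟨R, hR, -, hθR, hcR⟩ := irred_data (bar_bar hF) hndr s hsu _ rfl h (Or.inl (exists_bar_ne hF))
    obtain ⟨k, hk0, hkdim, hkcard, hkdet, -⟩ := field_data (s : Module.End K V) _ rfl h
    obtain ⟨φ, hφ, hinj⟩ := field_act (s : Module.End K V) _ rfl h
    have hfact : Fact (Irreducible (minpoly K (s : Module.End K V))) := ⟨h⟩
    haveI hfin0 : Module.Finite K (AdjoinRoot (minpoly K (s : Module.End K V))) := (AdjoinRoot.powerBasis h.ne_zero).finite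
    haveI hfin1 : Finite (AdjoinRoot (minpoly K (s : Module.End K V))) := Module.finite_of_finite K
    obtain ⟨d, hd⟩ : ∃ d, d = finrank K (AdjoinRoot (minpoly K (s : Module.End K V))) := ⟨_, rfl⟩
    rw [← hd, hrank] at hkdim
    have hcardE : Nat.card (AdjoinRoot (minpoly K (s : Module.End K V))) = q ^ (2 * d) := by
      rw [Module.natCard_eq_pow_finrank (K := K), ← hd, Nat.card_eq_fintype_card, hF, ← pow_mul]
    have hRq : R = q ^ d := by
      rw [hcardE, mul_comm, pow_mul] at hR
      exact Nat.pow_left_injective (by norm_num : 2 ≠ 0) hR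
    have hdo : Odd d := odd_of_bar hF d (by intro c; rw [hcR c, hRq])
    -- the root as a unit
    obtain ⟨θ, hθ⟩ : ∃ θ : (AdjoinRoot (minpoly K (s : Module.End K V)))ˣ, (θ : AdjoinRoot (minpoly K (s : Module.End K V))) = AdjoinRoot.root _ :=
      ⟨Units.ofPowEqOne _ (R + 1) hθR (by omega), rfl⟩
    have hθ1 : θ ^ (q ^ d + 1) = 1 := by
      apply Units.ext
      rw [Units.val_pow_eq_pow_val, hθ, ← hRq, hθR]; rfl
    have hθn : (θ ^ MM q d) ^ k = 1 := by
      rw [hsdet] at hkdet
      have h1 := H46.UDich.norm_pow (K := K) (AdjoinRoot.root (minpoly K (s : Module.End K V)))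
      rw [hcardE, Nat.card_eq_fintype_card, hF] at h1
      have h2 := caseI_norm θ q d hq2 hdo hθ1
      apply Units.ext
      rw [Units.val_pow_eq_pow_val, ← h2, Units.val_pow_eq_pow_val, hθ, ← h1, ← map_pow, ← hkdet, map_one]; rfl
    have hθM : θ ^ MM q n = 1 := by
      have h9 := caseI θ q d k (by omega) hdo hθ1 hθn
      rwa [hkdim] at h9
    -- hence θ^{s₀} is a scalar
    obtain ⟨c', hc'⟩ := mem_of_norm_one hF ((θ : AdjoinRoot (minpoly K (s : Module.End K V))) ^ (MM q n / Nat.gcd n (q + 1))) (by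
      rw [← pow_mul, hMM1, pow_mul, ← Units.val_pow_eq_pow_val, hθM, Units.val_one, one_pow])
    rw [projOrder_dvd_iff]
    refine ⟨c', ?_⟩
    rw [← hφ, ← hθ, ← map_pow, hc', AlgHom.commutes]
  · obtain ⟨W₁, W₂, h, hW, hW₁, hW₂, hiso₁, hiso₂, hinv, hirr, hker⟩ := h
    have hpair : Pair f W₁ W₂ := ⟨hW, hiso₁, hiso₂⟩
    have hnt₁ : Nontrivial W₁ := Submodule.nontrivial_iff_ne_bot.mpr hW₁
    obtain ⟨hs₁, hs₂⟩ := hinv _ (Commute.refl (s : Module.End K V))
    obtain ⟨s₁, hs₁e, hs₁v⟩ := exists_res s W₁ hs₁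
    obtain ⟨s₂, hs₂e, hs₂v⟩ := exists_res s W₂ hs₂
    have hirr₁ : Irreducible (minpoly K (s₁ : Module.End K W₁)) := by
      apply H46.SpDich.irreducible_minpoly_restrict _ h hirr
      intro w
      apply Subtype.ext
      rw [res_aeval hs₁v, hker w w.2]; rfl
    obtain ⟨k, hk0, hkdim, hkcard, hkdet, -⟩ := field_data (s₁ : Module.End K W₁) _ rfl hirr₁
    obtain ⟨φ, hφ, hinj⟩ := field_act (s₁ : Module.End K W₁) _ rfl hirr₁
    have hfact : Fact (Irreducible (minpoly K (s₁ : Module.End K W₁))) := ⟨hirr₁⟩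
    haveI hfin0 : Module.Finite K (AdjoinRoot (minpoly K (s₁ : Module.End K W₁))) := (AdjoinRoot.powerBasis hirr₁.ne_zero).finite
    haveI hfin1 : Finite (AdjoinRoot (minpoly K (s₁ : Module.End K W₁))) := Module.finite_of_finite K
    letI hft := Fintype.ofFinite (AdjoinRoot (minpoly K (s₁ : Module.End K W₁)))
    obtain ⟨d, hd⟩ : ∃ d, d = finrank K (AdjoinRoot (minpoly K (s₁ : Module.End K W₁))) := ⟨_, rfl⟩
    have hdim₁ : n = 2 * finrank K W₁ := by
      have h1 := hpair.finrank_eq hndr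
      have h2 := Submodule.finrank_add_eq_of_isCompl hW
      rw [hrank] at h2
      omega
    rw [← hd] at hkdim
    have hcardE : Nat.card (AdjoinRoot (minpoly K (s₁ : Module.End K W₁))) = q ^ (2 * d) := by
      rw [Module.natCard_eq_pow_finrank (K := K), ← hd, Nat.card_eq_fintype_card, hF, ← pow_mul]
    have hθ0 : AdjoinRoot.root (minpoly K (s₁ : Module.End K W₁)) ≠ 0 := by
      intro h0
      rw [h0, map_zero] at hφ
      exact s₁.ne_zero hφ.symm
    obtain ⟨θ, hθ⟩ : ∃ θ : (AdjoinRoot (minpoly K (s₁ : Module.End K W₁)))ˣ, (θ : AdjoinRoot (minpoly K (s₁ : Module.End K W₁))) = AdjoinRoot.root _ :=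
      ⟨Units.mk0 _ hθ0, rfl⟩
    have hθ1 : θ ^ (q ^ (2 * d) - 1) = 1 := by
      apply Units.ext
      rw [Units.val_pow_eq_pow_val, ← hcardE, Nat.card_eq_fintype_card, FiniteField.pow_card_sub_one_eq_one _ θ.ne_zero]; rfl
    -- determinants
    have hdetrel := hpair.det_mul (bar_bar hF) hndr hsu hs₁ hs₂
    have hdetprod : LinearMap.det (s₁ : Module.End K W₁) * LinearMap.det (s₂ : Module.End K W₂) = 1 := by
      obtain ⟨v₁, v₂, hvd, hvc⟩ := exists_prodUnit s W₁ W₂ hW hs₁ hs₂
      have happ : ∀ w : W₁ × W₂, (s : Module.End K V) ((w.1 : V) + (w.2 : V)) =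
          (((v₁ : Module.End K W₁) w.1 : W₁) : V) + (((v₂ : Module.End K W₂) w.2 : W₂) : V) := by
        intro w
        conv_lhs => rw [hvc]
        show (Submodule.prodEquivOfIsCompl W₁ W₂ hW) ((prodUnit v₁ v₂ : Module.End K (W₁ × W₂)) ((Submodule.prodEquivOfIsCompl W₁ W₂ hW).symm ((Submodule.prodEquivOfIsCompl W₁ W₂ hW) w))) = _
        rw [LinearEquiv.symm_apply_apply]
        rfl
      have h1 : (v₁ : Module.End K W₁) = (s₁ : Module.End K W₁) := by
        ext1 w
        apply Subtype.ext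
        have := happ (w, 0)
        rw [hs₁v]
        simpa using this.symm
      have h2 : (v₂ : Module.End K W₂) = (s₂ : Module.End K W₂) := by
        ext1 w
        apply Subtype.ext
        have := happ (0, w)
        rw [hs₂v]
        simpa using this.symm
      rw [← h1, ← h2, ← hvd, hsdet]
    rw [← hs₁e, ← hs₂e] at hdetrel
    have hdetq : (LinearMap.det (s₁ : Module.End K W₁)) ^ (q - 1) = 1 := by
      set a := LinearMap.det (s₁ : Module.End K W₁) with ha
      set b := LinearMap.det (s₂ : Module.End K W₂) with hb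
      have ha0 : a ≠ 0 := left_ne_zero_of_mul_eq_one hdetprod
      have hb' : b = a⁻¹ := eq_inv_of_mul_eq_one_right hdetprod
      rw [hb', bar_apply, inv_pow] at hdetrel
      have h3 : a ^ q = a := by
        have : a ^ q ≠ 0 := pow_ne_zero _ ha0
        field_simp at hdetrel
        exact hdetrel.symm
      have h4 : a ^ (q - 1) * a = 1 * a := by
        rw [← pow_succ, Nat.sub_add_cancel (by omega), h3, one_mul]
      exact mul_right_cancel₀ ha0 h4
    obtain ⟨hh, hhe⟩ : ∃ hh, hh * (q ^ 2 - 1) = q ^ (2 * d) - 1 := by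
      have : q ^ 2 - 1 ∣ q ^ (2 * d) - 1 := by
        rw [pow_mul]
        have := Nat.sub_dvd_pow_sub_pow (q ^ 2) 1 d
        rwa [one_pow] at this
      obtain ⟨c, hc⟩ := this
      exact ⟨c, by rw [hc, mul_comm]⟩
    have hq21 : 0 < q ^ 2 - 1 := by
      have : 2 ^ 2 ≤ q ^ 2 := Nat.pow_le_pow_left hq2 2
      omega
    have hθn : (θ ^ (hh * (q - 1))) ^ k = 1 := by
      have h1 := H46.UDich.norm_pow (K := K) (AdjoinRoot.root (minpoly K (s₁ : Module.End K W₁)))
      rw [hcardE, Nat.card_eq_fintype_card, hF, ← hhe, Nat.mul_div_cancel _ hq21] at h1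
      apply Units.ext
      rw [Units.val_pow_eq_pow_val, Units.val_pow_eq_pow_val, hθ, ← pow_mul, show hh * (q - 1) * k = hh * (k * (q - 1)) by ring, pow_mul,
        ← h1, ← map_pow, pow_mul, ← hkdet, hdetq, map_one]; rfl
    have hθM : θ ^ MM q n = 1 := by
      have h9 := caseII θ q d k hh hq2 hhe hθ1 hθn
      have h10 : 2 * d * k = n := by rw [mul_assoc, hkdim]; exact hdim₁.symm
      rwa [h10] at h9
    obtain ⟨c', hc'⟩ := mem_of_norm_one hF ((θ : AdjoinRoot (minpoly K (s₁ : Module.End K W₁))) ^ (MM q n / Nat.gcd n (q + 1))) (by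
      rw [← pow_mul, hMM1, pow_mul, ← Units.val_pow_eq_pow_val, hθM, Units.val_one, one_pow])
    have hc'1 : c' ^ (q + 1) = 1 := by
      apply (algebraMap K (AdjoinRoot (minpoly K (s₁ : Module.End K W₁)))).injective
      rw [map_pow, ← hc', ← pow_mul, hMM1, pow_mul, ← Units.val_pow_eq_pow_val, hθM, Units.val_one, one_pow, map_one]
    have hc'0 : c' ≠ 0 := by
      rintro rfl
      rw [zero_pow (by omega)] at hc'1
      exact zero_ne_one hc'1
    rw [projOrder_dvd_iff]
    refine ⟨c', ?_⟩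
    have hcinv : ((Units.mk0 c' hc'0)⁻¹ : Kˣ) ^ (q + 1) = 1 := by
      rw [inv_pow, inv_eq_one]
      apply Units.ext
      rw [Units.val_pow_eq_pow_val]
      exact hc'1
    have hci : f.Isom (scalarUnit V (Units.mk0 c' hc'0)⁻¹) := by
      apply isom_scalarUnit
      rw [bar_apply, ← pow_succ', ← Units.val_pow_eq_pow_val, hcinv]; rfl
    have hone := hpair.eq_one hndr hnd (u := scalarUnit V (Units.mk0 c' hc'0)⁻¹ * s ^ (MM q n / Nat.gcd n (q + 1))) (hci.mul (hsu.pow _)) (by
      intro v hv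
      rw [Units.val_mul]
      show ((scalarUnit V (Units.mk0 c' hc'0)⁻¹ : (Module.End K V)ˣ) : Module.End K V) (((s ^ (MM q n / Nat.gcd n (q + 1)) : (Module.End K V)ˣ) : Module.End K V) v) ∈ W₂
      rw [scalarUnit_apply]
      apply W₂.smul_mem
      rw [Units.val_pow_eq_pow_val, ← res_pow hs₂v _ ⟨v, hv⟩]
      exact Submodule.coe_mem _) (by
      intro v hv
      rw [Units.val_mul]
      show ((scalarUnit V (Units.mk0 c' hc'0)⁻¹ : (Module.End K V)ˣ) : Module.End K V) (((s ^ (MM q n / Nat.gcd n (q + 1)) : (Module.End K V)ˣ) : Module.End K V) v) = v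
      rw [scalarUnit_apply, Units.val_pow_eq_pow_val, ← res_pow hs₁v _ ⟨v, hv⟩, ← hφ, ← map_pow, ← hθ, hc', AlgHom.commutes,
        Module.algebraMap_end_apply, Submodule.coe_smul, smul_smul]
      have : ((((Units.mk0 c' hc'0)⁻¹ : Kˣ)) : K) * c' = 1 := by
        rw [Units.val_inv_eq_inv_val, Units.val_mk0, inv_mul_cancel₀ hc'0]
      rw [this, one_smul])
    rw [mul_eq_one_iff_inv_eq] at hone
    rw [← Units.val_pow_eq_pow_val, ← hone]
    have : (scalarUnit V (Units.mk0 c' hc'0)⁻¹)⁻¹ = scalarUnit V (Units.mk0 c' hc'0) := by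
      unfold scalarUnit
      rw [map_inv, inv_inv]
    rw [this]
    rfl

/-- elements of order divisible by `r` need dimension at least `2 m`, when `m` is the order of `q²` modulo `r` and
`m`-dimensional modules are not self-dual -/
theorem two_mul_le (hF : Fintype.card K = q ^ 2) (r m : ℕ) (hr : r.Prime) 
    (h1 : ∀ d, 0 < d → r ∣ q ^ (2 * d) - 1 → m ∣ d) (h2 : ¬ (Odd m ∧ r ∣ q ^ m + 1)) :
    ∀ (N n : ℕ) (V : Type _) [AddCommGroup V] [Module K V] [Module.Finite K V], finrank K V = n → ∀ (f : SForm K V (bar hF)), f.Sym 1 → f.ND →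
      ∀ (s : (Module.End K V)ˣ), f.Isom s → (N : K) ≠ 0 → (∃ c : K, (s : Module.End K V) ^ N = algebraMap K _ c) → r ∣ orderOf s →
        2 * m ≤ n := by
  intro N n
  induction n using Nat.strong_induction_on with
  | _ n ih =>
    intro V _ _ _ hV f hsym hnd s hs hN hc hrs
    obtain ⟨c, hc⟩ := hc
    by_cases hnt : Nontrivial V
    · have hc0 : c ≠ 0 := by
        rintro rfl
        rw [map_zero, ← Units.val_pow_eq_pow_val] at hc
        exact (s ^ N).ne_zero hc
      have hP : Squarefree (X ^ N - C c : K[X]) := (separable_X_pow_sub_C c hN hc0).squarefree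
      rcases structure_isom (bar_bar hF) (ε := (1 : K)) ⟨map_one _, by ring⟩ hsym hnd s hs _ hP (by simp [hc]) with h | h
      · obtain ⟨W₁, W₂, hW, hW₁, hW₂, horth, hinv⟩ := h
        obtain ⟨hi₁, hi₂⟩ := hinv _ (Commute.refl _)
        obtain ⟨u₁, u₂, hu₁, hu₂, hnd₁, hnd₂, -, hord, -, hv₁, hv₂⟩ := decomp_isom hsym hnd W₁ W₂ hW horth s hs hi₁ hi₂
        have hnt₁ : Nontrivial W₁ := Submodule.nontrivial_iff_ne_bot.mpr hW₁
        have hnt₂ : Nontrivial W₂ := Submodule.nontrivial_iff_ne_bot.mpr hW₂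
        have hp1 : 0 < finrank K W₁ := finrank_pos
        have hp2 : 0 < finrank K W₂ := finrank_pos
        have hsum := Submodule.finrank_add_eq_of_isCompl hW
        rw [H46.Irr.orderOf_prodUnit] at hord
        rw [hord] at hrs
        have h4 : r ∣ orderOf u₁ * orderOf u₂ := hrs.trans (Nat.lcm_dvd_mul _ _)
        have hcc : ∀ (W : Submodule K V) (w : (Module.End K W)ˣ) (hw : ∀ x : W, (((w : Module.End K W) x : W) : V) = (s : Module.End K V) x),
            (w : Module.End K W) ^ N = algebraMap K _ c := by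
          intro W w hw
          ext1 x
          apply Subtype.ext
          rw [res_pow hw, hc]; rfl
        rcases (Nat.Prime.dvd_mul hr).mp h4 with h5 | h5
        · have := ih (finrank K W₁) (by omega) W₁ rfl (f.pull W₁.subtype) (fun v w => hsym _ _) hnd₁ u₁ hu₁ hN ⟨c, hcc W₁ u₁ hv₁⟩ h5
          omega
        · have := ih (finrank K W₂) (by omega) W₂ rfl (f.pull W₂.subtype) (fun v w => hsym _ _) hnd₂ u₂ hu₂ hN ⟨c, hcc W₂ u₂ hv₂⟩ h5
          omega
      · have hpos : 0 < n := by rw [← hV]; exact finrank_pos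
        rcases num_data hF f hsym hnd s hs h with ⟨d, k, hdk, hdo, hsd⟩ | ⟨d, k, hdk, hsd⟩
        · have h5 : r ∣ q ^ d + 1 := hrs.trans (orderOf_dvd_of_pow_eq_one hsd)
          have hd0 : 0 < d := hdo.pos
          have h6 : m ∣ d := by
            apply h1 d hd0
            have : q ^ (2 * d) - 1 = (q ^ d + 1) * (q ^ d - 1) := by
              rw [mul_comm 2 d, pow_mul, ← Nat.sq_sub_sq, one_pow]
            rw [this]
            exact h5.mul_right _
          obtain ⟨j, hj⟩ := h6
          have hj0 : j ≠ 0 := by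
            rintro rfl
            rw [mul_zero] at hj
            omega
          have hj1 : j ≠ 1 := by
            rintro rfl
            rw [mul_one] at hj
            exact h2 ⟨hj ▸ hdo, hj ▸ h5⟩
          have hk0 : 0 < k := by
            rcases Nat.eq_zero_or_pos k with h0 | h0
            · rw [h0, mul_zero] at hdk; omega
            · exact h0
          have h7 : m * 2 ≤ m * j := Nat.mul_le_mul_left m (by omega)
          have h8 : d ≤ d * k := Nat.le_mul_of_pos_right d hk0
          rw [hdk, hV] at h8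
          omega
        · have hd0 : 0 < d := by
            rcases Nat.eq_zero_or_pos d with h0 | h0
            · rw [h0, zero_mul, mul_zero] at hdk; omega
            · exact h0
          have hk0 : 0 < k := by
            rcases Nat.eq_zero_or_pos k with h0 | h0
            · rw [h0, mul_zero, mul_zero] at hdk; omega
            · exact h0
          have h6 : m ∣ d := h1 d hd0 (hrs.trans (orderOf_dvd_of_pow_eq_one hsd))
          have h7 := Nat.le_of_dvd hd0 h6
          have h8 : d ≤ d * k := Nat.le_mul_of_pos_right d hk0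
          omega
    · exfalso
      rw [not_nontrivial_iff_subsingleton] at hnt
      have : s = 1 := Units.ext (Subsingleton.elim _ _)
      rw [this, orderOf_one] at hrs
      exact hr.one_lt.ne' (Nat.dvd_one.mp hrs)

end H46.UTorus
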